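import Cfsg.Statements.S2385
import Cfsg.Agent.Mult.GLss
import Cfsg.Agent.Mult.CR3

set_option autoImplicit false
open Cfsg

namespace Cfsg.Agent.S2385

/-- In the symplectic group `Sp_{2n}(q)`, `q` a power of the prime `p`, the number of conjugacy classes of elements of order prime to `p` is `q^n`. -/
theorem result {F : Type*} [Field F] [Fintype F] {q : ℕ} (hq : Fintype.card F = q) (p : ℕ) [Fact p.Prime] [CharP F p] (n : ℕ) :
    Nat.card {c : ConjClasses ↥(Matrix.symplecticGroup (Fin n) F) //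
      ∃ g : ↥(Matrix.symplecticGroup (Fin n) F), ConjClasses.mk g = c ∧ (orderOf g).Coprime p} = q ^ n := by
  rw [← hq, ← Nat.card_eq_fintype_card]
  match n with
  | 0 => exact Nat.card_eq_one_iff_exists.2 ⟨⟨_, 1, rfl, by simp⟩, fun ⟨_, _, e, _⟩ =>
      Subtype.ext (e.symm.trans (congrArg _ (Subsingleton.elim _ _)))⟩
  | 1 =>
    rw [← Mult.card_ss_SL p 1]
    refine Classical.card_classes_of_inv _ (fun g => ConjClasses.mk (Mult.spOne F g)) _ (fun g h _ _ => ?_) fun c =>
      ⟨fun ⟨g, e, h⟩ => ⟨(Mult.spOne F).symm g, by simpa using h, by simpa using e⟩,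
        fun ⟨g, h, e⟩ => ⟨_, e, by simpa using h⟩⟩
    rw [ConjClasses.mk_eq_mk_iff_isConj]
    exact ⟨(Mult.spOne F).toMonoidHom.map_isConj, fun e => by simpa using (Mult.spOne F).symm.toMonoidHom.map_isConj e⟩
  | l + 2 => exact (Mult.spFull (l := l + 2) (by omega) F).card_reg p (Mult.sp_tor_injective _ _ _)

end Cfsg.Agent.S2385
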