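import Cfsg.Statements.S1565
import Cfsg.Agent.Golay.Orbs

set_option autoImplicit false
open scoped Pointwise
open Cfsg

namespace Cfsg.Agent.S1565

/-- The stabiliser of an octad is a maximal proper subgroup of the group of the length-24 code. -/
theorem result (o : Finset Cfsg.GolayPt) (ho : o ∈ Cfsg.octads) : IsCoatom (MulAction.stabilizer Cfsg.M24 o) := by
  obtain ⟨g, rfl⟩ := Golay.octad_transM Golay.oct0_mem ho
  exact Comp.isCoatom_stabilizer_smul (Golay.os_Oct_oct.isCoatom (N := 759) (Golay.orbit_octad Golay.oct0_mem)
    Golay.ncard_octads_eq (by norm_num) (by decide) rfl (by decide) (by decide +kernel)) g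

end Cfsg.Agent.S1565
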