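import Cfsg.Statements.S3762
import Cfsg.Agent.PGrp.Sympl

set_option autoImplicit false
open Cfsg

namespace Cfsg.Agent.S3762

open Cfsg.Agent.PGrp Subgroup

/-- Let G be a finite p-group of symplectic type: every characteristic abelian subgroup of G is cyclic. Then G = E ∗ R is a central product of subgroups E and R (they commute elementwise and generate G) where E is extraspecial or trivial, and R is cyclic, or p = 2 and R is dihedral, semidihedral or generalized quaternion of order at least 16. -/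
theorem result {G : Type*} [Group G] [Finite G] {p : ℕ} [Fact p.Prime] (hG : IsPGroup p G) (hsymp : ∀ A : Subgroup G, A.Characteristic → IsMulCommutative A → IsCyclic A) : ∃ E R : Subgroup G, (∀ e ∈ E, ∀ r ∈ R, e * r = r * e) ∧ E ⊔ R = ⊤ ∧ (E = ⊥ ∨ Cfsg.IsExtraspecial p ↥E) ∧ (IsCyclic R ∨ (p = 2 ∧ 16 ≤ Nat.card R ∧ ((∃ m : ℕ, Nonempty (↥R ≃* DihedralGroup m)) ∨ (∃ m : ℕ, Nonempty (↥R ≃* QuaternionGroup m)) ∨ Cfsg.IsQuasiDihedral ↥R))) := by
  obtain ⟨E, R, h1, h2, h3, h4⟩ := hall_symplectic hG hsymp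
  refine ⟨E, R, fun e he r hr => h1 hr e he, h2, h3, h4.imp id fun ⟨h5, h6, a, x, n, h⟩ => ⟨h5, h6, ?_⟩⟩
  rcases h.dqs_cases with e | e | e
  exacts [.inl ⟨_, e⟩, .inr (.inl ⟨_, e⟩), .inr (.inr e)]

end Cfsg.Agent.S3762
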