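import Cfsg.Statements.S4958
import Cfsg.Agent.Isa.J6

set_option autoImplicit false
open Cfsg

namespace Cfsg.Agent.S4958

open Cfsg.Agent.PF Cfsg.Agent.PF.CH Cfsg.Agent.BG

open scoped Cfsg.Agent.BG _root_.Classical commutatorElement

/-- Let X be a finite group and V a normal subgroup of X in which every element has order dividing the prime p, whose index in X is prime to p and which is its own centralizer in X; so V is an elementary abelian normal Sylow p-subgroup, and any complement G to V in X is a group of order prime to p acting faithfully on the vector space V by conjugation (the coprime linear setting of the k(GV) problem). Let G be a complement to V in X and suppose that for some v in V the centralizer of v in G is abelian. Then the number of conjugacy classes of X is at most the order of V (the abelian-stabilizer criterion for the k(GV) problem). -/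
theorem result {X : Type*} [Group X] [Finite X] (p : ℕ) [Fact p.Prime] (V : Subgroup X) [V.Normal] (hVexp : ∀ v ∈ V, v ^ p = 1) (hidx : ¬ p ∣ V.index) (hself : Subgroup.centralizer (V : Set X) = V) (G : Subgroup X) (hGV : Subgroup.IsComplement' V G) (v : X) (hv : v ∈ V) (hab : ∀ a ∈ G ⊓ Subgroup.centralizer ({v} : Set X), ∀ b ∈ G ⊓ Subgroup.centralizer ({v} : Set X), a * b = b * a) : Nat.card (ConjClasses X) ≤ Nat.card V := by
  refine kgv hVexp hidx hself hGV hv fun M _ h1 h2 h3 => ?_
  have h4 : G ⊓ C1[v] ≤ N[V] := le_top.trans (normal_top V).norm
  refine Kn.greedy h1.abelian h4 (pnat_coprime h1.pg.pi (pgroupS inf_le_left h2))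
    (le_bot_iff.1 (h3 ▸ inf_le_inf_right _ inf_le_left)) fun N hN e => ?_
  obtain ⟨W, a1, a2⟩ := minnormal_exists e (normsR h4 hN.norm)
  exact ⟨W, a2, a1.ne, a1.norm, Kn.abelian (abelian_iff.2 fun a ha b hb => hab b hb a ha) a1
    (pgroupS (a2.trans (commg_subl (hN.le.trans h4))) h1.pg.pi)⟩

end Cfsg.Agent.S4958
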