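import Cfsg.Statements.S3493
import Cfsg.Agent.Loc.Ons
import Cfsg.Agent.FG.ExtPrim
import Cfsg.Agent.Gen.ThompsonNil
import Cfsg.Agent.FTC.Aniso
import Cfsg.Agent.Invol.Dihedral

set_option autoImplicit false
open Cfsg

namespace Cfsg.Agent.S3493

section helpers
open Cfsg.Agent.Loc Subgroup
open scoped commutatorElement

open MulAction Cfsg.Agent.Sig
variable {G Ω : Type*} [Group G] [MulAction G Ω]

theorem ep_max {α ω : Ω} (hep : IsPreprimitive (stabilizer G α) (orbit (stabilizer G α) ω)) {M : Subgroup G}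
    (h1 : stabilizer G α ⊓ stabilizer G ω ≤ M) (h2 : M ≤ stabilizer G α) :
    M = stabilizer G α ⊓ stabilizer G ω ∨ M = stabilizer G α := by
  by_cases h : stabilizer G α ≤ stabilizer G ω
  · exact .inr (le_antisymm h2 ((le_inf le_rfl h).trans h1))
  obtain ⟨g, hg, hg'⟩ := SetLike.not_le_iff_exists.1 h
  have : Nontrivial (orbit (stabilizer G α) ω) :=
    ⟨⟨⟨_, ⟨g, hg⟩, rfl⟩, ⟨ω, mem_orbit_self _⟩, fun e => hg' (congrArg Subtype.val e)⟩⟩
  have c := IsPreprimitive.isCoatom_stabilizer_of_isPreprimitive (stabilizer G α)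
    (⟨ω, mem_orbit_self _⟩ : orbit (stabilizer G α) ω)
  rcases c.le_iff.1 (show _ ≤ M.subgroupOf (stabilizer G α) from fun x hx =>
    h1 ⟨x.2, congrArg Subtype.val hx⟩) with e | e
  · exact .inr (le_antisymm h2 (subgroupOf_eq_top.1 e))
  · exact .inl (le_antisymm (fun x hx => ⟨h2 hx, congrArg Subtype.val (e.le (show (⟨x, h2 hx⟩ : stabilizer G α) ∈
      M.subgroupOf _ from hx))⟩) h1)

theorem exists_invols [Finite G] {T : Subgroup G} (hF : fitIn (⊤ : Subgroup G) = ⊥) (hT : CompIn T ⊤) :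
    ∃ s ∈ T, ∃ t ∈ T, s * s = 1 ∧ t * t = 1 ∧ ¬ Commute s t := by
  by_contra hcon
  push Not at hcon
  have ev : 2 ∣ Nat.card T := by
    by_contra h
    exact qs_not_isSolvable hT.qs (FTC.solvable_of_odd (Nat.odd_iff.2 (by omega)))
  obtain ⟨s, hs⟩ := exists_prime_orderOf_dvd_card' 2 ev
  have os : orderOf (s : G) = 2 := by rw [orderOf_coe, hs]
  have s2 := Invol.mul_self_of os
  set W := closure {t : G | t ∈ T ∧ t * t = 1}
  rcases comp_normal hF hT (K := W) ((closure_le _).2 fun t ht => ht.1) (le_normalizer_of_cj_le fun g hg => by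
    rw [cj_closure]
    refine closure_mono ?_
    rintro _ ⟨t, ht, rfl⟩
    exact ⟨T.mul_mem (T.mul_mem hg ht.1) (T.inv_mem hg), by
      calc _ = g * (t * t) * g⁻¹ := by group
        _ = 1 := by rw [ht.2]; group⟩) with h | h
  · refine Invol.ne_one_of os (comp_center hF hT s.2 fun t ht => ?_)
    have : W ≤ centralizer ({(s : G)} : Set G) := (closure_le _).2 fun t ht =>
      mem_centralizer_singleton_iff.2 (hcon t ht.1 s s.2 ht.2 s2)
    exact mem_centralizer_singleton_iff.1 (this (h.ge ht))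
  · exact Invol.ne_one_of os (mem_bot.1 (h.le (subset_closure ⟨s.2, s2⟩)))

end helpers

/-- An extremely primitive permutation group is of affine type or almost simple. Let a finite group G act faithfully and primitively on a finite set Ω with at least two points, in such a way that every point stabilizer acts primitively on each of its own orbits in Ω (an orbit of size one counts as primitive). Then either G has a non-trivial abelian normal subgroup whose elements other than the identity fix no point (affine type), or G has a non-abelian simple normal subgroup with trivial centralizer (almost simple). -/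
theorem result {G : Type*} [Group G] [Finite G] {Ω : Type*} [Fintype Ω] [MulAction G Ω] [FaithfulSMul G Ω] (hΩ : 2 ≤ Fintype.card Ω) (hprim : MulAction.IsPreprimitive G Ω) (hep : ∀ (α : Ω) (ω : Ω), MulAction.IsPreprimitive (MulAction.stabilizer G α) (MulAction.orbit (MulAction.stabilizer G α) ω)) :
    (∃ N : Subgroup G, N.Normal ∧ N ≠ ⊥ ∧ IsMulCommutative N ∧ ∀ ω : Ω, MulAction.stabilizer N ω = ⊥) ∨ (∃ T : Subgroup G, T.Normal ∧ IsSimpleGroup T ∧ ¬ IsMulCommutative T ∧ Subgroup.centralizer (T : Set G) = ⊥) := by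
  open Cfsg.Agent.Loc Subgroup in
  open scoped commutatorElement in
  open MulAction Cfsg.Agent.Sig in
  open scoped Pointwise in
  have : Nontrivial Ω := Fintype.one_lt_card_iff_nontrivial.1 hΩ
  obtain ⟨α⟩ : Nonempty Ω := inferInstance
  rcases prim_tri (G := G) (Ω := Ω) with ⟨N, r, -, nN, h0, ⟨hc, -⟩, -, hr⟩ | h1 | ⟨hF, T, U, hT, hU, hne⟩
  · exact .inl ⟨N, nN, h0, hc, hr⟩
  · exact .inr h1
  exfalso
  set E := Sig.layerIn (⊤ : Subgroup G) with hE
  set H := MulAction.stabilizer G α with hH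
  have tE := layer_trans (Ω := Ω) hT
  have nrm : ∀ K : Subgroup G, E ≤ normalizer (K : Set G) → H ≤ normalizer (K : Set G) → K.Normal := fun K h1 h2 =>
    normal_of_top_le_normalizer fun g _ => by
      obtain ⟨⟨e, he⟩, h⟩ := tE.exists_smul_eq α (g • α)
      have : e⁻¹ * g ∈ H := by rw [MulAction.mem_stabilizer_iff, mul_smul, inv_smul_eq_iff]; exact h.symm
      simpa using mul_mem (h1 he) (h2 this)
  have dec : ∀ N : Subgroup G, N.Normal → N ≠ ⊥ → ∀ g : G, ∃ n ∈ N, n⁻¹ * g ∈ H := fun N _ h0 g => by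
    obtain ⟨⟨n, hn⟩, h⟩ := (Perm.isPretransitive_of_normal (α := Ω) N h0).exists_smul_eq α (g • α)
    exact ⟨n, hn, by rw [MulAction.mem_stabilizer_iff, mul_smul, inv_smul_eq_iff]; exact h.symm⟩
  by_cases hR : E ⊓ H = ⊥
  · have cH : ∀ x ∈ E, H ⊓ MulAction.stabilizer G (x • α) = H ⊓ centralizer {x} := fun x hx => by
      ext h
      simp only [mem_inf, and_congr_right_iff, mem_centralizer_singleton_iff]
      intro hh
      have e : h • x • α = x • α ↔ x⁻¹ * (h * x * h⁻¹) ∈ H := by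
        rw [MulAction.mem_stabilizer_iff, mul_smul, mul_smul, mul_smul, inv_smul_eq_iff,
          show h⁻¹ • α = α from H.inv_mem hh]
      rw [MulAction.mem_stabilizer_iff, e]
      refine ⟨fun h1 => ?_, fun h1 => by rw [h1, mul_inv_cancel_right, inv_mul_cancel]; exact one_mem _⟩
      have := mem_bot.1 (hR.le ⟨E.mul_mem (E.inv_mem hx) (layerIn_top_normal.conj_mem _ hx h), h1⟩)
      rw [inv_mul_eq_one, eq_mul_inv_iff_mul_eq] at this
      exact this.symm
    have mx : ∀ x ∈ E, ∀ M : Subgroup G, H ⊓ centralizer {x} ≤ M → M ≤ H → M = H ⊓ centralizer {x} ∨ M = H :=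
      fun x hx M h1 h2 => by rw [← cH x hx] at h1 ⊢; exact ep_max (hep α _) h1 h2
    have nH : ∀ T U : Subgroup G, Sig.CompIn T ⊤ → Sig.CompIn U ⊤ → T ≠ U → H ⊓ normalizer (T : Set G) ≠ H :=
      fun T U hT hU hne e => by
        have := nrm T hT.layerIn_le_normalizer (e.ge.trans inf_le_right)
        refine hne (hU.eq_of_le hT fun u hu => ?_).symm
        obtain ⟨n, hn, h⟩ := dec T this hT.ne_bot u
        have := mem_bot.1 (hR.le ⟨E.mul_mem (E.inv_mem (hT.le_layerIn hn)) (hU.le_layerIn hu), h⟩)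
        rwa [← inv_mul_eq_one.1 this]
    have cN : ∀ T U : Subgroup G, Sig.CompIn T ⊤ → Sig.CompIn U ⊤ → T ≠ U → ∀ x ∈ T, x ≠ 1 →
        H ⊓ normalizer (T : Set G) = H ⊓ centralizer {x} := fun T U hT hU hne x hx x1 =>
      (mx x (hT.le_layerIn hx) _ (inf_le_inf_left _ fun g hg => mem_normalizer_iff_cj.2 (comp_eq_of_mem hF
        (comp_cj hT g) hT (by
          have := conj_mem_cj (g := g) hx
          rwa [mem_centralizer_singleton_iff.1 hg, mul_inv_cancel_right] at this) hx x1)) inf_le_left).resolve_right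
        (nH T U hT hU hne)
    have eN : ∀ U : Subgroup G, Sig.CompIn U ⊤ → H ⊓ normalizer (T : Set G) ≤ centralizer (U : Set G) := by
      have k : ∀ T U : Subgroup G, Sig.CompIn T ⊤ → Sig.CompIn U ⊤ → T ≠ U →
          H ⊓ normalizer (T : Set G) ≤ centralizer (T : Set G) := fun T U hT hU hne g hg x hx => by
        by_cases x1 : x = 1
        · simp [x1]
        · exact (mem_centralizer_singleton_iff.1 ((cN T U hT hU hne x hx x1).le hg).2).symm
      intro V hV
      by_cases e : T = V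
      · exact e ▸ k T U hT hU hne
      obtain ⟨x, hx, y, hy, x1, y1, hxy⟩ : ∃ x ∈ T, ∃ y ∈ V, x ≠ 1 ∧ y ≠ 1 ∧ orderOf x ≠ orderOf y := by
        obtain ⟨p, -, -, hp, -, -, -, -, -, ⟨x, hx, ox⟩, -⟩ := exists_three_primes (Sig.qs_not_isSolvable hT.qs)
        obtain ⟨q, r, -, hq, hr, -, h1, -, -, ⟨y, hy, oy⟩, ⟨z, hz, oz⟩, -⟩ :=
          exists_three_primes (Sig.qs_not_isSolvable hV.qs)
        have n1 : ∀ {x : G} {p : ℕ}, p.Prime → orderOf x = p → x ≠ 1 := fun hp h e =>
          hp.ne_one (by rw [← h, e, orderOf_one])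
        by_cases e : p = q
        · exact ⟨x, hx, z, hz, n1 hp ox, n1 hr oz, by rw [ox, oz, e]; exact h1⟩
        · exact ⟨x, hx, y, hy, n1 hp ox, n1 hq oy, by rwa [ox, oy]⟩
      have m := E.mul_mem (hT.le_layerIn hx) (hV.le_layerIn hy)
      have k2 : ∀ g ∈ centralizer {x * y}, g ∈ centralizer {x} ∧ g ∈ centralizer {y} := fun g hg => by
        rcases conj_pair hF hT hV e hx hy hx hy x1 (mul_inv_eq_iff_eq_mul.2 (mem_centralizer_singleton_iff.1 hg))
          with ⟨e1, e2⟩ | ⟨e1, -⟩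
        · exact ⟨mem_centralizer_singleton_iff.2 (mul_inv_eq_iff_eq_mul.1 e1),
            mem_centralizer_singleton_iff.2 (mul_inv_eq_iff_eq_mul.1 e2)⟩
        · exact absurd (by rw [← e1]; exact ((MulAut.conj g).orderOf_eq x).symm) hxy
      have e1 := (mx _ m (H ⊓ normalizer (T : Set G)) (by
        rw [cN T V hT hV e x hx x1]; exact inf_le_inf_left _ fun g hg => (k2 g hg).1) inf_le_left).resolve_right
        (nH T V hT hV e)
      have e2 := (mx _ m (H ⊓ normalizer (V : Set G)) (by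
        rw [cN V T hV hT (Ne.symm e) y hy y1]; exact inf_le_inf_left _ fun g hg => (k2 g hg).2)
        inf_le_left).resolve_right (nH V T hV hT (Ne.symm e))
      rw [e1, ← e2]
      exact k V T hV hT (Ne.symm e)
    have e0 : H ⊓ normalizer (T : Set G) = ⊥ := eq_bot_iff.2 fun g hg => Perm.eq_one_of_commute tE
      (fun e he => (mem_centralizer_singleton_iff.1 (Sig.layerIn_le_iff.2 (fun U hU u hu =>
        mem_centralizer_singleton_iff.2 (eN U hU hg u hu)) he))) hg.1
    have H0 : H ≠ ⊥ := fun e => nH T U hT hU hne (e0.trans e.symm)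
    obtain ⟨⟨x, hx⟩, x1⟩ := ne_bot_iff_exists_ne_one.1 hT.ne_bot
    have x1 : x ≠ 1 := fun e => x1 (Subtype.ext e)
    have := Gen.semiregular_nil (K := E) (R := H) le_normalizer_of_normal H0 fun h hh h1 => eq_bot_iff.2 fun z hz => by
      by_contra z1
      rcases mx x (hT.le_layerIn hx) (H ⊓ centralizer {z}) (by rw [← cN T U hT hU hne x hx x1, e0]; exact bot_le)
        inf_le_left with e | e
      · rw [← cN T U hT hU hne x hx x1, e0] at e
        exact h1 (mem_bot.1 (e.le ⟨hh, mem_centralizer_singleton_iff.2 (mem_centralizer_singleton_iff.1 hz.2).symm⟩))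
      have c := MulAction.IsPreprimitive.isCoatom_stabilizer_of_isPreprimitive G α
      have zN : z ∈ normalizer (H : Set G) := le_normalizer_of_le_centralizer le_rfl fun k hk =>
        mem_centralizer_singleton_iff.1 (e.ge hk).2
      rcases c.le_iff.1 (le_normalizer (H := H)) with e' | e'
      · have := normal_of_top_le_normalizer e'.ge
        obtain ⟨a, ha⟩ := exists_ne α
        obtain ⟨⟨k, hk⟩, e⟩ := (Perm.isPretransitive_of_normal (α := Ω) H H0).exists_smul_eq α a
        exact ha (e.symm.trans hk)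
      · exact z1 (hR.le ⟨hz.1, e'.le zN⟩)
    have : Group.IsSolvable E := inferInstance
    exact Sig.qs_not_le_solvable hT.qs this hT.le_layerIn
  have nR : H ≤ normalizer ((E ⊓ H : Subgroup G) : Set G) := le_normalizer_inf le_normalizer_of_normal le_normalizer
  have nT : E ≤ normalizer (T : Set G) := hT.layerIn_le_normalizer
  have key : T ≤ (E ⊓ H) ⊔ (E ⊓ centralizer (T : Set G)) := fun n hn => by
    by_cases hHT : H ≤ normalizer (T : Set G)
    · have := nrm T nT hHT
      obtain ⟨c, hc, h⟩ := dec (E ⊓ centralizer (T : Set G)) inferInstance (fun e => hU.ne_bot (le_bot_iff.1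
        (e ▸ le_inf hU.le_layerIn (comp_cent hT hU hne)))) n
      rw [← mul_inv_cancel_left c n]
      exact mul_mem (mem_sup_right hc) (mem_sup_left ⟨E.mul_mem (E.inv_mem hc.1) (hT.le_layerIn hn), h⟩)
    obtain ⟨h, hh, hn'⟩ := SetLike.not_le_iff_exists.1 hHT
    have m := conj_mem_cj (g := h) hn
    have m1 := (comp_cj hT h).le_layerIn m
    have m2 := comp_cent hT (comp_cj hT h) (fun e => hn' (mem_normalizer_iff_cj.2 e.symm)) m
    obtain ⟨⟨r, hr⟩, e⟩ := (FG.ep_orbit_eq (hep α) hR inf_le_right nR (n • α)).ge ⟨⟨h, hh⟩, rfl⟩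
    have e' : r • n • α = h • n • α := e
    have m3 : (h * n * h⁻¹)⁻¹ * (r * n) ∈ E ⊓ H := ⟨E.mul_mem (E.inv_mem m1) (E.mul_mem hr.1 (hT.le_layerIn hn)), by
      change _ • α = α
      rw [mul_smul, inv_smul_eq_iff, mul_smul, mul_smul, mul_smul, show h⁻¹ • α = α from H.inv_mem hh, e']⟩
    rw [show n = r⁻¹ * (h * n * h⁻¹) * ((h * n * h⁻¹)⁻¹ * (r * n)) by group]
    exact mul_mem (mul_mem (mem_sup_left (inv_mem hr)) (mem_sup_right ⟨m1, m2⟩)) (mem_sup_left m3)
  have sr := fun x hx => comp_semireg (x := x) hF hT α key hx α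
  have act : ∀ t ∈ T, ∃ r ∈ E ⊓ H, ∀ x ∈ T, r * x * r⁻¹ = t * x * t⁻¹ := fun t ht => by
    obtain ⟨r, hr, c, hc, rfl⟩ := (mem_sup_of_le_normalizer_right (inf_le_left.trans (le_normalizer_inf le_normalizer
      (le_normalizer_centralizer nT)))).1 (key ht)
    exact ⟨r, hr, fun x hx => by rw [mul_assoc r c, ← hc.2 x hx]; group⟩
  have inj : ∀ x ∈ T, ∀ y ∈ T, x • α = y • α → x = y := fun x hx y hy e =>
    (inv_mul_eq_one.1 (sr _ (T.mul_mem (T.inv_mem hy) hx) (by rw [mul_smul, inv_smul_eq_iff, e]))).symm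
  have mv : ∀ r ∈ H, ∀ x : G, r • x • α = (r * x * r⁻¹) • α := fun r hr x => by
    rw [mul_smul, mul_smul, show r⁻¹ • α = α from H.inv_mem hr]
  obtain ⟨s, hs, t, ht, s2, t2, hst⟩ := exists_invols hF hT
  have hx : s * t ∈ T := T.mul_mem hs ht
  set x := s * t with hxe
  have si : s⁻¹ = s := inv_eq_of_mul_eq_one_right s2
  have xi : s * x * s⁻¹ = x⁻¹ := by
    rw [hxe, ← mul_assoc, s2, one_mul, mul_inv_rev, inv_eq_of_mul_eq_one_right t2]
  have xx : x⁻¹ ≠ x := fun e => hst (by
    rw [hxe, mul_inv_rev, si, inv_eq_of_mul_eq_one_right t2] at e; exact e.symm)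
  have x1 : x ≠ 1 := fun e => xx (by rw [e, inv_one])
  set M : Subgroup G := H ⊓ MulAction.stabilizer G ({x • α, x⁻¹ • α} : Set Ω) with hM
  have mM : ∀ g ∈ H, (g • x • α = x • α ∧ g • x⁻¹ • α = x⁻¹ • α) ∨ (g • x • α = x⁻¹ • α ∧ g • x⁻¹ • α = x • α) →
      g ∈ M := fun g hg h => ⟨hg, by
    change g • ({x • α, x⁻¹ • α} : Set Ω) = _
    rw [Set.smul_set_insert, Set.smul_set_singleton]
    rcases h with ⟨h1, h2⟩ | ⟨h1, h2⟩
    · rw [h1, h2]
    · rw [h1, h2, Set.pair_comm]⟩
  rcases ep_max (hep α (x • α)) (M := M) (fun g hg => mM g hg.1 (.inl ⟨hg.2, by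
    have hg2 : g • x • α = x • α := hg.2
    rw [mv g hg.1] at hg2 ⊢
    have c : Commute x (g * x * g⁻¹) := by
      by_cases e : T = cj g T
      · rw [inj _ (e.ge (conj_mem_cj hx)) _ hx hg2]
      · exact comp_cent hT (comp_cj hT g) e (conj_mem_cj hx) x hx
    rw [show g * x⁻¹ * g⁻¹ = (g * x * g⁻¹)⁻¹ by group, inv_smul_eq_iff, ← mul_smul, c.symm.inv_right.eq, mul_smul,
      hg2, inv_smul_smul]⟩)) inf_le_left with e | e
  · obtain ⟨r, hr, h⟩ := act s hs
    have e1 : r • x • α = x⁻¹ • α := by rw [mv r hr.2, h x hx, xi]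
    have := (e.le (mM r hr.2 (.inr ⟨e1, by
      rw [mv r hr.2, h _ (T.inv_mem hx), show s * x⁻¹ * s⁻¹ = (s * x * s⁻¹)⁻¹ by group, xi, inv_inv]⟩))).2
    exact xx (inj _ (T.inv_mem hx) _ hx (e1.symm.trans this))
  rcases comp_normal hF hT (K := zpowers x) (zpowers_le.2 hx) (le_normalizer_of_cj_le fun u hu => by
    obtain ⟨r, hr, h⟩ := act u hu
    have h1 : r • ({x • α, x⁻¹ • α} : Set Ω) = _ := (e.ge hr.2).2
    have h2 : r • x • α ∈ ({x • α, x⁻¹ • α} : Set Ω) := h1 ▸ Set.smul_mem_smul_set (by simp)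
    have m : u * x * u⁻¹ ∈ T := T.mul_mem (T.mul_mem hu hx) (T.inv_mem hu)
    rw [mv r hr.2, h x hx] at h2
    rw [cj_zpowers, zpowers_le]
    rcases h2 with h2 | h2
    · rw [inj _ m _ hx h2]; exact mem_zpowers x
    · rw [inj _ m _ (T.inv_mem hx) h2]; exact inv_mem (mem_zpowers x)) with h | h
  · exact Sig.qs_not_isMulCommutative hT.qs (h ▸ inferInstance)
  · exact x1 (zpowers_eq_bot.1 h)

end Cfsg.Agent.S3493
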