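import Cfsg.Statements.S4038
import Cfsg.Agent.Small.Cl2
import Cfsg.Agent.Transfer.Hol
import Cfsg.Agent.Transfer.Hall
import Cfsg.Agent.S0117
import Cfsg.Agent.S0205
import Cfsg.Agent.PLocal.Thompson
import Cfsg.Agent.SE.Odd
import Cfsg.Agent.Solv.Basic
import Cfsg.Agent.FG.Basic

set_option autoImplicit false
open Cfsg

namespace Cfsg.Agent.S4038

open Subgroup Cfsg.Agent.BG Cfsg.Agent.Transfer Cfsg.Agent.Small

universe u

theorem zj {G : Type*} [Group G] [Finite G] {p : ℕ} [Fact p.Prime] (h2 : p ≠ 2) {K P : Subgroup G}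
    (hP : SylowIn p P K) (h : HasNormalPComplement p (K ⊓ N[centerThompsonOf p P] : Subgroup G)) :
    HasNormalPComplement p K := by
  obtain ⟨S, rfl⟩ := sylow_of_sylowIn hP
  refine (S0117.result h2 S).2 ?_
  rw [← PLocal.map_ZJ (by simp)] at h
  have e : N[centerThompsonOf p (S : Subgroup K)] =
      (K ⊓ N[(centerThompsonOf p (S : Subgroup K)).map K.subtype]).subgroupOf K := by
    rw [Subgroup.inf_subgroupOf_left,
      Subgroup.subgroupOf_normalizer_eq (Subgroup.map_subtype_le _), Subgroup.subgroupOf,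
      Subgroup.comap_map_eq_self_of_injective K.subtype_injective]
  rw [e]
  exact hasNormalPComplement_of_mulEquiv h (subgroupOfEquivOfLe inf_le_left).symm

theorem amb {G : Type u} [Group G] [Finite G] {K A M : Subgroup G} (nK : A ≤ N[K]) (co : (#K).Coprime #A)
    (odd : Odd #A) (lt : M < K) (nM : A ≤ N[M]) (max : ∀ H, M ≤ H → H < K → A ≤ N[H] → H = M)
    (nil : Group.IsNilpotent M) (cls : ⁅⁅piCoreOf {2} M, piCoreOf {2} M⁆, piCoreOf {2} M⁆ = ⊥) : Group.IsSolvable K := by
  induction hk : #K using Nat.strong_induction_on generalizing G with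
  | _ n ih =>
  subst hk
  by_cases hT : ∃ T ≤ M, T ≠ ⊥ ∧ K ≤ N[T] ∧ A ≤ N[T]
  · obtain ⟨T, TM, T1, KT, AT⟩ := hT
    have nT : T ⊴ K := ⟨TM.trans lt.le, KT⟩
    have nT' : T ⊴ M := nT.subl TM lt.le
    refine series_sol nT (nilpotent_sol (nilpotentS TM nil)) (ih _ (ltn_quotient T1 nT.le) (quotient_norms T nK)
      (coprime_morph _ co) (quotient_odd T odd) ((quotient_proper nT' nT).2 lt) (quotient_norms T nM)
      (fun H h1 h2 h3 => ?_) (quotient_nil T nil) ?_ rfl)
    · rw [← cosetpreK H, max (coquo T H) ((sub_quotient_pre nT'.norm).1 h1) ?_ (norms_cosetpre AT h3)]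
      rwa [← quotient_proper (normal_cosetpre H) nT, cosetpreK]
    · have n2 := (pcore_sub {2} M).trans nT'.norm
      rw [← nilpotent_Hall_pcore (quotient_nil T nil) (quotient_pHall nT'.norm (nilpotent_pcore_Hall {2} nil)),
        ← quotientR n2 n2, ← quotientR ((der_sub _).trans n2) n2, cls, quotient_bot]
  push Not at hT
  have nT : ∀ T ≤ M, T ≠ ⊥ → M ≤ N[T] → A ≤ N[T] → K ⊓ N[T] = M := fun T h1 h2 h3 h4 =>
    max _ (le_inf lt.le h3) (inf_le_left.lt_of_ne fun e => hT T h1 h2 (inf_eq_left.1 e) h4)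
      (normsI nK (norms_norm h4))
  have syl : ∀ p [Fact p.Prime], p ∣ #M → SylowIn p (Op p M) K ∧ Op p M ≠ ⊥ := fun p _ hd => by
    have h1 := nilpotent_pcore_Hall {p} nil
    refine ⟨Sylow_subnorm ?_, Sylow_ne_bot h1 hd⟩
    rwa [nT _ h1.le (Sylow_ne_bot h1 hd) (pcore_normal _ _).norm (norms_pcore _ nM)]
  have hM : IsPiHallOf (primesOf #M) M K := pHall_of_Sylow lt.le (pnat_pi _) fun p hp h =>
    haveI := Fact.mk hp; ⟨_, (syl p h.2).1, pcore_sub _ _⟩
  obtain ⟨N, nN, hN⟩ := exists_normal_complement_of_forall_prime (H := M.subgroupOf K)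
    (by rw [card_subgroupOf lt.le]; exact hM.coprime) fun p hp h1 => by
      haveI := Fact.mk hp
      rw [card_subgroupOf lt.le] at h1
      obtain ⟨h2, h3⟩ := syl p h1
      have nP := (pcore_normal {p} M).norm
      have aP := norms_pcore {p} nM
      by_cases e : p = 2
      · subst e
        refine Cl2.Hy.npc ⟨h2, fun x hx y hy => commG1.1 cls (commutator_mem_commutator hx hy), nK, aP, odd,
          fun T h4 h5 h6 h7 x hx nx ox => ?_⟩
        have oc : ∀ x ∈ M, Odd (orderOf x) → x ∈ C[Op 2 M] := fun x hx ox =>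
          zpowers_le.1 (sub_nilpotent_cent2 nil (zpowers_le.2 hx) (pcore_sub _ _)
            (pnat_coprime' (p_elt_zpowers.2 (pnat_odd.2 ox)) (pcore_pgroup _ _)))
        have MT : M ≤ N[T] := Cl2.le_of_odd (nilpotent_pcore_Hall {2} nil) h6 fun y hy oy =>
          cent_sub T (centS h4 (oc y hy oy))
        exact oc x (nT T (h4.trans (pcore_sub _ _)) h5 MT h7 ▸ mem_inf.2 ⟨hx, nx⟩) ox
      refine zj e h2 ?_
      rw [nT _ ((PLocal.ZJ_le _ _).trans (pcore_sub _ _)) (PLocal.ZJ_ne_bot h2.pg h3)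
        (nP.trans (PLocal.normalizer_le_normalizer_ZJ _ _)) (aP.trans (PLocal.normalizer_le_normalizer_ZJ _ _))]
      exact hasNormalPComplement_of_isNilpotent
  have sd : Sdprod (N.map K.subtype) M K := sdprod_of_card (normal_map_subtype nN) lt.le (by
      rw [← map_subgroupOf_eq_of_le lt.le, ← map_inf _ _ _ K.subtype_injective, hN.disjoint.eq_bot, Subgroup.map_bot])
    (by rw [card_map_subtype, ← card_subgroupOf lt.le, hN.card_mul])
  generalize N.map K.subtype = N at sd
  have hN := compl_pHall sd.compl.symm hM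
  have aN : A ≤ N[N] := normal_Hall_pcore hN sd.normal ▸ norms_pcore _ nK
  refine series_sol sd.normal ?_ (isog_sol sd.isog (nilpotent_sol nil))
  by_cases h0 : N = ⊥
  · exact h0 ▸ solvable_bot
  obtain ⟨q, hq, h1⟩ := exists_prime_dvd_card h0
  haveI := Fact.mk hq
  have := nilpotent_sol nil
  have := SE.sol_of_odd odd
  obtain ⟨Q, h2, h3⟩ := coprime_Sylow_exists q (sup_le sd.norm aN) (Nat.Coprime.coprime_dvd_right
    (card_sup_dvd (.inr nM)) (Nat.Coprime.mul_right (pnat_coprime' hN.pi hM.pi) (coprimeSg sd.lel co)))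
    (.inl (Solv.isSolvable_sup nM))
  have h4 : Q ⊔ M = K := by_contra fun ne => Sylow_ne_bot h2 h1 (eq_bot_iff.2 ((le_inf h2.le (le_sup_left.trans
    (max _ le_sup_right ((sup_le (h2.le.trans sd.lel) lt.le).lt_of_ne ne)
      (normsY (le_sup_right.trans h3) nM)).le)).trans sd.inf.le))
  have h5 := group_modl (.inr (le_sup_left.trans h3)) h2.le
  rw [h4, inf_eq_left.2 sd.lel, sd.inf, sup_bot_eq] at h5
  exact h5 ▸ pgroup_sol h2.pg

/-- Let A and G be finite groups of coprime orders with A acting on G by automorphisms. Suppose G has a proper A-invariant subgroup M, maximal among proper A-invariant subgroups, which is nilpotent and whose Sylow 2-subgroups have nilpotency class at most 2. Then G is solvable. -/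
theorem result {G A : Type*} [Group G] [Finite G]
    [Group A] [Finite A] (φ : A →* MulAut G) (hcop : (Nat.card A).Coprime (Nat.card G))
    (M : Subgroup G) (hMtop : M ≠ ⊤) (hMinv : ∀ a : A, ∀ m : G, m ∈ M → φ a m ∈ M)
    (hMmax : ∀ H : Subgroup G, M ≤ H → H ≠ ⊤ → (∀ a : A, ∀ h : G, h ∈ H → φ a h ∈ H) → H = M)
    (hnil : Group.IsNilpotent M) (h2 : ∀ S : Sylow 2 ↥M, Group.nilpotencyClass ↥(S : Subgroup ↥M) ≤ 2) :
    Group.IsSolvable G := by
  rcases Nat.even_or_odd (Nat.card A) with h0 | h0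
  · refine S0205.result ?_
    by_contra h3
    have := Nat.dvd_gcd h0.two_dvd (Nat.not_odd_iff_even.1 h3).two_dvd
    rw [hcop] at this
    omega
  have inv : ∀ H : Subgroup G, sdR φ ⊤ ≤ N[sdL φ H] ↔ ∀ a : A, ∀ x ∈ H, φ a x ∈ H := fun H => by
    rw [sdR_le_normalizer]; exact ⟨fun h a => h a trivial, fun h a _ => h a⟩
  have inj := SemidirectProduct.inl_injective (φ := φ)
  have iso : ∀ H : Subgroup G, Nonempty (H ≃* sdL φ H) := fun H => isog_map_inj inj H
  have := Fact.mk Nat.prime_two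
  refine isog_sol (isog_symm (isog_trans isog_top (iso ⊤))) (amb (M := sdL φ M) (sdR_le_normalizer_top φ ⊤)
    (by rw [card_sdL, card_sdR, Subgroup.card_top, Subgroup.card_top]; exact hcop.symm)
    (by rwa [card_sdR, Subgroup.card_top])
    (((sdL_le_sdL φ).2 le_top).lt_of_ne fun e => hMtop (sdL_injective φ e)) ((inv M).2 hMinv)
    (fun H h1 h3 h4 => ?_) (isog_nil (iso M) hnil) ?_)
  · obtain ⟨H, rfl⟩ := exists_eq_sdL φ h3.le
    rw [hMmax H ((sdL_le_sdL φ).1 h1) (fun e => h3.ne (by rw [e])) ((inv H).1 h4)]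
  obtain ⟨S, e⟩ := sylow_of_sylowIn (nilpotent_pcore_Hall {2} hnil)
  rw [← nilpotent_Hall_pcore (isog_nil (iso M) hnil) ((pHall_map_inj inj).2 (nilpotent_pcore_Hall {2} hnil)),
    ← map_commutator, ← map_commutator, ← e, ← map_commutator, ← map_commutator, commG1.2, Subgroup.map_bot,
    Subgroup.map_bot]
  have := S.isPGroup'.isNilpotent
  exact commutator_le.2 fun x hx y hy => mem_cent.2 fun z hz => congrArg Subtype.val
    (mem_center_iff.1 (FG.comm_mem_center_of_class2 (h2 S) ⟨x, hx⟩ ⟨y, hy⟩) ⟨z, hz⟩)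

end Cfsg.Agent.S4038
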