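import Cfsg.Statements.S2332
import Cfsg.Agent.GLChar.Min

set_option autoImplicit false
open Cfsg

namespace Cfsg.Agent.S2332

/-- Smallest degree of a non-linear irreducible complex representation of SL_n over a finite field with q elements, for n ≥ 3 and (n, q) not one of (3, 2), (3, 4), (4, 2), (4, 3): every irreducible complex representation of SL_n(F) of degree at least 2 has degree at least (q^n − q)/(q − 1), and there is an irreducible complex representation of exactly that degree. -/
theorem result {F : Type*} [Field F] [Fintype F] [DecidableEq F] (n : ℕ) (hn : 3 ≤ n)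
    (hex : (n, Fintype.card F) ≠ (3, 2) ∧ (n, Fintype.card F) ≠ (3, 4) ∧ (n, Fintype.card F) ≠ (4, 2) ∧ (n, Fintype.card F) ≠ (4, 3)) :
    (∀ (k : ℕ) (ρ : Representation ℂ (Matrix.SpecialLinearGroup (Fin n) F) (Fin k → ℂ)), ρ.IsIrreducible → 2 ≤ k → (Fintype.card F ^ n - Fintype.card F) / (Fintype.card F - 1) ≤ k) ∧
    (∃ ρ : Representation ℂ (Matrix.SpecialLinearGroup (Fin n) F) (Fin ((Fintype.card F ^ n - Fintype.card F) / (Fintype.card F - 1)) → ℂ), ρ.IsIrreducible) := by
  obtain ⟨n, rfl⟩ := Nat.exists_eq_add_of_le' hn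
  have q := Fintype.one_lt_card (α := F)
  have e : (Fintype.card F ^ (n + 3) - Fintype.card F) / (Fintype.card F - 1) = (Fintype.card F ^ (n + 3) - 1) / (Fintype.card F - 1) - 1 := by
    rw [← Nat.sub_mul_div _ _ 1, Nat.mul_one, Nat.sub_sub, Nat.add_sub_cancel' q.le]
  rw [e]
  refine ⟨fun k ρ hρ hk => ?_, ?_⟩
  · have d : ρ.character 1 = k := by simp
    have := GLChar.min_deg n _ (Fintype.card_fin _) ⟨k, ρ, hρ, rfl⟩ (fun h => by rw [h] at d; have : 1 = k := Nat.cast_injective (R := ℂ) (Nat.cast_one.trans d); omega) d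
    rw [← Nat.geomSum_eq q]
    simp only [GLChar.Ex, ne_eq, Prod.mk.injEq] at this hex
    omega
  · obtain ⟨χ, l, h, -, -, d⟩ := GLChar.weil (ι := Fin (n + 3)) (F := F) (by simp)
    obtain ⟨k, ρ, hρ, e⟩ := h l
    have := d l
    rw [← e, Representation.char_one, if_pos rfl, Module.finrank_fin_fun, Fintype.card_fin, Nat.cast_inj] at this
    exact this ▸ ⟨ρ, hρ⟩

end Cfsg.Agent.S2332
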