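import Cfsg.Statements.S2600
import Cfsg.Agent.ChAut.OutD4

set_option autoImplicit false
open Cfsg

namespace Cfsg.Agent.S2600

/-- Outer automorphism group of PSp_4(q) for q = 2^f even: it is cyclic of order 2f, generated by the class of the exceptional (graph-field) automorphism whose square is the Frobenius field automorphism. -/
theorem result {F : Type*} [Field F] [Fintype F] {f : ℕ} (hf : 1 ≤ f) (hF : Fintype.card F = 2 ^ f) : IsCyclic (Cfsg.Out (Cfsg.PSp 2 F)) ∧ Nat.card (Cfsg.Out (Cfsg.PSp 2 F)) = 2 * f := by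
  open Cfsg.Agent.AutCl Cfsg.Agent.ChAut Cfsg.Agent.Chev Cfsg.Lie in
  have := charP_of_card_eq hF
  obtain ⟨e⟩ := equivSp4 F
  have := isCyclic_outB2 hF
  refine ⟨isCyclic_of_surjective _ (outCongr e).surjective, ?_⟩
  rw [← Nat.card_congr (outCongr e).toEquiv, card_out_eq coxBB2, (grB2 F).2, card_zkerB2, card_ringAut hF,
    ringChar.eq F 2, if_pos rfl, Nat.card_eq_fintype_card, hF, Nat.coprime_two_left.2 (Nat.Even.sub_odd
      Nat.one_le_two_pow ((Nat.even_pow' (by omega)).2 even_two) odd_one)]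

end Cfsg.Agent.S2600
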