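import Cfsg.Statements.S3573

set_option autoImplicit false
open Cfsg

namespace Cfsg.Agent.S3573

open Equiv Equiv.Perm

theorem dvd_card {α : Type*} [Fintype α] [DecidableEq α] {r : ℕ} (hr : r.Prime) {σ : Perm α} (hσ : σ ^ r = 1)
    (s : Finset α) (hs : ∀ x, σ x ∈ s ↔ x ∈ s) (hfix : ∀ x ∈ s, σ x ≠ x) : r ∣ s.card := by
  haveI : Fact r.Prime := ⟨hr⟩
  let τ : Perm {x // x ∈ s} := σ.subtypePerm hs
  have h1 : τ ^ r = 1 := by
    ext x; simp [τ, subtypePerm_pow, hσ]
  have h2 := sum_cycleType τ
  rw [cycleType_of_pow_prime_eq_one h1, Multiset.sum_replicate, smul_eq_mul, show τ.support = Finset.univ from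
    Finset.eq_univ_iff_forall.2 fun x => mem_support.2 fun h => hfix x x.2 (congrArg Subtype.val h)] at h2
  simp only [Finset.card_univ, Fintype.card_coe] at h2
  exact Dvd.intro_left _ h2

theorem image_eq_iff {α : Type*} [DecidableEq α] (σ : Perm α) (s : Finset α) :
    s.image σ = s ↔ ∀ x, σ x ∈ s ↔ x ∈ s := by
  constructor
  · intro h x
    conv_lhs => rw [← h]
    exact σ.injective.mem_finset_image
  · intro h
    ext y
    obtain ⟨x, rfl⟩ := σ.surjective y
    rw [σ.injective.mem_finset_image, h]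

theorem ex_inv {α : Type*} [Fintype α] [DecidableEq α] {r : ℕ} (hr : r.Prime) {σ : Perm α} (hσ : σ ^ r = 1) (j : ℕ)
    (hj : j * r ≤ σ.support.card) : ∃ s ⊆ σ.support, s.card = j * r ∧ ∀ x, σ x ∈ s ↔ x ∈ s := by
  haveI : Fact r.Prime := ⟨hr⟩
  induction j with
  | zero => exact ⟨∅, by simp, by simp, by simp⟩
  | succ j ih =>
    obtain ⟨s, h1, h2, h3⟩ := ih (by rw [add_mul] at hj; omega)
    obtain ⟨x, hx, hxs⟩ := Finset.exists_mem_notMem_of_card_lt_card (s := s) (t := σ.support)
      (by rw [add_mul] at hj; have := hr.pos; omega)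
    have hpow : ∀ (k : ℤ) y, (σ ^ k) y ∈ s ↔ y ∈ s := by
      intro k y
      exact ((σ.subtypePerm h3 ^ k).injective |> fun _ => by
        have : ∀ n : ℕ, ∀ y, (σ ^ n) y ∈ s ↔ y ∈ s := by
          intro n; induction n with
          | zero => simp
          | succ n ih => intro y; rw [pow_succ', Perm.mul_apply, h3, ih]
        rcases k with n | n
        · simpa using this n y
        · rw [zpow_negSucc, ← this (n + 1)]; simp)
    have hc : (σ.cycleOf x).support.card = r := by
      refine pow_prime_eq_one_iff.1 hσ _ ?_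
      rw [cycleType_def, Multiset.mem_map]
      exact ⟨_, cycleOf_mem_cycleFactorsFinset_iff.2 hx, rfl⟩
    have hdis : Disjoint s (σ.cycleOf x).support := by
      rw [Finset.disjoint_left]
      intro y hy hy'
      obtain ⟨⟨k, rfl⟩, -⟩ := mem_support_cycleOf_iff.1 hy'
      exact hxs ((hpow k x).1 hy)
    refine ⟨s ∪ (σ.cycleOf x).support, Finset.union_subset h1 (support_cycleOf_le _ _), ?_, fun y => ?_⟩
    · rw [Finset.card_union_of_disjoint hdis, h2, hc]; ring
    · simp only [Finset.mem_union, h3, mem_support_cycleOf_iff, sameCycle_apply_right]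

theorem main (n k r : ℕ) (hkn : k ≤ n) (hr : r.Prime) (hrn : r ≤ n) :
    (∀ σ : Equiv.Perm (Fin n), orderOf σ = r → ∃ s : Finset (Fin n), s.card = k ∧ s.image σ = s) ↔ k % r ≤ n % r := by
  haveI : Fact r.Prime := ⟨hr⟩
  constructor
  · intro h
    obtain ⟨g, hg⟩ := (exists_with_cycleType_iff (Fin n) (m := Multiset.replicate (n / r) r)).2
      ⟨by simp [Nat.div_mul_le_self], fun a ha => by rw [Multiset.eq_of_mem_replicate ha]; exact hr.two_le⟩
    have hk : n / r ≠ 0 := (Nat.div_pos hrn hr.pos).ne'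
    have ho : orderOf g = r := by
      rw [← lcm_cycleType, hg]
      refine Nat.dvd_antisymm (Multiset.lcm_dvd.2 fun b hb => by rw [Multiset.eq_of_mem_replicate hb]) ?_
      exact Multiset.dvd_lcm (Multiset.mem_replicate.2 ⟨hk, rfl⟩)
    have hsup := sum_cycleType g
    rw [hg, Multiset.sum_replicate, smul_eq_mul] at hsup
    obtain ⟨s, hs, hi⟩ := h g ho
    rw [image_eq_iff] at hi
    obtain ⟨j, hj⟩ := dvd_card hr (ho ▸ pow_orderOf_eq_one g) (s ∩ g.support)
      (fun x => by simp only [Finset.mem_inter, hi, apply_mem_support]) (fun x hx => mem_support.1 (Finset.mem_inter.1 hx).2)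
    have h1 := Finset.card_sdiff_add_card_inter s g.support
    have h2 : (s \ g.support).card ≤ (g.supportᶜ).card := Finset.card_le_card fun x hx => by
      simpa using (Finset.mem_sdiff.1 hx).2
    rw [Finset.card_compl, Fintype.card_fin, ← hsup] at h2
    have h3 := Nat.div_add_mod n r
    rw [mul_comm] at h3
    have h4 := Nat.mod_lt n hr.pos
    rw [← hs, ← h1, hj, Nat.add_mul_mod_self_left, Nat.mod_eq_of_lt (by omega)]
    omega
  · intro h σ hσ
    have hσ' : σ ^ r = 1 := hσ ▸ pow_orderOf_eq_one σ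
    obtain ⟨c, hc⟩ := dvd_card hr hσ' σ.support (fun x => apply_mem_support) (fun x hx => mem_support.1 hx)
    have hcn : r * c ≤ n := by rw [← hc]; simpa using Finset.card_le_univ σ.support
    obtain ⟨s, h1, h2, h3⟩ := ex_inv hr hσ' (min c (k / r)) (by
      rw [hc, mul_comm]; exact Nat.mul_le_mul_left _ (min_le_left _ _))
    have h4 : min c (k / r) * r ≤ k := (Nat.mul_le_mul_right _ (min_le_right _ _)).trans (Nat.div_mul_le_self _ _)
    obtain ⟨t, ht, htc⟩ := Finset.exists_subset_card_eq (s := σ.supportᶜ) (n := k - min c (k / r) * r) (by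
      rw [Finset.card_compl, Fintype.card_fin, hc]
      rcases min_cases c (k / r) with ⟨e, _⟩ | ⟨e, _⟩ <;> rw [e]
      · rw [mul_comm]; omega
      · have h5 := Nat.div_add_mod k r
        have h6 := Nat.div_add_mod n r
        have h7 : r * c ≤ r * (n / r) := Nat.mul_le_mul_left _ ((Nat.le_div_iff_mul_le hr.pos).2 (by rwa [mul_comm]))
        rw [mul_comm]; omega)
    have hdis : Disjoint s t := Finset.disjoint_left.2 fun x hx hx' => Finset.mem_compl.1 (ht hx') (h1 hx)
    refine ⟨s ∪ t, by rw [Finset.card_union_of_disjoint hdis, h2, htc]; omega, (image_eq_iff _ _).2 fun x => ?_⟩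
    simp only [Finset.mem_union, h3]
    refine or_congr_right ⟨fun hx => ?_, fun hx => ?_⟩
    · have := notMem_support.1 (Finset.mem_compl.1 (ht hx))
      rwa [σ.injective this] at hx
    · rwa [notMem_support.1 (Finset.mem_compl.1 (ht hx))]

/-- Let 1 ≤ k with 2k < n and consider the symmetric group of degree n acting on the k-subsets of an n-set. Let r be a prime dividing the number C(n,k) of k-subsets. If r is odd, then every permutation of order r fixes some k-subset if and only if r ≤ k and the remainder of k modulo r is at most the remainder of n modulo r. If r = 2, then every involution fixes some k-subset if and only if k is even or n is odd. -/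
theorem result (n k : ℕ) (hk : 1 ≤ k) (hkn : 2 * k < n) (r : ℕ) (hr : r.Prime) (hrd : r ∣ Nat.choose n k) :
    (r ≠ 2 → ((∀ σ : Equiv.Perm (Fin n), orderOf σ = r → ∃ s : Finset (Fin n), s.card = k ∧ s.image σ = s) ↔
      (r ≤ k ∧ k % r ≤ n % r))) ∧
    (r = 2 → ((∀ σ : Equiv.Perm (Fin n), orderOf σ = 2 → ∃ s : Finset (Fin n), s.card = k ∧ s.image σ = s) ↔
      (Even k ∨ Odd n))) := by
  haveI : Fact r.Prime := ⟨hr⟩
  have hdf : ∀ a b : ℕ, b ≤ a → r ∣ a.choose b → r ≤ a := by
    intro a b hab h
    refine hr.dvd_factorial.1 (h.trans ?_)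
    rw [← Nat.choose_mul_factorial_mul_factorial hab, mul_assoc]; exact dvd_mul_right _ _
  have hm := main n k r (by omega) hr (hdf n k (by omega) hrd)
  refine ⟨fun _ => ?_, ?_⟩
  · rw [hm]
    refine ⟨fun h => ⟨?_, h⟩, fun h => h.2⟩
    by_contra hlt
    push Not at hlt
    have h1 := Choose.choose_modEq_choose_mod_mul_choose_div_nat (n := n) (k := k) (p := r)
    rw [Nat.div_eq_of_lt hlt, Nat.choose_zero_right, mul_one] at h1
    have h2 := hdf _ _ h ((h1.dvd_iff (dvd_refl r)).1 hrd)
    exact absurd (Nat.mod_lt n hr.pos) (not_lt.2 h2)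
  · rintro rfl
    rw [hm, Nat.even_iff, Nat.odd_iff]; omega

end Cfsg.Agent.S3573
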