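import Cfsg.Statements.S0119
import Cfsg.Agent.Transfer.Hol

set_option autoImplicit false
open Cfsg

namespace Cfsg.Agent.S0119

open Subgroup
open scoped commutatorElement

/-- If a p'-group A of automorphisms of a p-group G satisfies G = [G, A] and acts trivially on every characteristic abelian subgroup, then G is special with centre equal to the fixed points of A. -/
theorem result {G : Type*} [Group G] [Finite G] {p : ℕ} [Fact p.Prime] (hG : IsPGroup p G) (A : Subgroup (MulAut G)) (hA : Nat.Coprime (Nat.card A) p) (hGA : Subgroup.closure {x : G | ∃ g : G, ∃ a ∈ A, x = g⁻¹ * a g} = ⊤) (hchar : ∀ H : Subgroup G, H.Characteristic → IsMulCommutative H → ∀ a ∈ A, ∀ h ∈ H, a h = h) : Cfsg.IsSpecial p G ∧ (∀ g : G, (g ∈ Subgroup.center G ↔ ∀ a ∈ A, a g = g)) := by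
  classical
  have hK : ⁅Transfer.sdL (MonoidHom.id (MulAut G)) ⊤, Transfer.sdR (MonoidHom.id (MulAut G)) A⁆ =
      Transfer.sdL (MonoidHom.id (MulAut G)) ⊤ := by
    rw [Transfer.commutator_sdL_sdR]
    congr 1
    simpa using hGA
  have h1 : ∀ H : Subgroup G, H.Characteristic → IsMulCommutative H → H ≤ center G := by
    intro H hH hH'
    have := Transfer.le_centralizer_of_commutator_eq hK (N := Transfer.sdL _ H)
      ((map_mono (normalizer_eq_top H).ge).trans (le_normalizer_map _))
      ((Transfer.sdL_le_centralizer_sdR _).2 (hchar H hH hH'))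
    intro x hx
    exact mem_center_iff.2 fun g =>
      ((Transfer.inl_mem_centralizer_sdL _).1 (this (mem_map_of_mem _ (mem_top g))) x hx).symm
  have := hG.isNilpotent
  have h2 : commutator G ≤ center G := by
    by_contra hcon
    obtain ⟨x, hx, hxZ, hc⟩ := PGrp.exists_central_mod hcon
    have e : ⁅Subgroup.upperCentralSeries G 2, (⊤ : Subgroup G)⁆ ≤ centralizer ((⊤ : Subgroup G) : Set G) := by
      rw [coe_top, centralizer_univ, commutator_le, ← Subgroup.upperCentralSeries_one]
      exact fun a ha b _ => Subgroup.mem_upperCentralSeries_succ_iff.1 ha b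
    have h3 : commutator G ≤ centralizer (Subgroup.upperCentralSeries G 2 : Set G) := by
      rw [← commutator_eq_bot_iff_le_centralizer] at e ⊢
      exact commutator_commutator_eq_bot_of_rotate (by rwa [commutator_comm ⊤]) e
    refine hxZ (h1 (commutator G ⊓ Subgroup.upperCentralSeries G 2) inferInstance
      ⟨⟨fun a b => Subtype.ext (h3 b.2.1 a a.2.2)⟩⟩ ⟨hx, ?_⟩)
    rw [← Subgroup.upperCentralSeries_one] at hc
    exact Subgroup.mem_upperCentralSeries_succ_iff.2 hc
  have h3 : ∀ g : G, (∀ a ∈ A, a g = g) → g ∈ commutator G := by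
    intro g hg
    have : Fintype A := Fintype.ofFinite A
    let θ : G →* Abelianization G := MonoidHom.mk' (fun g => ∏ a : A, Abelianization.of (a.1 g))
      (by simp [Finset.prod_mul_distrib])
    have h4 : θ.ker = ⊤ := by
      rw [eq_top_iff, ← hGA, closure_le]
      rintro _ ⟨x, b, hb, rfl⟩
      rw [SetLike.mem_coe, MonoidHom.mem_ker, map_mul, map_inv, inv_mul_eq_one]
      exact (Fintype.prod_equiv (Equiv.mulRight (⟨b, hb⟩ : A)) _ _ fun a => rfl).symm
    have h5 : θ g = 1 := h4.ge (mem_top g)
    have h6 : θ g = Abelianization.of (g ^ Nat.card A) := by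
      rw [map_pow, Nat.card_eq_fintype_card, ← Finset.card_univ, ← Finset.prod_const]
      exact Finset.prod_congr rfl fun a _ => by rw [hg a.1 a.2]
    rw [h6, ← MonoidHom.mem_ker, Abelianization.ker_of] at h5
    obtain ⟨k, hk⟩ := hG g
    have h7 : (orderOf g).Coprime (Nat.card A) :=
      (hA.symm.pow_left k).coprime_dvd_left (orderOf_dvd_of_pow_eq_one hk)
    obtain ⟨m, hm⟩ := exists_pow_eq_self_of_coprime h7.symm
    exact hm ▸ pow_mem h5 m
  have h4 : ∀ g ∈ center G, ∀ a ∈ A, a g = g := fun g hg a ha =>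
    hchar _ inferInstance inferInstance a ha g hg
  have h5 : commutator G = center G := le_antisymm h2 fun g hg => h3 g (h4 g hg)
  have hcc : ∀ x y z : G, Commute ⁅x, y⁆ z := fun x y z =>
    PGrp.commute_of_mem_center (h2 (commutator_mem_commutator trivial trivial)) z
  have h6 : ∀ k : ℕ, (∀ x : G, x ^ p ^ (k + 1) ∈ center G) → ∀ x : G, x ^ p ∈ center G := by
    intro k
    induction k with
    | zero => simp
    | succ k ih =>
      refine fun h => ih fun x => h1 (closure (Set.range fun y : G => y ^ p ^ (k + 1))) ?_ ?_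
        (subset_closure ⟨x, rfl⟩)
      · refine characteristic_iff_le_comap.2 fun φ => (closure_le _).2 ?_
        rintro _ ⟨y, rfl⟩
        exact subset_closure ⟨φ y, (map_pow φ _ _).symm⟩
      · refine isMulCommutative_closure ?_
        rintro _ ⟨y, rfl⟩ _ ⟨z, rfl⟩
        refine commutatorElement_eq_one_iff_mul_comm.1 ?_
        rw [PGrp.commutator_pow_right (hcc _ _ _), ← PGrp.commutator_pow_left (hcc _ _ _),
          commutatorElement_eq_one_iff_commute, ← pow_mul, ← pow_add,
          show k + 1 + (k + 1) = k + 1 + 1 + k by ring, pow_add, pow_mul]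
        exact PGrp.commute_of_mem_center (pow_mem (h y) _) z
  obtain ⟨n, hn⟩ := hG.exists_card_eq
  have h7 := h6 n fun x => by
    rw [pow_succ, pow_mul, ← hn, pow_card_eq_one', one_pow]
    exact one_mem _
  exact ⟨⟨hG, le_antisymm (Solv.frattini_le_of_commutator_le h2 h7)
    (h5.ge.trans Solv.commutator_le_frattini), h5⟩, fun g => ⟨h4 g, fun h => h2 (h3 g h)⟩⟩

end Cfsg.Agent.S0119
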