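import Cfsg.Statements.S0088
import Cfsg.Agent.Transfer.Hall

set_option autoImplicit false
open Cfsg

namespace Cfsg.Agent.S0088

/-- An abelian Hall subgroup meets G' ∩ Z(G) trivially. -/
theorem result {G : Type*} [Group G] [Finite G] (H : Subgroup G) (hc : IsMulCommutative H) (hHall : Nat.Coprime (Nat.card H) H.index) : H ⊓ commutator G ⊓ Subgroup.center G = ⊥ := by
  rw [eq_bot_iff]
  rintro z ⟨⟨h1, h2⟩, h3⟩
  have h4 := Transfer.pow_index_mem_commutator_of_mem_center H h3 h2
  rw [Subgroup.commutator_self_eq_bot_iff.2 hc, Subgroup.mem_bot] at h4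
  exact orderOf_eq_one_iff.1 (Nat.eq_one_of_dvd_coprimes hHall (H.orderOf_dvd_natCard h1)
    (orderOf_dvd_of_pow_eq_one h4))

end Cfsg.Agent.S0088
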