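import Cfsg.Statements.S3864
import Cfsg.Agent.Invol.DihSyl
import Cfsg.Agent.Invol.Transfer
import Mathlib.Tactic.Group

set_option autoImplicit false
open Cfsg

namespace Cfsg.Agent.S3864
open scoped commutatorElement

open Cfsg.Agent.Invol Subgroup

variable {G : Type*} [Group G] [Finite G] {P : Sylow 2 G} {N : ℕ} {r s : ZMod N → G} {h : ZMod N}

theorem invol_cases (D : Dih (P : Subgroup G) r s h) (ε : ZMod N) {t : G} (ht : orderOf t = 2) :
    IsConj (r h) t ∨ IsConj (s ε) t ∨ IsConj (s (ε + 1)) t := by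
  obtain ⟨g, hg⟩ := exists_conj_invol_mem_sylow (mul_self_of ht) P
  have hc : IsConj (g * t * g⁻¹) t := (isConj_conj g t).symm
  have ho : orderOf (g * t * g⁻¹) = 2 := by rw [orderOf_conj', ht]
  obtain ⟨i, e | e⟩ := (D.T.mem _).1 hg
  · rw [e] at hc ho
    exact Or.inl (D.invol_r.1 ho ▸ hc)
  · rw [e] at hc
    have key : ∀ a k, IsConj (s a) (s (a + 2 * k)) := fun a k =>
      isConj_iff.2 ⟨r (-k), by rw [D.T.conj_rs]; congr 1; ring⟩
    obtain ⟨b, hb⟩ | ⟨b, hb⟩ := D.H.par (i - ε)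
    · exact Or.inr (Or.inl ((key ε b).trans (by rwa [show ε + 2 * b = i by linear_combination -hb])))
    · exact Or.inr (Or.inr ((key (ε + 1) b).trans
        (by rwa [show ε + 1 + 2 * b = i by linear_combination -hb])))

theorem exists_index_two (D : Dih (P : Subgroup G) r s h) {ε : ZMod N} (h1 : ¬ IsConj (r h) (s ε)) :
    ∃ H : Subgroup G, H.Normal ∧ H.index = 2 := by
  by_contra hh
  push Not at hh
  obtain ⟨g, -, hg⟩ := thompson_transfer (fun H hH => hh H (normal_of_index_eq_two hH) hH) P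
    D.T.relIndex_zpowers (mul_self_of (D.invol_s ε)) (D.T.s_mem ε)
  obtain ⟨k, hk⟩ := D.T.mem_zpowers_r.1 hg
  have ho : orderOf (r (k * 1)) = 2 := by rw [← hk, orderOf_conj', D.invol_s]
  rw [D.invol_r.1 ho] at hk
  exact h1 (hk ▸ isConj_conj g (s ε)).symm

theorem no_index_four (D : Dih (P : Subgroup G) r s h) (hh : ∃ q, h = 2 * q) {ε : ZMod N}
    (h1 : IsConj (r h) (s ε)) (K : Subgroup G) (hK : K.Normal) : K.index ≠ 4 := by
  intro h4
  have : Fact (Nat.Prime 2) := ⟨Nat.prime_two⟩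
  have hc : Nat.card (G ⧸ K) = 2 ^ 2 := h4
  have hcomm := IsPGroup.isMulCommutative_of_card_eq_prime_sq hc
  have h2 : ∀ k, r (2 * k) ∈ K := fun k => by
    rw [← QuotientGroup.eq_one_iff]
    have e : r (2 * k) = s 0 * (r (-k) * s 0 * (r (-k))⁻¹) := by
      rw [D.T.conj_rs, D.T.ss]; congr 1; ring
    rw [e]
    simp only [QuotientGroup.mk_mul, QuotientGroup.mk_inv]
    rw [hcomm.is_comm.comm (r (-k) : G ⧸ K), mul_inv_cancel_right, ← QuotientGroup.mk_mul,
      mul_self_of (D.invol_s 0), QuotientGroup.mk_one]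
  obtain ⟨q, rfl⟩ := hh
  have h3 : s ε ∈ K := by
    obtain ⟨g, hg⟩ := isConj_iff.1 h1
    exact hg ▸ hK.conj_mem _ (h2 q) g
  have h5 : sub r s 2 ε ≤ K := Tab.sub_le_iff.2 ⟨by simpa using h2 1, h3⟩
  have h6 := D.T.relIndex_sub_two D.H (ε := ε) ⟨-1, by ring⟩ ⟨0, by ring⟩
  have h7 : K.relIndex P ∣ 2 := (relIndex_dvd_of_le_left _ h5).trans h6.dvd
  have h8 : (P : Subgroup G) ⊔ K = ⊤ := by
    rw [← index_eq_one]
    have e1 : ((P : Subgroup G) ⊔ K).index ∣ 2 ^ 2 := by
      have := index_dvd_of_le (le_sup_right : K ≤ (P : Subgroup G) ⊔ K)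
      rwa [h4] at this
    have e2 := index_dvd_of_le (le_sup_left : (P : Subgroup G) ≤ (P : Subgroup G) ⊔ K)
    obtain ⟨j, -, hj⟩ := (Nat.dvd_prime_pow Nat.prime_two).1 e1
    rcases j with _ | j
    · simpa using hj
    · exact absurd ((Dvd.intro_left (2 ^ j) (by rw [hj]; ring)).trans e2) P.not_dvd_index
  rw [← relIndex_sup_right, h8, relIndex_top_right, h4] at h7
  norm_num at h7

theorem control (D : Dih (P : Subgroup G) r s h) (h1 : ∀ ε, ¬ IsConj (r h) (s ε)) {a g : G}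
    (ha : a ∈ (P : Subgroup G)) (hg : g * a * g⁻¹ ∈ (P : Subgroup G)) :
    ∃ z ∈ (P : Subgroup G), z * a * z⁻¹ = g * a * g⁻¹ := by
  refine D.T.fusion (fun a b => ∃ z ∈ (P : Subgroup G), z * a * z⁻¹ = b) ?_
    (fun x hx a _ => ⟨x, hx, rfl⟩) (fun V hV h4 ht => absurd ?_ ht)
    (fun V hV e _ => (D.no_quat e hV).elim) ha hg
  · rintro a _ _ ⟨x, hx, rfl⟩ ⟨y, hy, rfl⟩
    exact ⟨y * x, mul_mem hy hx, by group⟩
  · obtain ⟨b, rfl⟩ := D.four_eq h4 hV
    intro x hx ho
    have e1 : x * r h * x⁻¹ ∈ sub r s h b := (mem_normalizer_iff.1 hx _).1 (Tab.r_mem_sub_self _ _)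
    have e2 : x * r h * x⁻¹ = r h := by
      obtain ⟨i, e | e⟩ := (D.T.mem _).1 (hV e1)
      · have : i = h := D.invol_r.1 (by rw [← e, orderOf_conj', D.invol_r])
        rw [e, this]
      · exact absurd (e ▸ isConj_conj x (r h)) (h1 i)
    have := D.odd_centralizes hx ho e2
    exact ⟨1, one_mem _, fun a ha => by rw [← this a ha]; group⟩

/-- Let G be a finite group whose Sylow 2-subgroups are dihedral of order 2 ^ n with n ≥ 3, and count the conjugacy classes of involutions of G. Then exactly one of the following holds: there is one class of involutions and no normal subgroup of index 2; there are two classes of involutions, a normal subgroup of index 2 and none of index 4; there are three classes of involutions and G has a normal 2-complement. -/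
theorem result {G : Type*} [Group G] [Finite G] (P : Sylow 2 G) (n : ℕ) (hn : 3 ≤ n) (hdih : Nonempty (↥(P : Subgroup G) ≃* DihedralGroup (2 ^ (n - 1)))) : (Nat.card {C : ConjClasses G // ∃ g : G, ConjClasses.mk g = C ∧ orderOf g = 2} = 1 ∧ ∀ N : Subgroup G, N.Normal → N.index ≠ 2) ∨ (Nat.card {C : ConjClasses G // ∃ g : G, ConjClasses.mk g = C ∧ orderOf g = 2} = 2 ∧ (∃ N : Subgroup G, N.Normal ∧ N.index = 2) ∧ ∀ N : Subgroup G, N.Normal → N.index ≠ 4) ∨ (Nat.card {C : ConjClasses G // ∃ g : G, ConjClasses.mk g = C ∧ orderOf g = 2} = 3 ∧ Cfsg.HasNormalPComplement 2 G) := by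
  have : Fact (Nat.Prime 2) := ⟨Nat.prime_two⟩
  obtain ⟨m, rfl⟩ : ∃ m, n = m + 3 := ⟨n - 3, by omega⟩
  obtain ⟨e⟩ := hdih
  obtain ⟨r, s, D⟩ := exists_dih (n := m + 1) e
  have hh : ∃ q, (2 : ZMod (2 ^ (m + 1 + 1))) ^ (m + 1) = 2 * q := ⟨2 ^ m, by ring⟩
  generalize (2 : ZMod (2 ^ (m + 1 + 1))) ^ (m + 1) = h at D hh
  simp only [and_comm (b := orderOf _ = 2)]
  have hz := D.invol_r.2 rfl
  have two : ∀ ε, IsConj (r h) (s ε) → ¬ IsConj (r h) (s (ε + 1)) →
      Nat.card {C : ConjClasses G // ∃ g : G, orderOf g = 2 ∧ ConjClasses.mk g = C} = 2 ∧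
      (∃ N : Subgroup G, N.Normal ∧ N.index = 2) ∧ ∀ N : Subgroup G, N.Normal → N.index ≠ 4 :=
    fun ε h0 h1 => ⟨card_classes_eq_two hz (D.invol_s _) h1 fun t ht => by
      rcases invol_cases D ε ht with e | e | e
      exacts [Or.inl e, Or.inl (h0.trans e), Or.inr e], exists_index_two D h1,
      no_index_four D hh h0⟩
  by_cases h0 : IsConj (r h) (s 0) <;> by_cases h1 : IsConj (r h) (s (0 + 1))
  · have hall : ∀ t, orderOf t = 2 → IsConj (r h) t := fun t ht => by
      rcases invol_cases D 0 ht with e | e | e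
      exacts [e, h0.trans e, h1.trans e]
    exact Or.inl ⟨card_classes_eq_one hz hall, fun N _ => (D.fusion_simple_of_conj
      (fun a b ha hb => (hall a ha).symm.trans (hall b hb)) (not_sylow_le_of_index_two P)).1 N⟩
  · exact Or.inr (Or.inl (two 0 h0 h1))
  · refine Or.inr (Or.inl (two _ h1 fun h2 => h0 (h2.trans ?_)))
    exact isConj_iff.2 ⟨r 1, by rw [D.T.conj_rs]; congr 1; ring⟩
  · have hall : ∀ ε, ¬ IsConj (r h) (s ε) := fun ε hε => by
      have key : ∀ a k, IsConj (s (a + 2 * k)) (s a) := fun a k =>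
        isConj_iff.2 ⟨r k, by rw [D.T.conj_rs]; congr 1; ring⟩
      obtain ⟨b, rfl⟩ | ⟨b, rfl⟩ := D.H.par ε
      · exact h0 (hε.trans (by simpa using key 0 b))
      · exact h1 (hε.trans (by simpa [add_comm] using key 1 b))
    refine Or.inr (Or.inr ⟨card_classes_eq_three hz (D.invol_s 0) (D.invol_s (0 + 1)) h0 h1 ?_
      fun t ht => invol_cases D 0 ht,
      Transfer.hasNormalPComplement_of_controlsFusion P fun a ha g hg => control D hall ha hg⟩)
    intro hc
    obtain ⟨g, hg⟩ := isConj_iff.1 hc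
    obtain ⟨z, hz, e⟩ := control D hall (D.T.s_mem 0) (hg ▸ D.T.s_mem _)
    obtain ⟨k, hk⟩ := D.conj_s_cases hz 0
    rw [hk, hg] at e
    exact D.H.even_ne_odd k 0 (by linear_combination D.T.s_inj.1 e)

end Cfsg.Agent.S3864
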