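import Cfsg.Statements.S0107
import Cfsg.Agent.S3864
import Mathlib.Tactic.Group

set_option autoImplicit false
open Cfsg

namespace Cfsg.Agent.S0107
open scoped commutatorElement

open Cfsg.Agent.Invol Subgroup

/-- A finite group with no nontrivial 2-group quotient and dihedral Sylow 2-subgroups of order at least 8 has a single class of involutions. -/
theorem result {G : Type*} [Group G] [Finite G] (T : Sylow 2 G) (n : ℕ) (hn : 2 ≤ n) (hT : Nonempty ((T : Subgroup G) ≃* DihedralGroup (2 ^ n))) (hO : Cfsg.pResidual 2 G = ⊤) (x y : G) (hx : orderOf x = 2) (hy : orderOf y = 2) : ∃ g : G, g * x * g⁻¹ = y := by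
  obtain ⟨m, rfl⟩ : ∃ m, n = m + 1 := ⟨n - 1, by omega⟩
  obtain ⟨e⟩ := hT
  obtain ⟨r, s, D⟩ := exists_dih (n := m) e
  have hG := pResidual_two_eq_top_iff.1 hO
  have h1 : ∀ ε, IsConj (r (2 ^ m)) (s ε) := fun ε => by
    by_contra hc
    obtain ⟨H, -, hH⟩ := S3864.exists_index_two D hc
    exact hG H hH
  have h2 : ∀ t, orderOf t = 2 → IsConj (r (2 ^ m)) t := fun t ht => by
    rcases S3864.invol_cases D 0 ht with e | e | e
    exacts [e, (h1 _).trans e, (h1 _).trans e]
  exact isConj_iff.1 ((h2 x hx).symm.trans (h2 y hy))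

end Cfsg.Agent.S0107
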