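import Cfsg.Statements.S0221
import Cfsg.Agent.Sig.Dich

set_option autoImplicit false
open Cfsg

namespace Cfsg.Agent.S0221


/-- Let G be a finite group with no subgroup of index 2 whose 2-rank is at least 3 (it contains an elementary abelian subgroup of order 8). Then the centralizer of every involution of G also contains an elementary abelian subgroup of order 8. -/
theorem result {G : Type*} [Group G] [Finite G] (hno : ∀ H : Subgroup G, H.index ≠ 2) (hrank : ∃ E : Subgroup G, Nat.card E = 8 ∧ ∀ e ∈ E, e ^ 2 = 1) (x : G) (hx : orderOf x = 2) : ∃ E : Subgroup G, E ≤ Subgroup.centralizer ({x} : Set G) ∧ Nat.card E = 8 ∧ ∀ e ∈ E, e ^ 2 = 1 := by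
  open Cfsg.Agent.BG Subgroup in
  obtain ⟨E, hE, h2⟩ := hrank
  have hA : Abelem 2 E := ⟨⟨⟨fun a b => Subtype.ext (by
    have h1 := h2 _ a.2; have h3 := h2 _ b.2; have h4 := h2 _ (mul_mem a.2 b.2)
    rw [sq] at h1 h3 h4
    show (a : G) * b = b * a
    calc (a : G) * b = a * (a * b * (a * b)) * b := by rw [h4, mul_one]
      _ = (a * a) * (b * a) * (b * b) := by group
      _ = b * a := by rw [h1, h3, one_mul, mul_one])⟩⟩, h2⟩
  obtain ⟨A, hA, h3, hxA⟩ := Sig.exists_E8_mem hno hA (by rw [hE]; rfl) (t := x) (hx ▸ pow_orderOf_eq_one x)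
  obtain ⟨B, hc⟩ := Sylow.exists_subgroup_card_pow_prime_of_le_card Nat.prime_two hA.pg (n := 3) h3
  exact ⟨B.map A.subtype, (map_subtype_le _).trans (hA.cent.trans (centralizer_le (Set.singleton_subset_iff.2 hxA))),
    by rw [card_subtype, hc]; rfl, fun e he => hA.pow (map_subtype_le _ he)⟩

end Cfsg.Agent.S0221
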