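import Cfsg.Statements.S0255
import Cfsg.Agent.Classical.SLGen
import Cfsg.Agent.S0495

set_option autoImplicit false
open Cfsg

namespace Cfsg.Agent.S0255

open Cfsg.Agent.Classical Matrix Subgroup MulAction

/-- PSL_2(7) is isomorphic to PSL_3(2). -/
theorem result {F K : Type*} [Field F] [Fintype F] [Field K] [Fintype K] (hF : Fintype.card F = 7) (hK : Fintype.card K = 2) : Nonempty (Matrix.ProjectiveSpecialLinearGroup (Fin 2) F ≃* Matrix.ProjectiveSpecialLinearGroup (Fin 3) K) := by
  have := isSimpleGroup_PSL (ι := Fin 3) (F := K) (by simp)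
  have hK' : Nat.card K = 2 := by rw [Nat.card_eq_fintype_card, hK]
  have h1 := card_PSL_mul (ι := Fin 3) (F := K)
  have h2 := card_SL_mul (F := K) 3 (by norm_num)
  rw [hK'] at h1 h2
  simp only [Fin.prod_univ_three] at h2
  norm_num at h1 h2
  obtain ⟨e⟩ := Cfsg.Agent.S0495.result (G := ProjectiveSpecialLinearGroup (Fin 3) K)
    (by rw [h1, h2]) hF
  exact ⟨e.symm⟩

end Cfsg.Agent.S0255
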