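import Cfsg.Statements.S0340
import Cfsg.Agent.Perm.ZassSuz2
import Cfsg.Agent.Perm.ZassAb

set_option autoImplicit false
open Cfsg

namespace Cfsg.Agent.S0340

open MulAction Perm

/-- Classification of Zassenhaus groups, simple case, order-level form: a finite simple Zassenhaus group is
isomorphic to `PSL₂(F)` for some finite field `F` or is simple of Suzuki order. -/
theorem result {G Ω : Type*} [Group G] [Finite G] [MulAction G Ω]
    [Finite Ω] (hZ : Cfsg.IsZassenhausGroup G Ω) [IsSimpleGroup G] :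
    (∃ (F : Type) (_ : Field F) (_ : Fintype F), Nonempty (G ≃* Matrix.ProjectiveSpecialLinearGroup (Fin 2) F)) ∨ Cfsg.IsSuzuki G := by
  haveI := Fintype.ofFinite Ω
  obtain ⟨-, -, a, b, hab, -⟩ := hZ.2.2.2.1
  obtain ⟨F, hF, ht, hn⟩ := Zass.exists_kernel hZ a
  have h3 := (Zass.card_dvd hZ hab).2
  rcases Nat.even_or_odd (Nat.card ↥(stabilizer G a ⊓ stabilizer G b)) with h | h
  · obtain ⟨K, i, j, -, -, h⟩ :=
      Zass.equiv_PSL_of_even hZ hab h (Zass.two_mul_card_le_of_simple hZ hab h)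
    exact Or.inl ⟨K, i, j, h⟩
  by_cases hc : ∃ u v : F, u * v ≠ v * u
  · have h1 := Zass.card_kernel hab hF ht
    obtain ⟨n, ⟨m, rfl⟩, h2, h3, h4, -⟩ := Zass.suzuki hZ hab hF (Zass.feit hab _ rfl hZ hF h (by
      by_contra! h2
      obtain ⟨u, v, h4⟩ := hc
      exact h4 (Subtype.ext (Zass.comm_of_le hZ hab hF ht hn (by omega) u u.2 v v.2)))).1 hc
    refine Or.inr ⟨‹_›, m, by omega, ?_⟩
    rw [Zass.card_eq hZ hab, h3, ← pow_mul, mul_comm _ 2, Nat.add_sub_cancel,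
      Nat.eq_sub_of_add_eq h4, mul_comm (_ + 1)]
  push_neg at hc
  rcases Zass.classify_of_comm hZ hab hF (le_bot_iff.1 (Subgroup.commutator_le.2 fun x hx y hy =>
    commutatorElement_eq_one_iff_mul_comm.2 (congrArg Subtype.val (hc ⟨x, hx⟩ ⟨y, hy⟩)))) with
    h1 | ⟨-, K, i, j, -, -, h1⟩
  swap
  · exact Or.inl ⟨K, i, j, h1⟩
  have h2 : Odd (Nat.card Ω) := by rw [Nat.odd_iff] at h ⊢; omega
  obtain ⟨K, i, j, h4, ⟨e⟩⟩ := sharp3_equiv_PGL_of_odd (Zass.three_of_card hZ hab h1.ge)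
    (Zass.sharp hZ) h2 h3
  have h5 : (2 : K) = 0 := by
    have := FiniteField.even_card_iff_char_two (F := K).2 (by rw [Nat.odd_iff] at h2; omega)
    exact_mod_cast (ringChar.spec K 2).2 (this ▸ dvd_rfl)
  obtain ⟨f⟩ := nonempty_PGL_equiv_SL h5
  haveI := (e.trans f).symm.isSimpleGroup
  refine Or.inl ⟨K, i, j, ⟨(e.trans f).trans ?_⟩⟩
  refine QuotientGroup.quotientBot.symm.trans (QuotientGroup.quotientMulEquivOfEq ?_)
  refine ((Subgroup.center _).normal_of_characteristic.eq_bot_or_eq_top.resolve_right fun h6 => ?_).symm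
  obtain ⟨g, g1, ga, gb⟩ := Zass.exists_ne_one hZ hab
  obtain ⟨c, hca, hcb⟩ := Zass.exists_third hZ hab
  obtain ⟨u, -, hu⟩ := exists_smul_two hZ.2.1 hab hca.symm
  refine g1 (Zass.eq_one hZ hab hca.symm hcb.symm ga gb ?_)
  have : u * g = g * u := (e.trans f).injective (by
    simp only [map_mul]; exact Subgroup.mem_center_iff.1 (h6.ge trivial) _)
  rw [← hu, ← mul_smul, ← this, mul_smul, gb]

end Cfsg.Agent.S0340
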