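import Cfsg.Statements.S0349
import Cfsg.Agent.ZD.Split
import Cfsg.Agent.BN.Basic
import Cfsg.Agent.Small.Recog

set_option autoImplicit false
open Cfsg

namespace Cfsg.Agent.S0349

/-- Let a finite simple group have a (B,N)-pair of rank one which is strongly split (`B = U (B ⊓ N)` with `U` nilpotent,
normal in `B` and meeting `N` trivially), with `[G : B]` and `|B ⊓ N|` odd. Then the group is isomorphic to `PSL₂(F)` with
`|F|` a power of `2`, or is simple of Suzuki order, or is isomorphic to `PSU₃` realised over a field with `q²` elements,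
`q = 2^n`, `n ≥ 2`. -/
theorem result {G : Type*} [Group G] [Finite G] [IsSimpleGroup G]
    (P : Cfsg.BNPair G) (hrank : P.rank = 1) (U : Subgroup G) (hUB : U ≤ P.B)
    (hUn : (U.subgroupOf P.B).Normal) (hUnil : Group.IsNilpotent U) (hsplit : U ⊔ (P.B ⊓ P.N) = P.B)
    (hdisj : U ⊓ P.N = ⊥) (hind : Odd P.B.index) (hH : Odd (Nat.card ↥(P.B ⊓ P.N))) :
    (∃ (F : Type) (_ : Field F) (_ : Fintype F), (∃ n : ℕ, Fintype.card F = 2 ^ n) ∧ Nonempty (G ≃* Matrix.ProjectiveSpecialLinearGroup (Fin 2) F)) ∨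
      Cfsg.IsSuzuki G ∨
      (∃ (F : Type) (_ : Field F) (_ : Fintype F) (n : ℕ), 2 ≤ n ∧ Fintype.card F = (2 ^ n) ^ 2 ∧
        Nonempty (G ≃* Cfsg.PSU 3 F (2 ^ n))) := by
  open Cfsg.Agent.SE Cfsg.Agent.BG Cfsg.Agent.ZD Subgroup in
  obtain ⟨s, hs⟩ := Nat.card_eq_one_iff_exists.1 hrank
  have hsB := BN.not_mem_B s
  have hsN : (s : G) ∈ P.N := P.subset s.2
  have hN : ∀ n ∈ P.N, n ∈ P.B ∨ (s : G)⁻¹ * n ∈ P.B := by
    let K : Subgroup G :=
      { carrier := {n | n ∈ P.N ∧ (n ∈ P.B ∨ (s : G)⁻¹ * n ∈ P.B)}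
        one_mem' := ⟨one_mem _, .inl (one_mem _)⟩
        mul_mem' := by
          rintro x y ⟨hx, h1 | h1⟩ ⟨hy, h2 | h2⟩
          · exact ⟨mul_mem hx hy, .inl (mul_mem h1 h2)⟩
          · refine ⟨mul_mem hx hy, .inr ?_⟩
            convert mul_mem (P.conj_mem _ (inv_mem hsN) x ⟨h1, hx⟩) h2 using 1
            group
          · exact ⟨mul_mem hx hy, .inr (mul_assoc _ x y ▸ mul_mem h1 h2)⟩
          · refine ⟨mul_mem hx hy, .inl ?_⟩
            convert mul_mem (mul_mem (P.conj_mem _ hsN _ (mem_inf.2 ⟨h1, mul_mem (inv_mem hsN) hx⟩)) (P.sq_mem s s.2)) h2 using 1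
            group
        inv_mem' := by
          rintro x ⟨hx, h1 | h1⟩
          · exact ⟨inv_mem hx, .inl (inv_mem h1)⟩
          · refine ⟨inv_mem hx, .inr ?_⟩
            convert mul_mem (P.conj_mem _ (inv_mem hsN) _ (mem_inf.2 ⟨inv_mem h1, inv_mem (mul_mem (inv_mem hsN) hx)⟩))
              (inv_mem (P.sq_mem s s.2)) using 1
            group }
    have : P.N ≤ K := P.closure_sup.ge.trans (sup_le ((closure_le _).2 fun x hx => by
      obtain rfl : x = s := congrArg Subtype.val (hs ⟨x, hx⟩)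
      exact ⟨hsN, .inr (by simp)⟩) fun x hx => ⟨hx.2, .inl hx.1⟩)
    exact fun n hn => (this hn).2
  have hnU : P.B ≤ N[U] := le_norm_iff.2 fun b hb u hu =>
    mem_subgroupOf.1 (hUn.conj_mem ⟨u, hUB hu⟩ (mem_subgroupOf.2 hu) ⟨b, hb⟩)
  have hs1 : (s : G) • pt P.B ≠ pt P.B := fun e => hsB (smul_pt.1 e)
  have key : ∀ c, c ≠ pt P.B → ∃ x ∈ U, x • (s : G) • pt P.B = c := fun c hc => by
    obtain ⟨g, rfl⟩ := quot_trans P.B (pt _) c
    obtain ⟨w, hw⟩ := BN.exists_inCell (P := P) g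
    obtain ⟨n, rfl⟩ := BN.wmk_surjective P w
    obtain ⟨b, hb, b', hb', rfl⟩ := BN.inCell_iff.1 hw
    rw [mul_smul, smul_pt.2 hb', mul_smul] at hc ⊢
    rcases hN n n.2 with h | h
    · exact absurd (by rw [smul_pt.2 h, smul_pt.2 hb]) hc
    obtain ⟨u, hu, t, ht, rfl⟩ := (mem_sup_norml (inf_le_left.trans hnU)).1 (hsplit.ge hb)
    refine ⟨u, hu, ?_⟩
    rw [mul_smul]
    congr 1
    have := smul_pt.2 (mul_mem (P.conj_mem _ (inv_mem hsN) t ht) h)
    conv_lhs => rw [← this]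
    simp only [← mul_smul]
    congr 1
    group
  have : Nontrivial (G ⧸ P.B) := ⟨_, _, hs1⟩
  have : FaithfulSMul G (G ⧸ P.B) := Small.faithful_of_isSimple
  obtain ⟨h1, h2⟩ := Spl.se (a := pt P.B) (U := U) ⟨by rwa [St_pt], by rwa [St_pt], hUnil, by
    rw [St_pt, ← hsplit, relIndex_sup_norml (inf_le_left.trans hnU)]
    exact hH.of_dvd_nat (relIndex_dvd_card _ _), hind, fun b c hb hc => by
      obtain ⟨x, hx, rfl⟩ := key b hb
      obtain ⟨y, hy, rfl⟩ := key c hc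
      exact ⟨y * x⁻¹, mul_mem hy (inv_mem hx), by rw [mul_smul, inv_smul_smul]⟩, quot_trans _ _, _, hs1⟩
  rcases bender_list h2 h1 with ⟨F, _, _, n, -, h3, h4⟩ | h | h
  · exact .inl ⟨F, _, _, ⟨n, h3⟩, h4⟩
  · exact .inr (.inl (Suz.isSuzuki_of_iso inferInstance h))
  · exact .inr (.inr h)

end Cfsg.Agent.S0349
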