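import Cfsg.Statements.S0437
import Cfsg.Agent.Fischer.Small
-- import your own Cfsg.Agent.* helpers here

set_option autoImplicit false
open Cfsg

namespace Cfsg.Agent.S0437

/-- For three distinct, pairwise commuting members a, b, c of a set of 3-transpositions E, a member e of E centralises a * b * c if and only if it centralises each of a, b and c. -/
theorem result {G : Type*} [Group G] {E : Set G} (hE : Cfsg.IsThreeTranspositionSet E) {a b c e : G} (ha : a ∈ E) (hb : b ∈ E) (hc : c ∈ E) (he : e ∈ E) (hab : a ≠ b) (hac : a ≠ c) (hbc : b ≠ c) (h₁ : Commute a b) (h₂ : Commute a c) (h₃ : Commute b c) : Commute e (a * b * c) ↔ (Commute e a ∧ Commute e b ∧ Commute e c) := by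
  open Fischer in
  refine ⟨fun h => ?_, fun h => (h.1.mul_right h.2.1).mul_right h.2.2⟩
  have k1 : Commute e a → Commute e b ∧ Commute e c := fun h1 => by
    have := h1.inv_right.mul_right h
    rw [mul_assoc, inv_mul_cancel_left] at this
    exact (TT.commute_mul_iff hE hb hc he hbc).1 this
  have k2 : Commute e b → Commute e a := fun h1 => by
    have := h1.inv_right.mul_right h
    rw [h₁.eq, mul_assoc, inv_mul_cancel_left] at this
    exact ((TT.commute_mul_iff hE ha hc he hac).1 this).1
  have k3 : Commute e c → Commute e a := fun h1 => by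
    have := h.mul_right h1.inv_right
    rw [mul_inv_cancel_right] at this
    exact ((TT.commute_mul_iff hE ha hb he hab).1 this).1
  by_cases h1 : Commute e a
  · exact ⟨h1, k1 h1⟩
  · exfalso
    exact hab (id_d4_comm (TT.sq hE ha) (TT.sq hE hb) (TT.sq hE hc) (TT.sq hE he) h₁ h₂ h₃
      (TT.br hE he ha h1).symm (TT.br hE he hb fun h => h1 (k2 h)).symm
      (TT.br hE he hc fun h => h1 (k3 h)).symm (by simpa only [mul_assoc] using h.eq))

end Cfsg.Agent.S0437
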