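import Cfsg.Statements.S0447
import Cfsg.Agent.Schur.Alt

set_option autoImplicit false
open Cfsg

namespace Cfsg.Agent.S0447

open Subgroup Equiv Equiv.Perm Cfsg.Agent.Pres Cfsg.Agent.Schur

theorem uniq {H : Type*} [Group H] {Z : Subgroup H} (h : Nat.card Z = 2) {x y : H} (hx : x ∈ Z) (hy : y ∈ Z) (x1 : x ≠ 1)
    (y1 : y ≠ 1) : x = y := by
  obtain ⟨z, -, hz⟩ := (Nat.card_eq_two_iff' (1 : Z)).1 h
  exact congrArg Subtype.val ((hz ⟨x, hx⟩ fun e => x1 (congrArg Subtype.val e)).trans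
    (hz ⟨y, hy⟩ fun e => y1 (congrArg Subtype.val e)).symm)

/-- Involutions in double covers of alternating groups: for n ≤ 7, a finite non-split double cover of the alternating group of degree n has exactly one element of order 2 (the central one); for degree 8 there is a non-split double cover with two distinct involutions. -/
theorem result : (∀ (n : ℕ) (H : Type) (_ : Group H) (_ : Finite H), n ≤ 7 → Cfsg.IsNonsplitDoubleCover H (alternatingGroup (Fin n)) → ∀ x y : H, orderOf x = 2 → orderOf y = 2 → x = y) ∧ ∃ (H : Type) (_ : Group H) (_ : Finite H), Cfsg.IsNonsplitDoubleCover H (alternatingGroup (Fin 8)) ∧ ∃ x y : H, x ≠ y ∧ orderOf x = 2 ∧ orderOf y = 2 := by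
  refine ⟨fun n H _ _ hn ⟨h1, ⟨e⟩, h2⟩ => ?_, ?_⟩
  · let π := (alternatingGroup (Fin n)).subtype.comp (e.toMonoidHom.comp (QuotientGroup.mk' (center H)))
    have k : π.ker = center H := by ext g; simp [π, MonoidHom.mem_ker]
    have r : π.range = alternatingGroup (Fin n) := by
      rw [MonoidHom.range_comp, MonoidHom.range_eq_top.2 (e.surjective.comp (QuotientGroup.mk'_surjective _)),
        ← MonoidHom.range_eq_map, Subgroup.range_subtype]
    suffices K : ∀ x : H, orderOf x = 2 → x ∈ center H from fun x y hx hy =>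
      uniq h1 (K x hx) (K y hy) (by rintro rfl; simp at hx) (by rintro rfl; simp at hy)
    intro x hx
    by_contra hz
    have x2 : x ^ 2 = 1 := hx ▸ pow_orderOf_eq_one x
    have c1 := cycleType_of_pow_prime_eq_one (σ := π x) (p := 2) (by rw [← map_pow, x2, map_one])
    have c2 := sum_cycleType_le (π x)
    have c3 := (sign_of_cycleType (π x)).symm.trans (r.le ⟨x, rfl⟩)
    have c4 : (π x).cycleType.card ≠ 0 := fun e => hz (k.le (card_cycleType_eq_zero.1 e))
    rw [c1, Multiset.sum_replicate, smul_eq_mul] at c2 c3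
    rw [Multiset.card_replicate, neg_one_pow_eq_one_iff_even (by decide), Nat.even_iff] at c3
    rw [Fintype.card_fin] at c2
    rw [show (π x).cycleType.card = 2 by omega] at c1 c2
    have nd : [(⟨0, by omega⟩ : Fin n), ⟨1, by omega⟩, ⟨2, by omega⟩, ⟨3, by omega⟩].Nodup := by simp
    obtain ⟨g, hg⟩ := isConj_iff.1 (isConj_iff_cycleType_eq.2 ((cycleType_swap_mul_swap_of_nodup nd).trans c1.symm))
    obtain ⟨L, hL⟩ := split_of_invol k.le r (fun z hz => by
      rw [← h1]; exact congrArg Subtype.val (pow_card_eq_one' (x := (⟨z, k.le hz⟩ : center H)))) (nd.map g.injective)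
      (t := x) (by rw [← hg, swap_apply_apply, swap_apply_apply]; group) x2
    exact h2 L (k ▸ hL)
  obtain ⟨H, _, _, π, z, h1, h2, h3, h4, h5⟩ := alt_double_cover (Fin 8) (by simp)
  have k : π.ker = center H := le_antisymm (h4.le.trans (zpowers_le.2 h1)) fun g hg => congrArg Subtype.val
    ((alternatingGroup.center_eq_bot (α := Fin 8) (by simp)).le (show ⟨π g, h5.le ⟨g, rfl⟩⟩ ∈ center _ from
      mem_center_iff.2 fun ⟨_, hs⟩ => by
        obtain ⟨s, rfl⟩ := h5.ge hs
        exact Subtype.ext (by simpa using congrArg π (mem_center_iff.1 hg s))))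
  have z1 : z ≠ 1 := by rintro rfl; simp at h2
  have cZ : Nat.card (center H) = 2 := by rw [← k, h4, Nat.card_zpowers, h2]
  have ns : ∀ L : Subgroup H, ¬ (center H).IsComplement' L := fun L hL => z1 (mem_bot.1 (hL.disjoint.le_bot ⟨h1,
    BG.comm_subG le_rfl le_rfl ((commutator_eq_of_forall_mul_central L fun g => by
      obtain ⟨⟨a, b⟩, rfl⟩ := hL.2 g
      exact ⟨b, b.2, a, a.2, (mem_center_iff.1 a.2 b).symm⟩).le h3)⟩))
  have sq : ∀ c ∈ π.ker, c ^ 2 = 1 := fun c hc => by
    rw [← cZ]; exact congrArg Subtype.val (pow_card_eq_one' (x := (⟨c, k.le hc⟩ : center H)))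
  have lift : ∀ σ : Perm (Fin 8), sign σ = 1 → ∃ g, π g = σ := fun _ h => h5.ge h
  have dt : ∀ {i u j v : Fin 8} {t}, [i, u, j, v].Nodup → π t = swap i u * swap j v → t ^ 2 = z := fun {i u j v t} nd ht =>
    uniq cZ (k.le (by rw [MonoidHom.mem_ker, map_pow, ht, (disjoint_swap_swap nd).commute.mul_pow]; simp [pow_two])) h1
      (fun e => (split_of_invol k.le h5 sq nd ht e).elim fun L hL => ns L (k ▸ hL)) z1
  obtain ⟨t, ht⟩ := lift (swap 0 1 * swap 2 3) (by decide)
  obtain ⟨a, ha⟩ := lift (c3 4 5 7) (by decide)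
  obtain ⟨b, hb⟩ := lift (c3 6 5 7) (by decide)
  have cm : ∀ {a}, π a ^ 3 = 1 → Commute (π a) (π t) → Commute t a := fun {a} e1 e2 => by
    have hc : a * t * a⁻¹ * t⁻¹ ∈ π.ker := by simp [MonoidHom.mem_ker, e2.eq]
    have cj : ∀ g, g * (a * t * a⁻¹ * t⁻¹) * g⁻¹ = a * t * a⁻¹ * t⁻¹ := fun g => by
      rw [mem_center_iff.1 (k.le hc), mul_inv_cancel_right]
    have e3 : a ^ 3 * t * (a ^ 3)⁻¹ * t⁻¹ = a * (a * (a * t * a⁻¹ * t⁻¹) * a⁻¹) * a⁻¹ * (a * (a * t * a⁻¹ * t⁻¹) * a⁻¹) *
      (a * t * a⁻¹ * t⁻¹) := by simp only [pow_three]; group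
    rw [cj, cj, ← pow_two, sq _ hc, one_mul, ← mem_center_iff.1 (k.le (show a ^ 3 ∈ π.ker by simpa using e1)),
      mul_inv_cancel_right, mul_inv_cancel] at e3
    exact (commutatorElement_eq_one_iff_commute.1 e3.symm).symm
  have o : (t * (a * b)) ^ 2 = 1 := by
    rw [((cm (by rw [ha]; decide) (by rw [ha, ht]; show _ * _ = _ * _; decide)).mul_right
      (cm (by rw [hb]; decide) (by rw [hb, ht]; show _ * _ = _ * _; decide))).mul_pow, dt (by decide) ht,
      dt (i := 4) (u := 5) (j := 6) (v := 7) (by decide) (by rw [map_mul, ha, hb]; decide), ← pow_two, ← h2, pow_orderOf_eq_one]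
  have n : t * (a * b) ∉ π.ker := by rw [MonoidHom.mem_ker, map_mul, map_mul, ht, ha, hb]; decide
  exact ⟨H, _, ‹_›, ⟨cZ, ⟨(QuotientGroup.quotientMulEquivOfEq k.symm).trans ((QuotientGroup.quotientKerEquivRange π).trans
    (MulEquiv.subgroupCongr h5))⟩, ns⟩, z, t * (a * b), fun e => n (by rw [← e]; exact k.ge h1), h2, orderOf_eq_prime o fun e => n (by rw [e]; exact one_mem _)⟩

end Cfsg.Agent.S0447
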