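import Cfsg.Statements.S0454
import Cfsg.Agent.Spor.LyC

set_option autoImplicit false
open Cfsg

namespace Cfsg.Agent.S0454

/-- Existence of the Lyons group: there is a transitive permutation group of degree 8835156, simple of order 51765179004000000, whose point stabiliser is simple of the order of a group of type G2, and which has an involution whose centraliser is a non-split double cover of the alternating group of degree 11. -/
theorem result : ∃ H : Subgroup (Equiv.Perm (Fin 8835156)), Cfsg.IsLy H ∧ MulAction.IsPretransitive H (Fin 8835156) ∧ Cfsg.IsG2 (MulAction.stabilizer H (0 : Fin 8835156)) ∧ ∃ t : H, orderOf t = 2 ∧ Cfsg.IsNonsplitDoubleCover (Subgroup.centralizer ({t} : Set H)) (alternatingGroup (Fin 11)) := by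
  have := Spor.LyG.simple
  obtain ⟨P, f, h3, h4⟩ := Spor.exists_perm_fin _ Spor.LyG.main.1 (by decide)
  obtain ⟨c⟩ := Spor.Ct.cent_congr f (Spor.LyC.Y 20)
  have h := Spor.simple_card_congr ⟨Spor.LyS.simple, Spor.LyK.card⟩ ((MonoidHom.ofInjective Spor.LyC.inj).trans
    ((f.subgroupMap _).trans (MulEquiv.subgroupCongr h4.symm)))
  exact ⟨P, ⟨f.symm.isSimpleGroup, (Nat.card_congr f.toEquiv).symm.trans Spor.LyG.main.2.2.2.2.1⟩, h3,
    ⟨h.1, 5, Nat.prime_five.isPrimePow, by decide, h.2.trans (by norm_num)⟩, _,
    (f.orderOf_eq _).trans Spor.LyC.ord2, Spor.nonsplit_congr Spor.LyC.struct2 c (MulEquiv.refl _)⟩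

end Cfsg.Agent.S0454
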