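import Cfsg.Statements.S0473
import Cfsg.Agent.Spor.Fi24He

set_option autoImplicit false
open Cfsg

namespace Cfsg.Agent.S0473

open Spor Spor.Fi24M

/-- The largest Fischer 3-transposition group: a group of order 2 · 1255205709190661721292800 generated by a conjugacy class of 306936 3-transpositions, in which a transposition centraliser has order 2 · 4089470473293004800 and contains a simple subgroup of order 4089470473293004800; its subgroup of index 2 is simple and contains simple subgroups of orders 4089470473293004800 and 4030387200. -/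
theorem result : ∃ (G : Type) (_ : Group G) (_ : Finite G), Nat.card G = 2 * 1255205709190661721292800 ∧ ∃ D : Set G, Cfsg.IsThreeTranspositionClass D ∧ Nat.card D = 306936 ∧ (∀ d ∈ D, Nat.card (Subgroup.centralizer ({d} : Set G)) = 2 * 4089470473293004800 ∧ ∃ K : Subgroup G, K ≤ Subgroup.centralizer ({d} : Set G) ∧ Cfsg.IsFi23 K) ∧ ∃ H : Subgroup G, H.index = 2 ∧ Cfsg.IsFi24' H ∧ (∃ K : Subgroup H, Cfsg.IsFi23 K) ∧ (∃ K : Subgroup H, Cfsg.IsHe K) := by
  have h23 : Cfsg.IsFi23 R := ⟨simpleR, cardR⟩
  have l2 : ev g [0, 0] = 1 := rel _ (by decide +kernel)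
  refine ⟨Cfsg.Spor.Fi24, inferInstance, Nat.finite_of_card_ne_zero (by rw [card]; decide), card,
    conjugatesOf (g 0), ⟨?_, ⟨_, IsConj.refl _, rfl⟩, ?_⟩, by rw [card_conjugatesOf, centralizer_l, index],
    fun d hd => ?_, commutator _, index_commutator, ⟨simple', card'⟩, ?_, ?_⟩
  · refine threeTrans rep.supp stab trans hl (sq (by decide)) (fun h => l_not_central (h ▸ Subgroup.one_mem _))
      (orbs := [(156704, A0, 31671), (0, A1, 275264)]) ?_ (by decide +kernel) ?_
    · simp only [List.forall_mem_cons, List.not_mem_nil, IsEmpty.forall_iff, implies_true, and_true]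
      exact ⟨orb0, orb1⟩
    · simp only [List.forall_mem_cons, List.not_mem_nil, IsEmpty.forall_iff, implies_true, and_true]
      exact ⟨⟨_, _, t2, show A0.testBit _ = true by decide +kernel,
          Or.inl (pow_of_rel (rel _ (by decide +kernel)))⟩,
        ⟨_, _, t1, show A1.testBit _ = true by decide +kernel, Or.inr (pow_of_rel (rel _ (by decide +kernel)))⟩⟩
  · rw [eq_top_iff, ← rep.top]
    refine genL_le fun x hx => Subgroup.subset_closure ?_
    obtain ⟨u, -, hu⟩ := tr (List.mem_range.1 hx)
    exact isConj_iff.2 ⟨u, hu⟩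
  · obtain ⟨e⟩ := centralizer_equiv hd
    obtain ⟨u, rfl⟩ := isConj_iff.1 (show IsConj (g 0) d from hd)
    refine ⟨by rw [← Nat.card_congr e.toEquiv, centralizer_l, cardH], R.map (MulAut.conj u).toMonoidHom, ?_,
      simple_card_congr h23 ((MulAut.conj u).subgroupMap R)⟩
    rw [centralizer_conj, centralizer_l]
    exact Subgroup.map_mono R_le
  · exact ⟨R.subgroupOf _, simple_card_congr h23
      (Subgroup.subgroupOfEquivOfLe (commutator_eq ▸ R_le_ker)).symm⟩
  · have := HeM.simple
    obtain ⟨K, ⟨e⟩⟩ := exists_sub_of_inj Fi24He.ρ Fi24He.ρ_inj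
      (range_le_of_index_two (by rw [HeM.card]; decide) _ index_commutator)
    exact ⟨K, simple_card_congr ⟨HeM.simple, HeM.card⟩ e⟩

end Cfsg.Agent.S0473
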