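import Cfsg.Statements.S2896
import Cfsg.Agent.Loc.SE

set_option autoImplicit false
open Cfsg

namespace Cfsg.Agent.S2896

/-- Let p be a prime dividing the order of the finite group G, S a Sylow p-subgroup of G and X a subgroup of S. (i) If some nontrivial element z of the centre of X has F*(C_G(z)) = O_p(C_G(z)), then F*(N_G(X)) = O_p(N_G(X)). (ii) G has parabolic characteristic p if and only if F*(C_G(z)) = O_p(C_G(z)) for every nontrivial z ∈ Ω₁(Z(S)). (iii) If F*(C_G(z)) = O_p(C_G(z)) for every element z of S of order p, then G has local characteristic p. -/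
theorem result {G : Type*} [Group G] [Finite G] {p : ℕ} [Fact p.Prime] (hdiv : p ∣ Nat.card G) (S : Sylow p G) (X : Subgroup G) (hX : X ≤ (S : Subgroup G)) : (∀ z : G, z ≠ 1 → z ∈ X → (∀ x ∈ X, x * z = z * x) → Cfsg.generalizedFittingSubgroup ↥(Subgroup.centralizer ({z} : Set G)) = Cfsg.pCore p ↥(Subgroup.centralizer ({z} : Set G)) → Cfsg.generalizedFittingSubgroup ↥(Subgroup.normalizer (X : Set G)) = Cfsg.pCore p ↥(Subgroup.normalizer (X : Set G))) ∧ (Cfsg.IsOfParabolicCharacteristic p G ↔ ∀ z : G, z ≠ 1 → z ∈ Cfsg.omegaOne p ((S : Subgroup G) ⊓ Subgroup.centralizer ((S : Subgroup G) : Set G)) → Cfsg.generalizedFittingSubgroup ↥(Subgroup.centralizer ({z} : Set G)) = Cfsg.pCore p ↥(Subgroup.centralizer ({z} : Set G))) ∧ ((∀ z : G, z ∈ (S : Subgroup G) → orderOf z = p → Cfsg.generalizedFittingSubgroup ↥(Subgroup.centralizer ({z} : Set G)) = Cfsg.pCore p ↥(Subgroup.centralizer ({z} : Set G))) → Cfsg.IsOfLocalCharacteristic p G) := by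
  open Cfsg.Agent.Loc Subgroup in
  open scoped commutatorElement in
  simp only [← chP_iff_sub]
  have key : ∀ (R : Subgroup G) (z : G), IsPGroup p R → z ∈ R → z ∈ centralizer (R : Set G) →
      ChP p (centralizer ({z} : Set G)) → ChP p (normalizer (R : Set G)) :=
    fun R z h1 h2 h3 h4 => h4.normalizer_of_mem_center h1 h2 h3
  have hc : ∀ (R : Subgroup G) (g : G), ChP p (normalizer ((cj g R : Subgroup G) : Set G)) →
      ChP p (normalizer (R : Set G)) := fun R g h => by
    have := h.conj g⁻¹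
    rwa [cj_normalizer, cj_inv_cj] at this
  refine ⟨fun z _ h1 h2 h3 => key X z (S.isPGroup'.to_le hX) h1 h2 h3, ?_, fun h => ?_⟩
  · rw [parabolicCharP_iff]
    constructor
    · intro h z h1 h2
      have h3 := omegaOne_le _ _ h2
      have hp : IsPGroup p (zpowers z) := S.isPGroup'.to_le (zpowers_le.2 h3.1)
      have := h (zpowers z) S hp (by rwa [Ne, zpowers_eq_bot]) (sylIn_top S)
        (le_normalizer_of_le_centralizer (le_centralizer_iff.1 (zpowers_le.2 h3.2)))
      rwa [chP_normalizer_iff hp, centralizer_zpowers] at this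
    · intro h R T h1 h2 h3 h4
      obtain ⟨g, -, e⟩ := h3.exists_conj (sylIn_top S)
      have h5 : (S : Subgroup G) ≤ normalizer ((cj g R : Subgroup G) : Set G) := by
        rw [← e, ← cj_normalizer]; exact cj_mono g h4
      have h6 := isPGroup_cj g h1
      have h7 : cj g R ≤ S := (sylIn_top S).le_of_le_normalizer le_top h6 h5
      obtain ⟨z, hz, h8, h9⟩ := exists_pow_eq_one_of_isPGroup (h6.to_le inf_le_left)
        (inf_centralizer_ne_bot S.isPGroup' h6 h5 (by rwa [Ne, cj_eq_bot_iff]))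
      exact hc R g (key _ z h6 hz.1 (centralizer_anti h7 hz.2) (h z h8 (mem_omegaOne ⟨h7 hz.1, hz.2⟩ h9)))
  · refine localCharP_iff.2 ⟨hdiv, fun T h1 h2 => ?_⟩
    obtain ⟨g, -, h7⟩ := (sylIn_top S).exists_conj_le le_top h1
    have h6 := isPGroup_cj g h1
    obtain ⟨z, hz, h8, h9⟩ := exists_pow_eq_one_of_isPGroup (h6.to_le inf_le_left)
      (center_ne_bot h6 (by rwa [Ne, cj_eq_bot_iff]))
    exact hc T g (key _ z h6 hz.1 hz.2 (h z (h7 hz.1) (orderOf_eq_prime_of_pow h8 h9)))

end Cfsg.Agent.S2896
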