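import Cfsg.Statements.S0618
import Cfsg.Agent.Loc.SFF4

set_option autoImplicit false
open Cfsg

namespace Cfsg.Agent.S0618

/-- A p-separable group with trivial p'-core in which the Thompson factorization fails has p = 2 or 3, and J(G) induces on the normal closure of Ω₁(Z(S)) a group containing a normal SL(2, p). -/
theorem result {G : Type*} [Group G] [Finite G] {p : ℕ} [Fact p.Prime] (hsep : Cfsg.IsPSolvable p G) (hO : Cfsg.pPrimeCore p G = ⊥) (hnf : ¬ Cfsg.IsThompsonFactorizable p G) : (p = 2 ∨ p = 3) ∧ ∃ E : Subgroup G, Subgroup.centralizer ((⨆ S : Sylow p G, Cfsg.omegaOne p ((S : Subgroup G) ⊓ Subgroup.centralizer ((S : Subgroup G) : Set G))) : Set G) ≤ E ∧ E ≤ Cfsg.thompsonSubgroup p G ⊔ Subgroup.centralizer ((⨆ S : Sylow p G, Cfsg.omegaOne p ((S : Subgroup G) ⊓ Subgroup.centralizer ((S : Subgroup G) : Set G))) : Set G) ∧ Cfsg.thompsonSubgroup p G ⊔ Subgroup.centralizer ((⨆ S : Sylow p G, Cfsg.omegaOne p ((S : Subgroup G) ⊓ Subgroup.centralizer ((S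 : Subgroup G) : Set G))) : Set G) ≤ Subgroup.normalizer (E : Set G) ∧ ∃ hn : ((Subgroup.centralizer ((⨆ S : Sylow p G, Cfsg.omegaOne p ((S : Subgroup G) ⊓ Subgroup.centralizer ((S : Subgroup G) : Set G))) : Set G)).subgroupOf E).Normal, Nonempty ((↥E ⧸ (Subgroup.centralizer ((⨆ S : Sylow p G, Cfsg.omegaOne p ((S : Subgroup G) ⊓ Subgroup.centralizer ((S : Subgroup G) : Set G))) : Set G)).subgroupOf E) ≃* Matrix.SpecialLinearGroup (Fin 2) (ZMod p)) := by
  open Cfsg.Agent.Loc Subgroup in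
  open scoped commutatorElement in
  have e : centralizer (⨆ S : Sylow p G, ((omegaOne p ((S : Subgroup G) ⊓ centralizer ((S : Subgroup G) : Set G)) :
      Subgroup G) : Set G)) = centralizer (PLocal.VZ p G : Set G) := by
    rw [centralizer_iSup']
    exact Subgroup.ext fun x => by simp only [mem_iInf, mem_centralizer_iff, Set.iSup_eq_iUnion, Set.mem_iUnion]; tauto
  rw [e]
  have h := uf_VZ hsep hO
  obtain ⟨A, hA, hn⟩ := exists_eaMax_of_not_tf hO hnf
  obtain ⟨B, hB, hm⟩ := h.exists_minOff le_top (PLocal.bestOffender_of_mem_eaMax hA le_top h.ea) hn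
  have hB' := hB.trans (bar_mono le_top)
  have a := h.ffs.main hB' hm
  have hJ : thompsonSubgroup p G ≤ normalizer (PLocal.VZ p G : Set G) := le_top.trans h.norm
  have hBJ : B ≤ bar _ (thompsonSubgroup p G) := hB.trans (bar_mono (PLocal.J_top p G ▸ PLocal.le_J hA))
  refine ⟨a.p23, pre _ (Eo p (bar (PLocal.VZ p G) ⊤) B), cent_le_pre _, (pre_mono (comm_sup_le_of_cj fun x hx =>
    cj_le_of_mem_normalizer (bar_le_normalizer le_normalizer_of_normal (Sig.ppIn_le hx)) hBJ)).trans (pre_bar hJ).le,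
    sup_le ?_ (le_normalizer_of_le (cent_le_pre _)), ?_⟩
  · rw [← PLocal.J_top, PLocal.J_le_iff]
    exact fun A' hA' => le_normalizer_pre (le_top.trans h.norm) (h.ffs.best_le_norm hB' hm (bar_mono le_top)
      (best_bar (le_top.trans h.norm) (PLocal.bestOffender_of_mem_eaMax hA' le_top h.ea)))
  · obtain ⟨φ, h1, h2⟩ := exists_hom_of_equiv (pre_le _) (bar_pre (FFS.Eo_le hB')) a.iso
    exact exists_quot_equiv h1 h2

end Cfsg.Agent.S0618
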