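import Cfsg.Statements.S0631
import Cfsg.Agent.PLocal.PSolv
-- import your own Cfsg.Agent.* helpers here

set_option autoImplicit false
open Cfsg

namespace Cfsg.Agent.S0631


open Subgroup Cfsg Cfsg.Agent.Loc Cfsg.Agent.PLocal
open scoped commutatorElement

/-- In a p-constrained group the normalizer and the centralizer of any p-subgroup are again p-constrained. -/
theorem result {G : Type*} [Group G] [Finite G] {p : ℕ} [Fact p.Prime] (hG : Cfsg.IsPConstrained p G) (P : Subgroup G) (hP : IsPGroup p P) : Cfsg.IsPConstrained p ↥(Subgroup.normalizer (P : Set G)) ∧ Cfsg.IsPConstrained p ↥(Subgroup.centralizer (P : Set G)) := by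
  have hf := QuotientGroup.mk'_surjective (pPrimeCore p G)
  have hk : (Nat.card (QuotientGroup.mk' (pPrimeCore p G)).ker).Coprime p := by
    rw [QuotientGroup.ker_mk']; exact coprime_pPrimeCore p G
  have h := isPConstrained_iff.1 hG
  constructor
  · refine isPConstrained_of_map hk ?_
    rw [← normalizer_map_of_coprime hf hk hP]
    exact isPConstrained_of_charP (charP_normalizer h (hP.map _))
  · refine isPConstrained_of_map hk ?_
    rw [← centralizer_map_of_coprime hf hk hP]
    exact isPConstrained_of_charP (charP_centralizer h (hP.map _))


end Cfsg.Agent.S0631
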