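import Cfsg.Statements.S0680
import Cfsg.Agent.Perm.Sharp2

set_option autoImplicit false
open Cfsg

namespace Cfsg.Agent.S0680

open MulAction Perm

/-- A finite sharply doubly transitive permutation group has degree a prime power `p ^ j`; a Sylow `p`-subgroup is normal, elementary abelian and regular, and consists of the identity together with the elements without fixed points. (Frobenius' Theorem is not needed.) -/
theorem result {α : Type*} [Fintype α] [DecidableEq α] (G : Subgroup (Equiv.Perm α)) [MulAction.IsMultiplyPretransitive G α 2] (hsharp : ∀ x : Fin 2 ↪ α, MulAction.stabilizer G x = ⊥) (h2 : 2 ≤ Fintype.card α) : ∃ p j : ℕ, p.Prime ∧ 1 ≤ j ∧ Fintype.card α = p ^ j ∧ ∀ (hp : Fact p.Prime) (P : Sylow p G), (P : Subgroup G).Normal ∧ IsMulCommutative (P : Subgroup G) ∧ (∀ x ∈ (P : Subgroup G), x ^ p = 1) ∧ MulAction.IsPretransitive (P : Subgroup G) α ∧ (∀ a : α, MulAction.stabilizer (P : Subgroup G) a = ⊥) ∧ ∀ g : G, g ∈ (P : Subgroup G) ↔ g = 1 ∨ ∀ a : α, g • a ≠ a := by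
  haveI : Nontrivial α := Fintype.one_lt_card_iff_nontrivial.mp h2
  have hs : ∀ g : G, ∀ x y : α, x ≠ y → g • x = x → g • y = y → g = 1 :=
    fun g x y h => eq_one_of_sharp_two hsharp h
  obtain ⟨N, hN, hN1, hmem, ht, hab, p, hp, hpow⟩ := sharp2_exists_kernel inferInstance hs
  have hr : ∀ a : α, ∀ u ∈ N, u • a = a → u = 1 := fun a u hu h =>
    ((hmem u).mp hu).resolve_right fun h' => h' a h
  haveI : Nontrivial N := (Subgroup.nontrivial_iff_ne_bot N).mpr hN1
  obtain ⟨j, hj, hcard⟩ := exists_card_eq_pow (N := N) hp fun x => Subtype.ext (hpow x x.2)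
  obtain ⟨a⟩ : Nonempty α := inferInstance
  rw [card_eq_of_regular ht a (hr a), Nat.card_eq_fintype_card] at hcard
  refine ⟨p, j, hp, hj, hcard, fun _ P => ?_⟩
  have hP : N = P := P.3 (fun x => ⟨1, Subtype.ext (by simpa using hpow x x.2)⟩) fun g hg => by
    rw [hmem]
    by_contra! h
    obtain ⟨hg1, b, hb⟩ := h
    obtain ⟨x, hx, hx'⟩ := exists_fixed_of_not_dvd (P := P ⊓ stabilizer G b) (P.2.to_inf_left)
      ({b}ᶜ : Set α) (fun k hk x hx h => hx (by
        rw [Set.mem_singleton_iff, ← show k • b = b from hk.2] at h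
        exact smul_left_cancel k h)) (fun h => by
      have h1 := Set.ncard_add_ncard_compl ({b} : Set α)
      rw [Set.ncard_singleton, Nat.card_eq_fintype_card, hcard] at h1
      rw [Nat.card_coe_set_eq] at h
      have h2 : p ∣ p ^ j := dvd_pow_self p (by omega)
      rw [← h1] at h2
      exact hp.one_lt.ne' (Nat.dvd_one.mp ((Nat.dvd_add_left h).mp h2)))
    exact hg1 (hs g x b hx (hx' g ⟨hg, hb⟩) hb)
  rw [← hP]
  exact ⟨hN, isMulCommutative_of_forall hab, hpow, ht,
    fun a => (stabilizer_eq_bot_iff N a).mpr (hr a), hmem⟩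

end Cfsg.Agent.S0680
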