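import Cfsg.Statements.S0704
import Cfsg.Agent.Perm.Regular

set_option autoImplicit false
open Cfsg

namespace Cfsg.Agent.S0704

open MulAction Cfsg.Agent.Perm

theorem centralizer_eq {α : Type*} (G : Subgroup (Equiv.Perm α)) (M N : Subgroup G) (a : α)
    (hc : ∀ m ∈ M, ∀ n ∈ N, m * n = n * m) (hMt : IsPretransitive M α)
    (hNt : IsPretransitive N α) :
    Subgroup.centralizer ((M.map G.subtype : Subgroup (Equiv.Perm α)) : Set (Equiv.Perm α)) =
      N.map G.subtype := by
  have hMt' : IsPretransitive (M.map G.subtype) α := ⟨fun x y => by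
    obtain ⟨m, hm⟩ := exists_smul_eq M x y
    exact ⟨⟨m, m, m.2, rfl⟩, hm⟩⟩
  have hle : N.map G.subtype ≤
      Subgroup.centralizer ((M.map G.subtype : Subgroup (Equiv.Perm α)) : Set (Equiv.Perm α)) := by
    rintro _ ⟨n, hn, rfl⟩ _ ⟨m, hm, rfl⟩
    exact congrArg Subtype.val (hc m hm n hn)
  refine le_antisymm (fun c hcM => ?_) hle
  obtain ⟨n, hn⟩ := exists_smul_eq N a (c a)
  have hn' : ((n : G) : Equiv.Perm α) ∈ N.map G.subtype := ⟨n, n.2, rfl⟩
  have := eq_one_of_commute hMt' (c := ((n : G) : Equiv.Perm α)⁻¹ * c)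
    (fun h hh => Subgroup.mul_mem _ (Subgroup.inv_mem _ (hle hn')) hcM h hh) (a := a)
    (by rw [mul_smul, inv_smul_eq_iff]; exact hn.symm)
  rw [inv_mul_eq_one] at this
  exact this ▸ hn'

/-- Two distinct transitive minimal normal subgroups `M`, `N` of a permutation group are regular, non-abelian, isomorphic, each other's centraliser in the symmetric group, and the only minimal normal subgroups. -/
theorem result {α : Type*} (G : Subgroup (Equiv.Perm α)) (M N : Subgroup G) [M.Normal] [N.Normal] (hM : M ≠ ⊥) (hN : N ≠ ⊥) (hMmin : ∀ L : Subgroup G, L.Normal → L ≤ M → L = ⊥ ∨ L = M) (hNmin : ∀ L : Subgroup G, L.Normal → L ≤ N → L = ⊥ ∨ L = N) (hMN : M ≠ N) (hMt : MulAction.IsPretransitive M α) (hNt : MulAction.IsPretransitive N α) : (∀ a : α, MulAction.stabilizer M a = ⊥) ∧ (∀ a : α, MulAction.stabilizer N a = ⊥) ∧ ¬ IsMulCommutative M ∧ Nonempty (M ≃* N) ∧ Subgroup.centralizer ((M.map G.subtype : Subgroup (Equiv.Perm α)) : Set (Equiv.Perm α)) = N.map G.subtype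 ∧ Subgroup.centralizer ((N.map G.subtype : Subgroup (Equiv.Perm α)) : Set (Equiv.Perm α)) = M.map G.subtype ∧ ∀ L : Subgroup G, L.Normal → L ≠ ⊥ → (∀ L' : Subgroup G, L'.Normal → L' ≤ L → L' = ⊥ ∨ L' = L) → L = M ∨ L = N := by
  have hne : Nonempty α := by
    by_contra h
    rw [not_nonempty_iff] at h
    apply hM
    rw [eq_bot_iff]
    intro x _
    exact Subsingleton.elim _ _
  obtain ⟨a⟩ := hne
  have h1 : ¬ M ≤ N := fun h => (hNmin M ‹_› h).elim hM hMN
  have h2 : ¬ N ≤ M := fun h => (hMmin N ‹_› h).elim hN hMN.symm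
  have hc := commute_of_minimal_normal hMmin h1
  have hc' := commute_of_minimal_normal hNmin h2
  have hMr : ∀ x : α, ∀ m ∈ M, m • x = x → m = 1 := fun x m hm hx =>
    eq_one_of_commute hNt (fun n hn => hc' n hn m hm) hx
  have hNr : ∀ x : α, ∀ n ∈ N, n • x = x → n = 1 := fun x n hn hx =>
    eq_one_of_commute hMt (fun m hm => hc m hm n hn) hx
  have hC1 := centralizer_eq G M N a hc hMt hNt
  have hC2 := centralizer_eq G N M a hc' hNt hMt
  have hle : ∀ L : Subgroup G, (∀ m ∈ M, ∀ l ∈ L, m * l = l * m) → L ≤ N := by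
    intro L hL l hl
    have : (l : Equiv.Perm α) ∈ N.map G.subtype := by
      rw [← hC1]
      rintro _ ⟨m, hm, rfl⟩
      exact congrArg Subtype.val (hL m hm l hl)
    obtain ⟨n, hn, h⟩ := this
    exact Subtype.ext h ▸ hn
  refine ⟨fun x => (stabilizer_eq_bot_iff M x).mpr (hMr x),
    fun x => (stabilizer_eq_bot_iff N x).mpr (hNr x),
    fun h => h1 (hle M (mul_comm_of_isMulCommutative h)), ?_, hC1, hC2, ?_⟩
  · let eM := regularEquiv hMt a (hMr a)
    let eN := regularEquiv hNt a (hNr a)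
    let e : M ≃ N := (Equiv.inv M).trans (eM.trans eN.symm)
    have he : ∀ m : M, ((e m : N) : G) • a = (m : G)⁻¹ • a := fun m =>
      eN.apply_symm_apply (eM m⁻¹)
    refine ⟨{ e with map_mul' := fun m₁ m₂ => eN.injective ?_ }⟩
    change ((e (m₁ * m₂) : N) : G) • a = ((e m₁ : G) * (e m₂ : G)) • a
    rw [he, mul_smul, he, ← mul_smul, hc' _ (e m₁).2 _ (M.inv_mem m₂.2), mul_smul, he,
      Subgroup.coe_mul, mul_inv_rev, mul_smul]
  · intro L hLn hL hLmin
    by_cases h : L ≤ M
    · exact Or.inl ((hMmin L hLn h).resolve_left hL)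
    · right
      have := commute_of_minimal_normal hLmin h
      exact (hNmin L hLn (hle L fun m hm l hl => (this l hl m hm).symm)).resolve_left hL

end Cfsg.Agent.S0704
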