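import Cfsg.Statements.S0722

set_option autoImplicit false
open Cfsg

namespace Cfsg.Agent.S0722

open MulAction

/-- In a primitive group `H`, with `N` a minimal normal subgroup and `K` a point stabiliser, `K ⊓ N` is maximal among proper `K`-invariant subgroups of `N`. -/
theorem result {α : Type*} [Finite α] (H : Subgroup (Equiv.Perm α)) [MulAction.IsPreprimitive H α] (N : Subgroup H) [N.Normal] (hN : N ≠ ⊥) (hmin : ∀ M : Subgroup H, M.Normal → M ≤ N → M = ⊥ ∨ M = N) (a : α) (X : Subgroup H) (hX : X ≤ N) (hKX : MulAction.stabilizer H a ⊓ N ≤ X) (hinv : MulAction.stabilizer H a ≤ Subgroup.normalizer (X : Set H)) : X = MulAction.stabilizer H a ⊓ N ∨ X = N := by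
  by_cases hα : Nontrivial α
  swap
  · exfalso
    apply hN
    rw [not_nontrivial_iff_subsingleton] at hα
    rw [eq_bot_iff]
    intro x _
    exact Subsingleton.elim _ _
  have hco := IsPreprimitive.isCoatom_stabilizer_of_isPreprimitive H a
  have hmul := Subgroup.coe_mul_of_left_le_normalizer_right (stabilizer H a) X hinv
  have key : ∀ n ∈ stabilizer H a ⊔ X, ∃ k ∈ stabilizer H a, ∃ x ∈ X, k * x = n := by
    intro n hn
    have : n ∈ ((stabilizer H a ⊔ X : Subgroup H) : Set H) := hn
    rw [hmul] at this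
    exact this
  rcases (le_sup_left : stabilizer H a ≤ stabilizer H a ⊔ X).eq_or_lt with h | h
  · left
    refine le_antisymm (le_inf ?_ hX) hKX
    rw [h]; exact le_sup_right
  · right
    refine le_antisymm hX fun n hn => ?_
    obtain ⟨k, hk, x, hx, rfl⟩ := key n (by rw [hco.2 _ h]; trivial)
    have hkN : k ∈ N := by simpa using N.mul_mem hn (N.inv_mem (hX hx))
    exact X.mul_mem (hKX ⟨hk, hkN⟩) hx

end Cfsg.Agent.S0722
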