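import Cfsg.Statements.S0730
import Cfsg.Agent.Perm.Zass3

set_option autoImplicit false
open Cfsg

namespace Cfsg.Agent.S0730

open MulAction Perm

/-- A sharply triply transitive group of degree `p^f + 1`, `p` an odd prime and `f` odd, is isomorphic to the projective general linear group of degree 2 over the field with `p^f` elements (for even `f` there is a second, twisted, group). -/
theorem result {α : Type*} [Fintype α] [DecidableEq α] {p f : ℕ} (hp : p.Prime) (hp2 : p ≠ 2) (hfo : Odd f) (hα : Fintype.card α = p ^ f + 1) (G : Subgroup (Equiv.Perm α)) (h3 : MulAction.IsMultiplyPretransitive G α 3) (hsharp : ∀ x : Fin 3 ↪ α, MulAction.stabilizer G x = ⊥) : ∃ (F : Type) (_ : Field F) (_ : Fintype F), Fintype.card F = p ^ f ∧ Nonempty (G ≃* Matrix.ProjGenLinGroup (Fin 2) F) := by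
  have h1 : 2 ≤ p ^ f := hp.two_le.trans (Nat.le_self_pow (by rintro rfl; simp at hfo) p)
  obtain ⟨a, b, c, hab, hac, hbc⟩ := (Fintype.two_lt_card_iff (α := α)).mp (by omega)
  obtain ⟨s, hsa, hsb, hsc⟩ := exists_smul_three h3 hab hac hbc hab.symm hbc hac
  obtain ⟨K, _, _, hK, he⟩ := Sharp3.equiv_PGL_of_odd h3
    (fun g x y z h1 h2 h3 => eq_one_of_sharp_three hsharp h1 h2 h3) hab hac hbc hsa hsb hsc hp hp2 hfo
    (by rwa [Nat.card_eq_fintype_card])
  refine ⟨K, inferInstance, inferInstance, ?_, he⟩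
  rw [Nat.card_eq_fintype_card] at hK
  omega

end Cfsg.Agent.S0730
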