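import Cfsg.Statements.S0731
import Cfsg.Agent.Perm.ZassAb

set_option autoImplicit false
open Cfsg

namespace Cfsg.Agent.S0731

open MulAction Perm

/-- A finite Zassenhaus group whose point stabiliser has an abelian regular normal subgroup on the remaining points is sharply triply transitive or isomorphic to `PSL(2, F)` for a finite field `F` of odd characteristic. -/
theorem result {G Ω : Type*} [Group G] [Finite G] [MulAction G Ω] [Finite Ω] (hZ : Cfsg.IsZassenhausGroup G Ω) (x : Ω) (F : Subgroup G) (hFle : F ≤ MulAction.stabilizer G x) (hFn : (F.subgroupOf (MulAction.stabilizer G x)).Normal) (hFab : IsMulCommutative F) (hreg : ∀ y z : Ω, y ≠ x → z ≠ x → ∃! u : F, (u : G) • y = z) : (MulAction.IsMultiplyPretransitive G Ω 3 ∧ ∀ t : Fin 3 ↪ Ω, MulAction.stabilizer G t = ⊥) ∨ ∃ (K : Type) (_ : Field K) (_ : Fintype K), ringChar K ≠ 2 ∧ Nonempty (G ≃* Matrix.ProjectiveSpecialLinearGroup (Fin 2) K) := by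
  obtain ⟨b, hb⟩ : ∃ b, x ≠ b := by
    obtain ⟨-, -, a, b, hab, -⟩ := hZ.2.2.2.1
    by_contra! h
    exact hab ((h a).symm.trans (h b))
  refine (Zass.classify_of_comm hZ hb (Zass.mem_kernel_iff hZ hb hFle hreg)
    (Subgroup.commutator_eq_bot_iff_le_centralizer.2 F.le_centralizer)).imp (fun h => ?_)
    fun ⟨_, K, i, j, _, h⟩ => ⟨K, i, j, h⟩
  exact ⟨Zass.three_of_card hZ hb h.ge, sharp_of_forall fun t ht g hg =>
    Zass.eq_one hZ (ht.ne (by decide : (0 : Fin 3) ≠ 1)) (ht.ne (by decide : (0 : Fin 3) ≠ 2))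
      (ht.ne (by decide : (1 : Fin 3) ≠ 2)) (hg 0) (hg 1) (hg 2)⟩

end Cfsg.Agent.S0731
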