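import Cfsg.Statements.S0738
import Cfsg.Agent.Perm.Zass
import Cfsg.Agent.Perm.Sharp2

set_option autoImplicit false
open Cfsg

namespace Cfsg.Agent.S0738

open MulAction Perm

/-- Let a finite Zassenhaus group of degree `n + 1` have two-point stabilisers of order `d` with `2d ≥ n - 1`. Then a normal subgroup of a point stabiliser acting regularly on the remaining points is elementary abelian, and the degree is a prime power plus one. -/
theorem result {G Ω : Type*} [Group G] [Finite G] [MulAction G Ω] [Fintype Ω] (hZ : Cfsg.IsZassenhausGroup G Ω) {a b : Ω} (hab : a ≠ b) (hd : Fintype.card Ω - 2 ≤ 2 * Nat.card ↥(MulAction.stabilizer G a ⊓ MulAction.stabilizer G b)) (F : Subgroup G) (hFle : F ≤ MulAction.stabilizer G a) (hFn : (F.subgroupOf (MulAction.stabilizer G a)).Normal) (hreg : ∀ y z : Ω, y ≠ a → z ≠ a → ∃! u : F, (u : G) • y = z) : IsMulCommutative F ∧ ∃ p f : ℕ, p.Prime ∧ (∀ u ∈ F, u ^ p = 1) ∧ Fintype.card Ω = p ^ f + 1 := by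
  have hF := Zass.mem_kernel_iff hZ hab hFle hreg
  have ht : ∀ y z : Ω, y ≠ a → z ≠ a → ∃ u ∈ F, u • y = z := fun y z hy hz => by
    obtain ⟨u, hu, -⟩ := hreg y z hy hz
    exact ⟨u, u.2, hu⟩
  have hn : ∀ g : G, g • a = a → ∀ x ∈ F, g * x * g⁻¹ ∈ F := fun g hg x hx =>
    hFn.conj_mem ⟨x, hFle hx⟩ hx ⟨g, hg⟩
  have hcard := Zass.card_kernel hab hF ht
  rw [Nat.card_eq_fintype_card (α := Ω)] at hcard
  have hc := Zass.comm_of_le hZ hab hF ht hn (by omega)
  have hF1 : F ≠ ⊥ := by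
    rintro rfl
    obtain ⟨c, hca, hcb⟩ := Zass.exists_third hZ hab
    obtain ⟨u, hu, h⟩ := ht b c hab.symm hca
    rw [Subgroup.mem_bot.mp hu, one_smul] at h
    exact hcb h.symm
  obtain ⟨p, hp, x, hx, hxp⟩ := exists_prime_orderOf hF1
  have hpow : ∀ u ∈ F, u ^ p = 1 := by
    rcases Zass.irreducible_of_le hZ hab hF (by omega) (omegaAb F hc p) (fun u hu => hu.1)
      (fun h hh u hu => ⟨hn h hh.1 u hu.1, by rw [conj_pow, hu.2]; simp⟩) with h | h
    · have : x = 1 := Subgroup.mem_bot.mp (h.le ⟨hx, by rw [← hxp, pow_orderOf_eq_one]⟩)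
      exact absurd (by simpa [this] using hxp) hp.one_lt.ne
    · exact fun u hu => (h.ge hu).2
  haveI : Nontrivial F := (Subgroup.nontrivial_iff_ne_bot F).mpr hF1
  obtain ⟨f, -, hf⟩ := exists_card_eq_pow (N := F) hp fun u => Subtype.ext (hpow u u.2)
  exact ⟨isMulCommutative_of_forall hc, p, f, hp, hpow, by omega⟩

end Cfsg.Agent.S0738
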