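import Cfsg.Statements.S1164
import Cfsg.Agent.Mult.CT
import Cfsg.Agent.Mult.K2
import Cfsg.Agent.Chev.AllC

set_option autoImplicit false
open Cfsg

namespace Cfsg.Agent.S1164

open Cfsg.Agent.Chev Cfsg.Agent.Mult Cfsg.Lie

theorem inRank_iff {D : ChevalleyDatum} [Good D] (i j : Sm D) (r : Rt D) : D.InRankTwoSub i j r ↔ InJ {i, j} r := by
  refine ⟨fun h k hk => (cov_eq_zero_iff r k).1 (h.2.2.2 k k.2 (fun e => hk (.inl (Fin.ext e)))
    fun e => hk (.inr (Fin.ext e))), fun h => ⟨r.2, i.2, j.2, fun k hk e1 e2 =>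
    (cov_eq_zero_iff r ⟨k, hk⟩).2 (h _ ?_)⟩⟩
  rintro (rfl | rfl) <;> contradiction

open scoped _root_.Classical in
theorem main {D : ChevalleyDatum} [Good D] [Conn D] (K : Type*) [Field K] [Finite K] :
    ∃ e : D.CurtisTitsGroup K ≃* D.SteinbergGroup K, ∀ (i j r : ℕ) (t : K), D.InRankTwoSub i j r →
      e (PresentedGroup.mk (D.curtisTitsRels K) (D.stX r t)) = D.stGen K r t := by
  have h0 : ∀ {r : Rt D}, (¬ ∃ i j, InJ {i, j} r) → ∀ t, PresentedGroup.mk (D.curtisTitsRels K) (D.stX r t) = 1 :=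
    fun {r} h t => PresentedGroup.one_of_mem (.inl (.inl (.inl ⟨r, t, r.2, fun i j hr =>
      h ⟨⟨i, hr.2.1⟩, ⟨j, hr.2.2.1⟩, (inRank_iff _ _ r).1 hr⟩, rfl⟩)))
  let Y : Fam D K (D.CurtisTitsGroup K) := ⟨fun r t => PresentedGroup.mk _ (D.stX r t), fun r t u => by
    by_cases h : ∃ i j, InJ {i, j} r
    · obtain ⟨i, j, h⟩ := h
      have := PresentedGroup.one_of_mem (rels := D.curtisTitsRels K)
        (.inl (.inl (.inr ⟨i, j, r, t, u, (inRank_iff i j r).2 h, rfl⟩)))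
      rw [map_mul, map_mul, map_inv, mul_inv_eq_one] at this
      exact this.symm
    · simp [h0 h]⟩
  obtain ⟨Z, hZ⟩ := curtis_tits Y fun i j r s hr hs h1 h2 t u => by
    have := PresentedGroup.one_of_mem (rels := D.curtisTitsRels K) (.inl (.inr ⟨i, j, r, s, t, u,
      (inRank_iff i j r).2 hr, (inRank_iff i j s).2 hs, fun e => h1 (Fin.ext e), fun e => h2 (Fin.ext e), rfl⟩))
    simpa only [map_mul, map_inv, mul_inv_eq_one, mk_stWord, commW_eq] using this
  let f : Rt D × K → D.SteinbergGroup K := fun p => if ∃ i j, InJ {i, j} p.1 then (stS D K).x p.1 p.2 else 1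
  have h1 : ∀ {i j : Sm D} {r : Rt D}, InJ {i, j} r → ∀ t, FreeGroup.lift f (D.stX r t) = (stS D K).x r t :=
    fun h t => by rw [stX_val, FreeGroup.lift_apply_of]; exact if_pos ⟨_, _, h⟩
  have h2 : ∀ {i j : Sm D} (w : List (ℕ × K)), (∀ p ∈ w, ∃ h : p.1 < D.nroots, InJ {i, j} ⟨p.1, h⟩) →
      FreeGroup.lift f (D.stWord w) = gword (stS D K).x w := fun w hw => by
    simp only [ChevalleyDatum.stWord, gword, map_list_prod, List.map_map]
    congr 1
    refine List.map_congr_left fun p hp => ?_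
    obtain ⟨h, h'⟩ := hw p hp
    exact (h1 h' _).trans (by rw [dif_pos h])
  have h3 : ∀ {i j : Sm D} {r : Rt D}, InJ {i, j} r → ∀ t, FreeGroup.lift f (D.stH r t) = (stS D K).h r t :=
    fun {i j r} h t => by
      rw [ChevalleyDatum.stH, h2 (i := i) (j := j), stS_h, ChevalleyDatum.stH, mk_stWord]; rfl
      simp only [ChevalleyDatum.hWord, ChevalleyDatum.nWord, ← ng_val]
      simpa [h] using ⟨(ng r).2, inJ_ng.2 h⟩
  let φ : D.CurtisTitsGroup K →* D.SteinbergGroup K := PresentedGroup.toGroup (f := f) (by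
    rintro _ (((⟨r, t, hr, h, rfl⟩ | ⟨i, j, r, t, u, h, rfl⟩) | ⟨i, j, r, s, t, u, hr, hs, e1, e2, rfl⟩) |
      ⟨i, j, r, t, u, h, ht, hu, rfl⟩)
    · rw [stX_val ⟨r, hr⟩, FreeGroup.lift_apply_of]
      exact if_neg fun ⟨i, j, h'⟩ => h i j ((inRank_iff i j ⟨r, hr⟩).2 h')
    · have h' := (inRank_iff ⟨i, h.2.1⟩ ⟨j, h.2.2.1⟩ ⟨r, h.1⟩).1 h
      simp only [map_mul, map_inv, h1 h', Sys.add, mul_inv_cancel]
    · have hr' := (inRank_iff ⟨i, hr.2.1⟩ ⟨j, hr.2.2.1⟩ ⟨r, hr.1⟩).1 hr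
      have hs' := (inRank_iff ⟨i, hr.2.1⟩ ⟨j, hr.2.2.1⟩ ⟨s, hs.1⟩).1 hs
      simp only [map_mul, map_inv, h1 hr', h1 hs', commW_eq]
      rw [h2 _ fun p hp => (comb_of_mem_commW (r := ⟨r, hr.1⟩) (s := ⟨s, hs.1⟩) hp).imp fun _ h =>
        Mult.Comb.inJ h hr' hs', (stS D K).comm_eq (fun e => e1 (congrArg Fin.val e)) fun e => e2 (congrArg Fin.val e),
        mul_inv_cancel]
    · have h' := (inRank_iff ⟨i, h.2.1⟩ ⟨j, h.2.2.1⟩ ⟨r, h.1⟩).1 h
      simp only [map_mul, map_inv, h3 h', stS_mult D K _ _ _ ht hu, mul_inv_cancel])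
  have h4 : ∀ {i j : Sm D} {r : Rt D}, InJ {i, j} r → ∀ t, φ (Y.x r t) = (stS D K).x r t := fun h t => h1 h t
  have m := mult_of_finite Z
  refine ⟨MonoidHom.toMulEquiv φ m.lift (PresentedGroup.ext fun p => ?_) ?_, fun i j r t h =>
    h4 ((inRank_iff ⟨i, h.2.1⟩ ⟨j, h.2.2.1⟩ ⟨r, h.1⟩).1 h) t⟩
  · have e : PresentedGroup.of p = Y.x p.1 p.2 := congrArg _ (stX_val p.1 p.2).symm
    rw [e]
    by_cases h : ∃ i j, InJ {i, j} p.1
    · obtain ⟨i, j, h⟩ := h
      exact (congrArg m.lift (h4 h _)).trans ((m.lift_stGen _ _).trans (hZ i j _ h _))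
    · simp [Y, h0 h]
  · refine MonoidHom.ext fun y => ((stS_U_univ D K).ge.trans ((stS D K).U_univ_le
      (K := (φ.comp m.lift).eqLocus (MonoidHom.id _)) (fun j t => ?_) fun j t => ?_)) (Subgroup.mem_top y)
    · exact (congrArg φ ((m.lift_stGen _ _).trans (hZ j j _ (inJ_left j j) _))).trans (h4 (inJ_left j j) _)
    · exact (congrArg φ ((m.lift_stGen _ _).trans (hZ j j _ (inJ_ng.2 (inJ_left j j)) _))).trans
        (h4 (inJ_ng.2 (inJ_left j j)) _)

/-- Curtis–Tits: for the Chevalley datum of type D₄, F₄, E₆, E₇ or E₈ and a field `K` with at least four elements, there is an isomorphism from the group presented by the Curtis–Tits relators (additivity, the commutator relators and the `h̄`-relators only for roots inside a common rank-two subsystem spanned by two fundamental roots, all other generators killed) onto the group of Steinberg's presentation, sending each generator `x̄_r(t)` with `r` in such a subsystem to `x̄_r(t)`.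 -/
theorem result (D : Cfsg.Lie.ChevalleyDatum)
    (hD : D ∈ [Cfsg.Lie.chevD4, Cfsg.Lie.chevF4, Cfsg.Lie.chevE6, Cfsg.Lie.chevE7, Cfsg.Lie.chevE8])
    (K : Type*) [Field K] [Fintype K] (hK : 4 ≤ Fintype.card K) :
    ∃ e : D.CurtisTitsGroup K ≃* D.SteinbergGroup K,
      ∀ (i j r : ℕ) (t : K), D.InRankTwoSub i j r →
        e (PresentedGroup.mk (D.curtisTitsRels K) (D.stX r t)) = D.stGen K r t := by
  obtain ⟨⟨_⟩, c⟩ := conn_of_mem (List.mem_cons_of_mem _ (List.mem_cons_of_mem _ hD))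
  exact main K

end Cfsg.Agent.S1164
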