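import Cfsg.Statements.S1220
import Cfsg.Agent.SE.Bender2

set_option autoImplicit false
open Cfsg

namespace Cfsg.Agent.S1220

/-- Let H be a strongly embedded subgroup of the finite group G. Then either G acts doubly transitively on the cosets of H (H permutes transitively the cosets gH with g ∉ H), or every Sylow 2-subgroup of G is cyclic or generalized quaternion and G = O(G)H. -/
theorem result {G : Type*} [Group G] [Finite G] (H : Subgroup G) (hH : Cfsg.IsStronglyEmbedded H) : (∀ g₁ g₂ : G, g₁ ∉ H → g₂ ∉ H → ∃ h ∈ H, g₂⁻¹ * (h * g₁) ∈ H) ∨ ((∀ S : Sylow 2 G, IsCyclic S ∨ ∃ m : ℕ, 1 ≤ m ∧ Nonempty ((S : Subgroup G) ≃* QuaternionGroup (2 ^ m))) ∧ Cfsg.oddCore G ⊔ H = ⊤) := by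
  by_cases hr : SE.Rank2 (⊤ : Subgroup G)
  · refine Or.inl fun g₁ g₂ h₁ h₂ => ?_
    obtain ⟨T, hT, -, -, h, -⟩ := ((SE.one_of_se hH).tii (N := ⊤) (a := SE.pt H)
      (by rw [SE.St_pt, top_inf_eq]; exact SE.se_rank2 hH hr)
      (by rw [SE.St_pt, top_le_iff]; exact hH.1)).two
    obtain ⟨x, hx, e⟩ := h g₁ trivial g₂ trivial (fun e => h₁ (SE.smul_pt.1 e)) fun e => h₂ (SE.smul_pt.1 e)
    exact ⟨x, SE.smul_pt.1 (hT hx).2, SE.smul_pt.1 (by rw [mul_smul, mul_smul, e, inv_smul_smul])⟩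
  · exact Or.inr ⟨fun S => SE.cyclic_or_quaternion S.2 fun h => hr (h.mono le_top), SE.rank1_sup hH hr⟩

end Cfsg.Agent.S1220
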