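import Cfsg.Statements.S1222
import Cfsg.Agent.SZ.Main
import Cfsg.Agent.Small.Low

set_option autoImplicit false
open Cfsg

namespace Cfsg.Agent.S1222

/-- Let G be a finite simple group with a strongly embedded subgroup H such that H permutes transitively the cosets gH with g ∉ H, and H has a normal subgroup Q acting regularly on those cosets (transitively, with only the identity fixing any of them). Then G is isomorphic to PSL(2,F) with F of characteristic 2 and at least 4 elements, or is simple with the order of a Suzuki group, or is isomorphic to PSU(3) over a field with q² elements, q ≥ 4 a power of 2. -/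
theorem result {G : Type*} [Group G] [Finite G] [IsSimpleGroup G] (H : Subgroup G) (hH : Cfsg.IsStronglyEmbedded H) (Q : Subgroup G) (hQH : Q ≤ H) (hQn : (Q.subgroupOf H).Normal) (htrans : ∀ g₁ g₂ : G, g₁ ∉ H → g₂ ∉ H → ∃ u ∈ Q, g₂⁻¹ * (u * g₁) ∈ H) (hreg : ∀ g : G, g ∉ H → ∀ u ∈ Q, g⁻¹ * (u * g) ∈ H → u = 1) : (∃ (F : Type) (_ : Field F) (_ : Fintype F), CharP F 2 ∧ 4 ≤ Fintype.card F ∧ Nonempty (G ≃* Matrix.ProjectiveSpecialLinearGroup (Fin 2) F)) ∨ Cfsg.IsSuzuki G ∨ (∃ (F : Type) (_ : Field F) (_ : Fintype F) (q : ℕ), Fintype.card F = q ^ 2 ∧ Even q ∧ 4 ≤ q ∧ Nonempty (G ≃* Cfsg.PSU 3 F q)) := by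
  open Cfsg.Agent.Invol Cfsg.Agent.Rank1 Cfsg.Agent.Suz MulAction in
  obtain ⟨t, htH, ht⟩ := SE.exists_invol_not_mem hH
  have e1 : ∀ g : G, g • ((1 : G) : G ⧸ H) = ((1 : G) : G ⧸ H) ↔ g ∈ H := fun g => by
    rw [← mem_stabilizer_iff, stabilizer_quotient]
  have e2 : ∀ g x : G, g • (x : G ⧸ H) = ((g * x : G) : G ⧸ H) := fun g x => rfl
  have hD : ∀ d ∈ D2 G ((1 : G) : G ⧸ H) t, orderOf d ≠ 2 := fun d hd h2 => by
    have k1 := (e1 d).1 hd.1
    have k2 : d • t • ((1 : G) : G ⧸ H) = t • ((1 : G) : G ⧸ H) := hd.2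
    rw [← inv_smul_eq_iff, smul_smul, smul_smul, e1] at k2
    exact htH (by simpa using H.inv_mem (SE.mem_of_conj hH k1 h2 (g := t⁻¹) (by simpa using k2)))
  have hreg' : ∀ x ∈ Q, x • t • ((1 : G) : G ⧸ H) = t • ((1 : G) : G ⧸ H) → x = 1 := fun x hx h => by
    rw [← inv_smul_eq_iff, smul_smul, smul_smul, e1] at h
    exact hreg t htH x hx (by simpa [mul_assoc] using h)
  have htr : ∀ b : G ⧸ H, b ≠ ((1 : G) : G ⧸ H) → ∃ x ∈ Q, x • t • ((1 : G) : G ⧸ H) = b := fun b hb => by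
    induction b using QuotientGroup.induction_on with | H g => ?_
    obtain ⟨u, hu, h⟩ := htrans t g htH fun h => hb (QuotientGroup.eq.2 (by simpa using h))
    exact ⟨u, hu, by rw [e2, e2, mul_one]; exact (QuotientGroup.eq.2 h).symm⟩
  have hev : Even (Nat.card Q) := by
    obtain ⟨s, hs, h2⟩ := SE.exists_invol_mem hH
    by_contra ho
    rw [Nat.not_even_iff_odd] at ho
    have hb : s • t • ((1 : G) : G ⧸ H) ≠ ((1 : G) : G ⧸ H) := fun h => htH (by
      rw [smul_smul, e1] at h; simpa using H.mul_mem (H.inv_mem hs) h)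
    let φ : H →* H ⧸ Q.subgroupOf H := QuotientGroup.mk' _
    obtain ⟨x, hx, h⟩ := htr _ hb
    have hd : x⁻¹ * s ∈ D2 G ((1 : G) : G ⧸ H) t :=
      ⟨(e1 _).2 (H.mul_mem (H.inv_mem (hQH hx)) hs), by
        show (x⁻¹ * s) • t • _ = _
        rw [mul_smul, ← h, inv_smul_smul]⟩
    have o1 : Odd (orderOf (x⁻¹ * s)) := odd_orderOf_of_mem (odd_card_iff.2 hD) hd
    have k1 : φ ⟨x, hQH hx⟩ = 1 := (QuotientGroup.eq_one_iff _).2 hx
    have k2 : φ ⟨s, hs⟩ = φ ⟨x⁻¹ * s, H.mul_mem (H.inv_mem (hQH hx)) hs⟩ := by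
      rw [show (⟨x⁻¹ * s, H.mul_mem (H.inv_mem (hQH hx)) hs⟩ : H) = (⟨x, hQH hx⟩ : H)⁻¹ * ⟨s, hs⟩ from rfl,
        map_mul, map_inv, k1, inv_one, one_mul]
    have k3 : φ ⟨s, hs⟩ = 1 := eq_one_of_odd_of_mul_self (by
      rw [k2]; exact o1.of_dvd_nat ((orderOf_map_dvd _ _).trans (by rw [← Subgroup.orderOf_coe]))) (by
      rw [← map_mul, show (⟨s, hs⟩ : H) * ⟨s, hs⟩ = 1 from Subtype.ext (mul_self_of h2), map_one])
    exact odd_card_iff.1 ho s ((QuotientGroup.eq_one_iff (N := Q.subgroupOf H) ⟨s, hs⟩).1 k3) h2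
  have hS := setup_mk (mul_self_of ht) (fun h => htH ((e1 t).1 h)) (fun x hx => (e1 x).2 (hQH hx))
    (fun g hg x hx => hQn.conj_mem ⟨x, hQH hx⟩ hx ⟨g, (e1 g).1 hg⟩) hreg' htr hev (odd_card_iff.2 hD)
  have hc : ¬ IsCyclic G := fun hc => by
    obtain ⟨s, hs, h2⟩ := SE.exists_invol_mem hH
    exact htH (SE.mem_of_commute hH hs h2 (hc.isMulCommutative.is_comm.comm t s))
  obtain ⟨u, hu, h1, h2⟩ := Cfsg.Agent.Small.exists_commute_conj hc ht
  have h3 := (orderOf_of_isConj hu).symm.trans ht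
  exact Hyp.bender_form ⟨hS, t, u, ne_one_of ht, ne_one_of h3, h2.symm, mul_self_of ht, mul_self_of h3, h1⟩

end Cfsg.Agent.S1222
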