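import Cfsg.Statements.S1223
import Cfsg.Agent.SE.Bender2
import Mathlib.Tactic.Group

set_option autoImplicit false
open Cfsg

namespace Cfsg.Agent.S1223
open scoped commutatorElement

open Subgroup Cfsg.Agent.BG Cfsg.Agent.Invol

/-- Let H be a strongly embedded subgroup of the finite group G containing no nontrivial normal subgroup of G (so G acts faithfully on the cosets of H), u an involution of G outside H, and j ≠ 1 an element of H ∩ uHu⁻¹ with u j u⁻¹ = j⁻¹. Then C_G(j) has odd order. -/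
theorem result {G : Type*} [Group G] [Finite G] (H : Subgroup G) (hH : Cfsg.IsStronglyEmbedded H) (hcore : H.normalCore = ⊥) (u : G) (hu : orderOf u = 2) (huH : u ∉ H) (j : G) (hj : j ∈ (H ⊓ H.map (MulAut.conj u).toMonoidHom)) (hj1 : j ≠ 1) (hinv : u * j * u⁻¹ = j⁻¹) : Odd (Nat.card (Subgroup.centralizer ({j} : Set G))) := by
  have := Nat.fact_prime_two
  obtain ⟨s, hs, s2⟩ := SE.exists_invol_mem hH
  have jo : Odd (orderOf j) := SE.odd_orderOf_of_mem_inter hH huH hj.1 (hinv ▸ inv_mem hj.1)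
  have sq : ∀ x : G, Odd (orderOf x) → ∀ n, (x * x) ^ 2 ^ n = 1 → x = 1 := fun x ho n e => by
    rw [← sq, ← pow_mul, ← pow_succ'] at e
    exact orderOf_eq_one_iff.1 ((Nat.Coprime.pow_right _ ho.coprime_two_right).eq_one_of_dvd (orderOf_dvd_of_pow_eq_one e))
  by_contra n
  have un : zpowers u ≤ N[C1[j]] := zpowers_le.2 (mem_norm_of_cj_le (by
    rintro _ ⟨x, hx, rfl⟩
    refine mem_cent1.2 (Commute.inv_right_iff.1 ?_)
    rw [← hinv]
    exact Commute.map (mem_cent1.1 hx) (MulAut.conj u)))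
  have nM : C1[j] ⊴ C1[j] ⊔ zpowers u := ⟨le_sup_left, sup_le (normG _) un⟩
  obtain ⟨T, hT, uT⟩ := Sylow_superset (p := 2) (le_sup_right : zpowers u ≤ C1[j] ⊔ zpowers u)
    (IsPGroup.of_card (n := 1) (by rw [Nat.card_zpowers, hu]; rfl))
  have k := meet_center_nil (pgroup_nil hT.pg) (N := C1[j] ⊓ T) ⟨inf_le_right, normsI (hT.le.trans nM.norm) (normG T)⟩
    (Sylow_ne_bot (Sylow_setI_normal nM hT) (Nat.not_odd_iff_even.1 n).two_dvd)
  obtain ⟨t, ht, t2⟩ := exists_invol_mem_of_isPGroup (hT.pg.to_le (inf_le_left.trans inf_le_right)) k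
  have c : Commute u t := (ht.2.2 u (uT (mem_zpowers u)))
  have tj : Commute t j := mem_cent1.1 ht.1.1
  have hr : SE.Rank2 (⊤ : Subgroup G) := ⟨u, trivial, t, trivial, hu, t2, fun e => hj1 (sq j jo 0 (by
    rw [e, tj.eq, mul_inv_cancel_right] at hinv
    rw [pow_zero, pow_one]; nth_rw 1 [hinv]; simp)), c⟩
  obtain ⟨-, r, Q, h⟩ := SE.bender hH hr (eq_bot_iff.2 (hcore ▸ (normal_le_normalCore).2 (SE.se_oddCore_le hH hr)))
  obtain ⟨P, rfl⟩ := h.exists_sylow
  have hN := h.norm_Q.trans (SE.St_pt H)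
  obtain ⟨g, rfl⟩ := isConj_iff.1 (SE.isConj hH hu s2)
  have m1 := SE.mem_of_commute hH hs s2 (c.symm.map (MulAut.conj g))
  have m2 := SE.mem_of_commute hH m1 ((BG.orderOf_conj' g t).trans t2) (tj.symm.map (MulAut.conj g))
  have sP : g * u * g⁻¹ ∈ (P : Subgroup G) := zpowers_le.1 (sub_normal_Hall (pHall_subl (normG _) le_top (sylowIn_top P))
    ⟨normG _, le_rfl⟩ (zpowers_le.2 (hN ▸ hs)) (pgroup_iff.1 (IsPGroup.of_card (n := 1) (by rw [Nat.card_zpowers, s2]; rfl))))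
  obtain ⟨m, hm⟩ := P.isPGroup' ⟨_, mul_mem (conj_mem_of_norm (hN ▸ m2) sP) (inv_mem sP)⟩
  have e : g * j * g⁻¹ * (g * u * g⁻¹) * (g * j * g⁻¹)⁻¹ * (g * u * g⁻¹)⁻¹ = g * j * g⁻¹ * (g * j * g⁻¹) := by
    calc _ = g * (j * (u * j * u⁻¹)⁻¹) * g⁻¹ := by group
      _ = _ := by rw [hinv]; group
  have := sq (g * j * g⁻¹) (by rwa [BG.orderOf_conj']) m (e ▸ congrArg Subtype.val hm)
  exact hj1 (by simpa using this)

end Cfsg.Agent.S1223
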