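import Cfsg.Statements.S1233
import Cfsg.Agent.MacW.H3
import Cfsg.Agent.LES.Basic
import Cfsg.Agent.S5395

set_option autoImplicit false
open Cfsg Subgroup Cfsg.Agent.BG Cfsg.Agent.MacW Cfsg.Agent.LES

namespace Cfsg.Agent.S1233

section
variable {G : Type*} [Group G] [Finite G] {Q A B : Subgroup G} {z x q : G}

structure E8 (Q A : Subgroup G) (z : G) : Prop where
  le : A ≤ Q
  zA : z ∈ A
  e2 : ∀ a ∈ A, a * a = 1
  c8 : #A = 8

theorem E8.ab (E : E8 Q A z) : A ≤ C[A] := fun a ha b hb => cm2 (E.e2 b hb) (E.e2 a ha) (E.e2 _ (mul_mem hb ha))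

theorem E8.self (E : E8 Q A z) (h : ES Q z) (c : #Q = 32) : Q ⊓ C[A] = A := by
  have := h.card_cent E.le E.zA
  rw [E.c8, c] at this
  exact (eq_of_le_of_card_ge (le_inf E.le E.ab) (by rw [E.c8]; omega)).symm

theorem E8.nrm (E : E8 Q A z) (h : ES Q z) : Q ≤ N[A] := le_norm_iff.2 fun r hr a ha =>
  (h.comm r hr a (E.le ha)).elim (fun e => e.symm ▸ ha) fun e => e.symm ▸ mul_mem ha E.zA

theorem E8.key (E : E8 Q A z) (h : ES Q z) (c : #Q = 32) (hC : C[Q] ≤ Q) (hx : x ∈ C[A]) (nx : x ∈ N[Q]) (hq : q ∈ Q)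
    (nq : q ∉ A) (e : x * q * x⁻¹ = q ∨ x * q * x⁻¹ = q * z) : x ∈ Q := by
  have fx : ∀ a ∈ A, x * a * x⁻¹ = a := fun a ha => by rw [← hx a ha, mul_inv_cancel_right]
  let D : Subgroup G :=
    { carrier := {r | r ∈ Q ∧ (x * r * x⁻¹ = r ∨ x * r * x⁻¹ = r * z)}
      mul_mem' := fun {a b} ha hb => ⟨mul_mem ha.1 hb.1, by
        rw [← conj_mul]
        rcases ha.2 with e1 | e1 <;> rcases hb.2 with e2 | e2 <;> rw [e1, e2]
        · exact .inl rfl
        · exact .inr (mul_assoc _ _ _).symm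
        · exact .inr (by rw [mul_assoc, ← (h.zc b hb.1).eq, mul_assoc])
        · exact .inl (by rw [mul_assoc, (h.zc b hb.1).eq, ← mul_assoc z, h.zz, one_mul])⟩
      one_mem' := ⟨one_mem _, .inl (by simp)⟩
      inv_mem' := fun {a} ha => ⟨inv_mem ha.1, by
        rw [← conj_inv]
        refine ha.2.imp (congrArg _) fun e => ?_
        rw [e, (h.zc a ha.1).eq, mul_inv_rev, inv_eq_of_mul_eq_one_right h.zz]⟩ }
  have D1 : ∀ r ∈ Q, r ∈ D := fun r hr => by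
    by_contra n
    obtain ⟨d, hd⟩ : ∃ d, x * r * x⁻¹ = r * d := ⟨r⁻¹ * (x * r * x⁻¹), by group⟩
    have dQ : d ∈ Q := (mul_mem_cancel_left hr).1 (hd ▸ conj_mem_of_norm nx hr)
    have dA : d ∈ A := (E.self h c).le ⟨dQ, fun a ha => by
      have h1 := fx _ (conj_mem_of_norm (E.nrm h hr) ha)
      rw [show x * (r * a * r⁻¹) * x⁻¹ = x * r * x⁻¹ * (x * a * x⁻¹) * (x * r * x⁻¹)⁻¹ by group, hd, fx a ha] at h1
      calc a * d = r⁻¹ * (r * a * r⁻¹) * (r * d) := by group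
        _ = d * a := by rw [← h1]; group⟩
    have dr : r * d = d * r := by
      have h1 := fx (r * r) ((h.sq r hr).elim (fun e => e ▸ one_mem _) fun e => e ▸ E.zA)
      rw [← conj_mul, hd] at h1
      calc r * d = d * (d * r * d) := by rw [← mul_assoc, ← mul_assoc, E.e2 d dA, one_mul]
        _ = d * r := by rw [mul_left_cancel (a := r) (b := d * r * d) (c := r) (by rw [← h1]; group)]
    have dq : q * d = d * q := by
      have h1 := fx (q * r * q⁻¹ * r⁻¹) ((h.comm q hq r hr).elim (fun e => by rw [e, mul_inv_cancel]; exact one_mem _)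
        fun e => by rw [e, (h.zc r hr).eq, mul_inv_cancel_right]; exact E.zA)
      rw [show x * (q * r * q⁻¹ * r⁻¹) * x⁻¹ = x * q * x⁻¹ * (x * r * x⁻¹) * (x * q * x⁻¹)⁻¹ * (x * r * x⁻¹)⁻¹ by group,
        hd] at h1
      have h2 : q * (r * d) * q⁻¹ * (r * d)⁻¹ = q * r * q⁻¹ * r⁻¹ := by
        rcases e with e | e <;> rw [e] at h1
        · exact h1
        · rw [← h1, mul_assoc q z, ← (h.zc _ (mul_mem hr dQ)).eq]; group
      calc q * d = q * r⁻¹ * q⁻¹ * (q * (r * d) * q⁻¹ * (r * d)⁻¹) * (r * d) * q := by group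
        _ = d * q := by rw [h2]; group
    have h1 := dbl (A := A) (B := D ⊓ C1[d]) (fun a ha => ⟨⟨E.le ha, .inl (fx a ha)⟩, mem_cent1.2 (E.ab dA a ha)⟩)
      ⟨⟨hq, e⟩, mem_cent1.2 dq⟩ nq
    have h2 := dbl (A := D ⊓ C1[d]) (B := Q ⊓ C1[d]) (fun a ha => ⟨ha.1.1, ha.2⟩) ⟨hr, mem_cent1.2 dr⟩ fun e => n e.1
    have h3 : Q ⊓ C1[d] = Q := eq_of_le_of_card_ge inf_le_left (by rw [E.c8] at h1; omega)
    exact n ⟨hr, (h.cen d dQ fun y hy => (mem_cent1.1 (h3.ge hy).2).symm).imp (fun e => by rw [hd, e, mul_one])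
      fun e => by rw [hd, e]⟩
  obtain ⟨g, hg⟩ := S5395.result h.isExtraspecial (Q.normalizerMonoidHom ⟨x, nx⟩) fun r => by
    rw [h.center', h.mem_zp']
    refine (D1 r r.2).2.imp (fun e => mul_inv_eq_one.2 e) fun e => ?_
    show x * r * x⁻¹ * r.1⁻¹ = z
    rw [e, (h.zc r r.2).eq, mul_inv_cancel_right]
  refine (mul_mem_cancel_left (inv_mem g.2)).1 (hC fun r hr => ?_)
  have : x * r * x⁻¹ = g * r * g.1⁻¹ := congrArg Subtype.val (hg ⟨r, hr⟩)
  calc r * (g.1⁻¹ * x) = g.1⁻¹ * (g * r * g.1⁻¹) * x := by group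
    _ = g.1⁻¹ * x * r := by rw [← this]; group

theorem E8.ex (E : E8 Q A z) (pg : IsPGroup 2 G) (h : ES Q z) (c : #Q = 32) (n : C[A] ≠ A) :
    ∃ x ∈ C[A], x ∈ N[Q] ∧ x ∉ Q := by
  obtain ⟨s, hs, h1, h2, -⟩ := up pg (T := Q) (M := C[A] ⊔ Q) (le_sup_right.lt_of_ne fun e =>
    n ((inf_eq_right.2 (le_sup_left.trans e.ge)).symm.trans (E.self h c)))
  obtain ⟨a, ha, b, hb, rfl⟩ := (mem_sup_norml (norms_cent (E.nrm h))).1 hs
  exact ⟨a, ha, (mul_mem_cancel_right (le_normalizer hb)).1 h1, fun e => h2 (mul_mem e hb)⟩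

theorem two (E : E8 Q A z) (F : E8 Q B z) (pg : IsPGroup 2 G) (h : ES Q z) (c : #Q = 32) (hC : C[Q] ≤ Q)
    (i : ∀ q ∈ A, q ∈ B → q = 1 ∨ q = z) : SectionalPRankLE 2 4 G := by
  by_cases n1 : C[A] = A
  · exact sr_top fun H N l s => harada pg E.e2 E.c8 n1 s l
  by_cases n2 : C[B] = B
  · exact sr_top fun H N l s => harada pg F.e2 F.c8 n2 s l
  obtain ⟨x, hx, nx, xQ⟩ := E.ex pg h c n1
  obtain ⟨y, hy, ny, yQ⟩ := F.ex pg h c n2
  have := (pg.to_subgroup N[Q]).isNilpotent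
  have cz : ∀ g ∈ N[Q], g * z * g⁻¹ = z := fun g hg => by
    have k := h.conj g
    rw [cj_of_norm hg] at k
    exact (h.cen _ k.zQ fun y hy => (k.zc y hy).symm).resolve_left k.z1
  have nM : ((zpowers z).subgroupOf N[Q]).Normal := ⟨fun u hu g => (mem_zp h.z2).2 (((mem_zp h.z2).1 hu).imp
    (fun e => by show g.1 * u * g.1⁻¹ = 1; rw [show u.1 = 1 from e]; simp) fun e => by
      show g.1 * u * g.1⁻¹ = z; rw [show u.1 = z from e, cz g g.2])⟩
  obtain ⟨q, hq, nq, k⟩ := PGrp.exists_central_mod (M := (zpowers z).subgroupOf N[Q]) (N := Q.subgroupOf N[Q]) fun e => by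
    obtain ⟨a, ha, b, hb, n⟩ := h.nab
    rcases (mem_zp h.z2).1 (e (show (⟨a, le_normalizer ha⟩ : N[Q]) ∈ _ from ha)) with e | e <;> rw [show a = _ from e] at n
    exacts [n (Commute.one_left b), n (h.zc b hb).symm]
  have fx : ∀ g ∈ N[Q], g * q * g⁻¹ = q ∨ g * q * g⁻¹ = q * z := fun g hg => by
    have e : g * q * g⁻¹ = (q * g * q.1⁻¹ * g⁻¹)⁻¹ * q := by group
    refine ((mem_zp h.z2).1 (k ⟨g, hg⟩)).imp (fun e1 => ?_) fun e1 => ?_
    · rw [e, show q * g * q.1⁻¹ * g⁻¹ = 1 from e1]; simp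
    · rw [e, show q * g * q.1⁻¹ * g⁻¹ = z from e1, inv_eq_of_mul_eq_one_right h.zz, (h.zc q hq).eq]
  exact absurd ((mem_zp h.z2).2 (i q (by_contra fun n => xQ (E.key h c hC hx nx hq n (fx x nx)))
    (by_contra fun n => yQ (F.key h c hC hy ny hq n (fx y ny))))) nq
end

abbrev P := QuaternionGroup 2 × QuaternionGroup 2
def ζ : P := (.a 2, .a 2)
def ω : P := (.a 2, 1)
def cl : QuaternionGroup 2 → ZMod 2 × ZMod 2
  | .a i => (i.val, 0)
  | .xa i => (i.val, 1)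
def pr (b : Bool) (p : P) : Bool := cl p.2 = if b then ((cl p.1).2, (cl p.1).1 + (cl p.1).2) else cl p.1
def R (p q : P) : Prop := p⁻¹ * q = 1 ∨ p⁻¹ * q = ζ
instance instDecR (p q : P) : Decidable (R p q) := by unfold R; infer_instance
def Bs (b : Bool) : Subgroup P where
  carrier := {p | pr b p}
  mul_mem' {p q} := (by decide +kernel : ∀ b p q, pr b p → pr b q → pr b (p * q)) b p q
  one_mem' := (by decide +kernel : ∀ b, pr b 1) b
  inv_mem' {p} := (by decide +kernel : ∀ b p, pr b p → pr b p⁻¹) b p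
theorem d1 : ∀ p : P, (∀ a, a * p.1 * a⁻¹ * p.1⁻¹ = 1) → (∀ b, b * p.2 * b⁻¹ * p.2⁻¹ = 1) → (p.1 = 1 → p.2 = 1) →
    (p.2 = 1 → p.1 = 1) → p = 1 ∨ p = ζ := by decide +kernel
theorem d2 : (∀ p : P, p * ω = ω * p ∧ ((∀ q, R (p * q) (q * p)) → R p 1 ∨ R p ω) ∧ (R (p * p) 1 ∨ R (p * p) ω) ∧
    ∀ q, (R (p * q * p⁻¹) q ∨ R (p * q * p⁻¹) (q * ω)) ∧ (pr true p → pr false q → R q p → R p 1 ∨ R p ω)) ∧
    ¬ R ω 1 ∧ ω ^ 2 = 1 ∧ (∃ p q, ¬ R (p * q) (q * p)) ∧ ∀ b, pr b ζ ∧ pr b ω ∧ (Finset.univ.filter (pr b ·)).card = 16 ∧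
    ∀ p, pr b p → R (p * p) 1 := by decide +kernel

/-- Let S be a finite 2-group and Q a subgroup of order 32 generated by two elementwise-commuting subgroups Q₁, Q₂ each isomorphic to the quaternion group of order 8 (so Q = Q₁ ∗ Q₂). If C_S(Q) ≤ Q, then every section of S has 2-rank at most 4. -/
theorem result {S : Type*} [Group S] [Finite S] (hS : IsPGroup 2 S) (Q Q₁ Q₂ : Subgroup S) (e₁ : Q₁ ≃* QuaternionGroup 2) (e₂ : Q₂ ≃* QuaternionGroup 2) (hcomm : ∀ a ∈ Q₁, ∀ b ∈ Q₂, a * b = b * a) (hQ : Q₁ ⊔ Q₂ = Q) (hQ32 : Nat.card Q = 32) (hC : Subgroup.centralizer (Q : Set S) ≤ Q) : Cfsg.SectionalPRankLE 2 4 S := by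
  let f : P →* S := (Q₁.subtype.comp e₁.symm.toMonoidHom).noncommCoprod (Q₂.subtype.comp e₂.symm.toMonoidHom)
    fun a b => hcomm _ (e₁.symm a).2 _ (e₂.symm b).2
  have fr : f.range = Q := by
    refine (MonoidHom.noncommCoprod_range _ _ _).trans ?_
    rw [MonoidHom.range_comp, MonoidHom.range_comp, MonoidHom.range_eq_top.2 e₁.symm.surjective,
      MonoidHom.range_eq_top.2 e₂.symm.surjective, ← MonoidHom.range_eq_map, ← MonoidHom.range_eq_map, range_subtype,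
      range_subtype, hQ]
  have i1 : ∀ a, f (a, 1) = 1 → a = 1 := fun a e => by simpa [f] using e
  have i2 : ∀ a, f (1, a) = 1 → a = 1 := fun a e => by simpa [f] using e
  have K : ∀ p, f p = 1 → p = 1 ∨ p = ζ := fun p hp => d1 p
    (fun a => i1 _ (by rw [show (a * p.1 * a⁻¹ * p.1⁻¹, 1) = (a, 1) * p * (a, 1)⁻¹ * p⁻¹ by ext <;> simp]; simp only [map_mul, map_inv, hp]; simp))
    (fun a => i2 _ (by rw [show (1, a * p.2 * a⁻¹ * p.2⁻¹) = (1, a) * p * (1, a)⁻¹ * p⁻¹ by ext <;> simp]; simp only [map_mul, map_inv, hp]; simp))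
    (fun e => i2 _ (by rw [← e]; exact hp)) fun e => i1 _ (by rw [← e]; exact hp)
  have cK : #f.ker = 2 := by
    have := f.ker.card_mul_index
    rw [index_ker, fr, hQ32, Nat.card_prod, Nat.card_eq_fintype_card (α := QuaternionGroup 2), QuaternionGroup.card] at this
    omega
  have fz : f ζ = 1 := by
    by_contra n
    rw [(eq_bot_iff_forall f.ker).2 fun p hp => (K p hp).resolve_right fun e => n (e ▸ hp), card_bot] at cK
    omega
  have F : ∀ p q, f p = f q ↔ R p q := fun p q => by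
    rw [← inv_mul_eq_one, ← map_inv, ← map_mul]
    exact ⟨K _, fun e => e.elim (fun e => e ▸ f.map_one) fun e => e ▸ fz⟩
  have F1 : ∀ p, f p = 1 ↔ R p 1 := fun p => by rw [← F, map_one]
  obtain ⟨a1, a2, a3, ⟨p, q, a4⟩, a5⟩ := d2
  have es : ES Q (f ω) := by
    rw [← fr]
    refine ⟨orderOf_eq_prime (by rw [← map_pow, a3, map_one]) fun e => a2 ((F1 _).1 e), ⟨_, rfl⟩, ?_, ?_, ?_, ?_,
      _, ⟨p, rfl⟩, _, ⟨q, rfl⟩, fun e => a4 ((F _ _).1 (by simpa using e.eq))⟩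
    · rintro _ ⟨p, rfl⟩; exact Commute.map (a1 p).1 f
    · rintro _ ⟨p, rfl⟩ h
      rw [F, F1]
      exact (a1 p).2.1 fun q => (F _ _).1 (by simpa using (h _ ⟨q, rfl⟩).eq)
    · rintro _ ⟨p, rfl⟩ _ ⟨q, rfl⟩
      simpa only [← map_inv, ← map_mul, F] using ((a1 p).2.2.2 q).1
    · rintro _ ⟨p, rfl⟩
      simpa only [← map_mul, F, F1] using (a1 p).2.2.1
  have E : ∀ b, E8 Q ((Bs b).map f) (f ω) := fun b => by
    refine ⟨fr ▸ map_le_range f _, ⟨_, (a5 b).2.1, rfl⟩, ?_, ?_⟩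
    · rintro _ ⟨p, hp, rfl⟩
      rw [← map_mul, F1]
      exact (a5 b).2.2.2 p hp
    · have := cmap (π := f) rfl (Bs b)
      rw [inf_eq_left.2 fun p hp => (K p hp).elim (fun e => e ▸ one_mem _) fun e => e ▸ (a5 b).1, cK,
        show #(Bs b) = 16 from (Nat.card_eq_fintype_card (α := {p // pr b p})).trans
          ((Fintype.card_subtype _).trans (a5 b).2.2.1)] at this
      omega
  refine two (E true) (E false) hS es hQ32 hC ?_
  rintro _ ⟨p, hp, rfl⟩ ⟨q, hq, e⟩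
  rw [F, F1]
  exact ((a1 p).2.2.2 q).2 hp hq ((F _ _).1 e)

end Cfsg.Agent.S1233
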