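import Cfsg.Statements.S1234
import Cfsg.Agent.MacW.H3

set_option autoImplicit false
open Cfsg Subgroup Cfsg.Agent.BG Cfsg.Agent.MacW

namespace Cfsg.Agent.S1234

/-- Let S be a finite 2-group and Q ≤ S a subgroup of order 32 having an elementary abelian subgroup E of order 16 and an involution s ∉ E whose centralizer in E has order 4 (so Q ≅ (Z₂ × Z₂) ≀ Z₂). If C_S(Z(Q)) = Q, then every section of S has 2-rank at most 4. -/
theorem result {S : Type*} [Group S] [Finite S] (hS : IsPGroup 2 S) (Q E : Subgroup S) (hEQ : E ≤ Q) (hE : Cfsg.IsElementaryAbelian 2 E) (hE16 : Nat.card E = 16) (hQ32 : Nat.card Q = 32) (s : S) (hsQ : s ∈ Q) (hsE : s ∉ E) (hs : orderOf s = 2) (hfix : Nat.card ↥(E ⊓ Subgroup.centralizer ({s} : Set S)) = 4) (hC : Subgroup.centralizer (((Subgroup.center Q).map Q.subtype : Subgroup S) : Set S) = Q) : Cfsg.SectionalPRankLE 2 4 S := by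
  have s2 : s * s = 1 := (pow_two s).symm.trans (hs ▸ pow_orderOf_eq_one s)
  have e2 : ∀ a ∈ E, a * a = 1 := fun a ha => (pow_two a).symm.trans (hE.2 a ha)
  have ab : ∀ a ∈ E, ∀ b ∈ E, a * b = b * a := fun a ha b hb => cm2 (e2 a ha) (e2 b hb) (e2 _ (mul_mem ha hb))
  have i : E.relIndex Q = 2 := by have := card_mul_relIndex hEQ; rw [hE16, hQ32] at this; omega
  have m : ∀ q ∈ Q, q ∈ E ∨ q * s ∈ E := fun q hq => (em (q ∈ E)).imp_right fun n =>
    (mul_mem_iff_of_index_two (a := ⟨q, hq⟩) (b := ⟨s, hsQ⟩) i).2 (iff_of_false n hsE)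
  have c : zpowers s ≤ C[E ⊓ C1[s]] := zpowers_le.2 fun y hy => mem_cent1.1 hy.2
  have mA := fun x => mem_sup_norml (x := x) (cents_norm c)
  have cs : #(zpowers s) = 2 := (Nat.card_zpowers s).trans hs
  have cA := card_sup_TI (.inr (cents_norm c)) (eq_bot_iff.2 fun y hy => by
    obtain ⟨j, rfl⟩ := hy.2
    rcases Int.even_or_odd' j with ⟨j, rfl | rfl⟩
    · simp [zpow_mul, pow_two, s2]
    · exact absurd (by simpa [zpow_add, zpow_mul, pow_two, s2] using hy.1.1) hsE)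
  have eA : ∀ x ∈ (E ⊓ C1[s]) ⊔ zpowers s, x * x = 1 := fun x hx => by
    obtain ⟨a, ha, _, ⟨j, rfl⟩, rfl⟩ := (mA x).1 hx
    rw [← Commute.mul_mul_mul_comm (c ⟨j, rfl⟩ a ha), e2 a ha.1, one_mul, ← zpow_add, ← two_mul, zpow_mul]
    simp [pow_two, s2]
  refine sr_top fun H N l h => harada hS eA (by rw [cA, cs, hfix]) (le_antisymm (fun x hx => ?_) fun a ha b hb =>
    cm2 (eA b hb) (eA a ha) (eA _ (mul_mem hb ha))) h l
  have xs : x ∈ C1[s] := mem_cent1.2 (hx s (mem_sup_right (mem_zpowers s))).symm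
  have xQ : x ∈ Q := hC.le (by
    rintro _ ⟨y, hy, rfl⟩
    have ys : y.1 ∈ C1[s] := mem_cent1.2 (congrArg Subtype.val (mem_center_iff.1 hy ⟨s, hsQ⟩)).symm
    refine hx _ (mem_sup_left ⟨(m y y.2).elim id fun e => ?_, ys⟩)
    have : E ≤ C1[s] := fun a ha => mem_cent1.2 (mul_left_cancel (a := y.1) (by
      rw [← mul_assoc, ← show a * y = y * a from congrArg Subtype.val (mem_center_iff.1 hy ⟨a, hEQ ha⟩), mul_assoc,
        ab a ha _ e, mul_assoc]))
    rw [inf_eq_left.2 this] at hfix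
    omega)
  rcases m x xQ with e | e
  · exact mem_sup_left ⟨e, xs⟩
  · exact (mul_mem_cancel_right (mem_sup_right (mem_zpowers s))).1 (mem_sup_left ⟨e, mul_mem xs (cent1_self s)⟩)

end Cfsg.Agent.S1234
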