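import Cfsg.Statements.S1235
import Cfsg.Agent.MacW.DB

set_option autoImplicit false
open Cfsg Subgroup Cfsg.Agent.BG Cfsg.Agent.MacW

namespace Cfsg.Agent.S1235

/-- Let G be a finite group, x an involution and T ≤ G a Sylow 2-subgroup of C_G(x) (T ≤ C_G(x) with |C_G(x) : T| odd) which is the internal direct product of a subgroup D that is dihedral (of order ≥ 4) or quasi-dihedral and a Klein four-subgroup B. Suppose that for every involution b ∈ B, T ≤ C_G(b) with |C_G(b) : T| odd. Then every section of G has 2-rank at most 4. -/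
theorem result {G : Type*} [Group G] [Finite G] (x : G) (hx : orderOf x = 2) (T D B : Subgroup G) (hT : IsPGroup 2 T) (hTx : T ≤ Subgroup.centralizer ({x} : Set G)) (hTxi : Odd (T.relIndex (Subgroup.centralizer ({x} : Set G)))) (hprod : Cfsg.IsInternalDirectProduct D B T) (hD : (∃ m : ℕ, 2 ≤ m ∧ Nonempty (D ≃* DihedralGroup m)) ∨ Cfsg.IsQuasiDihedral D) (hB : IsKleinFour B) (hTb : ∀ b ∈ B, orderOf b = 2 → T ≤ Subgroup.centralizer ({b} : Set G) ∧ Odd (T.relIndex (Subgroup.centralizer ({b} : Set G)))) : Cfsg.SectionalPRankLE 2 4 G := by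
  obtain ⟨DT, BT, cm, i, sup⟩ := hprod
  have cT := card_sup_TI (.inr (cents_norm (le_cent_iff.2 fun b hb a ha => (cm a ha b hb).symm))) i
  rw [sup, hB.card_four] at cT
  obtain ⟨r, hr, ab⟩ : ∃ r : D, #D ≤ 2 * orderOf r ∧ ((∀ a b : D, a * b = b * a) → #D ≤ 4) := by
    rcases hD with ⟨m, hm, ⟨e⟩⟩ | ⟨n, hn, c, x, y, ox, -, e⟩
    · have c := (Nat.card_congr e.toEquiv).trans DihedralGroup.nat_card
      refine ⟨e.symm (.r 1), by rw [MulEquiv.orderOf_eq, DihedralGroup.orderOf_r_one, c], fun h => ?_⟩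
      have := congrArg e (h (e.symm (.r 1)) (e.symm (.sr 0)))
      simp only [map_mul, MulEquiv.apply_symm_apply, DihedralGroup.r_mul_sr, DihedralGroup.sr_mul_r,
        DihedralGroup.sr.injEq] at this
      have := Nat.le_of_dvd two_pos ((ZMod.natCast_eq_zero_iff 2 m).1 (by push_cast; linear_combination -this))
      omega
    · refine ⟨x, by rw [ox, c, pow_succ'], fun h => ?_⟩
      rw [h y x, mul_inv_cancel_right] at e
      obtain ⟨k, rfl⟩ : ∃ k, n = k + 3 := ⟨n - 3, by omega⟩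
      have p : 0 < 2 ^ k := by positivity
      have := pow_injOn_Iio_orderOf (x := x) (x₁ := 1) (x₂ := 2 ^ (k + 3 - 1) - 1) (by simp only [Set.mem_Iio, ox, pow_succ]; omega)
        (by simp only [Set.mem_Iio, ox, pow_succ, show k + 3 - 1 = k + 2 from rfl]; omega) ((pow_one x).trans e)
      simp only [pow_succ, show k + 3 - 1 = k + 2 from rfl] at this
      omega
  obtain ⟨S, TS⟩ := hT.exists_le_sylow
  have e2 : ∀ b ∈ B, b * b = 1 := fun b hb => congrArg Subtype.val (IsKleinFour.mul_self (⟨b, hb⟩ : B))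
  have cT' := Nat.card_congr (subgroupOfEquivOfLe TS).toEquiv
  refine sr_syl S fun H L h => db S.2 (B := B.subgroupOf S) (T := T.subgroupOf S) (r := ⟨r, TS (DT r.2)⟩) (comap_mono BT)
    ((Nat.card_congr (subgroupOfEquivOfLe (BT.trans TS)).toEquiv).trans hB.card_four) (fun b hb => Subtype.ext (e2 b hb))
    (fun b hb b1 => ?_) (DT r.2) ?_ (fun c => ?_) h
  · obtain ⟨l, o⟩ := hTb b hb (orderOf_eq_prime ((pow_two _).trans (e2 b hb)) fun e => b1 (Subtype.ext e))
    have d := relIndex_mul_relIndex T (S ⊓ C1[b.1]) C1[b.1] (le_inf TS l) inf_le_right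
    obtain ⟨n, hn⟩ : ∃ n, T.relIndex (S ⊓ C1[b.1]) = 2 ^ n := (S.2.to_inf_left).index _
    rw [← d, hn] at o
    rcases n with _ | n
    · ext y
      exact ⟨fun e => relIndex_eq_one.1 hn ⟨y.2, mem_cent1.2 (congrArg Subtype.val (mem_cent1.1 e))⟩,
        fun e => mem_cent1.2 (Subtype.ext (mem_cent1.1 (l e)))⟩
    · exact absurd (Nat.Odd.of_mul_left o) (by simp [Nat.even_pow])
  · rw [cT', cT, Nat.card_zpowers, orderOf_mk, orderOf_coe]; omega
  · have := ab fun a b => Subtype.ext (congrArg (·.1) (c ⟨a, TS (DT a.2)⟩ (DT a.2) ⟨b, TS (DT b.2)⟩ (DT b.2)))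
    omega

end Cfsg.Agent.S1235
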