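import Cfsg.Statements.S1245
import Cfsg.Agent.AB.WJ2

set_option autoImplicit false
open Cfsg

namespace Cfsg.Agent.S1245

open Cfsg.Agent.AB Cfsg.Agent.BG Subgroup Cfsg.Agent.Invol

/-- Let G be a non-abelian finite simple group with commutative Sylow 2-subgroups, and t an involution whose centralizer is the internal direct product of ⟨t⟩ and a subgroup E which has a normal subgroup E₀ ≅ PSL(2,F), |F| odd, with C_E(E₀) = 1 (so PSL(2,q) ≤ E ≤ Aut PSL(2,q)). Then C_G(t) is a maximal subgroup of G. -/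
theorem result {G : Type*} [Group G] [Finite G] [IsSimpleGroup G] (hna : ¬ IsMulCommutative G) (S : Sylow 2 G) (hS : IsMulCommutative (S : Subgroup G)) (t : G) (ht : orderOf t = 2) (E E₀ : Subgroup G) (hprod : Cfsg.IsInternalDirectProduct (Subgroup.zpowers t) E (Subgroup.centralizer ({t} : Set G))) (hE₀E : E₀ ≤ E) (hE₀n : (E₀.subgroupOf E).Normal) (hE₀ : ∃ (F : Type) (_ : Field F) (_ : Fintype F), Odd (Fintype.card F) ∧ Nonempty (E₀ ≃* Matrix.ProjectiveSpecialLinearGroup (Fin 2) F)) (hCE : E ⊓ Subgroup.centralizer (E₀ : Set G) = ⊥) : IsCoatom (Subgroup.centralizer ({t} : Set G)) := by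
  obtain ⟨F, _, _, ho, ⟨e⟩⟩ := hE₀
  rw [← Nat.card_eq_fintype_card] at ho
  have hp := simple_perfect hna
  have hab := hab_of_sylow S hS
  have hL : E₀ ⊴ E := ⟨hE₀E, (normal_subgroupOf_iff_le_normalizer hE₀E).1 hE₀n⟩
  have c := Nat.card_congr e.toEquiv
  have h1 := Finite.one_lt_card (α := F)
  by_cases h3 : 3 < Nat.card F
  · have := Matrix.ProjectiveSpecialLinearGroup.rank_two_simple (F := F) h3
    have hs := e.isSimpleGroup
    obtain ⟨u, s, K, h⟩ := wj_of_psl hp hab ht hprod hL hCE ho e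
      (Op'_simple hs (c ▸ (Dvd.intro 2 rfl).trans (psl_four_dvd h3.le)))
    refine h.isCoatom hna fun r => h.s_not ?_
    obtain ⟨g, hg⟩ := isConj_iff.1 (h.bsw.cls s h.bsw.hs)
    rw [IsSimpleGroup.comm_iff_isSolvable.2 r g u, mul_inv_cancel_right] at hg
    exact hg ▸ mem_zpowers _
  have q3 : Nat.card F = 3 := by obtain ⟨k, hk⟩ := ho; omega
  have c12 : #E₀ = 12 := by have := Classical.card_PSL2_mul (F := F); rw [q3] at this; norm_num at this; omega
  obtain ⟨u, s, K, b⟩ := psl_bsw (F := F) (Classical.two_ne_zero_iff_odd.2 ho)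
  have b := bsw_equiv b e
  generalize e.symm u = u, e.symm s = s, K.comap e.toMonoidHom = K at b
  have hO : Op' 2 E₀ = ⊥ := by
    have o := GW.odd_Op' E₀
    rw [Op'_eq, card_map_of_injective E₀.subtype_injective] at o
    rw [Op'_eq, ← card_eq_one_iff, card_map_of_injective E₀.subtype_injective]
    have d := (pPrimeCore 2 E₀).card_mul_index
    by_contra r
    have i : (pPrimeCore 2 E₀).index = 2 ^ 2 := by
      have := Nat.le_of_dvd (by norm_num) (Dvd.intro _ (d.trans c12))
      obtain ⟨k, hk⟩ := o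
      rw [c12, hk] at d
      have : k ≤ 5 := by omega
      interval_cases k <;> omega
    obtain ⟨g, hg⟩ := isConj_iff.1 (b.cls s b.hs)
    have := (IsPGroup.isMulCommutative_of_card_eq_prime_sq (G := E₀ ⧸ pPrimeCore 2 E₀) i).is_comm.comm
      (g : E₀ ⧸ pPrimeCore 2 E₀) u
    rw [← mul_inv_eq_iff_eq_mul, ← QuotientGroup.mk_mul, ← QuotientGroup.mk_inv, ← QuotientGroup.mk_mul, hg,
      eq_comm, QuotientGroup.eq, inv_eq_of b.ht] at this
    have := odd_orderOf_of_mem o this
    rw [b.invol (by simpa [mul_assoc, b.ss] using b.tK)] at this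
    exact absurd this (by decide)
  obtain ⟨u, s, K, h⟩ := wj_of_psl hp hab ht hprod hL hCE ho e hO
  obtain rfl := h.eq_of_card c12
  obtain ⟨f⟩ := prod_equiv ht h.dp
  rcases jtw hp hab ht q3.ge (f.trans ((MulEquiv.refl _).prodCongr e)) with ⟨m, hm, r, -⟩ | ⟨r, -⟩
  · have := Nat.pow_le_pow_right (show 0 < 3 by norm_num) (show 3 ≤ 2 * m + 1 by omega); omega
  · omega

end Cfsg.Agent.S1245
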