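import Cfsg.Statements.S1248
import Cfsg.Agent.ABG.Rk2

set_option autoImplicit false
open Cfsg

namespace Cfsg.Agent.S1248

open Cfsg.Agent.ABG Cfsg.Agent.Rank1 Cfsg.Agent.Invol Subgroup

/-- Let F be a field with 16 elements and S a Sylow 2-subgroup of PSU(3) over F (the unitary group U₃(4)). Then |S| = 64; the centre Z(S) is a Klein four-group and coincides with the subgroup generated by the involutions of S and with the derived subgroup; and every element of S ⧸ Z(S) squares to the identity, S ⧸ Z(S) having order 16. -/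
theorem result {F : Type*} [Field F] [Fintype F] (hF : Fintype.card F = 16) (S : Sylow 2 (Cfsg.PSU 3 F 4)) : Nat.card S = 64 ∧ IsKleinFour (Subgroup.center (S : Subgroup (Cfsg.PSU 3 F 4))) ∧ Subgroup.center (S : Subgroup (Cfsg.PSU 3 F 4)) = Subgroup.closure {x : (S : Subgroup (Cfsg.PSU 3 F 4)) | orderOf x = 2} ∧ Subgroup.center (S : Subgroup (Cfsg.PSU 3 F 4)) = commutator (S : Subgroup (Cfsg.PSU 3 F 4)) ∧ Nat.card ((S : Subgroup (Cfsg.PSU 3 F 4)) ⧸ Subgroup.center (S : Subgroup (Cfsg.PSU 3 F 4))) = 16 ∧ ∀ x : (S : Subgroup (Cfsg.PSU 3 F 4)) ⧸ Subgroup.center (S : Subgroup (Cfsg.PSU 3 F 4)), x ^ 2 = 1 := by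
  obtain ⟨φ, a, h, hnc⟩ := tri_psu hF S
  obtain ⟨h1, h2, h3, h4⟩ := h.center_eq hnc
  have h5 : Nat.card (center (S : Subgroup (PSU 3 F 4))) = 4 := h1 ▸ h.card_Om
  have h6 : ∀ x : center (S : Subgroup (PSU 3 F 4)), x ^ 2 = 1 := fun x =>
    Subtype.ext ((pow_two _).trans ((mem_Om_iff h.central).1 (h1.le x.2)))
  refine ⟨h4, ⟨h5, ?_⟩, le_antisymm (fun x hx => ?_) ((closure_le _).2 fun x hx => h.central x (mul_self_of hx)),
    h1.trans h2.symm, ?_, fun x => ?_⟩
  · have : Nontrivial (center (S : Subgroup (PSU 3 F 4))) := Finite.one_lt_card_iff_nontrivial.1 (by omega)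
    exact Monoid.exponent_eq_prime_iff Nat.prime_two |>.2 fun x hx => orderOf_eq_prime (h6 x) hx
  · by_cases e : x = 1
    exacts [e ▸ one_mem _, subset_closure (orderOf_two_iff.2 ⟨(mem_Om_iff h.central).1 (h1.le hx), e⟩)]
  · have := card_eq_card_quotient_mul_card_subgroup (center (S : Subgroup (PSU 3 F 4)))
    rw [h4, h5] at this
    omega
  · obtain ⟨x, rfl⟩ := QuotientGroup.mk_surjective x
    exact (QuotientGroup.eq_one_iff _).2 (h1.ge (show x ^ 2 ∈ _ from pow_two x ▸ h3 x))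

end Cfsg.Agent.S1248
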