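import Cfsg.Statements.S1313
import Cfsg.Agent.Sig.FStar
import Mathlib.Data.Finite.Perm

set_option autoImplicit false
open Cfsg

namespace Cfsg.Agent.S1313

open Subgroup Cfsg.Agent.Solv Cfsg.Agent.Sig


theorem card_mulAut_le (F : Type*) [Group F] [Finite F] :
    Nat.card (MulAut F) ≤ (Nat.card F - 1).factorial := by
  classical
  let φ : MulAut F → Equiv.Perm {x : F // x ≠ 1} := fun a =>
    Equiv.Perm.subtypePerm a.toEquiv (fun x => by simp)
  have hφ : Function.Injective φ := by
    intro a b h
    ext x
    by_cases hx : x = 1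
    · simp [hx]
    · exact congrArg Subtype.val (Equiv.congr_fun h ⟨x, hx⟩)
  have h1 : Nat.card {x : F // x ≠ 1} = Nat.card F - 1 := by
    have := Fintype.ofFinite F
    simp [Nat.card_eq_fintype_card, Fintype.card_subtype_compl]
  rw [← h1, ← Nat.card_perm]
  exact Nat.card_le_card_of_injective φ hφ

/-- For a finite group H, |H| ≤ |F*(H)|!. -/
theorem result {H : Type*} [Group H] [Finite H] : Nat.card H ≤ Nat.factorial (Nat.card ↥(Cfsg.generalizedFittingSubgroup H)) := by
  set F := generalizedFittingSubgroup H with hF
  have h1 : (MulAut.conjNormal (H := F)).ker = centralizer (F : Set H) := by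
    ext g
    simp only [MonoidHom.mem_ker, mem_centralizer_iff, MulEquiv.ext_iff, Subtype.ext_iff,
      MulAut.conjNormal_apply, MulAut.one_apply, Subtype.forall, SetLike.mem_coe]
    refine forall_congr' fun x => forall_congr' fun _ => ?_
    rw [mul_inv_eq_iff_eq_mul, eq_comm]
  have h2 : Nat.card H = Nat.card (MulAut.conjNormal (H := F)).ker * Nat.card (MulAut.conjNormal (H := F)).range := by
    rw [← index_ker, card_mul_index]
  have h3 : Nat.card (MulAut.conjNormal (H := F)).range ≤ (Nat.card F - 1).factorial :=
    (card_le_card_group _).trans (card_mulAut_le F)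
  have h4 : Nat.card (MulAut.conjNormal (H := F)).ker ≤ Nat.card F := by
    rw [h1]; exact card_le_of_le centralizer_fstar_le
  rw [h2, ← Nat.mul_factorial_pred (Nat.card_pos (α := F)).ne']
  exact Nat.mul_le_mul h4 h3

end Cfsg.Agent.S1313
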