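import Cfsg.Statements.S1349
import Cfsg.Agent.Sig.Odd2
import Cfsg.Agent.Invol.Dihedral

set_option autoImplicit false
open Cfsg

namespace Cfsg.Agent.S1349

open Subgroup Cfsg.Agent.BG Cfsg.Agent.Sig

/-- Let G be finite, L ≤ G solvable of odd order, and A an elementary abelian 2-subgroup of order 2^d (d ≥ 1) normalizing L with C_A(L) = 1. Then there are subgroups A_1, …, A_d of A of order 2 generating A and subgroups L_1, …, L_d of L such that each A_i ⊔ L_i is dihedral of order 2 n_i with n_i odd and at least 3, and A_i ⊔ L_i commutes elementwise with A_j ⊔ L_j for i ≠ j. -/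
theorem result {G : Type*} [Group G] [Finite G] (L A : Subgroup G) (hLs : Group.IsSolvable ↥L) (hLodd : Odd (Nat.card ↥L)) (hA : Cfsg.IsElementaryAbelian 2 A) (d : ℕ) (hd : 1 ≤ d) (hAd : Nat.card ↥A = 2 ^ d) (hAL : A ≤ Subgroup.normalizer (L : Set G)) (hfaith : A ⊓ Subgroup.centralizer (L : Set G) = ⊥) : ∃ (Ai : Fin d → Subgroup G) (Li : Fin d → Subgroup G) (n : Fin d → ℕ), (∀ i, Ai i ≤ A ∧ Nat.card ↥(Ai i) = 2 ∧ Li i ≤ L ∧ Odd (n i) ∧ 3 ≤ n i ∧ Nonempty (↥(Ai i ⊔ Li i) ≃* DihedralGroup (n i))) ∧ (⨆ i, Ai i) = A ∧ ∀ i j, i ≠ j → ∀ x ∈ Ai i ⊔ Li i, ∀ y ∈ Ai j ⊔ Li j, x * y = y * x := by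
  obtain ⟨a, x, h, h2⟩ := thompson_dihedral hA hAL (pnat_odd.2 hLodd) hAd hfaith
  have ho : ∀ i, Odd (orderOf (x i)) := fun i => hLodd.of_dvd_nat (orderOf_dvd_cardG (h i).2.1)
  have a2 : ∀ i, a i * a i = 1 := fun i => sq (a i) ▸ hA.pow (h i).1
  have h3 : ∀ i, a i ∉ C1[x i] := fun i hc => by
    have := (h i).2.2.2.1
    rw [mem_cent1.1 hc, mul_inv_cancel_right, eq_inv_iff_mul_eq_one, ← sq] at this
    exact (h i).2.2.1 (orderOf_eq_one_iff.1 (((Nat.dvd_prime Nat.prime_two).1 (orderOf_dvd_of_pow_eq_one this)).resolve_right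
      fun e => absurd (e ▸ ho i) (by decide)))
  refine ⟨fun i => zpowers (a i), fun i => zpowers (x i), fun i => orderOf (x i), fun i => ⟨zpowers_le.2 (h i).1, ?_,
    zpowers_le.2 (h i).2.1, ho i, ?_, ?_⟩, le_antisymm (iSup_le fun i => zpowers_le.2 (h i).1) h2, fun i j hij => le_cent_iff.1 ?_⟩
  · have := Fact.mk Nat.prime_two
    rw [Nat.card_zpowers, abelem_order_p hA (h i).1 fun e => h3 i (e ▸ one_mem _)]
  · have h4 := mt orderOf_eq_one_iff.1 (h i).2.2.1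
    obtain ⟨k, hk⟩ := ho i
    show 3 ≤ orderOf (x i)
    omega
  · have := Invol.closure_equiv_dihedral (a2 i) (h i).2.2.2.1 fun hc => h3 i (zpowers_le.2 (cent1_self _) hc)
    rwa [Set.insert_eq, Subgroup.closure_union, ← zpowers_eq_closure, ← zpowers_eq_closure] at this
  · refine le_cent_sup (sup_le ?_ ?_) (sup_le ?_ ?_) <;> rw [C_zpowers, zpowers_le]
    exacts [mem_cent1.2 (hA.abelian.comm (h i).1 (h j).1), mem_cent1_comm.1 ((h i).2.2.2.2.1 j hij.symm),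
      (h j).2.2.2.2.1 i hij, (h j).2.2.2.2.2 i]

end Cfsg.Agent.S1349
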