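import Cfsg.Statements.S1476
import Cfsg.Agent.FG.CN
import Cfsg.Agent.Loc.Rk1

set_option autoImplicit false
open Cfsg

namespace Cfsg.Agent.S1476

open Cfsg.Agent.BG Cfsg.Agent.FG Subgroup
open scoped commutatorElement

/-- Let G be a finite solvable group in which every non-identity element has nilpotent centralizer. Then either G is nilpotent; or G has a normal subgroup K with a Frobenius complement E (K E = G, K ∩ E = 1, E meets its conjugates by outside elements trivially) such that E is cyclic or E is generated by two elementwise-commuting subgroups, one cyclic of odd order and one isomorphic to a generalized quaternion group; or G is a three-step group with respect to some prime p. -/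
theorem result {G : Type*} [Group G] [Finite G] [Group.IsSolvable G] (hCN : Cfsg.IsCNGroup G) :
    Group.IsNilpotent G ∨
      (∃ K E : Subgroup G, K.Normal ∧ Subgroup.IsComplement' K E ∧ Cfsg.IsFrobeniusComplement E ∧
        (IsCyclic E ∨ ∃ C Q : Subgroup G, C ⊔ Q = E ∧ (∀ a ∈ C, ∀ b ∈ Q, a * b = b * a) ∧ IsCyclic C ∧ Odd (Nat.card C) ∧
          ∃ n : ℕ, Nonempty (↥Q ≃* QuaternionGroup (2 ^ n)))) ∨
      ∃ p : ℕ, p.Prime ∧ Cfsg.IsThreeStepGroup p G := by
  obtain ⟨H, h1, hH, hmax⟩ := CN.exists_max (Fitting_nil (⊤ : Subgroup G))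
  have h2 := CN.hall hCN hH hmax
  refine or_iff_not_imp_left.2 fun hn => ?_
  have h3 := pgroupS h1 h2.pi
  obtain ⟨E, h, -⟩ | ⟨B, C, h, h4, h5⟩ := (CN.sep hCN hH hmax).frob_or_twoFrob (solvable_of _) h3 fun h =>
    hn (isog_nil (isog_symm isog_top) ((Hall_max h2 le_top le_rfl h).symm ▸ hH))
  · haveI := h.normal.normal
    refine .inl ⟨_, E, this, isComplement'_iff_sdprod.2 h.sd, (isFC_of_frob h).1, ?_⟩
    obtain ⟨z, -, h8, h9⟩ := Frob.exists_center_of_semiregular h.neK h.neE h.norm h.reg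
    have hE : Group.IsNilpotent E := nilpotentS (fun x hx => mem_cent1.2 (h9 x hx)) (hCN z h8)
    have h4 := nilpotent_pcoreC {2} hE
    have h5 := pnat_odd.1 (pcore_pgroup {2}ᶜ E)
    have h6 := nil_Zgroup_cyclic (odd_regular_Zgroup h5 h.neK (h4.ler.trans h.norm) (semiregularS le_rfl h4.ler h.reg))
      (nilpotentS h4.ler hE)
    obtain h7 | ⟨-, n, -, h7⟩ := (Loc.rk1_of_pRankLE (Op_pgroup 2 E) ((pRankLE_iff Nat.prime_two).2 (regular_p_rank_le1 h.neK
      (h4.lel.trans h.norm) (semiregularS le_rfl h4.lel h.reg) 2))).isCyclic_or_quaternion (Op_pgroup 2 E)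
    · exact .inl (h4.cyclic h7 h6 (coprime_pcoreC _ _ _))
    · exact .inr ⟨_, _, h4.symm.sup, le_cent_iff.1 h4.cent, h6, h5, n, h7⟩
  have nF := h.sd.normal
  have h6 : Group.IsNilpotent (fittingOf ⊤ ⊔ C : Subgroup G) := by
    obtain ⟨g, -, h6⟩ := Hall_subJ (solvable_of _) h2 le_top (pgroupY (.inr (le_top.trans nF.norm)) h3 h5)
    exact nilpotentS h6 (nilpotentJ g hH)
  have key : ∀ q r : ℕ, q.Prime → r.Prime → q ∣ #(fittingOf (⊤ : Subgroup G)) → r ∣ #C → q = r := fun q r hq hr e1 e2 => by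
    by_contra hqr
    haveI := Fact.mk hq
    haveI := Fact.mk hr
    obtain ⟨R, h7, h8⟩ := Cauchy_sub hr e2
    have hc := pnat_coprime (pcore_pgroup {q} (fittingOf (⊤ : Subgroup G))) (p'group_of_ne (pgroup_of_card_p h8) (Ne.symm hqr))
    have h9 := h.card_eq (pcore_sub _ _) (le_top.trans (nF.pcore _).norm) h7 (ne_bot_of_prime (h8 ▸ hr)) hc
    rw [inf_eq_left.2 (sub_nilpotent_cent2 h6 ((pcore_sub _ _).trans le_sup_left) (h7.trans le_sup_right) hc), h8] at h9
    exact (lt_self_pow₀ (cardG_gt1 (Sylow_ne_bot (nilpotent_pcore_Hall _ (Fitting_nil _)) e1)) hr.one_lt).ne h9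
  obtain ⟨p, hp, h7⟩ := exists_prime_dvd_card h.bc.neE
  obtain ⟨q, hq, h8⟩ := exists_prime_dvd_card h.ab.neK
  obtain rfl := key q p hq hp h8 h7
  haveI := Fact.mk hq
  have e : pCore q G = fittingOf ⊤ := by
    rw [← Op_top, ← p_core_Fitting]
    exact pcore_pgroup_id fun r hr h => key r q hr hq h h7
  refine .inr ⟨q, hq, e ▸ h.ab.neK, B, h.ab.neE, h.cycB, h.odd, (p'nat_coprime hq).1 (pi'_p'nat h4 (h5 q hq h7)),
    e ▸ h.normal.normal, fun e' => h.bc.neE (eq_bot_iff.2 ?_), ?_, e ▸ h.ab.reg, fun x hx a ha h0 h9 => hx ?_⟩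
  · rw [← h.sd'.inf, ← e, e', top_inf_eq]
  · rw [e, ← relIndex_top_right, h.sd'.relIndexl]
    exact (p_natP hq).1 fun r hr h => (key q r hq hr h8 h).symm
  rw [e] at h9 ⊢
  obtain ⟨f, hf, n, hn, rfl⟩ := h.sd.mem (mem_top x)
  have h10 : n * a * n⁻¹ * a⁻¹ = 1 := h.ab.sd.inf.le ⟨by
    rw [show n * a * n⁻¹ * a⁻¹ = f⁻¹ * (f * n * a * (f * n)⁻¹ * a⁻¹) * (a * f * a⁻¹) by group]
    exact Subgroup.mul_mem _ (Subgroup.mul_mem _ (Subgroup.inv_mem _ hf) h9) (nF.conj_mem trivial hf), B.mul_mem (h.bc.normal.conj_mem hn ha) (B.inv_mem ha)⟩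
  exact mul_mem_sup' hf (h.cent1 ha h0 ⟨trivial, mem_cent1.2 (mul_inv_eq_iff_eq_mul.1 (mul_inv_eq_one.1 h10))⟩)

end Cfsg.Agent.S1476
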