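import Cfsg.Statements.S5560
import Cfsg.Agent.S0205
import Cfsg.Agent.Block.ZStar
import Cfsg.Agent.Solv.Core

set_option autoImplicit false
open Cfsg

namespace Cfsg.Agent.S5560

open Subgroup Cfsg.Agent.Solv

universe u

theorem aux {p : ℕ} (hp : p.Prime) (hp2 : p ≠ 2) (n : ℕ) :
    ∀ (G : Type u) [Group G] [Finite G], Nat.card G = n → ∀ d : G, orderOf d = 2 →
    (∀ a ∈ conjugatesOf d, ∀ b ∈ conjugatesOf d, ∃ k : ℕ, (a * b) ^ p ^ k = 1) →
    ∀ a ∈ conjugatesOf d, ∀ b ∈ conjugatesOf d, a * b ∈ pCore p G := by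
  induction n using Nat.strong_induction_on with
  | _ n ih =>
  intro G _ _ hn d hd hprod
  haveI : Fact p.Prime := ⟨hp⟩
  have hdd : d * d = 1 := by rw [← pow_two, ← hd, pow_orderOf_eq_one]
  have hsq : ∀ a ∈ conjugatesOf d, a * a = 1 := by
    intro a ha
    obtain ⟨g, rfl⟩ := isConj_iff.1 ha
    calc g * d * g⁻¹ * (g * d * g⁻¹) = g * (d * d) * g⁻¹ := by group
      _ = 1 := by rw [hdd]; group
  have hiso : IsIsolatedInvolution d := by
    refine ⟨hd, fun g hg => ?_⟩
    have hm : g * d * g⁻¹ ∈ conjugatesOf d := isConj_iff.2 ⟨g, rfl⟩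
    obtain ⟨k, hk⟩ := hprod d (IsConj.refl d) _ hm
    have h2 : (d * (g * d * g⁻¹)) ^ 2 = 1 := by
      rw [hg.mul_pow, pow_two, pow_two, hdd, hsq _ hm, one_mul]
    have h1 : d * (g * d * g⁻¹) = 1 := by
      rw [← orderOf_eq_one_iff]
      have e1 := orderOf_dvd_of_pow_eq_one hk
      have e2 := orderOf_dvd_of_pow_eq_one h2
      exact Nat.eq_one_of_dvd_coprimes
        (Nat.Coprime.pow_left k ((Nat.coprime_primes hp Nat.prime_two).2 hp2)) e1 e2
    calc g * d * g⁻¹ = d * (d * (g * d * g⁻¹)) := by rw [← mul_assoc, hdd, one_mul]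
      _ = d := by rw [h1, mul_one]
  have hdi : d⁻¹ = d := inv_eq_of_mul_eq_one_right hdd
  have hN : ∀ a ∈ conjugatesOf d, d * a ∈ pPrimeCore 2 G := by
    intro a ha
    obtain ⟨g, rfl⟩ := isConj_iff.1 ha
    have := Block.zstar hiso g
    rw [hdi] at this
    simpa only [mul_assoc] using this
  by_cases hO : pPrimeCore 2 G = ⊥
  · intro a ha b hb
    have e1 := hN a ha
    have e2 := hN b hb
    rw [hO, mem_bot] at e1 e2
    have : a * b = 1 := by
      rw [eq_inv_of_mul_eq_one_right e1, eq_inv_of_mul_eq_one_right e2, hdi, hdd]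
    rw [this]; exact one_mem _
  haveI : Group.IsSolvable (pPrimeCore 2 G) := S0205.result Block.odd_card_pPrimeCore
  obtain ⟨q, A, hq, hAn, hA0, hAle, -, -, hAq, -⟩ := exists_normal_elementary_le (pPrimeCore 2 G) hO
  haveI : Fact q.Prime := ⟨hq⟩
  have hdA : d ∉ A := fun h => by
    have h1 : orderOf d ∣ Nat.card (pPrimeCore 2 G) := orderOf_dvd_natCard _ (hAle h)
    rw [hd] at h1
    exact (Nat.not_even_iff_odd.2 Block.odd_card_pPrimeCore) (even_iff_two_dvd.2 h1)
  have hlt : Nat.card (G ⧸ A) < n := by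
    rw [← hn, card_eq_card_quotient_mul_card_subgroup A]
    have : 1 < Nat.card A := (one_lt_card_iff_ne_bot A).2 hA0
    have h0 : 0 < Nat.card (G ⧸ A) := Nat.card_pos
    nlinarith
  set π := QuotientGroup.mk' A with hπ
  have hd' : orderOf (π d) = 2 := by
    refine orderOf_eq_prime ?_ ?_
    · rw [← map_pow, pow_two, hdd, map_one]
    · intro h; exact hdA ((QuotientGroup.eq_one_iff d).1 h)
  have hlift : ∀ x ∈ conjugatesOf (π d), ∃ a ∈ conjugatesOf d, π a = x := by
    intro x hx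
    obtain ⟨g, rfl⟩ := isConj_iff.1 hx
    obtain ⟨g, rfl⟩ := QuotientGroup.mk'_surjective A g
    exact ⟨g * d * g⁻¹, isConj_iff.2 ⟨g, rfl⟩, by simp [hπ]⟩
  have hpush : ∀ a ∈ conjugatesOf d, π a ∈ conjugatesOf (π d) := fun a ha => π.map_isConj ha
  have hq' := ih _ hlt (G ⧸ A) rfl (π d) hd' (by
    intro x hx y hy
    obtain ⟨a, ha, rfl⟩ := hlift x hx
    obtain ⟨b, hb, rfl⟩ := hlift y hy
    obtain ⟨k, hk⟩ := hprod a ha b hb
    exact ⟨k, by rw [← map_mul, ← map_pow, hk, map_one]⟩)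
  intro a ha b hb
  have hR : a * b ∈ (pCore p (G ⧸ A)).comap π := by
    rw [mem_comap, map_mul]; exact hq' _ (hpush a ha) _ (hpush b hb)
  by_cases hpq : q = p
  · subst hpq
    rwa [comap_pCore (QuotientGroup.mk'_surjective A) (by rwa [QuotientGroup.ker_mk'])] at hR
  have hcent : ∀ c ∈ conjugatesOf d, c ∈ centralizer (A : Set G) := by
    intro c hc
    rw [mem_centralizer_iff]
    intro x hx
    have hm : x * c * x⁻¹ ∈ conjugatesOf d := IsConj.trans hc (isConj_iff.2 ⟨x, rfl⟩)
    obtain ⟨k, hk⟩ := hprod c hc _ hm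
    have hci : c⁻¹ = c := inv_eq_of_mul_eq_one_right (hsq c hc)
    have hin : c * (x * c * x⁻¹) ∈ A := by
      have : c * (x * c * x⁻¹) = (c * x * c⁻¹) * x⁻¹ := by rw [hci]; group
      rw [this]; exact A.mul_mem (hAn.conj_mem x hx c) (A.inv_mem hx)
    obtain ⟨m, hm'⟩ := hAq ⟨_, hin⟩
    have hm2 : (c * (x * c * x⁻¹)) ^ q ^ m = 1 := by simpa using congrArg Subtype.val hm'
    have h1 : c * (x * c * x⁻¹) = 1 := by
      rw [← orderOf_eq_one_iff]
      exact Nat.eq_one_of_dvd_coprimes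
        (Nat.Coprime.pow k m ((Nat.coprime_primes hp hq).2 (Ne.symm hpq)))
        (orderOf_dvd_of_pow_eq_one hk) (orderOf_dvd_of_pow_eq_one hm2)
    calc x * c = c * (c * (x * c * x⁻¹)) * x := by
          rw [← mul_assoc c c, hsq c hc]; group
      _ = c * x := by rw [h1, mul_one]
  set S : Subgroup G := (pCore p (G ⧸ A)).comap π ⊓ centralizer (A : Set G) with hS
  haveI : S.Normal := by rw [hS]; infer_instance
  have hab : a * b ∈ S := ⟨hR, mul_mem (hcent a ha) (hcent b hb)⟩
  have hnil : Group.IsNilpotent S := by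
    let f : S →* pCore p (G ⧸ A) := (π.comp S.subtype).codRestrict _ fun x => x.2.1
    haveI : Group.IsNilpotent (pCore p (G ⧸ A)) := (isPGroup_pCore p _).isNilpotent
    refine Subgroup.isNilpotent_of_ker_le_center f ?_
    intro x hx
    have hxA : (x : G) ∈ A := by
      have : π x = 1 := congrArg Subtype.val hx
      exact (QuotientGroup.eq_one_iff _).1 this
    rw [mem_center_iff]
    intro y
    exact Subtype.ext ((mem_centralizer_iff.1 y.2.2 x hxA).symm)
  obtain ⟨k, hk⟩ := hprod a ha b hb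
  have hz : IsPGroup p (zpowers (⟨a * b, hab⟩ : S)) := by
    refine IsPGroup.of_card (n := (Nat.factorization (orderOf (⟨a * b, hab⟩ : S))) p) ?_
    rw [Nat.card_zpowers]
    have : orderOf (⟨a * b, hab⟩ : S) ∣ p ^ k :=
      orderOf_dvd_of_pow_eq_one (Subtype.ext (by simpa using hk))
    obtain ⟨j, -, hj⟩ := (Nat.dvd_prime_pow hp).1 this
    rw [hj, hp.factorization_pow]; simp
  obtain ⟨P, hP⟩ := hz.exists_le_sylow
  haveI : (P : Subgroup S).Normal := inferInstance
  have h1 : (⟨a * b, hab⟩ : S) ∈ pCore p S := by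
    rw [pCore_eq_of_normal P]; exact hP (mem_zpowers _)
  exact map_subtype_pCore_le S ⟨_, h1, rfl⟩

/-- A Z*-type result for an odd prime p. Let G be a finite group and d an involution of G such that the product of any two conjugates of d has order a power of p. Then the product of any two conjugates of d lies in the largest normal p-subgroup O_p(G); in other words the conjugacy class of d lies in the coset O_p(G)d, and d is central modulo O_p(G). -/
theorem result {G : Type*} [Group G] [Finite G] {p : ℕ} (hp : p.Prime) (hp2 : p ≠ 2)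
    (d : G) (hd : orderOf d = 2)
    (hprod : ∀ a ∈ conjugatesOf d, ∀ b ∈ conjugatesOf d, ∃ k : ℕ, orderOf (a * b) = p ^ k) :
    ∀ a ∈ conjugatesOf d, ∀ b ∈ conjugatesOf d, a * b ∈ Cfsg.pCore p G := by
  exact aux hp hp2 _ G rfl d hd fun a ha b hb => by
    obtain ⟨k, hk⟩ := hprod a ha b hb
    exact ⟨k, by rw [← hk, pow_orderOf_eq_one]⟩

end Cfsg.Agent.S5560
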