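import Cfsg.Statements.S1618
import Cfsg.Agent.S5560
-- import your own Cfsg.Agent.* helpers here

set_option autoImplicit false
open Cfsg

namespace Cfsg.Agent.S1618

/-- A group generated by a class of involutions whose pairwise products (of distinct members) have p-power order for a fixed odd prime p has nilpotent derived subgroup. -/
theorem result {G : Type*} [Group G] [Finite G] (p : ℕ) (hp : p.Prime) (hodd : p ≠ 2) {D : Set G} (hinv : ∀ d ∈ D, orderOf d = 2) (hconj : ∃ d ∈ D, D = conjugatesOf d) (hgen : Subgroup.closure D = ⊤) (hprod : ∀ x ∈ D, ∀ y ∈ D, x ≠ y → ∃ k : ℕ, orderOf (x * y) = p ^ k) : Group.IsNilpotent ↥(commutator G) := by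
  obtain ⟨d, hd, rfl⟩ := hconj
  haveI : Fact p.Prime := ⟨hp⟩
  have h := S5560.result hp hodd d (hinv d hd) (fun a ha b hb => by
    by_cases hab : a = b
    · subst hab
      refine ⟨0, ?_⟩
      rw [pow_zero, orderOf_eq_one_iff, ← pow_two, ← hinv a ha, pow_orderOf_eq_one]
    · exact hprod a ha b hb hab)
  have hle : commutator G ≤ pCore p G := by
    have hdd : d * d = 1 := by rw [← pow_two, ← hinv d hd, pow_orderOf_eq_one]
    set π := QuotientGroup.mk' (pCore p G)
    have h1 : ∀ a ∈ conjugatesOf d, π a = π d := by
      intro a ha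
      have : π (d * a) = 1 := (QuotientGroup.eq_one_iff _).2 (h d hd a ha)
      calc π a = π d * π (d * a) := by rw [← map_mul, ← mul_assoc, hdd, one_mul]
        _ = π d := by rw [this, mul_one]
    have h2 : ∀ g : G, π g ∈ Subgroup.zpowers (π d) := by
      intro g
      have : Subgroup.closure (conjugatesOf d) ≤ (Subgroup.zpowers (π d)).comap π :=
        (Subgroup.closure_le _).2 fun a ha => by
          rw [SetLike.mem_coe, Subgroup.mem_comap, h1 a ha]; exact Subgroup.mem_zpowers _
      exact this (hgen ▸ Subgroup.mem_top g)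
    rw [commutator_def, Subgroup.commutator_le]
    intro x _ y _
    rw [← QuotientGroup.eq_one_iff]
    obtain ⟨i, hi⟩ := h2 x
    obtain ⟨j, hj⟩ := h2 y
    refine (map_commutatorElement π x y).trans ?_
    rw [commutatorElement_eq_one_iff_commute, ← hi, ← hj]
    exact Commute.zpow_zpow_self _ _ _
  exact ((Solv.isPGroup_pCore p G).to_le hle).isNilpotent

end Cfsg.Agent.S1618
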