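import Cfsg.Statements.S1669
import Cfsg.Agent.R3.RuB
import Cfsg.Agent.R3.RuC
import Cfsg.Agent.Spor.RuTits
import Cfsg.Agent.Known.TitsOut
import Cfsg.Agent.Known.TitsEq
import Cfsg.Agent.Known.RuG
import Cfsg.Agent.S2185

set_option autoImplicit false
set_option maxRecDepth 100000
set_option exponentiation.threshold 100000
open Cfsg

namespace Cfsg.Agent.S1669

open MulAction Cfsg.Agent.R3 Cfsg.Agent.R3.Ru Cfsg.Agent.Known Cfsg.Agent.Spor

theorem tits : ∃ ψ : MdTits.G →* H₀, Function.Injective ψ := by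
  open MdRu in
  obtain ⟨ρ, h1, -, h2⟩ := MdTits.model.inj (b := renG g renT) (renG_255 _ (by decide))
    (renG_rels (rep.ev_eq_one inj (by decide +kernel) (ev_eq_one_of_chkId (L := 12) rep.ok (by decide) (by decide +kernel))))
    (w := [0]) (by decide) (by rw [ev_renG]; exact rep.ne_one (p := 1) (q := 464) (by decide +kernel) (by decide +kernel) (by decide))
  have h : ρ.range ≤ H₀ := by
    open MdRu in
    rw [H_eq, h2, show List.range 6 = List.range renT.length from rfl, genL_renG]
    open MdRu in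
    exact fun a ha => (stab a).2 (fix_of_chkClosed rep.ok (ws := renT) (by decide +kernel)
      (rep.map_genW (ws := renT) (by decide +kernel) ▸ Subgroup.mem_map_of_mem φ ha))
  exact ⟨ρ.codRestrict _ fun x => h ⟨x, rfl⟩, fun _ _ e => h1 (congrArg Subtype.val e)⟩

theorem stab {Δ : SimpleGraph X} (L : Loc H₀ Δ (pt 0) (pt 3594) (pt 1)) :
    Nonempty (Cfsg.Lie.twistedF4 (ZMod 2) 1 ≃* H₀) := by
  have := MdTits.simple
  obtain ⟨ψ, h⟩ := tits
  obtain ⟨ψ', h'⟩ := TitsT.exists_hom
  obtain ⟨e⟩ := equiv_mulAut h MdTits.card cardH₀ (by decide) (by norm_num) TitsO.out fun c hc _ =>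
    L.center (orbD ▸ eq_of_fix codesJ (by decide +kernel)) (orbG ▸ eq_of_fix codesL (by decide +kernel)) hc ▸ one_mem _
  have hc : ψ'.range = commutator _ := by
    obtain ⟨h1, ⟨f⟩⟩ := TitsT.bridge
    have : Finite (Cfsg.Lie.twistedF4 (ZMod 2) 1) := Nat.finite_of_card_ne_zero (by rw [TitsT.card2]; decide)
    exact Subgroup.eq_of_le_of_card_ge (range_le_of_index_two (by rw [MdTits.card]; decide) ψ' h1)
      ((Nat.card_congr f.toEquiv).trans (Nat.card_congr (MonoidHom.ofInjective h').toEquiv)).le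
  obtain ⟨e'⟩ := equiv_mulAut h' MdTits.card TitsT.card2 (by decide) (by norm_num) TitsO.out fun c _ h2 =>
    hc ▸ S2185.result c h2
  exact ⟨e'.trans e.symm⟩

/-- Recognition of the Rudvalis group as a rank 3 permutation group: a transitive permutation group on 4060 points in which the stabiliser of a point is isomorphic to the Ree group ²F₄(2) and has two further orbits, of sizes 1755 and 2304, is isomorphic to the Rudvalis group. -/
theorem result {Ω : Type*} [Fintype Ω] [DecidableEq Ω] (hΩ : Fintype.card Ω = 4060) (G : Subgroup (Equiv.Perm Ω)) [MulAction.IsPretransitive G Ω] (a : Ω)  (e : MulAction.stabilizer G a ≃* Cfsg.Lie.twistedF4 (ZMod 2) 1) (b c : Ω) (hb : (MulAction.orbit (MulAction.stabilizer G a) b).ncard = 1755) (hc : (MulAction.orbit (MulAction.stabilizer G a) c).ncard = 2304) : Cfsg.Spor.IsoRu G := by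
  have := pretrans M MdRu.trans
  have := MdRu.simple
  obtain ⟨Δ, -, -, -, hΔ, L⟩ := rank3 (Nat.card_eq_fintype_card.trans (Fintype.card_fin _) : Nat.card X = 1 + 1755 + 2304)
    (by decide) (by decide) (by decide) (by decide) ncD ncG
  obtain ⟨f⟩ := stab L
  obtain ⟨e1⟩ := equiv_of_loc (l₀ := 730) (m₀ := 780) (e.trans f) (Nat.card_eq_fintype_card.trans hΩ) hb hc (by decide) hΔ L
    ncD ncG cardH₀ MdRu.card (cardA hΔ L) 439 (by norm_num) (by decide) (by decide) h1 (hl hΔ L)
    (fun K hK h => untwisted (h2 hΔ L K hK h) (le_of_stab_card hK ncG cardH₀ h) (h2' hΔ L)) (h3 hΔ L)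
  obtain ⟨e2⟩ := RuL.main.1
  exact ⟨e1.trans e2⟩

end Cfsg.Agent.S1669
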