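import Cfsg.Statements.S1701
import Cfsg.Agent.Spor.HnG

set_option autoImplicit false
open Cfsg

namespace Cfsg.Agent.S1701

/-- The presented Harada–Norton group is simple of the expected order (that is, it is a simple group of the order of the Harada–Norton group). -/
theorem result : Cfsg.IsHN Cfsg.Spor.HN := by
  exact ⟨Spor.HnG.simple, Spor.HnG.main.2.2.2.2.1⟩

end Cfsg.Agent.S1701
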