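import Cfsg.Statements.S1708
import Cfsg.Agent.Spor.HnG
import Cfsg.Agent.Spor.Cov2
import Cfsg.Agent.Known.HSEq

set_option autoImplicit false
open Cfsg

namespace Cfsg.Agent.S1708

def ren : List (List ℕ) := [[0, 0], [2, 0, 3, 4, 2, 2, 4, 2, 2, 4, 2, 2, 4, 0, 3], [2, 0, 4, 3, 3, 4, 3, 3, 4, 3, 3, 4, 2, 0, 3], [2, 0, 4, 2, 2, 4, 2, 4, 3, 3, 4, 3, 3, 4, 0, 2, 4, 0], [3, 0, 4, 2, 4, 2, 4, 3, 4], [2, 2, 2, 0, 4, 2, 2, 0, 2, 2, 2, 0, 4, 3, 4, 2, 2, 4, 3, 0], [2, 0, 4, 3, 3, 0, 2, 2, 4, 2, 4, 2, 4, 0, 2, 2, 2, 0, 2, 0], [2, 0, 2, 0, 4, 2, 2, 2, 0, 2, 2, 4, 3, 0, 2, 2], [2, 0, 2, 2, 4, 2, 4, 2, 0, 4, 2, 2, 4, 2, 2, 2, 0, 3]]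

def rz : List (List ℕ) := [[0, 0], [1, 2], [2, 1], [0, 1, 1, 1], [3, 3], [4, 4], [1, 4, 2, 3, 4, 3], [0, 1, 4, 1, 4, 1, 4], [1, 3, 1, 3, 1, 3, 1, 3], [0, 5, 6], [0, 6, 5], [1, 5, 1, 5, 1, 5], [0, 5, 5, 5, 5, 5], [0, 1, 6, 4, 6, 1, 6, 6], [1, 4, 6, 6, 1, 4, 6, 6], [1, 3, 2, 6, 2, 4, 6, 3, 5], [0, 1, 6, 3, 5, 3, 6, 3, 6, 4], [7, 7], [3, 6, 7, 5, 3, 6, 7, 5], [0, 1, 4, 5, 7, 4, 2, 7, 5, 7], [1, 3, 6, 7, 5, 1, 3, 6, 7, 5], [1, 4, 6, 7, 5, 4, 2, 6, 7, 5], [0, 1, 3, 2, 5, 4, 7, 3, 7, 1, 7], [0, 3, 7, 3, 7, 3, 7, 3, 7, 3, 7], [8, 8], [0, 1, 7, 8, 1, 7, 8, 1, 7, 8], [1, 3, 7, 3, 7, 1, 3, 8, 3, 2, 8], [3, 7, 8, 7, 8, 3, 8, 3, 8], [1, 7, 2, 6, 8, 1, 7, 3, 4, 5, 4, 3, 8], [1, 7, 4, 7, 8, 4, 8, 7, 3, 4, 5], [1, 3, 2, 5, 4, 3, 7, 1, 7, 8, 2, 3, 1, 8], [0, 1, 3, 8, 3, 7, 3, 5, 3, 1, 4, 8]]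

theorem cov : Nat.card (Spor.genW Spor.HnL.y ren) = 2 * 44352000 ∧
    Cfsg.IsNonsplitDoubleCover (Spor.genW Spor.HnL.y ren) Known.HSP.G :=
  have := Leech.simple_HS
  have : IsSimpleGroup Known.HSP.G := Known.HST.equiv'.elim fun e => e.symm.isSimpleGroup
  Spor.HnL.pa.cover2 Known.HSP.lifts Known.HSP.card (by decide) (by norm_num) (rz := rz) rfl (by decide +kernel) (by decide)
    (by decide +kernel) (by decide +kernel) 0 0 1 3 (by decide) (by decide) (by decide +kernel) (by decide +kernel)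
    (by decide +kernel) (by decide +kernel)

/-- In the presented Harada–Norton group, the subgroup N generated by the images of x, y, z has a normal subgroup of index 2 which is a non-split double cover of the Higman–Sims group. -/
theorem result : ∃ K : Subgroup (((Subgroup.closure ({Cfsg.Spor.HN.x, Cfsg.Spor.HN.y, Cfsg.Spor.HN.z} : Set (FreeGroup Cfsg.Spor.HN.Gen))).map (PresentedGroup.mk (Cfsg.Spor.coxRelators Cfsg.Spor.HN.edges ∪ {r | r ∈ Cfsg.Spor.HN.extra})))), K.Normal ∧ K.index = 2 ∧ Cfsg.IsNonsplitDoubleCover K Cfsg.Spor.HS := by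
  have e := Spor.HnG.lt.map_closure (S := {Cfsg.Spor.HN.x, Cfsg.Spor.HN.y, Cfsg.Spor.HN.z}) [Cfsg.Spor.HN.x, Cfsg.Spor.HN.y, Cfsg.Spor.HN.z] (by ext; simp) (ws := [[0], [2], [4]]) (by decide +kernel)
  rw [e, ← Spor.HnG.rng']
  obtain ⟨e'⟩ := Known.HST.equiv
  exact Spor.index_two_cover _ cov.2 cov.1 Spor.HnK.card (by decide) (MonoidHom.ofInjective Spor.HnG.main.2.2.1) e'.symm

end Cfsg.Agent.S1708
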