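import Cfsg.Statements.S1892
import Cfsg.Agent.Loc.Bal
import Cfsg.Agent.Solv.Separable

set_option autoImplicit false
open Cfsg

namespace Cfsg.Agent.S1892

/-- Let S be a finite p-solvable group with no nontrivial normal subgroup of order prime to p, A a p-subgroup of S, and Q a nontrivial A-invariant subgroup of order prime to p with [A, Q] = Q. Then the commutator [O_p(S), A, Q] is nontrivial. -/
theorem result {S : Type*} [Group S] [Finite S] {p : ℕ} [Fact p.Prime]
    (hS : Cfsg.IsPSolvable p S) (hred : Cfsg.pPrimeCore p S = ⊥)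
    (A Q : Subgroup S) (hA : IsPGroup p A) (hQ : ¬ p ∣ Nat.card Q) (hQ1 : Q ≠ ⊥)
    (hinv : ∀ a ∈ A, ∀ x ∈ Q, a * x * a⁻¹ ∈ Q) (hAQ : ⁅A, Q⁆ = Q) :
    ⁅⁅Cfsg.pCore p S, A⁆, Q⁆ ≠ ⊥ := by
  open Cfsg.Agent.Loc Subgroup in
  open scoped commutatorElement in
  intro h
  have hAQn : A ≤ normalizer (Q : Set S) := le_normalizer_of_cj_le fun a ha => cj_le_iff_forall.2 (hinv a ha)
  have hc : (Nat.card Q).Coprime p := ((Nat.Prime.coprime_iff_not_dvd Fact.out).2 hQ).symm
  have hQV : Q ≤ normalizer ((⁅pCore p S, A⁆ : Subgroup S) : Set S) :=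
    le_normalizer_of_le_centralizer (commutator_eq_bot_iff'.1 h)
  have h1 : ⁅⁅A, Q⁆, pCore p S⁆ ≤ ⁅pCore p S, A⁆ := by
    refine three_subgroups (normalizer_commutator_ge_right _ _) hQV (normalizer_commutator_ge_left _ _) ?_ ?_
    · exact commutator_mono (commutator_le_right _ _) le_rfl
    · rw [h]; exact bot_le
  rw [hAQ, Subgroup.commutator_comm] at h1
  have h2 : pCore p S ≤ centralizer (Q : Set S) :=
    Solv.le_centralizer_of_commutator_le (N := ⁅pCore p S, A⁆)
      (Sig.coprime_of_isPGroup_of_coprime ((isPGroup_pCore p S).to_le (commutator_le_left _ _)) hc).symm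
      (commutator_eq_bot_iff_le_centralizer.1 h) h1
  have h3 : Q ≤ pCore p S := (le_centralizer_iff.1 h2).trans (Solv.centralizer_pCore_le_of_isPSolvable hS hred)
  exact hQ1 (eq_bot_of_isPGroup_of_coprime ((isPGroup_pCore p S).to_le h3) hc)

end Cfsg.Agent.S1892
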