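import Cfsg.Statements.S1893
import Cfsg.Agent.PLocal.ZJ
import Cfsg.Agent.PLocal.Stable
import Cfsg.Agent.Solv.Separable
import Cfsg.Agent.Gen2.SolRad

set_option autoImplicit false
open Cfsg

namespace Cfsg.Agent.S1893

open Subgroup Cfsg.Agent.Solv Cfsg.Agent.PLocal

theorem C_pow {G : Type*} [Group G] {B : Subgroup G} {c : G} (h : c ∈ centralizer (B : Set G)) (n : ℕ) :
    c ^ n ∈ centralizer (B : Set G) := pow_mem h n

theorem key {G : Type*} [Group G] [Finite G] [Group.IsSolvable G] (h2 : pCore 2 G = ⊥) (h3 : pCore 3 G = ⊥)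
    {X : Subgroup G} (h : ⁅⁅fittingSubgroup G, X⁆, X⁆ = ⊥) : X ≤ fittingSubgroup G := by
  have st : ∀ (p : ℕ) [Fact p.Prime], X ≤ opMod p ⊤ (centralizer (pCore p G : Set G)) := fun p _ => by
    by_cases h0 : pCore p G = ⊥
    · refine le_trans ?_ (inf_le_opMod (by simp [normalizer_eq_top]))
      rw [h0]; intro x _; exact ⟨trivial, by simp [mem_centralizer_iff]⟩
    refine StableOn.le (stableOn_of_pSolv (by rintro rfl; exact h0 h2) (isPSolvable_of_isSolvable p _)
      (by rintro rfl; exact absurd h3 h0) (isPGroup_pCore p G) (by simp [normalizer_eq_top])) le_top ?_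
    exact eq_bot_iff.2 ((commutator_mono (commutator_mono pCore_le_fitting le_rfl) le_rfl).trans h.le)
  intro x hx
  refine Gen2.mem_of_forall_pElt fun q hq y hy ⟨k, hk⟩ => ?_
  haveI := Fact.mk hq
  have hy' : y ∈ X := (zpowers_le.2 hx) hy
  let B := pPrimeCore q G ⊓ fittingSubgroup G
  let C := opMod q ⊤ (centralizer (pCore q G : Set G)) ⊓ centralizer (B : Set G)
  have hyC : y ∈ C := ⟨st q hy', fun b hb => by
    refine (mem_centralizer_singleton_iff.1 (Gen2.mem_of_forall_pElt (H := centralizer {y}) fun p hp c hc ⟨l, hl⟩ => ?_))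
    haveI := Fact.mk hp
    have hcB : c ∈ B := (zpowers_le.2 hb) hc
    have hcP : c ∈ pCore p G := le_pCore_of_le_fitting (Q := zpowers c)
      (IsPGroup.of_card (by rw [Nat.card_zpowers, hl])) (zpowers_le.2 hcB.2) (mem_zpowers c)
    by_cases e : p = q
    · subst e
      have : c = 1 := mem_bot.1 ((pCore_inf_pPrimeCore (p := p) (G := G)).le ⟨hcP, hcB.1⟩)
      rw [this]; exact one_mem _
    obtain ⟨m, hm⟩ := exists_pow_mem_of_mem_opMod (by simp [normalizer_eq_top]) (st p hy')
    have : y ∈ centralizer (pCore p G : Set G) := by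
      refine (zpowers_le.2 hm) ?_
      rw [mem_zpowers_pow_iff, hk]
      exact Nat.Coprime.pow _ _ ((Nat.coprime_primes hp hq).2 e)
    exact mem_centralizer_singleton_iff.2 (this c hcP)⟩
  haveI : C.Normal := inferInstance
  haveI : Group.IsNilpotent C := by
    have : IsPGroup q (C ⧸ center C) := fun c => by
      obtain ⟨c, rfl⟩ := QuotientGroup.mk_surjective c
      obtain ⟨m, hm⟩ := exists_pow_mem_of_mem_opMod (by simp [normalizer_eq_top]) c.2.1
      have hF : c.1 ^ q ^ m ∈ fittingSubgroup G := centralizer_fitting_le (by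
        rw [fitting_eq_pCore_sup (p := q), ← zpowers_le, le_centralizer_iff, sup_le_iff, ← le_centralizer_iff,
          ← le_centralizer_iff (H := zpowers _), zpowers_le, zpowers_le]
        exact ⟨hm, C_pow c.2.2 _⟩)
      obtain ⟨j, hj⟩ := exists_pow_mem_of_forall_coprime (p := q) (C := B) (g := c.1 ^ q ^ m) fun b hb hc =>
        have hb' := (zpowers_le.2 hF) hb
        ⟨le_pPrimeCore_of_le_fitting (Q := zpowers b) (by rwa [Nat.card_zpowers]) (zpowers_le.2 hb')
          (mem_zpowers b), hb'⟩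
      refine ⟨m + j, ?_⟩
      rw [← QuotientGroup.mk_pow, QuotientGroup.eq_one_iff, mem_center_iff]
      intro g
      apply Subtype.ext
      rw [pow_add, pow_mul]
      exact (g.2.2 _ hj).symm
    haveI := this.isNilpotent
    exact of_quotient_center_nilpotent this
  exact le_fitting hyC

theorem core {G : Type*} [Group G] [Finite G] [Group.IsSolvable G] (h2 : pCore 2 G = ⊥) (h3 : pCore 3 G = ⊥)
    {A : Subgroup G} (h1 : fittingSubgroup G ≤ normalizer (A : Set G))
    (h : fittingSubgroup G ⊓ centralizer (A : Set G) ≤ A) : centralizer (A : Set G) ≤ A := by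
  refine le_trans (le_inf (key h2 h3 (eq_bot_iff.2 ?_)) le_rfl) h
  have : ⁅fittingSubgroup G, centralizer (A : Set G)⁆ ≤ A := by
    refine le_trans (le_inf (commutator_le_left _ _) ?_) h
    rw [commutator_comm]
    exact commutator_le_of_le_normalizer (h1.trans (normalizer_le_normalizer_centralizer A))
  refine (commutator_mono this le_rfl).trans ?_
  rw [commutator_comm, le_bot_iff, commutator_eq_bot_iff_le_centralizer]

/-- Let S be a finite solvable group, π a set of primes containing neither 2 nor 3, H a Hall π-subgroup of S, and A a self-centralizing normal subgroup of the Fitting subgroup F(H). Then C_S(A) = A × D for a normal subgroup D of C_S(A) whose order has no prime divisor in π. -/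
theorem result {S : Type*} [Group S] [Finite S] [Group.IsSolvable S]
    (π : Set ℕ) (h2 : 2 ∉ π) (h3 : 3 ∉ π) (H : Subgroup S) (hH : Cfsg.IsPiHall π H)
    (A : Subgroup S) (hA : Cfsg.IsSCN ((Cfsg.fittingSubgroup H).map H.subtype) A) :
    ∃ D : Subgroup S, D ≤ Subgroup.centralizer (A : Set S) ∧
      (∀ c ∈ Subgroup.centralizer (A : Set S), ∀ d ∈ D, c * d * c⁻¹ ∈ D) ∧
      A ⊓ D = ⊥ ∧ A ⊔ D = Subgroup.centralizer (A : Set S) ∧
      ∀ q : ℕ, q.Prime → q ∣ Nat.card D → q ∉ π := by
  obtain ⟨hAL, hLA, hC⟩ := hA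
  let N := piCore πᶜ S
  let f := QuotientGroup.mk' N
  have hf : Function.Surjective f := QuotientGroup.mk'_surjective N
  have hO : piCore πᶜ (S ⧸ N) = ⊥ := piCore_quotient_piCore _ _
  have hHN : H ⊓ N = ⊥ := IsPiNum.inf_eq_bot (isPiHall_iff.1 hH).1 (isPiNum_card_piCore _ _)
  have hLH : (fittingSubgroup H).map H.subtype ≤ H := map_subtype_le _
  have hFH : fittingSubgroup (S ⧸ N) ≤ H.map f := by
    have h1 := HallOf.map (isPiHallOf_top_iff.2 hH) f
    rw [map_top_of_surjective f hf] at h1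
    have h2 := fitting_le_piCore_sup (π := π) (G := S ⧸ N)
    rw [hO, sup_bot_eq, ← piCoreOf_top] at h2
    exact h2.trans (HallOf.piCoreOf_le h1)
  have hM : (fittingSubgroup (S ⧸ N)).comap f ⊓ H ≤ (fittingSubgroup H).map H.subtype := by
    haveI : Group.IsNilpotent ((fittingSubgroup (S ⧸ N)).comap f ⊓ H : Subgroup S) := by
      refine Subgroup.isNilpotent_of_ker_le_center
        ((f.comp (Subgroup.subtype ((fittingSubgroup (S ⧸ N)).comap f ⊓ H))).codRestrict (fittingSubgroup (S ⧸ N))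
          fun x => x.2.1) fun x hx => ?_
      rw [show x = 1 from
        Subtype.ext (mem_bot.1 (hHN.le ⟨x.2.2, (QuotientGroup.eq_one_iff _).1 (congrArg Subtype.val hx)⟩))]
      exact one_mem _
    exact le_map_fitting inf_le_right (le_normalizer_inf (le_normalizer_of_normal) le_normalizer)
  have hF : ∀ x ∈ fittingSubgroup (S ⧸ N), ∃ l ∈ (fittingSubgroup H).map H.subtype, f l = x := fun x hx => by
    obtain ⟨l, hl, rfl⟩ := hFH hx
    exact ⟨l, hM ⟨hx, hl⟩, rfl⟩
  have hAA : A ≤ centralizer (A : Set S) := hC.ge.trans inf_le_right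
  have := core (G := S ⧸ N) (eq_bot_iff.2 ((pCore_le_piCore h2).trans hO.le))
    (eq_bot_iff.2 ((pCore_le_piCore h3).trans hO.le)) (A := A.map f) (fun x hx => by
      obtain ⟨l, hl, rfl⟩ := hF x hx
      exact le_normalizer_map f (mem_map_of_mem f (hLA hl))) (fun x hx => by
      obtain ⟨l, hl, rfl⟩ := hF x hx.1
      refine mem_map_of_mem f (hC.le ⟨hl, fun a ha => ?_⟩)
      have h1 := hx.2 _ (mem_map_of_mem f ha)
      rw [← map_mul, ← map_mul, ← mul_inv_eq_one, ← map_inv, ← map_mul] at h1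
      exact mul_inv_eq_one.1 (mem_bot.1 (hHN.le ⟨H.mul_mem (H.mul_mem (hLH (hAL ha)) (hLH hl))
        (H.inv_mem (H.mul_mem (hLH hl) (hLH (hAL ha)))), (QuotientGroup.eq_one_iff _).1 h1⟩)))
  refine ⟨N ⊓ centralizer (A : Set S), inf_le_right, fun c hc d hd =>
    ⟨Normal.conj_mem inferInstance _ hd.1 _, Subgroup.mul_mem _ (Subgroup.mul_mem _ hc hd.2) (Subgroup.inv_mem _ hc)⟩,
    eq_bot_iff.2 fun x hx => hHN.le ⟨hLH (hAL hx.1), hx.2.1⟩, le_antisymm (sup_le hAA inf_le_right) fun c hc => ?_,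
    fun q hq hd => (isPiNum_card_piCore πᶜ S).card_of_le inf_le_left q hq hd⟩
  obtain ⟨a, ha, e⟩ := this (x := f c) (by
    rintro _ ⟨a, ha, rfl⟩
    rw [← map_mul, ← map_mul, hc a ha])
  have h1 : a⁻¹ * c ∈ N := QuotientGroup.eq.1 e
  have := mul_mem (mem_sup_left (T := N ⊓ centralizer (A : Set S)) ha)
    (mem_sup_right (S := A) (show a⁻¹ * c ∈ N ⊓ centralizer (A : Set S) from ⟨h1, Subgroup.mul_mem _ (Subgroup.inv_mem _ (hAA ha)) hc⟩))
  rwa [mul_inv_cancel_left] at this

end Cfsg.Agent.S1893
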