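import Cfsg.Statements.S1894
import Cfsg.Agent.Loc.Comm

set_option autoImplicit false
open Cfsg

namespace Cfsg.Agent.S1894

/-- Let P be a finite p-group, A a normal subgroup of P and B an abelian subgroup of A that is normal in P. Then some subgroup C of A containing B is normal in P and is self-centralizing and normal in A (C ∈ SCN(A)). -/
theorem result {P : Type*} [Group P] [Finite P] {p : ℕ} [Fact p.Prime] (hP : IsPGroup p P)
    (A : Subgroup P) [A.Normal] (B : Subgroup P) [B.Normal] (hBA : B ≤ A) (hB : IsMulCommutative B) :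
    ∃ C : Subgroup P, C.Normal ∧ B ≤ C ∧ Cfsg.IsSCN A C := by
  open Cfsg.Agent.Loc Subgroup in
  open scoped commutatorElement in
  obtain ⟨M, ⟨h1, h2, h3, h4⟩, hmax⟩ := exists_maximal_mem
    (S := {M : Subgroup P | B ≤ M ∧ M ≤ A ∧ M.Normal ∧ M ≤ centralizer (M : Set P)})
    ⟨B, le_rfl, hBA, inferInstance, le_centralizer_iff_isMulCommutative.2 hB⟩
  refine ⟨M, h3, h1, h2, le_normalizer_of_normal, le_antisymm ?_ (le_inf h2 h4)⟩
  by_contra hle
  obtain ⟨x, hx, hxM, hc⟩ := exists_commutator_mem_of_lt (p := p) (P := ⊤) (hP.to_subgroup _) (hP.to_subgroup _)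
    le_normalizer_of_normal le_normalizer_of_normal le_normalizer_of_normal hle
  have hn : (M ⊔ zpowers x).Normal := by
    refine normal_of_cj_le fun g => ?_
    rw [cj_sup, cj_eq_of_normal, cj_zpowers]
    refine sup_le le_sup_left (zpowers_le.2 ?_)
    have : g * x * g⁻¹ = ⁅x, g⁆⁻¹ * x := by simp only [commutatorElement_def]; group
    rw [this]
    exact mul_mem (mem_sup_left (inv_mem (hc g (mem_top _)))) (mem_sup_right (mem_zpowers x))
  have hz : zpowers x ≤ centralizer (M : Set P) := zpowers_le.2 hx.2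
  have := hmax (M ⊔ zpowers x) ⟨h1.trans le_sup_left, sup_le h2 (zpowers_le.2 hx.1), hn, by
    rw [centralizer_sup']
    exact sup_le (le_inf h4 (le_centralizer_iff.1 hz)) (le_inf hz (le_centralizer_iff_isMulCommutative.2 inferInstance))⟩ le_sup_left
  exact hxM (this ▸ mem_sup_right (mem_zpowers x))

end Cfsg.Agent.S1894
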