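import Cfsg.Statements.S1897
import Cfsg.Agent.Ico.U33
import Cfsg.Agent.Known.L32Eq
import Cfsg.Agent.Small.Recog
import Cfsg.Agent.S0249

set_option autoImplicit false
open Cfsg

namespace Cfsg.Agent.S1897

open Cfsg.Agent.Known Cfsg.Agent.Comp

theorem ev_inv {G : Type*} [Group G] (z : ℕ → G) (w : List ℕ) : (Spor.ev (fun i => (z i)⁻¹) w)⁻¹ = W z w := by
  induction w with
  | nil => simp
  | cons a w ih => rw [Spor.ev_cons, mul_inv_rev, ih, inv_inv, W_cons]

def sw : List (List ℕ) := [[1, 1], [3], [0, 1, 1, 2, 3, 2], [0, 0, 1, 1]]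

theorem W_flat {G : Type*} [Group G] (y : ℕ → G) (r : List ℕ) :
    W (fun i => W y (nthL [] sw i)) r = W y (r.flatMap fun i => nthL [] sw i) := by
  induction r with
  | nil => simp
  | cons a w ih => rw [W_cons, ih, List.flatMap_cons, W_append]

/-- The projective special unitary group PSU₃(3) (realised over the field with 9 elements) has a subgroup isomorphic to PSL₂(7). -/
theorem result {F : Type*} [Field F] [Fintype F] (hF : Fintype.card F = 9)
    {K : Type*} [Field K] [Fintype K] (hK : Fintype.card K = 7) :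
    ∃ H : Subgroup (Cfsg.PSU 3 F 3), Nonempty (H ≃* Matrix.ProjectiveSpecialLinearGroup (Fin 2) K) := by
  obtain ⟨e⟩ := Ico.U.equiv hF
  obtain ⟨e2⟩ := L32T.equiv (F := ZMod 2) (ZMod.card 2)
  haveI : IsSimpleGroup (Matrix.ProjectiveSpecialLinearGroup (Fin 3) (ZMod 2)) := S0249.result 3 le_rfl
  haveI : IsSimpleGroup L32P.G := e2.symm.isSimpleGroup
  haveI := L32T.fin
  obtain ⟨e3⟩ := Small.equiv_PSL_of_card (G := L32P.G) (p := 7) (d := 3) (hp := ⟨by decide⟩) rfl (by decide) L32P.card hK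
  obtain ⟨ψ, hψ⟩ := L32P.lifts _ (fun i => (W Ico.U.y (nthL [] sw i))⁻¹) fun r hr => by
    rw [← inv_eq_one, ev_inv, W_flat]
    refine Ico.U.mdl.eq (v := []) ?_
    revert r
    decide +kernel
  have hi : Function.Injective ψ := by
    rw [← MonoidHom.ker_eq_bot_iff]
    refine (ψ.normal_ker.eq_bot_or_eq_top).resolve_right fun h => ?_
    have h1 : ψ (L32P.g 1) = 1 := by rw [← MonoidHom.mem_ker, h]; trivial
    rw [hψ 1 (by decide), inv_eq_one] at h1
    have h2 := Ico.U.mdl.applyW (nthL [] sw 1) (i := 0) (by decide)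
    rw [h1, map_one] at h2
    revert h2
    decide +kernel
  exact ⟨(e.symm.toMonoidHom.comp ψ).range, ⟨(MonoidHom.ofInjective (e.symm.injective.comp hi)).symm.trans e3⟩⟩

end Cfsg.Agent.S1897
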