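import Cfsg.Statements.S1898
import Cfsg.Agent.PGrp.Basic
import Mathlib.Tactic.Group

set_option autoImplicit false
open Cfsg

namespace Cfsg.Agent.S1898
open scoped commutatorElement

open Subgroup Cfsg.Agent.PGrp

/-- Let X be a finite 2-group whose derived subgroup is elementary abelian and central. Then the subgroup generated by the elements of order dividing 4 has exponent dividing 4, and every automorphism of X fixing each element of order dividing 4 has 2-power order. -/
theorem result {X : Type*} [Group X] [Finite X] (hX : IsPGroup 2 X)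
    (hel : Cfsg.IsElementaryAbelian 2 (commutator X)) (hcen : commutator X ≤ Subgroup.center X) :
    (∀ x ∈ Subgroup.closure {g : X | g ^ 4 = 1}, x ^ 4 = 1) ∧
      ∀ φ : MulAut X, (∀ g : X, g ^ 4 = 1 → φ g = g) → ∃ k : ℕ, φ ^ (2 ^ k) = 1 := by
  haveI : Fact (Nat.Prime 2) := ⟨Nat.prime_two⟩
  have h4 : ∀ x y : X, (x * y) ^ 4 = x ^ 4 * y ^ 4 := by
    intro x y
    have hm : ⁅y, x⁆ ∈ commutator X := commutator_mem_commutator (mem_top y) (mem_top x)
    rw [mul_pow_of_commute_commutator (commute_of_mem_center (hcen hm) x) (commute_of_mem_center (hcen hm) y),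
      show Nat.choose 4 2 = 2 * 3 by rfl, pow_mul, hel.2 _ hm, one_pow, one_mul]
  refine ⟨fun x hx => ?_, fun φ hφ => ?_⟩
  · induction hx using closure_induction with
    | mem x hx => exact hx
    | one => exact one_pow 4
    | mul x y _ _ hx hy => rw [h4, hx, hy, one_mul]
    | inv x _ hx => rw [inv_pow, hx, inv_one]
  · have key : ∀ j : ℕ, ∀ x : X, x ^ 4 ^ (j + 1) = 1 → (φ ^ 4 ^ j) x = x := by
      intro j
      induction j with
      | zero => intro x hx; exact hφ x (by simpa using hx)
      | succ j ih =>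
        intro x hx
        set ψ := φ ^ 4 ^ j with hψ
        have h1 : ψ (x ^ 4) = x ^ 4 := ih _ (by rw [← pow_mul, ← pow_succ']; exact hx)
        have h2 : (x⁻¹ * ψ x) ^ 4 = 1 := by rw [h4, ← map_pow, h1, inv_pow, inv_mul_cancel]
        have h3 : ψ (x⁻¹ * ψ x) = x⁻¹ * ψ x := ih _ (by rw [pow_succ', pow_mul, h2, one_pow])
        have h5 : ∀ n : ℕ, (ψ ^ n) x = x * (x⁻¹ * ψ x) ^ n := by
          intro n
          induction n with
          | zero => simp
          | succ n ih2 => rw [pow_succ', MulAut.mul_apply, ih2, map_mul, map_pow, h3, pow_succ', ← mul_assoc,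
              mul_inv_cancel_left]
        rw [pow_succ, pow_mul, h5, h2, mul_one]
    obtain ⟨n, hn⟩ := IsPGroup.iff_card.1 hX
    refine ⟨2 * n, MulEquiv.ext fun x => ?_⟩
    rw [pow_mul]
    refine key n x ?_
    have : x ^ 2 ^ n = 1 := hn ▸ pow_card_eq_one'
    rw [show 4 ^ (n + 1) = 2 ^ n * 2 ^ (n + 2) by rw [show 4 = 2 ^ 2 by rfl, ← pow_mul, ← pow_add]; congr 1; ring,
      pow_mul, this, one_pow]

end Cfsg.Agent.S1898
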