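import Cfsg.Statements.S1899
import Cfsg.Agent.Loc.PGrp
import Cfsg.Agent.Solv.Basic

set_option autoImplicit false
open Cfsg

namespace Cfsg.Agent.S1899

section helpers
open Cfsg.Agent.Loc Subgroup
open scoped commutatorElement

theorem aux {A : Type*} [CommGroup A] [Finite A] {n : ℕ} (hn : Odd n) (d : MulAut A) (hd : d ^ n = 1)
    (hfix : ∀ a : A, d a = a → a = 1) (C : Subgroup A) (h : ∀ c ∈ C, d c ∈ C → d (d c) = c) :
    C ⊓ C.map d.toMonoidHom = ⊥ ∧ Nat.card (C ⊔ C.map d.toMonoidHom : Subgroup A) = Nat.card C * Nat.card C := by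
  have h1 : C ⊓ C.map d.toMonoidHom = ⊥ := by
    rw [eq_bot_iff]
    rintro _ ⟨h1, c, hc, rfl⟩
    have h2 := h c hc h1
    obtain ⟨k, rfl⟩ := hn
    have h3 : ∀ j : ℕ, (d ^ (2 * j)) c = c := by
      intro j
      induction j with
      | zero => simp
      | succ j ih => rw [mul_add, pow_add, mul_one, MulAut.mul_apply, sq, MulAut.mul_apply, h2, ih]
    have h4 : d c = c := by
      have := congrArg (fun φ : MulAut A => φ c) hd
      simpa only [pow_succ', MulAut.mul_apply, h3, MulAut.one_apply] using this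
    rw [hfix c h4]; simp
  refine ⟨h1, ?_⟩
  rw [Solv.card_sup_of_disjoint le_normalizer_of_normal h1, card_map_of_injective d.injective]

end helpers

/-- Let a dihedral group of order 2n, n odd and n > 1, act on a finite abelian 2-group A through automorphisms d and t with d^n = 1, t² = 1 and t d t⁻¹ = d⁻¹, and suppose that d fixes only the identity. Then A is the internal direct product of C_A(t) and its image under d. -/
theorem result {A : Type*} [CommGroup A] [Finite A] (hA : IsPGroup 2 A)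
    {n : ℕ} (hn : Odd n) (hn1 : 1 < n) (d t : MulAut A) (hd : d ^ n = 1) (ht : t ^ 2 = 1) (hdt : t * d * t⁻¹ = d⁻¹)
    (hfix : ∀ a : A, d a = a → a = 1) :
    (MulEquiv.toMonoidHom t).eqLocus (MonoidHom.id A) ⊓ ((MulEquiv.toMonoidHom t).eqLocus (MonoidHom.id A)).map d.toMonoidHom = ⊥ ∧
      (MulEquiv.toMonoidHom t).eqLocus (MonoidHom.id A) ⊔ ((MulEquiv.toMonoidHom t).eqLocus (MonoidHom.id A)).map d.toMonoidHom = ⊤ := by
  open Cfsg.Agent.Loc Subgroup in
  open scoped commutatorElement in
  have htt : ∀ a, t (t a) = a := fun a => by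
    have := congrArg (fun φ : MulAut A => φ a) ht
    simpa only [sq, MulAut.mul_apply, MulAut.one_apply] using this
  have htd : ∀ a, d (t (d a)) = t a := fun a => by
    have := congrArg (fun φ : MulAut A => d (φ (t a))) hdt
    simp only [MulAut.mul_apply, MulAut.inv_apply, MulEquiv.symm_apply_apply, MulEquiv.apply_symm_apply] at this
    exact this
  set C := (MulEquiv.toMonoidHom t).eqLocus (MonoidHom.id A) with hC
  have hmC : ∀ a, a ∈ C ↔ t a = a := fun a => Iff.rfl
  let ψ : A →* A := (MulEquiv.toMonoidHom t) * (MonoidHom.id A)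
  have hψ : ∀ a, ψ a = t a * a := fun a => rfl
  obtain ⟨h1, h2⟩ := aux hn d hd hfix C fun c hc hdc => by
    have := htd c
    rwa [(hmC _).1 hdc, (hmC _).1 hc] at this
  obtain ⟨-, h3⟩ := aux hn d hd hfix ψ.ker fun c hc hdc => by
    have := htd c
    rw [MonoidHom.mem_ker, hψ, mul_eq_one_iff_eq_inv] at hc hdc
    rw [hc, hdc, map_inv, inv_inj] at this
    exact this
  refine ⟨h1, ?_⟩
  have h4 : Nat.card ψ.range ≤ Nat.card C := card_le_of_le (by
    rintro _ ⟨a, rfl⟩
    rw [hmC, hψ, map_mul, htt, mul_comm])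
  have h5 : Nat.card A = Nat.card ψ.range * Nat.card ψ.ker := by
    rw [← index_ker, mul_comm, card_mul_index]
  have h6 : Nat.card ψ.ker * Nat.card ψ.ker ≤ Nat.card A := h3 ▸ card_le_card_group _
  have h7 : Nat.card C * Nat.card C ≤ Nat.card A := h2 ▸ card_le_card_group _
  have h8 : Nat.card ψ.ker ≤ Nat.card ψ.range := by
    rw [h5] at h6; exact Nat.le_of_mul_le_mul_right h6 Nat.card_pos
  refine eq_top_of_card_eq _ (le_antisymm (card_le_card_group _) ?_)
  rw [h2, h5]
  exact Nat.mul_le_mul h4 (h8.trans h4)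

end Cfsg.Agent.S1899
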