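import Cfsg.Statements.S1900
import Cfsg.Agent.Loc.Comm
import Cfsg.Agent.Loc.PGrp
import Cfsg.Agent.BG.S3Gen
import Cfsg.Agent.Sig.Core

set_option autoImplicit false
open Cfsg

namespace Cfsg.Agent.S1900

section helpers
open Cfsg.Agent.Loc Subgroup
open scoped commutatorElement

theorem zp {S : Type*} [Group S] [Finite S] {q : ℕ} [hq : Fact q.Prime] {X : Subgroup S} (h : Nat.card X = q) :
    ∃ x, x ≠ 1 ∧ zpowers x = X := by
  obtain ⟨x, hx, ho⟩ := exists_orderOf_eq_of_dvd_card (p := q) (N := X) (by rw [h])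
  refine ⟨x, ?_, eq_of_le_of_card_ge (zpowers_le.2 hx) (by rw [Nat.card_zpowers, ho, h])⟩
  rintro rfl
  rw [orderOf_one] at ho
  exact hq.out.one_lt.ne ho

end helpers

/-- Let S = PQ be a finite group with P a normal Sylow p-subgroup and Q elementary abelian of order q², q a prime different from p. If exactly two subgroups X₁, X₂ of order q in Q have a nontrivial centralizer in P, then P is the internal direct product of C_P(X₁) and C_P(X₂): they commute elementwise, meet trivially and generate P. -/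
theorem result {S : Type*} [Group S] [Finite S] {p q : ℕ} [Fact p.Prime] [Fact q.Prime] (hpq : p ≠ q)
    (P : Sylow p S) [(P : Subgroup S).Normal] (Q : Subgroup S) (hQ : Cfsg.IsElementaryAbelian q Q) (hQc : Nat.card Q = q ^ 2)
    (hS : (P : Subgroup S) ⊔ Q = ⊤)
    (X₁ X₂ : Subgroup S) (h₁ : X₁ ≤ Q) (h₂ : X₂ ≤ Q) (h₁₂ : X₁ ≠ X₂) (hc₁ : Nat.card X₁ = q) (hc₂ : Nat.card X₂ = q)
    (hf₁ : (P : Subgroup S) ⊓ Subgroup.centralizer (X₁ : Set S) ≠ ⊥)
    (hf₂ : (P : Subgroup S) ⊓ Subgroup.centralizer (X₂ : Set S) ≠ ⊥)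
    (honly : ∀ X : Subgroup S, X ≤ Q → Nat.card X = q →
      (P : Subgroup S) ⊓ Subgroup.centralizer (X : Set S) ≠ ⊥ → X = X₁ ∨ X = X₂) :
    ⁅(P : Subgroup S) ⊓ Subgroup.centralizer (X₁ : Set S), (P : Subgroup S) ⊓ Subgroup.centralizer (X₂ : Set S)⁆ = ⊥ ∧
      ((P : Subgroup S) ⊓ Subgroup.centralizer (X₁ : Set S)) ⊓ ((P : Subgroup S) ⊓ Subgroup.centralizer (X₂ : Set S)) = ⊥ ∧
      ((P : Subgroup S) ⊓ Subgroup.centralizer (X₁ : Set S)) ⊔ ((P : Subgroup S) ⊓ Subgroup.centralizer (X₂ : Set S)) = P := by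
  open Cfsg.Agent.Loc Subgroup in
  open scoped commutatorElement in
  have hq : q.Prime := Fact.out
  have hord : ∀ a ∈ Q, a ≠ 1 → Nat.card (zpowers a) = q := fun a ha h1 => by
    rw [Nat.card_zpowers]; exact orderOf_eq_prime_of_pow h1 (hQ.2 a ha)
  have hQp := isPGroup_of_isElementaryAbelian hQ
  have hcop : ∀ K : Subgroup S, K ≤ P → ∀ X : Subgroup S, X ≤ Q → (Nat.card X).Coprime (Nat.card K) := fun K hK X hX =>
    (Sig.coprime_of_isPGroup_of_coprime (P.isPGroup'.to_le hK) (Sig.coprime_of_isPGroup_of_ne (Ne.symm hpq) (hQp.to_le hX))).symm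
  have hnc : ¬ IsCyclic Q := by
    intro hc
    obtain ⟨g, hg⟩ := IsCyclic.exists_ofOrder_eq_natCard (α := Q)
    have : orderOf g ∣ q := orderOf_dvd_of_pow_eq_one (Subtype.ext (hQ.2 g g.2))
    rw [hg, hQc] at this
    have := Nat.le_of_dvd hq.pos this
    nlinarith [hq.one_lt]
  have gen : ∀ K : Subgroup S, K ≤ P → Q ≤ normalizer (K : Set S) →
      K ≤ (K ⊓ centralizer (X₁ : Set S)) ⊔ (K ⊓ centralizer (X₂ : Set S)) := by
    intro K hK hn
    refine BG.coprime_abelian_gen_cent1 hQ.1 hnc hn (hcop K hK Q le_rfl).symm fun a ha h1 => ?_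
    rw [← centralizer_zpowers]
    by_cases hb : (P : Subgroup S) ⊓ centralizer (zpowers a : Set S) = ⊥
    · exact ((inf_le_inf_right _ hK).trans hb.le).trans bot_le
    · rcases honly _ (zpowers_le.2 ha) (hord a ha h1) hb with h | h
      · rw [h]; exact le_sup_left
      · rw [h]; exact le_sup_right
  set C₁ := (P : Subgroup S) ⊓ centralizer (X₁ : Set S) with hC₁
  set C₂ := (P : Subgroup S) ⊓ centralizer (X₂ : Set S) with hC₂
  have hsup : C₁ ⊔ C₂ = P := le_antisymm (sup_le inf_le_left inf_le_left) (gen P le_rfl le_normalizer_of_normal)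
  have hinf : C₁ ⊓ C₂ = ⊥ := by
    obtain ⟨x₁, hx₁, rfl⟩ := zp hc₁
    obtain ⟨x₂, hx₂, rfl⟩ := zp hc₂
    have hm : x₁ * x₂ ∈ Q := mul_mem (h₁ (mem_zpowers _)) (h₂ (mem_zpowers _))
    have e1 : ¬ x₂ ∈ zpowers x₁ := fun h => h₁₂ (eq_of_le_of_card_ge (zpowers_le.2 h) (by rw [hc₁, hc₂])).symm
    have e2 : ¬ x₁ ∈ zpowers x₂ := fun h => h₁₂ (eq_of_le_of_card_ge (zpowers_le.2 h) (by rw [hc₁, hc₂]))
    have hne : x₁ * x₂ ≠ 1 := fun h => e1 (by
      rw [mul_eq_one_iff_inv_eq] at h; rw [← h]; exact inv_mem (mem_zpowers _))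
    by_contra hb
    have : (P : Subgroup S) ⊓ centralizer (zpowers (x₁ * x₂) : Set S) ≠ ⊥ := fun h => hb (eq_bot_iff.2 (h ▸ ?_))
    · rcases honly _ (zpowers_le.2 hm) (hord _ hm hne) this with h | h
      · exact e1 ((mul_mem_cancel_left (mem_zpowers x₁)).1 (h ▸ mem_zpowers _))
      · exact e2 ((mul_mem_cancel_right (mem_zpowers x₂)).1 (h ▸ mem_zpowers _))
    · refine le_inf (inf_le_left.trans inf_le_left) ?_
      refine le_trans ?_ (centralizer_anti (K := zpowers x₁ ⊔ zpowers x₂)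
        (zpowers_le.2 (mul_mem (mem_sup_left (mem_zpowers _)) (mem_sup_right (mem_zpowers _)))))
      rw [centralizer_sup']
      exact inf_le_inf inf_le_right inf_le_right
  refine ⟨?_, hinf, hsup⟩
  have hQc' : Q ≤ centralizer (Q : Set S) := le_centralizer_iff_isMulCommutative.2 hQ.1
  have nC : ∀ X : Subgroup S, X ≤ Q → Q ≤ normalizer ((centralizer (X : Set S) : Subgroup S) : Set S) := fun X hX =>
    le_normalizer_centralizer (le_normalizer_of_le_centralizer (hQc'.trans (centralizer_anti hX)))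
  have n1 : Q ≤ normalizer (C₁ : Set S) := le_normalizer_inf le_normalizer_of_normal (nC _ h₁)
  have n2 : Q ≤ normalizer (C₂ : Set S) := le_normalizer_inf le_normalizer_of_normal (nC _ h₂)
  have e12 : ⁅C₁, X₂⁆ = C₁ := by
    have := Solv.commutator_sup_inf_centralizer (h₂.trans n1) (hcop C₁ inf_le_left X₂ h₂)
      (Or.inl (Sig.isSolvable_of_isPGroup (hQp.to_le h₂)))
    have h0 : C₁ ⊓ centralizer (X₂ : Set S) = ⊥ := eq_bot_iff.2 (hinf ▸ le_inf inf_le_left
      (le_inf (inf_le_left.trans inf_le_left) inf_le_right))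
    rwa [h0, sup_bot_eq] at this
  have e21 : ⁅C₂, X₁⁆ = C₂ := by
    have := Solv.commutator_sup_inf_centralizer (h₁.trans n2) (hcop C₂ inf_le_left X₁ h₁)
      (Or.inl (Sig.isSolvable_of_isPGroup (hQp.to_le h₁)))
    have h0 : C₂ ⊓ centralizer (X₁ : Set S) = ⊥ := eq_bot_iff.2 (hinf ▸ le_inf
      (le_inf (inf_le_left.trans inf_le_left) inf_le_right) inf_le_left)
    rwa [h0, sup_bot_eq] at this
  set W := ⁅C₁, C₂⁆ with hW
  have nPW : (P : Subgroup S) ≤ normalizer (W : Set S) := by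
    rw [← hsup]; exact sup_le (normalizer_commutator_ge_left _ _) (normalizer_commutator_ge_right _ _)
  have nQW : Q ≤ normalizer (W : Set S) := le_normalizer_commutator n1 n2
  have hWP : W ≤ P := (commutator_mono inf_le_left inf_le_left).trans (commutator_le_left _ _)
  set W₀ := ⁅W, (P : Subgroup S)⁆ with hW₀
  have nQW₀ : Q ≤ normalizer (W₀ : Set S) := le_normalizer_commutator nQW le_normalizer_of_normal
  have nP : ∀ N : Subgroup S, W₀ ≤ N → N ≤ W → (P : Subgroup S) ≤ normalizer (N : Set S) := fun N a b => by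
    rw [le_normalizer_iff_commutator_le_left]; exact (commutator_mono b le_rfl).trans a
  have hW₀W : W₀ ≤ W := commutator_le_left_of_le_normalizer nPW
  have hWX : ∀ X : Subgroup S, X ≤ Q → ⁅W, X⁆ ≤ W := fun X hX => commutator_le_left_of_le_normalizer (hX.trans nQW)
  have nQ' : ∀ X : Subgroup S, X ≤ Q → Q ≤ normalizer ((W₀ ⊔ ⁅W, X⁆ : Subgroup S) : Set S) := fun X hX =>
    le_normalizer_sup nQW₀ (le_normalizer_commutator nQW (le_normalizer_of_le_centralizer (hQc'.trans (centralizer_anti hX))))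
  have a2 : W ≤ W₀ ⊔ ⁅W, X₂⁆ := by
    have := three_subgroups (A := X₂) (B := C₁) (C := C₂) (N := W₀ ⊔ ⁅W, X₂⁆) (h₂.trans (nQ' _ h₂))
      (inf_le_left.trans (nP _ le_sup_left (sup_le hW₀W (hWX _ h₂))))
      (inf_le_left.trans (nP _ le_sup_left (sup_le hW₀W (hWX _ h₂)))) le_sup_right
      (by rw [commutator_eq_bot_iff_le_centralizer.2 (inf_le_right : C₂ ≤ _), commutator_bot_left]; exact bot_le)
    rwa [Subgroup.commutator_comm X₂, e12] at this
  have a1 : W ≤ W₀ ⊔ ⁅W, X₁⁆ := by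
    have := three_subgroups (A := X₁) (B := C₂) (C := C₁) (N := W₀ ⊔ ⁅W, X₁⁆) (h₁.trans (nQ' _ h₁))
      (inf_le_left.trans (nP _ le_sup_left (sup_le hW₀W (hWX _ h₁))))
      (inf_le_left.trans (nP _ le_sup_left (sup_le hW₀W (hWX _ h₁))))
      (by rw [Subgroup.commutator_comm C₂]; exact le_sup_right)
      (by rw [commutator_eq_bot_iff_le_centralizer.2 (inf_le_right : C₁ ≤ _), commutator_bot_left]; exact bot_le)
    rwa [Subgroup.commutator_comm X₁, e21, Subgroup.commutator_comm C₂] at this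
  have nU := nP (W₀ ⊔ (W ⊓ centralizer (X₁ : Set S))) le_sup_left (sup_le hW₀W inf_le_left)
  have a3 : ⁅W, X₂⁆ ≤ W₀ ⊔ (W ⊓ centralizer (X₁ : Set S)) := by
    refine (commutator_mono (gen W hWP nQW) le_rfl).trans (commutator_sup_left_le
      ((inf_le_left.trans hWP).trans nU) ((inf_le_left.trans hWP).trans nU) ?_
      (commutator_le_of_le_centralizer inf_le_right _))
    exact (commutator_le_left_of_le_normalizer (h₂.trans (le_normalizer_inf nQW (nC _ h₁)))).trans le_sup_right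
  have a4 : ⁅W, X₁⁆ ≤ W₀ := by
    refine (commutator_mono (a2.trans (sup_le le_sup_left a3)) le_rfl).trans (commutator_sup_left_le
      le_normalizer ((inf_le_left.trans hWP).trans (nP _ le_rfl hW₀W)) (commutator_le_left_of_le_normalizer (h₁.trans nQW₀))
      (commutator_le_of_le_centralizer inf_le_right _))
  exact eq_bot_of_le_commutator P.isPGroup' (P.isPGroup'.to_le hWP) nPW (a1.trans (sup_le le_rfl a4))

end Cfsg.Agent.S1900
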