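import Cfsg.Statements.S1901
import Cfsg.Agent.Loc.Comm
import Cfsg.Agent.Loc.PGrp
import Cfsg.Agent.Solv.Separable
import Cfsg.Agent.Sig.Core

set_option autoImplicit false
open Cfsg

namespace Cfsg.Agent.S1901

section helpers
open Cfsg.Agent.Loc Subgroup
open scoped commutatorElement

theorem step {G : Type*} [Group G] [Finite G] {p : ℕ} [Fact p.Prime] {Q P A N : Subgroup G} [N.Normal]
    (hQ : (Nat.card Q).Coprime p) (hP : SylIn p P ⊤) (hQP : Q ≤ normalizer (P : Set G)) (hA : IsPGroup p A)
    (hAQ : A ≤ normalizer (Q : Set G)) (hN : IsPGroup p N ∨ (Nat.card N).Coprime p) (h : ⁅Q, A⁆ ≤ N) :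
    ⁅Q, A⁆ = ⊥ := by
  have h1 : ⁅Q, A⁆ ≤ Q := commutator_le_left_of_le_normalizer hAQ
  rcases hN with hN | hN
  · exact eq_bot_of_isPGroup_of_coprime (hN.to_le h) (Sig.coprime_card_of_le h1 hQ)
  · set Q₀ := Q ⊓ N
    have h2 : P ≤ centralizer (Q₀ : Set G) := by
      rw [← commutator_eq_bot_iff', eq_bot_iff, ← inf_eq_bot_of_isPGroup_of_coprime hP.pg hN]
      exact le_inf (commutator_le_right_of_le_normalizer (inf_le_left.trans hQP))
        ((commutator_mono inf_le_right le_rfl).trans (commutator_le_left _ _))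
    have h3 : SylIn p P (normalizer (Q₀ : Set G)) := hP.mono (le_normalizer_of_le_centralizer h2) le_top
    obtain ⟨g, hg, hle⟩ := h3.exists_le_conj (le_normalizer_inf hAQ le_normalizer_of_normal) hA
    have h4 : A ≤ centralizer (Q₀ : Set G) :=
      hle.trans (cj_le_of_mem_normalizer (normalizer_le_normalizer_centralizer _ hg) h2)
    rw [commutator_eq_bot_iff_le_centralizer]
    exact Solv.le_centralizer_of_commutator_le (N := Q₀)
      (Sig.coprime_of_isPGroup_of_coprime hA (Sig.coprime_card_of_le inf_le_left hQ)) (le_centralizer_iff.1 h4) (le_inf h1 h)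

end helpers

/-- Let G be a finite p-solvable group and Q a subgroup of order prime to p such that p divides the index of C_G(Q) in N_G(Q). Then Q normalizes no Sylow p-subgroup of G. -/
theorem result {G : Type*} [Group G] [Finite G] {p : ℕ} [Fact p.Prime]
    (hG : Cfsg.IsPSolvable p G) (Q : Subgroup G) (hQ : ¬ p ∣ Nat.card Q)
    (hA : p ∣ (Subgroup.centralizer (Q : Set G)).relIndex (Subgroup.normalizer (Q : Set G)))
    (P : Sylow p G) : ¬ Q ≤ Subgroup.normalizer ((P : Subgroup G) : Set G) := by
  open Cfsg.Agent.Loc Subgroup in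
  open scoped commutatorElement in
  intro hQP
  have hc : (Nat.card Q).Coprime p := ((Nat.Prime.coprime_iff_not_dvd Fact.out).2 hQ).symm
  obtain ⟨A, hA'⟩ := exists_sylIn p (normalizer (Q : Set G))
  have key : ∀ M : Subgroup G, Solv.NormalChain (fun n => (∃ m, n = p ^ m) ∨ n.Coprime p) M → ⁅Q, A⁆ ≤ M → ⁅Q, A⁆ = ⊥ := by
    intro M hM
    induction hM with
    | bot => exact fun h => le_bot_iff.1 h
    | @step N M hN hNM hMn hP ih =>
      intro h
      haveI := hN.normal
      refine ih ?_
      set f := QuotientGroup.mk' N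
      have hfs : Function.Surjective f := QuotientGroup.mk'_surjective N
      haveI : (M.map f).Normal := hMn.map f hfs
      have hcard : Nat.card (M.map f) = N.relIndex M := by
        have := Solv.card_map_mul_card_inf_ker f M
        rw [QuotientGroup.ker_mk', ← Solv.card_inf_mul_relIndex N M, mul_comm] at this
        exact Nat.eq_of_mul_eq_mul_left Nat.card_pos this
      have hS := (sylIn_top P).map f
      rw [map_top_of_surjective _ hfs] at hS
      rw [commutator_le_iff_map_mk]
      refine step (N := M.map f) (Sig.coprime_card_map f hc) hS ((map_mono hQP).trans (le_normalizer_map f))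
        (hA'.pg.map f) ((map_mono hA'.le).trans (le_normalizer_map f)) ?_ ?_
      · rcases hP with ⟨m, hm⟩ | hP
        · exact Or.inl (IsPGroup.of_card (hcard.trans hm))
        · exact Or.inr (hcard ▸ hP)
      · rw [← Subgroup.map_commutator]; exact map_mono h
  have h1 := key ⊤ (Solv.NormalChain.top_iff_fin.2 hG) le_top
  have h2 : A ≤ centralizer (Q : Set G) := commutator_eq_bot_iff'.1 h1
  exact hA'.not_dvd_relIndex (hA.trans (relIndex_dvd_of_le_left _ h2))

end Cfsg.Agent.S1901
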