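import Cfsg.Statements.S1902
import Cfsg.Agent.S1302
import Cfsg.Agent.PLocal.PSolv
import Cfsg.Agent.BG.Base5

set_option autoImplicit false
open Cfsg

namespace Cfsg.Agent.S1902

open Subgroup Cfsg.Agent.BG

/-- Let p be an odd prime, G a finite p-solvable group, and B an elementary abelian subgroup of order p² such that B is the subgroup generated by the elements of order p of some Sylow p-subgroup of C_G(b₀), for some nontrivial b₀ ∈ B. Then every B-invariant subgroup of G of order prime to p lies in O_{p'}(G). -/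
theorem result {G : Type*} [Group G] [Finite G] {p : ℕ} [Fact p.Prime] (hp : p ≠ 2)
    (hG : Cfsg.IsPSolvable p G) (B : Subgroup G) (hB : Cfsg.IsElementaryAbelian p B) (hBc : Nat.card B = p ^ 2)
    (b₀ : G) (hb₀ : b₀ ∈ B) (hb₁ : b₀ ≠ 1) (P : Sylow p ↥(Subgroup.centralizer ({b₀} : Set G)))
    (hBP : B = Subgroup.closure {x : G | x ∈ ((P : Subgroup ↥(Subgroup.centralizer ({b₀} : Set G))).map
      (Subgroup.centralizer ({b₀} : Set G)).subtype : Subgroup G) ∧ orderOf x = p})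
    (Q : Subgroup G) (hQ : ¬ p ∣ Nat.card Q) (hinv : ∀ b ∈ B, ∀ x ∈ Q, b * x * b⁻¹ ∈ Q) :
    Q ≤ Cfsg.pPrimeCore p G := by
  refine S1302.result p hp (PLocal.isPConstrained_of_pSolv hG) B hB.1 hB.pg (fun x hx ho => ?_) Q hQ
    fun b hb => mem_norm_of_cj_le (by rintro _ ⟨x, hx, rfl⟩; exact hinv b hb x hx)
  have xp : x ^ p = 1 := ho ▸ pow_orderOf_eq_one x
  have h1 : B ≤ C1[b₀] := fun b hb => mem_cent1.2 (congrArg Subtype.val (hB.1.is_comm.comm ⟨b, hb⟩ ⟨b₀, hb₀⟩))
  have hE : Abelem p (B ⊔ zpowers x) := abelemY hB (cycle_abelem xp) (cents_symm (zpowers_le.2 hx))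
  obtain ⟨g, -, hg⟩ := Sylow_Jsub (sylowIn_of_sylow P)
    (sup_le h1 (zpowers_le.2 (mem_cent1.2 (hx b₀ hb₀).symm))) hE.pg
  have h2 : cj g (B ⊔ zpowers x) ≤ B := fun y hy => by
    by_cases y1 : y = 1
    · exact y1 ▸ one_mem _
    · exact hBP ▸ subset_closure ⟨hg hy, abelem_order_p (abelemJ g hE) hy y1⟩
  exact (eq_of_le_of_card_ge le_sup_left ((card_cj g _).symm.trans_le (card_le_card h2))).ge
    (mem_sup_right (mem_zpowers x))

end Cfsg.Agent.S1902
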