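import Cfsg.Statements.S1903
import Cfsg.Agent.Mult.U34b
import Cfsg.Agent.Low.U3Aut

set_option autoImplicit false
open Cfsg

namespace Cfsg.Agent.S1903

open Cfsg.Agent.Mult Cfsg.Agent.Classical Cfsg.Agent.Suz Cfsg.Agent.Low.U3A Matrix Subgroup
open scoped commutatorElement

section
variable {E : Type*} [Field E] [Fintype E] [hF : Fact (Fintype.card E = 4 ^ 2)] [CharP E 2]

/-- torus element -/
def uD (c : E) (hc : c ^ 5 = 1) : SU 3 E 4 :=
  ⟨⟨!![c ^ 3, c + c ^ 3, c + c ^ 3; c + c ^ 3, c ^ 3, c + c ^ 3; c + c ^ 3, c + c ^ 3, c ^ 3], by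
      simp [det_fin_three]
      grind⟩, fun u v => by
    change hermForm 3 E 4 (!![c ^ 3, c + c ^ 3, c + c ^ 3; c + c ^ 3, c ^ 3, c + c ^ 3; c + c ^ 3, c + c ^ 3, c ^ 3] *ᵥ u)
      (!![c ^ 3, c + c ^ 3, c + c ^ 3; c + c ^ 3, c ^ 3, c + c ^ 3; c + c ^ 3, c + c ^ 3, c ^ 3] *ᵥ v) = _
    simp only [hermForm, Fin.sum_univ_three, mulVec, dotProduct, add_pow_q, mul_pow]
    simp
    grind⟩

theorem uD_smul {c : E} (hc : c ^ 5 = 1) (x y z : E) : uD c hc • (z • uF + x • uW + y • (uE : Fin 3 → E)) =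
    (c * z) • uF + (c ^ 3 * x) • uW + (c * y) • uE := by
  rw [su_smul_def]
  ext i; fin_cases i <;> simp [uD, uE, uF, uW, mulVec, dotProduct, Fin.sum_univ_three] <;> grind

theorem uD_pow {c : E} (hc : c ^ 5 = 1) (k : ℕ) (x y z : E) : uD c hc ^ k • (z • uF + x • uW + y • (uE : Fin 3 → E)) =
    (c ^ k * z) • uF + ((c ^ 3) ^ k * x) • uW + (c ^ k * y) • uE := by
  induction k with
  | zero => simp
  | succ k ih => rw [pow_succ', mul_smul, ih, uD_smul]; simp only [pow_succ', mul_assoc]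

/-- the model embedding -/
noncomputable def um : UM E 4 →* SU 3 E 4 :=
  MonoidHom.mk' (fun a => uU 4 a.x a.y) fun a b => ((uc_model (E := E) (q := 4)).mul _ _ _ _ a.h b.h).symm

theorem um_inj : Function.Injective (um (E := E)) := fun a b e => by
  have := (uc_model (E := E) (q := 4)).inj _ _ _ _ a.h b.h (congrArg (fun g => g • uT E 4 • uP E 4) e)
  exact UM.ext this.1 this.2

theorem um_smul (a : UM E 4) (x' y' z : E) : um a • (z • uF + x' • uW + y' • (uE : Fin 3 → E)) =
    z • uF + (x' + z * a.x) • uW + (y' + z * a.y + a.x ^ 4 * x') • uE := uU_smul a.h ..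

/-- torus action -/
def tr {c : E} (hc : c ^ 5 = 1) (a : UM E 4) : UM E 4 := ⟨c ^ 2 * a.x, a.y, by rw [a.h]; grind⟩

theorem uD_conj {c : E} (hc : c ^ 5 = 1) (a : UM E 4) : uD c hc * um a * (uD c hc)⁻¹ = um (tr hc a) := by
  rw [mul_inv_eq_iff_eq_mul]
  refine su_ext' fun x y z => ?_
  rw [mul_smul, mul_smul, um_smul, uD_smul, uD_smul, um_smul]
  simp only [tr]
  congr 2 <;> [congr 1; skip] <;> grind

theorem cen_um {c : E} (hc : c ^ 5 = 1) {a : UM E 4} (h : a.x = 0) :
    Commute (uD c hc) (um a) ∧ (∀ b, Commute (um b) (um a)) ∧ um a ^ 2 = 1 := by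
  refine ⟨?_, fun b => ?_, ?_⟩
  · have := uD_conj hc a
    rw [show tr hc a = a from UM.ext (by simp [tr, h]) rfl, mul_inv_eq_iff_eq_mul] at this
    exact this
  · rw [Commute, SemiconjBy, ← map_mul, ← map_mul, comm_of_x h]
  · rw [← map_pow, sq, (sq_eq_one_iff a).2 h, map_one]

theorem main : ∃ t σ a : SU 3 E 4, orderOf t = 2 ∧ R320 σ a ∧ closure {σ, a} = centralizer {t} ∧
    320 ≤ Nat.card (centralizer ({t} : Set (SU 3 E 4))) := by
  haveI : Fact (Nat.Prime 5) := ⟨Nat.prime_five⟩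
  haveI : Fact (Nat.Prime 2) := ⟨Nat.prime_two⟩
  obtain ⟨c, hc⟩ : ∃ c : E, IsPrimitiveRoot c 5 := by
    classical
    obtain ⟨c, hc⟩ := exists_prime_orderOf_dvd_card' (G := Eˣ) 5 (by
      rw [Nat.card_eq_fintype_card, Fintype.card_units, hF.out]; norm_num)
    exact ⟨c, IsPrimitiveRoot.coe_units_iff.2 (hc ▸ IsPrimitiveRoot.orderOf c)⟩
  have h5 := hc.pow_eq_one
  have hs : c ^ 4 + c ^ 3 + c ^ 2 + c + 1 = 0 := by
    have := hc.geom_sum_eq_zero (by norm_num)
    simp [Finset.sum_range_succ] at this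
    linear_combination this
  let m : UM E 4 := ⟨1, c ^ 4 + c ^ 3, by rw [add_pow_q]; grind⟩
  let t : UM E 4 := cz 1 (one_pow _)
  set σ := uD c h5 with hσ
  have s5 : σ ^ 5 = 1 := su_ext' fun x y z => by
    rw [uD_pow, ← pow_mul, mul_comm 3, pow_mul, h5]; simp
  have c2 : σ ^ 2 * um m * (σ ^ 2)⁻¹ = um (tr h5 (tr h5 m)) := by
    rw [← uD_conj, ← uD_conj, ← hσ]; simp only [sq]; group
  have cx : ∀ a b : UM E 4, (⁅a, b⁆).x = 0 := fun a b => by
    simp only [commutatorElement_def, mul_x, inv_x]; grind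
  have k1 := cen_um h5 (cx m (tr h5 m))
  have k2 := cen_um h5 (cx m (tr h5 (tr h5 m)))
  have k3 := cen_um h5 (a := m ^ 2) (by rw [sq, mul_x, CharTwo.add_self_eq_zero])
  rw [map_commutatorElement, ← uD_conj] at k1
  rw [map_commutatorElement, ← c2] at k2
  rw [map_pow] at k3
  have kt := cen_um h5 (a := t) rfl
  have σC : σ ∈ centralizer {um t} := mem_centralizer_singleton_iff.2 kt.1
  have uC : ∀ a, um a ∈ centralizer {um t} := fun a => mem_centralizer_singleton_iff.2 (kt.2.1 a)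
  refine ⟨um t, σ, um m, orderOf_eq_prime kt.2.2 fun e => ?_, ⟨s5, ?_, k1.1, k1.2.1 _, k1.2.2, k2.1, k2.2.1 _, k2.2.2,
    k3.1, k3.2.2⟩, le_antisymm ?_ fun g hg => ?_, ?_⟩
  · have := congrArg UM.y (um_inj (e.trans (map_one um).symm))
    simp [t] at this
  · have : (um m * σ) ^ 5 = um (m * tr h5 (m * tr h5 (m * tr h5 (m * tr h5 m)))) * σ ^ 5 := by
      simp only [map_mul, ← uD_conj, ← hσ, pow_succ]; group
    rw [this, s5, mul_one, ← map_one um]
    congr 1
    ext <;> simp only [m, tr, mul_x, mul_y, one_x, one_y] <;> grind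
  · rw [closure_le]
    rintro _ (rfl | rfl)
    exacts [σC, uC _]
  · set K : Subgroup (SU 3 E 4) := closure {σ, um m}
    have σK : σ ∈ K := subset_closure (by simp)
    have aK : um m ∈ K := subset_closure (by simp)
    let X : E → Prop := fun x => ∃ a, um a ∈ K ∧ a.x = x
    have Xadd : ∀ x y, X x → X y → X (x + y) := by
      rintro _ _ ⟨a, ha, rfl⟩ ⟨b, hb, rfl⟩
      exact ⟨a * b, by rw [map_mul]; exact mul_mem ha hb, rfl⟩
    have X2 : ∀ x, X x → X (c ^ 2 * x) := by
      rintro _ ⟨a, ha, rfl⟩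
      exact ⟨tr h5 a, by rw [← uD_conj]; exact mul_mem (mul_mem σK ha) (inv_mem σK), rfl⟩
    have Xk : ∀ k : ℕ, X (c ^ k) := fun k => by
      induction k with
      | zero => exact ⟨m, aK, by simp [m]⟩
      | succ k ih =>
        have := X2 _ (X2 _ (X2 _ ih))
        convert this using 1
        rw [pow_succ]; linear_combination (-(c ^ k * c)) * h5
    have Xall : ∀ x, X x := fun x => by
      by_cases hx : x = 0
      · exact ⟨1, by simp, by simp [hx]⟩
      have h15 : x ^ 15 = 1 := by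
        have := FiniteField.pow_card_sub_one_eq_one x hx
        rwa [hF.out] at this
      obtain ⟨i, -, hi⟩ := hc.eq_pow_of_pow_eq_one (ξ := x ^ 3) (by rw [← pow_mul, h15])
      have e : (x ^ 5 + 1) * ((x ^ 5 + (c + c ^ 4)) * (x ^ 5 + (c ^ 2 + c ^ 3))) = 0 := by grind
      have e1 : x = (c ^ i) ^ 2 * (x ^ 5) ^ 2 := by rw [hi]; linear_combination (-x) * h15
      rcases mul_eq_zero.1 e with e | e
      · convert Xk (2 * i) using 1
        rw [e1, CharTwo.add_eq_zero.1 e]; ring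
      rcases mul_eq_zero.1 e with e | e
      · convert Xadd _ _ (Xk (2 * i + 2)) (Xk (2 * i + 8)) using 1
        rw [e1, CharTwo.add_eq_zero.1 e, CharTwo.add_sq]; ring
      · convert Xadd _ _ (Xk (2 * i + 4)) (Xk (2 * i + 6)) using 1
        rw [e1, CharTwo.add_eq_zero.1 e, CharTwo.add_sq]; ring
    have UK : ∀ a, um a ∈ K := fun a => by
      obtain ⟨b, hb, e⟩ := Xall a.x
      have h0 : (b⁻¹ * a).x = 0 := by simp [e, CharTwo.add_self_eq_zero]
      obtain ⟨x, hx⟩ := exists_norm_eq (fix_of_x h0)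
      obtain ⟨d, hd, rfl⟩ := Xall x
      have : b⁻¹ * a = d * d := by
        rw [sq_eq]
        exact UM.ext h0 (by rw [cz_y, ← hx]; ring)
      rw [← mul_inv_cancel_left b a, this, map_mul, map_mul]
      exact mul_mem hb (mul_mem hd hd)
    obtain ⟨x, y, z, e⟩ := exists_coord (g • (uF : Fin 3 → E))
    have e0 : (uF : Fin 3 → E) = (1 : E) • uF + (0 : E) • uW + (0 : E) • uE := by simp
    have e1 : g • (uE : Fin 3 → E) = z • uE := by
      have := congrArg (fun g => g • (uF : Fin 3 → E)) (mem_centralizer_singleton_iff.1 hg)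
      simp only [mul_smul] at this
      rw [e, um_smul, e0, um_smul] at this
      simp [t, e, add_smul, ← add_assoc] at this
      exact this
    have e2 : z ^ 5 = 1 := by
      have := herm_su_smul g uF uE
      rw [e, e1, herm_tab.2.2.2.2.1, show z • (uE : Fin 3 → E) = (0 : E) • uF + (0 : E) • uW + z • uE by simp,
        herm_coord] at this
      simpa [pow_succ'] using this
    obtain ⟨i, -, hi⟩ := hc.eq_pow_of_pow_eq_one e2
    obtain ⟨x, y, u, e3⟩ := exists_uU (A := (σ ^ i)⁻¹ * g) (by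
      have := uD_pow h5 i 0 1 0
      simp only [zero_smul, zero_add, one_smul, mul_zero, mul_one] at this
      rw [mul_smul, e1, ← hi, ← this, inv_smul_smul])
    rw [← mul_inv_cancel_left (σ ^ i) g, ← e3]
    exact mul_mem (pow_mem σK _) (UK ⟨x, y, u⟩)
  · have d1 : 64 ∣ Nat.card (centralizer ({um t} : Set (SU 3 E 4))) := by
      have := card_dvd_of_le (show um.range ≤ centralizer ({um t} : Set (SU 3 E 4)) by rintro _ ⟨a, rfl⟩; exact uC a)
      rwa [← Nat.card_congr (MonoidHom.ofInjective um_inj).toEquiv, card_UM] at this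
    have d2 : 5 ∣ Nat.card (centralizer ({um t} : Set (SU 3 E 4))) := by
      have := card_dvd_of_le (zpowers_le.2 σC)
      rwa [Nat.card_zpowers, orderOf_eq_prime s5 fun e => ?_] at this
      have := uD_smul h5 0 1 0
      rw [← hσ, e, one_smul] at this
      exact hc.ne_one (by norm_num) (by simpa using (coord_inj this).2.1.symm)
    exact Nat.le_of_dvd Nat.card_pos (Nat.Coprime.mul_dvd_of_dvd_of_dvd (by norm_num) d1 d2)

end

/-- A finite group of order 320 whose derived subgroup has order 64 and has centre a Klein four-group is isomorphic to the centralizer of an involution in PSU₃(4). -/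
theorem result {G : Type*} [Group G] [Finite G] (hG : Nat.card G = 320) (hD : Nat.card (commutator G) = 64)
    (hZ : IsKleinFour (Subgroup.center (commutator G)))
    {F : Type*} [Field F] [Fintype F] (hF : Fintype.card F = 16) :
    ∃ t : Cfsg.PSU 3 F 4, orderOf t = 2 ∧ Nonempty (G ≃* Subgroup.centralizer ({t} : Set (Cfsg.PSU 3 F 4))) := by
  haveI hq : Fact (Fintype.card F = 4 ^ 2) := ⟨hF⟩
  haveI : CharP F 2 := charP_of_card_eq_prime_pow (f := 4) hF
  obtain ⟨σ, a, h, g⟩ := exists_R320 hG hD hZ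
  obtain ⟨t, σ', a', ht, h', g', c'⟩ := main (E := F)
  have hc : center (SU 3 F 4) = ⊥ := by
    rw [← card_eq_one, card_center_SU (by norm_num)]; rfl
  let e : SU 3 F 4 ≃* PSU 3 F 4 := MulEquiv.ofBijective (QuotientGroup.mk' _)
    ⟨by rw [← MonoidHom.ker_eq_bot_iff, QuotientGroup.ker_mk', hc], QuotientGroup.mk'_surjective _⟩
  have σC : σ' ∈ centralizer {t} := g' ▸ subset_closure (by simp)
  have aC : a' ∈ centralizer {t} := g' ▸ subset_closure (by simp)
  obtain ⟨e'⟩ := h.equiv (G' := centralizer ({t} : Set (SU 3 F 4))) (σ' := ⟨σ', σC⟩) (a' := ⟨a', aC⟩)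
    ⟨Subtype.ext h'.s5, Subtype.ext h'.nm, Subtype.ext h'.c1σ, Subtype.ext h'.c1a, Subtype.ext h'.c1s, Subtype.ext h'.c2σ,
      Subtype.ext h'.c2a, Subtype.ext h'.c2s, Subtype.ext h'.uσ, Subtype.ext h'.us⟩ g (by
      apply Subgroup.map_injective (subtype_injective _)
      rw [MonoidHom.map_closure, ← MonoidHom.range_eq_map, range_subtype, Set.image_pair]
      exact g') hG.ge c'
  refine ⟨e t, by rw [MulEquiv.orderOf_eq, ht], ⟨e'.trans ((e.subgroupMap _).trans (MulEquiv.subgroupCongr ?_))⟩⟩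
  ext x
  obtain ⟨x, rfl⟩ := e.surjective x
  rw [mem_centralizer_singleton_iff, ← map_mul, ← map_mul, e.injective.eq_iff, ← mem_centralizer_singleton_iff]
  exact mem_map_iff_mem (f := (e : SU 3 F 4 →* PSU 3 F 4)) e.injective

end Cfsg.Agent.S1903
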