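import Cfsg.Statements.S1906
import Cfsg.Agent.Loc.TT
import Cfsg.Agent.PGrp.Basic

set_option autoImplicit false
open Cfsg

namespace Cfsg.Agent.S1906

open Cfsg.Agent.Loc

theorem mem_comm {G : Type*} [Group G] [Finite G] (hG : ∀ H : Subgroup G, H.index ≠ 2) {y : G}
    (hy : y * y = 1) : y ∈ commutator G := by
  by_contra hn
  let A := Abelianization G
  have hs : Function.Surjective (Abelianization.of : G →* A) := QuotientGroup.mk'_surjective _
  haveI : Finite A := Finite.of_surjective _ hs
  let R : Subgroup A := (powMonoidHom 2 : A →* A).range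
  have hQ : IsPGroup 2 (A ⧸ R) := by
    intro q
    obtain ⟨a, rfl⟩ := QuotientGroup.mk_surjective q
    exact ⟨1, by rw [pow_one, ← QuotientGroup.mk_pow, QuotientGroup.eq_one_iff]; exact ⟨a, rfl⟩⟩
  obtain ⟨k, hk⟩ := hQ.exists_card_eq
  cases k with
  | zero =>
    have : R = ⊤ := Subgroup.index_eq_one.1 (by rw [pow_zero] at hk; exact hk)
    have hsurj : Function.Surjective (powMonoidHom 2 : A →* A) := MonoidHom.range_eq_top.1 this
    have hinj := Finite.injective_iff_surjective.2 hsurj
    have : Abelianization.of y = 1 := hinj (by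
      rw [map_one, powMonoidHom_apply, ← map_pow, pow_two, hy, map_one])
    exact hn ((QuotientGroup.eq_one_iff y).1 this)
  | succ k =>
    obtain ⟨K, hK⟩ := Sylow.exists_subgroup_card_pow_prime (G := A ⧸ R) 2 (n := k)
      (by rw [hk]; exact pow_dvd_pow 2 (by omega))
    have hi : K.index = 2 := by
      have := K.card_mul_index
      rw [hK, hk, pow_succ] at this
      exact Nat.eq_of_mul_eq_mul_left (by positivity) this
    apply hG ((K.comap (QuotientGroup.mk' R)).comap Abelianization.of)
    rw [Subgroup.index_comap_of_surjective _ hs,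
      Subgroup.index_comap_of_surjective _ (QuotientGroup.mk'_surjective R), hi]

theorem span_eig {F V : Type*} [Field F] [AddCommGroup V] [Module F V] (h2 : (2 : F) ≠ 0)
    (l : List (Module.End F V)) (h1 : ∀ e ∈ l, e * e = 1) (hc : ∀ e ∈ l, ∀ e' ∈ l, e * e' = e' * e) :
    Submodule.span F {v : V | ∀ e ∈ l, e v = v ∨ e v = -v} = ⊤ := by
  induction l with
  | nil => simp
  | cons a l ih =>
    rw [eq_top_iff, ← ih (fun e he => h1 e (by simp [he]))
      (fun e he e' he' => hc e (by simp [he]) e' (by simp [he'])), Submodule.span_le]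
    intro v hv
    have haa : ∀ w, a (a w) = w := fun w => by
      rw [← Module.End.mul_apply, h1 a (by simp)]; rfl
    have hca : ∀ e ∈ l, ∀ w, e (a w) = a (e w) := fun e he w => by
      rw [← Module.End.mul_apply, hc e (by simp [he]) a (by simp)]; rfl
    have e : v = (2 : F)⁻¹ • ((v + a v) + (v - a v)) := by
      rw [show (v + a v) + (v - a v) = (2 : F) • v by rw [two_smul]; abel, smul_smul,
        inv_mul_cancel₀ h2, one_smul]
    rw [e]
    refine Submodule.smul_mem _ _ (Submodule.add_mem _ (Submodule.subset_span ?_)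
      (Submodule.subset_span ?_))
    · intro e he
      rcases List.mem_cons.1 he with rfl | he
      · left; rw [map_add, haa, add_comm]
      · rcases hv e he with h | h
        · left; rw [map_add, hca e he, h]
        · right; rw [map_add, hca e he, h, map_neg, neg_add]
    · intro e he
      rcases List.mem_cons.1 he with rfl | he
      · right; rw [map_sub, haa, neg_sub]
      · rcases hv e he with h | h
        · left; rw [map_sub, hca e he, h]
        · right; rw [map_sub, hca e he, h, map_neg]; abel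

theorem exists_diag {X F : Type*} [Group X] [Finite X] [Field F] (h2 : (2 : F) ≠ 0)
    (f : X →* GL (Fin 3) F) (hf : Function.Injective f) (E : Subgroup X)
    (h1 : ∀ e ∈ E, e * e = 1) (hc : ∀ e ∈ E, ∀ e' ∈ E, e * e' = e' * e) :
    ∃ ρ : X →* Matrix (Fin 3) (Fin 3) F, Function.Injective ρ ∧
      (∀ x, (ρ x).det = (f x : Matrix (Fin 3) (Fin 3) F).det) ∧
      ∀ e ∈ E, ∀ i j, i ≠ j → ρ e i j = 0 := by
  classical
  let τ : X →* Module.End F (Fin 3 → F) :=
    (Matrix.toLinAlgEquiv' (R := F) (n := Fin 3)).toAlgHom.toMonoidHom.comp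
      ((Units.coeHom _).comp f)
  have hτ : ∀ x, τ x = Matrix.toLin' (f x : Matrix (Fin 3) (Fin 3) F) := fun x => rfl
  haveI := Fintype.ofFinite X
  have hs := span_eig h2 ((Finset.univ.filter (· ∈ E)).toList.map τ) (by
    intro e he
    simp only [List.mem_map, Finset.mem_toList, Finset.mem_filter] at he
    obtain ⟨a, ha, rfl⟩ := he
    rw [← map_mul, h1 a ha.2, map_one]) (by
    intro e he e' he'
    simp only [List.mem_map, Finset.mem_toList, Finset.mem_filter] at he he'
    obtain ⟨a, ha, rfl⟩ := he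
    obtain ⟨b, hb, rfl⟩ := he'
    rw [← map_mul, hc a ha.2 b hb.2, map_mul])
  obtain ⟨s, hs1, hs2, hs3⟩ := exists_linearIndependent F
    {v : Fin 3 → F | ∀ e ∈ (Finset.univ.filter (· ∈ E)).toList.map τ, e v = v ∨ e v = -v}
  let b0 : Module.Basis s F (Fin 3 → F) := Module.Basis.mk hs3 (by
    rw [Subtype.range_coe, hs2, hs])
  let b : Module.Basis (Fin 3) F (Fin 3 → F) := b0.reindex (b0.indexEquiv (Pi.basisFun F (Fin 3)))
  have hb : ∀ i, ∀ e ∈ E, τ e (b i) = b i ∨ τ e (b i) = - b i := by
    intro i e he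
    have : b i ∈ s := by
      simp only [b, b0, Module.Basis.reindex_apply, Module.Basis.mk_apply]; exact Subtype.prop _
    exact hs1 this (τ e) (List.mem_map.2 ⟨e, by simp [he], rfl⟩)
  refine ⟨(LinearMap.toMatrixAlgEquiv b).toAlgHom.toMonoidHom.comp τ, ?_, ?_, ?_⟩
  · intro x y h
    have : τ x = τ y := (LinearMap.toMatrixAlgEquiv b).injective h
    rw [hτ, hτ] at this
    exact hf (Units.ext (Matrix.toLin'.injective this))
  · intro x
    change (LinearMap.toMatrix b b (τ x)).det = _
    rw [LinearMap.det_toMatrix, hτ, LinearMap.det_toLin']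
  · intro e he i j hij
    change LinearMap.toMatrix b b (τ e) i j = 0
    rw [LinearMap.toMatrix_apply]
    rcases hb j e he with h | h <;> rw [h] <;> simp [Finsupp.single_apply, hij.symm]

theorem pm {F : Type*} [Field F] {M : Matrix (Fin 3) (Fin 3) F} (h : ∀ i j, i ≠ j → M i j = 0)
    (h1 : M * M = 1) (i : Fin 3) : M i i = 1 ∨ M i i = -1 := by
  have := congrFun (congrFun h1 i) i
  rw [Matrix.mul_apply, Finset.sum_eq_single i (fun j _ hj => by rw [h i j hj.symm, zero_mul])
    (by simp)] at this
  exact mul_self_eq_one_iff.1 (by simpa using this)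

theorem all_diag {X F : Type*} [Group X] [Finite X] [Field F] (h2 : (2 : F) ≠ 0)
    (ρ : X →* Matrix (Fin 3) (Fin 3) F) (hρ : Function.Injective ρ) (E : Subgroup X)
    (h1 : ∀ e ∈ E, e * e = 1) (h8 : Nat.card E = 8) (hd : ∀ e ∈ E, ∀ i j, i ≠ j → ρ e i j = 0)
    (ε : Fin 3 → Bool) : ∃ e ∈ E, ∀ i, ρ e i i = if ε i then 1 else -1 := by
  classical
  have hpm : ∀ e ∈ E, ∀ i, ρ e i i = 1 ∨ ρ e i i = -1 := fun e he =>
    pm (hd e he) (by rw [← map_mul, h1 e he, map_one])
  have hne : (-1 : F) ≠ 1 := fun h => h2 (by linear_combination -h)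
  let φ : E → (Fin 3 → Bool) := fun e i => decide (ρ e i i = 1)
  have hφ : Function.Injective φ := by
    intro a b h
    apply Subtype.ext; apply hρ
    ext i j
    by_cases hij : i = j
    · subst hij
      have := congrFun h i
      simp only [φ, decide_eq_decide] at this
      rcases hpm a a.2 i with ha | ha <;> rcases hpm b b.2 i with hb | hb <;> simp_all
    · rw [hd a a.2 i j hij, hd b b.2 i j hij]
  have hb : Function.Bijective φ := hφ.bijective_of_nat_card_le (by rw [h8]; simp)
  obtain ⟨e, he⟩ := hb.2 ε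
  refine ⟨e, e.2, fun i => ?_⟩
  have := congrFun he i
  simp only [φ] at this
  rw [← this]
  rcases hpm e e.2 i with ha | ha <;> simp [ha, hne]

theorem off_zero {F : Type*} [Field F] (h2 : (2 : F) ≠ 0) {M D : Matrix (Fin 3) (Fin 3) F}
    (hd : ∀ i j, i ≠ j → D i j = 0) (hc : M * D = D * M) {i j : Fin 3} (hij : D i i = - D j j)
    (h0 : D j j ≠ 0) : M i j = 0 := by
  have := congrFun (congrFun hc i) j
  rw [Matrix.mul_apply, Matrix.mul_apply,
    Finset.sum_eq_single j (fun k _ hk => by rw [hd k j hk, mul_zero]) (by simp),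
    Finset.sum_eq_single i (fun k _ hk => by rw [hd i k hk.symm, zero_mul]) (by simp), hij] at this
  have : 2 * D j j * M i j = 0 := by linear_combination this
  simpa [h2, h0] using this

theorem det_diag {F : Type*} [Field F] {M : Matrix (Fin 3) (Fin 3) F}
    (h : ∀ i j, i ≠ j → M i j = 0) : M.det = M 0 0 * M 1 1 * M 2 2 := by
  rw [Matrix.det_fin_three, h 0 1 (by decide), h 0 2 (by decide), h 1 2 (by decide),
    h 1 0 (by decide)]; ring

theorem core {X F : Type*} [Group X] [Finite X] [Field F] (h2 : (2 : F) ≠ 0)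
    (ρ : X →* Matrix (Fin 3) (Fin 3) F) (hρ : Function.Injective ρ) (E : Subgroup X)
    (h1 : ∀ e ∈ E, e * e = 1) (h8 : Nat.card E = 8) (hd : ∀ e ∈ E, ∀ i j, i ≠ j → ρ e i j = 0)
    {y s : X} (hy : y ∈ Subgroup.center X) (hs : s ∈ Subgroup.center X) (y2 : y * y = 1)
    (s2 : s * s = 1) (y1 : y ≠ 1) (s1 : s ≠ 1) (yd : (ρ y).det = 1) (sd : (ρ s).det = 1)
    (hsc : s ∈ commutator X) : s = y := by
  have hne : (-1 : F) ≠ 1 := fun h => h2 (by linear_combination -h)
  have dg : ∀ z ∈ Subgroup.center X, ∀ i j, i ≠ j → ρ z i j = 0 := by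
    intro z hz i j hij
    obtain ⟨e, he, he'⟩ := all_diag h2 ρ hρ E h1 h8 hd (fun k => decide (k = j))
    refine off_zero h2 (hd e he) ?_ ?_ ?_
    · rw [← map_mul, ← map_mul, Subgroup.mem_center_iff.1 hz e]
    · simp [he', hij]
    · simp [he']
  have py := pm (dg y hy) (by rw [← map_mul, y2, map_one])
  have ps := pm (dg s hs) (by rw [← map_mul, s2, map_one])
  rw [det_diag (dg y hy)] at yd
  rw [det_diag (dg s hs)] at sd
  have ne1 : ∀ z ∈ Subgroup.center X, z ≠ 1 → ¬ (ρ z 0 0 = 1 ∧ ρ z 1 1 = 1 ∧ ρ z 2 2 = 1) := by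
    rintro z hz hz1 ⟨a, b, c⟩
    apply hz1; apply hρ; rw [map_one]
    ext i j
    by_cases hij : i = j
    · subst hij; fin_cases i <;> simp [a, b, c]
    · rw [dg z hz i j hij, Matrix.one_apply_ne hij]
  have key : ∀ i, ρ y i i = 1 → (∀ j, j ≠ i → ρ y j j = -1) → ρ s i i = 1 := by
    intro i hi hj
    have hz : ∀ x j, j ≠ i → ρ x i j = 0 := fun x j hji =>
      off_zero h2 (dg y hy) (by rw [← map_mul, ← map_mul, Subgroup.mem_center_iff.1 hy x])
        (by rw [hi, hj j hji, neg_neg]) (by rw [hj j hji]; simp)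
    let ψ : X →* F := ⟨⟨fun x => ρ x i i, by simp⟩, fun a b => by
      simp only [map_mul, Matrix.mul_apply]
      rw [Finset.sum_eq_single i (fun k _ hk => by rw [hz a k hk, zero_mul]) (by simp)]⟩
    have := Abelianization.commutator_subset_ker ψ.toHomUnits hsc
    rw [MonoidHom.mem_ker] at this
    exact congrArg Units.val this
  have ny := ne1 y hy y1
  have ns := ne1 s hs s1
  have fin : ρ s 0 0 = ρ y 0 0 ∧ ρ s 1 1 = ρ y 1 1 ∧ ρ s 2 2 = ρ y 2 2 := by
    have k0 := key 0; have k1 := key 1; have k2 := key 2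
    simp only [Fin.forall_fin_succ] at k0 k1 k2
    have hne' : (1 : F) ≠ -1 := hne.symm
    rcases py 0 with a | a <;> rcases py 1 with b | b <;> rcases py 2 with c | c <;>
      rcases ps 0 with d | d <;> rcases ps 1 with e | e <;> rcases ps 2 with f | f <;>
      simp [a, b, c, d, e, f, hne, hne'] at k0 k1 k2 ny ns yd sd ⊢
  apply hρ
  ext i j
  by_cases hij : i = j
  · subst hij; fin_cases i <;> simp [fin.1, fin.2.1, fin.2.2]
  · rw [dg s hs i j hij, dg y hy i j hij]

/-- Let G be a finite group with no subgroup of index 2 whose Sylow 2-subgroup X embeds in GL₃(F) for a finite field F of odd order. If X contains an elementary abelian subgroup of order 8, then X is abelian. -/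
theorem result {G : Type*} [Group G] [Finite G] (hG : ∀ H : Subgroup G, H.index ≠ 2) (X : Sylow 2 G)
    {F : Type*} [Field F] [Fintype F] (hF : Odd (Fintype.card F))
    (f : ↥(X : Subgroup G) →* GL (Fin 3) F) (hf : Function.Injective f)
    (E : Subgroup G) (hE : E ≤ (X : Subgroup G)) (hEa : Cfsg.IsElementaryAbelian 2 E) (hE8 : Nat.card E = 8) :
    IsMulCommutative (X : Subgroup G) := by
  classical
  have h2 : (2 : F) ≠ 0 := by
    intro h
    have hc : ringChar F = 2 := CharP.ringChar_of_prime_eq_zero Nat.prime_two (by exact_mod_cast h)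
    have := FiniteField.even_card_of_char_two hc
    rw [Nat.odd_iff] at hF; omega
  have hne : (-1 : F) ≠ 1 := fun h => h2 (by linear_combination -h)
  let E' : Subgroup X := E.subgroupOf X
  have h1 : ∀ e ∈ E', e * e = 1 := fun e he => Subtype.ext (by
    have := hEa.2 e he; rw [pow_two] at this; exact this)
  have hc : ∀ e ∈ E', ∀ e' ∈ E', e * e' = e' * e := fun e he e' he' => Subtype.ext
    (congrArg (fun u : E => (u : G)) (hEa.1.is_comm.comm (⟨e, he⟩ : E) ⟨e', he'⟩))
  have h8 : Nat.card E' = 8 := by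
    rw [← hE8]; exact Nat.card_congr (Subgroup.subgroupOfEquivOfLe hE).toEquiv
  obtain ⟨ρ, hρ, hdet, hd⟩ := exists_diag h2 f hf E' h1 hc
  obtain ⟨t, ht, ht'⟩ := all_diag h2 ρ hρ E' h1 h8 hd (fun _ => false)
  have ρt : ρ t = -1 := by
    ext i j
    by_cases hij : i = j
    · subst hij; simp [ht']
    · rw [hd t ht i j hij]; simp [Matrix.one_apply_ne hij]
  have tz : t ∈ Subgroup.center X := Subgroup.mem_center_iff.2 fun x => hρ (by
    rw [map_mul, map_mul, ρt]; simp)
  let δ : X →* Fˣ := Matrix.GeneralLinearGroup.det.comp f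
  have hδ : ∀ x, (δ x : F) = (ρ x).det := fun x => by rw [hdet]; rfl
  have dt : (ρ t).det = -1 := by rw [ρt, Matrix.det_neg]; simp; norm_num
  have eT : (δ.ker.map (X : Subgroup G).subtype).subgroupOf X = δ.ker :=
    Subgroup.comap_map_eq_self_of_injective (Subgroup.subtype_injective _) _
  haveI hn : ((δ.ker.map (X : Subgroup G).subtype).subgroupOf X).Normal := by
    rw [eT]; infer_instance
  have hcyc : IsCyclic (X ⧸ (δ.ker.map (X : Subgroup G).subtype).subgroupOf X) := by
    haveI : IsCyclic δ.range := inferInstance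
    exact isCyclic_of_surjective
      ((QuotientGroup.quotientMulEquivOfEq eT).trans
        (QuotientGroup.quotientKerEquivRange δ)).symm.toMonoidHom (MulEquiv.surjective _)
  have t2 : (t : G) * t = 1 := congrArg Subtype.val (h1 t ht)
  obtain ⟨g, hg1, hg2⟩ := thompson_transfer_cyclic (S := X) (T := δ.ker.map (X : Subgroup G).subtype)
    (R := X) (Nat.not_even_iff_odd.1 (by rw [even_iff_two_dvd]; exact X.not_dvd_index)) hcyc t2 t.2
    (by
      rintro ⟨u, hu, hu'⟩
      have : u = t := Subtype.ext hu'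
      rw [this] at hu
      have h3 := hδ t
      rw [show δ t = 1 from hu, dt] at h3
      exact hne h3.symm)
    (Subgroup.map_subtype_le _) (mem_comm hG t2) X.isPGroup'
    (fun x hx => Subgroup.mem_centralizer_singleton_iff.2
      (congrArg Subtype.val (Subgroup.mem_center_iff.1 tz ⟨x, hx⟩)))
  have hgn : g ∈ Subgroup.normalizer ((X : Subgroup G) : Set G) :=
    Subgroup.mem_normalizer_fintype (fun n hn => hg2 (conj_mem_cj hn))
  let φ : MulAut X := (X : Subgroup G).normalizerMonoidHom ⟨g, hgn⟩
  have hφ : ((φ t : X) : G) = g * t * g⁻¹ := rfl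
  have yd : (ρ (φ t)).det = 1 := by
    obtain ⟨u, hu, hu'⟩ := hg1
    have : u = φ t := Subtype.ext (hu'.trans hφ.symm)
    rw [← hδ, ← this, show δ u = 1 from hu]; rfl
  by_contra hna
  have hcm : commutator X ≠ ⊥ := by
    intro h; apply hna
    exact (commutator_eq_bot_iff X).1 h
  obtain ⟨s, sc, s1, s2, sz⟩ := PGrp.exists_central_mod_pow X.isPGroup' (M := ⊥)
    (N := commutator X) (fun h => hcm (le_bot_iff.1 h))
  have dc : ∀ u ∈ commutator X, (ρ u).det = 1 := fun u hu => by
    rw [← hδ, show δ u = 1 from Abelianization.commutator_subset_ker δ hu]; rfl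
  have e := core h2 ρ hρ E' h1 h8 hd (y := φ t) (s := s)
    (Subgroup.mem_center_iff.2 fun x => by
      obtain ⟨x, rfl⟩ := φ.surjective x
      rw [← map_mul, ← map_mul, Subgroup.mem_center_iff.1 tz x])
    (Subgroup.mem_center_iff.2 fun x =>
      (commutatorElement_eq_one_iff_mul_comm.1 (Subgroup.mem_bot.1 (sz x))).symm)
    (by rw [← map_mul, h1 t ht, map_one])
    (by rw [← pow_two]; exact Subgroup.mem_bot.1 s2)
    (fun h => by
      have : t = 1 := φ.injective (by rw [h, map_one])
      rw [this, map_one, Matrix.det_one] at dt; exact hne dt.symm)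
    (fun h => s1 (Subgroup.mem_bot.2 h)) yd (dc s sc) sc
  have : t ∈ commutator X := by
    have h3 : t = φ.symm s := by rw [e]; simp
    rw [h3]
    have := Subgroup.characteristic_iff_le_comap.1
      (inferInstance : (commutator X).Characteristic) φ.symm sc
    exact this
  rw [dc t this] at dt
  exact hne dt.symm

end Cfsg.Agent.S1906
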