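import Cfsg.Statements.S1907
import Cfsg.Agent.PLocal.PSolv
import Cfsg.Agent.Sig.Core
import Cfsg.Agent.Solv.Coprime

set_option autoImplicit false
open Cfsg

namespace Cfsg.Agent.S1907

open Cfsg.Agent.Loc Cfsg.Agent.PLocal Subgroup

/-- Let P be a Sylow p-subgroup of a finite group G, H = P ∩ O_{p',p}(G), N = N_G(H) and D = O_{p'}(G). (a) If y is an element of p-power order of N and d ∈ D with d⁻¹ y d ∈ N, then d = d₁ d₂ with d₁ ∈ C_D(y) and d₂ ∈ C_D(H). (b) Two elements of P that are conjugate in G are conjugate in N. -/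
theorem result {G : Type*} [Group G] [Finite G] {p : ℕ} [Fact p.Prime] (P : Sylow p G) :
    (∀ y ∈ Subgroup.normalizer (((P : Subgroup G) ⊓ Cfsg.pPrimePCore p G : Subgroup G) : Set G), (∃ k : ℕ, orderOf y = p ^ k) →
      ∀ d ∈ Cfsg.pPrimeCore p G, d⁻¹ * y * d ∈ Subgroup.normalizer (((P : Subgroup G) ⊓ Cfsg.pPrimePCore p G : Subgroup G) : Set G) →
        ∃ d₁ ∈ Cfsg.pPrimeCore p G ⊓ Subgroup.centralizer ({y} : Set G),
          ∃ d₂ ∈ Cfsg.pPrimeCore p G ⊓ Subgroup.centralizer (((P : Subgroup G) ⊓ Cfsg.pPrimePCore p G : Subgroup G) : Set G), d = d₁ * d₂) ∧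
    ∀ x y : G, x ∈ (P : Subgroup G) → y ∈ (P : Subgroup G) → IsConj x y →
      ∃ n ∈ Subgroup.normalizer (((P : Subgroup G) ⊓ Cfsg.pPrimePCore p G : Subgroup G) : Set G), n * x * n⁻¹ = y := by
  haveI : (pPrimeCore p G).Normal := normal_of_top_le_normalizer (Sig.ppIn_top (G := G) p ▸ Sig.le_normalizer_ppIn le_normalizer)
  have hO : ∀ {K : Subgroup G}, K ≤ normalizer (pPrimeCore p G : Set G) := by
    intro K; rw [normalizer_eq_top]; exact le_top
  have hP := (sylIn_top P).inf_normal' (N := pPrimePCore p G) le_top (by rw [normalizer_eq_top])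
  set H := (P : Subgroup G) ⊓ pPrimePCore p G
  have h1 : ∀ y ∈ normalizer (H : Set G), (∃ k : ℕ, orderOf y = p ^ k) → ∀ d ∈ pPrimeCore p G, d⁻¹ * y * d ∈ normalizer (H : Set G) →
      ∃ d₁ ∈ pPrimeCore p G ⊓ centralizer ({y} : Set G), ∃ d₂ ∈ pPrimeCore p G ⊓ centralizer (H : Set G), d = d₁ * d₂ := by
    rintro y hy ⟨k, hk⟩ d hd h
    have hp := isPGroup_zpowers_of_orderOf hk
    obtain ⟨c, ⟨hc, hc'⟩, e⟩ := Solv.exists_centralizer_conj_smul_eq (A := zpowers y) hO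
      (Sig.coprime_of_isPGroup_of_coprime hp Sig.coprime_pPrimeCore) (.inl (Sig.isSolvable_of_isPGroup hp))
      (zpowers_le.2 hy) (Q := cj d H) (zpowers_le.2 (by rw [← cj_normalizer]; exact mem_cj.2 h)) hd rfl
    rw [conj_smul_eq_cj] at e
    have h2 : c⁻¹ * d ∈ pPrimeCore p G := mul_mem ((pPrimeCore p G).inv_mem hc) hd
    exact ⟨c, ⟨hc, centralizer_zpowers y ▸ hc'⟩, c⁻¹ * d, ⟨h2, Solv.mem_centralizer_of_mem_normalizer hO
      (Sig.inf_eq_bot_of_pgroup_coprime hP.pg Sig.coprime_pPrimeCore) h2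
      (mem_normalizer_iff_cj.2 (by rw [← cj_cj, ← e, cj_inv_cj]))⟩, by group⟩
  refine ⟨h1, fun x y hx hy h => ?_⟩
  obtain ⟨g, rfl⟩ := isConj_iff.1 h
  have hPn : (P : Subgroup G) ≤ normalizer (H : Set G) := le_normalizer_inf le_normalizer (by rw [normalizer_eq_top]; exact le_top)
  obtain ⟨n, hn, m, hm, rfl⟩ := hP.frattini' (g := g) (by rw [normalizer_eq_top]; trivial)
  rw [← pPrimeCore_sup_sylIn hP, sup_comm] at hm
  obtain ⟨a, ha, d, hd, rfl⟩ := (mem_sup_of_le_normalizer_right hO).1 hm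
  have hna := mul_mem hn (le_normalizer ha)
  obtain ⟨d₁, ⟨-, h2⟩, d₂, ⟨-, h3⟩, e⟩ := h1 x (hPn hx) (exists_orderOf_of_isPGroup P.isPGroup' hx) _ (inv_mem hd) (by
    simpa [mul_assoc] using mul_mem (mul_mem (inv_mem hna) (hPn hy)) hna)
  refine ⟨n * a * d₂⁻¹, mul_mem hna (inv_mem (centralizer_le_normalizer _ h3)), ?_⟩
  rw [inv_eq_iff_eq_inv.1 e]
  calc _ = n * a * d₂⁻¹ * d₁⁻¹ * (d₁ * x) * (n * a * d₂⁻¹)⁻¹ := by group
    _ = _ := by rw [mem_centralizer_singleton_iff.1 h2]; group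

end Cfsg.Agent.S1907
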