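import Cfsg.Statements.S1924
import Cfsg.Agent.BG.Base5
import Cfsg.Agent.Transfer.Residual

set_option autoImplicit false
open Cfsg

namespace Cfsg.Agent.S1924

open Subgroup Cfsg.Agent.BG Equiv

theorem sign_neg {α : Type*} [Fintype α] [DecidableEq α] {σ : Perm α} {k m : ℕ} (h1 : σ ^ 2 ^ (k + 1) = 1)
    (h2 : ∀ x, (σ ^ 2 ^ k) x ≠ x) (h3 : Fintype.card α = 2 ^ (k + 1) * m) (hm : Odd m) : Perm.sign σ = -1 := by
  have hall : ∀ n ∈ σ.cycleType, n = 2 ^ (k + 1) := fun n hn => by
    have hd : n ∣ 2 ^ (k + 1) := (Perm.dvd_of_mem_cycleType hn).trans (orderOf_dvd_of_pow_eq_one h1)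
    obtain ⟨j, hj, rfl⟩ := (Nat.dvd_prime_pow Nat.prime_two).1 hd
    rcases hj.lt_or_eq with hj | rfl
    · obtain ⟨c, τ, rfl, hd, hc, e⟩ := Perm.mem_cycleType_iff.1 hn
      obtain ⟨x, hx, -⟩ := id hc
      have h4 : c ^ 2 ^ k = 1 := orderOf_dvd_iff_pow_eq_one.1
        (by rw [hc.orderOf, e]; exact pow_dvd_pow 2 (Nat.lt_succ_iff.1 hj))
      refine absurd ?_ (h2 x)
      rw [hd.commute.mul_pow, h4, one_mul]
      exact Perm.pow_apply_eq_self_of_apply_eq_self ((hd x).resolve_left hx) _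
    · rfl
  have hs : σ.support = Finset.univ := Finset.eq_univ_of_forall fun x =>
    Perm.mem_support.2 fun h => h2 x (Perm.pow_apply_eq_self_of_apply_eq_self h _)
  have h5 := Perm.sum_cycleType σ
  have h6 := Multiset.eq_replicate_card.2 hall
  rw [hs, Finset.card_univ, h3] at h5
  have h7 : Multiset.card σ.cycleType = m := by
    have := congrArg Multiset.sum h6
    rw [h5, Multiset.sum_replicate, smul_eq_mul, mul_comm] at this
    exact (Nat.eq_of_mul_eq_mul_right (by positivity) this).symm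
  rw [Perm.sign_of_cycleType, h5, h7]
  exact Odd.neg_one_pow (Even.add_odd ⟨2 ^ k * m, by ring⟩ hm)

theorem key {H : Type*} [Group H] [Finite H] {T : Subgroup H} {c : H} {k m : ℕ} (hc : c ^ 2 ^ (k + 1) = 1)
    (hf : ∀ g, g * c ^ 2 ^ k * g⁻¹ ∉ T) (hi : T.index = 2 ^ (k + 1) * m) (hm : Odd m) : c ∉ pResidual 2 H := by
  classical
  intro h
  haveI := Fintype.ofFinite (H ⧸ T)
  have h1 := Transfer.pResidual_le_ker (p := 2) (IsPGroup.of_card (n := 1) (by simp : Nat.card ℤˣ = 2 ^ 1))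
    (Perm.sign.comp (MulAction.toPermHom H (H ⧸ T))) h
  have h2 := sign_neg (σ := MulAction.toPermHom H (H ⧸ T) c) (by rw [← map_pow, hc, map_one]) (fun x hx => by
    obtain ⟨g, rfl⟩ := QuotientGroup.mk_surjective x
    rw [← map_pow] at hx
    have := QuotientGroup.eq.1 (show ((c ^ 2 ^ k * g : H) : H ⧸ T) = g from hx).symm
    exact hf g⁻¹ (by simpa [mul_assoc] using this)) (by rw [← Nat.card_eq_fintype_card]; exact hi) hm
  exact absurd (h2.symm.trans h1) (by decide)

theorem dih {n : ℕ} (hn : 2 ≤ n) {C : Subgroup (DihedralGroup n)} (hC : IsCyclic C) (hi : C.index = 2)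
    {x : DihedralGroup n} (hx : x ∉ C) : orderOf x = 2 := by
  haveI : NeZero n := ⟨by omega⟩
  obtain ⟨c, rfl⟩ := (Subgroup.isCyclic_iff_exists_zpowers_eq_top C).1 hC
  have h1 := (zpowers c).card_mul_index
  rw [hi, DihedralGroup.nat_card, Nat.card_zpowers] at h1
  rcases x with j | j
  · rcases c with i | i
    · have h2 : zpowers (DihedralGroup.r i) = zpowers (DihedralGroup.r (1 : ZMod n)) :=
        eq_of_le_of_card_ge (zpowers_le.2 ⟨(i.val : ℤ), by simp⟩)
          (by rw [Nat.card_zpowers, Nat.card_zpowers, DihedralGroup.orderOf_r_one]; omega)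
      exact absurd (h2 ▸ ⟨(j.val : ℤ), by simp⟩) hx
    · rw [DihedralGroup.orderOf_sr] at h1
      obtain rfl : n = 2 := by omega
      refine orderOf_eq_prime ?_ fun h => hx (h ▸ one_mem _)
      clear hx; revert j; decide
  · exact DihedralGroup.orderOf_sr j

/-- A consequence of Thompson's transfer lemma. Let G be a finite group, L a subgroup with O²(L) = L, T a Sylow 2-subgroup of L and S a Sylow 2-subgroup of G containing T. Suppose D ≤ S is a dihedral subgroup of order at least 4 (the four-group counts) with D ∩ T = 1 and S = TD as a set of products (so |S| = |T|·|D|), and C ≤ D is cyclic of index 2 in D. If no involution of D outside C is G-conjugate to an involution of the subgroup generated by T and C, and the involution of C is not G-conjugate to any involution of T, then G has a normal subgroup K, containing every Sylow 2-subgroup of L as a Sylow 2-subgroup, with G = KD. -/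
theorem result {G : Type*} [Group G] [Finite G] (L T S D C : Subgroup G) (hL : Cfsg.pResidual 2 ↥L = ⊤)
    (hTL : T ≤ L) (hT2 : IsPGroup 2 T) (hTsyl : ¬ 2 ∣ T.relIndex L)
    (hS2 : IsPGroup 2 S) (hSsyl : ¬ 2 ∣ S.index) (hTS : T ≤ S)
    (hDS : D ≤ S) (hDih : ∃ n : ℕ, 2 ≤ n ∧ Nonempty (↥D ≃* DihedralGroup n)) (hDT : D ⊓ T = ⊥) (hTD : T ⊔ D = S) (hTDc : Nat.card T * Nat.card D = Nat.card S)
    (hCD : C ≤ D) (hC : IsCyclic ↥C) (hCi : C.relIndex D = 2)
    (h1 : ∀ x ∈ D, x ∉ C → orderOf x = 2 → ∀ g : G, g * x * g⁻¹ ∈ T ⊔ C → False)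
    (h2 : ∀ c ∈ C, orderOf c = 2 → ∀ g : G, g * c * g⁻¹ ∈ T → False) :
    ∃ K : Subgroup G, K.Normal ∧ K ⊔ D = ⊤ ∧
      ∀ T' : Subgroup G, T' ≤ L → IsPGroup 2 T' → ¬ 2 ∣ T'.relIndex L → T' ≤ K ∧ ¬ 2 ∣ T'.relIndex K := by
  obtain ⟨n, hn, ⟨e⟩⟩ := hDih
  have inv : ∀ x ∈ D, x ∉ C → orderOf x = 2 := fun x hx hxC => by
    have := dih hn (C := (C.subgroupOf D).map (e : D →* _)) (by
      haveI : IsCyclic (C.subgroupOf D) := (subgroupOfEquivOfLe hCD).isCyclic.2 hC
      exact isCyclic_of_surjective _ (MonoidHom.subgroupMap_surjective _ _))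
      (by rw [index_map_equiv]; exact hCi) (x := e ⟨x, hx⟩) (by
        rintro ⟨y, hy, h⟩
        exact hxC (by have := e.injective h; subst this; exact hy))
    rwa [MulEquiv.orderOf_eq, ← orderOf_coe] at this
  have oS : Odd S.index := Nat.odd_iff.2 (by omega)
  have hU : T ⊔ C ≤ S := sup_le hTS (hCD.trans hDS)
  have iU : (T ⊔ C).relIndex S = 2 := by
    have a1 : (T ⊔ C).relIndex S ≠ 1 := fun h => by
      obtain ⟨x, hx, hxC⟩ : ∃ x ∈ D, x ∉ C := by
        by_contra! c
        exact absurd (relIndex_eq_one.2 c) (by omega)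
      exact h1 x hx hxC (inv x hx hxC) 1 (by simpa using relIndex_eq_one.1 h (hDS hx))
    have a2 : T.relIndex C ≤ T.relIndex (T ⊔ C) := relIndex_le_of_le_right le_sup_right (relIndex_pos _ _).ne'
    have a3 : T.relIndex C = #C := by
      rw [← inf_relIndex_right, eq_bot_iff.2 ((inf_le_inf_left T hCD).trans (by rw [inf_comm, hDT])),
        relIndex_bot_left]
    have a4 := card_mul_relIndex (le_sup_left : T ≤ T ⊔ C)
    have a5 := card_mul_relIndex hU
    have a6 := card_mul_relIndex hCD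
    have a7 := relIndex_pos (T ⊔ C) S
    rw [hCi] at a6
    rw [← a4, ← hTDc, ← a6, mul_assoc] at a5
    have a8 := Nat.eq_of_mul_eq_mul_left Nat.card_pos a5
    have : 0 < #C := Nat.card_pos
    by_contra c
    have : 3 ≤ (T ⊔ C).relIndex S := by omega
    nlinarith
  set K := pResidual 2 G
  have LK : L ≤ K := by
    have := Transfer.map_subtype_pResidual_le (p := 2) L
    rwa [hL, ← MonoidHom.range_eq_map, range_subtype] at this
  have TK := hTL.trans LK
  have KD : K ⊓ D ≤ C := fun x hx => by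
    by_contra c
    have o := inv x hx.2 c
    exact key (k := 0) (T := T ⊔ C) (by rw [zero_add, pow_one, ← o, pow_orderOf_eq_one])
      (fun g hg => h1 x hx.2 c o g (by simpa using hg))
      (by rw [← relIndex_mul_index hU, iU]; rfl) oS hx.1
  have sS : SylowIn 2 S ⊤ := sylow_mk le_top hS2 (by rwa [relIndex_top_right])
  have sK : SylowIn 2 (K ⊓ S) K := Sylow_setI_normal ⟨le_top, norm_of_normal K _⟩ sS
  have cK : #(K ⊓ S) = #T * #(K ⊓ D) := by
    have a1 := card_sup_mul_inf (A := D) (B := K ⊓ S)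
      (.inl (normsI (norm_of_normal K _) (hDS.trans le_normalizer)))
    have a2 : D ⊔ K ⊓ S = S := le_antisymm (sup_le hDS inf_le_right)
      (hTD.ge.trans (sup_le ((le_inf TK hTS).trans le_sup_right) le_sup_left))
    rw [a2, ← hTDc, inf_left_comm, inf_eq_left.2 hDS] at a1
    have : 0 < #D := Nat.card_pos
    nlinarith
  have oK : ¬ 2 ∣ (K ⊓ S).relIndex K := sK.not_dvd
  have KD1 : K ⊓ D = ⊥ := by
    by_contra c
    obtain ⟨y, hy⟩ := (Subgroup.isCyclic_iff_exists_zpowers_eq_top (K ⊓ D)).1 (isCyclic_of_le KD)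
    have yK : y ∈ K ⊓ D := hy ▸ mem_zpowers y
    obtain ⟨j, hj⟩ := (hS2.to_le (inf_le_right.trans hDS : K ⊓ D ≤ S)).exists_card_eq
    obtain _ | k := j
    · exact c (card_eq_one.1 hj)
    have o : orderOf y = 2 ^ (k + 1) := by rw [← Nat.card_zpowers, hy, hj]
    refine key (H := K) (T := T.subgroupOf K) (c := ⟨y, yK.1⟩) (k := k) (m := (K ⊓ S).relIndex K)
      (Subtype.ext (by simp [← o])) (fun g hg => h2 (y ^ 2 ^ k) (KD (pow_mem yK _)) ?_ g hg) ?_
      (Nat.odd_iff.2 (by omega)) (by rw [Transfer.pResidual_pResidual]; trivial)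
    · rw [orderOf_pow' _ (by positivity), o, Nat.gcd_eq_right (pow_dvd_pow 2 k.le_succ), pow_succ,
        Nat.mul_div_cancel_left _ (by positivity)]
    · have a1 := card_mul_relIndex (le_inf TK hTS)
      rw [cK, hj] at a1
      rw [← Nat.eq_of_mul_eq_mul_left Nat.card_pos a1]
      exact (relIndex_mul_relIndex _ _ _ (le_inf TK hTS) inf_le_left).symm
  have eT : T = K ⊓ S := eq_of_le_of_card_ge (le_inf TK hTS) (by rw [cK, KD1, card_bot, mul_one])
  refine ⟨K, inferInstance, ?_, fun T' a1 a2 a3 => ⟨a1.trans LK, ?_⟩⟩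
  · have := Transfer.pResidual_sup_sylow (p := 2) (hS2.toSylow hSsyl)
    rw [eq_top_iff, ← this]
    exact sup_le le_sup_left (hTD.ge.trans (sup_le_sup_right TK _))
  · have a4 : #T' = #T := card_Hall_eq (sylow_mk a1 a2 a3) (sylow_mk hTL hT2 hTsyl)
    have a5 := card_mul_relIndex (a1.trans LK)
    rw [a4, ← card_mul_relIndex TK] at a5
    rw [Nat.eq_of_mul_eq_mul_left Nat.card_pos a5, eT]
    exact oK

end Cfsg.Agent.S1924
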