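import Cfsg.Statements.S1935
import Cfsg.Agent.Classical.Lim2
import Cfsg.Agent.BG.S2Abelem

set_option autoImplicit false
open Cfsg

namespace Cfsg.Agent.S1935

open Subgroup Cfsg.Agent.Loc Cfsg.Agent.PLocal.FF Cfsg.Agent.Classical.Lim Cfsg.Agent.BG

/-- Let p ≥ 5 be a prime and, inside an ambient finite group, let G be a p-subgroup acting faithfully by conjugation on an elementary abelian p-subgroup V that it normalizes (only the identity of G centralizes V). Suppose V is an F-module for G: some nontrivial elementary abelian subgroup E of G satisfies #E · #C_V(E) ≥ #V. Then G contains such an offender A that moreover acts quadratically on V ([V, A, A] = 1) and is normal in its normal closure in G. -/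
theorem result {Ω : Type*} [Group Ω] [Finite Ω] (p : ℕ) [Fact p.Prime] (hp : 5 ≤ p) (V G : Subgroup Ω) (hV : Cfsg.IsElementaryAbelian p V) (hG : IsPGroup p ↥G) (hGV : G ≤ Subgroup.normalizer (V : Set Ω)) (hfaith : G ⊓ Subgroup.centralizer (V : Set Ω) = ⊥) (hF : ∃ E : Subgroup Ω, E ≤ G ∧ E ≠ ⊥ ∧ Cfsg.IsElementaryAbelian p E ∧ Nat.card ↥V ≤ Nat.card ↥E * Nat.card ↥(V ⊓ Subgroup.centralizer (E : Set Ω))) : ∃ A : Subgroup Ω, A ≤ G ∧ A ≠ ⊥ ∧ Cfsg.IsElementaryAbelian p A ∧ Nat.card ↥V ≤ Nat.card ↥A * Nat.card ↥(V ⊓ Subgroup.centralizer (A : Set Ω)) ∧ ⁅⁅V, A⁆, A⁆ = ⊥ ∧ ∀ g ∈ Subgroup.closure {x : Ω | ∃ h ∈ G, ∃ a ∈ A, x = h * a * h⁻¹}, ∀ a ∈ A, g * a * g⁻¹ ∈ A := by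
  obtain ⟨E, h1, h2, h3, h4⟩ := hF
  obtain ⟨C, rfl⟩ : ∃ C : Subgroup G, C.map G.subtype = E := ⟨_, map_subgroupOf_eq_of_le h1⟩
  have hf := abRep_injective (hV := hV) (hA := hGV) hfaith
  have h5 : ∀ B : Subgroup G, fx (abRep hV hGV) B = AbV.ofSub hV (centralizer (B.map G.subtype : Subgroup Ω)) :=
    fun B => Submodule.ext fun v => ((mem_ofSub_cent (hA := hGV) (map_subtype_le B)).trans (by simp [mem_fx])).symm
  have h6 : ∀ B : Subgroup G, mu (abRep hV hGV) B = Nat.card (B.map G.subtype) *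
      Nat.card ↥(V ⊓ centralizer (B.map G.subtype : Subgroup Ω)) := fun B => by
    rw [mu, h5, ← AbV.card_toSub, AbV.toSub_ofSub, card_map_of_injective G.subtype_injective]
  obtain ⟨A, ⟨a1, a2, a3⟩, a4⟩ := exists_off (C := C) hp hf hG ⟨⟨⟨fun a b => Subtype.ext (Subtype.ext
    (have := h3.1; setLike_mul_comm (mem_map_of_mem G.subtype a.2) (mem_map_of_mem G.subtype b.2)))⟩⟩, fun a ha =>
      Subtype.ext (h3.2 _ (mem_map_of_mem G.subtype ha))⟩ (fun e => h2 (by simp [e])) (h6 C ▸ h4)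
  refine ⟨A.map G.subtype, map_subtype_le A, (map_eq_bot_iff_of_injective _ G.subtype_injective).not.2 a1,
    ⟨⟨⟨?_⟩⟩, ?_⟩, h6 A ▸ a3, commutator_eq_bot_iff_le_centralizer.2 (commutator_le.2 ?_),
      fun g hg a ha => conj_mem_of_mem_normalizer ((closure_le _).2 ?_ hg) ha⟩
  · rintro ⟨_, a, ha, rfl⟩ ⟨_, b, hb, rfl⟩
    exact Subtype.ext (congrArg G.subtype (comm_of_mul (a := a) (b := b) hf
      ((a2 a ha b hb).trans (a2 b hb a ha).symm)))
  · rintro _ ⟨a, ha, rfl⟩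
    exact congrArg Subtype.val (eq_one_of_dl hf (by
      rw [dl_pow (a2 a ha a ha), ← Nat.cast_smul_eq_nsmul (ZMod p), ZMod.natCast_self, zero_smul]) : a ^ p = 1)
  · rintro v hv _ ⟨a, ha, rfl⟩
    have : -dl (abRep hV hGV) a (AbV.mk hV v hv) ∈ fx (abRep hV hGV) A :=
      neg_mem (mem_fx'.2 fun b hb => LinearMap.congr_fun (a2 b hb a ha) _)
    simpa [h5, dl_apply, AbV.val_sub, commutatorElement_def, mul_assoc] using this
  · rintro _ ⟨h, hh, _, ⟨a, ha, rfl⟩, rfl⟩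
    exact le_normalizer_map _ (mem_map_of_mem G.subtype
      (a4 _ (a2.cj ⟨h, hh⟩ _ (conj_mem_cj ha) _ (conj_mem_cj ha))))

end Cfsg.Agent.S1935
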