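import Cfsg.Statements.S1939
import Cfsg.Agent.BG.Base6
import Mathlib.Tactic.Group

set_option autoImplicit false
open Cfsg

namespace Cfsg.Agent.S1939
open scoped commutatorElement

open Cfsg.Agent.BG Subgroup

/-- Let S be a Sylow p-subgroup of the finite group G and a an element of S that is the only G-conjugate of a lying in S. Then every power of a has the same property: for every n, the only G-conjugate of a^n lying in S is a^n. -/
theorem result {G : Type*} [Group G] [Finite G] {p : ℕ} [Fact p.Prime] (S : Sylow p G) (a : G)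
    (haS : a ∈ (S : Subgroup G)) (hwc : ∀ g : G, g * a * g⁻¹ ∈ (S : Subgroup G) → g * a * g⁻¹ = a) (n : ℕ) :
    ∀ g : G, g * a ^ n * g⁻¹ ∈ (S : Subgroup G) → g * a ^ n * g⁻¹ = a ^ n := by
  intro g hg
  have ha : ∀ s ∈ (S : Subgroup G), s * a = a * s := fun s hs =>
    mul_inv_eq_iff_eq_mul.1 (hwc s (mul_mem (mul_mem hs haS) (inv_mem hs)))
  have h1 : cj g S ≤ C1[g * a ^ n * g⁻¹] := by
    rintro _ ⟨s, hs, rfl⟩
    refine mem_cent1.2 ?_
    simp [mul_assoc, ((show Commute s a from ha s hs).pow_right n).left_comm]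
  obtain ⟨h, hh, e⟩ := Sylow_subJ (pHall_subl h1 le_top (pHallJsub (mem_top g) (sylowIn_top S)))
    (zpowers_le.2 (mem_cent1.2 ((show Commute _ a from ha _ hg).symm))) (BG.IsPGroup.sub S.isPGroup' (zpowers_le.2 haS))
  obtain ⟨_, ⟨s, hs, rfl⟩, e1⟩ := e (mem_zpowers a)
  have e2 : (h * g)⁻¹ * a * (h * g)⁻¹⁻¹ = s := by rw [← e1]; simp [mul_assoc]
  have e3 := hwc _ (e2 ▸ hs)
  calc g * a ^ n * g⁻¹ = h * (g * a ^ n * g⁻¹) * h⁻¹ := by rw [mem_cent1.1 hh, mul_inv_cancel_right]
    _ = (h * g) * a ^ n * (h * g)⁻¹ := by group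
    _ = a ^ n := by rw [← conj_pow]; conv_lhs => rw [← e3]
                    congr 1; group

end Cfsg.Agent.S1939
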