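import Cfsg.Statements.S1940

set_option autoImplicit false
open Cfsg

namespace Cfsg.Agent.S1940

/-- Let the finite group L act by automorphisms on the finite abelian group M, and let N be an L-invariant subgroup of M such that M/N is a p-group on which L acts trivially (every l • m lies in the coset mN). If every element of M is a product of an element of N and an element fixed by a Sylow p-subgroup T of L, then every element of M is a product of an element of N and an element fixed by all of L. -/
theorem result {L : Type*} [Group L] [Finite L] {M : Type*} [CommGroup M] [Finite M] [MulDistribMulAction L M]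
    {p : ℕ} [Fact p.Prime] (N : Subgroup M) (hN : ∀ (l : L) (m : M), m ∈ N → l • m ∈ N)
    (hquot : IsPGroup p (M ⧸ N)) (htriv : ∀ (l : L) (m : M), (l • m) * m⁻¹ ∈ N) (T : Sylow p L)
    (hT : ∀ m : M, ∃ n ∈ N, ∃ c : M, (∀ t ∈ (T : Subgroup L), t • c = c) ∧ m = n * c) :
    ∀ m : M, ∃ n ∈ N, ∃ c : M, (∀ l : L, l • c = c) ∧ m = n * c := by
  classical
  intro m
  obtain ⟨n, hn, c, hc, rfl⟩ := hT m
  haveI := Fintype.ofFinite (L ⧸ (T : Subgroup L))
  have h1 : ∀ (l : L) (q : L ⧸ (T : Subgroup L)), l • q.out • c = (l • q).out • c := fun l q => by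
    have : ((l • q).out)⁻¹ * (l * q.out) ∈ (T : Subgroup L) := by
      rw [← QuotientGroup.eq, QuotientGroup.out_eq', ← smul_eq_mul, ← MulAction.Quotient.smul_mk, QuotientGroup.out_eq']
    conv_rhs => rw [← hc _ this, smul_smul, mul_inv_cancel_left, mul_smul]
  have h2 : ∀ l : L, l • ∏ q : L ⧸ (T : Subgroup L), q.out • c = ∏ q : L ⧸ (T : Subgroup L), q.out • c := fun l => by
    rw [Finset.smul_prod']
    exact Fintype.prod_equiv (MulAction.toPerm l) _ _ fun q => h1 l q
  have h3 : QuotientGroup.mk' N (∏ q : L ⧸ (T : Subgroup L), q.out • c) = QuotientGroup.mk' N c ^ (T : Subgroup L).index := by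
    have : ∀ l : L, QuotientGroup.mk' N (l • c) = QuotientGroup.mk' N c := fun l =>
      (QuotientGroup.eq.2 (by rw [mul_comm]; exact htriv _ c)).symm
    simp only [map_prod, this]
    rw [Finset.prod_const, Finset.card_univ, Subgroup.index, Nat.card_eq_fintype_card]
  obtain ⟨k, hk⟩ := (IsPGroup.iff_orderOf.1 hquot) (QuotientGroup.mk' N c)
  obtain ⟨j, hj⟩ := exists_pow_eq_self_of_coprime (x := QuotientGroup.mk' N c) (n := (T : Subgroup L).index)
    (hk ▸ (((Fact.out : p.Prime).coprime_iff_not_dvd.2 T.not_dvd_index).symm.pow_right k))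
  rw [← h3, ← map_pow] at hj
  generalize ∏ q : L ⧸ (T : Subgroup L), q.out • c = d at h2 hj
  refine ⟨n * ((d ^ j)⁻¹ * c), mul_mem hn (QuotientGroup.eq.1 hj), d ^ j, fun l => by rw [smul_pow', h2], ?_⟩
  rw [mul_assoc, mul_comm (d ^ j)⁻¹ c, inv_mul_cancel_right]

end Cfsg.Agent.S1940
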