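import Cfsg.Statements.S1941
import Cfsg.Agent.Sig.FStar

set_option autoImplicit false
open Cfsg

namespace Cfsg.Agent.S1941

open Cfsg.Agent.Loc Cfsg.Agent.Sig Subgroup

/-- Let G be a finite group with no nontrivial normal subgroup of order prime to p, T a Sylow p-subgroup of G and E(G) the layer of G (the subgroup generated by its components). An automorphism of G of p-power order that fixes T and E(G) elementwise is inner. -/
theorem result {G : Type*} [Group G] [Finite G] {p : ℕ} [Fact p.Prime] (hcore : Cfsg.pPrimeCore p G = ⊥)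
    (T : Sylow p G) (α : MulAut G) (hα : ∃ j : ℕ, orderOf α = p ^ j) (hfixT : ∀ x ∈ (T : Subgroup G), α x = x)
    (hfixE : ∀ x ∈ Cfsg.layer G, α x = x) : ∃ g : G, ∀ x : G, α x = g * x * g⁻¹ := by
  classical
  set Z := centralizer (generalizedFittingSubgroup G : Set G)
  have hF : fitIn (⊤ : Subgroup G) = pCore p G := by rw [fitIn_eq_pcIn (p := p) (by rw [ppIn_top, hcore]), pcIn_top]
  have hfix : ∀ x ∈ generalizedFittingSubgroup G, α x = x := by
    rw [← fstarIn_top, fstarIn_eq, hF, layerIn_top]
    exact fun x hx => (sup_le (c := (α : G →* G).eqLocus (MonoidHom.id G)) hfixE fun y hy => hfixT y (pCore_le_sylow T hy)) hx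
  have hZ : IsPGroup p Z := (isPGroup_pCore p G).to_le (by
    rw [← hF]; exact (le_inf le_top (by rw [fstarIn_top])).trans (inf_centralizer_fstarIn_le_fitIn ⊤))
  letI : CommGroup Z := { (inferInstance : Group Z) with
    mul_comm := fun a b => Subtype.ext (b.2 a (centralizer_fstar_le a.2)) }
  let f : G → Z := fun g => ⟨α g * g⁻¹, fun x hx => by
    have := hfix _ (Normal.conj_mem' inferInstance x hx g)
    rw [map_mul, map_mul, map_inv, hfix x hx] at this
    calc x * (α g * g⁻¹) = α g * ((α g)⁻¹ * x * α g) * g⁻¹ := by group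
      _ = _ := by rw [this]; group⟩
  haveI := Fintype.ofFinite (G ⧸ (T : Subgroup G))
  have h1 : ∀ (g : G) (q : G ⧸ (T : Subgroup G)), f (g • q).out = f g * MulAut.conjNormal g (f q.out) := fun g q => by
    have : ((g • q).out)⁻¹ * (g * q.out) ∈ (T : Subgroup G) := by
      rw [← QuotientGroup.eq, QuotientGroup.out_eq', ← smul_eq_mul, ← MulAction.Quotient.smul_mk, QuotientGroup.out_eq']
    have e := hfixT _ this
    rw [map_mul, map_mul, map_inv, inv_mul_eq_iff_eq_mul] at e
    refine Subtype.ext ?_
    change α _ * _ = α g * g⁻¹ * (g * (α q.out * q.out⁻¹) * g⁻¹)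
    calc _ = α (g • q).out * (((g • q).out)⁻¹ * (g * q.out)) * q.out⁻¹ * g⁻¹ := by group
      _ = _ := by rw [← e]; group
  set s := ∏ q : G ⧸ (T : Subgroup G), f q.out
  have h2 : ∀ g, s = f g ^ (T : Subgroup G).index * MulAut.conjNormal g s := fun g => by
    rw [map_prod, index, Nat.card_eq_fintype_card, ← Finset.card_univ, ← Finset.prod_const, ← Finset.prod_mul_distrib]
    exact (Fintype.prod_equiv (MulAction.toPerm g) _ _ fun q => (h1 g q).symm).symm
  let e := hZ.powEquiv' T.not_dvd_index
  refine ⟨e.symm s, fun g => ?_⟩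
  have h3 : e.symm s = f g * MulAut.conjNormal g (e.symm s) := e.injective (by
    have : e.symm s ^ (T : Subgroup G).index = s := e.apply_symm_apply s
    change e.symm s ^ (T : Subgroup G).index = (f g * MulAut.conjNormal g (e.symm s)) ^ (T : Subgroup G).index
    rw [mul_pow, this, ← map_pow, this, ← h2])
  have h4 : (e.symm s : G) = α g * g⁻¹ * (g * e.symm s * g⁻¹) := congrArg Subtype.val h3
  conv_rhs => enter [1, 1]; rw [h4]
  group

end Cfsg.Agent.S1941
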