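import Cfsg.Statements.S1947
import Cfsg.Agent.FG.PNil

set_option autoImplicit false
open Cfsg

namespace Cfsg.Agent.S1947

open Cfsg.Agent.Loc Subgroup

/-- Let G be a finite group and p a prime. If every element of G of order dividing p (dividing 4 when p = 2) lies in some fixed term Z_n(G) of the upper central series, then G has a normal p-complement. -/
theorem result {G : Type*} [Group G] [Finite G] {p : ℕ} [Fact p.Prime] (n : ℕ)
    (h : ∀ a : G, (a ^ p = 1 ∨ (p = 2 ∧ a ^ 4 = 1)) → a ∈ Subgroup.upperCentralSeries G n) : Cfsg.HasNormalPComplement p G := by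
  refine FG.pnil_of_small default fun Q g _ _ h1 h2 => ?_
  have h3 : Q ≤ Subgroup.upperCentralSeries G n := h2.trans ((closure_le _).2 fun a ha => h a ha.2)
  clear h
  induction n with
  | zero => exact eq_bot_iff.2 h3
  | succ n ih => exact ih (h1.trans (commutator_le.2 fun x hx y _ => Subgroup.mem_upperCentralSeries_succ_iff.1 (h3 hx) y))

end Cfsg.Agent.S1947
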