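import Cfsg.Statements.S1948
import Cfsg.Agent.PLocal.PSolv
import Cfsg.Agent.Sig.Core

set_option autoImplicit false
open Cfsg

namespace Cfsg.Agent.S1948

open Cfsg.Agent.Loc Cfsg.Agent.PLocal Subgroup

/-- Let S be a Sylow p-subgroup of the finite group G. Then G = N_G(S)·O_{p'}(G) if and only if G is p-constrained and N_G(S) controls fusion in S, in the sense that whenever a subgroup Q of S has a conjugate g Q g⁻¹ inside S, the element g is a product n c with n normalizing S and c centralizing Q. -/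
theorem result {G : Type*} [Group G] [Finite G] {p : ℕ} [Fact p.Prime] (S : Sylow p G) :
    Subgroup.normalizer ((S : Subgroup G) : Set G) ⊔ Cfsg.pPrimeCore p G = ⊤ ↔
      (Cfsg.IsPConstrained p G ∧
        ∀ Q : Subgroup G, Q ≤ (S : Subgroup G) → ∀ g : G, Q.map (MulAut.conj g).toMonoidHom ≤ (S : Subgroup G) →
          ∃ n ∈ Subgroup.normalizer ((S : Subgroup G) : Set G), ∃ c ∈ Subgroup.centralizer (Q : Set G), g = n * c) := by
  haveI : (pPrimeCore p G).Normal := normal_of_top_le_normalizer (Sig.ppIn_top (G := G) p ▸ Sig.le_normalizer_ppIn le_normalizer)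
  have hO : ∀ {K : Subgroup G}, K ≤ normalizer (pPrimeCore p G : Set G) := by
    intro K; rw [normalizer_eq_top]; exact le_top
  constructor
  · intro h
    refine ⟨isPConstrained_of_pSolv ?_, fun Q hQ g hg => ?_⟩
    · rw [← pSolv_top, ← h, sup_comm]
      refine pSolv_sup hO (pSolv_of_coprime Sig.coprime_pPrimeCore) (pSolv_of_normal_of_quotient
        ((S : Subgroup G).subgroupOf _) (pSolv_subgroupOf (pSolv_of_isPGroup S.isPGroup') _) (pSolv_of_coprime ?_))
      exact ((Fact.out : p.Prime).coprime_iff_not_dvd.2 (sylIn_of_sylow_le S le_normalizer).not_dvd_relIndex).symm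
    obtain ⟨n, hn, k, hk, rfl⟩ := (mem_sup_of_le_normalizer_right hO).1 (h ▸ mem_top g)
    refine ⟨n, hn, k, fun x hx => ?_, rfl⟩
    have h1 : k * x * k⁻¹ ∈ (S : Subgroup G) := by
      simpa [mul_assoc] using conj_inv_mem_of_mem_normalizer hn (hg (conj_mem_cj hx))
    have h2 := (eq_bot_iff_forall _).1 (Sig.inf_eq_bot_of_pgroup_coprime S.isPGroup' Sig.coprime_pPrimeCore)
      (k * x * k⁻¹ * x⁻¹) ⟨mul_mem h1 ((S : Subgroup G).inv_mem (hQ hx)), by
        rw [mul_assoc, mul_assoc, ← mul_assoc x]; exact mul_mem hk (Normal.conj_mem inferInstance _ (inv_mem hk) x)⟩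
    exact (mul_inv_eq_iff_eq_mul.1 (mul_inv_eq_one.1 h2)).symm
  rintro ⟨h1, h2⟩
  have hP := (sylIn_top S).inf_normal' (N := pPrimePCore p G) le_top (by rw [normalizer_eq_top])
  have h3 : pPrimePCore p G ≤ normalizer ((S : Subgroup G) : Set G) ⊔ pPrimeCore p G := by
    rw [← pPrimeCore_sup_sylIn hP]
    exact sup_le le_sup_right (le_sup_of_le_left (inf_le_left.trans le_normalizer))
  rw [eq_top_iff, ← hP.frattini_sup le_top (by rw [normalizer_eq_top])]
  refine sup_le h3 fun g hg => ?_
  obtain ⟨n, hn, c, hc, rfl⟩ := h2 _ inf_le_left g ((cj_eq_of_mem_normalizer hg.2).le.trans inf_le_left)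
  exact mul_mem (mem_sup_left hn) (h3 (IsPConstrained.centralizer_le h1 hP hc))

end Cfsg.Agent.S1948
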