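import Cfsg.Statements.S1949
import Cfsg.Agent.BG.S1c
import Cfsg.Agent.Transfer.Residual
import Mathlib.Tactic.Group

set_option autoImplicit false
open Cfsg

namespace Cfsg.Agent.S1949
open scoped commutatorElement

open Subgroup Cfsg.Agent.BG

section
variable {P : Type*} [Group P] {p : ℕ} {α : MulAut P} {x : P} {C Q : Subgroup P}

theorem lemA (hP : IsPGroup p P) (ho : (orderOf α).Coprime p) (h : α (x⁻¹ * α x) = x⁻¹ * α x) : α x = x := by
  have h5 : ∀ n : ℕ, (α ^ n) x = x * (x⁻¹ * α x) ^ n := by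
    intro n
    induction n with
    | zero => simp
    | succ n ih2 => rw [pow_succ', MulAut.mul_apply, ih2, map_mul, map_pow, h, pow_succ', ← mul_assoc,
        mul_inv_cancel_left]
  have h1 := h5 (orderOf α)
  rw [pow_orderOf_eq_one, MulAut.one_apply, left_eq_mul] at h1
  obtain ⟨k, hk⟩ := hP (x⁻¹ * α x)
  have h2 := Nat.dvd_one.1 ((Nat.dvd_gcd (orderOf_dvd_of_pow_eq_one h1) (orderOf_dvd_of_pow_eq_one hk)).trans
    (ho.pow_right k).dvd)
  rw [orderOf_eq_one_iff, inv_mul_eq_one] at h2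
  exact h2.symm

theorem lemB (hP : IsPGroup p P) (ho : (orderOf α).Coprime p) (hn : Q ≤ N[C]) (hQ : ∀ x ∈ Q, α x ∈ Q)
    (hC : ∀ c ∈ C, α c = c) (h : Q ⊓ C[C] ≤ C) (hx : x ∈ Q) : α x = x := by
  refine lemA hP ho (hC _ (h ⟨Q.mul_mem (Q.inv_mem hx) (hQ x hx), mem_cent.2 fun c hc => ?_⟩))
  have h1 := hC _ (conj_mem_of_norm (hn hx) hc)
  rw [map_mul, map_mul, map_inv, hC c hc] at h1
  calc c * (x⁻¹ * α x) = x⁻¹ * (x * c * x⁻¹) * α x := by group
    _ = _ := by rw [← h1]; group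

end

/-- Let P be a finite p-group and G a group of automorphisms of P containing the inner automorphisms. Then there is a G-invariant subgroup D of P, contained in the subgroup generated by the elements x⁻¹α(x) with x in P and α in O^p(G), of exponent dividing p when p is odd and dividing 4 when p = 2, with [D, P] ≤ Z(D), such that every automorphism in G of order prime to p that fixes D elementwise is the identity; moreover every maximal abelian subgroup A of D is normal in P and every automorphism in G fixing A elementwise has p-power order. -/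
theorem result {P : Type*} [Group P] [Finite P] {p : ℕ} [Fact p.Prime] (hP : IsPGroup p P)
    (G : Subgroup (MulAut P)) (hG : Cfsg.Inn P ≤ G) :
    ∃ D : Subgroup P,
      (∀ α ∈ G, D.map α.toMonoidHom = D) ∧
      D ≤ Subgroup.closure {y : P | ∃ α ∈ Cfsg.pResidual p ↥G, ∃ x : P, y = x⁻¹ * (α : MulAut P) x} ∧
      (∀ d ∈ D, d ^ p = 1 ∨ (p = 2 ∧ d ^ 4 = 1)) ∧
      ⁅D, (⊤ : Subgroup P)⁆ ≤ D ⊓ Subgroup.centralizer (D : Set P) ∧
      (∀ α ∈ G, (orderOf α).Coprime p → (∀ d ∈ D, α d = d) → α = 1) ∧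
      ∀ A : Subgroup P, A ≤ D → IsMulCommutative ↥A →
        (∀ B : Subgroup P, A ≤ B → B ≤ D → IsMulCommutative ↥B → B = A) →
        A.Normal ∧ ∀ α ∈ G, (∀ a ∈ A, α a = a) → ∃ k : ℕ, orderOf α = p ^ k := by
  have hp : p.Prime := Fact.out
  let Inv : Subgroup P → Prop := fun H => ∀ α ∈ G, ∀ x ∈ H, α x ∈ H
  have nInv : ∀ H, Inv H → H.Normal := fun H h => ⟨fun x hx g => h (MulAut.conj g) (hG ⟨g, rfl⟩) x hx⟩
  have infI : ∀ H K, Inv H → Inv K → Inv (H ⊓ K) := fun H K h k α hα x hx => ⟨h α hα x hx.1, k α hα x hx.2⟩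
  have supI : ∀ H K, Inv H → Inv K → Inv (H ⊔ K) := fun H K h k α hα =>
    (sup_le (fun x hx => mem_sup_left (h α hα x hx)) (fun x hx => mem_sup_right (k α hα x hx)) :
      H ⊔ K ≤ (H ⊔ K).comap α.toMonoidHom)
  have cenI : ∀ H, Inv H → Inv C[H] := fun H h α hα x hx => mem_cent.2 fun a ha => by
    have := congrArg α (mem_cent.1 hx _ (h α⁻¹ (inv_mem hα) a ha))
    simpa using this
  set Q := closure {y : P | ∃ α ∈ Cfsg.pResidual p ↥G, ∃ x : P, y = x⁻¹ * (α : MulAut P) x} with hQ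
  have QI : Inv Q := by
    intro β hβ
    refine (closure_le (Q.comap β.toMonoidHom)).2 ?_
    rintro _ ⟨α, hα, x, rfl⟩
    refine subset_closure ⟨⟨β, hβ⟩ * α * ⟨β, hβ⟩⁻¹, Normal.conj_mem inferInstance _ hα _, β x, ?_⟩
    simp
  obtain ⟨H, -, ⟨hHQ, hH, h1⟩, hmax⟩ := maxgroup_exists (A := (⊥ : Subgroup P))
    (P := fun H => H ≤ Q ∧ Inv H ∧ ∀ x ∈ H, x ^ p ∈ Z[H] ∧ ∀ g, ⁅x, g⁆ ∈ Z[H])
    ⟨bot_le, fun α _ x hx => by rw [mem_bot.1 hx, map_one]; exact one_mem _, by simp⟩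
  have hZ := infI _ _ hH (cenI _ hH)
  haveI := nInv _ hZ
  have hC : Q ⊓ C[H] ≤ H := by
    have oI : Inv (omegaCenterMod p Z[H]) := fun α hα y hy => ⟨by
      have := hZ α hα _ hy.1
      rwa [map_pow] at this, fun g => by
      have := hZ α hα _ (hy.2 (α⁻¹ g))
      rwa [map_commutatorElement, MulAut.apply_inv_self] at this⟩
    have h2 : Z[H] ≤ Z[(H ⊔ Q ⊓ C[H]) ⊓ omegaCenterMod p Z[H]] :=
      le_inf (le_inf (inf_le_left.trans le_sup_left) fun x hx => h1 x hx.1)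
        (centsS inf_le_left (le_cent_sup inf_le_right
          (centsC.mp (inf_le_right.trans (centS inf_le_left)))))
    have h3 := hmax _ ⟨inf_le_left.trans (sup_le hHQ inf_le_left),
      infI _ _ (supI _ _ hH (infI _ _ QI (cenI _ hH))) oI,
      fun x hx => ⟨h2 hx.2.1, fun g => h2 (hx.2.2 g)⟩⟩ (le_inf le_sup_left h1)
    by_contra h
    haveI := nInv _ (infI _ _ QI (cenI _ hH))
    obtain ⟨x, hx, h4, h5⟩ := PGrp.exists_central_mod_pow hP (M := Z[H]) (N := Q ⊓ C[H])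
      fun h' => h (h'.trans inf_le_left)
    exact h4 ⟨h3.le ⟨mem_sup_right hx, h5⟩, hx.2⟩
  obtain ⟨q, hq1, hq2, hq3⟩ : ∃ q : ℕ, (q = p ∨ (p = 2 ∧ q = 4)) ∧ p ∣ q ∧ p ∣ q.choose 2 := by
    by_cases h2 : p = 2
    · exact ⟨4, Or.inr ⟨h2, rfl⟩, by rw [h2]; decide, by rw [h2]; decide⟩
    · exact ⟨p, Or.inl rfl, dvd_rfl, PGrp.dvd_choose_two hp h2⟩
  have hm : ∀ x ∈ H, ∀ y ∈ H, (x * y) ^ q = x ^ q * y ^ q := by
    intro x hx y hy
    have c1 : Commute ⁅y, x⁆ x := (mem_cent.1 ((h1 y hy).2 x).2 x hx).symm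
    have c2 : Commute ⁅y, x⁆ y := (mem_cent.1 ((h1 y hy).2 x).2 y hy).symm
    obtain ⟨k, hk⟩ := hq3
    rw [PGrp.mul_pow_of_commute_commutator c1 c2, hk, pow_mul, ← PGrp.commutator_pow_left c2,
      commutatorElement_eq_one_iff_mul_comm.2 (mem_cent.1 (h1 y hy).1.2 x hx).symm, one_pow, one_mul]
  let D : Subgroup P :=
    { carrier := {x | x ∈ H ∧ x ^ q = 1}
      one_mem' := ⟨one_mem _, one_pow q⟩
      mul_mem' := fun {x y} hx hy => ⟨mul_mem hx.1 hy.1, by rw [hm x hx.1 y hy.1, hx.2, hy.2, one_mul]⟩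
      inv_mem' := fun {x} hx => ⟨inv_mem hx.1, by rw [inv_pow, hx.2, inv_one]⟩ }
  have DI : Inv D := fun α hα x hx => ⟨hH α hα x hx.1, by rw [← map_pow, hx.2, map_one]⟩
  have hDH : D ≤ H := fun x hx => hx.1
  haveI := nInv _ DI
  haveI := nInv _ hH
  have hDZ : ⁅D, (⊤ : Subgroup P)⁆ ≤ Z[D] := by
    refine le_inf (commutator_le_left _ _) (commutator_le.2 fun x hx g _ => ?_)
    exact centS hDH ((h1 x hx.1).2 g).2
  have main : ∀ α ∈ G, (orderOf α).Coprime p → (∀ d ∈ D, α d = d) → α = 1 := by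
    intro α hα ho hd
    have key : ∀ j : ℕ, ∀ x ∈ H, x ^ q ^ j = 1 → α x = x := by
      intro j
      induction j with
      | zero => intro x _ hx; rw [pow_zero, pow_one] at hx; rw [hx, map_one]
      | succ j ih =>
        intro x hxH hx
        have e1 : α (x ^ q) = x ^ q := ih _ (pow_mem hxH q) (by rw [← pow_mul, ← pow_succ']; exact hx)
        refine lemA hP ho (hd _ ⟨mul_mem (inv_mem hxH) (hH α hα x hxH), ?_⟩)
        rw [hm _ (inv_mem hxH) _ (hH α hα x hxH), ← map_pow, e1, inv_pow, inv_mul_cancel]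
    have k2 : ∀ x ∈ H, α x = x := by
      intro x hx
      obtain ⟨j, hj⟩ := hP x
      obtain ⟨c, hc⟩ := pow_dvd_pow_of_dvd hq2 j
      exact key j x hx (by rw [hc, pow_mul, hj, one_pow])
    have k3 : ∀ x ∈ Q, α x = x := fun x hx => lemB hP ho (norm_of_normal H Q) (QI α hα) k2 hC hx
    refine MulEquiv.ext fun x => lemA hP ho (k3 _ (subset_closure ⟨⟨α, hα⟩, subset_closure ?_, x, rfl⟩))
    rwa [Set.mem_ofPred_eq, ← orderOf_coe]
  refine ⟨D, fun α hα => le_antisymm ?_ fun x hx => ⟨α⁻¹ x, DI _ (inv_mem hα) x hx, by simp⟩, hDH.trans hHQ,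
    fun d hd => ?_, hDZ, main, fun A hA hAc hAm => ?_⟩
  · rintro _ ⟨x, hx, rfl⟩
    exact DI α hα x hx
  · rcases hq1 with rfl | ⟨h, rfl⟩
    · exact Or.inl hd.2
    · exact Or.inr ⟨h, hd.2⟩
  have hCA : D ⊓ C[A] ≤ A := fun x hx =>
    (hAm (A ⊔ zpowers x) le_sup_left (sup_le hA (zpowers_le.2 hx.1))
      (abelianY hAc (abelian_zpowers x) (cents_symm (zpowers_le.2 hx.2)))).le (mem_sup_right (mem_zpowers x))
  have nA : ⊤ ≤ N[A] := norm_of_commg_subl ((commSg _ hA).trans (hDZ.trans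
    ((inf_le_inf_left _ (centS hA)).trans hCA)))
  refine ⟨NormalIn.normal ⟨le_top, nA⟩, fun α hα hfix => ?_⟩
  obtain ⟨k, m, hm', e⟩ := Nat.exists_eq_pow_mul_and_not_dvd (orderOf_pos α).ne' p hp.ne_one
  have o1 : orderOf (α ^ p ^ k) = m := by
    rw [orderOf_pow' _ (pow_pos hp.pos k).ne', e, Nat.gcd_mul_right_left, Nat.mul_div_cancel_left _ (pow_pos hp.pos k)]
  have o2 : (orderOf (α ^ p ^ k)).Coprime p := by rw [o1]; exact ((hp.coprime_iff_not_dvd).2 hm').symm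
  have f1 : ∀ n : ℕ, ∀ a ∈ A, (α ^ n) a = a := by
    intro n a ha
    induction n with
    | zero => rfl
    | succ n ih => rw [pow_succ', MulAut.mul_apply, ih, hfix a ha]
  have := main _ (pow_mem hα _) o2 fun d hd =>
    lemB hP o2 (le_top.trans nA) (DI _ (pow_mem hα _)) (f1 _) hCA hd
  rw [this, orderOf_one] at o1
  exact ⟨k, by rw [e, ← o1, mul_one]⟩

end Cfsg.Agent.S1949
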