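import Cfsg.Statements.S1952
import Cfsg.Agent.Fus.Yos
-- import your own Cfsg.Agent.* helpers here

set_option autoImplicit false
open Cfsg

namespace Cfsg.Agent.S1952

/-- Let P be a finite p-group with a normal elementary abelian subgroup A of index p, and let x ∈ A and y ∈ P with y outside A. If the product of the p conjugates y^(-i) x y^i (i = 0, …, p−1) is not the identity, then the wreath product Z_p ≀ Z_p, realised as a Sylow p-subgroup of the symmetric group of degree p², is a homomorphic image of P. -/
theorem result {P : Type*} [Group P] [Finite P] {p : ℕ} [Fact p.Prime] (hP : IsPGroup p P) (A : Subgroup P) [A.Normal]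
    (hA : Cfsg.IsElementaryAbelian p A) (hidx : A.index = p) (x y : P) (hx : x ∈ A) (hy : y ∉ A)
    (hprod : ((List.range p).map (fun i => (y ^ i)⁻¹ * x * y ^ i)).prod ≠ 1) :
    ∃ (Q : Sylow p (Equiv.Perm (Fin (p ^ 2)))) (f : P →* ↥(Q : Subgroup (Equiv.Perm (Fin (p ^ 2))))), Function.Surjective f :=
  open Subgroup Cfsg.Agent.Fus Cfsg.Agent.Loc Equiv in by
  haveI : IsMulCommutative A := by
    obtain ⟨h1, -⟩ := isElementaryAbelian_iff.1 hA
    exact ⟨⟨fun a b => Subtype.ext (h1 b.2 a a.2)⟩⟩
  letI : CommGroup A := { mul_comm := mul_comm' }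
  refine exists_surj_wreath hP hidx (homOn_ext1 (MonoidHom.id A)) (fun z hz => ?_) hx (t := y) fun k => hprod ?_
  · rw [ext1_apply _ hz]
    exact Subtype.ext ((isElementaryAbelian_iff.1 hA).2 z hz)
  · have hc : ∀ i, (y ^ i)⁻¹ * x * y ^ i ∈ A := fun i => Normal.conj_mem' inferInstance x hx _
    have := congrArg A.subtype k
    rw [Finset.prod_congr rfl fun i _ => ext1_apply _ (hc i), ← List.toFinset_range, List.prod_toFinset _ List.nodup_range,
      map_list_prod, List.map_map] at this
    exact this

end Cfsg.Agent.S1952
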