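import Cfsg.Statements.S1954
import Cfsg.Agent.FG.PNil

set_option autoImplicit false
open Cfsg

namespace Cfsg.Agent.S1954

open Cfsg.Agent.Loc Subgroup

/-- Let N be a normal subgroup of the finite group G, P a Sylow p-subgroup of G, and V a subgroup of P ∩ N normal in P ∩ N such that N_N(V) controls strong fusion in P ∩ N with respect to N (whenever a subgroup A of P ∩ N has n A n⁻¹ ≤ P ∩ N for some n in N, then n = h c with h in N_N(V) and c in C_N(A)). Let W be the subgroup generated by the conjugates of V under N_G(P ∩ N). Then N_G(W) controls strong fusion in P with respect to G. -/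
theorem result {G : Type*} [Group G] [Finite G] {p : ℕ} [Fact p.Prime] (N : Subgroup G) [N.Normal] (P : Sylow p G) (V : Subgroup G)
    (hV : V ≤ (P : Subgroup G) ⊓ N) (hVn : ∀ x ∈ (P : Subgroup G) ⊓ N, V.map (MulAut.conj x).toMonoidHom = V)
    (hctrl : ∀ A : Subgroup G, A ≤ (P : Subgroup G) ⊓ N → ∀ n ∈ N, A.map (MulAut.conj n).toMonoidHom ≤ (P : Subgroup G) ⊓ N →
      ∃ h ∈ N ⊓ Subgroup.normalizer (V : Set G), ∃ c ∈ N ⊓ Subgroup.centralizer (A : Set G), n = h * c)
    (W : Subgroup G) (hW : W = Subgroup.closure (⋃ x ∈ Subgroup.normalizer (((P : Subgroup G) ⊓ N : Subgroup G) : Set G),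
      ((V.map (MulAut.conj x).toMonoidHom : Subgroup G) : Set G))) :
    ∀ A : Subgroup G, A ≤ (P : Subgroup G) → ∀ g : G, A.map (MulAut.conj g).toMonoidHom ≤ (P : Subgroup G) →
        ∃ h ∈ Subgroup.normalizer (W : Set G), ∃ c ∈ Subgroup.centralizer (A : Set G), g = h * c := by
  classical
  have hP := (sylIn_top P).inf_normal' (N := N) le_top (by rw [normalizer_eq_top])
  set Q := (P : Subgroup G) ⊓ N
  have h1 : ∀ s : Finset G, (∀ x ∈ s, x ∈ normalizer (Q : Set G)) → ∀ A ≤ Q, ∀ n ∈ N, cj n A ≤ Q →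
      ∃ h, (∀ x ∈ s, h ∈ normalizer ((cj x V : Subgroup G) : Set G)) ∧ ∃ c ∈ centralizer (A : Set G), n = h * c := by
    intro s
    induction s using Finset.induction_on with
    | empty => exact fun _ A _ n _ _ => ⟨n, by simp, 1, one_mem _, (mul_one n).symm⟩
    | insert x s _ ih =>
      intro hs A hA n hn hle
      have hx := hs x (Finset.mem_insert_self x s)
      obtain ⟨h, ⟨hh, hV'⟩, c, ⟨-, hc⟩, e⟩ := hctrl (cj x⁻¹ A) (cj_le_of_mem_normalizer (inv_mem hx) hA) (x⁻¹ * n * x)
        (Normal.conj_mem' inferInstance n hn x)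
        (by rw [cj_cj, mul_inv_cancel_right, ← cj_cj]; exact cj_le_of_mem_normalizer (inv_mem hx) hle)
      have h2 : x * h * x⁻¹ ∈ normalizer ((cj x V : Subgroup G) : Set G) := cj_normalizer x V ▸ conj_mem_cj hV'
      have h3 : x * c * x⁻¹ ∈ centralizer (A : Set G) := by rw [← cj_cj_inv x A, ← cj_centralizer]; exact conj_mem_cj hc
      have e' : n = x * h * x⁻¹ * (x * c * x⁻¹) := by
        calc n = x * (x⁻¹ * n * x) * x⁻¹ := by group
          _ = _ := by rw [e]; group
      have hVx := cj_le_of_mem_normalizer hx hV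
      obtain ⟨h', hh', c', hc', e2⟩ := ih (fun y hy => hs y (Finset.mem_insert_of_mem hy)) (A ⊔ cj x V) (sup_le hA hVx) _
        (Normal.conj_mem inferInstance h hh x) (by
          rw [cj_sup, cj_eq_of_mem_normalizer h2, ← cj_eq_of_mem_centralizer h3, cj_cj, ← e']; exact sup_le hle hVx)
      rw [centralizer_sup'] at hc'
      refine ⟨h', fun y hy => (Finset.mem_insert.1 hy).elim (fun e => ?_) (hh' y), c' * (x * c * x⁻¹), mul_mem hc'.1 h3,
        by rw [← mul_assoc, ← e2, ← e']⟩
      rw [e, ← mul_mem_cancel_right (centralizer_le_normalizer _ hc'.2), ← e2]; exact h2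
  have hW' : W = ⨆ x ∈ normalizer (Q : Set G), cj x V := by simp only [hW, Subgroup.closure_iUnion, Subgroup.closure_eq]
  have hWQ : W ≤ Q := hW' ▸ iSup₂_le fun x hx => cj_le_of_mem_normalizer hx hV
  intro A hA g hg
  refine FG.control_of_conj P (hWQ.trans inf_le_left) (fun a ha g hg => ?_) hA hg
  obtain ⟨k, hk, n, hn, rfl⟩ := hP.frattini' (g := g) (by rw [normalizer_eq_top]; trivial)
  obtain ⟨h, hh, c, hc, rfl⟩ := h1 (Set.toFinite (normalizer (Q : Set G) : Set G)).toFinset (by simp) (zpowers a)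
    (zpowers_le.2 (hWQ ha)) n hn (by
      rw [cj_zpowers, zpowers_le]
      simpa [mul_assoc] using conj_inv_mem_of_mem_normalizer hk (x := k * n * a * (k * n)⁻¹)
        ⟨hg, Normal.conj_mem inferInstance a (hWQ ha).2 _⟩)
  refine ⟨k * h, mul_mem (mem_normalizer_of_cj_le ?_) (mem_normalizer_of_cj_le ?_), ?_⟩
  · simp only [hW', cj_iSup, cj_cj]
    exact iSup₂_le fun x hx => le_iSup₂_of_le (k * x) (mul_mem hk hx) le_rfl
  · simp only [hW', cj_iSup]
    exact iSup₂_le fun x hx => le_iSup₂_of_le x hx (cj_eq_of_mem_normalizer (hh x (by simpa using hx))).le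
  · calc _ = k * h * (c * a) * c⁻¹ * (k * h)⁻¹ := by group
      _ = _ := by rw [← hc a (mem_zpowers a)]; group

end Cfsg.Agent.S1954
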