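import Cfsg.Statements.S1956
import Cfsg.Agent.Loc.Syl

set_option autoImplicit false
open Cfsg

namespace Cfsg.Agent.S1956

open Cfsg.Agent.Loc Subgroup

/-- Let P be a Sylow p-subgroup of the finite group G such that every element of P of order dividing p (dividing 4 when p = 2) is central in P. Then the fusion of these elements is controlled by N_G(P): if such an element a of P has g a g⁻¹ in P, then g = n c with n normalizing P and c commuting with a. -/
theorem result {G : Type*} [Group G] [Finite G] {p : ℕ} [Fact p.Prime] (P : Sylow p G)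
    (hcen : ∀ a ∈ (P : Subgroup G), (a ^ p = 1 ∨ (p = 2 ∧ a ^ 4 = 1)) → ∀ y ∈ (P : Subgroup G), a * y = y * a) :
    ∀ a ∈ (P : Subgroup G), (a ^ p = 1 ∨ (p = 2 ∧ a ^ 4 = 1)) → ∀ g : G, g * a * g⁻¹ ∈ (P : Subgroup G) →
      ∃ n ∈ Subgroup.normalizer ((P : Subgroup G) : Set G), ∃ c : G, c * a = a * c ∧ g = n * c := by
  intro a ha hp g hg
  have h0 : (P : Subgroup G) ≤ centralizer {g * a * g⁻¹} := fun y hy => mem_centralizer_singleton_iff.2
    (hcen _ hg (hp.imp (fun h => by rw [conj_pow, h, mul_one, mul_inv_cancel]) fun h =>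
      ⟨h.1, by rw [conj_pow, h.2, mul_one, mul_inv_cancel]⟩) y hy).symm
  have h1 : SylIn p (cj g (P : Subgroup G)) (centralizer {g * a * g⁻¹}) :=
    ((sylIn_top P).conj_of_mem (mem_top g)).mono (by
      rw [← cj_centralizer_singleton]
      exact cj_mono g fun s hs => mem_centralizer_singleton_iff.2 (hcen a ha hp s hs).symm) le_top
  obtain ⟨c, hc, e⟩ := h1.exists_conj (sylIn_of_sylow_le P h0)
  rw [cj_cj] at e
  refine ⟨c * g, mem_normalizer_iff_cj.2 e, g⁻¹ * c⁻¹ * g, ?_, by group⟩
  have := mem_centralizer_singleton_iff.1 (inv_mem hc)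
  calc g⁻¹ * c⁻¹ * g * a = g⁻¹ * (c⁻¹ * (g * a * g⁻¹)) * g := by group
    _ = _ := by rw [this]; group

end Cfsg.Agent.S1956
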