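import Cfsg.Statements.S1988
import Cfsg.Agent.PLocal.Npc
-- import your own Cfsg.Agent.* helpers here

set_option autoImplicit false
universe u
open Cfsg

namespace Cfsg.Agent.S1988


open Subgroup Cfsg Cfsg.Agent.Transfer Cfsg.Agent.BG Cfsg.Agent.PLocal Pointwise
open scoped commutatorElement

/-- Let p be an odd prime, G a finite group with Sylow p-subgroup S and K the lower K-infinity subgroup of S. If N_G(K) has a normal p-complement, or if N_G(K)/C_G(K) is a p-group (every element of N_G(K) of order prime to p centralizes K), then G has a normal p-complement. -/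
theorem result {G : Type u} [Group G] [Finite G] {p : ℕ} [Fact p.Prime] (hp : p ≠ 2) (S : Sylow p G) (h : Cfsg.HasNormalPComplement p ↥(Subgroup.normalizer ((Cfsg.inducedFunctor Cfsg.kInfLower (S : Subgroup G) : Subgroup G) : Set G)) ∨ ∀ g ∈ Subgroup.normalizer ((Cfsg.inducedFunctor Cfsg.kInfLower (S : Subgroup G) : Subgroup G) : Set G), (orderOf g).Coprime p → g ∈ Subgroup.centralizer ((Cfsg.inducedFunctor Cfsg.kInfLower (S : Subgroup G) : Subgroup G) : Set G)) : Cfsg.HasNormalPComplement p G := by
  have hN : HasNormalPComplement p N[inducedFunctor kInfLower (S : Subgroup G)] := by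
    refine h.elim id fun h => ?_
    rw [ind_kL] at h ⊢
    exact npc_norm_of_selfcent (isSylowIn_top S) ⟨kL_le _, (normG _).trans (norm_kL _)⟩
      (cent_kL S.2) h
  refine npc_of_degree kL_char (fun K R _ hc T h => ?_) (isSylowIn_top S) hN
  rw [ind_kL] at h
  obtain ⟨g, h1, h2, -, -, h3⟩ := kinf_degree (Solv.pCore_le_sylow T) (.inl h)
  obtain ⟨U, V, h4, h5, h6, h7⟩ := h3 hc
  haveI := h4.2.2.1
  have := (Fact.out : p.Prime).two_le
  exact ⟨g, h1, h2, U, V, h4, h5, iter_le_of_le (m := 2) (norm_of_normal _ _) h6 (by omega), h7⟩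


end Cfsg.Agent.S1988
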