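import Cfsg.Statements.S2001
import Cfsg.Agent.PLocal.ZLoc
-- import your own Cfsg.Agent.* helpers here

set_option autoImplicit false
open Cfsg

namespace Cfsg.Agent.S2001


open Subgroup Cfsg Cfsg.Agent.Transfer Cfsg.Agent.BG Cfsg.Agent.PLocal Pointwise
open scoped commutatorElement

/-- Let p be a prime dividing the order of the finite group G, P a Sylow p-subgroup, W a conjugacy functor for p on G with Z(H) ≤ W(H) for every nontrivial p-subgroup H, and V a central functor: a conjugacy functor with V(H) ≤ Z(H), and V(H) ≤ V(K) whenever Z(H) ≤ Z(K), for nontrivial p-subgroups H, K. Say that W with V controls transfer in a subgroup L when some Sylow p-subgroup Q of L satisfies Q ∩ L' = (Q ∩ (N_L(W(Q)))')·(Q ∩ (C_L(V(Q)))') as a product of two subgroups. If W with V controls transfer in N_G(H) for every subgroup H with Z(P) ≤ H ≤ P, then W with V controls transfer in G. -/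
theorem result {G : Type*} [Group G] [Finite G] {p : ℕ} [Fact p.Prime] (hdiv : p ∣ Nat.card G) (P : Sylow p G) (W V : Subgroup G → Subgroup G) (hW : Cfsg.IsConjugacyFunctor p W) (hV : Cfsg.IsConjugacyFunctor p V) (hWZ : ∀ H : Subgroup G, IsPGroup p ↥H → H ⊓ Subgroup.centralizer ((H : Subgroup G) : Set G) ≤ W H) (hVZ : ∀ H : Subgroup G, IsPGroup p ↥H → V H ≤ H ⊓ Subgroup.centralizer ((H : Subgroup G) : Set G)) (hVmono : ∀ H K : Subgroup G, IsPGroup p ↥H → IsPGroup p ↥K → H ≠ ⊥ → K ≠ ⊥ → H ⊓ Subgroup.centralizer ((H : Subgroup G) : Set G) ≤ K ⊓ Subgroup.centralizer ((K : Subgroup G) : Set G) → V H ≤ V K) (hloc : ∀ H : Subgroup G, (P : Subgroup G) ⊓ Subgroup.centralizer (((P : Subgroup G) : Subgroup G) : Set G) ≤ H → H ≤ (P : Subgroup G) → ∃ Q : Subgroup G, Q ≤ Subgroup.normalizer ((H : Subgroup G) : Set G) ∧ IsPGroup p ↥Q ∧ ¬ p ∣ (Q).relIndex (Subgroup.normalizer ((H : Subgroup G) : Set G)) ∧ ∀ x : G, x ∈ Q ⊓ ⁅Subgroup.normalizer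 ((H : Subgroup G) : Set G), Subgroup.normalizer ((H : Subgroup G) : Set G)⁆ ↔ ∃ a ∈ Q ⊓ ⁅Subgroup.normalizer ((H : Subgroup G) : Set G) ⊓ Subgroup.normalizer ((W Q : Subgroup G) : Set G), Subgroup.normalizer ((H : Subgroup G) : Set G) ⊓ Subgroup.normalizer ((W Q : Subgroup G) : Set G)⁆, ∃ b ∈ Q ⊓ ⁅Subgroup.normalizer ((H : Subgroup G) : Set G) ⊓ Subgroup.centralizer ((V Q : Subgroup G) : Set G), Subgroup.normalizer ((H : Subgroup G) : Set G) ⊓ Subgroup.centralizer ((V Q : Subgroup G) : Set G)⁆, x = a * b) : ∃ Q : Subgroup G, IsPGroup p ↥Q ∧ ¬ p ∣ Q.index ∧ ∀ x : G, x ∈ Q ⊓ commutator G ↔ ∃ a ∈ Q ⊓ ⁅Subgroup.normalizer ((W Q : Subgroup G) : Set G), Subgroup.normalizer ((W Q : Subgroup G) : Set G)⁆, ∃ b ∈ Q ⊓ ⁅Subgroup.centralizer ((V Q : Subgroup G) : Set G), Subgroup.centralizer ((V Q : Subgroup G) : Set G)⁆, x = a * b := by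
  have hS := isSylowIn_top P
  set T := (P : Subgroup G)
  have h0 : T ≠ ⊥ := P.ne_bot_of_dvd_card hdiv
  refine ⟨T, P.2, P.not_dvd_index, fun x => ⟨fun hx => ?_, ?_⟩⟩
  swap
  · rintro ⟨a, ha, b, hb, rfl⟩
    exact mul_mem ⟨ha.1, commutator_mono le_top le_top ha.2⟩ ⟨hb.1, commutator_mono le_top le_top hb.2⟩
  have hn : T ≤ N[⁅N[W T], N[W T]⁆] := (le_normalizer_functor hW P.2).trans (der_normal _).2
  have := tc_of_local_Z hW hWZ hS (M := T ⊓ ⁅N[W T], N[W T]⁆ ⊔ T ⊓ ⁅C[V T], C[V T]⁆) le_sup_left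
    (fun D h1 h2 => ?_) hx
  · obtain ⟨a, ha, b, hb, rfl⟩ := (Loc.mem_sup_of_le_normalizer_left (inf_le_left.trans (normsI (normG _) hn))).1 this
    exact ⟨a, ha, b, hb, rfl⟩
  obtain ⟨Q, h3, h4, h5, h6⟩ := hloc D h2 h1.1
  have h7 := h1.2
  rw [top_inf_eq] at h7
  obtain ⟨z, hz, e⟩ := h7.exists_conj_eq ⟨h3, h4, h5⟩
  have hZ : Z[T] ≤ Z[T ⊓ N[D]] := le_inf (le_inf inf_le_left (h2.trans le_normalizer))
    (inf_le_right.trans (centralizer_le inf_le_left))
  have h8 := hVmono T _ P.2 h7.isPGroup h0 (fun e => Loc.inf_centralizer_ne_bot P.2 P.2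
      le_normalizer h0 (eq_bot_iff.2 (hZ.trans (inf_le_left.trans e.le)))) hZ
  intro y hy
  obtain ⟨a, ha, b, hb, e1⟩ := (h6 (z⁻¹ * y * z)).1 ⟨mem_conj_smul.1 (e.ge hy.1), by
    simpa using conj_mem_of_norm ((der_normal N[D]).2 (inv_mem hz)) hy.2⟩
  rw [show y = (z * a * z⁻¹) * (z * b * z⁻¹) by rw [show z * a * z⁻¹ * (z * b * z⁻¹) = z * (a * b) * z⁻¹ by group, ← e1]; group]
  refine mul_mem_sup ⟨e.le (conj_mem_conj_smul.2 ha.1), ?_⟩ (mem_sup_right ⟨(e.le (conj_mem_conj_smul.2 hb.1)).1, ?_⟩)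
  · rw [← e, functor_conj hW h4, ← conj_smul_normalizer, ← conj_smul_commutator]
    exact conj_mem_conj_smul.2 (commutator_mono inf_le_right inf_le_right ha.2)
  · refine commutator_mono (centralizer_le h8) (centralizer_le h8) ?_
    rw [← e, functor_conj hV h4, ← conj_smul_centralizer, ← conj_smul_commutator]
    exact conj_mem_conj_smul.2 (commutator_mono inf_le_right inf_le_right hb.2)


end Cfsg.Agent.S2001
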