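import Cfsg.Statements.S2002
import Cfsg.Agent.PLocal.ZLoc
-- import your own Cfsg.Agent.* helpers here

set_option autoImplicit false
open Cfsg

namespace Cfsg.Agent.S2002


open Subgroup Cfsg Cfsg.Agent.Transfer Cfsg.Agent.BG Cfsg.Agent.PLocal Pointwise
open scoped commutatorElement

/-- Let p be a prime dividing the order of the finite group G, P a Sylow p-subgroup, W a conjugacy functor for p on G with Z(H) ≤ W(H) for every nontrivial p-subgroup H, and V a central functor (a conjugacy functor with V(H) ≤ Z(H), and V(H) ≤ V(K) whenever Z(H) ≤ Z(K)). Say that W with V controls strong fusion in a subgroup L when some Sylow p-subgroup Q of L has the property: whenever X ⊆ Q and a ∈ L with a⁻¹Xa ⊆ Q, then a = c b with c ∈ C_L(X) and b = b₁ ⋯ bₙ a product of elements each in N_L(W(Q)) or in C_L(V(Q)) such that every partial conjugate (b₁ ⋯ bₖ)⁻¹ X (b₁ ⋯ bₖ) lies in Q. If W with V controls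 strong fusion in N_G(H) for every subgroup H with Z(P) ≤ H ≤ P, then W with V controls strong fusion in G. -/
theorem result {G : Type*} [Group G] [Finite G] {p : ℕ} [Fact p.Prime] (hdiv : p ∣ Nat.card G) (P : Sylow p G) (W V : Subgroup G → Subgroup G) (hW : Cfsg.IsConjugacyFunctor p W) (hV : Cfsg.IsConjugacyFunctor p V) (hWZ : ∀ H : Subgroup G, IsPGroup p ↥H → H ⊓ Subgroup.centralizer ((H : Subgroup G) : Set G) ≤ W H) (hVZ : ∀ H : Subgroup G, IsPGroup p ↥H → V H ≤ H ⊓ Subgroup.centralizer ((H : Subgroup G) : Set G)) (hVmono : ∀ H K : Subgroup G, IsPGroup p ↥H → IsPGroup p ↥K → H ≠ ⊥ → K ≠ ⊥ → H ⊓ Subgroup.centralizer ((H : Subgroup G) : Set G) ≤ K ⊓ Subgroup.centralizer ((K : Subgroup G) : Set G) → V H ≤ V K) (hloc : ∀ H : Subgroup G, (P : Subgroup G) ⊓ Subgroup.centralizer (((P : Subgroup G) : Subgroup G) : Set G) ≤ H → H ≤ (P : Subgroup G) → ∃ Q : Subgroup G, Q ≤ Subgroup.normalizer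 ((H : Subgroup G) : Set G) ∧ IsPGroup p ↥Q ∧ ¬ p ∣ (Q).relIndex (Subgroup.normalizer ((H : Subgroup G) : Set G)) ∧ ∀ (X : Set G) (a : G), X ⊆ Q → a ∈ Subgroup.normalizer ((H : Subgroup G) : Set G) → (fun x => a⁻¹ * x * a) '' X ⊆ Q → ∃ c ∈ Subgroup.normalizer ((H : Subgroup G) : Set G) ⊓ Subgroup.centralizer X, ∃ (n : ℕ) (b : Fin n → G), (∀ i, b i ∈ Subgroup.normalizer ((H : Subgroup G) : Set G) ⊓ Subgroup.normalizer ((W Q : Subgroup G) : Set G) ∨ b i ∈ Subgroup.normalizer ((H : Subgroup G) : Set G) ⊓ Subgroup.centralizer ((V Q : Subgroup G) : Set G)) ∧ a = c * (List.ofFn b).prod ∧ ∀ k : ℕ, k ≤ n → (fun x => (((List.ofFn b).take k).prod)⁻¹ * x * ((List.ofFn b).take k).prod) '' ((fun x => c⁻¹ * x * c) '' X) ⊆ Q) : ∃ Q : Subgroup G, IsPGroup p ↥Q ∧ ¬ p ∣ Q.index ∧ ∀ (X : Set G) (a : G), X ⊆ Q → (fun x => a⁻¹ * x * a) '' X ⊆ Q → ∃ c ∈ Subgroup.centralizer X, ∃ (n : ℕ) (b : Fin n → G), (∀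 i, b i ∈ ⊤ ⊓ Subgroup.normalizer ((W Q : Subgroup G) : Set G) ∨ b i ∈ ⊤ ⊓ Subgroup.centralizer ((V Q : Subgroup G) : Set G)) ∧ a = c * (List.ofFn b).prod ∧ ∀ k : ℕ, k ≤ n → (fun x => (((List.ofFn b).take k).prod)⁻¹ * x * ((List.ofFn b).take k).prod) '' ((fun x => c⁻¹ * x * c) '' X) ⊆ Q := by
  have hS := isSylowIn_top P
  set T := (P : Subgroup G)
  have h0 : T ≠ ⊥ := P.ne_bot_of_dvd_card hdiv
  refine ⟨T, P.2, P.not_dvd_index, fun X a hX hX' => (sf_iff_fin (Good := fun x => x ∈ ⊤ ⊓ N[W T] ∨ x ∈ ⊤ ⊓ C[V T])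
    (fun b hb => hb.imp inv_mem inv_mem) hX).1 ?_⟩
  refine sf_of_local_Z hW hWZ hS (fun x hx => Or.inl ⟨trivial, hx⟩) (fun D h1 h2 y hy A hA hA' => ?_) X a⁻¹ hX
    fun x hx => by simpa using hX' ⟨x, hx, rfl⟩
  obtain ⟨Q, h3, h4, h5, h6⟩ := hloc D h2 h1.1
  have h7 := h1.2
  rw [top_inf_eq] at h7
  obtain ⟨z, hz, e⟩ := h7.exists_conj_eq ⟨h3, h4, h5⟩
  have hm : ∀ a ∈ T ⊓ N[D], z⁻¹ * a * z ∈ Q := fun a ha => mem_conj_smul.1 (e.ge ha)
  have h8 : (fun a => z⁻¹ * a * z) '' A ⊆ Q := by rintro _ ⟨a, ha, rfl⟩; exact hm a (hA ha)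
  obtain ⟨c, hc, n, b, h9, h10⟩ := h6 _ (z⁻¹ * y * z)⁻¹ h8 (inv_mem (mul_mem (mul_mem (inv_mem hz) hy) hz)) (by
    rintro _ ⟨_, ⟨a, ha, rfl⟩, rfl⟩
    simpa [mul_assoc] using hm _ (hA' a ha))
  have h11 := (sf_iff_fin (Good := fun x => x ∈ N[W Q] ∨ x ∈ C[V Q]) (fun b hb => hb.imp inv_mem inv_mem) h8).2
    ⟨c, hc.2, n, b, fun i => (h9 i).imp And.right And.right, h10⟩
  have hZ : Z[T] ≤ Z[T ⊓ N[D]] := le_inf (le_inf inf_le_left (h2.trans le_normalizer))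
    (inf_le_right.trans (centralizer_le inf_le_left))
  have h12 := h11.map (MulAut.conj z).toMonoidHom (Good' := fun x => x ∈ N[W (T ⊓ N[D])] ∨
    x ∈ ⊤ ⊓ N[W T] ∨ x ∈ ⊤ ⊓ C[V T]) fun x hx => hx.imp (fun hx => by
      rw [← e, functor_conj hW h4, ← conj_smul_normalizer]; exact conj_mem_conj_smul.2 hx) fun hx =>
    Or.inr ⟨trivial, centralizer_le (hVmono T _ P.2 h7.isPGroup h0 (fun e => Loc.inf_centralizer_ne_bot P.2 P.2
      le_normalizer h0 (eq_bot_iff.2 (hZ.trans (inf_le_left.trans e.le)))) hZ) (by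
      rw [← e, functor_conj hV h4, ← conj_smul_centralizer]; exact conj_mem_conj_smul.2 hx)⟩
  rw [← conj_smul_eq_map, e, Set.image_image] at h12
  simpa [mul_assoc] using h12


end Cfsg.Agent.S2002
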