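import Cfsg.Statements.S2015
import Cfsg.Agent.PLocal.NStab
-- import your own Cfsg.Agent.* helpers here

set_option autoImplicit false
universe u
open Cfsg

namespace Cfsg.Agent.S2015


open Subgroup Cfsg Cfsg.Agent.Transfer Cfsg.Agent.BG Cfsg.Agent.PLocal Pointwise
open scoped commutatorElement

/-- For p ≥ 5, every finite p-group P has a characteristic subgroup K containing Z(P), depending only on P, whose normalizer controls transfer wherever P is a Sylow subgroup: for every finite group G and every embedding ι of P onto a Sylow p-subgroup of G, the intersection of ι(P) with the derived subgroup of G equals its intersection with the derived subgroup of N_G(ι(K)). -/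
theorem result (p : ℕ) [Fact p.Prime] (hp : 5 ≤ p) (P : Type u) [Group P] [Finite P] (hP : IsPGroup p P) : ∃ K : Subgroup P, K.Characteristic ∧ Subgroup.center P ≤ K ∧ ∀ (G : Type u) [Group G] [Finite G] (ι : P →* G), Function.Injective ι → (∃ T : Sylow p G, (T : Subgroup G) = ι.range) → ι.range ⊓ commutator G = ι.range ⊓ (commutator ↥(Subgroup.normalizer ((K.map ι : Subgroup G) : Set G))).map (Subgroup.normalizer ((K.map ι : Subgroup G) : Set G)).subtype := by
  refine ⟨kL ⊤, characteristic_iff_map_eq.2 fun e => ?_, center_top.ge.trans (center_le_kL ⊤), ?_⟩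
  · rw [map_kL e.injective, map_top_of_surjective _ e.surjective]
  rintro G _ _ ι hι ⟨T, hT⟩
  rw [map_kL hι, ← MonoidHom.range_eq_map, ← hT, map_subtype_commutator, ← ind_kL]
  exact le_antisymm (le_inf inf_le_left
    ((tcok_single_iff' kL_char (isSylowIn_top T)).1 (tcok_kinf hp G).1))
    (inf_le_inf_left _ (commutator_mono le_top le_top))


end Cfsg.Agent.S2015
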