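import Cfsg.Statements.S2162
import Cfsg.Agent.Classical.SUConj

set_option autoImplicit false
open Cfsg

namespace Cfsg.Agent.S2162

open Cfsg.Agent.Classical Cfsg.Agent.Geom Cfsg.Agent.Geom.Formed Module Polynomial Matrix

/-- Conjugacy of involutions in the special linear group over a finite field of characteristic two, in dimension at least 3: two elements of order 2 of SL_n(F) are conjugate in SL_n(F) exactly when the matrices a − 1 and b − 1 have the same rank (the rank of a − 1 is the dimension of the commutator space [V, a]). -/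
theorem result {F : Type*} [Field F] [Fintype F] [CharP F 2] {n : ℕ} (hn : 3 ≤ n) (a b : Matrix.SpecialLinearGroup (Fin n) F) (ha : orderOf a = 2) (hb : orderOf b = 2) :
    IsConj a b ↔ ((a : Matrix (Fin n) (Fin n) F) - 1).rank = ((b : Matrix (Fin n) (Fin n) F) - 1).rank := by
  have h1 : ∀ a : SpecialLinearGroup (Fin n) F, orderOf a = 2 → (a.1 - (1 : F) • 1) ^ 2 = 0 :=
    fun a ha => sub_one_sq_of_two (congrArg (·.1) (orderOf_eq_prime_iff.1 ha).1)
  refine ⟨fun h => ?_, fun h => ?_⟩
  · have h2 := kd_X_sub_C_add_rank a.1 1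
    have h3 := kd_X_sub_C_add_rank b.1 1
    rw [kd_of_isConj (A := a.1) (B := b.1) (SpecialLinearGroup.coeMonoidHom.map_isConj h), one_smul] at h2
    rw [one_smul] at h3
    exact Nat.add_left_cancel (h2.trans h3.symm)
  obtain ⟨k, l, h2, -, h3⟩ := elemDiv_of_sq_zero (f := toLin' a.1) (c := 1)
    (aeval_toLin'_eq_zero.2 (by simpa [Algebra.algebraMap_eq_smul_one] using h1 a ha))
  have h4 := isConj_of_sq_zero (h1 a ha) (h1 b hb) (by simpa using h)
  by_cases hk : k = 0
  · refine isConj_SL_of_mem (irreducible_X_sub_C 1) ?_ h4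
    simp only [Module.finrank_fintype_fun_eq_card, Fintype.card_fin] at h2
    simp [h3, Multiset.mem_replicate, show l ≠ 0 by omega]
  · refine isConj_SL_of_pow (p := (X - C 1) ^ 2) (by simp [h3, Multiset.mem_replicate, hk])
      (fun c => ?_) h4
    rw [natDegree_pow, natDegree_X_sub_C]
    exact (frobeniusEquiv F 2).surjective c

end Cfsg.Agent.S2162
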