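import Cfsg.Statements.S2163
import Cfsg.Agent.Invol.Basic

set_option autoImplicit false
open Cfsg

namespace Cfsg.Agent.S2163

open Matrix

def A (F : Type*) [Field F] (n ℓ s : ℕ) : Matrix (Fin n) (Fin ℓ) F :=
  Matrix.of fun i k => if i.val = k.val + s then 1 else 0

theorem A_mul {F : Type*} [Field F] (n ℓ s t : ℕ) : A F n ℓ s * (A F n ℓ t)ᵀ =
    Matrix.of fun i j : Fin n => if s ≤ i.val ∧ i.val < s + ℓ ∧ j.val + s = i.val + t then (1 : F) else 0 := by
  ext i j
  simp only [A, Matrix.mul_apply, Matrix.of_apply, Matrix.transpose_apply]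
  by_cases h : s ≤ i.val ∧ i.val < s + ℓ ∧ j.val + s = i.val + t
  · rw [if_pos h, Finset.sum_eq_single (⟨i.val - s, by omega⟩ : Fin ℓ)]
    · rw [if_pos (by simp; omega), if_pos (by simp; omega), one_mul]
    · intro b _ hb; rw [if_neg (fun e => hb (Fin.ext (by simp; omega))), zero_mul]
    · simp
  · rw [if_neg h]
    refine Finset.sum_eq_zero fun b _ => ?_
    have := b.2
    by_cases hb : i.val = b.val + s
    · rw [if_neg (show ¬ j.val = b.val + t by omega), mul_zero]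
    · rw [if_neg hb, zero_mul]

theorem mul_A {F : Type*} [Field F] {n ℓ s : ℕ} (t : ℕ) (hs : s + ℓ ≤ n) : (A F n ℓ s)ᵀ * A F n ℓ t =
    Matrix.of fun k l : Fin ℓ => if k.val + s = l.val + t then (1 : F) else 0 := by
  ext k l
  simp only [A, Matrix.mul_apply, Matrix.of_apply, Matrix.transpose_apply]
  rw [Finset.sum_eq_single (⟨k.val + s, by have := k.2; omega⟩ : Fin n)]
  · simp
  · intro b _ hb; rw [if_neg (fun e => hb (Fin.ext e)), zero_mul]
  · simp

theorem AA {F : Type*} [Field F] {n ℓ s : ℕ} (hs : s + ℓ ≤ n) : (A F n ℓ s)ᵀ * A F n ℓ s = 1 := by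
  rw [mul_A s hs]; ext k l; simp [Matrix.one_apply, Fin.ext_iff]

theorem AA0 {F : Type*} [Field F] {n ℓ s t : ℕ} (hs : s + ℓ ≤ n) (h : s + ℓ ≤ t ∨ t + ℓ ≤ s) :
    (A F n ℓ s)ᵀ * A F n ℓ t = 0 := by
  rw [mul_A t hs]; ext k l; have := k.2; have := l.2; simp; omega

theorem rank_fac {F : Type*} [Field F] {n ℓ : ℕ} {X X' : Matrix (Fin n) (Fin ℓ) F} {Y Y' : Matrix (Fin ℓ) (Fin n) F}
    (h1 : Y' * X = 1) (h2 : Y * X' = 1) : (X * Y).rank = ℓ := by
  refine le_antisymm ((Matrix.rank_mul_le_left _ _).trans (by simpa using Matrix.rank_le_card_width X)) ?_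
  have : Y' * (X * Y) * X' = 1 := by rw [← Matrix.mul_assoc, h1, Matrix.one_mul, h2]
  calc ℓ = (Y' * (X * Y) * X').rank := by rw [this]; simp
    _ ≤ _ := (Matrix.rank_mul_le_left _ _).trans (Matrix.rank_mul_le_right _ _)

theorem inv_SL {F : Type*} [Field F] [CharP F 2] {n ℓ : ℕ} {E : Matrix (Fin n) (Fin n) F} (h : E * E = 0)
    (hr : E.rank = ℓ) (h1 : 1 ≤ ℓ) :
    ∃ a : Matrix.SpecialLinearGroup (Fin n) F, (a : Matrix (Fin n) (Fin n) F) = 1 + E ∧ orderOf a = 2 := by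
  have h2 : E + E = 0 := by ext i j; simp [CharTwo.add_self_eq_zero]
  have e : (1 + E) * (1 + E) = 1 := by
    rw [add_mul, mul_add, mul_add, h]; simp [add_assoc, h2]
  have hd : (1 + E).det = 1 := by
    have := congrArg Matrix.det e
    rw [Matrix.det_mul, Matrix.det_one, mul_self_eq_one_iff, CharTwo.neg_eq, or_self] at this
    exact this
  refine ⟨⟨1 + E, hd⟩, rfl, Invol.orderOf_two_iff.2 ⟨Subtype.ext e, fun h0 => ?_⟩⟩
  have : E = 0 := by simpa using congrArg Subtype.val h0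
  rw [this] at hr; simp at hr; omega

/-- Over a finite field of characteristic two and for n ≥ 3: for every ℓ with 1 ≤ ℓ and 2ℓ ≤ n, the matrix j_ℓ that is the identity plus the entries 1 in positions (n − ℓ + i, i) for i < ℓ (an identity block of size ℓ in the lower left corner) lies in SL_n(F), has order 2, and j_ℓ − 1 has rank ℓ. Together with the conjugacy criterion by rank, these matrices represent the conjugacy classes of involutions of SL_n(F). -/
theorem result {F : Type*} [Field F] [Fintype F] [CharP F 2] {n : ℕ} (hn : 3 ≤ n) (ℓ : ℕ) (h1 : 1 ≤ ℓ) (h2 : 2 * ℓ ≤ n) :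
    ∃ a : Matrix.SpecialLinearGroup (Fin n) F, (a : Matrix (Fin n) (Fin n) F) = 1 + Matrix.of (fun i j : Fin n => if j.val < ℓ ∧ i.val = j.val + (n - ℓ) then (1 : F) else 0) ∧ orderOf a = 2 ∧ ((a : Matrix (Fin n) (Fin n) F) - 1).rank = ℓ := by
  have e : Matrix.of (fun i j : Fin n => if j.val < ℓ ∧ i.val = j.val + (n - ℓ) then (1 : F) else 0) =
      A F n ℓ (n - ℓ) * (A F n ℓ 0)ᵀ := by
    rw [A_mul]; ext i j; have := i.2
    simp only [Matrix.of_apply]; refine if_congr ?_ rfl rfl; omega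
  rw [e]
  have hr : (A F n ℓ (n - ℓ) * (A F n ℓ 0)ᵀ).rank = ℓ := rank_fac (AA (by omega)) (AA (by omega))
  obtain ⟨a, ha, h2⟩ := inv_SL (E := A F n ℓ (n - ℓ) * (A F n ℓ 0)ᵀ) (by
    rw [Matrix.mul_assoc, ← Matrix.mul_assoc (A F n ℓ 0)ᵀ, AA0 (by omega) (by omega)]; simp) hr h1
  exact ⟨a, ha, h2, by rw [ha]; simpa using hr⟩

end Cfsg.Agent.S2163
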