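import Cfsg.Statements.S2164
import Cfsg.Agent.Classical.SUConj
import Cfsg.Agent.S2162

set_option autoImplicit false
open Cfsg

namespace Cfsg.Agent.S2164

open Cfsg.Agent.Classical Cfsg.Agent.Geom Cfsg.Agent.Geom.Formed Module Polynomial Matrix

/-- Conjugacy of involutions in the special unitary group SU_n(q), q even, n ≥ 3, realised over the field F with q² elements as the matrices of determinant 1 preserving the form Σ u_i v_i^q: for two elements of order 2 of SU_n(q) the following are equivalent — they are conjugate in SU_n(q); they are conjugate in SL_n(F); the matrices a − 1 and b − 1 have the same rank. -/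
theorem result {F : Type*} [Field F] [Fintype F] [CharP F 2] {n q : ℕ} (hF : Fintype.card F = q ^ 2) (hn : 3 ≤ n) (a b : ↥(Cfsg.SU n F q)) (ha : orderOf a = 2) (hb : orderOf b = 2) :
    (IsConj a b ↔ IsConj (a : Matrix.SpecialLinearGroup (Fin n) F) (b : Matrix.SpecialLinearGroup (Fin n) F)) ∧
    (IsConj a b ↔ (((a : Matrix.SpecialLinearGroup (Fin n) F) : Matrix (Fin n) (Fin n) F) - 1).rank = (((b : Matrix.SpecialLinearGroup (Fin n) F) : Matrix (Fin n) (Fin n) F) - 1).rank) := by
  have h1 : IsConj a b ↔ IsConj a.1 b.1 := by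
    refine ⟨(Subgroup.subtype _).map_isConj, fun h => isConj_SU_of_det hF
      (SpecialLinearGroup.coeMonoidHom.map_isConj h) fun c hc => ?_⟩
    have hq : Odd (q + 1) := by
      have := FiniteField.even_card_of_char_two (ringChar.eq F 2)
      rw [hF, ← Nat.even_iff, Nat.even_pow] at this
      exact this.1.add_one
    obtain ⟨k, hk⟩ := hq
    have h2 : orderOf (guEquiv hF n (suToGU n F q a)) = 2 := by
      rw [MulEquiv.orderOf_eq, orderOf_injective _ suToGU_injective, ha]
    obtain ⟨w, h3, h4⟩ := exists_cent_det_sq (frobq_ne_id hF) (hermFormed_nondeg hF n)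
      (guEquiv hF n (suToGU n F q a)) (fun h => by simp [h] at h2) (fun v hv => by
        obtain ⟨u, rfl⟩ := mem_mov.1 hv
        have h5 := LinearEquiv.congr_fun (congrArg Subtype.val (orderOf_eq_prime_iff.1 h2).1) u
        rw [sq, Subgroup.coe_mul, LinearEquiv.mul_apply] at h5
        rw [mem_fixS, map_sub, h5]
        funext i
        simp [CharTwo.sub_eq_add, add_comm])
      (frobq_mul_self hF (c := c ^ (k + 1)) (by rw [pow_right_comm, hc, one_pow]))
    exact ⟨w, h3, by rw [h4, ← pow_mul, show (k + 1) * 2 = q + 1 + 1 by omega, pow_succ, hc, one_mul]⟩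
  exact ⟨h1, h1.trans (S2162.result hn _ _ (by rwa [Subgroup.orderOf_coe])
    (by rwa [Subgroup.orderOf_coe]))⟩

end Cfsg.Agent.S2164
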