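import Cfsg.Statements.S2165
import Cfsg.Agent.S2163

set_option autoImplicit false
open Cfsg

namespace Cfsg.Agent.S2165

open Matrix S2163

/-- In SU_n(q), q even, n ≥ 3 (matrices of determinant 1 over the field with q² elements preserving Σ u_i v_i^q): for every ℓ with 1 ≤ ℓ and 2ℓ ≤ n, the permutation matrix of the involution of {0, …, n−1} exchanging i and n − ℓ + i for each i < ℓ lies in SU_n(q), has order 2, and differs from the identity by a matrix of rank ℓ. So every rank between 1 and n/2 occurs for involutions of SU_n(q). -/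
theorem result {F : Type*} [Field F] [Fintype F] [CharP F 2] {n q : ℕ} (hF : Fintype.card F = q ^ 2) (hn : 3 ≤ n) (ℓ : ℕ) (h1 : 1 ≤ ℓ) (h2 : 2 * ℓ ≤ n) :
    ∃ a : ↥(Cfsg.SU n F q), (((a : Matrix.SpecialLinearGroup (Fin n) F) : Matrix (Fin n) (Fin n) F) = Matrix.of (fun i j : Fin n => if (j.val < ℓ ∧ i.val = j.val + (n - ℓ)) ∨ (i.val < ℓ ∧ j.val = i.val + (n - ℓ)) ∨ (i = j ∧ ℓ ≤ i.val ∧ i.val < n - ℓ) then (1 : F) else 0)) ∧ orderOf a = 2 ∧ ((((a : Matrix.SpecialLinearGroup (Fin n) F) : Matrix (Fin n) (Fin n) F)) - 1).rank = ℓ := by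
  set P : Matrix (Fin n) (Fin n) F := Matrix.of (fun i j : Fin n => if (j.val < ℓ ∧ i.val = j.val + (n - ℓ)) ∨
    (i.val < ℓ ∧ j.val = i.val + (n - ℓ)) ∨ (i = j ∧ ℓ ≤ i.val ∧ i.val < n - ℓ) then (1 : F) else 0) with hP
  set U := A F n ℓ 0 + A F n ℓ (n - ℓ) with hU
  have e : P = 1 + U * Uᵀ := by
    rw [hU, transpose_add, Matrix.add_mul, Matrix.mul_add, Matrix.mul_add, A_mul, A_mul, A_mul, A_mul, hP]
    ext i j; have := i.2; have := j.2
    simp only [Matrix.of_apply, Matrix.add_apply, Matrix.one_apply, Fin.ext_iff]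
    split_ifs <;> first | omega | simp [CharTwo.add_self_eq_zero]
  have h0 : (A F n ℓ 0)ᵀ * U = 1 := by rw [hU, Matrix.mul_add, AA (by omega), AA0 (by omega) (by omega), add_zero]
  have hr : (U * Uᵀ).rank = ℓ := rank_fac h0 (X' := A F n ℓ 0) (by
    have := congrArg transpose h0; simpa using this)
  have hUU : Uᵀ * U = 0 := by
    rw [show Uᵀ = (A F n ℓ 0)ᵀ + (A F n ℓ (n - ℓ))ᵀ by rw [hU, transpose_add], Matrix.add_mul, h0, hU,
      Matrix.mul_add, AA (by omega), AA0 (by omega) (by omega), zero_add]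
    ext i j; simp [CharTwo.add_self_eq_zero]
  obtain ⟨a, ha, h2'⟩ := inv_SL (E := U * Uᵀ) (by
    rw [Matrix.mul_assoc, ← Matrix.mul_assoc Uᵀ, hUU]; simp) hr h1
  let σ : Fin n → Fin n := fun i => if h : i.val < ℓ then ⟨i.val + (n - ℓ), by omega⟩ else
    if h' : n - ℓ ≤ i.val then ⟨i.val - (n - ℓ), by omega⟩ else i
  have hσ : ∀ i, (σ i).val = if i.val < ℓ then i.val + (n - ℓ) else if n - ℓ ≤ i.val then i.val - (n - ℓ) else i.val :=
    fun i => by simp only [σ]; split_ifs <;> rfl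
  have hi : Function.Involutive σ := fun i => Fin.ext (by
    have := i.2; rw [hσ, hσ]; split_ifs <;> omega)
  have hm : ∀ u : Fin n → F, P *ᵥ u = u ∘ σ := fun u => by
    ext i
    simp only [hP, Matrix.mulVec, dotProduct, Matrix.of_apply, Function.comp]
    rw [Finset.sum_eq_single (σ i)]
    · rw [if_pos, one_mul]
      have := i.2; rw [Fin.ext_iff, hσ]; split_ifs <;> omega
    · intro b _ hb
      rw [if_neg, zero_mul]
      rw [Ne, Fin.ext_iff, hσ] at hb
      have := i.2; have := b.2; rw [Fin.ext_iff]; split_ifs at hb <;> omega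
    · simp
  have hmem : a ∈ SU n F q := fun u v => by
    show hermForm n F q ((a : Matrix (Fin n) (Fin n) F) *ᵥ u) ((a : Matrix (Fin n) (Fin n) F) *ᵥ v) = _
    rw [ha, ← e, hm, hm]
    exact Equiv.sum_comp hi.toPerm (fun i => u i * v i ^ q)
  refine ⟨⟨a, hmem⟩, by rw [e]; exact ha, by rw [← h2']; exact (Subgroup.orderOf_coe _).symm, ?_⟩
  show ((a : Matrix (Fin n) (Fin n) F) - 1).rank = ℓ
  rw [ha]; simpa using hr

end Cfsg.Agent.S2165
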