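import Cfsg.Statements.S2167
import Cfsg.Agent.Classical.Inv2c
import Cfsg.Agent.Classical.SpBasic

set_option autoImplicit false
open Cfsg

namespace Cfsg.Agent.S2167

open Cfsg.Agent.Classical Matrix

/-- For an involution t of the symplectic group Sp_{2m}(F), m ≥ 2, F a finite field of characteristic two (matrices A with A J Aᵀ = J acting on column vectors, alternating form f(u, v) = u ⬝ (J v)): the set V(t) of vectors v with f(v, t v) = 0 has either q^{2m} or q^{2m−1} elements, q the order of F (it is a subspace of codimension at most 1), and if it is the whole space then t − 1 has even rank. -/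
theorem result {F : Type*} [Field F] [Fintype F] [CharP F 2] {m : ℕ} (hm : 2 ≤ m) (a : ↥(Matrix.symplecticGroup (Fin m) F)) (ha : orderOf a = 2) :
    (Nat.card {v : Fin m ⊕ Fin m → F // Cfsg.sympForm m F v (Matrix.mulVec ((a : ↥(Matrix.symplecticGroup (Fin m) F)) : Matrix (Fin m ⊕ Fin m) (Fin m ⊕ Fin m) F) v) = 0} = Fintype.card F ^ (2 * m) ∨ Nat.card {v : Fin m ⊕ Fin m → F // Cfsg.sympForm m F v (Matrix.mulVec ((a : ↥(Matrix.symplecticGroup (Fin m) F)) : Matrix (Fin m ⊕ Fin m) (Fin m ⊕ Fin m) F) v) = 0} * Fintype.card F = Fintype.card F ^ (2 * m)) ∧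
    ((∀ v : Fin m ⊕ Fin m → F, Cfsg.sympForm m F v (Matrix.mulVec ((a : ↥(Matrix.symplecticGroup (Fin m) F)) : Matrix (Fin m ⊕ Fin m) (Fin m ⊕ Fin m) F) v) = 0) → Even (((a : ↥(Matrix.symplecticGroup (Fin m) F)) : Matrix (Fin m ⊕ Fin m) (Fin m ⊕ Fin m) F) - 1).rank) := by
  have h2 : a ^ 2 = 1 := by rw [← ha, pow_orderOf_eq_one]
  refine ⟨?_, fun h => ((card_cent_sp rfl a h2 rfl).2.1 h).1⟩
  have haa : ∀ w, a.1 *ᵥ (a.1 *ᵥ w) = w := fun w => by
    have : a.1 * a.1 = 1 := by rw [pow_two] at h2; exact congrArg Subtype.val h2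
    rw [mulVec_mulVec, this, one_mulVec]
  let φ : (Fin m ⊕ Fin m → F) →+ F := AddMonoidHom.mk' (fun v => sympForm m F v (a.1 *ᵥ v)) fun v w => by
    have e : sympForm m F v (a.1 *ᵥ w) + sympForm m F w (a.1 *ᵥ v) = 0 := by
      rw [← mem_sp_iff.1 a.2 v, haa, sympForm_swap w]; simp
    simp only [mulVec_add, sympForm_add_left, sympForm_add_right]
    linear_combination e
  have hc : Nat.card φ.ker * Nat.card φ.range = Fintype.card F ^ (2 * m) := by
    rw [← AddSubgroup.index_ker, AddSubgroup.card_mul_index]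
    simp [two_mul]
  have hk : Nat.card {v : Fin m ⊕ Fin m → F // sympForm m F v (a.1 *ᵥ v) = 0} = Nat.card φ.ker := rfl
  rw [hk]
  by_cases h : ∃ v, φ v ≠ 0
  · obtain ⟨v, hv⟩ := h
    have : φ.range = ⊤ := eq_top_iff.2 fun c _ => by
      obtain ⟨d, hd⟩ := (bijective_frobenius F 2).2 (c / φ v)
      refine ⟨d • v, ?_⟩
      show sympForm m F (d • v) (a.1 *ᵥ (d • v)) = c
      rw [mulVec_smul, sympForm_smul_left, sympForm_smul_right]
      show d * (d * φ v) = c
      rw [← mul_assoc, ← pow_two, ← frobenius_def, hd, div_mul_cancel₀ _ hv]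
    right; rw [← hc, this]; simp
  · push Not at h
    have : φ.range = ⊥ := eq_bot_iff.2 fun c ⟨v, hv⟩ => by rw [← hv]; exact h v
    left; rw [← hc, this]; simp

end Cfsg.Agent.S2167
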