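import Cfsg.Statements.S2172
import Cfsg.Agent.Classical.SUConj

set_option autoImplicit false
open Cfsg

namespace Cfsg.Agent.S2172

open Cfsg.Agent.Classical Cfsg.Agent.Geom Cfsg.Agent.Geom.Formed Module Polynomial Matrix

/-- Splitting of involution classes from O to Ω for the hyperbolic quadratic form Q = Σ x_i y_i in dimension 2m over a finite field F of characteristic two, m ≥ 4. Let t, s be involutions of the commutator subgroup Ω that are conjugate in the full isometry group O. If it is not the case that t − 1 has rank m and Q(v + t v) = 0 for every vector v, then t and s are conjugate by an element of Ω. If t − 1 has rank m and Q(v + t v) = 0 for all v, then t and s are conjugate by an element of Ω exactly when the intersection of the images of t − 1 and s − 1 has even dimension (so the class of t in O meets at most two classes of Ω). -/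
theorem result {F : Type*} [Field F] [Fintype F] [CharP F 2] {m : ℕ} (hm : 4 ≤ m) (t s : ↥(Cfsg.isometryGroup F (Cfsg.quadFormPlus m F))) (ht : orderOf t = 2) (hs : orderOf s = 2) (htO : t ∈ Cfsg.Omega F (Cfsg.quadFormPlus m F)) (hsO : s ∈ Cfsg.Omega F (Cfsg.quadFormPlus m F)) (hconj : IsConj t s) :
    (¬ (((((t : ↥(Cfsg.isometryGroup F (Cfsg.quadFormPlus m F))) : GL (Fin m ⊕ Fin m) F) : Matrix (Fin m ⊕ Fin m) (Fin m ⊕ Fin m) F) - 1).rank = m ∧ ∀ v : Fin m ⊕ Fin m → F, Cfsg.quadFormPlus m F (v + Matrix.mulVec (((t : ↥(Cfsg.isometryGroup F (Cfsg.quadFormPlus m F))) : GL (Fin m ⊕ Fin m) F) : Matrix (Fin m ⊕ Fin m) (Fin m ⊕ Fin m) F) v) = 0) →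
      ∃ g ∈ Cfsg.Omega F (Cfsg.quadFormPlus m F), g * t * g⁻¹ = s) ∧
    ((((((t : ↥(Cfsg.isometryGroup F (Cfsg.quadFormPlus m F))) : GL (Fin m ⊕ Fin m) F) : Matrix (Fin m ⊕ Fin m) (Fin m ⊕ Fin m) F) - 1).rank = m ∧ ∀ v : Fin m ⊕ Fin m → F, Cfsg.quadFormPlus m F (v + Matrix.mulVec (((t : ↥(Cfsg.isometryGroup F (Cfsg.quadFormPlus m F))) : GL (Fin m ⊕ Fin m) F) : Matrix (Fin m ⊕ Fin m) (Fin m ⊕ Fin m) F) v) = 0) →
      ((∃ g ∈ Cfsg.Omega F (Cfsg.quadFormPlus m F), g * t * g⁻¹ = s) ↔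
        Even (Module.finrank F ↥(LinearMap.range (Matrix.toLin' ((((t : ↥(Cfsg.isometryGroup F (Cfsg.quadFormPlus m F))) : GL (Fin m ⊕ Fin m) F) : Matrix (Fin m ⊕ Fin m) (Fin m ⊕ Fin m) F) - 1)) ⊓ LinearMap.range (Matrix.toLin' ((((s : ↥(Cfsg.isometryGroup F (Cfsg.quadFormPlus m F))) : GL (Fin m ⊕ Fin m) F) : Matrix (Fin m ⊕ Fin m) (Fin m ⊕ Fin m) F) - 1)))))) := by
  revert t s
  rw [← coe_quadPlus]
  intro t s ht hs htO hsO hconj
  have hn := quadPlus_nondeg F m
  have h0 : ∀ u v : Fin m ⊕ Fin m → F, u - v = u + v := fun u v => funext fun i => CharTwo.sub_eq_add _ _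
  rw [exists_Omega_conj_iff hn (notExc_plus F m (.inr (by omega))) (finrank_plus F m) ht hs htO hsO
    hconj, ← mov_isometryEquiv, ← mov_isometryEquiv]
  have h1 : ((t.1.1 - 1).rank = m ∧ ∀ v, quadPlus F m (v + t.1.1 *ᵥ v) = 0) ↔
      MaxTS (quadPlus F m) m (mov (isometryEquiv _ t).1) := by
    rw [MaxTS, finrank_mov_eq_rank (isometryEquiv_apply _ t)]
    refine and_congr_right fun _ => ⟨fun h u hu => ?_, fun h v => ?_⟩
    · obtain ⟨v, rfl⟩ := mem_mov.1 hu
      rw [h0]; exact h v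
    · rw [← h0]; exact h _ (sub_mem_mov _ v)
  rw [h1]
  refine ⟨fun h h' => absurd h' h, fun h => ?_⟩
  have h2 : Even m := by
    rw [← h.1, finrank_mov_eq_rank (isometryEquiv_apply _ t)]
    exact (mem_Omega_iff_even hn (notExc_plus F m (.inr (by omega))) t).1 htO
  rw [Nat.even_sub h.finrank_inf_le]
  simp [h, h2]

end Cfsg.Agent.S2172
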