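import Cfsg.Statements.S2177
import Cfsg.Agent.Chev.Invol2
import Cfsg.Agent.Chev.CoxG2

set_option autoImplicit false
open Cfsg

namespace Cfsg.Agent.S2177

open Cfsg.Agent.Chev Cfsg.Lie

/-- Conjugacy classes of involutions in the Chevalley group of type G₂ over a finite field F of characteristic two with at least four elements (the matrix group generated by the root elements x_r(t)). In this problem's root numbering for type G₂ (the Chevalley data module; p₁ = a short, p₂ = b long; roots indexed by coefficient vectors in increasing order) let 11 be the highest root 3a + 2b (long) and 9 the short root 2a + b; consider x_{3a+2b}(1) and x_{2a+b}(1). Then: each invertible matrix equal to one of these two products lies in the group and has order 2; every element of order 2 of the group is conjugate in the group to one of them; and no two of them are conjugate in the group (so, the two matrices being distinct, the group has exactly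 two conjugacy classes of involutions). -/
theorem result {F : Type*} [Field F] [Fintype F] [CharP F 2] (hF : 4 ≤ Fintype.card F) :
    (∀ y : GL Cfsg.Lie.chevG2.Idx F, ((y : GL Cfsg.Lie.chevG2.Idx F) : Matrix Cfsg.Lie.chevG2.Idx Cfsg.Lie.chevG2.Idx F) ∈ [Cfsg.Lie.chevG2.x F 11 1, Cfsg.Lie.chevG2.x F 9 1] → y ∈ Cfsg.Lie.chevG2.group F ∧ orderOf y = 2) ∧
    (∀ g ∈ Cfsg.Lie.chevG2.group F, orderOf g = 2 → ∃ y ∈ Cfsg.Lie.chevG2.group F, ((y : GL Cfsg.Lie.chevG2.Idx F) : Matrix Cfsg.Lie.chevG2.Idx Cfsg.Lie.chevG2.Idx F) ∈ [Cfsg.Lie.chevG2.x F 11 1, Cfsg.Lie.chevG2.x F 9 1] ∧ ∃ h ∈ Cfsg.Lie.chevG2.group F, h * g * h⁻¹ = y) ∧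
    (∀ y₁ ∈ Cfsg.Lie.chevG2.group F, ∀ y₂ ∈ Cfsg.Lie.chevG2.group F, ((y₁ : GL Cfsg.Lie.chevG2.Idx F) : Matrix Cfsg.Lie.chevG2.Idx Cfsg.Lie.chevG2.Idx F) ∈ [Cfsg.Lie.chevG2.x F 11 1, Cfsg.Lie.chevG2.x F 9 1] → ((y₂ : GL Cfsg.Lie.chevG2.Idx F) : Matrix Cfsg.Lie.chevG2.Idx Cfsg.Lie.chevG2.Idx F) ∈ [Cfsg.Lie.chevG2.x F 11 1, Cfsg.Lie.chevG2.x F 9 1] →
      (∃ h ∈ Cfsg.Lie.chevG2.group F, h * y₁ * h⁻¹ = y₂) → ((y₁ : GL Cfsg.Lie.chevG2.Idx F) : Matrix Cfsg.Lie.chevG2.Idx Cfsg.Lie.chevG2.Idx F) = ((y₂ : GL Cfsg.Lie.chevG2.Idx F) : Matrix Cfsg.Lie.chevG2.Idx Cfsg.Lie.chevG2.Idx F)) := by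
  have c := Sys.adCover chevG2 F
  have m := adS_mult chevG2 F
  have h : ∀ {l : List (List ℕ)} {l'}, (∀ w ∈ l, (∀ i ∈ w, i < chevG2.rank) ∧ ∀ r : Rt chevG2, (r : ℕ) ∈ nwd chevG2 w → InJ l' r) → ∀ w ∈ l,
      (∀ i ∈ w, i < chevG2.rank) ∧ (adS chevG2 F).w1 (nwd chevG2 w) ∈ (adS chevG2 F).GJ l' ⊓ ⊤ := fun h w hw =>
    ⟨(h w hw).1, Sys.w1_mem_GJ (h w hw).2, trivial⟩
  have h0 := c.cls_one m Sys.stable_top c.top_top 3 (J := {j | (j : ℕ) ∈ [0]}) (μ := ⟨7, by decide⟩) (J' := ∅)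
    (by decide +kernel) (RingHom.id F) (by simp) (fun r hr => c.span_of_clo isReflG2 (γ := [[0]])
      (h (by decide +kernel)) 1 [_] (List.forall_mem_singleton.mpr (c.span_self _ _)) (by revert r; decide +kernel))
    (Sys.cls_empty _ rfl)
  have h1 := h (l := [[0], [1]]) (l' := {j | (j : ℕ) ∈ [0, 1]}) (by decide +kernel)
  have h2 := c.span_poly (c.span_of_clo isReflG2 h1 3 [⟨11, by decide⟩] (List.forall_mem_singleton.mpr (c.span_self _ _))
    (r := ⟨6, by decide⟩) (by decide +kernel)) ((adS chevG2 F).xN 7) (fun t => ⟨Sys.xN_mem_GJ (by decide +kernel) t, trivial⟩)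
    [(0, 6), (1, 8), (2, 9), (3, 10)] (by decide) (by simp; omega)
    (fun t => (c.act_xN (L := [(1, 8), (2, 9), (3, 10)]) (by decide +kernel) t).trans (by simp)) ⟨8, by decide⟩ (by decide)
  have h3 := c.cls_one m Sys.stable_top c.top_top 3 (J := {j | (j : ℕ) ∈ [0, 1]}) (μ := ⟨11, by decide⟩)
    (by decide +kernel) (RingHom.id F) (by simp) (fun r _ => c.span_of_clo isReflG2 h1 5 [_, _]
      (List.forall_mem_cons.mpr ⟨c.span_self _ _, List.forall_mem_singleton.mpr h2⟩) (by revert r; decide +kernel)) h0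
  rw [inf_top_eq, Sys.GJ, Set.eq_univ_of_forall (s := {r | InJ _ r}) (by decide +kernel)] at h3
  exact (h3.reduce (Red.conj_univ isReflG2 (R' := [[], [11], [9]]) (C := [([], []), ([11], []), ([11, 7], [7, 10, 1, 0])])
    (by decide +kernel))).list (certG2_ok.sep (fun _ => rfl) c (R := [([11], [11]), ([9], [9, 10, 11])])
      (by decide +kernel)) (by simp)

end Cfsg.Agent.S2177
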