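import Cfsg.Statements.S2179
import Cfsg.Agent.Chev.Cent

set_option autoImplicit false
open Cfsg

namespace Cfsg.Agent.S2179

open Cfsg.Agent.Chev Cfsg.Lie

/-- Centralizers of the two remaining classes of involutions in the Chevalley group G of type F₄ over a finite field F of characteristic two (this problem's root numbering for type F₄, from the Chevalley data module: p₁, p₂ short, p₃, p₄ long with indices 33, 27, 25, 24 and negatives 14, 20, 22, 23; U generated by the positive root subgroups). For an element of G with matrix x_47(1)x_44(1) (highest root times highest short root): its centralizer in G is generated by U, X_{−p₂} and X_{−p₃}. For an element of G with matrix x_39(1)x_45(1) (roots (1,2,2,1) and (2,4,2,1), an orthogonal short/long pair): its centralizer in G is generated by X_{p₁}, X_{−p₁}, X_{p₄}, X_{−p₄} and the root subgroups of all positive roots other than p₂ (27), p₃ (25), p₁ + p₂ (34) and p₃ + p₄ (26). -/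
theorem result {F : Type*} [Field F] [Fintype F] [CharP F 2] (w v : GL Cfsg.Lie.chevF4.Idx F) (hw : (w : Matrix Cfsg.Lie.chevF4.Idx Cfsg.Lie.chevF4.Idx F) = Cfsg.Lie.chevF4.x F 47 1 * Cfsg.Lie.chevF4.x F 44 1) (hv : (v : Matrix Cfsg.Lie.chevF4.Idx Cfsg.Lie.chevF4.Idx F) = Cfsg.Lie.chevF4.x F 39 1 * Cfsg.Lie.chevF4.x F 45 1) :
    Cfsg.Lie.chevF4.group F ⊓ Subgroup.centralizer {w} = Cfsg.Lie.chevF4.posUnipotent F ⊔ Cfsg.Lie.chevF4.rootSubgroup F 20 ⊔ Cfsg.Lie.chevF4.rootSubgroup F 22 ∧
    Cfsg.Lie.chevF4.group F ⊓ Subgroup.centralizer {v} = Cfsg.Lie.chevF4.rootSubgroup F 33 ⊔ Cfsg.Lie.chevF4.rootSubgroup F 14 ⊔ Cfsg.Lie.chevF4.rootSubgroup F 24 ⊔ Cfsg.Lie.chevF4.rootSubgroup F 23 ⊔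
      Subgroup.closure {g : GL Cfsg.Lie.chevF4.Idx F | ∃ (r : ℕ) (c : F), Cfsg.Lie.chevF4.IsPosRoot r ∧ r ∉ [27, 25, 34, 26] ∧ (g : Matrix Cfsg.Lie.chevF4.Idx Cfsg.Lie.chevF4.Idx F) = Cfsg.Lie.chevF4.x F r c} := by
  have hp := CharP.cast_eq_zero F 2
  have c := Sys.adCover chevF4 F
  have m := adS_mult chevF4 F
  have e1 : w = gword (adS chevF4 F).x [(47, 1), (44, 1)] := coe_eq_gword.mp (by simpa [ChevalleyDatum.wordMat])
  have e2 : v = gword (adS chevF4 F).x [(39, 1), (45, 1)] := coe_eq_gword.mp (by simpa [ChevalleyDatum.wordMat])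
  have e3 := closure_x (D := chevF4) (F := F) (T := {g | ∃ (r : ℕ) (c : F), chevF4.IsPosRoot r ∧ r ∉ [27, 25, 34, 26] ∧
    (g : Matrix _ _ F) = chevF4.x F r c}) (p := fun r => chevF4.IsPosRoot r ∧ r ∉ [27, 25, 34, 26])
    (S := {r | (r : ℕ) ∈ [24, 28, 29, 30, 31, 32, 33, 35, 36, 37, 38, 39, 40, 41, 42, 43, 44, 45, 46, 47]})
    (fun _ => by simp only [and_assoc, Set.mem_ofPred_eq]) (fun r => by rw [isPosRoot_iff]; revert r; decide +kernel)
  have e4 : (adS chevF4 F).UP = (adS chevF4 F).U {r | (r : ℕ) ∈ List.range' 24 24} :=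
    congrArg (adS chevF4 F).U (Set.ext (by decide +kernel))
  simp only [e1, e2, e3, posUnipotent_eq, e4, group_eq, rootSubgroup_eq', Sys.U_list_append]
  clear e1 e2 e3 e4 hw hv
  have s := fun a r L h => Sys.xN_swap (X := adS chevF4 F) (a := a) (r := r) (L := L) hp h
  constructor
  · refine c.cent_eq m (J := {j | (j : ℕ) ∈ [1, 2]}) [] (by simp) (Sys.le_cent hp (M := [47, 44]) rfl (by decide +kernel))
      (fun j hj t => ⟨Sys.x_mem_U _ (by revert j; decide +kernel) t, Sys.x_mem_U _ (by revert j; decide +kernel) t⟩)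
      (fun r a b d t => Sys.x_mem_U _ (by revert r; decide +kernel) t) (fun z w hw e => ?_) fun a t e => ?_
    · exact mem_WJ_of_pair 1 1 (c.fix_pair hp ⟨47, by decide⟩ ⟨44, by decide⟩ 6 [44, 47] [44] [47]
        (by decide +kernel) hw one_ne_zero one_ne_zero e) (by decide +kernel)
    · simp only [List.map, Sys.gword_cons', gword_nil, mul_assoc, one_mul, m.tor_conj' a ⟨47, by decide⟩, m.tor_conj' a ⟨44, by decide⟩,
        mul_inv_cancel] at e
      have := c.gword_inj' (L := [47, 44]) (by decide +kernel) (w := [(47, _), (44, _)]) (w' := [(47, _), (44, _)])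
        rfl rfl e
      rw [chi_eq_zip a _ [0, 0, 0, 1] (by decide +kernel), chi_eq_zip a _ [1, 0, 0, 0] (by decide +kernel)] at this
      simp at this
      exact ⟨eq_one_of_aN a [3, 0] (by decide +kernel) (by simpa [eq_comm] using this), by simp⟩
  · refine c.cent_eq m (J := {j | (j : ℕ) ∈ [0, 3]}) [27, 25, 34, 26] (by decide +kernel) (Sys.le_cent hp (M := [39, 45]) rfl (by decide +kernel))
      (fun j hj t => ⟨Sys.x_mem_U _ (by revert j; decide +kernel) t, Sys.x_mem_U _ (by revert j; decide +kernel) t⟩)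
      (fun r a b d t => Sys.x_mem_U _ (by revert r; decide +kernel) t) (fun z w hw e => ?_) fun a t e => ?_
    · exact mem_WJ_of_pair 3 4 (c.fix_pair hp ⟨39, by decide⟩ ⟨45, by decide⟩ 6
        [39, 40, 44, 45, 46, 47] [40, 44, 45, 46, 47] [39, 40, 44, 46, 47] (by decide +kernel) hw one_ne_zero one_ne_zero e) (by decide +kernel)
    · simp (disch := decide +kernel) only [List.map, Sys.gword_cons', gword_nil, mul_assoc, evT, one_mul, m.tor_conj' a ⟨39, by decide⟩,
        m.tor_conj' a ⟨45, by decide⟩, mul_inv_cancel, mul_right_inj,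
        s 27 39 [(40, 1, 1, 1)] (by decide +kernel), s 34 39 [(44, 1, 1, 1)] (by decide +kernel),
        s 25 45 [(46, 1, 1, 1)] (by decide +kernel), s 26 45 [(47, 1, 1, 1)] (by decide +kernel),
        Sys.xN_swap0 hp fun a r => a < r ∧ 38 < r] at e
      have := c.gword_inj' (L := [39, 40, 44, 45, 46, 47]) (by decide +kernel)
        (w := [(39, _), (40, _), (44, _), (45, _), (46, _), (47, _)])
        (w' := [(39, chi a ⟨39, by decide⟩ * 1), (40, 0), (44, 0), (45, chi a ⟨45, by decide⟩ * 1), (46, 0), (47, 0)]) rfl rfl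
        (e.trans (by simp [Sys.gword_cons', Sys.xN_zero]))
      rw [chi_eq_zip a _ [0, -1, 1, 0] (by decide +kernel), chi_eq_zip a _ [0, 2, -1, 0] (by decide +kernel)] at this
      simp at this
      obtain ⟨h1, h2, h3, h4, h5, h6⟩ := this
      have h0 := aN_ne_zero a 1
      have h8 := aN_ne_zero a 2
      have h7 : aN a 1 = 1 := by
        field_simp at h1 h4
        exact mul_left_cancel₀ h0 (by linear_combination h1.symm - h4)
      exact ⟨eq_one_of_aN a [1, 2] (by decide +kernel) (by simpa [h7] using h1.symm), by simp [*]⟩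

end Cfsg.Agent.S2179
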