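import Cfsg.Statements.S2180
import Cfsg.Agent.Chev.Cent

set_option autoImplicit false
open Cfsg

namespace Cfsg.Agent.S2180

open Cfsg.Agent.Chev Cfsg.Lie

/-- Centralizers of involutions in the Chevalley group G of type G₂ over a finite field F of characteristic two with at least four elements (this problem's root numbering for type G₂, from the Chevalley data module: a = p₁ short with index 7, b = p₂ long with index 6, −a = 4, −b = 5, 2a + b = 9, 3a + b = 10, 3a + 2b = 11; U generated by the positive root subgroups). For an element z of G with matrix x_{3a+2b}(1): the centralizer of z in G is generated by U and X_{−a}. For an element t of G with matrix x_{2a+b}(1): the centralizer of t in G is generated by X_{2a+b}, X_{3a+b}, X_{3a+2b}, X_b and X_{−b}. -/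
theorem result {F : Type*} [Field F] [Fintype F] [CharP F 2] (hF : 4 ≤ Fintype.card F) (z t : GL Cfsg.Lie.chevG2.Idx F) (hz : (z : Matrix Cfsg.Lie.chevG2.Idx Cfsg.Lie.chevG2.Idx F) = Cfsg.Lie.chevG2.x F 11 1) (ht : (t : Matrix Cfsg.Lie.chevG2.Idx Cfsg.Lie.chevG2.Idx F) = Cfsg.Lie.chevG2.x F 9 1) :
    Cfsg.Lie.chevG2.group F ⊓ Subgroup.centralizer {z} = Cfsg.Lie.chevG2.posUnipotent F ⊔ Cfsg.Lie.chevG2.rootSubgroup F 4 ∧
    Cfsg.Lie.chevG2.group F ⊓ Subgroup.centralizer {t} = Cfsg.Lie.chevG2.rootSubgroup F 9 ⊔ Cfsg.Lie.chevG2.rootSubgroup F 10 ⊔ Cfsg.Lie.chevG2.rootSubgroup F 11 ⊔ Cfsg.Lie.chevG2.rootSubgroup F 6 ⊔ Cfsg.Lie.chevG2.rootSubgroup F 5 := by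
  have hp := CharP.cast_eq_zero F 2
  have c := Sys.adCover chevG2 F
  simp only [(coe_eq_x ⟨11, by decide⟩).mp hz, coe_eq_xN.mp ht, group_eq, posUnipotent_eq,
    rootSubgroup_eq', Sys.U_list_append]
  refine ⟨c.cent_x (adS_mult _ F) hp (by decide +kernel), c.cent_eq (adS_mult _ F) (J := {j | (j : ℕ) ∈ [1]}) [7, 8]
    (by decide +kernel) (mul_one ((adS chevG2 F).xN 9 1) ▸ Sys.le_cent hp (w := [(9, 1)]) (M := [9]) rfl (by decide +kernel))
    (fun j hj t => ⟨Sys.x_mem_U _ (by revert j; decide +kernel) t, Sys.x_mem_U _ (by revert j; decide +kernel) t⟩)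
    (fun r a b d t => Sys.x_mem_U _ (by revert r; decide +kernel) t) (fun z w hw e => ?_) fun a t e => ?_⟩
  · have := (c.smul_eq_of_conj (μ := ⟨9, by decide⟩) (by decide +kernel) (by decide +kernel)
      (Sys.stab_up (L := [⟨9, by decide⟩]) (by decide +kernel)) subset_rfl hw
      (Sys.x_mem_U _ (mem_up List.mem_cons_self) 1) one_ne_zero (one_mem _) (e.trans (mul_one _).symm)).2
    exact mem_WJ_of_fn (by decide +kernel) (by decide +kernel) (AL_smul this)
  · have s := fun a r L h => Sys.xN_swap (X := adS chevG2 F) (a := a) (r := r) (L := L) hp h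
    have h9 := (adS_mult chevG2 F).tor_conj' a ⟨9, by decide⟩ 1 ((adS_mult chevG2 F).tor a)⁻¹
    simp only [List.map, Sys.gword_cons', gword_nil, mul_assoc, evT, one_mul, h9, mul_inv_cancel,
      s 7 9 [(10, 1, 1, 1)] (by decide +kernel), s 8 9 [(11, 1, 1, 1)] (by decide +kernel),
      s 8 10 [] (by decide +kernel), s 10 11 [] (by decide +kernel), mul_right_inj] at e
    have := c.gword_inj' (L := [9, 10, 11]) (by decide +kernel) (w := [(9, _), (10, _), (11, _)])
      (w' := [(9, chi a ⟨9, by decide⟩ * 1), (10, 0), (11, 0)]) rfl rfl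
      (e.trans (by simp [Sys.gword_cons', Sys.xN_zero]))
    rw [chi_eq_zip a _ [1, 0] (by decide +kernel)] at this
    simp at this
    exact ⟨eq_one_of_aN a [0] (by decide +kernel) (by simp [← this.1]), by simp [this]⟩

end Cfsg.Agent.S2180
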