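import Cfsg.Statements.S2181
import Cfsg.Agent.Chev.Invol
import Cfsg.Agent.Chev.CoxE7

set_option autoImplicit false
open Cfsg

namespace Cfsg.Agent.S2181

open Cfsg.Agent.Chev Cfsg.Lie

/-- The Chevalley group of type E₇ over a finite field of characteristic two (the matrix group generated by the root elements) has exactly five conjugacy classes of elements of order 2. -/
theorem result {F : Type*} [Field F] [Fintype F] [CharP F 2] :
    (ConjClasses.mk '' {g : ↥(Cfsg.Lie.chevE7.group F) | orderOf g = 2}).ncard = 5 := by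
  have c := Sys.adCover chevE7 F
  have h1 := certE7_ok.cls_univ (fun _ _ => rfl) (c.split_SL (adS_mult _ F) (by decide +kernel)) isReflE7
    (R := [[], [125], [121, 118], [119, 116, 114], [111, 107, 92], [119, 111, 107, 92]])
    (E := [([], []), ([125], []), ([125, 92], [0, 2, 3, 4]), ([125, 92, 63], [0, 2, 3, 4, 5, 4, 3, 1, 2, 3, 4, 5]), ([125, 92, 87, 63], [0, 2, 3, 4, 5, 4, 3, 1, 2, 3, 4, 5]), ([125, 92, 87, 66, 63], [44, 65, 68, 72, 0, 2, 3, 1, 2, 3, 5, 4, 3, 6, 5, 4]), ([125, 92, 87, 73, 66, 63], [24, 29, 39, 101, 44, 65, 68, 72, 0, 2, 3, 1, 2, 3, 5, 4, 3, 6, 5, 4]), ([125, 92, 87, 78, 73, 66, 63], [24, 29, 39, 101, 15, 33, 37, 103, 17, 31, 35, 105, 0, 2, 3, 2, 4, 3, 5, 4, 3, 6, 5, 4]), ([125, 92, 87, 78, 66, 63], [15, 33, 37, 103, 17, 31, 35, 105, 0, 2, 3, 2, 4, 3, 5, 4, 3, 6, 5, 4]), ([125, 92, 87, 73, 63], [24, 29, 39, 101, 0, 2, 3, 4, 5, 4, 3, 1, 2, 3, 4, 5]),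 ([125, 92, 87, 78, 73, 63], [24, 29, 39, 101, 17, 31, 35, 105, 0, 2, 3, 2, 4, 3, 5, 4, 3, 6, 5, 4]), ([125, 92, 87, 78, 63], [17, 31, 35, 105, 0, 2, 3, 2, 4, 3, 5, 4, 3, 6, 5, 4]), ([125, 92, 87], [0, 2, 3, 4, 5, 4, 6, 5]), ([125, 92, 87, 66], [0, 2, 3, 1, 2, 3, 5, 4, 3, 6, 5, 4]), ([125, 92, 87, 73, 66], [24, 29, 39, 101, 0, 2, 3, 1, 2, 3, 5, 4, 3, 6, 5, 4]), ([125, 92, 87, 78, 73, 66], [24, 29, 39, 101, 15, 33, 37, 103, 0, 2, 3, 2, 4, 3, 5, 4, 3, 6, 5, 4]), ([125, 92, 87, 78, 66], [15, 33, 37, 103, 0, 2, 3, 2, 4, 3, 5, 4, 3, 6, 5, 4]), ([125, 92, 87, 73], [24, 29, 39, 101, 0, 2, 3, 4, 5, 4, 6, 5]), ([125, 92, 87, 78, 73], [24, 29, 39, 101, 0, 2, 3, 2, 4, 3, 5, 4, 3, 6, 5, 4]), ([125, 92, 87, 78], [0, 2, 3, 2, 4, 3, 5, 4, 3, 6, 5, 4])])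
    (by decide +kernel)
  have h2 := certE7_ok.sep (fun _ => rfl) c (R := [([125], [125]), ([121, 118], [118, 121, 122, 123, 124, 125]), ([119, 116, 114], [114, 116, 117, 118, 119, 120, 121, 122, 123, 124, 125]), ([111, 107, 92], [92, 107, 108, 111, 113, 114, 116, 117, 118, 120, 121, 122, 123, 124, 125]), ([119, 111, 107, 92], [92, 107, 108, 111, 113, 114, 116, 117, 118, 119, 120, 121, 122, 123, 124, 125])]) (by decide +kernel)
  exact group_eq chevE7 F ▸ h1.ncard le_rfl (fun L _ => Sys.w1_mem_univ L) h2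

end Cfsg.Agent.S2181
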