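import Cfsg.Statements.S2182
import Cfsg.Agent.Chev.Invol2
import Cfsg.Agent.Chev.LangTw

set_option autoImplicit false
open Cfsg

namespace Cfsg.Agent.S2182

open Cfsg.Agent.Chev Cfsg.Lie

/-- The twisted group ²E₆(q), q even, realised inside the Chevalley group of type E₆ over the field K with q² elements, has exactly three conjugacy classes of elements of order 2. -/
theorem result {K : Type*} [Field K] [Fintype K] [CharP K 2] (q : ℕ) (hK : Fintype.card K = q ^ 2) :
    (ConjClasses.mk '' {g : ↥(Cfsg.Lie.twistedE6 K q) | orderOf g = 2}).ncard = 3 := by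
  have hK' := Nat.card_eq_fintype_card.trans hK
  obtain ⟨φ, hφ⟩ := exists_pow_hom_of (RingHom.id K) (q := q) (by simp [hK])
  have h2 : ∀ t, φ (φ t) = t := fun t => by rw [hφ, hφ, ← pow_mul, ← sq, ← hK, FiniteField.pow_card]
  have hq : 1 < q := (Nat.one_lt_pow_iff two_ne_zero).mp (hK ▸ Fintype.one_lt_card)
  have c := Sys.adCover chevE6 K
  have m := adS_mult chevE6 K
  have f := foldE6 hφ h2
  have a1 : ∀ r t, (αE6 φ).a r t = φ t := fun r t => (twE6_ok.a_eq Nat.cast_zero φ r t).trans (pow_one _)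
  have a2 : ∀ {L}, FixW chevE6 twE6.ι L → (adS chevE6 K).w1 L ∈ twistedE6 K q := fun h => fix_mapE6 hφ h2 ▸
    ⟨_, (αE6 φ).w1_mem (fun r => (a1 r 1).trans φ.map_one) symE6_ρ h, by rw [Sys.map_w1, (stCover _ K).map_eq]⟩
  have key := fun J J' μ γ L H h R => c.cls_tw m f a2 isReflE6 φ (fun μ b3 b4 t => by
    simpa only [a1, Sys.Cover.map_genW, twistedE6] using (genE6 hφ h2).x_mem (stCover _ K) (stS_U_univ _ _) b3 b4 t) J J' μ γ L H h (R := R)
  have a3 : ∀ {J M}, (∀ k : Rt chevE6, (k : ℕ) ∈ [42] → InJ J k) ∧ (∀ k : Rt chevE6, (k : ℕ) ∈ [37] → InJ J k) →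
      c.Span ((adS chevE6 K).GJ J ⊓ twistedE6 K q) M ⟨39, by decide⟩ → ∀ r ∈ [(⟨43, by decide⟩ : Rt chevE6)],
      c.Span ((adS chevE6 K).GJ J ⊓ twistedE6 K q) M r := fun b h => List.forall_mem_singleton.mpr (c.span_poly h
    (fun t => (adS chevE6 K).xN 42 t * (adS chevE6 K).xN 37 (t ^ q)) (fun t => ⟨mul_mem (Sys.xN_mem_GJ b.1 _)
      (Sys.xN_mem_GJ b.2 _), 
        mul_one ((adS chevE6 K).xN 37 _) ▸ ((Sys.adCover _ K).map_genW _).le (Subgroup.mem_map_of_mem _
          (Sys.mem_genW (W := e6Words K q) (.inr ⟨t, (e6p3, e6p5), by simp, rfl⟩)))⟩)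
    [(0, 39), (1, 43), (q, 40), (q + 1, 44)] (by simp; omega) (by simp [hK]; refine ⟨?_, ?_, ?_, ?_⟩ <;> nlinarith)
    (fun t => by
      rw [c.act_mul, c.act_xN (L := [(1, 40)]) (by decide +kernel)]
      simp [c.act_xN (a := 42) (s := 39) (L := [(1, 43)]) (by decide +kernel),
        c.act_xN (a := 42) (s := 40) (L := [(1, 44)]) (by decide +kernel), add_assoc, pow_succ, mul_smul]) _ (by simp))
  have h := key [0, 1, 2, 3, 4, 5] _ ⟨71, by decide⟩ [[1], [3], [2, 4], [0, 5]] _ (by decide +kernel)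
    (fun h => a3 (by decide +kernel) (h _ (by decide +kernel))) _
    (key [0, 2, 3, 4, 5] _ ⟨60, by decide⟩ [[3], [2, 4], [0, 5]] _ (by decide +kernel)
    (fun h => a3 (by decide +kernel) (h _ (by decide +kernel))) _
    (key [2, 3, 4] _ ⟨44, by decide⟩ [[3], [2, 4]] _ (by decide +kernel)
    (fun h => a3 (by decide +kernel) (h _ (by decide +kernel))) _
    (key [3] [] ⟨39, by decide⟩ [[3]] [] (by decide +kernel) (by simp) _ (Sys.cls_empty _ (by simp [nds])))))
  rw [Sys.GJ, Set.eq_univ_of_forall (s := {r | InJ _ r}) (by decide +kernel), inf_eq_right.mpr f.le] at h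
  exact (h.reduce (Red.conj (n := 0) (f := fun _ r => r) (ok := fun a => decide (FixW chevE6 twE6.ι [a])) (by simp)
    (fun a ha => by simpa [Sys.w1] using a2 (of_decide_eq_true ha)) (R' := [[], [71], [71, 60], [71, 60, 44]])
    (C := [([], []), ([71], []), ([71, 60], []), ([71, 60, 44], []), ([71, 60, 44, 39], [8, 20, 25, 47])])
    (by decide +kernel))).ncard f.le (fun L hL => a2 (by revert L; decide +kernel)) (Sys.sep_of_red isReflE6
      (R := [([71], [], [71]), ([71, 60], [1, 3, 4], [68, 66]), ([71, 60, 44], [0, 1, 3, 2, 0], [55, 65, 67])])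
      (by decide +kernel) (certE6_ok.sep (fun _ => rfl) c (R := [([71], [71]), ([68, 66], [66, 68, 69, 70, 71]),
        ([55, 65, 67], [55, 65, 66, 67, 68, 69, 70, 71])]) (by decide +kernel)))

end Cfsg.Agent.S2182
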