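import Cfsg.Statements.S2183
import Cfsg.Agent.Chev.Invol2
import Cfsg.Agent.Chev.LangTw

set_option autoImplicit false
open Cfsg

namespace Cfsg.Agent.S2183

open Cfsg.Agent.Chev Cfsg.Lie

/-- The twisted group ³D₄(q), q even, realised inside the Chevalley group of type D₄ over the field K with q³ elements, has exactly two conjugacy classes of elements of order 2. -/
theorem result {K : Type*} [Field K] [Fintype K] [CharP K 2] (q : ℕ) (hK : Fintype.card K = q ^ 3) :
    (ConjClasses.mk '' {g : ↥(Cfsg.Lie.twistedD4 K q) | orderOf g = 2}).ncard = 2 := by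
  have hK' := Nat.card_eq_fintype_card.trans hK
  obtain ⟨φ, hφ⟩ := exists_pow_hom_of (RingHom.id K) (q := q) (by simp [hK])
  have h2 : ∀ t, φ (φ (φ t)) = t := fun t => by
    rw [hφ, hφ, hφ, ← pow_mul, ← pow_mul, ← sq, ← pow_succ', ← hK, FiniteField.pow_card]
  have hq : 1 < q := (Nat.one_lt_pow_iff three_ne_zero).mp (hK ▸ Fintype.one_lt_card)
  have c := Sys.adCover chevD4 K
  have m := adS_mult chevD4 K
  have f := foldD4 hφ h2
  have a1 : ∀ r t, (αD4 φ).a r t = φ t := fun r t => (twD4_ok.a_eq Nat.cast_zero φ r t).trans (pow_one _)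
  have a2 : ∀ {L}, FixW chevD4 twD4.ι L → (adS chevD4 K).w1 L ∈ twistedD4 K q := fun h => fix_mapD4 hφ h2 ▸
    ⟨_, (αD4 φ).w1_mem (fun r => (a1 r 1).trans φ.map_one) symD4_ρ h, by rw [Sys.map_w1, (stCover _ K).map_eq]⟩
  have a3 : (adS chevD4 K).Cls ((adS chevD4 K).GJ (nds chevD4 [0, 2, 3]) ⊓ twistedD4 K q) [[], [18, 13, 12]] := by
    intro y hy e
    obtain ⟨z, hz, h3⟩ := c.exists_conjJ m f (by decide +kernel) hy e
    obtain ⟨u, ⟨h4, h5⟩, h6⟩ := ((genD4 hφ h2).fold.map_U (stCover chevD4 K) (stS_U_univ _ _) fun _ h => h.1).ge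
      ⟨h3, by rw [Sys.Cover.map_genW]; exact (mul_mem (mul_mem hz hy) (inv_mem hz)).2⟩
    obtain ⟨t, rfl⟩ := Sys.exists_gword (nilp_posJ _) (L := [18, 13, 12]) (by decide +kernel) h4
    obtain ⟨-, h7, h8⟩ := fixD4.2.mp ((genD4 hφ h2).le h5)
    rw [map_gword, show (fun r t => (stCover _ K).π ((stS chevD4 K).x r t)) = _ from
      congrArg Sys.x (stCover _ K).map_eq] at h6
    simp only [List.map, Sys.gword_cons', gword_nil, ← h8, ← h7] at h6
    by_cases h9 : t 18 = 0
    · exact ⟨[], by simp, z, hz, by simp [← h6, h9, Sys.xN_zero, Sys.w1]⟩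
    obtain ⟨s, hs⟩ := surjective_frobenius K 2 (t 18)⁻¹
    lift s to Kˣ using Ne.isUnit (by rintro rfl; exact h9 (inv_eq_zero.mp (hs.symm.trans (map_zero _))))
    let a : Sm chevD4 → Kˣ := ![s, 1, Units.map (φ : K →* K) s, Units.map (φ : K →* K) (Units.map (φ : K →* K) s)]
    refine ⟨[18, 13, 12], by simp, m.tor a * z, mul_mem ⟨m.tor_mem fun i => ?_, ((stCover chevD4 K).map_genW _).le
      ⟨_, tor_memD4 hφ (a := a) (mem_fixTD4.mpr (by simp [a, h2])), ?_⟩⟩ hz, ?_⟩
    · by_cases e : i = (1 : Fin 4)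
      · rw [e, show ((a (1 : Fin 4) : Kˣ) : K) = 1 from rfl, Sys.h_one]; exact one_mem _
      · have := (by decide +kernel : ∀ i : Sm chevD4, (i : ℕ) ≠ 1 → InJ (nds chevD4 [0, 2, 3]) (sm i) ∧
          InJ (nds chevD4 [0, 2, 3]) (ng (sm i))) i fun h => e (Fin.ext h)
        exact mul_mem (Sys.n_mem_U _ this.1 this.2 _) (Sys.n_mem_U _ this.1 this.2 _)
    · rw [Sys.Mult.map_tor]; congr 2; exact (stCover _ K).map_eq
    · rw [mul_assoc (m.tor a), mul_inv_rev, mul_assoc (m.tor a), ← mul_assoc (z * y), ← h6]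
      simp only [mul_assoc, m.tor_conj' a ⟨18, by decide⟩, m.tor_conj' a ⟨13, by decide⟩, m.tor_conj' a ⟨12, by decide⟩,
        chi_eq_zip a ⟨18, by decide⟩ [2, -1, 0, 0] (by decide +kernel), chi_eq_zip a ⟨13, by decide⟩ [0, -1, 2, 0] (by decide +kernel),
        chi_eq_zip a ⟨12, by decide⟩ [0, -1, 0, 2] (by decide +kernel)]
      have : (s : K) ^ 2 * t 18 = 1 := by rw [← frobenius_def, hs, inv_mul_cancel₀ h9]
      simp [show aN a 0 = s from rfl, show aN a 1 = 1 from rfl, show aN a 2 = φ s from rfl, show aN a 3 = φ (φ s) from rfl,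
        Sys.w1, zpow_ofNat, ← map_pow, ← map_mul, this]
  have h := c.cls_tw m f a2 isReflD4 φ (fun μ b3 b4 t => by
      simpa only [a1, Sys.Cover.map_genW, twistedD4] using (genD4 hφ h2).x_mem (stCover _ K) (stS_U_univ _ _) b3 b4 t)
    [0, 1, 2, 3] _ ⟨23, by decide⟩ [[1], [0, 2, 3]] [⟨15, by decide⟩, ⟨16, by decide⟩, ⟨19, by decide⟩] (by decide +kernel)
    (fun h r hr => c.span_poly (h ⟨14, by decide⟩ (by decide +kernel))
      (fun t => (adS chevD4 K).xN 18 t * ((adS chevD4 K).xN 13 (t ^ q) * (adS chevD4 K).xN 12 (t ^ q ^ 2)))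
      (fun t => ⟨mul_mem (Sys.xN_mem_GJ (by decide +kernel) _) (mul_mem (Sys.xN_mem_GJ (by decide +kernel) _)
        (Sys.xN_mem_GJ (by decide +kernel) _)),
        mul_one ((adS chevD4 K).xN 12 _) ▸ ((Sys.adCover _ K).map_genW _).le (Subgroup.mem_map_of_mem _
          (Sys.mem_genW (W := d4Words K q) (.inr ⟨t, (d4p1, d4p3, d4p4), by simp, rfl⟩)))⟩)
      [(0, 14), (1, 19), (q, 16), (q + 1, 21), (q ^ 2, 15), (q ^ 2 + 1, 20), (q ^ 2 + q, 17), (q ^ 2 + q + 1, 22)]
      (by have : q + 1 < q ^ 2 := by nlinarith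
          simp; omega)
      (by have : q ^ 2 + q + 1 < q ^ 3 := by nlinarith
          simp [hK]; omega)
      (fun t => by
        have b := fun a s k (h : ActIs chevD4 a s [(1, k)]) => c.act_xN h
        simp [c.act_mul, b 12 14 15 (by decide +kernel), b 13 14 16 (by decide +kernel), b 13 15 17 (by decide +kernel),
          b 18 14 19 (by decide +kernel), b 18 15 20 (by decide +kernel), b 18 16 21 (by decide +kernel),
          b 18 17 22 (by decide +kernel), add_assoc, pow_add, mul_smul]) r (by revert r; simp)) a3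
  rw [Sys.GJ, Set.eq_univ_of_forall (s := {r | InJ _ r}) (by decide +kernel), inf_eq_right.mpr f.le] at h
  exact h.ncard f.le (by
    simpa using ⟨a2 (L := [23]) (by decide +kernel), by
      rw [Sys.w1_cons]; exact mul_mem (by simpa [Sys.w1] using a2 (L := [23]) (by decide +kernel)) (a2 (by decide +kernel))⟩) (Sys.sep_of_red isReflD4
    (R := [([23], [], [23]), ([23, 18, 13, 12], [8, 11, 13, 19, 1, 3], [17, 20, 21])]) (by decide +kernel)
    (certD4_ok.sep (fun _ => rfl) c (R := [([23], [23]), ([17, 20, 21], [17, 20, 21, 22, 23])]) (by decide +kernel)))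

end Cfsg.Agent.S2183
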