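import Cfsg.Statements.S2184
import Cfsg.Agent.Chev.InvRee

set_option autoImplicit false
open Cfsg

namespace Cfsg.Agent.S2184

open Cfsg.Agent.Chev Cfsg.Lie


theorem key (F : Type*) [Field F] [CharP F 2] {Γ : Subgroup _} (h1 : (stS chevF4 F).Cls Γ [[], [47, 44], [39, 45]])
    (h2 : ∀ L ∈ [[47, 44], [39, 45]], (stS chevF4 F).w1 L ∈ Γ) :
    (ConjClasses.mk '' {g : Γ.map (stCover _ F).π | orderOf g = 2}).ncard = 2 := by
  have := sepF4 F (stCover _ F)
  rw [ncard_invol_congr (Γ.equivMapOfInjective _ (π_injective (zkerF4_eq_bot F)))]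
  exact h1.ncard (le_top.trans (stS_U_univ _ F).ge) h2
    ⟨fun L hL => this.1 L (List.mem_cons_of_mem _ (List.mem_cons_of_mem _ hL)), this.2.of_cons.of_cons⟩

/-- The twisted group ²F₄(q), q = 2^(2m+1) with m ≥ 0 (realised inside the Chevalley group of type F₄ over the field K with q elements, θ the 2^m-th power map), has exactly two conjugacy classes of elements of order 2; and so does the Tits group, the commutator subgroup of ²F₄(2). -/
theorem result {K : Type*} [Field K] [Fintype K] (m : ℕ) (hK : Fintype.card K = 2 ^ (2 * m + 1)) :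
    (ConjClasses.mk '' {g : ↥(Cfsg.Lie.twistedF4 K (2 ^ m)) | orderOf g = 2}).ncard = 2 ∧ (ConjClasses.mk '' {g : Cfsg.Lie.TitsGroup | orderOf g = 2}).ncard = 2 := by
  constructor
  · obtain ⟨hp, φ, h1, h2⟩ := exists_sqrt_hom (F := K) Nat.prime_two (Nat.card_eq_fintype_card.trans hK)
    have := (CharP.charP_iff_prime_eq_zero Nat.prime_two).mpr hp
    rw [← fix_mapF4 hp h1 h2]
    exact key K (clsRee hp h1 (by rw [Nat.card_eq_fintype_card, hK]; ring)) fun L hL =>
      Subgroup.commutator_le_self _ (w1_mem_commF4 hp L hL)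
  obtain ⟨hp, φ, h1, h2⟩ := exists_sqrt_hom (F := ZMod 2) (m := 0) Nat.prime_two (by simp)
  have := key _ (clsRee' hp h1 h2 (by simp)) (w1_mem_commF4 hp)
  rwa [Subgroup.map_commutator, fix_mapF4 hp h1 h2, ← Subgroup.map_subtype_commutator,
    ncard_invol_congr (Subgroup.equivMapOfInjective _ _ (Subgroup.subtype_injective _))] at this

end Cfsg.Agent.S2184
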