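import Cfsg.Statements.S2186
import Cfsg.Agent.Chev.Cent

set_option autoImplicit false
open Cfsg

namespace Cfsg.Agent.S2186

open Cfsg.Agent.Chev Cfsg.Lie

/-- Let G be the Chevalley group of type G₂ (over a field with at least four elements), D₄, E₆, E₇ or E₈ over a finite field F of characteristic two, and let X be the root subgroup of the highest root (the last root index) — a long root subgroup, of order |F|. For every g in G, the subgroup generated by X and its conjugate g X g⁻¹ is either a 2-group or is conjugate by an element of G to the subgroup generated by X and the root subgroup of the lowest root (index 0, the negative of the highest root), which is a copy of SL₂(F). -/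
theorem result {F : Type*} [Field F] [Fintype F] [CharP F 2] (D : Cfsg.Lie.ChevalleyDatum) (hD : D ∈ [Cfsg.Lie.chevG2, Cfsg.Lie.chevD4, Cfsg.Lie.chevE6, Cfsg.Lie.chevE7, Cfsg.Lie.chevE8]) (hF : D = Cfsg.Lie.chevG2 → 4 ≤ Fintype.card F) (g : GL D.Idx F) (hg : g ∈ D.group F) :
    IsPGroup 2 ↥(D.rootSubgroup F (D.nroots - 1) ⊔ (D.rootSubgroup F (D.nroots - 1)).map (MulAut.conj g).toMonoidHom) ∨
    ∃ h ∈ D.group F, (D.rootSubgroup F (D.nroots - 1) ⊔ (D.rootSubgroup F (D.nroots - 1)).map (MulAut.conj g).toMonoidHom).map (MulAut.conj h).toMonoidHom = D.rootSubgroup F (D.nroots - 1) ⊔ D.rootSubgroup F 0 := by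
  have key : ∀ {D : ChevalleyDatum} [Good D] [Conn D] (θ : Rt D), Pos θ ∧ (∀ k ∈ up [θ], k = θ) ∧ 0 = D.neg θ →
      ∀ g ∈ D.group F, IsPGroup 2 ↥(D.rootSubgroup F θ ⊔ (D.rootSubgroup F θ).map (MulAut.conj g).toMonoidHom) ∨
      ∃ h ∈ D.group F, (D.rootSubgroup F θ ⊔ (D.rootSubgroup F θ).map (MulAut.conj g).toMonoidHom).map
        (MulAut.conj h).toMonoidHom = D.rootSubgroup F θ ⊔ D.rootSubgroup F 0 := by
    intro D _ _ θ h g hg
    rw [group_eq] at hg ⊢
    rw [h.2.2, ← ng_val, rootSubgroup_eq, rootSubgroup_eq]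
    obtain ⟨w, b, hb, n, hn, hw, b', hb', rfl⟩ := Sys.exists_cell hg
    have h1 := (Sys.stab_up (X := adS D F) (L := [θ]) (by simpa using h.1)).normB
    rw [show up [θ] = {θ} from Set.eq_singleton_iff_unique_mem.mpr ⟨mem_up List.mem_cons_self, h.2.1⟩] at h1
    have h2 : ∀ b ∈ (adS D F).B, ((adS D F).U {θ}).map (MulAut.conj b).toMonoidHom = (adS D F).U {θ} :=
      fun b hb => Subgroup.mem_normalizer_iff_map_conj_eq.mp (h1 hb)
    have h3 : ((adS D F).U {θ}).map (MulAut.conj n).toMonoidHom = (adS D F).U {w • θ} := by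
      refine le_antisymm (by rintro _ ⟨y, hy, rfl⟩; exact hw.conj_mem_U (by simp) hy) fun y hy =>
        ⟨_, hw.inv.conj_mem_U (by simp) hy, by simp [mul_assoc]⟩
    have h4 : ((adS D F).U {θ} ⊔ ((adS D F).U {θ}).map (MulAut.conj (b * n * b')).toMonoidHom).map
        (MulAut.conj b⁻¹).toMonoidHom = (adS D F).U {θ} ⊔ (adS D F).U {w • θ} := by
      rw [Subgroup.map_sup, h2 _ (inv_mem hb), ← h3]
      conv_rhs => rw [← h2 b' hb']
      rw [Subgroup.map_map, Subgroup.map_map, h2 b' hb']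
      congr 2
      ext1 y; simp [mul_assoc]
    by_cases e : w • θ = ng θ
    · exact Or.inr ⟨_, inv_mem (Sys.B_le_grp _ hb), e ▸ h4⟩
    obtain ⟨φ, h5, h6⟩ : ∃ φ : Fn D, 0 < φ (rtv θ) ∧ 0 < φ (rtv (w • θ)) := by
      by_cases e' : w • θ = θ
      · exact ⟨htF D, nilp_Pos.pos θ h.1, e'.symm ▸ nilp_Pos.pos θ h.1⟩
      obtain ⟨φ, a1, a2⟩ := exists_fn e' e
      obtain ⟨ψ, a3, a4⟩ := exists_fn (Ne.symm e') fun h => e (eq_ng_iff.mp h)
      exact ⟨φ + ψ, by simpa [a1], by simpa [a3]⟩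
    refine Or.inl (IsPGroup.of_equiv ?_ (Subgroup.equivMapOfInjective _ (MulAut.conj b⁻¹).toMonoidHom (MulAut.conj b⁻¹).injective).symm)
    exact h4 ▸ (Sys.isPGroup_U (Sys.adCover D F) (nilp_pos φ)).to_le
      (sup_le (Sys.U_mono _ (by simpa)) (Sys.U_mono _ (by simpa)))
  simp only [List.mem_cons, List.not_mem_nil, or_false] at hD
  rcases hD with rfl | rfl | rfl | rfl | rfl <;>
    exact key ⟨_ - 1, by decide⟩ (by decide +kernel) g hg

end Cfsg.Agent.S2186
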