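import Cfsg.Statements.S2190
import Cfsg.Agent.SubF.Arith

set_option autoImplicit false
open Cfsg

namespace Cfsg.Agent.S2190

open Cfsg.Agent.Chev Cfsg.Lie

/-- Subfield subgroups of prime degree are maximal. Let K be a finite field with q^r elements, r a prime, q a power of the characteristic, and G the Chevalley group of type G₂, B₂, D₄, F₄, E₆, E₇ or E₈ over K (the matrix group generated by the root elements). Let M be the subgroup of G consisting of the matrices all of whose entries lie in the subfield with q elements (entries c with c^q = c). Then M is a proper subgroup of G and is maximal: every subgroup of G containing M is M or G. -/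
theorem result {K : Type*} [Field K] [Fintype K] (p : ℕ) [Fact p.Prime] [CharP K p] (D : Cfsg.Lie.ChevalleyDatum) (hD : D ∈ [Cfsg.Lie.chevG2, Cfsg.Lie.chevB2, Cfsg.Lie.chevD4, Cfsg.Lie.chevF4, Cfsg.Lie.chevE6, Cfsg.Lie.chevE7, Cfsg.Lie.chevE8]) (a r : ℕ) (ha : 1 ≤ a) (hr : r.Prime) (hK : Fintype.card K = (p ^ a) ^ r) (M : Subgroup (GL D.Idx K))
    (hM : ∀ g : GL D.Idx K, g ∈ M ↔ g ∈ D.group K ∧ ∀ i j : D.Idx, ((g : Matrix D.Idx D.Idx K) i j) ^ (p ^ a) = (g : Matrix D.Idx D.Idx K) i j) :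
    M ≠ D.group K ∧ ∀ H : Subgroup (GL D.Idx K), M ≤ H → H ≤ D.group K → H = M ∨ H = D.group K := by
  obtain ⟨_⟩ := good_of_mem hD
  have hp := (Fact.out : p.Prime)
  have h1 : 1 < p ^ a := Nat.one_lt_pow (by omega) hp.one_lt
  rw [← Nat.card_eq_fintype_card] at hK
  have c1 := (card_pow_eq_self h1 hK).2
  have c2 : ∀ t : K, t ^ p ^ (a * r) = t := fun t => by
    rw [pow_mul, ← hK, Nat.card_eq_fintype_card, FiniteField.pow_card]
  have c3 : Nat.card {t : K // t ^ p ^ (a * r) = t} = p ^ (a * r) :=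
    (Nat.card_congr (Equiv.subtypeUnivEquiv c2)).trans (hK.trans (pow_mul ..).symm)
  have hx : ∀ (g : GL D.Idx K) s t, (g : Matrix D.Idx D.Idx K) = D.x K s t → t ^ p ^ a = t → g ∈ M := fun g s t e ht => by
    rw [hM, group_eq, coe_eq_xN.1 e, Sys.xN]
    split_ifs with h
    · refine ⟨Sys.x_mem_U _ (Set.mem_univ _) _, SubF.mem_frob (φ := iterateFrobenius K p a).1 ?_⟩
      exact ((SubF.frob D _).σ_x _ _).trans (congrArg _ ht)
    · exact ⟨one_mem _, SubF.mem_frob (φ := iterateFrobenius K p a).1 (one_mem _)⟩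
  have key : ∀ H : Subgroup (GL D.Idx K), M ≤ H → H ≤ D.group K → ∃ m, m ∣ r ∧
      (∀ t, (∀ (g : GL D.Idx K) (s : ℕ), (g : Matrix D.Idx D.Idx K) = D.x K s t → g ∈ H) ↔ t ^ p ^ (a * m) = t) ∧
      ∀ g ∈ H, ∀ i j, (g : Matrix D.Idx D.Idx K) i j ^ p ^ (a * m) = (g : Matrix D.Idx D.Idx K) i j := fun H m1 m2 => by
    obtain ⟨n, h0, h1, h2, h3⟩ := SubF.main hD p m2 fun g s e => m1 (hx g s 1 e (one_pow _))
    obtain ⟨m, rfl⟩ := SubF.dvd_of_card p c1 h1 fun t ht => (h2 t).1 fun g s e => m1 (hx g s t e ht)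
    exact ⟨m, Nat.dvd_of_mul_dvd_mul_left ha (SubF.dvd_of_card p h1 c3 fun t _ => c2 t), h2, h3⟩
  refine ⟨fun e => ?_, fun H m1 m2 => ?_⟩
  · have : Nat.card {t : K // t ^ p ^ a = t} = Nat.card K := Nat.card_congr (Equiv.subtypeUnivEquiv fun t => by
      let r : Rt D := ⟨0, nroots_pos⟩
      have := SubF.mem_frob (φ := iterateFrobenius K p a).2 ((hM ((adS D K).x r t)).1
        (by rw [e, group_eq]; exact Sys.x_mem_U _ (Set.mem_univ _) _)).2
      by_cases h0 : t = 0
      · rw [h0, zero_pow (by omega)]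
      · exact ((Sys.adCover D K).x_eq h0 (this.symm.trans ((SubF.frob D _).σ_x _ _))).2.symm)
    rw [c1, hK] at this
    exact (Nat.pow_lt_pow_right h1 hr.one_lt).ne (by rwa [pow_one])
  obtain ⟨m, a1, a2, a3⟩ := key H m1 m2
  rcases (Nat.dvd_prime hr).1 a1 with rfl | rfl
  · exact .inl (le_antisymm (fun g hg => (hM g).2 ⟨m2 hg, by simpa using a3 g hg⟩) m1)
  · refine .inr (le_antisymm m2 ?_)
    rw [group_eq]
    exact Sys.U_le.2 fun s _ t => (a2 t).2 (c2 t) _ s (coe_eq_xN.2 (Sys.xN_val ..).symm)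

end Cfsg.Agent.S2190
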