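import Cfsg.Statements.S2197
import Cfsg.Agent.Known.Enum
import Cfsg.Agent.Known.TitsTab
import Cfsg.Agent.Known.TitsEq

set_option maxRecDepth 100000

namespace Cfsg.Agent.S2197

open Cfsg.Agent.Known Cfsg.Agent.Comp TitsT MulAction

/-- letters: the generators, a Sylow 3-subgroup, a Sylow 5-subgroup, `13 : 3`. -/
def us : List (List ℕ) := [[2, 4, 0, 4, 1, 1, 3, 2, 5, 3, 1, 2, 5, 4, 0, 5], [3, 2, 3, 0, 4, 1, 4, 5, 3, 1, 3, 1, 2, 5],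
  [5, 0, 3, 0, 0, 4, 1, 4], [0], [1], [2], [3], [4], [5], [3, 2, 4, 0, 3, 3, 5, 4, 5],
  [2, 0, 3, 1, 1, 3, 1, 4, 5, 3, 3, 0, 3, 1, 3]]
def vs : List (List ℕ) := [[4, 0, 4, 1, 4, 5, 2, 4, 0, 3, 0, 0], [2, 1, 3, 2, 3, 0, 3, 5, 3, 1, 4, 0], [], [0], [1], [2], [3],
  [4], [5]]
def c3 : List (List ℕ) := [[7,8,6,5,7,3,7,8,7,7,3],[4,7,7,8,5,6,3,7,3,7,4],[7,3,6,8,7,7,4,6,4,4,7],[3,7,8,7,8,5,4,6,4,7,5],[5,6,3,7,5,8,
  7,4,4,8,6,4],[3,3,6,4,4,6,5,6,8,7,8],[4,4,6,4,6,3,5,7,8,7,4,8],[6,3,7,3,6,5,7,3,3,5],[3,3,6,4,6,4,7,5,8],[8,3,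
  6,8,5,7,5,3,6,5],[7,8,6,3,6,5,3,7],[6,6,4,6,8,6,8,6,5,8],[3,6,5,6,3,6,6,8,7],[4,6,8,4,7,7,3,3,6],[6,4,7,3,7,7,
  8,3,6,3],[4,6,5,6,3,8,6,8,6,5,7],[7,4,7,8,7,8,6,5,8],[6,5,3,6,8,7,4,7,5,7],[4,6,3,7,3,3,6,6,8,6,6,8],[5,3,3,6,
  6,4,7,8,6,6,4,7],[6,4,4,6,6,4,7,8,7,4,7,3],[3,7,4,4,7,8,5,3,6,5],[5,3,8,6,3,3,6,4,7],[8,7,5,4,6,8,7,5],[5,3,7,
  4,5,6,3,8,7],[8,7,4,6,8,5,4,4,7,4]]
def c5 : List (List ℕ) := [[7,3,7,4,7,8,6,4,7,3],[4,4,6,8,3,7,7,4,4,7,3],[3,6,3,7,4,7,5,8,7,3,8],[6,3,3,5,8,7,5,8,6,6,8],[4,4,7,4,6,8,5,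
  6,3,6,4,6],[3,7,8,7,8,7,8,7,3],[6,5,7,3,7,8,6,6,8,6],[8,7,3,3,6,8,4,5,6,4,7,7,4],[8,3,3,6,8,5,4,4,6,4,7],[7,3,
  6,3,5,8,6,3,8,7,4,6],[6,3,7,3,7,8,6,6,8,6],[7,7,3,3,6,8,5,4,6,3,3,5],[4,4,6,5,7,8,3,7,3,7],[8,3,6,8,4,6,5,3,6,
  4,5],[3,6,3,7,4,7,3,8,7,3,8],[5,3,7,3,7,8,7,5,3,3,7],[3,7,8,6,8,3,7,7,5,3,7],[6,6,4,7,3,6,8,7,3,8,7,4],[4,6,6,
  4,6,5,7,8,6,6,4],[8,7,7,8,5,6,8,3,7],[6,4,4,6,8,6,4,6,4,5],[6,4,6,8,3,6,5,7,3,3],[6,5,7,8,3,6,5,4,4,7,3,3],[3,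
  7,8,6,8,3,7,7,4,4,7]]
def w3 : List (List ℕ) := [[2],[2,2],[1],[1,2],[1,2,2],[1,1],[1,1,2],[1,1,2,2],[0],[0,2],[0,2,2],[0,1],[0,1,2],[0,1,2,2],[0,1,1],[0,1,1,
  2],[0,1,1,2,2],[0,0],[0,0,2],[0,0,2,2],[0,0,1],[0,0,1,2],[0,0,1,2,2],[0,0,1,1],[0,0,1,1,2],[0,0,1,1,2,2]]
def w5 : List (List ℕ) := [[1],[1,1],[1,1,1],[1,1,1,1],[0],[0,1],[0,1,1],[0,1,1,1],[0,1,1,1,1],[0,0],[0,0,1],[0,0,1,1],[0,0,1,1,1],[0,0,
  1,1,1,1],[0,0,0],[0,0,0,1],[0,0,0,1,1],[0,0,0,1,1,1],[0,0,0,1,1,1,1],[0,0,0,0],[0,0,0,0,1],[0,0,0,0,1,1],[0,0,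
  0,0,1,1,1],[0,0,0,0,1,1,1,1]]

theorem main {Ω : Type*} [Fintype Ω] [MulAction Spor.MdTits.G Ω] [FaithfulSMul Spor.MdTits.G Ω] (hΩ : 3 ≤ Fintype.card Ω)
    (h : IsMultiplyPretransitive Spor.MdTits.G Ω 2) : False := by
  have hP := isCanon_PtN 1755
  have hB : ∀ b ∈ [2, 7, 1, 0], ∃ y, PtN 1755 b y := exists_PtN (by decide)
  obtain ⟨S, s1, -, s2⟩ := enum hP (hy.words us) base hB 3 ([] :: w3) (by decide +kernel)
  obtain ⟨E, e1, -, e2⟩ := enum hP (hy.words vs) base hB 2 ([] :: w5) (by decide +kernel)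
  have s3 := fun g hg => conj_of_list hP (hy.words us) base [10] c3 (by decide +kernel) ((s1 g).1 hg)
  have e3 := fun g hg => conj_of_list hP (hy.words vs) base [0] c5 (by decide +kernel) ((e1 g).1 hg)
  have ne : ∀ (ws : List (List ℕ)) (w : List ℕ), Nat.beq (actW (fun i => actW act (nthL [] ws i)) w 0) 0 = false →
      (fixedBy Ω (W (fun i => W y (nthL [] ws i)) w)).ncard < Nat.card Ω := fun ws w h =>
    fix_lt Ω (ne_of_actW hP (hy.words ws) (b := 0) ⟨rfl, by decide⟩ (v := []) h)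
  have s4 := burn Ω S s3
  have e4 := burn Ω E e3
  have s5 := ne us [10] (by decide +kernel)
  have e5 := ne vs [0] (by decide +kernel)
  have p5 := ne us [9] (by decide +kernel)
  rw [← Nat.card_eq_fintype_card] at hΩ
  obtain ⟨A, -, hA⟩ := Set.exists_subset_card_eq (s := (Set.univ : Set Ω)) (n := 2) (by rw [Set.ncard_univ]; omega)
  have d := (fixingSubgroup Spor.MdTits.G A).index_dvd_card
  rw [IsMultiplyPretransitive.index_of_fixingSubgroup_eq A (hA ▸ h), hA, Spor.MdTits.card, Nat.choose_two_right,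
    Nat.factorial_two, Nat.div_mul_cancel (Nat.even_mul_pred_self _).two_dvd] at d
  have d1 : Nat.card Ω < 4300 := by
    by_contra h
    have := Nat.mul_le_mul (not_lt.1 h) (show 4299 ≤ Nat.card Ω - 1 by omega)
    have := Nat.le_of_dvd (by decide) d
    omega
  have d2 := (by decide +kernel : ∀ n < 4300, 27 ≤ n → n * (n - 1) ∣ 17971200 → n = 27 ∨ n = 40 ∨ n = 65) _ d1
    (by rw [s2] at s4; simp only [w3, List.length_cons, List.length_nil] at s4; omega) d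
  rw [s2] at s4
  rw [e2] at e4
  simp only [w3, w5, List.length_cons, List.length_nil] at s4 e4 e2
  rcases d2 with d2 | d2
  · haveI : Fact (Nat.Prime 13) := ⟨by decide⟩
    have eq := fun u v => eq_of_eqB (u := u) (v := v) hP.func (hy.words us) base
    have q1 := eq (List.replicate 13 9) [] (by decide +kernel)
    have q2 := eq (List.replicate 3 10) [] (by decide +kernel)
    have q3 := eq [9, 10] (10 :: List.replicate 9 9) (by decide +kernel)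
    simp only [W_replicate, W_cons, W_nil, mul_one] at q1 q2 q3 s4 s5 p5
    have r1 := fix_modEq Ω q1 (A := Set.univ) fun _ _ => trivial
    have r2 := fix_modEq Ω q2 (A := fixedBy Ω (W y (nthL [] us 9))) fun a ha => by
      rw [mem_fixedBy, ← mul_smul, q3, mul_smul, show _ ^ 9 • a = a from pow_mem (show _ ∈ stabilizer _ a from ha) 9]
    have r3 := Set.ncard_le_ncard (Set.inter_subset_right (s := fixedBy Ω (W y (nthL [] us 9)))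
      (t := fixedBy Ω (W y (nthL [] us 10))))
    rw [Set.univ_inter, Set.ncard_univ] at r1
    unfold Nat.ModEq at r1 r2
    omega
  · haveI := isPretransitive_of_is_two_pretransitive (G := Spor.MdTits.G) (α := Ω)
    have := burn_le Ω E e3 (c := 5) fun ω => by
      have k1 : Nat.card (stabilizer E ω) ∣ 5 ^ 2 := (show Nat.card E = 5 ^ 2 from e2) ▸ Subgroup.card_subgroup_dvd_card _
      have k2 : Nat.card (stabilizer E ω) ∣ Nat.card (stabilizer Spor.MdTits.G ω) :=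
        Subgroup.card_dvd_of_injective ((E.subtype.comp (Subgroup.subtype _)).codRestrict _ fun g => g.2)
          fun _ _ e => Subtype.ext (Subtype.ext (congrArg (fun u : stabilizer Spor.MdTits.G ω => u.1) e))
      have k3 := (stabilizer Spor.MdTits.G ω).index_mul_card
      rw [index_stabilizer_of_transitive, Spor.MdTits.card] at k3
      obtain ⟨i, hi, k4⟩ := (Nat.dvd_prime_pow (by decide)).1 k1
      rw [k4] at k2 ⊢
      rcases d2 with d2 | d2 <;> rw [d2] at k3 <;> interval_cases i <;> omega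
    rw [e2] at this
    omega

theorem result {Ω : Type*} [Fintype Ω] [MulAction Cfsg.Lie.TitsGroup Ω] [FaithfulSMul Cfsg.Lie.TitsGroup Ω] (hΩ : 3 ≤ Fintype.card Ω) :
    ¬ MulAction.IsMultiplyPretransitive Cfsg.Lie.TitsGroup Ω 2 := fun h => by
  obtain ⟨e⟩ := TitsT.equiv
  letI := MulAction.compHom Ω e.symm.toMonoidHom
  haveI : FaithfulSMul Spor.MdTits.G Ω := ⟨fun k => e.symm.injective (eq_of_smul_eq_smul (α := Ω) k)⟩
  exact main hΩ ⟨fun a b => let ⟨g, hg⟩ := h.1 a b; ⟨e g, Function.Embedding.ext fun i => by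
    rw [← hg]; show e.symm (e g) • a i = g • a i; rw [e.symm_apply_apply]⟩⟩

end Cfsg.Agent.S2197
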