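import Cfsg.Statements.S2202
import Cfsg.Agent.AB.CA2

set_option autoImplicit false
open Cfsg

namespace Cfsg.Agent.S2202

/-- Finite groups in which the centralizer of every involution is abelian. Let G be a finite group of even order in which the centralizer of every element of order 2 is abelian. Then the Sylow 2-subgroups of G are cyclic, or a Sylow 2-subgroup of G is normal, or G is isomorphic to the direct product of SL₂(F) for a finite field F of characteristic two and an abelian group of odd order. -/
theorem result {G : Type*} [Group G] [Finite G] (heven : Even (Nat.card G)) (h : ∀ t : G, orderOf t = 2 → IsMulCommutative ↥(Subgroup.centralizer ({t} : Set G))) :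
    (∀ P : Sylow 2 G, IsCyclic ↥P) ∨ (∀ P : Sylow 2 G, (P : Subgroup G).Normal) ∨
    (∃ (F : Type) (_ : Field F) (_ : Fintype F) (A : Type) (_ : CommGroup A) (_ : Finite A), CharP F 2 ∧ Odd (Nat.card A) ∧ Nonempty (G ≃* Matrix.SpecialLinearGroup (Fin 2) F × A)) := by
  obtain ⟨T⟩ : Nonempty (Sylow 2 G) := inferInstance
  by_cases hc : IsCyclic (T : Subgroup G)
  · exact .inl fun P => isCyclic_of_surjective (T.equiv P) (T.equiv P).surjective
  by_cases hn : (T : Subgroup G).Normal
  · have := Sylow.unique_of_normal T hn
    exact .inr (.inl fun P => Subsingleton.elim T P ▸ hn)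
  have k := (AB.ca_of_sylow T hc hn h).1
  obtain ⟨F, _, _, -, h2, ⟨e⟩⟩ := k.equiv_prod
  let f := (Shrink.mulEquiv.{0} (α := Subgroup.center G)).symm
  have : Finite (Shrink.{0} (Subgroup.center G)) := Finite.of_equiv _ f.toEquiv
  refine .inr (.inr ⟨F, _, inferInstance, Shrink.{0} (Subgroup.center G), { (inferInstance : Group _) with
    mul_comm := fun a b => f.symm.injective (by
      rw [map_mul, map_mul]; exact Subtype.ext (Subgroup.mem_center_iff.1 (f.symm b).2 _)) }, this,
    CharTwo.of_one_ne_zero_of_two_eq_zero one_ne_zero h2, ?_,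
    ⟨e.trans ((MulEquiv.refl _).prodCongr f)⟩⟩)
  rw [← Nat.card_congr f.toEquiv]
  exact Invol.odd_card_iff.2 fun t ht e => absurd (e ▸ k.odd_center ht) (by decide)

end Cfsg.Agent.S2202
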