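import Cfsg.Statements.S2205
import Cfsg.Agent.ONan.Atk3

set_option autoImplicit false
open Cfsg

namespace Cfsg.Agent.S2205

open MulAction Pointwise

/-- A finite group acting faithfully and 2-transitively on a set with p² + 1 points, p a prime, is doubly primitive — a point stabilizer acts primitively on the remaining p² points — unless p = 2 and the group is the Frobenius group of order 20. -/
theorem result {G Ω : Type*} [Group G] [Finite G] [Fintype Ω] [MulAction G Ω] [FaithfulSMul G Ω] (p : ℕ) (hp : p.Prime) (hΩ : Fintype.card Ω = p ^ 2 + 1) (h2 : MulAction.IsMultiplyPretransitive G Ω 2) (a : Ω) :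
    MulAction.IsPreprimitive ↥(MulAction.stabilizer G a) ↥(SubMulAction.ofStabilizer G a) ∨ (p = 2 ∧ Nat.card G = 20) := by
  classical
  refine or_iff_not_imp_left.2 fun hn => ?_
  have t2 := ONan.tr2_of h2
  have tr : IsPretransitive (stabilizer G a) (SubMulAction.ofStabilizer G a) := ⟨fun x y => by
    obtain ⟨g, g1, g2⟩ := t2 a x a y (Ne.symm x.2) (Ne.symm y.2)
    exact ⟨⟨g, g1⟩, Subtype.ext g2⟩⟩
  obtain ⟨B, hB, hT⟩ : ∃ B : Set (SubMulAction.ofStabilizer G a), IsBlock (stabilizer G a) B ∧ ¬ IsTrivialBlock B := by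
    by_contra hc
    push Not at hc
    exact hn ⟨fun {B} hB => hc B hB⟩
  have cX : Nat.card (SubMulAction.ofStabilizer G a) = p ^ 2 := by
    have := Set.ncard_add_ncard_compl ({a} : Set Ω)
    rw [Set.ncard_singleton, Nat.card_eq_fintype_card, hΩ] at this
    exact (show ({a}ᶜ : Set Ω).ncard = _ by omega)
  obtain ⟨b, hb, b', hb', bb⟩ := Set.not_subsingleton_iff.1 fun e => hT (.inl e)
  have cB : B.ncard = p := by
    obtain ⟨i, hi, e⟩ := (Nat.dvd_prime_pow hp).1 (cX ▸ hB.ncard_dvd_card ⟨b, hb⟩)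
    interval_cases i
    · obtain ⟨z, hz⟩ := Set.ncard_eq_one.1 e
      exact absurd ((hz.le hb).trans (hz.le hb').symm) bb
    · rw [e, pow_one]
    · exact absurd (.inr ((Set.eq_univ_iff_ncard B).2 (e.trans cX.symm))) hT
  have := fun x : SubMulAction.ofStabilizer G a => exists_smul_eq (stabilizer G a) b x
  choose τ hτ using this
  let π : Ω → orbit (stabilizer G a) B := fun x =>
    if h : x ≠ a then ⟨τ ⟨x, h⟩ • B, mem_orbit _ _⟩ else ⟨B, mem_orbit_self _⟩
  have pm : ∀ x : SubMulAction.ofStabilizer G a, x ∈ τ x • B := fun x => by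
    have := Set.smul_mem_smul_set (a := τ x) hb
    rwa [hτ] at this
  have pe : ∀ (x : SubMulAction.ofStabilizer G a) (g : stabilizer G a), x ∈ g • B → (π x).1 = g • B := fun x g hx => by
    simp only [π, dif_pos (show x.1 ≠ a from x.2)]
    exact hB.smul_eq_smul_of_nonempty ⟨x, pm x, hx⟩
  refine ONan.Cfg.atk (a := a) (π := π) ⟨hp, t2, fun g hg => eq_of_smul_eq_smul (α := Ω) fun x => by rw [hg, one_smul],
    by rw [Nat.card_eq_fintype_card, hΩ], Nat.eq_of_mul_eq_mul_left hp.pos ?_, fun g x hx => Subtype.ext ?_,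
    fun x hx => ?_, ?_⟩
  · have := hB.ncard_block_mul_ncard_orbit_eq ⟨b, hb⟩
    rw [cB, cX, sq] at this
    exact this
  · refine (pe (g • ⟨x, hx⟩) (g * τ ⟨x, hx⟩) (by rw [mul_smul]; exact Set.smul_mem_smul_set (pm _))).trans ?_
    rw [mul_smul, ← pe ⟨x, hx⟩ _ (pm _)]; rfl
  · rw [← cB, ← Set.ncard_smul_set (τ ⟨x, hx⟩) B]
    refine (Set.ncard_congr (t := ONan.Bl a π x) (fun y _ => y.1) (fun y hy => ⟨y.2, Subtype.ext ((pe y _ hy).trans (pe ⟨x, hx⟩ _ (pm _)).symm)⟩)
      (fun _ _ _ _ e => Subtype.ext e) fun y hy => ⟨⟨y, hy.1⟩, ?_, rfl⟩).symm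
    exact ((pe ⟨y, hy.1⟩ _ (pm _)).symm.trans ((congrArg Subtype.val hy.2).trans (pe ⟨x, hx⟩ _ (pm _)))).le (pm _)
  · rintro ⟨_, g, rfl⟩
    exact ⟨(g • b).1, (g • b).2, Subtype.ext (pe _ g (Set.smul_mem_smul_set hb))⟩

end Cfsg.Agent.S2205
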