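import Cfsg.Statements.S2214
import Cfsg.Agent.Chev.LangSt

set_option autoImplicit false
open Cfsg

namespace Cfsg.Agent.S2214

open Cfsg.Agent.Chev Cfsg.Lie


theorem eq_one_of_comm {D : ChevalleyDatum} [Good D] [Conn D] {k : Type*} [Field k] {y : GL D.Idx k}
    (hy : y ∈ (adS D k).U Set.univ) (h : ∀ r, (adS D k).x r 1 * y = y * (adS D k).x r 1) : y = 1 := by
  have c := Sys.adCover D k
  let C := Subgroup.centralizer {y}
  have h1 : ∀ r, (adS D k).x r 1 ∈ C := fun r => Subgroup.mem_centralizer_singleton_iff.mpr (h r)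
  have h2 : y ∈ (adS D k).B := by
    obtain ⟨w, hw⟩ := Sys.exists_cell hy
    refine c.mem_B_of_cell ((eq_one_of_pos (w := w) fun i => ?_) ▸ hw)
    have s1 : (adS D k).Stab {r | Pos r} := Sys.stab_of_upper (fun _ h => h) fun _ h _ e i => (h i).trans (e i)
    have s2 : (adS D k).Stab {r | Pos r ∧ ¬ InJ {i} r} := Sys.stab_of_upper (fun _ h => h.1) fun r h k e =>
      ⟨fun i => (h.1 i).trans (e i), fun e' => h.2 fun j hj => le_antisymm (e' j hj ▸ e j) (h.1 j)⟩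
    have e : y⁻¹ * (adS D k).x (sm i) 1 * y⁻¹⁻¹ = (adS D k).x (sm i) 1 * 1 := by simp [mul_assoc, h]
    obtain ⟨r, a1, a2, a3⟩ := c.conj_root hw.inv s1 s1 s2 (Sys.x_mem_U _ (pos_sm i) 1)
      (e ▸ mul_mem (Sys.x_mem_U _ (pos_sm i) 1) (one_mem _))
      (e ▸ c.x_mul_not_mem s2.nilp subset_rfl (pos_sm i) (by simp [inJ_sm]) one_ne_zero (one_mem _))
    have : w⁻¹ • r = sm i := by_contra fun e => a3 (pos_not_inJ_singleton.mpr ⟨a2, e⟩)
    rwa [← this, smul_inv_smul]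
  obtain ⟨l, hl⟩ := (wI D).gen (w0 Set.univ)
  have h3 : (adS D k).nw l ∈ C := (adS D k).nw_mem fun i _ => mul_mem (mul_mem (h1 _) (by
    simpa [Sys.x_neg] using h1 _)) (h1 _)
  exact (Sys.adCover D k).π_eq_one (c.mem_H_of_conj (hl ▸ Sys.mon_nw _ l) (Sys.nw_mem_N _ l) h2 (by
    rwa [Subgroup.mem_centralizer_singleton_iff.mp h3, mul_inv_cancel_right])) fun r => (h r).symm

/-- Let k be an algebraically closed field of prime characteristic p, G the adjoint Chevalley group of type G₂, B₂, D₄, F₄, E₆, E₇ or E₈ over k (the matrix group generated by the root elements x_s(t), t ∈ k, acting on the Lie algebra), q = p^a with a ≥ 1, and K a subgroup of G containing every root element x_s(t) with t^q = t and consisting of matrices all of whose entries c satisfy c^q = c. Then the centralizer of K in G is trivial, and the normalizer of K in G is exactly the set of elements of G all of whose entries c satisfy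 c^q = c. -/
theorem result {k : Type*} [Field k] [IsAlgClosed k] (p : ℕ) [Fact p.Prime] [CharP k p] (D : Cfsg.Lie.ChevalleyDatum) (hD : D ∈ [Cfsg.Lie.chevG2, Cfsg.Lie.chevB2, Cfsg.Lie.chevD4, Cfsg.Lie.chevF4, Cfsg.Lie.chevE6, Cfsg.Lie.chevE7, Cfsg.Lie.chevE8]) (a : ℕ) (ha : 1 ≤ a) (K : Subgroup (GL D.Idx k)) (hKG : K ≤ D.group k)
    (hLK : Subgroup.closure {g : GL D.Idx k | ∃ (s : ℕ) (t : k), t ^ (p ^ a) = t ∧ (g : Matrix D.Idx D.Idx k) = D.x k s t} ≤ K)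
    (hKfix : ∀ g ∈ K, ∀ i j : D.Idx, ((g : Matrix D.Idx D.Idx k) i j) ^ (p ^ a) = (g : Matrix D.Idx D.Idx k) i j) :
    D.group k ⊓ Subgroup.centralizer (K : Set (GL D.Idx k)) = ⊥ ∧
    ∀ g : GL D.Idx k, g ∈ D.group k → (g ∈ Subgroup.normalizer (K : Set (GL D.Idx k)) ↔ ∀ i j : D.Idx, ((g : Matrix D.Idx D.Idx k) i j) ^ (p ^ a) = (g : Matrix D.Idx D.Idx k) i j) := by
  classical
  obtain ⟨⟨_⟩, _⟩ := conn_of_mem hD
  have c := Sys.adCover D k
  let φ := iterateFrobenius k p a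
  let α : (adS D k).Aut (Sym.one D) := ⟨Matrix.GeneralLinearGroup.map φ, fun _ => φ,
    fun r t => Units.ext ((adj D).map_y φ r t), fun _ _ h => by simpa, fun _ _ => by simp⟩
  have h0 : ∀ g : GL D.Idx k, (∀ i j, (g : Matrix _ _ k) i j ^ p ^ a = (g : Matrix _ _ k) i j) ↔ g ∈ α.fix :=
    fun g => ⟨fun h => Units.ext (Matrix.ext h), fun h i j => congrArg (fun M : GL D.Idx k => M i j) h⟩
  simp only [h0, group_eq] at *
  set L := Subgroup.closure {g : GL D.Idx k | ∃ (s : ℕ) (t : k), t ^ (p ^ a) = t ∧ (g : Matrix _ _ k) = D.x k s t}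
  have h1 : ∀ r t, φ t = t → (adS D k).x r t ∈ L := fun r t h => Subgroup.subset_closure ⟨r, t, h, (x_eq_y r t).symm⟩
  have h2 : ∀ y ∈ (adS D k).U Set.univ, (∀ z ∈ K, z * y = y * z) → y = 1 := fun y hy h =>
    eq_one_of_comm hy fun r => h _ (hLK (h1 r 1 (map_one φ)))
  have h3 : ∀ u ∈ (adS D k).UP ⊓ α.fix, u ∈ L := fun u hu => by
    have hL : ∀ k, k ∈ {r : Rt D | Pos r}.toFinset.toList ↔ k ∈ {r : Rt D | Pos r} := by simp
    obtain ⟨t, rfl⟩ := Sys.exists_prod nilp_Pos hL (Finset.nodup_toList _) hu.1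
    have := c.prod_inj nilp_Pos (fun k => (hL k).mp) (Finset.nodup_toList _) (t := φ ∘ t) (t' := t)
      (.trans (by rw [α.σ_prod]; simp [α, Sym.one]; rfl) hu.2)
    exact list_prod_mem fun z hz => by obtain ⟨k, hk, rfl⟩ := List.mem_map.mp hz; exact h1 _ _ (this k hk)
  have h4 : ∀ z ∈ (adS D k).H ⊓ α.fix, ∀ y ∈ L, z * y * z⁻¹ ∈ L := fun z hz y hy => by
    refine ((Subgroup.closure_le _).mpr ?_ : L ≤ L.comap (MulAut.conj z).toMonoidHom) hy
    rintro y ⟨s, t, e1, e2⟩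
    obtain rfl := coe_eq_xN.mp e2
    change z * _ * z⁻¹ ∈ L
    unfold Sys.xN
    split_ifs with hs
    swap
    · simp
    obtain ⟨b, -, hb⟩ := Sys.mon_of_mem_H hz.1
    have := α.fix.mul_mem (α.fix.mul_mem hz.2 ((α.σ_x ⟨s, hs⟩ t).trans (congrArg _ e1))) (α.fix.inv_mem hz.2)
    rw [hb, one_smul] at this ⊢
    refine h1 _ _ ?_
    by_cases e : φ (b ⟨s, hs⟩ * t) = 0
    · rw [e, (map_eq_zero φ).mp e]
    exact (c.x_eq e ((α.σ_x _ _).symm.trans this)).2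
  have h5 : ∀ y ∈ (adS D k).U Set.univ, y ∈ α.fix → ∃ l ∈ L, ∃ z ∈ (adS D k).H ⊓ α.fix, y = l * z := fun y hy h => by
    obtain ⟨w, hw⟩ := Sys.exists_cell hy
    obtain ⟨-, u, hu, n, hn, a1, u', hu', rfl⟩ := (α.stable c).exists_canon c h hw
    obtain ⟨l, rfl⟩ := (wI D).gen w
    have a2 : (adS D k).nw l ∈ L := (adS D k).nw_mem fun i _ =>
      mul_mem (mul_mem (h1 _ _ (by simp)) (h1 _ _ (by simp))) (h1 _ _ (by simp))
    have a3 : n * ((adS D k).nw l)⁻¹ ∈ (adS D k).H ⊓ α.fix := ⟨c.mul_inv_mem_H hn.1 (Sys.nw_mem_N _ l) a1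
      (Sys.mon_nw _ l), α.fix.mul_mem hn.2 (α.fix.inv_mem (hKfix _ (hLK a2)))⟩
    exact ⟨_, mul_mem (h3 u hu) (h4 _ a3 _ (mul_mem a2 (h3 u' ⟨Sys.UI_le _ _ hu'.1, hu'.2⟩))), _, a3, by group⟩
  have h6 : ∀ y ∈ (adS D k).U Set.univ, y ∈ α.fix → ∀ z ∈ K, y * z * y⁻¹ ∈ K := fun y a1 a2 z a3 => by
    obtain ⟨l, b1, y, b2, rfl⟩ := h5 y a1 a2
    obtain ⟨l', b3, z, b4, rfl⟩ := h5 z (hKG a3) (hKfix _ a3)
    have := (Subgroup.le_centralizer _ b2.1 : y ∈ _) z b4.1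
    convert mul_mem (mul_mem (mul_mem (hLK b1) (hLK (h4 y b2 l' b3))) ((K.mul_mem_cancel_left (hLK b3)).mp a3))
      (inv_mem (hLK b1)) using 1
    calc _ = l * (y * l' * y⁻¹) * (y * z) * y⁻¹ * l⁻¹ := by group
      _ = _ := by rw [← this]; group
  refine ⟨eq_bot_iff.mpr fun y hy => h2 y hy.1 hy.2, fun y hy => ⟨fun h => ?_, fun h => fun z => ⟨h6 y hy h z, fun e => ?_⟩⟩⟩
  · refine (inv_mul_eq_one.mp (h2 _ (mul_mem (inv_mem hy) (α.σ_mem_U (by simp) hy)) fun z hz => ?_)).symm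
    have := hKfix _ ((h z).mp hz)
    rw [Sys.Aut.mem_fix, map_mul, map_mul, map_inv, Sys.Aut.mem_fix.mp (hKfix z hz), mul_inv_eq_iff_eq_mul] at this
    rw [mul_assoc, this]; group
  · simpa [mul_assoc] using h6 _ (inv_mem hy) (inv_mem h) _ e

end Cfsg.Agent.S2214
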