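import Cfsg.Statements.S2221
import Cfsg.Agent.SylAn.B

set_option autoImplicit false
open Cfsg

namespace Cfsg.Agent.S2221

open Cfsg.Agent.SylAn Equiv Equiv.Perm

variable {α : Type*} [Fintype α] [DecidableEq α]

theorem dec_iff (P : Subgroup (alternatingGroup α)) (Q : Subgroup (Perm α))
    (hP : ∀ x, x ∈ P ↔ (x : Perm α) ∈ Q) :
    (∃ S₁ S₂ : Subgroup (alternatingGroup α), S₁ ≠ ⊥ ∧ S₂ ≠ ⊥ ∧
        Cfsg.IsInternalDirectProduct S₁ S₂ P) ↔ ∃ S₁ S₂, S₁ ≠ ⊥ ∧ S₂ ≠ ⊥ ∧ Dc Q S₁ S₂ := by
  constructor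
  · rintro ⟨S₁, S₂, h1, h2, l1, l2, cm, hi, hs⟩
    have inj := (alternatingGroup α).subtype_injective
    refine ⟨S₁.map (alternatingGroup α).subtype, S₂.map (alternatingGroup α).subtype,
      by rwa [Ne, Subgroup.map_eq_bot_iff_of_injective _ inj],
      by rwa [Ne, Subgroup.map_eq_bot_iff_of_injective _ inj], ?_, ?_, ?_, ?_, ?_⟩
    · rintro _ ⟨x, hx, rfl⟩; exact ⟨(hP x).1 (l1 hx), x.2⟩
    · rintro _ ⟨x, hx, rfl⟩; exact ⟨(hP x).1 (l2 hx), x.2⟩
    · rintro _ ⟨x, hx, rfl⟩ _ ⟨y, hy, rfl⟩; exact congrArg Subtype.val (cm x hx y hy)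
    · rintro _ ⟨x, hx, rfl⟩ ⟨y, hy, e⟩
      have : y = x := inj e
      subst this
      have : y = 1 := (Subgroup.eq_bot_iff_forall _).1 hi y ⟨hx, hy⟩
      rw [this]; rfl
    · intro x hx hs'
      have hm : (⟨x, hs'⟩ : alternatingGroup α) ∈ S₁ ⊔ S₂ := by rw [hs, hP]; exact hx
      have hn : S₂ ≤ Subgroup.normalizer (S₁ : Set (alternatingGroup α)) := fun b hb =>
        Subgroup.centralizer_le_normalizer _ (fun a ha => cm a ha b hb)
      rw [← SetLike.mem_coe, Subgroup.coe_mul_of_right_le_normalizer_left _ _ hn] at hm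
      obtain ⟨a, ha, b, hb, e⟩ := hm
      exact ⟨a, ⟨a, ha, rfl⟩, b, ⟨b, hb, rfl⟩, (congrArg Subtype.val e).symm⟩
  · rintro ⟨S₁, S₂, h1, h2, D⟩
    have nb : ∀ S : Subgroup (Perm α), S ≠ ⊥ → (∀ x ∈ S, x ∈ Q ∧ sign x = 1) →
        S.subgroupOf (alternatingGroup α) ≠ ⊥ := by
      intro S h hl h'
      refine h ((Subgroup.eq_bot_iff_forall _).2 fun x hx => ?_)
      exact congrArg Subtype.val
        ((Subgroup.eq_bot_iff_forall _).1 h' ⟨x, (hl x hx).2⟩ hx)
    have l1 : S₁.subgroupOf (alternatingGroup α) ≤ P := fun x hx => (hP x).2 (D.le1 x hx).1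
    have l2 : S₂.subgroupOf (alternatingGroup α) ≤ P := fun x hx => (hP x).2 (D.le2 x hx).1
    refine ⟨_, _, nb S₁ h1 D.le1, nb S₂ h2 D.le2, l1, l2,
      fun a ha b hb => Subtype.ext (D.cm a ha b hb),
      (Subgroup.eq_bot_iff_forall _).2 fun x hx => Subtype.ext (D.inf x hx.1 hx.2),
      le_antisymm (sup_le l1 l2) fun x hx => ?_⟩
    obtain ⟨a, ha, b, hb, e⟩ := D.dec x ((hP x).1 hx) x.2
    have : x = ⟨a, (D.le1 a ha).2⟩ * ⟨b, (D.le2 b hb).2⟩ := Subtype.ext e
    rw [this]
    exact Subgroup.mul_mem_sup ha hb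

theorem small {G : Type*} [Group G] [Finite G] (P : Subgroup G) (h4 : Nat.card P = 4)
    (h2 : ∀ x ∈ P, x ^ 2 = 1) : ∃ S₁ S₂ : Subgroup G, S₁ ≠ ⊥ ∧ S₂ ≠ ⊥ ∧
      Cfsg.IsInternalDirectProduct S₁ S₂ P := by
  classical
  haveI := Fintype.ofFinite P
  obtain ⟨a, ha⟩ : ∃ a : P, a ≠ 1 := by
    haveI : Nontrivial P := Finite.one_lt_card_iff_nontrivial.1 (by omega)
    exact exists_ne 1
  obtain ⟨b, hb⟩ : ∃ b : P, b ∉ ({1, a} : Finset P) := by
    by_contra h; push Not at h
    have := Finset.card_le_card (fun x _ => h x : Finset.univ ⊆ ({1, a} : Finset P))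
    have := Finset.card_le_two (a := 1) (b := a)
    rw [Finset.card_univ, ← Nat.card_eq_fintype_card] at *
    omega
  simp only [Finset.mem_insert, Finset.mem_singleton, not_or] at hb
  have mz : ∀ c : P, ∀ x ∈ Subgroup.zpowers (c : G), x = 1 ∨ x = c := by
    intro c x hx
    obtain ⟨n, rfl⟩ := hx
    have c2 : (c : G) ^ (2 : ℤ) = 1 := by exact_mod_cast h2 c c.2
    rcases Int.even_or_odd' n with ⟨k, rfl | rfl⟩
    · left; simp only; rw [zpow_mul, c2, one_zpow]
    · right; simp only; rw [zpow_add, zpow_mul, c2, one_zpow]; simp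
  have inv : ∀ x ∈ P, x⁻¹ = x := fun x hx => inv_eq_of_mul_eq_one_right (by
    rw [← pow_two, h2 x hx])
  have l1 : Subgroup.zpowers (a : G) ≤ P := Subgroup.zpowers_le.2 a.2
  have l2 : Subgroup.zpowers (b : G) ≤ P := Subgroup.zpowers_le.2 b.2
  refine ⟨_, _, by simpa using ha, by simpa using hb.1, l1, l2, fun x hx y hy => ?_, ?_, ?_⟩
  · rw [← inv _ (mul_mem (l1 hx) (l2 hy)), mul_inv_rev, inv _ (l1 hx), inv _ (l2 hy)]
  · refine (Subgroup.eq_bot_iff_forall _).2 fun x hx => ?_
    rcases mz a x hx.1 with h | h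
    · exact h
    rcases mz b x hx.2 with h' | h'
    · exact h'
    exact absurd (Subtype.ext (h'.symm.trans h)) hb.2
  · apply Subgroup.eq_of_le_of_card_ge (sup_le l1 l2)
    have hd := Subgroup.card_dvd_of_le (sup_le l1 l2)
    rw [h4] at hd ⊢
    haveI := Fintype.ofFinite (Subgroup.zpowers (a : G) ⊔ Subgroup.zpowers (b : G) : Subgroup G)
    have h3 : 2 < Nat.card (Subgroup.zpowers (a : G) ⊔ Subgroup.zpowers (b : G) : Subgroup G) := by
      rw [Nat.card_eq_fintype_card]
      exact Fintype.two_lt_card_iff.2 ⟨1, ⟨a, Subgroup.mem_sup_left (Subgroup.mem_zpowers _)⟩,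
        ⟨b, Subgroup.mem_sup_right (Subgroup.mem_zpowers _)⟩,
        fun h => ha (Subtype.ext (congrArg Subtype.val h).symm),
        fun h => hb.1 (Subtype.ext (congrArg Subtype.val h).symm),
        fun h => hb.2 (Subtype.ext (congrArg Subtype.val h).symm)⟩
    have := Nat.le_of_dvd (by norm_num) hd
    interval_cases Nat.card (Subgroup.zpowers (a : G) ⊔ Subgroup.zpowers (b : G) : Subgroup G) <;>
      simp_all

theorem sq4 : ∀ x : Perm (Fin 4), sign x = 1 → x ^ 4 = 1 → x ^ 2 = 1 := by decide +kernel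
theorem sq5 : ∀ x : Perm (Fin 5), sign x = 1 → x ^ 4 = 1 → x ^ 2 = 1 := by decide +kernel

theorem small' (n : ℕ) (hn : n = 4 ∨ n = 5) (P : Sylow 2 (alternatingGroup (Fin n))) :
    ∃ S₁ S₂ : Subgroup (alternatingGroup (Fin n)), S₁ ≠ ⊥ ∧ S₂ ≠ ⊥ ∧
      Cfsg.IsInternalDirectProduct S₁ S₂ (P : Subgroup (alternatingGroup (Fin n))) := by
  have h4 : Nat.card P = 4 := by
    rw [P.card_eq_multiplicity]
    rcases hn with rfl | rfl
    · rw [nat_card_alternatingGroup]; simp only [Nat.card_eq_fintype_card, Fintype.card_fin]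
      decide +kernel
    · rw [nat_card_alternatingGroup]; simp only [Nat.card_eq_fintype_card, Fintype.card_fin]
      decide +kernel
  refine small _ h4 fun x hx => Subtype.ext ?_
  have : (x : Perm (Fin n)) ^ 4 = 1 := by
    have := pow_card_eq_one' (x := (⟨x, hx⟩ : (P : Subgroup (alternatingGroup (Fin n)))))
    rw [h4] at this
    exact congrArg (fun u : (P : Subgroup (alternatingGroup (Fin n))) => ((u : alternatingGroup (Fin n)) : Perm (Fin n))) this
  rcases hn with rfl | rfl
  · exact sq4 _ x.2 this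
  · exact sq5 _ x.2 this

open Classical in
theorem card_big (Q : Sylow 2 (Perm α)) {z : Perm α} (S : St (Q : Subgroup (Perm α)) z) :
    (Finset.univ.filter (Big (Q : Subgroup (Perm α)) z)).card = 4 * (Fintype.card α / 4) := by
  obtain ⟨k, hk⟩ := S.four_dvd (Finset.univ.filter (Big (Q : Subgroup (Perm α)) z))
    (fun q hq a ha => by simpa using S.big_inv q hq a (by simpa using ha))
    (fun a ha => by simpa using ha)
  have h1 := Finset.card_le_univ (Finset.univ.filter (Big (Q : Subgroup (Perm α)) z))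
  obtain ⟨g, hg, e, he, h2⟩ := exists_cyc_mem Q 2 (Fintype.card α / 4) (Fintype.card α % 4)
    (by omega)
  have h3 : Fintype.card (Fin (Fintype.card α / 4) × ZMod (2 ^ 2)) ≤
      (Finset.univ.filter (Big (Q : Subgroup (Perm α)) z)).card := by
    refine Finset.card_le_card_of_injOn e (fun u _ => ?_) he.injOn
    obtain ⟨i, x⟩ := u
    simp only [Finset.coe_filter, Finset.mem_univ, true_and, Set.mem_setOf_eq]
    refine ⟨g, hg, fun h => ?_, fun h => ?_⟩
    · rw [h2] at h
      have := he h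
      simp only [Prod.mk.injEq, true_and, add_eq_left] at this
      exact absurd this (by decide)
    · have := congrArg g h
      rw [S.cm g hg, h, S.z2, ← h, h2, h2] at this
      have := he this
      simp only [Prod.mk.injEq, true_and, add_assoc, add_eq_left] at this
      exact absurd this (by decide)
  simp at h3
  omega

open Classical in
theorem trans_iff (Q : Sylow 2 (Perm α)) {z : Perm α} (S : St (Q : Subgroup (Perm α)) z)
    (h4 : 4 ≤ Fintype.card α) :
    (∀ a b, Big (Q : Subgroup (Perm α)) z a → Big (Q : Subgroup (Perm α)) z b →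
      Orb (Q : Subgroup (Perm α)) a b) ↔ ∃ r, 4 * (Fintype.card α / 4) = 2 ^ r := by
  have hc := card_big Q S
  constructor
  · intro h
    obtain ⟨a, ha⟩ := Finset.card_pos.1 (show 0 < (Finset.univ.filter
      (Big (Q : Subgroup (Perm α)) z)).card by omega)
    simp only [Finset.mem_filter, Finset.mem_univ, true_and] at ha
    obtain ⟨r, hr⟩ := S.orb_card a
    refine ⟨r, ?_⟩
    rw [← hr, ← hc, Nat.card_eq_fintype_card, Fintype.card_subtype]
    congr 1; ext b; simp only [Finset.mem_filter, Finset.mem_univ, true_and]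
    exact ⟨h a b ha, S.big_orb ha⟩
  · rintro ⟨r, hr⟩
    obtain ⟨g, hg, e, he, h2⟩ := exists_cyc_mem Q r 1 (Fintype.card α % 4) (by omega)
    have h3 : ∀ m : ℕ, Orb (Q : Subgroup (Perm α)) (e (0, 0)) (e (0, m)) := by
      intro m
      induction m with
      | zero => simpa using Orb.refl _
      | succ m ih => exact ih.trans ⟨g, hg, by rw [h2]; simp⟩
    have h5 : Fintype.card (ZMod (2 ^ r)) ≤
        (Finset.univ.filter (Orb (Q : Subgroup (Perm α)) (e (0, 0)))).card := by
      refine Finset.card_le_card_of_injOn (fun x => e (0, x)) (fun x _ => ?_)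
        (fun x _ y _ h => by simpa using he h)
      simp only [Finset.coe_filter, Finset.mem_univ, true_and, Set.mem_setOf_eq]
      have := h3 x.val
      rwa [ZMod.natCast_zmod_val] at this
    rw [ZMod.card] at h5
    have hb : Big (Q : Subgroup (Perm α)) z (e (0, 0)) := by
      by_contra hb
      have : Finset.univ.filter (Orb (Q : Subgroup (Perm α)) (e (0, 0))) ⊆
          {e (0, 0), z (e (0, 0))} := by
        intro b hb'
        simp only [Finset.mem_filter, Finset.mem_univ, true_and] at hb'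
        obtain ⟨q, hq, rfl⟩ := hb'
        by_contra hh
        simp only [Finset.mem_insert, Finset.mem_singleton, not_or] at hh
        exact hb ⟨q, hq, hh⟩
      have := (Finset.card_le_card this).trans Finset.card_le_two
      omega
    have e1 : Finset.univ.filter (Orb (Q : Subgroup (Perm α)) (e (0, 0))) =
        Finset.univ.filter (Big (Q : Subgroup (Perm α)) z) :=
      Finset.eq_of_subset_of_card_le (fun b hb' => by
        simp only [Finset.mem_filter, Finset.mem_univ, true_and] at hb' ⊢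
        exact S.big_orb hb hb') (by omega)
    have e2 : ∀ a, Big (Q : Subgroup (Perm α)) z a → Orb (Q : Subgroup (Perm α)) (e (0, 0)) a := by
      intro a ha
      have : a ∈ Finset.univ.filter (Big (Q : Subgroup (Perm α)) z) := by simpa using ha
      rw [← e1] at this; simpa using this
    exact fun a b ha hb => (e2 a ha).symm.trans (e2 b hb)

open Classical in
theorem card_small (Q : Sylow 2 (Perm α)) {z : Perm α} (S : St (Q : Subgroup (Perm α)) z) :
    (Finset.univ.filter (fun a => ¬ Big (Q : Subgroup (Perm α)) z a)).card = Fintype.card α % 4 := by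
  have := card_big Q S
  have h := Finset.card_filter_add_card_filter_not (s := Finset.univ)
    (Big (Q : Subgroup (Perm α)) z)
  rw [Finset.card_univ] at h
  omega

theorem main (Q : Sylow 2 (Perm α)) (h6 : 6 ≤ Fintype.card α) :
    (∃ S₁ S₂, S₁ ≠ ⊥ ∧ S₂ ≠ ⊥ ∧ Dc (Q : Subgroup (Perm α)) S₁ S₂) ↔
      ((Fintype.card α % 4 = 2 ∨ Fintype.card α % 4 = 3) ∧
        ∀ r : ℕ, 4 * (Fintype.card α / 4) ≠ 2 ^ r) := by
  classical
  obtain ⟨z, S⟩ := exists_st Q
  have c1 := card_big Q S
  have c2 := card_small Q S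
  have ti := trans_iff Q S (by omega)
  by_cases hm : Fintype.card α % 4 = 2 ∨ Fintype.card α % 4 = 3
  · obtain ⟨u, hu', hu⟩ : ∃ u, ¬ Big (Q : Subgroup (Perm α)) z u ∧ z u ≠ u := by
      obtain ⟨a, ha, b, hb, ab⟩ := Finset.one_lt_card.1 (show 1 < (Finset.univ.filter
        (fun a => ¬ Big (Q : Subgroup (Perm α)) z a)).card by omega)
      simp only [Finset.mem_filter, Finset.mem_univ, true_and] at ha hb
      by_cases h : z a = a
      · exact ⟨b, hb, fun h' => ab (S.fx a b h h')⟩
      · exact ⟨a, ha, h⟩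
    simp only [hm, true_and]
    constructor
    · rintro ⟨S₁, S₂, h1, h2, D⟩ r hr
      refine S.caseI D h1 h2 hu hu' (fun a ha a1 a2 => ?_) (ti.2 ⟨r, hr⟩)
      by_contra hz
      have : [u, z u, a, z a].toFinset ⊆ Finset.univ.filter
          (fun a => ¬ Big (Q : Subgroup (Perm α)) z a) := by
        intro b hb
        simp only [List.mem_toFinset, List.mem_cons, List.not_mem_nil, or_false] at hb
        rcases hb with rfl | rfl | rfl | rfl <;> simp [S.bigz, hu', ha]
      have h3 := Finset.card_le_card this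
      rw [List.toFinset_card_of_nodup (by
        simp only [List.nodup_cons, List.mem_cons, List.not_mem_nil, or_false, not_or,
          not_false_eq_true, List.nodup_nil, and_true]
        exact ⟨⟨hu.symm, a1.symm, fun h => a2 (by rw [h, S.z2])⟩,
          ⟨a2.symm, fun h => a1 (z.injective h).symm⟩, Ne.symm hz⟩)] at h3
      simp only [List.length_cons, List.length_nil] at h3
      omega
    · intro h
      have : ¬ _ := fun hh => (ti.1 hh).elim h
      push Not at this
      obtain ⟨a, b, ha, hb, hab⟩ := this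
      exact S.decomp hu hu' ha hb hab
  · simp only [hm, false_and, iff_false]
    rintro ⟨S₁, S₂, h1, h2, D⟩
    have hr : ∀ a, ¬ Big (Q : Subgroup (Perm α)) z a → z a = a := by
      intro a ha
      by_contra hz
      have : 1 < (Finset.univ.filter (fun a => ¬ Big (Q : Subgroup (Perm α)) z a)).card :=
        Finset.one_lt_card.2 ⟨a, by simpa using ha, z a, by simpa [S.bigz] using ha, Ne.symm hz⟩
      omega
    by_cases ht : ∀ a b, Big (Q : Subgroup (Perm α)) z a → Big (Q : Subgroup (Perm α)) z b →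
      Orb (Q : Subgroup (Perm α)) a b
    · refine S.caseII D h1 h2 hr (fun l hl => ?_) ht
      by_contra hh
      push Not at hh
      have : Finset.univ.filter (Big (Q : Subgroup (Perm α)) z) ⊆ l.toFinset := fun b hb =>
        List.mem_toFinset.2 (hh b (by simpa using hb))
      have := (Finset.card_le_card this).trans (List.toFinset_card_le l)
      omega
    · push Not at ht
      obtain ⟨a, b, ha, hb, hab⟩ := ht
      exact S.caseIII D h1 h2 hr ha hb hab

/-- Direct decomposability of the Sylow 2-subgroups of the alternating groups. Let n ≥ 4 and let P be a Sylow 2-subgroup of the alternating group of degree n. Then P is the internal direct product of two nontrivial subgroups if and only if n = 4, n = 5, or n ≡ 2, 3 (mod 4) with 4⌊n/4⌋ not a power of 2. In the remaining cases (n ≡ 0, 1 (mod 4) with n ≥ 8, or n ≡ 2, 3 (mod 4) with 4⌊n/4⌋ a power of 2) P is directly indecomposable. -/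
theorem result (n : ℕ) (hn : 4 ≤ n)
    (P : Sylow 2 (alternatingGroup (Fin n))) :
    (∃ S₁ S₂ : Subgroup (alternatingGroup (Fin n)), S₁ ≠ ⊥ ∧ S₂ ≠ ⊥ ∧
        Cfsg.IsInternalDirectProduct S₁ S₂ (P : Subgroup (alternatingGroup (Fin n)))) ↔
      (n = 4 ∨ n = 5 ∨ ((n % 4 = 2 ∨ n % 4 = 3) ∧ ∀ r : ℕ, 4 * (n / 4) ≠ 2 ^ r)) := by
  by_cases h45 : n = 4 ∨ n = 5
  · exact ⟨fun _ => by tauto, fun _ => small' n h45 P⟩
  obtain ⟨Q, hQ⟩ := (P.isPGroup'.map (alternatingGroup (Fin n)).subtype).exists_le_sylow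
  have hP : (Q : Subgroup (Perm (Fin n))).comap (alternatingGroup (Fin n)).subtype = P :=
    P.3 (Q.isPGroup'.comap_subtype) (Subgroup.map_le_iff_le_comap.1 hQ)
  rw [dec_iff _ Q (fun x => by rw [← hP]; rfl), main Q (by simp; omega), Fintype.card_fin]
  tauto

end Cfsg.Agent.S2221
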