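import Cfsg.Statements.S2222
import Cfsg.Agent.Small.SymSyl2

set_option autoImplicit false
open Cfsg

namespace Cfsg.Agent.S2222

open Subgroup in
theorem pronormal_of {G : Type*} [Group G] [Finite G] {p : ℕ} [Fact p.Prime] (Q : Sylow p G)
    (H : Subgroup G) (hQ : (Q : Subgroup G) ≤ H)
    (h : normalizer ((Q : Subgroup G) : Set G) ≤ normalizer (H : Set G)) : IsPronormal H := by
  intro g
  set L := H ⊔ H.map (MulAut.conj g).toMonoidHom
  have h1 : (Q : Subgroup G) ≤ L := hQ.trans le_sup_left
  have h2 : ((g • Q : Sylow p G) : Subgroup G) ≤ L := by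
    rintro _ ⟨x, hx, rfl⟩
    exact mem_sup_right ⟨x, hQ hx, rfl⟩
  obtain ⟨c, hc⟩ := MulAction.exists_smul_eq L ((g • Q).subtype h2) (Q.subtype h1)
  have hc' : (c : G) • (g • Q) = Q := by
    have := Sylow.smul_subtype h2 c
    rw [hc] at this
    exact (Sylow.subtype_injective this).symm
  rw [← mul_smul, Sylow.smul_eq_iff_mem_normalizer] at hc'
  have h3 := h hc'
  refine ⟨(c : G)⁻¹, L.inv_mem c.2, ?_⟩
  ext y
  constructor
  · rintro ⟨x, hx, rfl⟩
    exact ⟨_, (mem_normalizer_iff.1 h3 x).1 hx, by simp [mul_assoc]⟩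
  · rintro ⟨x, hx, rfl⟩
    exact ⟨_, (mem_normalizer_iff''.1 h3 x).1 hx, by simp [mul_assoc]⟩

/-- In the alternating group of degree n ≥ 5 every subgroup H of odd index is pronormal: for every element g, the subgroups H and gHg⁻¹ are conjugate by an element of the subgroup they generate. -/
theorem result (n : ℕ) (hn : 5 ≤ n)
    (H : Subgroup (alternatingGroup (Fin n))) (hH : Odd H.index) : Cfsg.IsPronormal H := by
  obtain ⟨Q₀⟩ : Nonempty (Sylow 2 H) := inferInstance
  have hQ₀ : IsPGroup 2 ((Q₀ : Subgroup H).map H.subtype) := Q₀.isPGroup'.map _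
  have hi : ¬ 2 ∣ ((Q₀ : Subgroup H).map H.subtype).index := by
    rw [Subgroup.index_map_subtype]
    exact fun h => ((Nat.Prime.dvd_mul Nat.prime_two).1 h).elim Q₀.not_dvd_index
      (Nat.two_dvd_ne_zero.2 (Nat.odd_iff.1 hH))
  let Q := hQ₀.toSylow hi
  have hQ : (Q : Subgroup _) ≤ H := Subgroup.map_subtype_le _
  refine pronormal_of Q H hQ ?_
  rcases hn.eq_or_lt with rfl | h6
  · obtain ⟨P, hP⟩ := Q.exists_comap_subtype_eq
    obtain ⟨x, h1, h2⟩ := Small.exists_fixed_of_pow (k := 2) le_rfl (by simp) P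
    have key : ∀ K : Subgroup (alternatingGroup (Fin 5)), (Q : Subgroup _) ≤ K → K ≠ ⊤ →
        K ≤ MulAction.stabilizer (alternatingGroup (Fin 5)) x := fun K h3 h4 => by
      rcases h2 (K.map (alternatingGroup (Fin 5)).subtype) (fun g hg =>
        ⟨⟨g, hg.2⟩, h3 (by rw [← hP]; exact hg.1), rfl⟩) with h5 | h5
      · exact fun g hg => h5 ⟨g, hg, rfl⟩
      · exact absurd (eq_top_iff.2 fun g _ => by
          obtain ⟨k, hk, e⟩ := h5 g.2
          exact Subtype.ext e ▸ hk) h4
    set M := MulAction.stabilizer (alternatingGroup (Fin 5)) x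
    have h60 : Nat.card (alternatingGroup (Fin 5)) = 60 := by
      rw [nat_card_alternatingGroup]; simp; rfl
    have hc : Nat.card (Q : Subgroup (alternatingGroup (Fin 5))) = 4 := by
      rw [Q.card_eq_multiplicity, h60, Nat.factorization_def _ Nat.prime_two]
      decide +kernel
    have hM : Nat.card M = 12 := by
      haveI := alternatingGroup.isPretransitive_of_three_le_card (Fin 5) (by simp)
      have := M.card_mul_index
      rw [MulAction.index_stabilizer_of_transitive, h60] at this
      simp only [Nat.card_eq_fintype_card (α := Fin 5), Fintype.card_fin] at this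
      omega
    by_cases h3 : H = ⊤
    · rw [h3]; exact fun g _ x => by simp
    have h4 := key H hQ h3
    by_cases h5 : H = Q
    · rw [h5]
    have h6 : H = M := by
      have h7 := Subgroup.card_dvd_of_le hQ
      have h8 := Subgroup.card_dvd_of_le h4
      have h9 : Nat.card H ≠ 4 := fun e => h5 (Subgroup.eq_of_le_of_card_ge hQ (by omega)).symm
      refine Subgroup.eq_of_le_of_card_ge h4 ?_
      rw [hc] at h7
      rw [hM] at h8 ⊢
      have := Nat.le_of_dvd (by norm_num) h8
      generalize Nat.card H = k at *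
      interval_cases k <;> omega
    refine (key _ Subgroup.le_normalizer fun e => ?_).trans (h6 ▸ Subgroup.le_normalizer)
    rcases (Subgroup.normalizer_eq_top_iff.1 e).eq_bot_or_eq_top with h7 | h7
    · rw [h7] at hc; simp at hc
    · rw [h7, Subgroup.card_top, h60] at hc; omega
  · exact fun g hg => Subgroup.le_normalizer (hQ (Small.mem_of_norm_alt (by rw [Fintype.card_fin]; omega) Q hg))

end Cfsg.Agent.S2222
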