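import Cfsg.Statements.S2225
import Cfsg.Agent.Classical.Pron4

set_option autoImplicit false
open Cfsg

namespace Cfsg.Agent.S2225

open Cfsg.Agent.Classical

/-- Let F be a finite field and d = 2^w ≥ 2 a power of 2 such that PSL_d(F) is simple. Then every subgroup H of PSL_d(F) of odd index is pronormal: for every g, H and gHg⁻¹ are conjugate by an element of the subgroup they generate. -/
theorem result {F : Type*} [Field F] [Fintype F]
    (w : ℕ) (hw : 1 ≤ w) (hs : IsSimpleGroup (Matrix.ProjectiveSpecialLinearGroup (Fin (2 ^ w)) F))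
    (H : Subgroup (Matrix.ProjectiveSpecialLinearGroup (Fin (2 ^ w)) F)) (hH : Odd H.index) : Cfsg.IsPronormal H := by
  refine (?_ : OP _) H hH
  by_cases h2 : (2 : F) = 0
  · have := CharTwo.of_one_ne_zero_of_two_eq_zero one_ne_zero h2
    obtain rfl | hw := hw.eq_or_lt
    · exact op_SL2_two.of_surj (pslMk F) pslMk_surjective
    · exact op_PSL_two (le_trans (by norm_num) (Nat.pow_le_pow_right two_pos hw))
  obtain rfl | hw := hw.eq_or_lt
  · exact op_PSL2_odd h2
  · exact (Pron.op_SL_odd h2 hw).of_surj _ (QuotientGroup.mk'_surjective _)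

end Cfsg.Agent.S2225
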