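import Cfsg.Statements.S2226
import Cfsg.Agent.Classical.Pron4

set_option autoImplicit false
open Cfsg

namespace Cfsg.Agent.S2226

open Cfsg.Agent.Classical

/-- Let F be a finite field with q² elements and d = 2^w ≥ 4 a power of 2 such that the unitary group PSU_d(q) (realised over F) is simple. Then every subgroup H of PSU_d(q) of odd index is pronormal: for every g, H and gHg⁻¹ are conjugate by an element of the subgroup they generate. -/
theorem result {F : Type*} [Field F] [Fintype F] (q : ℕ)
    (hF : Fintype.card F = q ^ 2) (w : ℕ) (hw : 2 ≤ w) (hs : IsSimpleGroup (Cfsg.PSU (2 ^ w) F q))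
    (H : Subgroup (Cfsg.PSU (2 ^ w) F q)) (hH : Odd H.index) : Cfsg.IsPronormal H := by
  refine (?_ : OP _) H hH
  by_cases h2 : (2 : F) = 0
  · have := CharTwo.of_one_ne_zero_of_two_eq_zero one_ne_zero h2
    exact op_PSU_two (le_trans (by norm_num) (Nat.pow_le_pow_right two_pos hw)) hF
  · exact (Pron.op_SU_odd h2 hF hw).of_surj _ (QuotientGroup.mk'_surjective _)

end Cfsg.Agent.S2226
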