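import Cfsg.Statements.S2227
import Cfsg.Agent.Known.O5C

set_option autoImplicit false
open Cfsg Cfsg.Lie Cfsg.Agent.Chev Cfsg.Agent.Chev.Sys Cfsg.Agent.Known.O5 Subgroup

namespace Cfsg.Agent.S2227

/-- In the twisted group ²E₆(2) all elements of order 5 are conjugate, and the centralizer of an element of order 5 is isomorphic to the direct product of a cyclic group of order 5 with the alternating group of degree 8. -/
theorem result {K : Type*} [Field K] [Fintype K] (hK : Fintype.card K = 4) :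
    (∀ x y : ↥(Cfsg.Lie.twistedE6 K 2), orderOf x = 5 → orderOf y = 5 → IsConj x y) ∧
      ∀ x : ↥(Cfsg.Lie.twistedE6 K 2), orderOf x = 5 →
        Nonempty (↥(Subgroup.centralizer ({x} : Set ↥(Cfsg.Lie.twistedE6 K 2))) ≃* (Multiplicative (ZMod 5) × ↥(alternatingGroup (Fin 8)))) := by
  have hK' : Nat.card K = 2 ^ 2 := Nat.card_eq_fintype_card.trans hK
  obtain ⟨φ0, hφ0, h2⟩ := exists_φE6 Nat.prime_two.isPrimePow hK'
  have two0 : ((2 : ℕ) : K) = 0 := by
    have := FiniteField.cast_card_eq_zero K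
    rw [hK] at this
    exact mul_self_eq_zero.1 (by rw [← this]; norm_num)
  have := ringChar.of_eq (CharP.ringChar_of_prime_eq_zero Nat.prime_two two0)
  let L := AlgebraicClosure K
  let ι := algebraMap K L
  have two : (2 : L) = 0 := CharP.cast_eq_zero L 2
  obtain ⟨_, φ, hφ, hL, -, h6⟩ := twE6_ok.exists_lang symE6 symE6_ρ ι (hasRepE6 L) (tor_injectiveE6 L) Nat.cast_zero hφ0 ordE6
    (hK'.trans (mul_one _).symm)
  change (αE6 φ).IsLang at hL
  rw [fix_mapE6 hφ0 h2] at h6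
  change _ = (αE6 φ).fix.map _ at h6
  have : NeZero ((5 : ℕ) : L) := ⟨fun h => one_ne_zero (α := L) (by linear_combination h - 2 * two)⟩
  obtain ⟨ζ0, hζ⟩ := HasEnoughRootsOfUnity.exists_primitiveRoot L 5
  obtain ⟨ζ, rfl⟩ := hζ.isUnit (by decide)
  have h : orderOf ζ = 5 := (IsPrimitiveRoot.coe_units_iff.1 hζ).eq_orderOf.symm
  obtain ⟨x, -, hx⟩ := hL ⊤ (by simp) (by rw [← stS_U_univ]; exact U_le_con _) ((stS chevE6 L).n (sm (s 0)) 1) trivial
  have k : ∀ y, x * y * x⁻¹ ∈ (αE6 φ).fix ↔ τ φ y = y := fun y => by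
    rw [Aut.mem_fix, map_mul, map_mul, map_inv, inv_mul_eq_iff_eq_mul.1 hx, τ_apply, mul_inv_rev, ← mul_assoc, mul_left_inj,
      mul_assoc, mul_assoc, mul_right_inj, mul_assoc]
  have ht := (k _).2 ((τ_tor hφ (a0 ζ)).trans (congrArg _ (funext fun j => by
    fin_cases j <;> simp [a0, gt, s, ← pow_mul]
    rw [inv_eq_iff_mul_eq_one, ← pow_succ]; exact orderOf_dvd_iff_pow_eq_one.1 h.dvd)))
  let e := ((twistedE6 K 2).equivMapOfInjective _ (Units.map_injective (Matrix.map_injective ι.injective))).trans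
    (MulEquiv.subgroupCongr h6)
  let p := e.symm.toMonoidHom.comp ((stCover chevE6 L).π.subgroupMap (αE6 φ).fix)
  have hs : Function.Surjective p := e.symm.surjective.comp (MonoidHom.subgroupMap_surjective _ _)
  have hp : ∀ y, p y = 1 ↔ y.1 ∈ center _ := fun y => by
    rw [(stCover chevE6 L).mem_center_iff (stS_U_univ _ _)]
    exact (e.symm.map_eq_one_iff).trans Subtype.ext_iff
  have hp' : ∀ y, p y = 1 → y ∈ center _ ∧ y ^ 3 = 1 := fun y hy => by
    have c := (hp y).1 hy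
    refine ⟨mem_center_iff.2 fun z => Subtype.ext (mem_center_iff.1 c z), Subtype.ext ?_⟩
    obtain ⟨a, ha⟩ := (stS_mult chevE6 L).exists_tor ((stCover chevE6 L).mem_H_of_mem_center (stS_U_univ _ _) c)
    rw [(stCover chevE6 L).mem_center_iff (stS_U_univ _ _), ha, Mult.π_tor_eq_one] at c
    rw [coe_pow, ha, ← map_pow, show a ^ 3 = 1 from zker_cube c, map_one, coe_one]
  have key : ∀ y : twistedE6 K 2, orderOf y = 5 → IsConj (p ⟨_, ht⟩) y := fun y hy => by
    obtain ⟨z, rfl⟩ := hs y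
    have b1 : p z ^ 5 = 1 := hy ▸ pow_orderOf_eq_one _
    have b2 : p (z ^ 6) = p z := by rw [map_pow, pow_succ, b1, one_mul]
    have b3 : (z ^ 6) ^ 5 = 1 := by
      rw [← pow_mul, show 6 * 5 = 5 * 3 * 2 from rfl, pow_mul, pow_mul, (hp' _ ((map_pow p z 5).trans b1)).2, one_pow]
    obtain ⟨g, g1, g2⟩ := conj_fix (bigE6 K 2) h hφ hL ht (z ^ 6).2 (congrArg Subtype.val b3) fun c => by
      rw [← b2, show z ^ 6 = 1 from Subtype.ext c] at hy
      simp at hy
    exact b2 ▸ p.map_isConj (isConj_iff.2 ⟨⟨g, g1⟩, Subtype.ext g2⟩)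
  refine ⟨fun a b ha hb => (key a ha).symm.trans (key b hb), fun y hy => ?_⟩
  obtain ⟨g, rfl⟩ := isConj_iff.1 (key y hy)
  obtain ⟨ψ, ψ1, ψ2⟩ := exists_A8 (L := L)
  have ψ3 : ∀ a, ψ a ∈ Q0 L := fun a => ψ2 ▸ ⟨a, rfl⟩
  refine cent_equiv (p := (MulAut.conj g).toMonoidHom.comp p) ((MulAut.conj g).surjective.comp hs)
    (fun y hy => hp' y (by simpa using hy)) (s := ⟨_, ht⟩) ?_
    (ψ := ((MulAut.conj x).toMonoidHom.comp ψ).codRestrict _ fun a => (k _).2 (τ_Q0 two hφ (ψ3 a)))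
    (fun a b c => ψ1 ((MulAut.conj x).injective (congrArg Subtype.val c))) (alternatingGroup.center_eq_bot (by simp))
    (fun a => Subtype.ext ?_) fun y hy => ?_
  · have := Fact.mk Nat.prime_five
    rw [← Subgroup.orderOf_coe]
    refine ((MulAut.conj x).orderOf_eq _).trans ((orderOf_injective _ (tor_injectiveE6 L) _).trans (orderOf_eq_prime (a0_pow h) fun c => ?_))
    have : ζ ^ 1 = 1 := congrFun c (s 0)
    simp_all
  · exact ((Commute.conj_iff x).2 (mem_centralizer_singleton_iff.1 ((stS_mult chevE6 L).cj_fix _ ▸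
      (stS_mult chevE6 L).U_Ker_le _ (ker_a0 h ▸ Q0_le (ψ3 a)))).symm).eq
  · obtain ⟨i, c, c1, l, c2, c3⟩ := dec two hφ h (y := x⁻¹ * y * x) (mem_centralizer_singleton_iff.2 (by
      simpa [mul_assoc] using congrArg (x⁻¹ * ·.1 * x) hy.eq)) ((k _).1 (by simp [mul_assoc]))
    obtain ⟨a, rfl⟩ := ψ2.ge c2
    refine ⟨i, a, ((_ : (αE6 φ).fix) ^ i * _)⁻¹ * y, ?_, (mul_inv_cancel_left _ _).symm⟩
    rw [MonoidHom.comp_apply, (hp _).2, map_one]
    convert c1 using 1
    have c4 := (show (y : chevE6.SteinbergGroup L) = x * (x⁻¹ * y * x) * x⁻¹ by group).trans (congrArg (x * · * x⁻¹) c3)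
    show ((x * _ * x⁻¹) ^ i * (x * ψ a * x⁻¹))⁻¹ * y = c
    rw [c4, conj_pow]
    exact Eq.trans (by group) ((congrArg (· * x⁻¹) (mem_center_iff.1 c1 x)).trans (mul_inv_cancel_right c x))

end Cfsg.Agent.S2227
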