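import Cfsg.Statements.S2231
import Cfsg.Agent.Classical.PSL2Four
import Cfsg.Agent.PLocal.Qd

set_option autoImplicit false
open Cfsg

namespace Cfsg.Agent.S2231

open Cfsg.Agent.Classical Matrix Subgroup MulAction

/-- Let p be an odd prime and K a finite field of characteristic p. Then Qd(p) (the natural semidirect product of an elementary abelian group of order p² by SL₂(p)) is not involved in the projective special linear group PSL₂(K). -/
theorem result {p : ℕ} [Fact p.Prime] (hp : p ≠ 2) {K : Type*} [Field K] [Fintype K] [CharP K p] : ¬ Cfsg.Involves ↥(Cfsg.qd p) (Matrix.ProjectiveSpecialLinearGroup (Fin 2) K) := by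
  intro h
  let Q : Subgroup (Cfsg.qd p) :=
    { carrier := {M | ∃ y b, M.1 = PLocal.qdM y (uSL b)}
      one_mem' := ⟨0, 0, by rw [uSL_zero, PLocal.qdM_one]; rfl⟩
      mul_mem' := by
        rintro a b ⟨y, c, h1⟩ ⟨z, d, h2⟩
        exact ⟨_, c + d, by rw [coe_mul, h1, h2, PLocal.qdM_mul, uSL_add]⟩
      inv_mem' := by
        rintro a ⟨y, c, h1⟩
        exact ⟨_, -c, by rw [coe_inv, h1, PLocal.qdM_inv, uSL_inv]⟩ }
  have hQ : IsPGroup p Q := by
    have h1 : ∀ (n : ℕ) y (b : ZMod p), ∃ z, PLocal.qdM y (uSL b) ^ n =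
        PLocal.qdM z (uSL (n * b)) ∧ (b = 0 → z = (n : ZMod p) • y) := fun n y b => by
      induction n with
      | zero => exact ⟨0, by simp [PLocal.qdM_one], by simp⟩
      | succ n ih =>
        obtain ⟨z, h1, h2⟩ := ih
        refine ⟨_, by rw [pow_succ, h1, PLocal.qdM_mul, ← uSL_add, Nat.cast_succ, add_one_mul],
          fun e => ?_⟩
        rw [h2 e, e, mul_zero, uSL_zero, Nat.cast_succ, add_smul]
        simp
    rintro ⟨M, y, b, hM⟩
    obtain ⟨z, h2, -⟩ := h1 p y b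
    obtain ⟨w, h3, h4⟩ := h1 p z (p * b)
    refine ⟨2, Subtype.ext (Subtype.ext ?_)⟩
    rw [coe_pow, coe_pow, sq, pow_mul, hM, h2, h3, h4 (by simp)]
    simpa using PLocal.qdM_one
  have := (PLocal.involves_iff_top.1 h).abelian (fun R _ hR => by
    obtain ⟨x, hx⟩ := (unipAct_PSL (F := K) p).exists_le_U (not_char_dvd_card_P1 K p) hR
    exact ⟨⟨fun a b => Subtype.ext (pslInj (by
      simp only [coe_mul, map_mul]
      exact pgl_commute_of_unip p (by rw [← map_pow, (hx a.2).1, map_one])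
        (by rw [← map_pow, (hx b.2).1, map_one]) ((psl_smul_eq _ x).symm.trans (hx a.2).2)
        ((psl_smul_eq _ x).symm.trans (hx b.2).2)))⟩⟩) Q hQ
  have e := congrArg (fun M : Q => M.1.1.1 0 2) (this.is_comm.comm
    ⟨⟨_, PLocal.mem_qd.2 ⟨0, uSL 1, rfl⟩⟩, 0, 1, rfl⟩
    ⟨⟨_, PLocal.mem_qd.2 ⟨![0, 1], uSL 0, rfl⟩⟩, _, 0, rfl⟩)
  simp [PLocal.qdM_mul, PLocal.coe_qdM] at e

end Cfsg.Agent.S2231
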