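import Cfsg.Statements.S2232
import Cfsg.Agent.PLocal.QdR2
import Cfsg.Agent.PLocal.OpMod
import Cfsg.Agent.Geom.Std

set_option autoImplicit false
open Cfsg

namespace Cfsg.Agent.S2232

open Subgroup Geom Module

lemma not_inv {G : Type*} [Group G] [Finite G] {p : ℕ} [Fact p.Prime] (hp : p ≠ 2)
    (h : ∀ T : Subgroup G, T ≠ ⊥ → IsPGroup p T → ∀ a ∈ normalizer (T : Set G),
      ∀ b ∈ normalizer (T : Set G), ∀ i j : ℕ, a ^ p ^ i = 1 → b ^ p ^ j = 1 → (a * b) ^ p = 1) :
    ¬ PLocal.Involves (⊤ : Subgroup G) (qd p) := by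
  rintro ⟨K, -, f, hf⟩
  let N : Subgroup K := (PLocal.qdV p).comap f
  obtain ⟨P⟩ : Nonempty (Sylow p N) := inferInstance
  have hF := P.normalizer_sup_eq_top
  set T : Subgroup K := (P : Subgroup N).map N.subtype with hT
  have hTp : IsPGroup p T := P.isPGroup'.map _
  have hT0 : T ≠ ⊥ := by
    intro h0
    have h1 : (P : Subgroup N) = ⊥ := (map_eq_bot_iff_of_injective _ N.subtype_injective).mp h0
    have h2 : p ∣ Nat.card N := by
      have h3 : Nat.card (N.map f) ∣ Nat.card N := card_map_dvd _ _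
      rw [map_comap_eq_self_of_surjective hf, PLocal.card_qdV] at h3
      exact (dvd_pow_self p two_ne_zero).trans h3
    exact P.ne_bot_of_dvd_card h2 h1
  let ψ := ((PLocal.qdL p).comp f).comp (normalizer (T : Set K)).subtype
  have hψ : Function.Surjective ψ := by
    intro g
    obtain ⟨x, hx⟩ := hf (PLocal.qdE 0 g)
    have : x ∈ normalizer (T : Set K) ⊔ N := hF ▸ mem_top x
    obtain ⟨y, hy, z, hz, rfl⟩ := mem_sup_of_normal_right.mp this
    refine ⟨⟨y, hy⟩, ?_⟩
    have h1 : PLocal.qdL p (f z) = 1 := by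
      rw [← MonoidHom.mem_ker, PLocal.ker_qdL]; exact hz
    have h2 := congrArg (PLocal.qdL p) hx
    rw [map_mul, map_mul, h1, mul_one, PLocal.qdL_apply] at h2
    exact h2
  have lift : ∀ g : PLocal.SL2 (ZMod p), g ^ p = 1 → ∃ a : K, ∃ ha : a ∈ normalizer (T : Set K),
      ∃ i, a ^ p ^ i = 1 ∧ ψ ⟨a, ha⟩ = g := by
    intro g hg
    have hz : IsPGroup p (zpowers g) := by
      rintro ⟨_, k, rfl⟩
      refine ⟨1, Subtype.ext ?_⟩
      show (g ^ k) ^ p ^ 1 = 1
      rw [pow_one, ← zpow_natCast, ← zpow_mul, mul_comm, zpow_mul, zpow_natCast, hg, one_zpow]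
    obtain ⟨R, hR, hRe⟩ := PLocal.exists_lift_pgroup hψ hz
    obtain ⟨a, ha, hag⟩ := hRe.ge (mem_zpowers g)
    obtain ⟨i, hi⟩ := hR ⟨a, ha⟩
    exact ⟨a.1, a.2, i, congrArg (fun x => x.1.1) hi, hag⟩
  have hU : ∀ (c : ZMod p) (n : ℕ), PLocal.tU c ^ n = PLocal.tU (n * c) := by
    intro c n
    induction n with
    | zero => simp [PLocal.tU_zero]
    | succ n ih =>
      rw [pow_succ, ih]; ext i j
      fin_cases i <;> fin_cases j <;> simp [Matrix.mul_apply, Fin.sum_univ_two]; ring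
  have hL : ∀ (c : ZMod p) (n : ℕ), PLocal.tL c ^ n = PLocal.tL (n * c) := by
    intro c n
    induction n with
    | zero => ext i j; fin_cases i <;> fin_cases j <;> simp
    | succ n ih =>
      rw [pow_succ, ih]; ext i j
      fin_cases i <;> fin_cases j <;> simp [Matrix.mul_apply, Fin.sum_univ_two]; ring
  obtain ⟨a, ha, i, hai, hau⟩ := lift (PLocal.tU 1) (by rw [hU]; simp [PLocal.tU_zero])
  obtain ⟨b, hb, j, hbj, hbu⟩ := lift (PLocal.tL (-1)) (by
    rw [hL]; ext i j; fin_cases i <;> fin_cases j <;> simp)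
  have h1 := h (T.map K.subtype) (by rwa [Ne, map_eq_bot_iff_of_injective _ K.subtype_injective])
    (hTp.map _) a (le_normalizer_map _ ⟨a, ha, rfl⟩) b (le_normalizer_map _ ⟨b, hb, rfl⟩) i j
    (congrArg Subtype.val hai) (congrArg Subtype.val hbj)
  have h2 : (PLocal.tU (1 : ZMod p) * PLocal.tL (-1)) ^ p = 1 := by
    rw [← hau, ← hbu, ← map_mul, ← map_pow, ← map_one ψ]
    congr 1
    exact Subtype.ext (Subtype.ext h1)
  have h3 : ((PLocal.tU (1 : ZMod p) * PLocal.tL (-1)) ^ 3).1 = -1 := by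
    ext i j
    fin_cases i <;> fin_cases j <;>
      simp [pow_succ, Matrix.mul_apply, Fin.sum_univ_two]
  have h4 : (((PLocal.tU (1 : ZMod p) * PLocal.tL (-1)) ^ 3) ^ p).1 = 1 := by
    rw [← pow_mul, mul_comm, pow_mul, h2, one_pow]; rfl
  rw [Matrix.SpecialLinearGroup.coe_pow, h3,
    ((Fact.out : p.Prime).odd_of_ne_two hp).neg_one_pow] at h4
  have h5 := congrFun (congrFun h4 0) 0
  simp only [Matrix.neg_apply, Matrix.one_apply_eq] at h5
  have h6 : ((2 : ℕ) : ZMod p) = 0 := by push_cast; linear_combination -h5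
  exact hp ((Nat.prime_dvd_prime_iff_eq Fact.out Nat.prime_two).mp
    ((ZMod.natCast_eq_zero_iff 2 p).mp h6))

section
variable {F V : Type*} [Field F] [AddCommGroup V] [Module F V] {p : ℕ} [Fact p.Prime] [CharP F p]

lemma eig {g : V ≃ₗ[F] V} {k : ℕ} (hg : g ^ p ^ k = 1) {W : Submodule F V}
    (hW : ∀ w ∈ W, g w ∈ W) {x : V} (hx : x ∉ W) {μ : F} (h : g x - μ • x ∈ W) : μ = 1 := by
  have : ∀ n : ℕ, (g ^ n) x - μ ^ n • x ∈ W := by
    intro n
    induction n with
    | zero => simp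
    | succ n ih =>
      have := add_mem (hW _ ih) (W.smul_mem (μ ^ n) h)
      rw [pow_succ', LinearEquiv.mul_apply]
      convert this using 1
      simp only [map_sub, map_smul, smul_sub, pow_succ, mul_smul]; abel
  have h1 := this (p ^ k)
  rw [hg] at h1
  have h2 : (1 - μ ^ p ^ k) • x ∈ W := by simpa [sub_smul] using h1
  have h3 : 1 - μ ^ p ^ k = 0 := by
    by_contra h3; exact hx ((W.smul_mem_iff h3).mp h2)
  have h4 := sub_pow_char_pow (p := p) 1 μ k
  rw [one_pow, h3] at h4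
  exact (sub_eq_zero.mp (pow_eq_zero_iff (pow_ne_zero _ (Fact.out : p.Prime).ne_zero) |>.mp h4)).symm

lemma main {σ : F →+* F} [Finite V] (Φ : Formed σ V) (hΦ : Φ.Nondeg) (h3 : finrank F V = 3)
    (hp : p ≠ 2) (T : Subgroup Φ.isom) (hT : T ≠ ⊥) (hTp : IsPGroup p T) :
    ∀ a ∈ normalizer (T : Set Φ.isom), ∀ b ∈ normalizer (T : Set Φ.isom), ∀ i j : ℕ,
      a ^ p ^ i = 1 → b ^ p ^ j = 1 → (a * b) ^ p = 1 := by
  haveI : Module.Finite F V := Module.Finite.of_finite
  let C : Submodule F V :=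
    { carrier := {v | ∀ t ∈ T, t.1 v = v}
      add_mem' := fun ha hb t ht => by rw [map_add, ha t ht, hb t ht]
      zero_mem' := fun t _ => map_zero _
      smul_mem' := fun c v hv t ht => by rw [map_smul, hv t ht] }
  have hC : ∀ g ∈ normalizer (T : Set Φ.isom), ∀ v ∈ C, g.1 v ∈ C := by
    intro g hg v hv t ht
    have := hv _ ((mem_normalizer_iff.mp (inv_mem hg) t).mp ht)
    conv_rhs => rw [← this]
    simp
  have hD : ∀ g ∈ normalizer (T : Set Φ.isom), ∀ v ∈ Φ.perp C, g.1 v ∈ Φ.perp C := by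
    intro g hg v hv
    rw [Formed.mem_perp] at hv ⊢
    intro u hu
    rw [← hv _ (hC _ (inv_mem hg) u hu), ← (Φ.mem_isom.mp g.2).1 ((g⁻¹).1 u) v]
    simp
  have hD0 : Φ.perp C ≠ ⊥ := by
    intro h0
    have h1 := hΦ.perp_perp C
    rw [h0, Formed.perp_bot] at h1
    apply hT
    rw [eq_bot_iff]
    intro t ht
    exact Subtype.ext (LinearEquiv.ext fun v => (h1.le Submodule.mem_top) t ht)
  letI : MulAction T (Φ.perp C) :=
    { smul := fun t v => ⟨t.1.1 v.1, hD _ (le_normalizer t.2) _ v.2⟩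
      one_smul := fun _ => rfl
      mul_smul := fun _ _ _ => rfl }
  have hdvd : p ∣ Nat.card (Φ.perp C) := by
    obtain ⟨v, hv, hv1⟩ := Submodule.exists_mem_ne_zero_of_ne_bot hD0
    have hv0 : (⟨v, hv⟩ : Φ.perp C) ≠ 0 := fun h => hv1 (congrArg Subtype.val h)
    have : addOrderOf (⟨v, hv⟩ : Φ.perp C) = p := by
      apply addOrderOf_eq_prime _ hv0
      rw [← Nat.cast_smul_eq_nsmul F, CharP.cast_eq_zero, zero_smul]
    exact this ▸ addOrderOf_dvd_natCard _
  obtain ⟨⟨w, hw⟩, hw1, hw0⟩ := hTp.exists_fixed_point_of_prime_dvd_card_of_fixed_point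
    (Φ.perp C) hdvd (a := 0) (fun t => Subtype.ext (map_zero _))
  have hwne : w ≠ 0 := fun h => hw0 (Subtype.ext h.symm)
  have hwC : w ∈ C := fun t ht => congrArg Subtype.val (hw1 ⟨t, ht⟩)
  have hW : C ⊓ Φ.perp C = F ∙ w := by
    have h1 := hΦ.two_mul_finrank_le (U := C ⊓ Φ.perp C)
      (inf_le_right.trans (Φ.perp_anti inf_le_left))
    symm
    apply Submodule.eq_of_le_of_finrank_le
      ((Submodule.span_singleton_le_iff_mem _ _).mpr (Submodule.mem_inf.mpr ⟨hwC, hw⟩))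
    rw [finrank_span_singleton hwne]; omega
  have hww : w ∈ Φ.perp (F ∙ w) := Φ.mem_perp_span_singleton.mpr (Φ.mem_perp.mp hw w hwC)
  have hrk : finrank F (Φ.perp (F ∙ w)) = 2 := by
    rw [hΦ.finrank_perp, finrank_span_singleton hwne, h3]
  have key : ∀ g ∈ normalizer (T : Set Φ.isom), ∀ i : ℕ, g ^ p ^ i = 1 →
      g.1 w = w ∧ (∀ v, g.1 v - v ∈ Φ.perp (F ∙ w)) ∧ ∀ v ∈ Φ.perp (F ∙ w), g.1 v - v ∈ F ∙ w := by
    intro g hg i hi
    have hi' : g.1 ^ p ^ i = 1 := congrArg Subtype.val hi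
    have h1 : g.1 w = w := by
      have : g.1 w ∈ F ∙ w := hW ▸ ⟨hC g hg w hwC, hD g hg w hw⟩
      obtain ⟨μ, hμ⟩ := Submodule.mem_span_singleton.mp this
      have := eig hi' (W := ⊥) (by simp) (x := w) (by simpa using hwne) (μ := μ) (by simp [hμ])
      rw [← hμ, this, one_smul]
    have h2 : ∀ v, g.1 v - v ∈ Φ.perp (F ∙ w) := fun v => by
      rw [Formed.mem_perp_span_singleton, map_sub, ← (Φ.mem_isom.mp g.2).1 w v, h1, sub_self]
    refine ⟨h1, h2, fun v hv => ?_⟩
    have hWg : ∀ u ∈ F ∙ w, g.1 u ∈ F ∙ w := by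
      intro u hu
      obtain ⟨c, rfl⟩ := Submodule.mem_span_singleton.mp hu
      rwa [map_smul, h1]
    by_cases hvw : v ∈ F ∙ w
    · exact sub_mem (hWg v hvw) hvw
    · have hsup : (F ∙ w) ⊔ (F ∙ v) = Φ.perp (F ∙ w) := by
        apply Submodule.eq_of_le_of_finrank_le
          (sup_le ((Submodule.span_singleton_le_iff_mem _ _).mpr hww)
            ((Submodule.span_singleton_le_iff_mem _ _).mpr hv))
        have := Submodule.finrank_lt_finrank_of_lt (show (F ∙ w) < (F ∙ w) ⊔ (F ∙ v) from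
          left_lt_sup.mpr fun h => hvw (h (Submodule.mem_span_singleton_self v)))
        rw [finrank_span_singleton hwne] at this
        omega
      have h4 : g.1 v ∈ (F ∙ w) ⊔ (F ∙ v) := by
        rw [hsup]; simpa using add_mem (h2 v) hv
      obtain ⟨u, hu, u', hu', he⟩ := Submodule.mem_sup.mp h4
      obtain ⟨μ, rfl⟩ := Submodule.mem_span_singleton.mp hu'
      have h5 : g.1 v - μ • v ∈ F ∙ w := by rw [← he]; simpa using hu
      have := eig hi' hWg hvw h5
      simpa [this] using h5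
  intro a ha b hb i j hi hj
  obtain ⟨a1, a2, a3⟩ := key a ha i hi
  obtain ⟨b1, b2, b3⟩ := key b hb j hj
  let N : Module.End F V := ((a * b).1 : V →ₗ[F] V) - 1
  have hN : ∀ v, N v = (a.1 (b.1 v) - b.1 v) + (b.1 v - v) := fun v => by simp [N]
  have n1 : ∀ v, N v ∈ Φ.perp (F ∙ w) := fun v => hN v ▸ add_mem (a2 _) (b2 _)
  have n2 : ∀ v ∈ Φ.perp (F ∙ w), N v ∈ F ∙ w := fun v hv =>
    hN v ▸ add_mem (a3 _ (by simpa using add_mem (b2 v) hv)) (b3 _ hv)
  have n3 : ∀ v ∈ F ∙ w, N v = 0 := by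
    intro v hv
    obtain ⟨c, rfl⟩ := Submodule.mem_span_singleton.mp hv
    rw [map_smul, hN, b1, a1]; simp
  have hN3 : N ^ 3 = 0 := LinearMap.ext fun v => n3 _ (n2 _ (n1 v))
  haveI : Nontrivial V := ⟨⟨w, 0, hwne⟩⟩
  haveI : CharP (Module.End F V) p := charP_of_injective_algebraMap' F p
  have h4 := sub_pow_char_of_commute p (Commute.one_right ((a * b).1 : Module.End F V))
  have hp3 : 3 ≤ p := by have := (Fact.out : p.Prime).two_le; omega
  rw [pow_eq_zero_of_le hp3 hN3, one_pow, eq_comm, sub_eq_zero] at h4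
  apply Subtype.ext
  ext v
  have := LinearMap.congr_fun h4 v
  rw [Module.End.pow_apply] at this
  rw [SubmonoidClass.coe_pow, LinearEquiv.pow_apply]
  exact this
end

/-- Let p be an odd prime, q a power of p and K a finite field with q² elements. Then Qd(p) (the natural semidirect product of an elementary abelian group of order p² by SL₂(p)) is not involved in the projective special unitary group PSU₃(q) realised over K. -/
theorem result {p : ℕ} [Fact p.Prime] (hp : p ≠ 2) {K : Type*} [Field K] [Fintype K] [CharP K p] (n : ℕ) (hn : 1 ≤ n) (hK : Fintype.card K = (p ^ n) ^ 2) : ¬ Cfsg.Involves ↥(Cfsg.qd p) (Cfsg.PSU 3 K (p ^ n)) := by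
  intro h
  rw [PLocal.involves_iff_top] at h
  have h1 : PLocal.Involves (⊤ : Subgroup (SU 3 K (p ^ n))) (qd p) := by
    apply PLocal.Involves.of_map (φ := QuotientGroup.mk' (center _))
    rwa [map_top_of_surjective _ (QuotientGroup.mk'_surjective _)]
  let φ : SU 3 K (p ^ n) →* (hermFormed hK 3).isom :=
    (((glEquiv (Fin 3) K).toMonoidHom.comp Matrix.SpecialLinearGroup.toGL).comp
      (SU 3 K (p ^ n)).subtype).codRestrict _ fun g => (mem_hermFormed_isom hK 3).mpr g.2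
  have hφ : Function.Injective φ := fun a b hab =>
    Subtype.ext (Matrix.SpecialLinearGroup.toGL_injective
      ((glEquiv (Fin 3) K).injective (congrArg Subtype.val hab)))
  haveI : Finite ((Fin 3 → K) ≃ₗ[K] (Fin 3 → K)) :=
    Finite.of_injective (fun g => (g : (Fin 3 → K) → (Fin 3 → K))) DFunLike.coe_injective
  exact not_inv hp (main _ (hermFormed_nondeg hK 3) (by simp) hp)
    ((h1.map_of_injective hφ).mono le_top)

end Cfsg.Agent.S2232
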