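import Cfsg.Statements.S2240
import Cfsg.Agent.Sz.Subfield

set_option autoImplicit false
open Cfsg

namespace Cfsg.Agent.S2240

open Sz in
theorem aux {F : Type*} [Field F] [Finite F] [Tits F] (G : Type*) [Group G] [SzRep F G] {f : ℕ}
    (hF : Nat.card F = 2 ^ f) (n : ℕ) (hn : 2 ≤ n) :
    (∃ E : Subgroup G, Cfsg.IsElementaryAbelian 2 E ∧ Nat.card ↥E = 2 ^ n ∧
      ∀ x : G, E ⊓ cj x E ≠ ⊥ → x ∈ Subgroup.normalizer (E : Set G)) ↔ n ∣ f := by
  have hcard : ∀ (E : Subgroup G), E ≤ Z F G → ∀ e : F, e ≠ 0 → ∀ K : Subfield F,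
      (∀ μ, μ ∈ K ↔ S G 0 (μ * e) ∈ E) → Nat.card K = Nat.card E := by
    intro E hE e he K hK
    refine Nat.card_congr (Equiv.ofBijective (fun μ => ⟨_, (hK μ).1 μ.2⟩) ⟨fun a b h => ?_, ?_⟩)
    · have h : S G 0 (a * e) = S G 0 (b * e) := congrArg Subtype.val h
      exact Subtype.ext (mul_right_cancel₀ he (S_inj.1 h).2)
    · rintro ⟨g, hg⟩
      obtain ⟨b, rfl⟩ := hE hg
      exact ⟨⟨b / e, (hK _).2 (by rwa [div_mul_cancel₀ _ he])⟩, Subtype.ext (by simp [div_mul_cancel₀ _ he])⟩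
  constructor
  · rintro ⟨E, ⟨h1, h2⟩, h3, h4⟩
    have hE : E ≠ ⊥ := by
      rintro rfl
      rw [Subgroup.card_bot] at h3
      exact absurd h3.symm (Nat.one_lt_two_pow (by omega)).ne'
    obtain ⟨t, ht, ht1⟩ := E.bot_or_exists_ne_one.resolve_left hE
    obtain ⟨x, hx⟩ := exists_conj_of_involution F ht1 (by rw [← sq, h2 t ht])
    wlog hx1 : x = 1 generalizing E t x
    · refine this (cj x⁻¹ E) ?_ ?_ (by rwa [card_cj]) ?_ (by rwa [ne_eq, cj_eq_bot]) (x⁻¹ * t * x)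
        (mem_cj.2 (by simpa [mul_assoc])) (conj_ne_one ht1) 1 (by simpa using hx) rfl
      · infer_instance
      · rintro _ ⟨a, ha, rfl⟩; rw [← map_pow, h2 a ha, map_one]
      · intro y hy
        rw [normalizer_cj, mem_cj]
        apply h4
        rwa [ne_eq, ← cj_eq_bot (x := x⁻¹), cj_inf, cj_cj, inv_inv, ← mul_assoc, ← mul_assoc, inv_mul_cancel, one_mul,
          ← cj_cj]
    subst hx1
    rw [inv_one, one_mul, mul_one] at hx
    subst hx
    have hZ : E ≤ Z F G := by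
      intro g hg
      have := mem_U_of_commute (c := g) (S_mem_U (0 : F) 1) ht1
        (congrArg Subtype.val (h1.is_comm.comm (⟨g, hg⟩ : E) ⟨_, ht⟩))
      exact (mem_Z_iff_sq this).2 (by rw [← sq, h2 g hg])
    have key : ∀ μ : F, μ ≠ 0 → S G 0 μ ∈ E → ∀ b : F, S G 0 b ∈ E ↔ S G 0 (μ * b) ∈ E := by
      intro μ h0 hμ b
      obtain ⟨l, hl⟩ := exists_M_conj_S (G := G) one_ne_zero h0
      have h5 := h4 (M G l) (by
        intro h
        have : S G 0 μ ∈ E ⊓ cj (M G l) E := ⟨hμ, hl ▸ conj_mem_cj.2 ht⟩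
        rw [h, Subgroup.mem_bot, S_eq_one] at this
        exact h0 this.2)
      rw [M_conj_S, mul_zero, mul_one, S_inj] at hl
      rw [Subgroup.mem_normalizer_iff.1 h5, M_conj_S, mul_zero, hl.2]
    let K : Subfield F :=
      { carrier := {μ | S G 0 μ ∈ E}
        one_mem' := ht
        zero_mem' := by simp [E.one_mem]
        add_mem' := fun {a b} ha hb => by simpa [S_mul_S] using E.mul_mem ha hb
        neg_mem' := fun {a} ha => by rwa [CharTwo.neg_eq]
        mul_mem' := fun {a b} ha hb => by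
          by_cases h0 : a = 0
          · simp [h0, E.one_mem]
          · exact (key a h0 ha b).1 hb
        inv_mem' := fun a ha => by
          by_cases h0 : a = 0
          · simp [h0, E.one_mem]
          · exact (key a h0 ha _).2 (by rwa [mul_inv_cancel₀ h0]) }
    exact dvd_of_card_subfield (K := K) (by
      rw [hcard E hZ 1 one_ne_zero K fun μ => by rw [mul_one]; rfl, h3]) hF
  · intro h
    obtain ⟨φ⟩ := nonempty_ringHom (GaloisField.card 2 n (by omega)) hF h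
    set K := φ.fieldRange
    have hK : Nat.card K = 2 ^ n := by
      rw [← GaloisField.card 2 n (by omega)]; exact (Nat.card_congr φ.rangeRestrictFieldEquiv.toEquiv).symm
    have hmem : ∀ b : F, S G 0 b ∈ Z F G ⊓ SzSub G K ↔ b ∈ K := fun b => by
      rw [Subgroup.mem_inf, S_mem_SzSub]; simp [S_mem_Z]
    refine ⟨Z F G ⊓ SzSub G K, ⟨⟨⟨fun a b => Subtype.ext (Z_comm a.2.1 (Z_le_U b.2.1))⟩⟩, ?_⟩, ?_, ?_⟩
    · rintro _ ⟨⟨b, rfl⟩, _⟩; rw [sq, S_zero_mul_self]
    · rw [← hcard _ inf_le_left 1 one_ne_zero K fun μ => by rw [mul_one, hmem], hK]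
    · intro x hx
      obtain ⟨g, ⟨⟨⟨b, rfl⟩, hb⟩, hg⟩, hg1⟩ := (Subgroup.bot_or_exists_ne_one _).resolve_left hx
      have hg := mem_cj.1 hg
      have hb : S G 0 b ∈ SzSub G K := hb
      have hB := mem_B_of_conj_mem_B (S_mem_U 0 b) hg1 (U_le_B (Z_le_U hg.1))
      obtain ⟨a, c, l, rfl⟩ := mem_B.1 hB
      have h1 : ∀ d : F, S G a c * M G l * S G 0 d * (S G a c * M G l)⁻¹ = S G 0 ((l : F) ^ 2 * Tits.θ (l : F) * d) := by
        intro d
        obtain ⟨e, h1, h2⟩ := B_conj_S (G := G) a c l 0 d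
        rw [h1, h2 rfl, mul_zero]
      obtain ⟨⟨d, hd⟩, hd'⟩ := hg
      have h2 := h1 d
      rw [← hd, show ∀ x y : G, x * (x⁻¹ * y * x) * x⁻¹ = y from fun x y => by group, S_inj] at h2
      have hd' : S G 0 d ∈ SzSub G K := hd ▸ hd'
      rw [S_mem_SzSub] at hb hd'
      have hb0 : b ≠ 0 := by rintro rfl; exact hg1 S_zero
      have hd0 : d ≠ 0 := by rintro rfl; exact hb0 (by simpa using h2.2)
      have hμ : (l : F) ^ 2 * Tits.θ (l : F) ∈ K := by
        have := K.div_mem hb.2 hd'.2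
        rwa [h2.2, mul_div_cancel_right₀ _ hd0] at this
      haveI := finite_G F G
      apply Subgroup.mem_normalizer_fintype
      rintro _ ⟨⟨e, rfl⟩, he⟩
      rw [h1, SetLike.mem_coe, hmem]
      exact K.mul_mem hμ (S_mem_SzSub.1 he).2

/-- Elementary abelian TI-subgroups of the Suzuki group: let q = 2^(2m+1) with m ≥ 1, the group realised as the stabiliser in SL₄ of the Suzuki–Tits ovoid, and n ≥ 2. There is an elementary abelian 2-subgroup E of order 2^n that is a TI-subgroup (every conjugate of E meeting E nontrivially is E itself) if and only if n divides 2m + 1. -/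
theorem result {F : Type*} [Field F] [Fintype F] {m : ℕ} (hm : 1 ≤ m) (hF : Fintype.card F = 2 ^ (2 * m + 1)) (n : ℕ) (hn : 2 ≤ n) :
    (∃ E : Subgroup ↥(Cfsg.Sz F m), Cfsg.IsElementaryAbelian 2 E ∧ Nat.card ↥E = 2 ^ n ∧
      ∀ x : ↥(Cfsg.Sz F m), E ⊓ E.map (MulAut.conj x).toMonoidHom ≠ ⊥ → x ∈ Subgroup.normalizer (E : Set ↥(Cfsg.Sz F m))) ↔ n ∣ 2 * m + 1 := by
  let := Sz.titsOfCard hm hF
  let := Sz.ovoidRep (Sz.titsOfCard_θ hm hF)
  exact aux (F := F) _ (by rw [Nat.card_eq_fintype_card, hF]) n hn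

end Cfsg.Agent.S2240
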