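import Cfsg.Statements.S2244
import Cfsg.Agent.Chev.WkC

set_option autoImplicit false
open Cfsg

namespace Cfsg.Agent.S2244

open Cfsg.Agent.Chev Cfsg.Lie

theorem aux {F : Type*} [Field F] {D : Cfsg.Lie.ChevalleyDatum} [Cfsg.Agent.Chev.Good D] {X : Subgroup (GL D.Idx F)}
    (hXU : X ≤ D.posUnipotent F)
    (hwc : ∀ g ∈ D.group F, X.map (MulAut.conj g).toMonoidHom ≤ D.posUnipotent F → X.map (MulAut.conj g).toMonoidHom = X)
    (h : X ≤ (Cfsg.Agent.Chev.adS D F).UP → (∀ y ∈ (Cfsg.Agent.Chev.adS D F).U Set.univ,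
      (∀ z ∈ X, y * z * y⁻¹ ∈ (Cfsg.Agent.Chev.adS D F).UP) → y ∈ Subgroup.normalizer (X : Set (GL D.Idx F))) →
      ∃ J, X = (Cfsg.Agent.Chev.adS D F).U {r | Cfsg.Agent.Chev.Pos r ∧ ¬ Cfsg.Agent.Chev.InJ J r}) :
    ∃ J : Set ℕ, (∀ j ∈ J, j < D.rank) ∧ X = D.unipotentRadical F J := by
  rw [Cfsg.Agent.Chev.posUnipotent_eq] at hXU hwc
  rw [Cfsg.Agent.Chev.group_eq] at hwc
  obtain ⟨J, e⟩ := h hXU fun y hy h => Subgroup.mem_normalizer_iff_map_conj_eq.2 (hwc y hy fun _ ⟨z, hz, e⟩ => e ▸ h z hz)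
  refine ⟨Fin.val '' J, fun _ ⟨j, _, e⟩ => e ▸ j.2, ?_⟩
  rw [Cfsg.Agent.Chev.unipotentRadical_eq, e]
  simp [Fin.val_injective.mem_set_image]


/-- Weakly closed unipotent subgroups of Chevalley groups: let G be the Chevalley group of type G₂, B₂, D₄, F₄, E₆, E₇ or E₈ over a finite field F (the matrix group generated by the root elements), with |F| ≠ 2, and |F| ≠ 3 as well for the types G₂, B₂, D₄, F₄. Let U be the subgroup generated by the positive root subgroups. If X ≤ U is weakly closed in U with respect to G (every G-conjugate of X lying in U equals X), then X is the unipotent radical U_J of a standard parabolic subgroup for some set J of fundamental roots. -/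
theorem result {F : Type*} [Field F] [Fintype F] (D : Cfsg.Lie.ChevalleyDatum) (hD : D ∈ [Cfsg.Lie.chevG2, Cfsg.Lie.chevB2, Cfsg.Lie.chevD4, Cfsg.Lie.chevF4, Cfsg.Lie.chevE6, Cfsg.Lie.chevE7, Cfsg.Lie.chevE8])
    (h2 : Fintype.card F ≠ 2) (h3 : D ∈ [Cfsg.Lie.chevG2, Cfsg.Lie.chevB2, Cfsg.Lie.chevD4, Cfsg.Lie.chevF4] → Fintype.card F ≠ 3)
    (X : Subgroup (GL D.Idx F)) (hXU : X ≤ D.posUnipotent F)
    (hwc : ∀ g ∈ D.group F, X.map (MulAut.conj g).toMonoidHom ≤ D.posUnipotent F → X.map (MulAut.conj g).toMonoidHom = X) :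
    ∃ J : Set ℕ, (∀ j ∈ J, j < D.rank) ∧ X = D.unipotentRadical F J := by
  simp only [List.mem_cons, List.not_mem_nil, or_false] at hD
  rcases hD with rfl | rfl | rfl | rfl | rfl | rfl | rfl
  exacts [aux hXU hwc (WkC.wkc3 (Sys.adCover _ _) WkC.okG2 h2 (h3 (by simp))),
    aux hXU hwc (WkC.wkc3 (Sys.adCover _ _) WkC.okB2 h2 (h3 (by simp))),
    aux hXU hwc (WkC.wkc3 (Sys.adCover _ _) WkC.okD4 h2 (h3 (by simp))),
    aux hXU hwc (WkC.wkc3 (Sys.adCover _ _) WkC.okF4 h2 (h3 (by simp))),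
    aux hXU hwc (WkC.wkc1 (Sys.adCover _ _) WkC.okE6 h2), aux hXU hwc (WkC.wkc1 (Sys.adCover _ _) WkC.okE7 h2),
    aux hXU hwc (WkC.wkc1 (Sys.adCover _ _) WkC.okE8 h2)]

end Cfsg.Agent.S2244
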