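import Cfsg.Statements.S2245
import Cfsg.Agent.Small.SymSyl2

set_option autoImplicit false
open Cfsg

namespace Cfsg.Agent.S2245

open Equiv Equiv.Perm MulAction Subgroup Small in
theorem swap_mem {n : ℕ} (hn : 2 ≤ n) (P : Sylow 2 (Perm (Fin n))) :
    ∃ g ∈ (P : Subgroup (Perm (Fin n))), g ∉ alternatingGroup (Fin n) := by
  obtain ⟨W, P', h⟩ := exists_ws P
  refine ⟨W.el 1 (Pi.single ⟨0, by simp; omega⟩ 1), h ▸ W.el_mem_grp.2 (one_mem _), fun h1 => ?_⟩
  simpa using (W.sign_el_two _ _).1 h1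

/-- For n ≥ 5 with n ≠ 6, a Sylow 2-subgroup of the alternating group A_n lies in exactly one maximal subgroup of A_n if and only if n = 2^k + 1 for some k ≥ 2; the same holds for the symmetric group S_n. -/
theorem result (n : ℕ) (hn : 5 ≤ n) (h6 : n ≠ 6) :
    ((∀ R : Sylow 2 ↥(alternatingGroup (Fin n)), (∃! M : Subgroup ↥(alternatingGroup (Fin n)), IsCoatom M ∧ (R : Subgroup ↥(alternatingGroup (Fin n))) ≤ M) ↔ ∃ k : ℕ, 2 ≤ k ∧ n = 2 ^ k + 1) ∧
    (∀ R : Sylow 2 (Equiv.Perm (Fin n)), (∃! M : Subgroup (Equiv.Perm (Fin n)), IsCoatom M ∧ (R : Subgroup (Equiv.Perm (Fin n))) ≤ M) ↔ ∃ k : ℕ, 2 ≤ k ∧ n = 2 ^ k + 1)) := by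
  have hc : Fintype.card (Fin n) = n := Fintype.card_fin n
  have hc' : Nat.card (Fin n) = n := by simp
  haveI : Nontrivial (Fin n) := Fin.nontrivial_iff_two_le.2 (by omega)
  constructor
  · intro R
    obtain ⟨P, hP⟩ := R.exists_comap_subtype_eq
    have hmap : ∀ M : Subgroup (alternatingGroup (Fin n)), M ≠ ⊤ →
        ¬ alternatingGroup (Fin n) ≤ M.map (alternatingGroup (Fin n)).subtype := fun M h1 h2 =>
      h1 (eq_top_iff.2 fun g _ => by
        obtain ⟨k, hk, e⟩ := h2 g.2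
        exact Subtype.ext e ▸ hk)
    constructor
    · rintro ⟨M, ⟨hM, -⟩, hu⟩
      by_contra hne
      obtain ⟨X, Y, h1, h2, h3, h4, h5⟩ := Small.exists_two_over (by omega) (by rwa [hc]) P
      have key : ∀ Z : Subgroup (Equiv.Perm (Fin n)), (P : Subgroup _) ≤ Z →
          ¬ alternatingGroup (Fin n) ≤ Z →
          Z ⊓ alternatingGroup (Fin n) ≤ M.map (alternatingGroup (Fin n)).subtype := by
        intro Z h6 h7 g hg
        obtain ⟨M', h8, h9⟩ := (eq_top_or_exists_le_coatom (Z.subgroupOf (alternatingGroup _))).resolve_left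
          fun e => h7 (Subgroup.subgroupOf_eq_top.1 e)
        have := hu M' ⟨h8, le_trans (fun x hx => h6 (by rw [← hP] at hx; exact hx)) h9⟩
        exact ⟨⟨g, hg.2⟩, this ▸ h9 hg.1, rfl⟩
      exact hmap M hM.1 (h5 _ (key X h1 h3) (key Y h2 h4))
    · rintro ⟨k, hk, e⟩
      obtain ⟨x, h1, h2⟩ := Small.exists_fixed_of_pow hk (hc.trans e) P
      haveI := alternatingGroup.isPreprimitive_of_three_le_card (Fin n) (by omega)
      have hM := MulAction.IsPreprimitive.isCoatom_stabilizer_of_isPreprimitive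
        (alternatingGroup (Fin n)) x
      refine ⟨_, ⟨hM, fun g hg => h1 g (by rw [← hP] at hg; exact hg)⟩, fun M ⟨h3, h4⟩ => ?_⟩
      have := (h2 (M.map (alternatingGroup (Fin n)).subtype) fun g hg =>
        ⟨⟨g, hg.2⟩, h4 (by rw [← hP]; exact hg.1), rfl⟩).resolve_right (hmap M h3.1)
      exact ((h3.le_iff_eq hM.1).1 fun g hg => this ⟨g, hg, rfl⟩).symm
  · intro P
    obtain ⟨s, hs, hs'⟩ := swap_mem (by omega) P
    constructor
    · rintro ⟨M, ⟨hM, hPM⟩, hu⟩
      by_contra hne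
      obtain ⟨X, Y, h1, h2, h3, h4, h5⟩ := Small.exists_two_over (by omega) (by rwa [hc]) P
      have key : ∀ Z : Subgroup (Equiv.Perm (Fin n)), (P : Subgroup _) ≤ Z →
          ¬ alternatingGroup (Fin n) ≤ Z → Z ⊓ alternatingGroup (Fin n) ≤ M := by
        intro Z h6 h7
        obtain ⟨M', h8, h9⟩ := (eq_top_or_exists_le_coatom Z).resolve_left fun e => h7 (e ▸ le_top)
        exact inf_le_left.trans (hu M' ⟨h8, h6.trans h9⟩ ▸ h9)
      exact hM.1 (Small.eq_top_of_alt_le (h5 _ (key X h1 h3) (key Y h2 h4)) (hPM hs) hs')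
    · rintro ⟨k, hk, e⟩
      obtain ⟨x, h1, h2⟩ := Small.exists_fixed_of_pow hk (hc.trans e) P
      have hM := MulAction.IsPreprimitive.isCoatom_stabilizer_of_isPreprimitive
        (Equiv.Perm (Fin n)) x
      refine ⟨_, ⟨hM, fun g hg => h1 g hg⟩, fun M ⟨h3, h4⟩ => ?_⟩
      have := (h2 M (inf_le_left.trans h4)).resolve_right fun h5 =>
        h3.1 (Small.eq_top_of_alt_le h5 (h4 hs) hs')
      exact ((h3.le_iff_eq hM.1).1 this).symm

end Cfsg.Agent.S2245
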