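import Cfsg.Statements.S2251
import Cfsg.Agent.Sz.Subgroups

set_option autoImplicit false
open Cfsg

namespace Cfsg.Agent.S2251

/-- The subgroups of the Suzuki group: with q = 2^(2m+1), m ≥ 1, r = 2^m and the group realised as the stabiliser in SL₄ of the Suzuki–Tits ovoid, every proper subgroup is contained in the normalizer of a Sylow 2-subgroup, or in the normalizer of a cyclic subgroup of order q − 1, q + 2r + 1 or q − 2r + 1, or in a subgroup isomorphic to a smaller Suzuki group Sz(s) with s = 2^(2k+1) ≥ 8 and 2k+1 a proper divisor of 2m+1. -/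
theorem result {F : Type*} [Field F] [Fintype F] {m : ℕ} (hm : 1 ≤ m) (hF : Fintype.card F = 2 ^ (2 * m + 1)) (M : Subgroup ↥(Cfsg.Sz F m)) (hM : M ≠ ⊤) :
    (∃ P : Sylow 2 ↥(Cfsg.Sz F m), M ≤ Subgroup.normalizer ((P : Subgroup ↥(Cfsg.Sz F m)) : Set ↥(Cfsg.Sz F m))) ∨
    (∃ U : Subgroup ↥(Cfsg.Sz F m), IsCyclic ↥U ∧ Nat.card ↥U ∈ ({2 ^ (2 * m + 1) - 1, 2 ^ (2 * m + 1) + 2 ^ (m + 1) + 1, 2 ^ (2 * m + 1) - 2 ^ (m + 1) + 1} : Set ℕ) ∧
      M ≤ Subgroup.normalizer (U : Set ↥(Cfsg.Sz F m))) ∨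
    (∃ (K : Type) (_ : Field K) (_ : Fintype K) (k : ℕ), 1 ≤ k ∧ k < m ∧ Fintype.card K = 2 ^ (2 * k + 1) ∧ 2 * k + 1 ∣ 2 * m + 1 ∧
      ∃ S : Subgroup ↥(Cfsg.Sz F m), Nonempty (↥S ≃* ↥(Cfsg.Sz K k)) ∧ M ≤ S) := by
  let := Sz.titsOfCard hm hF
  let := Sz.ovoidRep (Sz.titsOfCard_θ hm hF)
  have hq : Nat.card F = 2 ^ (2 * m + 1) := by rw [Nat.card_eq_fintype_card, hF]
  rcases Sz.subgroup_cases F M with ⟨A, hA, h⟩ | ⟨x, K, hK, rfl⟩
  · rcases (Sz.isPart_iff hm hq).1 hA with ⟨P, rfl⟩ | ⟨h1, h2⟩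
    · exact Or.inl ⟨P, h⟩
    · exact Or.inr (Or.inl ⟨A, h1, h2, h⟩)
  obtain ⟨k, hk, hKc⟩ := Sz.exists_card_subfield hK
  have hd := Sz.dvd_of_card_subfield hKc hq
  have h1 := GaloisField.card 2 (2 * k + 1) (by omega)
  obtain ⟨φ⟩ := Sz.nonempty_ringHom h1 hq hd
  have h2 : φ.fieldRange = K := Sz.subfield_eq_of_card (by
    rw [hKc, ← h1]; exact (Nat.card_congr φ.rangeRestrictFieldEquiv.toEquiv).symm)
  let : Fintype (GaloisField 2 (2 * k + 1)) := Fintype.ofFinite _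
  have h3 : Fintype.card (GaloisField 2 (2 * k + 1)) = 2 ^ (2 * k + 1) := by rw [← Nat.card_eq_fintype_card, h1]
  let := Sz.titsOfCard hk h3
  let := Sz.ovoidRep (Sz.titsOfCard_θ hk h3)
  refine Or.inr (Or.inr ⟨GaloisField 2 (2 * k + 1), inferInstance, inferInstance, k, hk, ?_, h3, hd, _,
    ⟨(Sz.cjEquiv x _).symm.trans (h2 ▸ (Sz.equivSzSub _ φ).symm)⟩, le_rfl⟩)
  have := Nat.le_of_dvd (by omega) hd
  by_contra h
  obtain rfl : k = m := by omega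
  apply hM
  rw [Sz.subfield_eq_of_card (K := K) (L := ⊤) (by rw [hKc, ← hq]; exact (Nat.card_congr Subfield.topEquiv.toEquiv).symm),
    Sz.SzSub_top, Sz.cj_top]

end Cfsg.Agent.S2251
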