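import Cfsg.Statements.S2254
import Cfsg.Agent.SymN.Nil

set_option autoImplicit false
open Cfsg

namespace Cfsg.Agent.S2254


/-- Let n ≡ 3 (mod 4). Then every nilpotent subgroup of the symmetric group on n letters has order at most 3 times the order of a Sylow 2-subgroup of the symmetric group on n − 3 letters; the bound is attained by a nilpotent subgroup isomorphic to the direct product of such a Sylow 2-subgroup with a cyclic group of order 3; and any two nilpotent subgroups attaining the bound are conjugate. -/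
theorem result  (n : ℕ) (hn : n % 4 = 3)
    (P : Sylow 2 (Equiv.Perm (Fin (n - 3)))) :
    (∀ N : Subgroup (Equiv.Perm (Fin n)), Group.IsNilpotent N → Nat.card N ≤ 3 * Nat.card P) ∧
    (∃ M : Subgroup (Equiv.Perm (Fin n)), Group.IsNilpotent M ∧ Nat.card M = 3 * Nat.card P ∧
      Nonempty (M ≃* (↥(P : Subgroup (Equiv.Perm (Fin (n - 3)))) × Multiplicative (ZMod 3)))) ∧
    (∀ N₁ N₂ : Subgroup (Equiv.Perm (Fin n)), Group.IsNilpotent N₁ → Group.IsNilpotent N₂ →
      Nat.card N₁ = 3 * Nat.card P → Nat.card N₂ = 3 * Nat.card P →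
      ∃ g : Equiv.Perm (Fin n), N₂ = N₁.map (MulAut.conj g).toMonoidHom) := by
  have hmax : ∀ N : Subgroup (Equiv.Perm (Fin n)), Group.IsNilpotent N →
      Nat.card N ≤ 3 * 2 ^ SymN.v (n - 3) := fun N hN =>
    SymN.F_of_eq hn ▸ (SymN.nil_le n _ (Fintype.card_fin n) N hN).1
  refine ⟨by rwa [SymN.card_sylow_perm], ?_, ?_⟩
  · obtain ⟨m, rfl⟩ : ∃ m, n = m + 3 := ⟨n - 3, by omega⟩
    obtain ⟨ψ, hψ, -⟩ := SymN.exists_prod (m := m) (P : Subgroup (Equiv.Perm (Fin (m + 3 - 3)))).subtype
      (Subgroup.subtype_injective _)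
    exact ⟨ψ.range, SymN.range_facts P.isPGroup' ψ hψ⟩
  · rw [SymN.card_sylow_perm]
    refine SymN.conj_of_max hmax fun c d hc hd h1 h2 => Equiv.Perm.isConj_iff_cycleType_eq.mpr ?_
    exact (SymN.isThreeCycle_of_dvd hn hc (Nat.le_succ _) h1).trans
      (SymN.isThreeCycle_of_dvd hn hd (Nat.le_succ _) h2).symm

end Cfsg.Agent.S2254
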