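import Cfsg.Statements.S2256
import Cfsg.Agent.SymN.Nil

set_option autoImplicit false
open Cfsg

namespace Cfsg.Agent.S2256


/-- Let n ≡ 3 (mod 4) with n ≥ 7. Then every nilpotent subgroup of the alternating group on n letters has order at most 3 times the order of a Sylow 2-subgroup of the alternating group on n − 3 letters; the bound is attained by a nilpotent subgroup isomorphic to the direct product of such a Sylow 2-subgroup with a cyclic group of order 3; and any two nilpotent subgroups of the alternating group attaining the bound are conjugate in it. -/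
theorem result  (n : ℕ) (hn : n % 4 = 3) (h7 : 7 ≤ n)
    (P : Sylow 2 (alternatingGroup (Fin (n - 3)))) :
    (∀ N : Subgroup (alternatingGroup (Fin n)), Group.IsNilpotent N → Nat.card N ≤ 3 * Nat.card P) ∧
    (∃ M : Subgroup (alternatingGroup (Fin n)), Group.IsNilpotent M ∧ Nat.card M = 3 * Nat.card P ∧
      Nonempty (M ≃* (↥(P : Subgroup (alternatingGroup (Fin (n - 3)))) × Multiplicative (ZMod 3)))) ∧
    (∀ N₁ N₂ : Subgroup (alternatingGroup (Fin n)), Group.IsNilpotent N₁ → Group.IsNilpotent N₂ →
      Nat.card N₁ = 3 * Nat.card P → Nat.card N₂ = 3 * Nat.card P →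
      ∃ g : alternatingGroup (Fin n), N₂ = N₁.map (MulAut.conj g).toMonoidHom) := by
  have hP := SymN.card_sylow_alt (by omega) P
  obtain ⟨e, he⟩ := IsPGroup.iff_card.mp P.isPGroup'
  have hv : SymN.v (n - 3) = e + 1 := by
    rw [he, ← pow_succ'] at hP
    exact (Nat.pow_right_injective le_rfl hP).symm
  have hmax : ∀ N : Subgroup (alternatingGroup (Fin n)), Group.IsNilpotent N →
      Nat.card N ≤ 3 * 2 ^ e := fun N hN => by
    have h1 := (SymN.nil_le n _ (Fintype.card_fin n) _
      (Solv.isNilpotent_map (alternatingGroup (Fin n)).subtype N)).2 (SymN.even_map N)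
    rw [SymN.card_map_alt] at h1
    have h3 := SymN.two_mul_E (n := n) (by omega) (by omega) (by omega) (by omega) (by omega)
    rw [SymN.F_of_eq hn, hv, pow_succ] at h3
    omega
  refine ⟨by rwa [he], ?_, ?_⟩
  · obtain ⟨m, rfl⟩ : ∃ m, n = m + 3 := ⟨n - 3, by omega⟩
    obtain ⟨ψ, hψ, hs⟩ := SymN.exists_prod (m := m) ((alternatingGroup (Fin (m + 3 - 3))).subtype.comp
      (P : Subgroup (alternatingGroup (Fin (m + 3 - 3)))).subtype)
      ((Subgroup.subtype_injective _).comp (Subgroup.subtype_injective _))
    let χ := ψ.codRestrict (alternatingGroup (Fin (m + 3))) fun x => (hs x).trans x.1.1.2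
    exact ⟨χ.range, SymN.range_facts P.isPGroup' χ fun x y h => hψ (congrArg Subtype.val h)⟩
  · rw [he]
    have key : ∀ c : alternatingGroup (Fin n), orderOf c = 3 →
        2 ^ e ∣ Nat.card (Subgroup.centralizer ({c} : Set (alternatingGroup (Fin n)))) →
        (c : Equiv.Perm (Fin n)).IsThreeCycle := fun c hc h => by
      refine SymN.isThreeCycle_of_dvd hn (by rw [Subgroup.orderOf_coe, hc]) hv.le (h.trans ?_)
      rw [← SymN.card_map_alt]
      refine Subgroup.card_dvd_of_le ?_
      rintro _ ⟨x, hx, rfl⟩ _ rfl
      exact congrArg Subtype.val (hx c rfl)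
    exact SymN.conj_of_max hmax fun c d hc hd h1 h2 =>
      alternatingGroup.isThreeCycle_isConj (by simp; omega) (key c hc h1) (key d hd h2)

end Cfsg.Agent.S2256
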