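import Cfsg.Statements.S2257
import Cfsg.Agent.Classical.PSL2Sol

set_option autoImplicit false
open Cfsg

namespace Cfsg.Agent.S2257

open Cfsg.Agent.Classical Matrix Subgroup MulAction

/-- Let G = PSL_2(F) with F a field of order q = 2^p, p prime, and for x ∈ G call the solubilizer of x the set of y ∈ G such that x and y generate a solvable subgroup. Then the solubilizer of an involution has 3q(q − 1) elements; that of a non-identity element of order dividing q − 1 has 2q(q − 1) elements; and that of a non-identity element of order dividing q + 1 has 2(q + 1) elements. -/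
theorem result (p : ℕ) (hp : p.Prime) {F : Type*} [Field F] [Fintype F]
    (hF : Fintype.card F = 2 ^ p) (x : Matrix.ProjectiveSpecialLinearGroup (Fin 2) F) :
    (orderOf x = 2 → Nat.card {y : Matrix.ProjectiveSpecialLinearGroup (Fin 2) F // Group.IsSolvable ↥(Subgroup.closure ({x, y} : Set (Matrix.ProjectiveSpecialLinearGroup (Fin 2) F)))} = 3 * 2 ^ p * (2 ^ p - 1)) ∧
    (x ≠ 1 → orderOf x ∣ 2 ^ p - 1 → Nat.card {y : Matrix.ProjectiveSpecialLinearGroup (Fin 2) F // Group.IsSolvable ↥(Subgroup.closure ({x, y} : Set (Matrix.ProjectiveSpecialLinearGroup (Fin 2) F)))} = 2 * 2 ^ p * (2 ^ p - 1)) ∧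
    (x ≠ 1 → orderOf x ∣ 2 ^ p + 1 → Nat.card {y : Matrix.ProjectiveSpecialLinearGroup (Fin 2) F // Group.IsSolvable ↥(Subgroup.closure ({x, y} : Set (Matrix.ProjectiveSpecialLinearGroup (Fin 2) F)))} = 2 * (2 ^ p + 1)) := by
  have hm := (S0810.result hF).2 (Or.inl ⟨p, hp, rfl⟩)
  rw [← Nat.card_eq_fintype_card] at hF
  simp only [isSolvable_iff_ne_top hm, ← hF]
  have he : Even (Nat.card F) := hF ▸ Nat.even_pow.2 ⟨even_two, hp.ne_zero⟩
  have key : x ≠ 1 → ∀ n, Odd n → orderOf x ∣ n → x ^ 2 ≠ 1 := fun h n a b c =>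
    (Nat.not_even_iff_odd.2 a) (even_iff_two_dvd.2 (orderOf_eq_prime c h ▸ b))
  have h1 := fun h => card_sol_semisimple hp hF (Or.inl rfl) (x := x) h (by omega)
  simp only [gcd_two_pred_of_even he Nat.card_pos, one_mul] at h1
  exact ⟨card_sol_invol_even hp hF hm, fun a b => (h1 (key a _ (Nat.Even.sub_odd Nat.card_pos he
    odd_one) b)).1 (orderOf_dvd_iff_pow_eq_one.1 b),
    fun a b => (h1 (key a _ he.add_one b)).2 (orderOf_dvd_iff_pow_eq_one.1 b)⟩

end Cfsg.Agent.S2257
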