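import Cfsg.Statements.S2258
import Cfsg.Agent.Classical.PSL2Sol

set_option autoImplicit false
open Cfsg

namespace Cfsg.Agent.S2258

open Cfsg.Agent.Classical Matrix Subgroup MulAction

/-- Let G = PSL_2(F) with F a field of order q = 3^p, p an odd prime, and for x ∈ G call the solubilizer of x the set of y ∈ G such that x and y generate a solvable subgroup. Then the solubilizer of an involution has q(q + 1) elements; that of an element of order 3 has q(q + 5)/2 elements; that of an element of order neither 1 nor 2 dividing q − 1 has q(q − 1) elements; and that of an element of order neither 1 nor 2 dividing q + 1 has q + 1 elements. -/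
theorem result (p : ℕ) (hp : p.Prime) (hodd : Odd p) {F : Type*} [Field F] [Fintype F]
    (hF : Fintype.card F = 3 ^ p) (x : Matrix.ProjectiveSpecialLinearGroup (Fin 2) F) :
    (orderOf x = 2 → Nat.card {y : Matrix.ProjectiveSpecialLinearGroup (Fin 2) F // Group.IsSolvable ↥(Subgroup.closure ({x, y} : Set (Matrix.ProjectiveSpecialLinearGroup (Fin 2) F)))} = 3 ^ p * (3 ^ p + 1)) ∧
    (orderOf x = 3 → 2 * Nat.card {y : Matrix.ProjectiveSpecialLinearGroup (Fin 2) F // Group.IsSolvable ↥(Subgroup.closure ({x, y} : Set (Matrix.ProjectiveSpecialLinearGroup (Fin 2) F)))} = 3 ^ p * (3 ^ p + 5)) ∧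
    (x ≠ 1 → orderOf x ≠ 2 → orderOf x ∣ 3 ^ p - 1 → Nat.card {y : Matrix.ProjectiveSpecialLinearGroup (Fin 2) F // Group.IsSolvable ↥(Subgroup.closure ({x, y} : Set (Matrix.ProjectiveSpecialLinearGroup (Fin 2) F)))} = 3 ^ p * (3 ^ p - 1)) ∧
    (x ≠ 1 → orderOf x ≠ 2 → orderOf x ∣ 3 ^ p + 1 → Nat.card {y : Matrix.ProjectiveSpecialLinearGroup (Fin 2) F // Group.IsSolvable ↥(Subgroup.closure ({x, y} : Set (Matrix.ProjectiveSpecialLinearGroup (Fin 2) F)))} = 3 ^ p + 1) := by
  have hm := (S0810.result hF).2 (Or.inr (Or.inl ⟨p, hp, by rintro rfl; exact absurd hodd (by decide), rfl⟩))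
  rw [← Nat.card_eq_fintype_card] at hF
  simp only [isSolvable_iff_ne_top hm, ← hF]
  have := Fact.mk Nat.prime_three
  have ho : Odd (Nat.card F) := hF ▸ Odd.pow (by decide)
  have h3 : 3 ∣ Nat.card F := hF ▸ dvd_pow_self 3 hp.ne_zero
  have h0 := one_lt_card_field (F := F)
  have h1 := fun (a : x ≠ 1) (b : orderOf x ≠ 2) (c : orderOf x ≠ 3) => card_sol_semisimple hp hF
    (Or.inr ⟨rfl, hodd⟩) (x := x) (fun h => b (orderOf_eq_prime h a))
    fun _ h => c (orderOf_eq_prime h a)
  simp only [gcd_two_pred_of_odd ho, mul_assoc, mul_right_inj' (two_ne_zero' ℕ)] at h1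
  exact ⟨card_sol_invol_three hp hodd hF hm, card_sol_three hp hodd hF,
    fun a b c => (h1 a b fun e => by rw [e] at c; omega).1 (orderOf_dvd_iff_pow_eq_one.1 c),
    fun a b c => (h1 a b fun e => by rw [e] at c; omega).2 (orderOf_dvd_iff_pow_eq_one.1 c)⟩

end Cfsg.Agent.S2258
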