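import Cfsg.Statements.S2259
import Cfsg.Agent.Sz.Torus

set_option autoImplicit false
open Cfsg

namespace Cfsg.Agent.S2259

section
open Sz Subgroup MulAction

/-- The solubilizer. -/
def Sol {G : Type*} [Group G] (x : G) : Set G := {y | Group.IsSolvable (closure ({x, y} : Set G))}

variable {F : Type*} [Field F] [Finite F] [Tits F] {G : Type*} [Group G] [SzRep F G]

variable (F) in
theorem mem_Sol {x y : G} (hx : x ≠ 1) :
    y ∈ Sol x ↔ ∃ A : Subgroup G, IsPart F A ∧ x ∈ normalizer (A : Set G) ∧ y ∈ normalizer (A : Set G) := by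
  constructor
  · intro h
    haveI : Group.IsSolvable (closure ({x, y} : Set G)) := h
    obtain ⟨A, hA, _, h⟩ := exists_le_normalizer_of_solvable F (K := closure ({x, y} : Set G)) fun h =>
      hx (by rw [← mem_bot, ← h]; exact subset_closure (by simp))
    exact ⟨A, hA, h (subset_closure (by simp)), h (subset_closure (by simp))⟩
  · rintro ⟨A, hA, h1, h2⟩
    haveI := hA.isSolvable_normalizer
    have : closure ({x, y} : Set G) ≤ normalizer (A : Set G) := by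
      rw [closure_le]; rintro _ (rfl | rfl) <;> assumption
    exact Group.isSolvable_of_isSolvable_injective (inclusion_injective this)

variable (F) in
include F in
theorem Sol_conj (g : G) {x : G} (hx : x ≠ 1) : (Sol (g⁻¹ * x * g)).ncard = (Sol x).ncard := by
  have key : ∀ g x c : G, x ≠ 1 → c ∈ Sol x → g⁻¹ * c * g ∈ Sol (g⁻¹ * x * g) := by
    intro g x c hx h
    rw [mem_Sol F hx] at h
    obtain ⟨A, hA, h1, h2⟩ := h
    exact (mem_Sol F (conj_ne_one hx)).2 ⟨_, hA.conj g⁻¹, by rw [normalizer_cj, mem_cj]; simpa [mul_assoc],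
      by rw [normalizer_cj, mem_cj]; simpa [mul_assoc]⟩
  symm
  exact Set.ncard_congr (fun c _ => g⁻¹ * c * g) (fun c => key g x c hx) (fun a b _ _ h => by simpa using h)
    fun c hc => ⟨g * c * g⁻¹, by simpa [mul_assoc] using key g⁻¹ _ c (conj_ne_one hx) hc, by simp [mul_assoc]⟩

theorem mem_normalizer_cj_U {g y : G} :
    y ∈ normalizer (cj g (U F G) : Set G) ↔ y • g • (Pt.inf : Pt F) = g • Pt.inf := by
  rw [normalizer_cj, normalizer_U, B_def, cj_stabilizer, mem_stabilizer_iff]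

theorem Sol_fpf {x : G} (hx : Fpf F x) : (Sol x).ncard = 4 * Nat.card (centralizer {x}) := by
  rw [← hx.card_normalizer, ← ncard_coe_subgroup]
  congr 1
  ext y
  rw [mem_Sol F hx.ne_one]
  refine ⟨fun ⟨A, hA, h1, h2⟩ => ?_, fun h => ⟨_, hx.isPart, le_normalizer (mem_centralizer_self x), h⟩⟩
  rcases hA.cases_odd with ⟨g, rfl⟩ | ⟨c, hc, ho, rfl⟩
  · exact absurd (mem_normalizer_cj_U.1 h1) (hx _)
  · rwa [centralizer_eq_of_odd F hc ho (mem_centralizer_of_odd F hc ho h1 hx.odd) hx.ne_one]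

theorem Sol_H {x : G} (hx : x ∈ H F G) (h1 : x ≠ 1) : (Sol x).ncard = 2 * Nat.card F ^ 2 * (Nat.card F - 1) := by
  haveI := finite_G F G
  have hT : cj (T F G) (B F G) = stabilizer G (Pt.fin 0 0 : Pt F) := by rw [B_def, cj_stabilizer, T_smul_inf]
  have ho : Odd (orderOf x) := odd_of_mem_cj_H (F := F) (x := 1) (by rwa [cj_one])
  have h2 : Sol x = ((B F G : Set G) ∪ cj (T F G) (B F G)) ∪ ((normalizer (H F G : Set G) : Set G) \ H F G) := by
    ext y
    rw [mem_Sol F h1]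
    constructor
    · rintro ⟨A, hA, h2, h3⟩
      rcases hA.cases_odd with ⟨g, rfl⟩ | ⟨c, hc, hco, rfl⟩
      · left
        rw [mem_normalizer_cj_U] at h2 h3
        by_cases h : g • (Pt.inf : Pt F) = .inf
        · left; rwa [h] at h3
        · right
          have : g • (Pt.inf : Pt F) = .fin 0 0 := by
            by_contra h'
            exact h1 (H_fix hx h2 h h')
          rwa [hT, ← this]
      · rw [← centralizer_eq_of_odd F hc hco (mem_centralizer_of_odd F hc hco h2 ho) h1, centralizer_H hx h1] at h3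
        by_cases h : y ∈ H F G
        · exact Or.inl (Or.inl (H_le_B h))
        · exact Or.inr ⟨h3, h⟩
    · rintro ((h | h) | h)
      · exact ⟨_, isPart_U, normalizer_U (F := F) (G := G) ▸ H_le_B hx, normalizer_U (F := F) (G := G) ▸ h⟩
      · refine ⟨_, isPart_U.conj (T F G), ?_, by rwa [normalizer_cj, normalizer_U]⟩
        rw [normalizer_cj, normalizer_U, hT]
        exact (mem_H_iff_fix.1 hx).2
      · exact ⟨_, isPart_H, le_normalizer hx, h.1⟩
  rw [h2, Set.ncard_union_eq, Set.ncard_sdiff le_normalizer, ncard_coe_subgroup, ncard_coe_subgroup,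
    card_normalizer_H, card_H]
  · have h3 := Set.ncard_union_add_ncard_inter (B F G : Set G) (cj (T F G) (B F G))
    rw [← coe_inf, ncard_coe_subgroup, ncard_coe_subgroup, ncard_coe_subgroup, card_cj, card_B, hT, B_def, ← H_eq,
      card_H, ← B_def, ← hT] at h3
    rw [mul_assoc]
    omega
  · rw [Set.disjoint_left]
    rintro y h ⟨h3, h4⟩
    obtain ⟨k, rfl⟩ := (mem_normalizer_H.1 h3).resolve_left h4
    rcases h with h | h
    · exact TM_not_mem_B k h
    · rw [hT] at h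
      have : (T F G * M G k) • (Pt.fin 0 0 : Pt F) = .fin 0 0 := h
      simp [mul_smul] at this

theorem Sol_U {x : G} (hx : x ∈ U F G) (h1 : x ≠ 1) : (Sol x).ncard = Nat.card F ^ 2 * (Nat.card F - 1) +
    ({c ∈ D x | Fpf F c}.ncard * 4 + {c ∈ D x | ¬ Fpf F c}.ncard * 2) := by
  classical
  haveI := finite_G F G
  have hB : (B F G : Set G) ⊆ Sol x := fun y hy => (mem_Sol F h1).2
    ⟨_, isPart_U, normalizer_U (F := F) (G := G) ▸ U_le_B hx, normalizer_U (F := F) (G := G) ▸ hy⟩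
  rw [← Set.ncard_sdiff_add_ncard_of_subset hB, ncard_coe_subgroup, card_B, add_comm, add_right_inj]
  let P : Set G → Set (G × G) := fun X => {p | p.1 ∈ X ∧ p.2 ∈ U F G ⊓ normalizer (centralizer {p.1} : Set G)}
  have hP : ∀ (X : Set G) (n : ℕ), (∀ c ∈ X, Nat.card ↥(U F G ⊓ normalizer (centralizer {c} : Set G)) = n) →
      (P X).ncard = X.ncard * n := by
    intro X n h
    rw [← mul_one (P X).ncard]
    symm
    refine ncard_mul_eq_ncard_mul (fun c p => p.1 = c) (fun c hc => ?_) fun p hp => ?_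
    · rw [← h c hc, ← ncard_coe_subgroup]
      refine Set.ncard_congr (fun p _ => p.2) ?_ ?_ fun u hu => ⟨(c, u), ⟨⟨hc, hu⟩, rfl⟩, rfl⟩
      · rintro ⟨_, u⟩ ⟨h, rfl⟩; exact h.2
      · rintro ⟨_, u⟩ ⟨_, v⟩ h1 h2 e; exact Prod.ext (h1.2.trans h2.2.symm) e
    · rw [Set.ncard_eq_one]
      exact ⟨p.1, Set.ext fun c => ⟨fun h => h.2.symm, fun h => by rw [h]; exact ⟨hp.1, rfl⟩⟩⟩
  rw [← hP _ _ fun c hc => by rw [D.card_inf hx h1 hc.1, if_pos hc.2]; rfl,
    ← hP _ _ fun c hc => by rw [D.card_inf hx h1 hc.1, if_neg hc.2]; rfl,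
    ← Set.ncard_union_eq (Set.disjoint_left.2 fun p h h' => h'.1.2 h.1.2)]
  have : P {c ∈ D x | Fpf F c} ∪ P {c ∈ D x | ¬ Fpf F c} = P (D x) := by
    ext p; simp only [P, Set.mem_union, Set.mem_ofPred_eq]; tauto
  rw [this]
  symm
  refine Set.ncard_congr (fun p _ => p.1 * p.2) ?_ ?_ ?_
  · rintro ⟨c, u⟩ ⟨hc, hu, hu'⟩
    exact ⟨(mem_Sol F h1).2 ⟨_, isPart_centralizer F hc.1 hc.2.1, hc.2.2,
      mul_mem (le_normalizer (mem_centralizer_self c)) hu'⟩,
      fun h => D.not_mem_B hx h1 hc ((mul_mem_cancel_right (U_le_B hu)).1 h)⟩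
  · rintro ⟨c, u⟩ ⟨c', u'⟩ ⟨hc, hu, hu'⟩ ⟨hc', hv, hv'⟩ e
    dsimp only at *
    rcases D.eq_or_mem_U hx h1 hc hc' (mul_mem (le_normalizer (mem_centralizer_self c)) hu')
      (e ▸ mul_mem (le_normalizer (mem_centralizer_self c')) hv') with h | h
    · have h2 : c'⁻¹ * c = u' * u⁻¹ := by rw [inv_mul_eq_iff_eq_mul, ← mul_assoc, ← e, mul_inv_cancel_right]
      have h3 := eq_one_of_mem_U_of_odd (h2 ▸ (U F G).mul_mem hv ((U F G).inv_mem hu))
        (odd_of_mem_centralizer F hc.1 hc.2.1 (mul_mem (inv_mem (h ▸ mem_centralizer_self c')) (mem_centralizer_self c)))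
      rw [h3, eq_comm, mul_inv_eq_one] at h2
      exact Prod.ext (inv_mul_eq_one.1 h3).symm h2.symm
    · exact absurd (U_le_B (((U F G).mul_mem_cancel_right hu).1 h)) (D.not_mem_B hx h1 hc)
  · rintro y ⟨hy, hyB⟩
    obtain ⟨A, hA, h2, h3⟩ := (mem_Sol F h1).1 hy
    rcases hA.cases_odd with ⟨g, rfl⟩ | ⟨c, hc, hco, rfl⟩
    · rw [mem_normalizer_cj_U] at h2 h3
      by_cases h : g • (Pt.inf : Pt F) = .inf
      · exact absurd (by rwa [h] at h3) hyB
      · exact absurd (U_fix hx h2 h) h1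
    · obtain ⟨a, ha, u, hu, rfl⟩ := D.exists_mul hx h1 ⟨hc, hco, h2⟩ h3
      have ha1 : a ≠ 1 := by rintro rfl; exact hyB (by simpa using U_le_B hu.1)
      have := centralizer_eq_of_odd F hc hco ha ha1
      exact ⟨(a, u), ⟨⟨ha1, odd_of_mem_centralizer F hc hco ha, this ▸ h2⟩, this ▸ hu⟩, rfl⟩

theorem aux {m : ℕ} (hm : 1 ≤ m) (hq : Nat.card F = 2 ^ (2 * m + 1)) (x : G) :
    (orderOf x = 2 → (Sol x).ncard = (2 ^ (2 * m + 1)) ^ 2 * (4 * 2 ^ (2 * m + 1) - 3)) ∧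
    (orderOf x = 4 → (Sol x).ncard = (2 ^ (2 * m + 1)) ^ 2 * (2 ^ (2 * m + 1) + 3)) ∧
    (x ≠ 1 → orderOf x ∣ 2 ^ (2 * m + 1) - 1 → (Sol x).ncard = 2 * (2 ^ (2 * m + 1)) ^ 2 * (2 ^ (2 * m + 1) - 1)) ∧
    (x ≠ 1 → orderOf x ∣ 2 ^ (2 * m + 1) + 2 ^ (m + 1) + 1 →
      (Sol x).ncard = 4 * (2 ^ (2 * m + 1) + 2 ^ (m + 1) + 1)) ∧
    (x ≠ 1 → orderOf x ∣ 2 ^ (2 * m + 1) - 2 ^ (m + 1) + 1 →
      (Sol x).ncard = 4 * (2 ^ (2 * m + 1) - 2 ^ (m + 1) + 1)) := by
  obtain ⟨a1, a2, a3⟩ := arith_tori hm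
  obtain ⟨k, hk⟩ : ∃ k, Nat.card F = k + 2 := ⟨Nat.card F - 2, by have := four_le_card F; omega⟩
  refine ⟨fun h => ?_, fun h => ?_, fun h1 h => ?_, fun h1 h => ?_, fun h1 h => ?_⟩
  · have h1 : x ≠ 1 := by rintro rfl; simp at h
    obtain ⟨g, hg⟩ := exists_conj_of_involution F h1 (by rw [← sq, ← h, pow_orderOf_eq_one])
    have hz1 : S G (0 : F) 1 ≠ 1 := by simp [S_eq_one]
    have h2 := ncard_D_fpf (S_mem_Z 1) hz1
    rw [← Sol_conj F g h1, hg, Sol_U (S_mem_U 0 1) hz1, ncard_D_not_fpf (S_mem_Z 1) hz1,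
      show 4 = 2 * 2 from rfl, ← mul_assoc, h2, ← hq, hk]
    simp only [Nat.add_sub_cancel, show k + 2 - 1 = k + 1 from rfl, show 2 * 2 * (k + 2) - 3 = 4 * k + 5 by omega]
    ring
  · have h1 : x ≠ 1 := by rintro rfl; simp at h
    obtain ⟨g, hg⟩ := exists_cj_U_of_even (F := F) (g := x) (by rw [h]; decide)
    obtain ⟨a, b, hg⟩ := mem_cj.1 hg
    have ha : a ≠ 0 := by
      rintro rfl
      have := orderOf_dvd_of_pow_eq_one (show (g⁻¹ * x * g) ^ 2 = 1 by rw [hg, sq, S_zero_mul_self])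
      rw [orderOf_conj', h] at this
      exact absurd this (by decide)
    obtain ⟨l, hl⟩ := θ_surjective a⁻¹
    have hl0 : l ≠ 0 := by rintro rfl; rw [map_zero] at hl; exact inv_ne_zero ha hl.symm
    have h2 := M_conj_S (G := G) (Units.mk0 l hl0) a b
    rw [Units.val_mk0, hl, inv_mul_cancel₀ ha, ← hg] at h2
    generalize l ^ 2 * a⁻¹ * b = c at h2
    have h3 : S G 1 c ≠ 1 := by simp [S_eq_one]
    rw [← Sol_conj F (g * (M G (Units.mk0 l hl0))⁻¹) h1, show (g * (M G (Units.mk0 l hl0))⁻¹)⁻¹ * x *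
      (g * (M G (Units.mk0 l hl0))⁻¹) = S G 1 c by rw [← h2]; group, Sol_U (S_mem_U 1 c) h3,
      show {d ∈ D (S G 1 c) | Fpf F d} = D (S G 1 c) from Set.ext fun d => and_iff_left_of_imp (D.fpf one_ne_zero),
      show {d ∈ D (S G 1 c) | ¬ Fpf F d} = ∅ from Set.ext fun d => by simpa using D.fpf one_ne_zero,
      ncard_D_four, ← hq, hk]
    simp only [show k + 2 - 1 = k + 1 from rfl, Set.ncard_empty]
    ring
  · obtain ⟨g, hg⟩ := exists_cj_H_of_dvd (F := F) (g := x) (by rwa [hq])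
    rw [← Sol_conj F g h1, Sol_H (mem_cj.1 hg) (conj_ne_one h1), hq]
  · have hx : Fpf F x := fpf_of_orderOf_dvd h1 (by rw [hq, ← a1]; exact h.mul_right _)
    rw [Sol_fpf hx, (hx.card_centralizer hq).resolve_right fun e => h1 (orderOf_eq_one_iff.1
      (Nat.eq_one_of_dvd_coprimes a2 h (e ▸ Subgroup.orderOf_dvd_natCard _ (mem_centralizer_self x))))]
  · have hx : Fpf F x := fpf_of_orderOf_dvd h1 (by rw [hq, ← a1]; exact h.mul_left _)
    rw [Sol_fpf hx, (hx.card_centralizer hq).resolve_left fun e => h1 (orderOf_eq_one_iff.1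
      (Nat.eq_one_of_dvd_coprimes a2 (e ▸ Subgroup.orderOf_dvd_natCard _ (mem_centralizer_self x)) h))]

end

/-- Let G be the Suzuki group Sz(q), q = 2^(2m+1) with 2m + 1 prime and m ≥ 1, realised inside Sp_4(F) for F the field of order q, write r = 2^(m+1) (so r² = 2q), and for x ∈ G call the solubilizer of x the set of y ∈ G such that x and y generate a solvable subgroup. Then the solubilizer of an involution has q²(4q − 3) elements; that of an element of order 4 has q²(q + 3) elements; that of a non-identity element of order dividing q − 1 has 2q²(q − 1) elements; that of a non-identity element of order dividing q + r + 1 has 4(q + r + 1) elements; and that of a non-identity element of order dividing q − r + 1 has 4(q − r + 1) elements. -/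
theorem result {F : Type*} [Field F] [Fintype F] {m : ℕ} (hm : 1 ≤ m)
    (hp : (2 * m + 1).Prime) (hF : Fintype.card F = 2 ^ (2 * m + 1)) (x : ↥(Cfsg.Lie.Sz F (2 ^ (m + 1)))) :
    (orderOf x = 2 → Nat.card {y : ↥(Cfsg.Lie.Sz F (2 ^ (m + 1))) // Group.IsSolvable ↥(Subgroup.closure ({x, y} : Set (↥(Cfsg.Lie.Sz F (2 ^ (m + 1))))))} = (2 ^ (2 * m + 1)) ^ 2 * (4 * 2 ^ (2 * m + 1) - 3)) ∧
    (orderOf x = 4 → Nat.card {y : ↥(Cfsg.Lie.Sz F (2 ^ (m + 1))) // Group.IsSolvable ↥(Subgroup.closure ({x, y} : Set (↥(Cfsg.Lie.Sz F (2 ^ (m + 1))))))} = (2 ^ (2 * m + 1)) ^ 2 * (2 ^ (2 * m + 1) + 3)) ∧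
    (x ≠ 1 → orderOf x ∣ 2 ^ (2 * m + 1) - 1 →
      Nat.card {y : ↥(Cfsg.Lie.Sz F (2 ^ (m + 1))) // Group.IsSolvable ↥(Subgroup.closure ({x, y} : Set (↥(Cfsg.Lie.Sz F (2 ^ (m + 1))))))} = 2 * (2 ^ (2 * m + 1)) ^ 2 * (2 ^ (2 * m + 1) - 1)) ∧
    (x ≠ 1 → orderOf x ∣ 2 ^ (2 * m + 1) + 2 ^ (m + 1) + 1 → Nat.card {y : ↥(Cfsg.Lie.Sz F (2 ^ (m + 1))) // Group.IsSolvable ↥(Subgroup.closure ({x, y} : Set (↥(Cfsg.Lie.Sz F (2 ^ (m + 1))))))} = 4 * (2 ^ (2 * m + 1) + 2 ^ (m + 1) + 1)) ∧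
    (x ≠ 1 → orderOf x ∣ 2 ^ (2 * m + 1) - 2 ^ (m + 1) + 1 → Nat.card {y : ↥(Cfsg.Lie.Sz F (2 ^ (m + 1))) // Group.IsSolvable ↥(Subgroup.closure ({x, y} : Set (↥(Cfsg.Lie.Sz F (2 ^ (m + 1))))))} = 4 * (2 ^ (2 * m + 1) - 2 ^ (m + 1) + 1)) := by
  let := Sz.titsOfCard hm hF
  let := Sz.lieRep (Sz.titsOfCard_θ hm hF)
  exact aux (F := F) hm (by rw [Nat.card_eq_fintype_card, hF]) x

end Cfsg.Agent.S2259
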