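import Cfsg.Statements.S2268

set_option autoImplicit false
open Cfsg

namespace Cfsg.Agent.S2268



/-- Let G be a finite group with an abelian Sylow p-subgroup P and let Q ≤ P. Then N_G(Q) = (N_G(Q) ∩ N_G(P))·C_G(Q), so that N_G(Q)/C_G(Q) is a homomorphic image of the subgroup (N_G(Q) ∩ N_G(P))/C_G(P) of N_G(P)/C_G(P); in particular the order of N_G(Q)/C_G(Q) divides the order of N_G(P)/C_G(P). -/
theorem result {G : Type*} [Group G] [Finite G] {p : ℕ} [Fact p.Prime]
    (P : Sylow p G) (hP : IsMulCommutative (P : Subgroup G)) (Q : Subgroup G) (hQ : Q ≤ (P : Subgroup G)) :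
    Subgroup.normalizer (Q : Set G) =
      (Subgroup.normalizer (Q : Set G) ⊓ Subgroup.normalizer ((P : Subgroup G) : Set G)) ⊔ Subgroup.centralizer (Q : Set G) ∧
    ((Subgroup.centralizer (Q : Set G)).subgroupOf (Subgroup.normalizer (Q : Set G))).index ∣ ((Subgroup.centralizer ((P : Subgroup G) : Set G)).subgroupOf (Subgroup.normalizer ((P : Subgroup G) : Set G))).index := by
  set C := Subgroup.centralizer (Q : Set G)
  set NQ := Subgroup.normalizer (Q : Set G)
  set NP := Subgroup.normalizer ((P : Subgroup G) : Set G)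
  set CP := Subgroup.centralizer ((P : Subgroup G) : Set G)
  have hPC : (P : Subgroup G) ≤ C := fun x hx y hy =>
    congrArg Subtype.val (hP.is_comm.comm (⟨y, hQ hy⟩ : (P : Subgroup G)) ⟨x, hx⟩)
  have hCN : C ≤ NQ := Subgroup.centralizer_le_normalizer _
  have h1 : NQ = (NQ ⊓ NP) ⊔ C := by
    refine le_antisymm (fun g hg => ?_) (sup_le inf_le_left hCN)
    have hle : ((g • P : Sylow p G) : Subgroup G) ≤ C := by
      rintro _ ⟨x, hx, rfl⟩ y hy
      have h2 : g⁻¹ * y * g ∈ Q := by
        have := (Subgroup.mem_normalizer_iff.1 (NQ.inv_mem hg) y).1 hy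
        simpa using this
      have := hPC hx _ h2
      show y * (g * x * g⁻¹) = g * x * g⁻¹ * y
      calc y * (g * x * g⁻¹) = g * (g⁻¹ * y * g * x) * g⁻¹ := by group
        _ = _ := by rw [this]; group
    obtain ⟨c, hc⟩ := MulAction.exists_smul_eq C ((g • P).subtype hle) (P.subtype hPC)
    have hc' : (c : G) • (g • P) = P := by
      have := Sylow.smul_subtype hle c
      rw [hc] at this
      exact (Sylow.subtype_injective this).symm
    rw [← mul_smul, Sylow.smul_eq_iff_mem_normalizer] at hc'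
    have : g = (c : G)⁻¹ * (c * g) := by group
    rw [this]
    exact Subgroup.mul_mem _ (Subgroup.mem_sup_right (C.inv_mem c.2))
      (Subgroup.mem_sup_left ⟨NQ.mul_mem (hCN c.2) hg, hc'⟩)
  refine ⟨h1, ?_⟩
  change C.relIndex NQ ∣ CP.relIndex NP
  have hCPC : CP ≤ C := Subgroup.centralizer_le hQ
  have h2 : C.relIndex NQ = C.relIndex (NQ ⊓ NP) := by
    haveI : (C.subgroupOf NQ).Normal := inferInstance
    have e1 := Subgroup.relIndex_sup_right ((NQ ⊓ NP).subgroupOf NQ) (C.subgroupOf NQ)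
    rw [← Subgroup.subgroupOf_sup inf_le_left hCN, ← h1, Subgroup.subgroupOf_self,
      Subgroup.relIndex_top_right, Subgroup.relIndex_subgroupOf inf_le_left] at e1
    exact e1
  rw [h2]
  have h3 : CP ≤ NQ ⊓ NP := le_inf (hCPC.trans hCN) (Subgroup.centralizer_le_normalizer _)
  calc C.relIndex (NQ ⊓ NP) ∣ CP.relIndex (NQ ⊓ NP) := Subgroup.relIndex_dvd_of_le_left _ hCPC
    _ ∣ CP.relIndex NP := ⟨_, (Subgroup.relIndex_mul_relIndex CP (NQ ⊓ NP) NP h3 inf_le_right).symm⟩

end Cfsg.Agent.S2268
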