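import Cfsg.Statements.S2270
import Cfsg.Agent.S2268

set_option autoImplicit false
open Cfsg

namespace Cfsg.Agent.S2270

open Equiv Equiv.Perm Subgroup

theorem two_dvd_of_inv {G : Type*} [Group G] [Finite G] {p : ℕ} [Fact p.Prime] (hp : p ≠ 2)
    (P : Sylow p G) (hP : IsMulCommutative (P : Subgroup G)) {x t : G} (hx : orderOf x = p)
    (ht : t * x * t⁻¹ = x⁻¹) :
    2 ∣ ((centralizer ((P : Subgroup G) : Set G)).subgroupOf
      (normalizer ((P : Subgroup G) : Set G))).index := by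
  have hQ : IsPGroup p (zpowers x) := IsPGroup.of_card (n := 1) (by rw [Nat.card_zpowers, hx, pow_one])
  obtain ⟨P₀, hP₀⟩ := hQ.exists_le_sylow
  obtain ⟨g, rfl⟩ := MulAction.exists_smul_eq G P₀ P
  set y := g * x * g⁻¹
  set s := g * t * g⁻¹
  have hs : s * y * s⁻¹ = y⁻¹ := by
    calc s * y * s⁻¹ = g * (t * x * t⁻¹) * g⁻¹ := by simp only [s, y]; group
      _ = _ := by rw [ht]; simp only [y]; group
  have hy : orderOf y = p := by
    rw [← hx]; exact (MulAut.conj g).orderOf_eq x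
  have hle : zpowers y ≤ ((g • P₀ : Sylow p G) : Subgroup G) :=
    (zpowers_le).2 ⟨x, hP₀ (mem_zpowers x), rfl⟩
  refine dvd_trans ?_ (S2268.result _ hP _ hle).2
  set N := normalizer ((zpowers y : Subgroup G) : Set G)
  set C := (centralizer ((zpowers y : Subgroup G) : Set G)).subgroupOf N
  have hsN : s ∈ N := mem_normalizer_fintype (by
    rintro _ ⟨k, rfl⟩
    exact ⟨-k, by simp only [← conj_zpow, hs, inv_zpow, zpow_neg]⟩)
  have h1 : orderOf (QuotientGroup.mk' C ⟨s, hsN⟩) = 2 := by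
    haveI := Fact.mk Nat.prime_two
    refine orderOf_eq_prime ?_ fun h => ?_
    · rw [← map_pow, QuotientGroup.mk'_apply, QuotientGroup.eq_one_iff]
      rintro _ ⟨k, rfl⟩
      refine (Commute.zpow_left ?_ k).eq
      have : s * y⁻¹ * s⁻¹ = y := by rw [← conj_inv, hs, inv_inv]
      change y * s ^ 2 = s ^ 2 * y
      calc y * s ^ 2 = s * y⁻¹ * s⁻¹ * s ^ 2 := by rw [this]
        _ = s * (s * y * s⁻¹) * s⁻¹ * s ^ 2 := by rw [hs]
        _ = _ := by rw [sq]; group
    · have := (QuotientGroup.eq_one_iff _).1 h y (mem_zpowers y)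
      change y * s = s * y at this
      rw [← this, mul_inv_cancel_right] at hs
      have h2 : y ^ 2 = 1 := by rw [sq]; nth_rewrite 2 [hs]; simp
      exact hp ((Nat.prime_dvd_prime_iff_eq Fact.out Nat.prime_two).1
        (hy ▸ orderOf_dvd_of_pow_eq_one h2))
  exact h1 ▸ orderOf_dvd_natCard _

/-- Let n ≥ 3, p an odd prime, and P an abelian Sylow p-subgroup of the symmetric group S_n (with p dividing n!, so that P ≠ 1). Then N(P)/C(P) has even order. -/
theorem result (n : ℕ) (hn : 3 ≤ n) {p : ℕ} [Fact p.Prime] (hp : p ≠ 2) (hpn : p ≤ n)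
    (P : Sylow p (Equiv.Perm (Fin n))) (hP : IsMulCommutative (P : Subgroup (Equiv.Perm (Fin n)))) :
    2 ∣ ((Subgroup.centralizer ((P : Subgroup (Equiv.Perm (Fin n))) : Set (Equiv.Perm (Fin n)))).subgroupOf (Subgroup.normalizer ((P : Subgroup (Equiv.Perm (Fin n))) : Set (Equiv.Perm (Fin n))))).index := by
  obtain ⟨x, hx⟩ := exists_prime_orderOf_dvd_card' (G := Perm (Fin n)) p (by
    rw [Nat.card_perm]
    simpa using (Nat.Prime.dvd_factorial Fact.out).2 hpn)
  obtain ⟨t, ht⟩ := isConj_iff.1 (isConj_iff_cycleType_eq.2 (cycleType_inv x).symm)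
  exact two_dvd_of_inv hp P hP hx ht

end Cfsg.Agent.S2270
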