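import Cfsg.Statements.S2269
import Cfsg.Agent.S2270
import Cfsg.Agent.Small.SymSyl

set_option autoImplicit false
open Cfsg

namespace Cfsg.Agent.S2269

open Equiv Equiv.Perm Subgroup

theorem not_le {G : Type*} [Group G] [Finite G] [IsSimpleGroup G] {p : ℕ} [Fact p.Prime] (P : Sylow p G) (h1 : p ∣ Nat.card G)
    (h2 : ¬ IsPGroup p G) : ¬ normalizer ((P : Subgroup G) : Set G) ≤ centralizer ((P : Subgroup G) : Set G) := by
  intro h
  have hc := MonoidHom.ker_transferSylow_isComplement' P h
  rcases (inferInstance : (MonoidHom.transferSylow P h).ker.Normal).eq_bot_or_eq_top with e | e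
  · rw [e, isComplement'_bot_left] at hc
    exact h2 ((hc ▸ P.isPGroup').of_equiv topEquiv)
  · rw [e, isComplement'_top_left] at hc
    exact P.ne_bot_of_dvd_card h1 hc

theorem dvd_alt {n p : ℕ} (hn : 5 ≤ n) (h : p = 2 ∨ p = 3) : p ∣ Nat.card (alternatingGroup (Fin n)) := by
  haveI : Nontrivial (Fin n) := Fin.nontrivial_iff_two_le.2 (by omega)
  have h1 := two_mul_nat_card_alternatingGroup (α := Fin n)
  rw [Nat.card_perm, Nat.card_eq_fintype_card (α := Fin n), Fintype.card_fin] at h1
  have h2 : 24 ∣ n.factorial := Nat.factorial_dvd_factorial (m := 4) (by omega)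
  rcases h with rfl | rfl <;> omega

theorem a5 : ∀ g : Perm (Fin 5), sign g = 1 → g ^ 4 = 1 → g ^ 2 = 1 := by decide +kernel

/-- Let n ≥ 5 and let P be an abelian Sylow p-subgroup of the alternating group A_n. Then N(P)/C(P) (taken in A_n) has even order, or P is cyclic, except when n = 5 and p = 2, where P is a four-group and N(P)/C(P) has order 3. -/
theorem result (n : ℕ) (hn : 5 ≤ n) {p : ℕ} [Fact p.Prime]
    (P : Sylow p (alternatingGroup (Fin n))) (hP : IsMulCommutative (P : Subgroup (alternatingGroup (Fin n)))) :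
    (¬ (n = 5 ∧ p = 2) → 2 ∣ ((Subgroup.centralizer ((P : Subgroup (alternatingGroup (Fin n))) : Set (alternatingGroup (Fin n)))).subgroupOf (Subgroup.normalizer ((P : Subgroup (alternatingGroup (Fin n))) : Set (alternatingGroup (Fin n))))).index ∨ IsCyclic (P : Subgroup (alternatingGroup (Fin n)))) ∧
    ((n = 5 ∧ p = 2) → ((Subgroup.centralizer ((P : Subgroup (alternatingGroup (Fin n))) : Set (alternatingGroup (Fin n)))).subgroupOf (Subgroup.normalizer ((P : Subgroup (alternatingGroup (Fin n))) : Set (alternatingGroup (Fin n))))).index = 3 ∧ IsKleinFour (P : Subgroup (alternatingGroup (Fin n)))) := by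
  haveI := alternatingGroup.isSimpleGroup (α := Fin n) (by simpa using hn)
  have hp : p.Prime := Fact.out
  have h2 : p = 2 → ¬ normalizer ((P : Subgroup (alternatingGroup (Fin n))) : Set (alternatingGroup (Fin n))) ≤
      centralizer ((P : Subgroup (alternatingGroup (Fin n))) : Set (alternatingGroup (Fin n))) := fun e =>
    not_le P (dvd_alt hn (Or.inl e)) fun h => by
      obtain ⟨k, hk⟩ := IsPGroup.iff_card.1 h
      have := Nat.prime_three.dvd_of_dvd_pow (hk ▸ dvd_alt hn (Or.inr rfl))
      omega
  refine ⟨fun h => ?_, fun ⟨h5, e⟩ => ?_⟩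
  · by_cases e : p = 2
    · subst e
      exact absurd (fun g hg => le_centralizer _ (Cfsg.Agent.Small.mem_of_norm_alt (by simp; omega) P hg)) (h2 rfl)
    by_cases hpn : p + 2 ≤ n
    · left
      obtain ⟨x, hx⟩ := (exists_with_cycleType_iff (Fin n) (m := {p})).2 (by simp; exact ⟨by omega, hp.two_le⟩)
      have hc : x.IsCycle := card_cycleType_eq_one.1 (by simp [hx])
      have hs : x.support.card = p := by rw [← sum_cycleType, hx]; simp
      have hA : x ∈ alternatingGroup (Fin n) := by
        rw [mem_alternatingGroup, hc.sign, hs, (hp.odd_of_ne_two e).neg_one_pow, neg_neg]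
      obtain ⟨t, ht⟩ := isConj_iff.1 (alternatingGroup.isConj_of (σ := ⟨x, hA⟩) (τ := ⟨x, hA⟩⁻¹)
        (isConj_iff_cycleType_eq.2 (cycleType_inv x).symm) (by simpa [hs] using hpn))
      exact Cfsg.Agent.S2270.two_dvd_of_inv e P hP (by rw [orderOf_mk, hc.orderOf, hs]) ht
    · right
      obtain ⟨k, hk⟩ := IsPGroup.iff_card.1 P.isPGroup'
      have h3 : p ^ k ∣ n.factorial := by
        have := (card_subgroup_dvd_card (P : Subgroup (alternatingGroup (Fin n)))).trans (card_subgroup_dvd_card _)
        rwa [hk, Nat.card_perm, Nat.card_eq_fintype_card, Fintype.card_fin] at this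
      have h4 : n / p ≤ 1 := Nat.lt_succ_iff.1 ((Nat.div_lt_iff_lt_mul hp.pos).2 (by have := hp.two_le; omega))
      have h5 := (hp.pow_dvd_iff_le_factorization n.factorial_ne_zero).1 h3
      rw [Cfsg.Agent.Small.factorization_factorial_div, show (n / p).factorial = 1 from Nat.factorial_eq_one.2 h4] at h5
      exact isCyclic_of_card_dvd_prime (p := p) (hk ▸ (pow_dvd_pow p (by simp at h5; omega : k ≤ 1)).trans (by simp))
  · subst h5 e
    have h60 : Nat.card (alternatingGroup (Fin 5)) = 60 := by
      have h1 := two_mul_nat_card_alternatingGroup (α := Fin 5)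
      rw [Nat.card_perm, Nat.card_eq_fintype_card (α := Fin 5), Fintype.card_fin] at h1
      simp only [Nat.factorial] at h1
      omega
    have h4 : Nat.card (P : Subgroup (alternatingGroup (Fin 5))) = 4 := by
      rw [P.card_eq_multiplicity, h60, show 60 = 2 ^ 2 * 15 from rfl, Nat.factorization_mul (by norm_num) (by norm_num),
        Finsupp.add_apply, Nat.factorization_eq_zero_of_not_dvd (by norm_num : ¬ 2 ∣ 15)]
      rw [Nat.prime_two.factorization_pow]
      simp
    have hi : (P : Subgroup (alternatingGroup (Fin 5))).index = 15 := by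
      have := (P : Subgroup (alternatingGroup (Fin 5))).card_mul_index
      rw [h4, h60] at this
      omega
    refine ⟨?_, h4, ?_⟩
    · have h6 : ((centralizer ((P : Subgroup (alternatingGroup (Fin 5))) : Set (alternatingGroup (Fin 5)))).subgroupOf
          (normalizer ((P : Subgroup (alternatingGroup (Fin 5))) : Set (alternatingGroup (Fin 5))))).index ∣ 24 := by
        rw [← normalizerMonoidHom_ker, index_ker]
        refine (card_subgroup_dvd_card _).trans ((card_dvd_of_injective (MulAut.toPerm _) fun a b h => MulEquiv.ext fun x =>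
          DFunLike.congr_fun h x).trans ?_)
        rw [Nat.card_perm, h4]; rfl
      have h7 := (relIndex_dvd_of_le_left (normalizer ((P : Subgroup (alternatingGroup (Fin 5))) : Set _))
        (le_centralizer (P : Subgroup (alternatingGroup (Fin 5))))).trans (relIndex_dvd_index_of_le le_normalizer)
      rw [hi] at h7
      exact ((Nat.dvd_prime Nat.prime_three).1 (Nat.dvd_gcd h6 h7)).resolve_left fun h => h2 rfl (relIndex_eq_one.1 h)
    · haveI : Nontrivial (P : Subgroup (alternatingGroup (Fin 5))) := Finite.one_lt_card_iff_nontrivial.1 (by omega)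
      refine (Monoid.exponent_eq_prime_iff Nat.prime_two).2 fun g hg => orderOf_eq_prime ?_ hg
      have h8 : g ^ 4 = 1 := h4 ▸ pow_card_eq_one'
      exact Subtype.ext (Subtype.ext (a5 _ g.1.2 (congrArg (fun x => x.1.1) h8)))

end Cfsg.Agent.S2269
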