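import Cfsg.Statements.S2279
import Cfsg.Agent.Pres.Uni

set_option autoImplicit false
open Cfsg

namespace Cfsg.Agent.S2279

/-- Let F be a finite field with q elements and n ≥ 4. Then SL_n(F) is generated by two regular unipotent elements (elements u with u − 1 nilpotent and (u − 1)^(n−1) ≠ 0); if q is prime, the two can be taken conjugate in SL_n(F). -/
theorem result {F : Type*} [Field F] [Fintype F] (n : ℕ) (hn : 4 ≤ n) :
    (∃ u v : Matrix.SpecialLinearGroup (Fin n) F, (IsNilpotent ((u : Matrix (Fin n) (Fin n) F) - 1) ∧ ((u : Matrix (Fin n) (Fin n) F) - 1) ^ (n - 1) ≠ 0) ∧ (IsNilpotent ((v : Matrix (Fin n) (Fin n) F) - 1) ∧ ((v : Matrix (Fin n) (Fin n) F) - 1) ^ (n - 1) ≠ 0) ∧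
      Subgroup.closure ({u, v} : Set (Matrix.SpecialLinearGroup (Fin n) F)) = ⊤) ∧
    ((Fintype.card F).Prime → ∃ u g : Matrix.SpecialLinearGroup (Fin n) F, (IsNilpotent ((u : Matrix (Fin n) (Fin n) F) - 1) ∧ ((u : Matrix (Fin n) (Fin n) F) - 1) ^ (n - 1) ≠ 0) ∧
      Subgroup.closure ({u, g * u * g⁻¹} : Set (Matrix.SpecialLinearGroup (Fin n) F)) = ⊤) := by
  obtain ⟨n, rfl⟩ : ∃ m, n = m + 1 := ⟨n - 1, by omega⟩
  obtain ⟨g, h⟩ := Pres.uni_all (F := F) (n := n) (by omega)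
  refine ⟨⟨_, _, Pres.jA_reg, ?_, h⟩, fun _ => ⟨_, g, Pres.jA_reg, h⟩⟩
  have e : ∀ k : ℕ, ((g * Pres.jA F n * g⁻¹).1 - 1) ^ k = g.1 * ((Pres.jA F n).1 - 1) ^ k * (g⁻¹).1 :=
    fun k => by
      have h1 : (g⁻¹).1 * g.1 = 1 := congrArg Subtype.val (inv_mul_cancel g)
      have h2 : g.1 * (g⁻¹).1 = 1 := congrArg Subtype.val (mul_inv_cancel g)
      induction k with
      | zero => simpa using h2.symm
      | succ k ih =>
        rw [pow_succ, ih, pow_succ, Matrix.SpecialLinearGroup.coe_mul,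
          Matrix.SpecialLinearGroup.coe_mul]
        simp only [mul_sub, sub_mul, mul_one, mul_assoc]
        rw [← mul_assoc (g⁻¹).1, h1, one_mul]
  obtain ⟨⟨k, h1⟩, h2⟩ := Pres.jA_reg (F := F) (n := n)
  refine ⟨⟨k, by rw [e, h1, mul_zero, zero_mul]⟩, fun h => h2 ?_⟩
  rw [e] at h
  have := congrArg (fun M => (g⁻¹).1 * M * g.1) h
  have h1 : (g⁻¹).1 * g.1 = 1 := congrArg Subtype.val (inv_mul_cancel g)
  simp only [mul_assoc, h1, mul_one, mul_zero, zero_mul] at this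
  rwa [← mul_assoc, h1, one_mul] at this

end Cfsg.Agent.S2279
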