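import Cfsg.Statements.S2284
import Cfsg.Agent.Pres.Alt2

set_option autoImplicit false
open Cfsg

namespace Cfsg.Agent.S2284

/-- For every n, the symmetric group S_n and the alternating group A_n each have a presentation with 2 generators and at most 8 relations. -/
theorem result (n : ℕ) : (∃ rels : Finset (FreeGroup (Fin 2)), rels.card ≤ 8 ∧ Nonempty (PresentedGroup (↑rels : Set (FreeGroup (Fin 2))) ≃* Equiv.Perm (Fin n))) ∧ (∃ rels : Finset (FreeGroup (Fin 2)), rels.card ≤ 8 ∧ Nonempty (PresentedGroup (↑rels : Set (FreeGroup (Fin 2))) ≃* ↥(alternatingGroup (Fin n)))) := by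
  by_cases hn : 3 ≤ n
  · obtain ⟨-, D, h⟩ := Pres.pres_perm hn
    obtain ⟨-, D', h'⟩ := Pres.pres_alt hn
    exact ⟨(h.mono (by omega)).nonempty, (h'.mono (by omega)).nonempty⟩
  · have h : ∃ x : Equiv.Perm (Fin n), x ^ 2 = 1 ∧ (∀ g, g = 1 ∨ g = x) ∧
        ∀ g : Equiv.Perm (Fin n), Equiv.Perm.sign g = 1 → g = 1 := by
      obtain rfl | rfl | rfl : n = 0 ∨ n = 1 ∨ n = 2 := by omega
      · exact ⟨1, by decide, by decide, by decide⟩
      · exact ⟨1, by decide, by decide, by decide⟩
      · exact ⟨Equiv.swap 0 1, by decide, by decide, by decide⟩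
    obtain ⟨x, h1, h2, h3⟩ := h
    exact ⟨((Pres.pres_le_two x h1 h2).mono (by omega)).nonempty,
      ((Pres.pres_le_two 1 (one_pow 2) fun g => Or.inl (Subtype.ext (h3 g g.2))).mono
        (by omega)).nonempty⟩

end Cfsg.Agent.S2284
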