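import Cfsg.Statements.S2286
import Cfsg.Agent.Pres.SL2

set_option autoImplicit false
open Cfsg

namespace Cfsg.Agent.S2286

/-- For every finite field F, SL_2(F) and PSL_2(F) have presentations with 3 generators and at most 9 relations; when F has characteristic 2, PSL_2(F) has a presentation with 3 generators and at most 5 relations. -/
theorem result {F : Type*} [Field F] [Fintype F] :
    (∃ rels : Finset (FreeGroup (Fin 3)), rels.card ≤ 9 ∧ Nonempty (PresentedGroup (↑rels : Set (FreeGroup (Fin 3))) ≃* Matrix.SpecialLinearGroup (Fin 2) F)) ∧ (∃ rels : Finset (FreeGroup (Fin 3)), rels.card ≤ 9 ∧ Nonempty (PresentedGroup (↑rels : Set (FreeGroup (Fin 3))) ≃* Matrix.ProjectiveSpecialLinearGroup (Fin 2) F)) ∧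
    (CharP F 2 → ∃ rels : Finset (FreeGroup (Fin 3)), rels.card ≤ 5 ∧ Nonempty (PresentedGroup (↑rels : Set (FreeGroup (Fin 3))) ≃* Matrix.ProjectiveSpecialLinearGroup (Fin 2) F)) := by
  obtain ⟨ζ, hζ⟩ := Pres.exists_prim_unit (F := F)
  have h := Pres.pres_SL2 hζ
  refine ⟨(h.mono (by omega)).nonempty, (h.quot_cyclic (Subgroup.center _)).nonempty, fun h2 => ?_⟩
  letI := ZMod.algebra F 2
  refine ((Pres.pres_SL2_two hζ).quot (QuotientGroup.mk' (Subgroup.center _))
    (QuotientGroup.mk'_surjective _) [] ?_).nonempty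
  rw [QuotientGroup.ker_mk']
  refine le_antisymm (fun g hg => ?_) (Subgroup.normalClosure_le_normal (by simp))
  obtain ⟨r, h1, h2⟩ := Matrix.SpecialLinearGroup.mem_center_iff.1 hg
  have h3 : r = 1 := by
    have : (r - 1) ^ 2 = 0 := by
      rw [sub_pow_char]; simpa [sub_eq_zero] using h1
    simpa [sub_eq_zero] using this
  have : g = 1 := Subtype.ext (by rw [← h2, h3]; simp)
  exact this ▸ one_mem _

end Cfsg.Agent.S2286
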