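import Cfsg.Statements.S2292
import Cfsg.Agent.Pres.Gen3

set_option autoImplicit false
open Cfsg

namespace Cfsg.Agent.S2292

/-- Let F be a finite field with q elements and m ≥ 2 with (m, q) ≠ (2, 2). Then the simple group PSp_2m(F) has a presentation with 2 generators and at most 80 relations. -/
theorem result {F : Type*} [Field F] [Fintype F] (m : ℕ) (hm : 2 ≤ m) (h22 : ¬ (m = 2 ∧ Fintype.card F = 2)) :
    ∃ rels : Finset (FreeGroup (Fin 2)), rels.card ≤ 80 ∧ Nonempty (PresentedGroup (↑rels : Set (FreeGroup (Fin 2))) ≃* Cfsg.PSp m F) := by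
  obtain ⟨a, b, h⟩ := Pres.exists_two_gen_Sp (F := F) hm fun e => by
    have := Fintype.one_lt_card (α := F); omega
  have key : ∀ {k l : ℕ} {D : Fin (k + 1) → Matrix.symplecticGroup (Fin m) F}, Pres.HasPres D l →
      l ≤ 77 → ∃ rels : Finset (FreeGroup (Fin 2)), rels.card ≤ 80 ∧
        Nonempty (PresentedGroup (↑rels : Set (FreeGroup (Fin 2))) ≃* Cfsg.PSp m F) :=
    fun hD hl => (((hD.two h).quot_cyclic _).mono (by omega)).nonempty
  obtain rfl | rfl | h4 : m = 2 ∨ m = 3 ∨ 4 ≤ m := by omega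
  · obtain ⟨D, hD⟩ := Pres.pres_Sp4 (F := F)
    exact key hD (by omega)
  · obtain ⟨D, hD⟩ := Pres.pres_Sp6 (F := F)
    exact key hD (by omega)
  · obtain ⟨D, hD⟩ := Pres.pres_Spn (F := F) h4
    exact key hD (by omega)

end Cfsg.Agent.S2292
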