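import Cfsg.Statements.S2294
import Cfsg.Agent.Pres.SUn2

set_option autoImplicit false
open Cfsg

namespace Cfsg.Agent.S2294

/-- Let F be a field with q² elements and n ≥ 4, and SU_n(q), PSU_n(q) the special unitary group of the standard Hermitian form and its central quotient. Then SU_n(q) has a presentation with 6 generators and at most 39 relations and PSU_n(q) one with 6 generators and at most 40 relations; moreover SU_4(q) and SU_5(q) have presentations with 6 generators and at most 35 relations, and PSU_4(q) one with 6 generators and at most 36 relations. -/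
theorem result {F : Type*} [Field F] [Fintype F] (q : ℕ) (hF : Fintype.card F = q ^ 2) (n : ℕ) (hn : 4 ≤ n) :
    (∃ rels : Finset (FreeGroup (Fin 6)), rels.card ≤ 39 ∧ Nonempty (PresentedGroup (↑rels : Set (FreeGroup (Fin 6))) ≃* ↥(Cfsg.SU n F q))) ∧ (∃ rels : Finset (FreeGroup (Fin 6)), rels.card ≤ 40 ∧ Nonempty (PresentedGroup (↑rels : Set (FreeGroup (Fin 6))) ≃* Cfsg.PSU n F q)) ∧
    (∃ rels : Finset (FreeGroup (Fin 6)), rels.card ≤ 35 ∧ Nonempty (PresentedGroup (↑rels : Set (FreeGroup (Fin 6))) ≃* ↥(Cfsg.SU 4 F q))) ∧ (∃ rels : Finset (FreeGroup (Fin 6)), rels.card ≤ 35 ∧ Nonempty (PresentedGroup (↑rels : Set (FreeGroup (Fin 6))) ≃* ↥(Cfsg.SU 5 F q))) ∧ (∃ rels : Finset (FreeGroup (Fin 6)), rels.card ≤ 36 ∧ Nonempty (PresentedGroup (↑rels : Set (FreeGroup (Fin 6))) ≃* Cfsg.PSU 4 F q)) := by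
  haveI : Fact (Fintype.card F = q ^ 2) := ⟨hF⟩
  have k : ∀ {n l : ℕ} (hn : 4 ≤ n), (if n ≤ 5 then 35 else 38) ≤ l → _ := fun {n l} hn hl =>
    haveI := Pres.isCyclic_center_SU (F := F) (q := q) (n := n) (by omega)
    Pres.both_of (Pres.pres_SUn (F := F) (q := q) hn).choose_spec hl
  have h : (if n ≤ 5 then 35 else 38) ≤ 39 := by split_ifs <;> omega
  exact ⟨(k hn h).1, (k hn h).2, (k le_rfl le_rfl).1, (k (n := 5) (by omega) le_rfl).1, (k le_rfl le_rfl).2⟩

end Cfsg.Agent.S2294
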