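import Cfsg.Statements.S2333
import Cfsg.Agent.Deg.SpEven
import Cfsg.Agent.Classical.PSL2Basic

set_option autoImplicit false
open Cfsg

namespace Cfsg.Agent.S2333

/-- For a finite field F of even order q and n ≥ 2 with (n, q) ≠ (2, 2), every irreducible complex representation of the symplectic group Sp_{2n}(F) of degree at least 2 has degree at least (q^n − 1)(q^n − q)/(2(q + 1)). -/
theorem result {F : Type*} [Field F] [Fintype F] [DecidableEq F] (n : ℕ) (hn : 2 ≤ n) (heven : Even (Fintype.card F)) (hex : (n, Fintype.card F) ≠ (2, 2)) :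
    (∀ (k : ℕ) (ρ : Representation ℂ (Matrix.symplecticGroup (Fin n) F) (Fin k → ℂ)), ρ.IsIrreducible → 2 ≤ k → (Fintype.card F ^ n - 1) * (Fintype.card F ^ n - Fintype.card F) / (2 * (Fintype.card F + 1)) ≤ k) := by
  intro k ρ hρ hk
  obtain ⟨ψ, hψ⟩ := Deg.exists_complex_psi F
  obtain ⟨g, hg⟩ := Deg.exists_ne_one ρ hρ hk
  have := Deg.sp_even_bound (Classical.two_eq_zero_iff_even.2 (by rwa [Nat.card_eq_fintype_card])) hn hψ (by simp)
    (Deg.ker_le_center (Deg.quasisimple_sp hn fun h => by
      have := Fintype.one_lt_card (α := F)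
      have : Fintype.card F ≠ 2 := fun h' => hex (by simp [h, h'])
      rw [Nat.card_eq_fintype_card]
      omega) ρ hg)
  rw [Module.finrank_fin_fun] at this
  exact Nat.div_le_of_le_mul this

end Cfsg.Agent.S2333
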