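import Cfsg.Statements.S2337
import Cfsg.Agent.Sz.Part

set_option autoImplicit false
open Cfsg

namespace Cfsg.Agent.S2337

section
open Sz Module

theorem eigen_indep {F : Type*} [AddCommGroup F] [Finite F] {E ι : Type*} [AddCommGroup E] [Module ℂ E] [Fintype ι]
    {χ : ι → AddChar F ℂ} (hχ : Function.Injective χ) (T : F → E →ₗ[ℂ] E) (x : ι → E)
    (hx : ∀ i c, T c (x i) = χ i c • x i) (h : ∑ i, x i = 0) (i : ι) : x i = 0 := by
  rw [← Module.forall_dual_apply_eq_zero_iff ℂ]
  intro f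
  refine Fintype.linearIndependent_iff.1 ((AddChar.linearIndependent F ℂ).comp χ hχ) (fun i => f (x i)) ?_ i
  ext c
  have := congrArg (fun v => f (T c v)) h
  simpa [hx, mul_comm] using this

variable {F : Type*} [Field F] [Finite F] [Tits F] {G : Type*} [Group G] [SzRep F G]
  {V : Type*} [AddCommGroup V] [Module ℂ V]

/-- The weight space of the centre of `U`. -/
def W (ρ : Representation ℂ G V) (φ : AddChar F ℂ) : Submodule ℂ V where
  carrier := {v | ∀ b, ρ (S G 0 b) v = φ b • v}
  zero_mem' := by simp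
  add_mem' {v w} hv hw b := by rw [map_add, hv, hw, smul_add]
  smul_mem' c v hv b := by rw [map_smul, hv, smul_comm]

omit [Finite F] in
theorem U_mem (ρ : Representation ℂ G V) (φ : AddChar F ℂ) {u : G} (hu : u ∈ U F G) (v : V) (hv : v ∈ W ρ φ) :
    ρ u v ∈ W ρ φ := fun b => by
  rw [← Module.End.mul_apply, ← map_mul, Z_comm (S_mem_Z b) hu, map_mul, Module.End.mul_apply, hv, map_smul]

theorem exists_mulShift {φ : AddChar F ℂ} (hφ : φ ≠ 1) (ψ : AddChar F ℂ) : ∃ γ, φ.mulShift γ = ψ := by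
  have := Fintype.ofFinite F
  exact ((Fintype.bijective_iff_injective_and_card _).2
    ⟨AddChar.to_mulShift_inj_of_isPrimitive (AddChar.IsPrimitive.of_ne_one hφ), AddChar.card_eq.symm⟩).2 ψ

theorem heis [FiniteDimensional ℂ V] (ρ : Representation ℂ G V) {φ : AddChar F ℂ} (hφ : φ ≠ 1) (h : W ρ φ ≠ ⊥) :
    Nat.card F ≤ 2 * finrank ℂ (W ρ φ) ^ 2 := by
  classical
  have := Fintype.ofFinite F
  let χ : F → AddChar F ℂ := fun a =>
    { toFun := fun c => φ (Tits.θ c * a + Tits.θ a * c)
      map_zero_eq_one' := by simp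
      map_add_eq_mul' := fun c d => by rw [← AddChar.map_add_eq_mul]; congr 1; simp only [map_add]; ring }
  obtain ⟨γ, hγ⟩ := exists_mulShift hφ (φ.compAddMonoidHom (Tits.θ : F →+* F).toAddMonoidHom)
  have hγ : ∀ x, φ (γ * x) = φ (Tits.θ x) := fun x => DFunLike.congr_fun hγ x
  have hfib : ∀ a a', χ a = χ a' → a = a' ∨ a = a' + Tits.θ γ := by
    intro a a' e
    obtain ⟨t, ht⟩ := θ_surjective (a + a')
    have h1 : φ.mulShift (γ * t) = φ.mulShift (t ^ 2) := by
      ext c
      have e1 : φ (Tits.θ c * a + Tits.θ a * c) = φ (Tits.θ c * a' + Tits.θ a' * c) := DFunLike.congr_fun e c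
      rw [AddChar.mulShift_apply, AddChar.mulShift_apply, mul_assoc, hγ, ← Tits.θθ, map_mul, ht]
      have e2 := congrArg (· * φ (Tits.θ c * a' + Tits.θ a * c)) e1
      simp only [← AddChar.map_add_eq_mul] at e2
      convert e2 using 2
      · grind
      · rw [map_add]; grind
    have h2 := AddChar.to_mulShift_inj_of_isPrimitive (AddChar.IsPrimitive.of_ne_one hφ) h1
    by_cases h0 : t = 0
    · left; rw [h0, map_zero] at ht; exact add_eq_zero_iff'.1 ht.symm
    · right
      rw [sq] at h2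
      rw [mul_right_cancel₀ h0 h2, ht]; grind
  have h1 : Fintype.card F ≤ 2 * (Finset.univ.image χ).card := by
    refine Finset.card_le_mul_card_image _ 2 fun ψ hψ => ?_
    obtain ⟨a, _, rfl⟩ := Finset.mem_image.1 hψ
    refine (Finset.card_le_card (t := {a, a + Tits.θ γ}) fun a' ha => ?_).trans Finset.card_le_two
    simpa using hfib _ _ (Finset.mem_filter.1 ha).2
  choose s _ hs using fun ψ : Finset.univ.image χ => Finset.mem_image.1 ψ.2
  let A : ∀ u : U F G, W ρ φ →ₗ[ℂ] W ρ φ := fun u => (ρ u).restrict (U_mem ρ φ u.2)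
  have hA : ∀ (u : U F G) (v : W ρ φ), (A u v : V) = ρ u v := fun _ _ => rfl
  have hli : LinearIndependent ℂ fun ψ : Finset.univ.image χ => A ⟨_, S_mem_U (s ψ) 0⟩ := by
    rw [Fintype.linearIndependent_iff]
    intro g hg ψ
    have := eigen_indep (χ := fun ψ : Finset.univ.image χ => ψ.1) Subtype.val_injective
      (fun c => LinearMap.mulLeftRight ℂ (A ⟨_, S_mem_U c 0⟩, A (⟨_, S_mem_U c 0⟩ : U F G)⁻¹)) _ (fun ψ c => by
        rw [map_smul, smul_comm]
        congr 1
        ext v
        rw [← hs ψ]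
        simp only [LinearMap.mulLeftRight_apply, Module.End.mul_apply, hA, LinearMap.smul_apply, Submodule.coe_smul,
          InvMemClass.coe_inv]
        rw [← Module.End.mul_apply, ← Module.End.mul_apply, ← map_mul, ← map_mul, S_conj_S]
        have := U_mem ρ φ (S_mem_U (s ψ) 0) v v.2 (Tits.θ c * s ψ + Tits.θ (s ψ) * c)
        rw [← Module.End.mul_apply, ← map_mul, S_mul_S] at this
        simp only [map_zero, zero_mul, zero_add, add_zero] at this ⊢
        exact this) hg ψ
    refine (smul_eq_zero.1 this).resolve_right fun h0 => h ?_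
    rw [eq_bot_iff]
    intro v hv
    have h2 : ρ (S G (s ψ) 0) v = 0 := congrArg Subtype.val (LinearMap.congr_fun h0 ⟨v, hv⟩)
    have h3 := congrArg (ρ (S G (s ψ) 0)⁻¹) h2
    rwa [← Module.End.mul_apply, ← map_mul, inv_mul_cancel, map_one, map_zero] at h3
  have h2 := hli.fintype_card_le_finrank
  rw [Fintype.card_coe, Module.finrank_linearMap, ← sq] at h2
  rw [Nat.card_eq_fintype_card]
  omega

theorem exists_W (ρ : Representation ℂ G V) (h : ∃ g, ρ g ≠ 1) : ∃ φ : AddChar F ℂ, φ ≠ 1 ∧ W ρ φ ≠ ⊥ := by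
  classical
  have := Fintype.ofFinite F
  by_contra! hn
  obtain ⟨g, hg⟩ := h
  have key : ∀ (v : V) (φ : AddChar F ℂ), ∑ b, φ b • ρ (S G 0 b) v ∈ W ρ φ := by
    intro v φ c
    rw [map_sum, Finset.smul_sum, ← Equiv.sum_comp (Equiv.addRight c)]
    refine Finset.sum_congr rfl fun b _ => ?_
    rw [map_smul, ← Module.End.mul_apply, ← map_mul, S_mul_S, smul_smul, ← AddChar.map_add_eq_mul]
    simp only [Equiv.coe_addRight, map_zero, zero_mul, add_zero]
    rw [add_comm c b, show c + (b + c) = b by grind]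
  have h1 : S G (0 : F) 1 ∈ ρ.ker := by
    rw [MonoidHom.mem_ker]
    ext v
    have h2 : ∑ φ : AddChar F ℂ, ∑ b, φ b • ρ (S G 0 b) v = (Fintype.card F : ℂ) • v := by
      rw [Finset.sum_comm]
      simp only [← Finset.sum_smul, AddChar.sum_apply_eq_ite]
      simp
    rw [Finset.sum_eq_single 1 (fun φ _ h => by have := key v φ; rwa [hn φ h] at this) (by simp)] at h2
    have h3 := key v 1 1
    rw [h2, map_smul, AddChar.one_apply, one_smul] at h3
    exact smul_right_injective _ (by simp) h3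
  haveI := isSimpleGroup F G
  rcases ρ.normal_ker.eq_bot_or_eq_top with h | h
  · rw [h, Subgroup.mem_bot, S_eq_one] at h1; exact one_ne_zero h1.2
  · exact hg (show g ∈ ρ.ker from h ▸ Subgroup.mem_top g)

theorem aux [FiniteDimensional ℂ V] {m : ℕ} (hq : Nat.card F = 2 ^ (2 * m + 1)) (ρ : Representation ℂ G V)
    (h : ∃ g, ρ g ≠ 1) : 2 ^ m * (2 ^ (2 * m + 1) - 1) ≤ finrank ℂ V := by
  classical
  have := Fintype.ofFinite F
  obtain ⟨φ, hφ, hW⟩ := exists_W (F := F) ρ h
  have h1 : ∀ β : Fˣ, W ρ (φ.mulShift β) ≠ ⊥ := by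
    intro β h0
    obtain ⟨v, hv, hv0⟩ := (Submodule.ne_bot_iff _).1 hW
    obtain ⟨l, hl⟩ := exists_M_conj_S (G := G) β.ne_zero one_ne_zero
    rw [M_conj_S, S_inj] at hl
    have h2 : ρ (M G l) v ∈ W ρ (φ.mulShift β) := fun b => by
      have : S G 0 b * M G l = M G l * S G 0 (β * b) := by
        rw [M_mul_S, mul_zero, ← mul_assoc, hl.2, one_mul]
      rw [← Module.End.mul_apply, ← map_mul, this, map_mul, Module.End.mul_apply, hv, map_smul,
        AddChar.mulShift_apply]
    rw [h0, Submodule.mem_bot] at h2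
    have h3 := congrArg (ρ (M G l)⁻¹) h2
    rw [← Module.End.mul_apply, ← map_mul, inv_mul_cancel, map_one, map_zero] at h3
    exact hv0 h3
  have hp := AddChar.IsPrimitive.of_ne_one hφ
  have h2 : ∀ β : Fˣ, 2 ^ m ≤ finrank ℂ (W ρ (φ.mulShift β)) := by
    intro β
    have := heis ρ (hp β.ne_zero) (h1 β)
    rw [hq, pow_succ, mul_comm 2 m, pow_mul] at this
    exact (Nat.pow_le_pow_iff_left two_ne_zero).1 (by omega)
  let f : (∀ β : Fˣ, W ρ (φ.mulShift β)) →ₗ[ℂ] V := ∑ β : Fˣ, (W ρ (φ.mulShift β)).subtype ∘ₗ LinearMap.proj β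
  have hf : Function.Injective f := by
    rw [injective_iff_map_eq_zero]
    intro x hx
    ext β
    exact eigen_indep (χ := fun β : Fˣ => φ.mulShift β)
      ((AddChar.to_mulShift_inj_of_isPrimitive hp).comp Units.val_injective) (fun b => ρ (S G 0 b))
      (fun β => (x β : V)) (fun β b => (x β).2 b) (by simpa [f] using hx) β
  have h3 := LinearMap.finrank_le_finrank_of_injective hf
  rw [Module.finrank_pi_fintype] at h3
  refine le_trans ?_ ((Finset.sum_le_sum fun β _ => h2 β).trans h3)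
  rw [Finset.sum_const, Finset.card_univ, Fintype.card_units, ← Nat.card_eq_fintype_card, hq, smul_eq_mul, mul_comm]

end

/-- For the Suzuki group Sz(q), q = 2^(2m+1) with m ≥ 1 (realised inside Sp₄ over the field with q elements), every irreducible complex representation of degree at least 2 has degree at least 2^m·(q − 1). -/
theorem result {F : Type*} [Field F] [Fintype F] (m : ℕ) (hm : 1 ≤ m) (hF : Fintype.card F = 2 ^ (2 * m + 1)) :
    (∀ (k : ℕ) (ρ : Representation ℂ (Cfsg.Lie.Sz F (2 ^ (m + 1))) (Fin k → ℂ)), ρ.IsIrreducible → 2 ≤ k → 2 ^ m * (2 ^ (2 * m + 1) - 1) ≤ k) := by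
  let := Sz.titsOfCard hm hF
  let := Sz.lieRep (Sz.titsOfCard_θ hm hF)
  intro k ρ hρ hk
  have := aux (F := F) (by rw [Nat.card_eq_fintype_card, hF]) ρ (by
    by_contra! h
    let v : Fin k → ℂ := Pi.single ⟨0, by omega⟩ 1
    rcases eq_bot_or_eq_top (⟨Submodule.span ℂ {v}, fun g w hw => by rwa [h g]⟩ : Subrepresentation ρ) with h1 | h1
    · have h2 : Submodule.span ℂ {v} = ⊥ := congrArg Subrepresentation.toSubmodule h1
      rw [Submodule.span_singleton_eq_bot] at h2
      simpa [v] using congrFun h2 ⟨0, by omega⟩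
    · have h2 : Submodule.span ℂ {v} = ⊤ := congrArg Subrepresentation.toSubmodule h1
      have h3 := finrank_span_le_card (R := ℂ) ({v} : Set (Fin k → ℂ))
      rw [h2] at h3
      simp at h3
      omega)
  simpa using this

end Cfsg.Agent.S2337
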