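import Cfsg.Statements.S2338
import Cfsg.Agent.MinD.G5
import Cfsg.Agent.S1055
import Cfsg.Agent.S1059
import Cfsg.Agent.Deg.Wt

set_option autoImplicit false
open Cfsg

namespace Cfsg.Agent.S2338

/-- Lower bounds for the degrees of non-linear irreducible complex representations of the Chevalley group of type G₂ over a finite field with q elements: the degree is at least q³ + 1 when q ≡ 1 (mod 3) and q > 4, at least q³ − 1 when q ≡ 2 (mod 3) and q > 2, and at least q⁴ + q² + 1 when q ≡ 0 (mod 3) and q > 3. -/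
theorem result {F : Type*} [Field F] [Fintype F] (k : ℕ) (ρ : Representation ℂ (Cfsg.Lie.chevG2.group F) (Fin k → ℂ)) (hρ : ρ.IsIrreducible) (hk : 2 ≤ k) :
    (Fintype.card F % 3 = 1 → 4 < Fintype.card F → Fintype.card F ^ 3 + 1 ≤ k) ∧
    (Fintype.card F % 3 = 2 → 2 < Fintype.card F → Fintype.card F ^ 3 - 1 ≤ k) ∧
    (Fintype.card F % 3 = 0 → 3 < Fintype.card F → Fintype.card F ^ 4 + Fintype.card F ^ 2 + 1 ≤ k) := by
  open Cfsg.Agent.Chev Cfsg.Agent.MinD Cfsg.Lie in
  obtain ⟨ψ, hψ⟩ := exists_char_ne F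
  obtain ⟨g, hg⟩ := Deg.exists_ne_one ρ hρ hk
  let T : Dat F (chevG2.group F) (Fin k → ℂ) := ⟨grS chevG2 F, ρ, ψ, hψ⟩
  have h0 : 2 < Fintype.card F → ∀ r, T.ρ (T.x r 1) ≠ 1 := fun hq r h => by
    classical
    have := (S1055.result (F := F) (by
      simpa using exists_notMem_fin ({0, 1} : Finset F) (Finset.card_le_two.trans_lt hq))).1
    rcases (MonoidHom.normal_ker ρ).eq_bot_or_eq_top with e | e
    · exact one_ne_zero ((grCover chevG2 F).x_eq_one (Subgroup.mem_bot.1 (e.le h)))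
    · exact hg (e.ge (Subgroup.mem_top g))
  obtain ⟨p, hp⟩ := CharP.exists F
  obtain ⟨n, pp, hn⟩ := FiniteField.card F p
  have h3 : (3 : F) = 0 ↔ Fintype.card F % 3 = 0 := by
    rw [← Nat.cast_ofNat, CharP.cast_eq_zero_iff F p, ← Nat.dvd_iff_mod_eq_zero, hn,
      Nat.prime_three.prime.dvd_pow_iff_dvd n.ne_zero, Nat.prime_dvd_prime_iff_eq pp Nat.prime_three,
      Nat.prime_dvd_prime_iff_eq Nat.prime_three pp, eq_comm]
  refine ⟨fun h hq => ?_, fun h hq => ?_, fun h hq => ?_⟩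
  · simpa using T.bound1 (mt h3.1 (by omega)) hq h (h0 (by omega) 11)
  · simpa using T.bound2 (mt h3.1 (by omega)) (by omega) (h0 hq 11)
  · have h9 : 9 ≤ Fintype.card F := by
      obtain rfl : 3 = p := (Nat.prime_dvd_prime_iff_eq Nat.prime_three pp).1
        (Nat.prime_three.dvd_of_dvd_pow (hn ▸ Nat.dvd_of_mod_eq_zero h))
      rw [hn] at hq ⊢
      exact Nat.pow_le_pow_right (n := 3) (i := 2) (by decide) 
        ((Nat.pow_lt_pow_iff_right (a := 3) (n := 1) (by decide)).1 hq)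
    exact g2_ar3 h9 (by simpa using T.bound3 (by simpa using h3.2 h) h9 (h0 (by omega)))
      (by simpa [S1059.result rfl] using S0135.result ρ)

end Cfsg.Agent.S2338
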