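import Cfsg.Statements.S2339
import Cfsg.Agent.MinD.Ch6
import Cfsg.Agent.Chev.PoinE8
import Cfsg.Agent.Chev.Count
import Cfsg.Agent.Chev.AllC
import Cfsg.Agent.S0135
import Cfsg.Agent.Deg.Wt
import Cfsg.Agent.Mult.Tab

set_option autoImplicit false
open Cfsg

namespace Cfsg.Agent.S2339

/-- For the Chevalley group of type E₈ over a finite field with q elements, every irreducible complex representation of degree at least 2 has degree at least q(q¹² + 1)(q¹⁰ + 1)(q⁶ + 1). -/
theorem result {F : Type*} [Field F] [Fintype F] (k : ℕ) (ρ : Representation ℂ (Cfsg.Lie.chevE8.group F) (Fin k → ℂ)) (hρ : ρ.IsIrreducible) (hk : 2 ≤ k) :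
    Fintype.card F * (Fintype.card F ^ 12 + 1) * (Fintype.card F ^ 10 + 1) * (Fintype.card F ^ 6 + 1) ≤ k := by
  open Cfsg.Agent.Chev Cfsg.Agent.MinD Cfsg.Lie in
  have q1 : 1 < Fintype.card F := Fintype.one_lt_card
  have hc := (card_group chevE8 F).trans (congrArg _ (poinE8 _))
  rw [Nat.card_eq_fintype_card (α := F)] at hc
  have p1 : ∀ n, 1 ≤ Fintype.card F ^ n := fun n => Nat.one_le_pow _ _ (by omega)
  have hd := Cfsg.Agent.S0135.result ρ
  rw [Module.finrank_fin_fun] at hd
  obtain ⟨g, hg⟩ := Deg.exists_ne_one ρ hρ hk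
  by_cases hM : Module.finrank ℂ (Fin k → ℂ) < (Fintype.card F - 1) * (Fintype.card F + 1) * (2 * Fintype.card F ^ 27)
  · have := (cert_bound (X := grS chevE8 F) (Mult.ln_eq_of (by decide +kernel)) certE8_ok (fun _ _ => rfl)
      (grS_U_univ _ _) hg ⟨239, by decide⟩ ⟨161, by decide⟩ ⟨7, by decide⟩ e8_chk (fun s hs => ?_) hM).2
    · refine e8_arith (Fintype.isPrimePow_card_of_field (α := F)) ?_ (hd.trans (Dvd.intro_left (Nat.card (zker chevE8 F)) ?_))
      · rw [Module.finrank_fin_fun] at this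
        obtain ⟨x, hx⟩ := Nat.exists_eq_add_of_le q1.le
        rw [hx, Nat.add_sub_cancel_left] at this
        rw [hx]
        refine le_trans (le_of_eq ?_) (Nat.add_le_add_right (le_of_add_le_right this) 8)
        simp only [List.map, List.sum_cons, List.sum_nil]
        ring
      · zify [p1]
        rw [hc, show chevE8.nroots / 2 = 120 from rfl]
        ring
    have hh : ∀ r : Rt chevE8, ht r = htC certE8 chevE8 r := fun r => by
      rw [htC, sumLt_eq, Finset.sum_range]; rfl
    simp only [← hh, decide_eq_true_eq] at hs ⊢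
    exact ⟨pos_iff_ht.2 hs, fun a ha e => by have := ha.ht_pos; rw [ht_refl, e]; omega⟩
  · rw [Module.finrank_fin_fun, not_lt] at hM
    refine le_trans ?_ hM
    obtain ⟨x, hx⟩ := Nat.exists_eq_add_of_le q1
    rw [hx, show 1 + 1 + x - 1 = x + 1 by omega]
    exact e8_big x

end Cfsg.Agent.S2339
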