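import Cfsg.Statements.S2340
import Cfsg.Agent.MinD.Ch7
import Cfsg.Agent.Chev.PoinE6
import Cfsg.Agent.Chev.Count
import Cfsg.Agent.Chev.AllC
import Cfsg.Agent.S0135
import Cfsg.Agent.Deg.Wt
import Cfsg.Agent.Mult.Tab
import Cfsg.Agent.S2332
import Cfsg.Agent.S0248

set_option autoImplicit false
open Cfsg

namespace Cfsg.Agent.S2340

/-- For the Chevalley group of type E₆ over a finite field with q elements (the group generated by the root elements), every irreducible complex representation of degree at least 2 has degree at least q(q⁶ + q³ + 1)(q⁴ + 1). -/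
theorem result {F : Type*} [Field F] [Fintype F] :
    (∀ (k : ℕ) (ρ : Representation ℂ (Cfsg.Lie.chevE6.group F) (Fin k → ℂ)), ρ.IsIrreducible → 2 ≤ k → Fintype.card F * (Fintype.card F ^ 6 + Fintype.card F ^ 3 + 1) * (Fintype.card F ^ 4 + 1) ≤ k) := by
  open Cfsg.Agent.Chev Cfsg.Agent.MinD Cfsg.Lie in
  intro k ρ hρ hk
  classical
  have q1 : 1 < Fintype.card F := Fintype.one_lt_card
  have hc := (card_group chevE6 F).trans (congrArg _ (poinE6 _))
  rw [Nat.card_eq_fintype_card (α := F)] at hc
  have p1 : ∀ n, 1 ≤ Fintype.card F ^ n := fun n => Nat.one_le_pow _ _ (by omega)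
  have hd := Cfsg.Agent.S0135.result ρ
  rw [Module.finrank_fin_fun] at hd
  obtain ⟨g, hg⟩ := Deg.exists_ne_one ρ hρ hk
  have hl : ∀ r s : Rt chevE6, ln r = ln s := Mult.ln_eq_of (by decide +kernel)
  by_cases hM : Module.finrank ℂ (Fin k → ℂ) < (Fintype.card F - 1) * (Fintype.card F + 1) * (2 * Fintype.card F ^ 9)
  · have hp : ∀ s : Rt chevE6, decide (0 < certE6.rt s 1) = true ↔ 0 < rtv s ⟨1, by decide⟩ := fun s =>
      decide_eq_true_iff
    obtain ⟨h1, h2⟩ := cert_bound (X := grS chevE6 F) hl certE6_ok (fun _ _ => rfl)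
      (grS_U_univ _ _) hg ⟨71, by decide⟩ ⟨53, by decide⟩ ⟨1, by decide⟩ e6_chk (fun s hs => by
        simp only [hp] at hs ⊢
        exact ⟨pos_of_exists hs, fun a ha e => by
          rw [Mult.rtv_refl_of_neg_one e]; exact add_pos_of_pos_of_nonneg hs (ha _)⟩) hM
    rw [show {s : Rt chevE6 | decide (0 < certE6.rt s 1) = true} = {s | 0 < rtv s ⟨1, by decide⟩} from
      Set.ext hp] at h2
    obtain ⟨φ, hφ⟩ := exists_sl (grS chevE6 F) hl (by decide) ι6 ε6 e6_h2 e6_h3
    let R : Subrepresentation (ρ.comp φ) := ⟨Fx (grS chevE6 F) ρ {s | 0 < rtv s ⟨1, by decide⟩}, fun y => by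
      induction y using Classical.SL_transvection_induction with
      | h1 => intro v hv; simpa using hv
      | htransvec i j h c =>
        intro v hv
        have := e6_h4 i j h
        rw [MonoidHom.comp_apply, hφ]
        refine sta_Fx hl (fun s hs => ⟨fun e => ?_, fun e => ?_⟩) _ v hv
        · rw [e, rtv_ng, Pi.neg_apply, neg_eq_zero] at this
          exact hs.ne' this
        · rwa [Set.mem_ofPred_eq, Mult.rtv_refl_of_neg_one e, Pi.add_apply, this, add_zero]
      | hmul a b ha hb => intro v hv; rw [map_mul]; exact ha (hb hv)⟩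
    obtain ⟨y, hy⟩ : ∃ y, R.toRepresentation y ≠ 1 := by
      by_contra! h
      refine h1 ⟨0, by decide⟩ fun v hv => mem_Eg_zero.2 fun t => ?_
      have := congrArg Subtype.val (LinearMap.congr_fun (h (Matrix.SpecialLinearGroup.transvection
        (show (0 : Fin 6) ≠ 1 by decide) t)) ⟨v, Fx_anti (fun s hs => by
          exact ⟨pos_of_exists hs, fun e => absurd (e ▸ hs) (by decide +kernel)⟩) hv⟩)
      change ρ (φ _) v = v at this
      rwa [hφ, show ε6 0 1 = 1 from rfl, Int.cast_one, one_mul] at this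
    have h3 := inv_add_le R.toRepresentation (S0248.result 6 (by decide))
      (S2332.result (F := F) 6 (by decide) (by simp)).1 hy
    refine e6_arith (Fintype.isPrimePow_card_of_field (α := F)) ?_
      (hd.trans (Dvd.intro_left (Nat.card (zker chevE6 F)) ?_))
    · rw [Module.finrank_fin_fun] at h2
      replace h2 := (Nat.add_le_add_right (le_of_add_le_right h3) _).trans h2
      obtain ⟨x, hx⟩ := Nat.exists_eq_add_of_le q1.le
      rw [hx, Nat.add_sub_cancel_left, Nat.div_eq_of_eq_mul_left (k := (1 + x) ^ 5 + (1 + x) ^ 4 + (1 + x) ^ 3 +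
        (1 + x) ^ 2 + (1 + x)) (by omega) (Nat.sub_eq_of_eq_add (by ring))] at h2
      rw [hx]
      refine le_trans (le_of_eq ?_) (Nat.add_le_add_right h2 1)
      simp only [List.map, List.sum_cons, List.sum_nil]
      ring
    · zify [p1]
      rw [hc, show chevE6.nroots / 2 = 36 from rfl]
      ring
  · rw [Module.finrank_fin_fun, not_lt] at hM
    refine le_trans ?_ hM
    obtain ⟨x, hx⟩ := Nat.exists_eq_add_of_le q1
    rw [hx, show 1 + 1 + x - 1 = x + 1 by omega]
    exact e6_big x

end Cfsg.Agent.S2340
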