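import Cfsg.Statements.S2341
import Cfsg.Agent.MinD.Tw7
import Cfsg.Agent.Chev.LangTw
import Cfsg.Agent.Chev.Semi
import Cfsg.Agent.Mult.Tab
import Cfsg.Agent.Deg.Wt
import Cfsg.Agent.S0135
import Cfsg.Agent.S1066
import Cfsg.Agent.S1070

set_option autoImplicit false
open Cfsg

namespace Cfsg.Agent.S2341

theorem big (x : ℕ) : (1 + 1 + x) * ((1 + x) * ((1 + 1 + x) ^ 2 + (1 + 1 + x) + 1) * (1 + 1 + x) ^ 3 + 1) *
    ((1 + 1 + x) ^ 4 + 1) ≤ (1 + x) * (1 + 1 + x + 1) * (2 * (1 + 1 + x) ^ 9) :=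
  Nat.le.intro (k := (1134 + 7183 * x + 20008 * x ^ 2 + 32688 * x ^ 3 + 35007 * x ^ 4 + 25899 * x ^ 5 + 13538 * x ^ 6 + 5007 * x ^ 7 + 1285 * x ^ 8 + 218 * x ^ 9 + 22 * x ^ 10 + 1 * x ^ 11)) (by ring)

/-- For the twisted group ²E₆(q), realised over the field with q² elements (q a prime power), every irreducible complex representation of degree at least 2 has degree at least q(q⁶ − q³ + 1)(q⁴ + 1). -/
theorem result {K : Type*} [Field K] [Fintype K] (q : ℕ) (hq : IsPrimePow q) (hK : Fintype.card K = q ^ 2) :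
    (∀ (k : ℕ) (ρ : Representation ℂ (Cfsg.Lie.twistedE6 K q) (Fin k → ℂ)), ρ.IsIrreducible → 2 ≤ k → q * (q ^ 6 - q ^ 3 + 1) * (q ^ 4 + 1) ≤ k) := by
  open Cfsg.Agent.Chev Cfsg.Agent.MinD Cfsg.Lie in
  intro k ρ hρ hk
  classical
  have hK' : Nat.card K = q ^ 2 := Nat.card_eq_fintype_card.trans hK
  obtain ⟨φ, hφ, h2⟩ := exists_φE6 hq hK'
  have := finite_st (D := chevE6) (F := K)
  have := (S1070.result hq hK).1
  have ha : ∀ r t, (αE6 φ).a r t = twE6.ε r * φ t := fun r t =>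
    (twE6_ok.a_apply Nat.cast_zero φ r t).trans (by rw [show twE6.q r = 1 from rfl, pow_one])
  have cF : Fintype.card (ChAut.fixF φ) = q := Fintype.card_eq_nat_card.trans (ChAut.card_fixF hφ hq.one_lt hK')
  have h : T2 (αE6 φ) φ := ⟨⟨⟨stCover _ _⟩, Mult.ln_eq_of (by decide +kernel), by decide +kernel, fun r hr t => by
    rw [ha, (by decide +kernel : ∀ r, symE6.ρ r = r → twE6.ε r = 1) r hr]; simp, by decide +kernel,
    .inl (by decide +kernel)⟩, fun r t => (twE6_ok.iterate_x symE6 symE6_ρ Nat.cast_zero hφ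
    ordE6 r t).trans (by rw [mul_one, ← hK, FiniteField.pow_card]), by decide +kernel, h2,
    exists_not_fix hφ hq.one_lt (by omega) hK', by decide +kernel, by rw [hK]; congr; convert cF.symm⟩
  obtain ⟨g, hg⟩ := Deg.exists_ne_one ρ hρ hk
  obtain ⟨ρ', h0⟩ := h.pull (stCover _ _) (fix_mapE6 hφ h2).le ρ hg
  have hd := Cfsg.Agent.S0135.result ρ
  rw [Module.finrank_fin_fun] at hd
  obtain ⟨x, hx⟩ := Nat.exists_eq_add_of_le hq.two_le
  have e1 : q ^ 6 - q ^ 3 = (1 + x) * (q ^ 2 + q + 1) * q ^ 3 := Nat.sub_eq_of_eq_add (by rw [hx]; ring)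
  have e2 : q - 1 = 1 + x := by omega
  by_cases hM : Module.finrank ℂ (Fin k → ℂ) < (q - 1) * (q + 1) * (2 * q ^ 9)
  · obtain ⟨h3, h4⟩ := te6_bound (ρ := ρ') h (by convert cF) (h0 _ (by decide +kernel)) hM
    have h5 := (Nat.add_le_add_right (te6_su h hK hφ ha h3) _).trans h4
    refine te6_arith hq ?_ (hd.trans (Dvd.intro_left _ ((S1066.result hq hK).trans (by ring))))
    rw [Module.finrank_fin_fun, Nat.div_eq_of_eq_mul_left (k := (1 + x) * (q ^ 4 + q ^ 2 + 1)) (by omega)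
      (Nat.sub_eq_of_eq_add (by rw [hx]; ring)), e2] at h5
    rw [e1]
    refine le_trans (le_of_eq ?_) (Nat.add_le_add_right h5 2)
    rw [hx]; ring
  · rw [Module.finrank_fin_fun, not_lt, e2] at hM
    rw [e1]
    refine le_trans ?_ hM
    rw [hx]
    exact big x

end Cfsg.Agent.S2341
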