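import Cfsg.Statements.S2342
import Cfsg.Agent.MinD.Tw4
import Cfsg.Agent.Chev.LangTw
import Cfsg.Agent.Chev.Semi
import Cfsg.Agent.Mult.Tab
import Cfsg.Agent.Deg.Wt
import Cfsg.Agent.S0135
import Cfsg.Agent.S1067
import Cfsg.Agent.S1071

set_option autoImplicit false
open Cfsg

namespace Cfsg.Agent.S2342

theorem d4_1 (q : ℤ) (hq : 2 ≤ q) (h : ((-1) + 1 * q + (-1) * q ^ 3 + 1 * q ^ 5) ∣ 1 * (((-1) + 1 * q ^ 2) * (((-1) + 1 * q ^ 6) * ((1 + 1 * q ^ 4 + 1 * q ^ 8) * 1)))) : False := by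
  have h0 := MinD.dvd_repl h (1 * ((-1) + 1 * q)) (1) ((-1) * q ^ 3) (by ring)
  have h1 := MinD.dvd_repl h0 (3 * ((-1) + 1 * q)) (2 + 1 * q + 3 * q ^ 2 + 2 * q ^ 3 + 1 * q ^ 4) (1 + (-2) * q + (-2) * q ^ 2 + (-1) * q ^ 3) (by ring)
  have h2 := MinD.dvd_repl h1 3 ((-1) + 1 * q + (-1) * q ^ 3 + 1 * q ^ 5 + 2 * q ^ 6) (2 + 2 * q + (-1) * q ^ 2 + (-2) * q ^ 3) (by ring)
  obtain ⟨x, hx, rfl⟩ : ∃ x, 0 ≤ x ∧ q = x + 2 := ⟨q - 2, by omega, by ring⟩
  exact MinD.not_dvd_of h2 (b := (9 + 18 * x + 9 * x ^ 2)) (c := (16 + 51 * x + 65 * x ^ 2 + 39 * x ^ 3 + 10 * x ^ 4 + 1 * x ^ 5)) (by ring) (by ring) (by positivity) (by positivity)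

/-- For the twisted group ³D₄(q), realised over the field with q³ elements (q a prime power), every irreducible complex representation of degree at least 2 has degree at least q(q⁴ − q² + 1). -/
theorem result {K : Type*} [Field K] [Fintype K] (q : ℕ) (hq : IsPrimePow q) (hK : Fintype.card K = q ^ 3) :
    (∀ (k : ℕ) (ρ : Representation ℂ (Cfsg.Lie.twistedD4 K q) (Fin k → ℂ)), ρ.IsIrreducible → 2 ≤ k → q * (q ^ 4 - q ^ 2 + 1) ≤ k) := by
  open Cfsg.Agent.Chev Cfsg.Agent.MinD Cfsg.Lie in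
  intro k ρ hρ hk
  have hK' : Nat.card K = q ^ 3 := Nat.card_eq_fintype_card.trans hK
  obtain ⟨φ, hφ, h2⟩ := exists_φD4 hq hK'
  have := finite_st (D := chevD4) (F := K)
  have := (S1071.result hq hK).1
  have ha : ∀ r t, (αD4 φ).a r t = twD4.ε r * φ t := fun r t =>
    (twD4_ok.a_apply Nat.cast_zero φ r t).trans (by rw [show twD4.q r = 1 from rfl, pow_one])
  have h : TwH (αD4 φ) φ := ⟨⟨stCover _ _⟩, Mult.ln_eq_of (by decide +kernel), by decide +kernel, fun r hr t => by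
    rw [ha, (by decide +kernel : ∀ r, symD4.ρ r = r → twD4.ε r = 1) r hr]; simp, by decide +kernel,
    .inr (by decide +kernel)⟩
  obtain ⟨g, hg⟩ := Deg.exists_ne_one ρ hρ hk
  obtain ⟨ρ', h0⟩ := h.pull (stCover _ _) (fix_mapD4 hφ h2).le ρ hg
  have h1 := d4_bound (ρ := ρ') hφ hq.one_lt hK' h h2 (fun r t => (twD4_ok.iterate_x symD4 symD4_ρ Nat.cast_zero hφ
    ordD4 r t).trans (by rw [mul_one, ← hK, FiniteField.pow_card])) (fun t => by
      rw [ha, ha, show twD4.ε (rD 18) = 1 by decide +kernel, show twD4.ε (rD 13) = 1 by decide +kernel]; simp)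
    (fun t => (genD4 hφ h2).le (h_memD4 hφ t)) (h0 _ (by decide +kernel))
  have hd := Cfsg.Agent.S0135.result ρ
  rw [Module.finrank_fin_fun] at hd h1
  rw [S1067.result hq hK, mul_assoc, mul_assoc] at hd
  obtain ⟨x, rfl⟩ := Nat.exists_eq_add_of_lt hq.one_lt
  have p1 : ∀ n, 1 ≤ (1 + x + 1) ^ n := fun n => Nat.one_le_pow _ _ (by omega)
  rw [Nat.add_sub_cancel] at h1
  rw [show (1 + x + 1) ^ 4 - (1 + x + 1) ^ 2 = (1 + x) * (1 + x + 1 + 1) * (1 + x + 1) ^ 2 from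
    Nat.sub_eq_of_eq_add (by ring)]
  by_contra! h3
  have hj : k + 1 = (1 + x + 1) * ((1 + x) * (1 + x + 1 + 1) * (1 + x + 1) ^ 2 + 1) := by nlinarith
  have h4 := Int.natCast_dvd_natCast.2 (dvd_of_pp hq hj (by omega) (by omega) hd)
  have h5 := congrArg (Nat.cast (R := ℤ)) hj
  push_cast [Nat.cast_sub (p1 _)] at h4 h5
  rw [eq_sub_of_add_eq h5] at h4
  exact d4_1 (1 + x + 1) (by omega) (by convert h4 using 1 <;> ring)

end Cfsg.Agent.S2342
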