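import Cfsg.Statements.S2343
import Cfsg.Agent.Ree.Coord
import Cfsg.Agent.S1073

set_option autoImplicit false
open Cfsg

namespace Cfsg.Agent.S2343

section
open Cfsg.Agent.Ree Module LinearMap

variable {G V : Type*} [Group G] [AddCommGroup V] [Module ℂ V] [FiniteDimensional ℂ V] (ρ : G →* End ℂ V)

theorem avg {A : Type*} [Group A] [Fintype A] (f : A →* G) (μ : A →* ℂ) : ∃ k : ℕ,
    ∑ a, μ a * trace ℂ V (ρ (f a)) = Fintype.card A * k ∧ (k = 0 → ∑ a, μ a • ρ (f a) = 0) ∧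
      (k = finrank ℂ V → ∀ a, μ a • ρ (f a) = 1) := by
  have hc : (Fintype.card A : ℂ) ≠ 0 := by simp
  let P : End ℂ V := (Fintype.card A : ℂ)⁻¹ • ∑ a, μ a • ρ (f a)
  have h1 : ∀ b, μ b • ρ (f b) * P = P := fun b => by
    simp only [P, mul_smul_comm, Finset.mul_sum, smul_mul_assoc, smul_smul, ← map_mul]
    exact congrArg _ (Fintype.sum_equiv (Equiv.mulLeft b) _ _ fun a => by simp [mul_comm])
  have h2 : IsIdempotentElem P := by
    change (_ • _) * P = P
    rw [smul_mul_assoc, Finset.sum_mul]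
    simp [h1, ← Nat.cast_smul_eq_nsmul ℂ, smul_smul]
  have h3 := (IsIdempotentElem.isProj_range P h2).trace
  refine ⟨finrank ℂ (range P), ?_, fun h => ?_, fun h a => ?_⟩
  · rw [← h3]; simp [P]
  · simpa [P] using IsIdempotentElem.eq_zero_of_trace_eq_zero h2 (by rw [h3, h, Nat.cast_zero])
  · have := IsIdempotentElem.eq_zero_of_trace_eq_zero h2.one_sub (by rw [map_sub, h3, h, trace_one, sub_self])
    rw [← mul_one (_ • _), sub_eq_zero.1 this, h1]

theorem trace_cj (g x : G) : trace ℂ V (ρ (g * x * g⁻¹)) = trace ℂ V (ρ x) := by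
  rw [map_mul, trace_mul_comm, ← map_mul, inv_mul_cancel_left]

theorem aux {K : Type*} [Field K] [Finite K] (R : RC K G) (h : ρ (R.w 0 0 1) ≠ 1) :
    Nat.card K ^ 2 - Nat.card K + 1 ≤ finrank ℂ V := by
  classical
  have := Fintype.ofFinite K
  obtain ⟨φ, hφ⟩ := (AddChar.exists_apply_ne_zero (α := K) (a := 1)).2 one_ne_zero
  have h0 : ∑ v, φ v = 0 := AddChar.sum_eq_zero_of_ne_one (by rintro rfl; exact hφ rfl)
  have h1 : ∀ v, trace ℂ V (ρ (R.w 0 0 v)) =
      trace ℂ V (ρ (R.w 0 0 1)) + if v = 0 then finrank ℂ V - trace ℂ V (ρ (R.w 0 0 1)) else 0 := fun v => by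
    split_ifs with hv
    · simp [hv]
    · rw [← trace_cj ρ (R.h (Units.mk0 v hv)) (R.w 0 0 1), R.h_w]; simp
  have h2 : ∀ u ≠ 0, ∀ v, trace ℂ V (ρ (R.w 0 u v)) = trace ℂ V (ρ (R.w 0 u 0)) := fun u hu v => by
    rw [← trace_cj ρ (R.w (v / u) 0 0) (R.w 0 u 0), R.conj_W, div_mul_cancel₀ _ hu, zero_add]
  obtain ⟨k, e1, -⟩ := avg ρ R.ι (φ.toMonoidHom.comp (AddMonoidHom.snd K K).toMultiplicative)
  obtain ⟨d, e2, e3, e4⟩ := avg ρ R.ζ 1
  replace e1 : ∑ a : K × K, φ a.2 * trace ℂ V (ρ (R.w 0 a.1 a.2)) = _ :=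
    (Fintype.sum_equiv Multiplicative.ofAdd _ _ fun _ => rfl).trans e1
  replace e2 : ∑ a : K, 1 * trace ℂ V (ρ (R.w 0 0 a)) = _ :=
    (Fintype.sum_equiv Multiplicative.ofAdd _ _ fun _ => rfl).trans e2
  rw [Fintype.sum_prod_type, Finset.sum_eq_single 0 (fun u _ hu => by simp [h2 u hu, ← Finset.sum_mul, h0]) (by simp),
    Finset.sum_congr rfl fun v _ => congrArg _ (h1 v)] at e1
  rw [Finset.sum_congr rfl fun v _ => congrArg _ (h1 v)] at e2
  simp only [mul_add, Finset.sum_add_distrib, ← Finset.sum_mul, h0, mul_ite, mul_zero, Finset.sum_ite_eq',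
    Finset.mem_univ, if_true, AddChar.map_zero_eq_one, one_mul, zero_mul, zero_add, Fintype.card_multiplicative,
    Fintype.card_prod, Finset.sum_const, Finset.card_univ, nsmul_eq_mul] at e1 e2
  rw [← Nat.card_eq_fintype_card] at e1 e2
  have hq : (Nat.card K : ℂ) ≠ 0 := by simp [Nat.card_pos.ne']
  have e5 : finrank ℂ V + Nat.card K * k = d + Nat.card K * Nat.card K * k := by
    rw [← Nat.cast_inj (R := ℂ), ← mul_right_inj' hq]
    push_cast at e1 ⊢
    linear_combination (Nat.card K - 1) * e1 + e2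
  obtain ⟨j, hj⟩ := R.exists_q
  by_contra! hlt
  rcases k with _ | k
  · exact h ((one_smul _ _).symm.trans (e4 (by omega) (.ofAdd 1)))
  rw [hj, show (24 * j + 3) ^ 2 = 576 * (j * j) + 120 * j + 6 + (24 * j + 3) by ring, Nat.add_sub_cancel] at hlt
  rw [hj] at e5
  have e6 : d = 0 ∧ finrank ℂ V = 576 * (j * j) + 120 * j + 6 := by
    have : (24 * j + 3) * k ≤ (24 * j + 3) * (24 * j + 3) * k := Nat.mul_le_mul_right _ (Nat.le_mul_self _)
    constructor <;> nlinarith
  have e7 : ∀ t, t ≠ 1 → t * t = 1 → trace ℂ V (ρ t) = trace ℂ V (ρ R.z) := fun t h1 h2 => by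
    obtain ⟨g, rfl⟩ := RD.exists_conj_invol (R := R.toRD) h1 h2
    exact trace_cj ..
  have e8 := congrArg (fun P => trace ℂ V (ρ R.z * P)) (e3 e6.1)
  simp only [MonoidHom.one_apply, one_smul, Finset.mul_sum, ← map_mul, map_sum, mul_zero, map_zero] at e8
  rw [Finset.sum_congr rfl fun a _ => e7 _ (fun e => RD.z_notMem_U (R := R.toRD) (by
    rw [eq_inv_of_mul_eq_one_left e]; exact inv_mem (R.w_mem _ _ _))) (by
      change R.z * R.w 0 0 _ * (R.z * R.w 0 0 _) = 1
      nth_rewrite 2 [← R.z_inv]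
      rw [← mul_assoc, R.z_w, neg_zero, R.w_mul_W]; simp)] at e8
  simp only [Finset.sum_const, nsmul_eq_mul, mul_eq_zero, Nat.cast_eq_zero, Finset.card_univ, Fintype.card_ne_zero,
    false_or] at e8
  have := R.finite_G
  have := Fintype.ofFinite R.S
  obtain ⟨l, e9, -⟩ := avg ρ R.S.subtype 1
  rw [Finset.sum_eq_single 1 (fun s _ hs => by
    rw [Subgroup.subtype_apply, e7 _ (by simpa using hs) (RD.sq_of_mem_S s.2), e8, mul_zero]) (by simp), ← Nat.card_eq_fintype_card, R.card_S] at e9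
  simp only [map_one, trace_one, one_mul] at e9
  norm_cast at e9
  omega

end

/-- For the Ree group ²G₂(q), q = 3^(2m+1) with m ≥ 1 (realised over the field with q elements), every irreducible complex representation of degree at least 2 has degree at least q² − q + 1. -/
theorem result {K : Type*} [Field K] [Fintype K] (m : ℕ) (hm : 1 ≤ m) (hK : Fintype.card K = 3 ^ (2 * m + 1)) :
    (∀ (k : ℕ) (ρ : Representation ℂ (Cfsg.Lie.twistedG2 K (3 ^ m)) (Fin k → ℂ)), ρ.IsIrreducible → 2 ≤ k → (3 ^ (2 * m + 1)) ^ 2 - 3 ^ (2 * m + 1) + 1 ≤ k) := by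
  intro k ρ hρ hk
  obtain ⟨R, -⟩ := Ree.exists_RC (Nat.card_eq_fintype_card.trans hK)
  have := (S1073.result hm hK).1
  have := aux ρ R fun h => by
    have h : ρ.ker = ⊤ := ρ.normal_ker.eq_bot_or_eq_top.resolve_left fun e =>
      one_ne_zero (R.w_eq_one.1 (e.le h)).2.2
    have h : ∀ g, ρ g = 1 := fun g => h.ge (Subgroup.mem_top g)
    let v : Fin k → ℂ := Pi.single ⟨0, by omega⟩ 1
    rcases eq_bot_or_eq_top (⟨Submodule.span ℂ {v}, fun g w hw => by rwa [h g]⟩ : Subrepresentation ρ) with h1 | h1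
    · have h2 : Submodule.span ℂ {v} = ⊥ := congrArg Subrepresentation.toSubmodule h1
      rw [Submodule.span_singleton_eq_bot] at h2
      simpa [v] using congrFun h2 ⟨0, by omega⟩
    · have h2 : Submodule.span ℂ {v} = ⊤ := congrArg Subrepresentation.toSubmodule h1
      have h3 := finrank_span_le_card (R := ℂ) ({v} : Set (Fin k → ℂ))
      rw [h2] at h3
      simp at h3
      omega
  simpa [hK] using this

end Cfsg.Agent.S2343
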