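import Cfsg.Statements.S2344
import Cfsg.Agent.MinD.Rp6

set_option autoImplicit false
open Cfsg

namespace Cfsg.Agent.S2344

open Cfsg.Agent.Geom Cfsg.Agent.MinD in

/-- For a finite field F of odd order q > 3 and n ≥ 3, every irreducible complex representation of degree at least 2 of Ω_{2n+1}(F) (the commutator subgroup of the isometry group of the quadratic form x₀² + x₁y₁ + ⋯ + x_ny_n) has degree at least (q^{2n} − 1)/(q² − 1). -/
theorem result {F : Type*} [Field F] [Fintype F] (n : ℕ) (hn : 3 ≤ n) (hodd : Odd (Fintype.card F)) (h3 : 3 < Fintype.card F) :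
    (∀ (k : ℕ) (ρ : Representation ℂ (Cfsg.Omega F (Cfsg.quadFormOdd n F)) (Fin k → ℂ)), ρ.IsIrreducible → 2 ≤ k → (Fintype.card F ^ (2 * n) - 1) / (Fintype.card F ^ 2 - 1) ≤ k) := by
  intro k ρ hρ hk
  obtain ⟨m, rfl⟩ := Nat.exists_eq_add_of_le' hn
  rw [← Nat.card_eq_fintype_card] at *
  have h2 : (2 : F) ≠ 0 := fun h => Nat.not_even_iff_odd.2 hodd (Classical.two_eq_zero_iff_even.1 h)
  have hn := quadOdd_nondeg F (m + 3) h2
  have hd : Module.finrank F (Unit ⊕ (Fin (m + 3) ⊕ Fin (m + 3)) → F) = 2 * (m + 3) + 1 := by simp; omega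
  revert ρ
  rw [← coe_quadOdd]
  intro ρ hρ
  obtain ⟨τ, g, hg⟩ := rep_bridge hn (by omega) ρ hρ hk
  have := odd_main h3 m hn hd hg
  rw [Module.finrank_fin_fun] at this
  exact div_le_of_int (by omega) (by zify [Nat.one_le_pow _ _ (show 0 < Nat.card F by omega)]) this

end Cfsg.Agent.S2344
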