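import Cfsg.Statements.S2345
import Cfsg.Agent.MinD.Rp6

set_option autoImplicit false
open Cfsg

namespace Cfsg.Agent.S2345

open Cfsg.Agent.Geom Cfsg.Agent.MinD in

/-- For a finite field F with q > 3 elements and n ≥ 4, every irreducible complex representation of degree at least 2 of Ω⁺_{2n}(F) (the commutator subgroup of the isometry group of the hyperbolic quadratic form x₁y₁ + ⋯ + x_ny_n) has degree at least (q^n − 1)(q^{n−1} + q)/(q² − 1). -/
theorem result {F : Type*} [Field F] [Fintype F] (n : ℕ) (hn : 4 ≤ n) (h3 : 3 < Fintype.card F) :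
    (∀ (k : ℕ) (ρ : Representation ℂ (Cfsg.Omega F (Cfsg.quadFormPlus n F)) (Fin k → ℂ)), ρ.IsIrreducible → 2 ≤ k → (Fintype.card F ^ n - 1) * (Fintype.card F ^ (n - 1) + Fintype.card F) / (Fintype.card F ^ 2 - 1) ≤ k) := by
  intro k ρ hρ hk
  obtain ⟨m, rfl⟩ := Nat.exists_eq_add_of_le' hn
  rw [← Nat.card_eq_fintype_card] at *
  have hn := quadPlus_nondeg F (m + 4)
  have hd : Module.finrank F (Fin (m + 4) ⊕ Fin (m + 4) → F) = 2 * (m + 4) := by simp; omega
  revert ρ
  rw [← coe_quadPlus]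
  intro ρ hρ
  obtain ⟨τ, g, hg⟩ := rep_bridge hn (by omega) ρ hρ hk
  have := plus_main h3 m hn hd (quadPlus_wittIndex F _) hg
  rw [Module.finrank_fin_fun] at this
  exact div_le_of_int (by omega) (by
    zify [Nat.one_le_pow _ _ (show 0 < Nat.card F by omega)]; rfl) this

end Cfsg.Agent.S2345
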