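import Cfsg.Statements.S2346
import Cfsg.Agent.MinD.Rp6

set_option autoImplicit false
open Cfsg

namespace Cfsg.Agent.S2346

open Cfsg.Agent.Geom Cfsg.Agent.MinD in

/-- For a finite field F with q elements, n ≥ 4, and a, b ∈ F with z₁² + a z₁z₂ + b z₂² anisotropic, every irreducible complex representation of degree at least 2 of Ω⁻_{2n}(F) (the commutator subgroup of the isometry group of x₁y₁ + ⋯ + x_{n−1}y_{n−1} + z₁² + a z₁z₂ + b z₂²) has degree at least (q^n + 1)(q^{n−1} − q)/(q² − 1). -/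
theorem result {F : Type*} [Field F] [Fintype F] (n : ℕ) (hn : 4 ≤ n) (a b : F) (hab : ∀ z₁ z₂ : F, z₁ ^ 2 + a * z₁ * z₂ + b * z₂ ^ 2 = 0 → z₁ = 0 ∧ z₂ = 0) :
    (∀ (k : ℕ) (ρ : Representation ℂ (Cfsg.Omega F (Cfsg.quadFormMinus (n - 1) F a b)) (Fin k → ℂ)), ρ.IsIrreducible → 2 ≤ k → (Fintype.card F ^ n + 1) * (Fintype.card F ^ (n - 1) - Fintype.card F) / (Fintype.card F ^ 2 - 1) ≤ k) := by
  intro k ρ hρ hk
  obtain ⟨m, rfl⟩ := Nat.exists_eq_add_of_le' hn
  rw [← Nat.card_eq_fintype_card] at *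
  have hn := quadMinus_nondeg F (m + 3) (disc_ne_zero_of_anisotropic hab)
  have hd : Module.finrank F ((Fin (m + 3) ⊕ Fin (m + 3)) ⊕ Fin 2 → F) = 2 * (m + 3) + 2 := by simp; omega
  have hq := one_lt_q (F := F)
  revert ρ
  rw [show m + 4 - 1 = m + 3 from rfl, ← coe_quadMinus]
  intro ρ hρ
  obtain ⟨τ, g, hg⟩ := rep_bridge hn (by omega) ρ hρ hk
  have := minus_main m hn hd (quadMinus_wittIndex F _ hab) g hg
  rw [Module.finrank_fin_fun] at this
  exact div_le_of_int (by omega) (by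
    zify [Nat.le_self_pow (show m + 3 ≠ 0 by omega) (Nat.card F)]) this

end Cfsg.Agent.S2346
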