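import Cfsg.Statements.S2347
import Cfsg.Agent.Deg.Weil
import Cfsg.Agent.Classical.PSL2Basic

set_option autoImplicit false
open Cfsg

namespace Cfsg.Agent.S2347

/-- Smallest degree of a non-linear irreducible complex representation of the symplectic group Sp_{2n} over a finite field of odd order q, n ≥ 2: every irreducible complex representation of degree at least 2 has degree at least (q^n − 1)/2, and there is an irreducible complex representation of exactly that degree (a Weil representation). -/
theorem result {F : Type*} [Field F] [Fintype F] [DecidableEq F] (n : ℕ) (hn : 2 ≤ n) (hodd : Odd (Fintype.card F)) :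
    (∀ (k : ℕ) (ρ : Representation ℂ (Matrix.symplecticGroup (Fin n) F) (Fin k → ℂ)), ρ.IsIrreducible → 2 ≤ k → (Fintype.card F ^ n - 1) / 2 ≤ k) ∧
    (∃ ρ : Representation ℂ (Matrix.symplecticGroup (Fin n) F) (Fin ((Fintype.card F ^ n - 1) / 2) → ℂ), ρ.IsIrreducible) := by
  have h2 : (2 : F) ≠ 0 := Classical.two_ne_zero_iff_odd.2 (by rwa [Nat.card_eq_fintype_card])
  obtain ⟨ψ, hψ⟩ := Deg.exists_complex_psi F
  have hG := Deg.quasisimple_sp (F := F) hn fun _ => by
    have := Fintype.one_lt_card (α := F)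
    rw [Nat.card_eq_fintype_card]
    obtain ⟨k, hk⟩ := hodd
    omega
  refine ⟨fun k ρ hρ hk => ?_, ?_⟩
  · obtain ⟨g, hg⟩ := Deg.exists_ne_one ρ hρ hk
    have := Deg.sp_bound h2 (by omega) hψ (by simp) (Deg.ker_le_center hG ρ hg)
    rw [Module.finrank_fin_fun] at this
    omega
  · have := Fin.nontrivial_iff_two_le.2 hn
    obtain ⟨V, ρ, hV, g, hg⟩ := Deg.exists_weil (ι := Fin n) h2
    rw [Fintype.card_fin] at hV
    let e : V ≃ₗ[ℂ] Fin ((Fintype.card F ^ n - 1) / 2) → ℂ :=
      LinearEquiv.ofFinrankEq _ _ (by rw [Module.finrank_fin_fun]; omega)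
    refine ⟨(e.conjAlgEquiv ℂ).toMonoidHom.comp ρ, Deg.irr_of_min _ (g := g)
      (fun h => hg ((map_eq_one_iff _ (e.conjAlgEquiv ℂ).injective).1 h)) fun W g hg => ?_⟩
    have := Deg.sp_bound h2 (by omega) hψ (by simp) (Deg.ker_le_center hG W.toRepresentation hg)
    rw [Module.finrank_fin_fun]
    omega

end Cfsg.Agent.S2347
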