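import Cfsg.Statements.S2354
import Cfsg.Agent.Sz.Part

set_option autoImplicit false
open Cfsg

namespace Cfsg.Agent.S2354

section
open Polynomial Matrix

variable {F : Type*} [Field F] [CharP F 2] (r : ℕ)

/-- Generic central unipotent matrices. -/
noncomputable def E (p : F[X]) : Matrix (Fin 4) (Fin 4) F[X] :=
  !![1, 0, p, expand F r p; 0, 1, 0, p; 0, 0, 1, 0; 0, 0, 0, 1]

/-- The antidiagonal matrix. -/
noncomputable def J : Matrix (Fin 4) (Fin 4) F[X] := !![0, 0, 0, 1; 0, 0, 1, 0; 0, 1, 0, 0; 1, 0, 0, 0]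

/-- Vectors dominated by the first coordinate. -/
def X₁ (v : Fin 4 → F[X]) : Prop := (v 1).degree < (v 0).degree ∧ (v 2).degree < (v 0).degree ∧ (v 3).degree < (v 0).degree

/-- Vectors dominated by the last coordinate. -/
def X₂ (v : Fin 4 → F[X]) : Prop := (v 0).degree < (v 3).degree ∧ (v 1).degree < (v 3).degree ∧ (v 2).degree < (v 3).degree

omit [CharP F 2] in
theorem E_mulVec (p : F[X]) (v : Fin 4 → F[X]) :
    E r p *ᵥ v = ![v 0 + p * v 2 + expand F r p * v 3, v 1 + p * v 3, v 2, v 3] := by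
  ext1 i; fin_cases i <;> simp [E, mulVec, dotProduct, Fin.sum_univ_four]

omit [CharP F 2] in
theorem J_mulVec (v : Fin 4 → F[X]) : J *ᵥ v = ![v 3, v 2, v 1, v 0] := by
  ext1 i; fin_cases i <;> simp [J, mulVec, dotProduct, Fin.sum_univ_four]

omit [CharP F 2] in
theorem E_E (p p' : F[X]) (v : Fin 4 → F[X]) : E r p *ᵥ E r p' *ᵥ v = E r (p + p') *ᵥ v := by
  simp only [E_mulVec]
  ext1 i; fin_cases i <;> simp <;> ring

omit [CharP F 2] in
theorem E_zero (v : Fin 4 → F[X]) : E r (0 : F[X]) *ᵥ v = v := by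
  simp only [E_mulVec]
  ext1 i; fin_cases i <;> simp

omit [CharP F 2] in
theorem J_J (v : Fin 4 → F[X]) : J *ᵥ J *ᵥ v = v := by
  simp only [J_mulVec]
  ext1 i; fin_cases i <;> simp

omit [CharP F 2] in
theorem X₁.J {v : Fin 4 → F[X]} (h : X₁ v) : X₂ (J *ᵥ v) := by
  rw [J_mulVec]; exact ⟨h.2.2, h.2.1, h.1⟩

omit [CharP F 2] in
theorem X₁.not {v : Fin 4 → F[X]} (h : X₁ v) : ¬ X₂ v := fun h' => lt_asymm h.2.2 h'.1

variable {r}

omit [CharP F 2] in
theorem X₂.E (hr : 2 ≤ r) {p : F[X]} (hp : 0 < p.natDegree) {v : Fin 4 → F[X]} (h : X₂ v) : X₁ (E r p *ᵥ v) := by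
  obtain ⟨h0, h1, h2⟩ := h
  have hp0 : p ≠ 0 := by rintro rfl; simp at hp
  have hv : v 3 ≠ 0 := by intro e; rw [e] at h0; simp at h0
  have he : p.natDegree < (expand F r p).natDegree := by rw [natDegree_expand]; nlinarith
  have he0 : expand F r p ≠ 0 := by intro e; rw [e] at he; simp at he
  have a1 : (p * v 3).degree < (expand F r p * v 3).degree := by
    rw [degree_mul, degree_mul]
    exact WithBot.add_lt_add_right (by simpa using hv) (degree_lt_degree he)
  have a2 : (v 3).degree < (p * v 3).degree := degree_lt_degree (by rw [natDegree_mul hp0 hv]; omega)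
  have a3 : (p * v 2).degree < (p * v 3).degree := by
    rw [degree_mul, degree_mul]
    exact WithBot.add_lt_add_left (by simpa using hp0) h2
  have a4 : (v 0 + p * v 2 + expand F r p * v 3).degree = (expand F r p * v 3).degree :=
    degree_add_eq_right_of_degree_lt ((degree_add_le _ _).trans_lt (max_lt (h0.trans (a2.trans a1)) (a3.trans a1)))
  rw [E_mulVec]
  refine ⟨?_, ?_, ?_⟩ <;> simp only [cons_val_zero, cons_val_one, cons_val] <;> rw [a4]
  · exact (degree_add_le _ _).trans_lt (max_lt (h1.trans (a2.trans a1)) a1)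
  · exact h2.trans (a2.trans a1)
  · exact a2.trans a1

variable (r) in
/-- The matrices substituted for the letters. -/
noncomputable def A (x : ℕ × Bool) : Matrix (Fin 4) (Fin 4) F[X] :=
  cond x.2 (E r (X ^ (x.1 + 2)) * J * E r (X ^ (x.1 + 2)) * J) (J * E r (X ^ (x.1 + 2)) * J * E r (X ^ (x.1 + 2)))

variable (r) in
/-- The ping-pong states. -/
def St (n : ℕ) (b : Bool) (v : Fin 4 → F[X]) : Prop :=
  ∃ x, X₂ x ∧ v = cond b (E r (X ^ n) *ᵥ x) (J *ᵥ E r (X ^ n) *ᵥ x)

omit [CharP F 2] in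
theorem good {a b : ℕ} (h : a ≠ b) : 0 < (X ^ a + X ^ b : F[X]).natDegree := by
  rcases lt_or_gt_of_ne h with h | h
  · rw [natDegree_add_eq_right_of_natDegree_lt (by simpa)]; simp; omega
  · rw [natDegree_add_eq_left_of_natDegree_lt (by simpa)]; simp; omega

omit [CharP F 2] in
theorem step (hr : 2 ≤ r) {n : ℕ} (hn : 0 < n) {b : Bool} {v : Fin 4 → F[X]} (h : St r n b v) (x : ℕ × Bool)
    (hx : x.1 + 2 = n → x.2 = b) : St r (x.1 + 2) x.2 (A r x *ᵥ v) := by
  obtain ⟨y, hy, rfl⟩ := h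
  obtain ⟨i, c⟩ := x
  have g1 : 0 < (X ^ n : F[X]).natDegree := by simpa
  have g2 : 0 < (X ^ (i + 2) : F[X]).natDegree := by simp
  cases c <;> cases b <;> simp only [A, St, cond_true, cond_false, ← mulVec_mulVec]
  · exact ⟨_, ((hy.E hr g1).J.E hr g2).J, rfl⟩
  · refine ⟨_, ?_, rfl⟩
    rw [E_E]; exact (hy.E hr (good (by simpa using hx))).J
  · refine ⟨_, ?_, rfl⟩
    rw [J_J, E_E]; exact (hy.E hr (good (by simpa using hx))).J
  · exact ⟨_, ((hy.E hr g1).J.E hr g2).J, rfl⟩

omit [CharP F 2] in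
theorem chain (hr : 2 ≤ r) {v : Fin 4 → F[X]} (h : St r 1 true v) (x : ℕ × Bool) (L : List (ℕ × Bool))
    (hL : FreeGroup.IsReduced (x :: L)) : St r (x.1 + 2) x.2 (((x :: L).map (A r)).prod *ᵥ v) := by
  induction L generalizing x with
  | nil => simpa using step hr one_pos h x (by omega)
  | cons y L ih =>
    rw [FreeGroup.isReduced_cons_cons] at hL
    rw [List.map_cons, List.prod_cons, ← mulVec_mulVec]
    exact step hr (by omega) (ih y hL.2) x fun e => hL.1 (by omega)

theorem prod_ne_one (hr : 2 ≤ r) {L : List (ℕ × Bool)} (hL : FreeGroup.IsReduced L) (h0 : L ≠ []) :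
    (L.map (A (F := F) r)).prod ≠ 1 := by
  obtain ⟨x, L, rfl⟩ := List.exists_cons_of_ne_nil h0
  intro h
  have h1 : X₂ (![0, 0, 0, 1] : Fin 4 → F[X]) := by simp [X₂]
  obtain ⟨y, hy, e⟩ := chain hr (v := E r (X ^ 1) *ᵥ ![0, 0, 0, 1]) ⟨_, h1, by rw [cond_true]⟩ x L hL
  rw [h, one_mulVec] at e
  obtain ⟨i, c⟩ := x
  cases c <;> simp only [cond_true, cond_false] at e
  · refine (h1.E hr (p := X ^ 1) (by simp)).not ?_
    rw [e]; exact (hy.E hr (by simp)).J
  · have := congrArg (E r (X ^ (i + 2)) *ᵥ ·) e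
    simp only [E_E, CharTwo.add_self_eq_zero, E_zero] at this
    refine (h1.E hr (good (a := i + 2) (b := 1) (by omega))).not ?_
    rw [this]; exact hy

/-- Degree bound for the entries. -/
def Bd (n : ℕ) (M : Matrix (Fin 4) (Fin 4) F[X]) : Prop := ∀ i j, (M i j).natDegree ≤ n

omit [CharP F 2] in
theorem Bd.mul {n k : ℕ} {M N : Matrix (Fin 4) (Fin 4) F[X]} (h : Bd n M) (h' : Bd k N) : Bd (n + k) (M * N) :=
  fun i j => by
    rw [Matrix.mul_apply]
    exact natDegree_sum_le_of_forall_le _ _ fun l _ => natDegree_mul_le.trans (add_le_add (h _ _) (h' _ _))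

omit [CharP F 2] in
theorem bd_prod (hr : 1 ≤ r) (L : List (ℕ × Bool)) :
    Bd ((L.map fun x => 2 * (x.1 + 2)).sum * r) (L.map (A (F := F) r)).prod := by
  induction L with
  | nil => intro i j; simp only [List.map_nil, List.prod_nil, Matrix.one_apply]; split_ifs <;> simp
  | cons x L ih =>
    rw [List.map_cons, List.map_cons, List.prod_cons, List.sum_cons, add_mul]
    refine Bd.mul ?_ ih
    have h1 : Bd 0 (J (F := F)) := fun i j => by fin_cases i <;> fin_cases j <;> simp [J]
    have h3 : x.1 + 2 ≤ (x.1 + 2) * r := Nat.le_mul_of_pos_right _ hr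
    have h2 : Bd ((x.1 + 2) * r) (E r (X ^ (x.1 + 2) : F[X])) := fun i j => by
      fin_cases i <;> fin_cases j <;> simp [E, h3, natDegree_expand, -map_pow]
    obtain ⟨i, c⟩ := x
    cases c <;> simp only [A, cond_true, cond_false]
    · convert ((h1.mul h2).mul h1).mul h2 using 1; ring
    · convert ((h2.mul h1).mul h2).mul h1 using 1; ring

end

open Sz Polynomial in
theorem aux {F : Type*} [Field F] [Finite F] [Tits F] (G : Type*) [Group G] [SzRep F G] {r : ℕ} (hr : 2 ≤ r)
    (hθ : ∀ x : F, Tits.θ x = x ^ r) {w : FreeGroup ℕ} (hw : w ≠ 1)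
    (h : (w.toWord.map fun x => 2 * (x.1 + 2)).sum * r < Nat.card F) : ∃ f : ℕ → G, FreeGroup.lift f w ≠ 1 := by
  have := Fintype.ofFinite F
  by_contra! hn
  apply prod_ne_one (F := F) hr FreeGroup.isReduced_toWord (by rwa [ne_eq, FreeGroup.toWord_eq_nil_iff])
  have key : ∀ t : F, (evalRingHom t).mapMatrix (w.toWord.map (A (F := F) r)).prod = 1 := by
    intro t
    have := congrArg (rho F) (hn fun i => S G 0 (t ^ (i + 2)) * T F G * S G 0 (t ^ (i + 2)) * T F G)
    rw [← FreeGroup.mk_toWord (x := w), FreeGroup.lift_mk, map_list_prod, map_one, List.map_map] at this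
    rw [map_list_prod, List.map_map, ← this]
    congr 2
    funext ⟨i, c⟩
    have h1 : (evalRingHom t).mapMatrix J = rho F (T F G) := by
      rw [rho_T]; ext i j; fin_cases i <;> fin_cases j <;> simp [J, form_def]
    have h2 : (evalRingHom t).mapMatrix (E r (X ^ (i + 2))) = rho F (S G 0 (t ^ (i + 2))) := by
      rw [rho_S]; ext i j
      fin_cases i <;> fin_cases j <;> simp [E, Smat, nrm, hθ, ← pow_mul, mul_comm, show r ≠ 0 by omega]
    have h3 := inv_eq_of_mul_eq_one_right (S_zero_mul_self (G := G) (t ^ (i + 2)))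
    cases c <;> simp only [A, Function.comp, cond_true, cond_false, map_mul, h1, h2, mul_inv_rev, T_inv, h3, mul_assoc]
  rw [← sub_eq_zero]
  ext1 i j
  refine eq_zero_of_natDegree_lt_card_of_eval_eq_zero _ Function.injective_id (fun t => ?_) ?_
  · have := congrFun (congrFun (key t) i) j
    simp only [RingHom.mapMatrix_apply, Matrix.map_apply, coe_evalRingHom] at this
    rw [Matrix.sub_apply, eval_sub, id, this, Matrix.one_apply, Matrix.one_apply]
    split_ifs <;> simp
  · rw [← Nat.card_eq_fintype_card]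
    refine lt_of_le_of_lt ((natDegree_sub_le _ _).trans (max_le (bd_prod (by omega) _ i j) ?_)) h
    rw [Matrix.one_apply]; split_ifs <;> simp

/-- A non-trivial law holds in only finitely many Suzuki groups: for every non-trivial element w of the free group on countably many generators there is N such that for q = 2^(2m+1) with m ≥ N some substitution of elements of the Suzuki group over the field with q elements into w is not the identity. -/
theorem result (w : FreeGroup ℕ) (hw : w ≠ 1) :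
    ∃ N : ℕ, ∀ (F : Type*) [Field F] [Fintype F] (m : ℕ), 1 ≤ m → N ≤ m →
      Fintype.card F = 2 ^ (2 * m + 1) →
      ∃ f : ℕ → ↥(Cfsg.Lie.Sz F (2 ^ (m + 1))), FreeGroup.lift f w ≠ 1 := by
  refine ⟨(w.toWord.map fun x => 2 * (x.1 + 2)).sum, fun F _ _ m hm hN hF => ?_⟩
  let := Sz.titsOfCard hm hF
  let := Sz.lieRep (Sz.titsOfCard_θ hm hF)
  refine aux _ (r := 2 ^ (m + 1)) ?_ (Sz.titsOfCard_θ hm hF) hw ?_
  · exact Nat.le_self_pow (by omega) 2
  · rw [Nat.card_eq_fintype_card, hF, show 2 * m + 1 = m + (m + 1) by ring, pow_add 2 m (m + 1)]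
    exact Nat.mul_lt_mul_of_pos_right (hN.trans_lt Nat.lt_two_pow_self) (by positivity)

end Cfsg.Agent.S2354
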