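import Cfsg.Statements.S2355
import Cfsg.Agent.Pool10.Law

set_option autoImplicit false
open Cfsg

namespace Cfsg.Agent.S2355

open Subgroup Matrix Cfsg.Agent.Pool10
open scoped MatrixGroups

theorem not_law {w : FreeGroup ℕ} {G X : Type*} [Group G] [Group X] (e : G ≃* X ⧸ center X)
    (h : ∀ f : ℕ → G, FreeGroup.lift f w = 1) : ¬ NL w X := fun h' => by
  obtain ⟨f, hf⟩ := h'.quot
  refine hf (e.symm.injective ?_)
  rw [map_one]
  exact (map_lift e.symm.toMonoidHom f).trans (h _)

theorem card_le {G X F ι : Type*} [Group G] [Group X] [Fintype F] [Fintype ι] (e : G ≃* X ⧸ center X)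
    (f : X → Matrix ι ι F) (hf : Function.Injective f) {Q D : ℕ} (h1 : Fintype.card F ≤ Q) (h2 : Fintype.card ι ≤ D)
    (h0 : 0 < Q) : Nat.card G ≤ (Q ^ D) ^ D := by
  classical
  have : Finite X := Finite.of_injective f hf
  rw [Nat.card_congr e.toEquiv]
  refine (Nat.card_le_card_of_surjective _ QuotientGroup.mk_surjective).trans
    ((Nat.card_le_card_of_injective f hf).trans ?_)
  change Nat.card (ι → ι → F) ≤ _
  simp only [Nat.card_eq_fintype_card, Fintype.card_fun]
  exact (Nat.pow_le_pow_left ((Nat.pow_le_pow_left h1 _).trans (Nat.pow_le_pow_right h0 h2)) _).trans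
    (Nat.pow_le_pow_right (by positivity) h2)

theorem exists_field {F : Type} [Field F] [Fintype F] {q : ℕ} (h : Fintype.card F = q ^ 2) :
    ∃ (K : Type) (_ : Field K) (_ : Fintype K), Fintype.card K = q := by
  obtain ⟨p, hc, n, hp, hn⟩ := FiniteField.card' F
  have := Fact.mk hp
  obtain ⟨k, -, rfl⟩ := (Nat.dvd_prime_pow hp).1 (show q ∣ p ^ (n : ℕ) from hn ▸ h ▸ dvd_pow_self q two_ne_zero)
  have hk : k ≠ 0 := by
    rintro rfl
    have := Fintype.one_lt_card (α := F)
    simp at h; omega
  have := Fintype.ofFinite (GaloisField p k)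
  exact ⟨GaloisField p k, inferInstance, this, by rw [← Nat.card_eq_fintype_card, GaloisField.card p k hk]⟩

/-- A non-trivial law is satisfied by only finitely many finite simple groups that are alternating or classical, up to isomorphism: for every non-trivial element w of the free group on countably many generators there is a bound N such that every alternating group of degree ≥ 5 and every simple classical group (linear, symplectic, unitary or orthogonal, in this problem's sense) in which w is a law has order at most N. -/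
theorem result (w : FreeGroup ℕ) (hw : w ≠ 1) :
    ∃ N : ℕ, ∀ (G : Type*) [Group G] [Finite G],
      (Cfsg.IsAlternating G ∨ Cfsg.IsPSL G ∨ Cfsg.IsPSp G ∨ Cfsg.IsPSU G ∨ Cfsg.IsPOmegaOdd G ∨
          Cfsg.IsPOmegaPlus G ∨ Cfsg.IsPOmegaMinus G) →
      (∀ f : ℕ → G, FreeGroup.lift f w = 1) → Nat.card G ≤ N := by
  obtain ⟨H, _, _, hp, hH⟩ := exists_perfect_NL hw
  set N := (w.toWord.map fun x => 2 * (x.1 + 2)).sum + 4 with hN
  set c := Nat.card H
  have key : ∀ (F : Type) [Field F] [Fintype F] (m : ℕ), 2 ≤ m → (c ≤ m ∨ N ≤ Fintype.card F) →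
      ∃ (H : Type) (_ : Group H) (ρ : H →* Matrix (Fin m) (Fin m) F), commutator H = ⊤ ∧ NL w H ∧
        Function.Injective ρ := by
    intro F _ _ m hm h
    rcases h with h | h
    · obtain ⟨φ, hφ⟩ := exists_perm h
      exact ⟨H, inferInstance, permMatrixHom.comp φ, hp, hH, permMatrixHom_inj.comp hφ⟩
    · rw [← Nat.card_eq_fintype_card] at h
      exact ⟨SL(2, F), inferInstance, extn hm (slToMat 2 F), Classical.commutator_SL2 (by omega), NL_SL2 hw (by omega),
        extn_inj hm fun _ _ e => Subtype.ext e⟩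
  have hN2 : N ≤ N ^ 2 := Nat.le_self_pow two_ne_zero N
  refine ⟨max c.factorial (((N ^ 2) ^ (2 * c + 2)) ^ (2 * c + 2)), fun G _ _ hG hl => ?_⟩
  rcases hG with ⟨n, -, ⟨e⟩⟩ | ⟨F, _, _, n, hn, -, ⟨e⟩⟩ | ⟨F, _, _, n, hn, -, ⟨e⟩⟩ | ⟨F, _, _, n, q, hq, hn, -, ⟨e⟩⟩ |
    ⟨F, _, _, n, hn, -, ⟨e⟩⟩ | ⟨F, _, _, n, hn, ⟨e⟩⟩ | ⟨F, _, _, n, a, b, hn, -, ⟨e⟩⟩
  · refine le_max_of_le_left ?_
    by_cases h : c ≤ n
    · obtain ⟨f, hf⟩ := (hH.alt hp h).ne_one
      exact (hf (e.symm.injective ((map_lift e.symm.toMonoidHom f).trans ((hl _).trans (map_one _).symm)))).elim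
    · rw [Nat.card_congr e.toEquiv]
      refine (card_le_card_group _).trans ?_
      rw [Nat.card_perm, Nat.card_fin]
      exact Nat.factorial_le (by omega)
  all_goals refine le_max_of_le_right ?_
  · by_cases h : c ≤ n ∨ N ≤ Fintype.card F
    · obtain ⟨K, _, ρ, h1, h2, h3⟩ := key F n hn h
      exact (not_law e hl (h2.sl h1 h3)).elim
    · exact card_le e Subtype.val Subtype.val_injective (by omega) (by simp; omega) (by omega)
  · by_cases h : c ≤ n ∨ N ≤ Fintype.card F
    · obtain ⟨K, _, ρ, h1, h2, h3⟩ := key F n hn h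
      exact (not_law e hl (h2.sp h3)).elim
    · exact card_le e Subtype.val Subtype.val_injective (by omega) (by simp; omega) (by omega)
  · by_cases h : c ≤ n
    · obtain ⟨φ, hφ⟩ := exists_perm h
      refine (not_law e hl (hH.su hp (ρ := permMatrixHom.comp φ) (permMatrixHom_inj.comp hφ)
        fun x u v => ?_)).elim
      simp only [MonoidHom.comp_apply, permMatrixHom_apply, permMatrix_mulVec, hermForm, Function.comp_apply]
      exact Equiv.sum_comp (φ x)⁻¹ fun i => u i * v i ^ q
    by_cases h' : N ≤ q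
    · obtain ⟨K, _, _, hK⟩ := exists_field hq
      obtain ⟨ε⟩ := S0281.result hq hK
      rw [← hK, ← Nat.card_eq_fintype_card] at h'
      refine (not_law e hl ((NL_SL2 (F := K) hw (by omega)).su (Classical.commutator_SL2 (by omega))
        (extn_inj (by omega : 2 ≤ n) (ρ := ((slToMat 2 F).comp (SU 2 F q).subtype).comp ε.symm.toMonoidHom)
          fun _ _ e => ε.symm.injective (Subtype.ext (Subtype.ext e))) (extn_herm _ fun x => (ε.symm x).2))).elim
    · exact card_le e (fun x => x.1.1) (fun _ _ h => Subtype.ext (Subtype.ext h))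
        (hq ▸ Nat.pow_le_pow_left (by omega) 2) (by simp; omega) (by omega)
  · by_cases h : c ≤ n ∨ N ≤ Fintype.card F
    · obtain ⟨K, _, ρ, h1, h2, h3⟩ := key F n (by omega) h
      exact (not_law e hl (h2.odd h1 h3)).elim
    · exact card_le e (fun x => x.1.1.1) (fun _ _ h => Subtype.ext (Subtype.ext (Units.ext h)))
        (by omega) (by simp; omega) (by omega)
  · by_cases h : c ≤ n ∨ N ≤ Fintype.card F
    · obtain ⟨K, _, ρ, h1, h2, h3⟩ := key F n (by omega) h
      exact (not_law e hl (h2.plus h1 h3)).elim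
    · exact card_le e (fun x => x.1.1.1) (fun _ _ h => Subtype.ext (Subtype.ext (Units.ext h)))
        (by omega) (by simp; omega) (by omega)
  · by_cases h : c ≤ n - 1 ∨ N ≤ Fintype.card F
    · obtain ⟨K, _, ρ, h1, h2, h3⟩ := key F (n - 1) (by omega) h
      exact (not_law e hl (h2.minus h1 h3 a b)).elim
    · exact card_le e (fun x => x.1.1.1) (fun _ _ h => Subtype.ext (Subtype.ext (Units.ext h)))
        (by omega) (by simp; omega) (by omega)

end Cfsg.Agent.S2355
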