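import Cfsg.Statements.S2357
import Cfsg.Agent.Ree.Inst

set_option autoImplicit false
open Cfsg

namespace Cfsg.Agent.S2357

open Cfsg.Agent.Ree Subgroup

/-- Let R be the small Ree group over the field with q = 3^(2m+1) ≥ 27 elements and write φ for Euler's totient function. Then R has exactly q²(q²−q+1) involutions, (q²−1)(q³+1) elements of order 3, and q²(q−1)(q³+1) elements of order 6 and as many of order 9; for i > 2 dividing q−1 it has φ(i)q³(q³+1)/2 elements of order i; for i > 1 dividing (q+1)/4 it has φ(i)q³(q−1)(q²−q+1)/6 elements of order i and φ(i)q³(q−1)(q²−q+1)/2 elements of order 2i; and for i > 1 dividing q − 3^(m+1) + 1 (respectively q + 3^(m+1) + 1) it has φ(i)q³(q²−1)(q + 3^(m+1) + 1)/6 (respectively φ(i)q³(q²−1)(q − 3^(m+1) + 1)/6) elements of order i. -/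
theorem result {K : Type*} [Field K] [Fintype K] {m : ℕ} (hm : 1 ≤ m)
    (hK : Fintype.card K = 3 ^ (2 * m + 1)) :
    Nat.card {g : ↥(Cfsg.Lie.twistedG2 K (3 ^ m)) // orderOf g = 2} = (3 ^ (2 * m + 1)) ^ 2 * ((3 ^ (2 * m + 1)) ^ 2 - 3 ^ (2 * m + 1) + 1) ∧
    Nat.card {g : ↥(Cfsg.Lie.twistedG2 K (3 ^ m)) // orderOf g = 3} = ((3 ^ (2 * m + 1)) ^ 2 - 1) * ((3 ^ (2 * m + 1)) ^ 3 + 1) ∧
    Nat.card {g : ↥(Cfsg.Lie.twistedG2 K (3 ^ m)) // orderOf g = 6} = (3 ^ (2 * m + 1)) ^ 2 * (3 ^ (2 * m + 1) - 1) * ((3 ^ (2 * m + 1)) ^ 3 + 1) ∧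
    Nat.card {g : ↥(Cfsg.Lie.twistedG2 K (3 ^ m)) // orderOf g = 9} = (3 ^ (2 * m + 1)) ^ 2 * (3 ^ (2 * m + 1) - 1) * ((3 ^ (2 * m + 1)) ^ 3 + 1) ∧
    (∀ i : ℕ, 2 < i → i ∣ 3 ^ (2 * m + 1) - 1 →
      2 * Nat.card {g : ↥(Cfsg.Lie.twistedG2 K (3 ^ m)) // orderOf g = i} = Nat.totient i * (3 ^ (2 * m + 1)) ^ 3 * ((3 ^ (2 * m + 1)) ^ 3 + 1)) ∧
    (∀ i : ℕ, 1 < i → i ∣ (3 ^ (2 * m + 1) + 1) / 4 →
      6 * Nat.card {g : ↥(Cfsg.Lie.twistedG2 K (3 ^ m)) // orderOf g = i} =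
          Nat.totient i * (3 ^ (2 * m + 1)) ^ 3 * (3 ^ (2 * m + 1) - 1) * ((3 ^ (2 * m + 1)) ^ 2 - 3 ^ (2 * m + 1) + 1) ∧
        2 * Nat.card {g : ↥(Cfsg.Lie.twistedG2 K (3 ^ m)) // orderOf g = 2 * i} =
          Nat.totient i * (3 ^ (2 * m + 1)) ^ 3 * (3 ^ (2 * m + 1) - 1) * ((3 ^ (2 * m + 1)) ^ 2 - 3 ^ (2 * m + 1) + 1)) ∧
    (∀ i : ℕ, 1 < i → i ∣ 3 ^ (2 * m + 1) - 3 ^ (m + 1) + 1 →
      6 * Nat.card {g : ↥(Cfsg.Lie.twistedG2 K (3 ^ m)) // orderOf g = i} =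
        Nat.totient i * (3 ^ (2 * m + 1)) ^ 3 * ((3 ^ (2 * m + 1)) ^ 2 - 1) * (3 ^ (2 * m + 1) + 3 ^ (m + 1) + 1)) ∧
    (∀ i : ℕ, 1 < i → i ∣ 3 ^ (2 * m + 1) + 3 ^ (m + 1) + 1 →
      6 * Nat.card {g : ↥(Cfsg.Lie.twistedG2 K (3 ^ m)) // orderOf g = i} =
        Nat.totient i * (3 ^ (2 * m + 1)) ^ 3 * ((3 ^ (2 * m + 1)) ^ 2 - 1) * (3 ^ (2 * m + 1) - 3 ^ (m + 1) + 1)) := by
  obtain ⟨R, h, -⟩ := exists_RC (Nat.card_eq_fintype_card.trans hK)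
  have := R.finite_G
  replace hm := hm.trans h.ge
  have e : ∀ d, Nat.card {g : Cfsg.Lie.twistedG2 K (3 ^ m) // orderOf g = d} =
    {g : Cfsg.Lie.twistedG2 K (3 ^ m) | orderOf g = d}.ncard := fun _ => rfl
  simp only [e]
  rw [← hK, ← Nat.card_eq_fintype_card (α := K)]
  obtain ⟨a, b, ha, hb, h1, h2, h3, -⟩ := R.exists_pi hm
  rw [h] at h1 h2 h3
  have hq := R.le_q hm
  have hG := R.card_G
  rw [RD.arith_card] at hG
  have e1 : Nat.card K ^ 2 - 1 = (Nat.card K + 1) * (Nat.card K - 1) := by rw [← Nat.sq_sub_sq, one_pow]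
  have e2 : Nat.card K ^ 3 + 1 = (Nat.card K + 1) * (Nat.card K ^ 2 - Nat.card K + 1) :=
    Nat.eq_of_mul_eq_mul_right (by have : 0 < Nat.card K - 1 := by omega
                                   positivity) RD.arith_card
  have e3 : Nat.card K ^ 3 - Nat.card K ^ 2 = Nat.card K ^ 2 * (Nat.card K - 1) := by rw [Nat.mul_sub_one, ← pow_succ]
  have p1 : 0 < Nat.card K - 1 := by omega
  have p2 : 0 < Nat.card K := by omega
  refine ⟨?_, by rw [R.ncard_three, mul_comm], ?_, by rw [R.ncard_nine, e3, mul_comm], fun i h4 h5 => ?_,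
    fun i h4 h5 => ⟨?_, ?_⟩, fun i h4 h5 => ?_, fun i h4 h5 => ?_⟩
  · refine Nat.eq_of_mul_eq_mul_right (m := Nat.card K * (Nat.card K ^ 2 - 1)) (by rw [e1]; positivity) ?_
    rw [R.ncard_two, hG, e1]; ring
  · refine Nat.eq_of_mul_eq_mul_right p2 ?_
    rw [R.ncard_six, hG, e2]; ring
  · have := R.ncard_H hm (P := (· = i)) (by rintro _ rfl; exact ⟨h4, h5⟩)
    rw [ncard_orderOf_cyclic R.isCyclic_H (R.card_H ▸ h5), hG] at this
    refine Nat.eq_of_mul_eq_mul_right p1 ?_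
    rw [e2]; linarith
  · obtain ⟨k, -, -, -, e, e', -⟩ := R.exists_q'
    have h6 : Odd i := Odd.of_dvd_nat ⟨3 * k, by omega⟩ h5
    have := R.ncard_T (P := (· = i)) (by
      rintro _ rfl; exact ⟨by obtain ⟨j, rfl⟩ := h6; omega, e' ▸ (e ▸ h5).mul_left 2⟩)
    rw [R.ncard_T_odd h5, hG] at this
    refine Nat.eq_of_mul_eq_mul_right (Nat.succ_pos (Nat.card K)) ?_
    rw [Nat.succ_eq_add_one]; linarith
  · obtain ⟨k, -, -, -, e, e', -⟩ := R.exists_q'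
    have := R.ncard_T (P := (· = 2 * i)) (by
      rintro _ rfl; exact ⟨by omega, e' ▸ Nat.mul_dvd_mul_left 2 (e ▸ h5)⟩)
    rw [R.ncard_T_two_mul h5, hG] at this
    refine Nat.eq_of_mul_eq_mul_right (m := 3 * (Nat.card K + 1)) (by positivity) ?_
    linarith
  · have := R.ncard_pi_order hm hb h4 (h2 ▸ h5)
    rw [h2, hG, ← h3] at this
    refine Nat.eq_of_mul_eq_mul_right (Nat.succ_pos (Nat.card K - 3 ^ (m + 1))) ?_
    rw [Nat.succ_eq_add_one, e1]; linarith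
  · have := R.ncard_pi_order hm ha h4 (h1 ▸ h5)
    rw [h1, hG, ← h3] at this
    refine Nat.eq_of_mul_eq_mul_right (Nat.succ_pos (Nat.card K + 3 ^ (m + 1))) ?_
    rw [Nat.succ_eq_add_one, e1]; linarith

end Cfsg.Agent.S2357
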