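import Cfsg.Statements.S2358
import Cfsg.Agent.Ree.Inst

set_option autoImplicit false
open Cfsg

namespace Cfsg.Agent.S2358

open Cfsg.Agent.Ree Subgroup

/-- Let R be the small Ree group over the field with q = 3^(2m+1) ≥ 27 elements. If d divides one of (q−1)/2, (q+1)/4, q − 3^(m+1) + 1 or q + 3^(m+1) + 1, then any two cyclic subgroups of R of order d are conjugate in R. -/
theorem result {K : Type*} [Field K] [Fintype K] {m : ℕ} (hm : 1 ≤ m)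
    (hK : Fintype.card K = 3 ^ (2 * m + 1)) (d : ℕ)
    (hd : d ∣ (3 ^ (2 * m + 1) - 1) / 2 ∨ d ∣ (3 ^ (2 * m + 1) + 1) / 4 ∨ d ∣ 3 ^ (2 * m + 1) - 3 ^ (m + 1) + 1 ∨ d ∣ 3 ^ (2 * m + 1) + 3 ^ (m + 1) + 1)
    (A B : Subgroup ↥(Cfsg.Lie.twistedG2 K (3 ^ m))) (hA : IsCyclic A) (hB : IsCyclic B)
    (hAd : Nat.card A = d) (hBd : Nat.card B = d) :
    ∃ g : ↥(Cfsg.Lie.twistedG2 K (3 ^ m)), B = A.map (MulAut.conj g).toMonoidHom := by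
  obtain ⟨R, h, -⟩ := exists_RC (Nat.card_eq_fintype_card.trans hK)
  have := R.finite_G
  obtain ⟨M, hM, e, h1⟩ : ∃ M, R.IsTor M ∧ d ∣ Nat.card M ∧ ∀ g, orderOf g ∣ Nat.card M → ∃ x, g ∈ Sz.cj x M := by
    rw [← hK, ← Nat.card_eq_fintype_card, ← h] at hd
    rcases hd with hd | hd | hd | hd
    · obtain ⟨M, h1, h2, h3⟩ := R.exists_tor (hm.trans h.ge) (Or.inl rfl); exact ⟨M, h1, h2 ▸ hd, h2 ▸ h3⟩
    · obtain ⟨M, h1, h2, h3⟩ := R.exists_tor (hm.trans h.ge) (Or.inr (Or.inl rfl)); exact ⟨M, h1, h2 ▸ hd, h2 ▸ h3⟩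
    · obtain ⟨M, h1, h2, h3⟩ := R.exists_tor (hm.trans h.ge) (Or.inr (Or.inr (Or.inl rfl))); exact ⟨M, h1, h2 ▸ hd, h2 ▸ h3⟩
    · obtain ⟨M, h1, h2, h3⟩ := R.exists_tor (hm.trans h.ge) (Or.inr (Or.inr (Or.inr rfl))); exact ⟨M, h1, h2 ▸ hd, h2 ▸ h3⟩
  obtain ⟨x, hx⟩ := RD.exists_le_cj h1 hA (hAd ▸ e)
  obtain ⟨y, hy⟩ := RD.exists_le_cj h1 hB (hBd ▸ e)
  rw [Sz.le_cj_iff] at hx hy
  have := hM.isCyclic
  have e := Gen2.eq_of_card_eq_of_isCyclic hx hy (by rw [Sz.card_cj, Sz.card_cj, hAd, hBd])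
  exact ⟨y * x⁻¹, by rw [← Sz.cj_cj_inv y B, ← e, Sz.cj_cj]⟩

end Cfsg.Agent.S2358
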