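import Cfsg.Statements.S2359
import Cfsg.Agent.Ree.Inst

set_option autoImplicit false
open Cfsg

namespace Cfsg.Agent.S2359

open Cfsg.Agent.Ree Subgroup

theorem key {G : Type*} [Group G] {H : Subgroup G} (M C : Subgroup G) (x : G) (h1 : H ≤ Sz.cj x M) (h2 : H ≠ ⊥)
    (h3 : ∀ A ≤ M, A ≠ ⊥ → centralizer (A : Set G) = C) : centralizer (H : Set G) = Sz.cj x C ∧
      ∀ A ≤ H, A ≠ ⊥ → centralizer (A : Set G) = centralizer (H : Set G) := by
  have : ∀ A ≤ H, A ≠ ⊥ → centralizer (A : Set G) = Sz.cj x C := fun A h4 h5 => by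
    rw [← h3 _ (Sz.le_cj_iff.1 (h4.trans h1)) (mt Sz.cj_eq_bot.1 h5), ← centralizer_cj, Sz.cj_cj_inv]
  exact ⟨this H le_rfl h2, fun A h4 h5 => (this A h4 h5).trans (this H le_rfl h2).symm⟩

/-- Let R be the small Ree group over the field with q = 3^(2m+1) ≥ 27 elements. If H is a cyclic subgroup of R of order (q−1)/2, then the centralizer of H in R is cyclic of order q−1, and every non-trivial subgroup of H has the same centralizer as H. If H is a cyclic subgroup of order (q+1)/4, then the centralizer of H is abelian of order q+1 with no element of order 4 (so it is the direct product of H and a group of order 4 whose non-identity elements all have order 2), and every non-trivial subgroup of H has the same centralizer as H. -/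
theorem result {K : Type*} [Field K] [Fintype K] {m : ℕ} (hm : 1 ≤ m)
    (hK : Fintype.card K = 3 ^ (2 * m + 1)) (H : Subgroup ↥(Cfsg.Lie.twistedG2 K (3 ^ m))) (hH : IsCyclic H) :
    (Nat.card H = (3 ^ (2 * m + 1) - 1) / 2 →
      IsCyclic ↥(Subgroup.centralizer (H : Set ↥(Cfsg.Lie.twistedG2 K (3 ^ m)))) ∧
        Nat.card ↥(Subgroup.centralizer (H : Set ↥(Cfsg.Lie.twistedG2 K (3 ^ m)))) = 3 ^ (2 * m + 1) - 1 ∧
        ∀ A : Subgroup ↥(Cfsg.Lie.twistedG2 K (3 ^ m)), A ≤ H → A ≠ ⊥ →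
          Subgroup.centralizer (A : Set ↥(Cfsg.Lie.twistedG2 K (3 ^ m))) = Subgroup.centralizer (H : Set ↥(Cfsg.Lie.twistedG2 K (3 ^ m)))) ∧
    (Nat.card H = (3 ^ (2 * m + 1) + 1) / 4 →
      IsMulCommutative ↥(Subgroup.centralizer (H : Set ↥(Cfsg.Lie.twistedG2 K (3 ^ m)))) ∧
        Nat.card ↥(Subgroup.centralizer (H : Set ↥(Cfsg.Lie.twistedG2 K (3 ^ m)))) = 3 ^ (2 * m + 1) + 1 ∧
        (∀ x ∈ Subgroup.centralizer (H : Set ↥(Cfsg.Lie.twistedG2 K (3 ^ m))), orderOf x ≠ 4) ∧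
        ∀ A : Subgroup ↥(Cfsg.Lie.twistedG2 K (3 ^ m)), A ≤ H → A ≠ ⊥ →
          Subgroup.centralizer (A : Set ↥(Cfsg.Lie.twistedG2 K (3 ^ m))) = Subgroup.centralizer (H : Set ↥(Cfsg.Lie.twistedG2 K (3 ^ m)))) := by
  obtain ⟨R, h, -⟩ := exists_RC (Nat.card_eq_fintype_card.trans hK)
  have := R.finite_G
  have hq := R.le_q (hm.trans h.ge)
  rw [← hK, ← Nat.card_eq_fintype_card (α := K)]
  refine ⟨fun e => ?_, fun e => ?_⟩
  · obtain ⟨x, hx⟩ := RD.exists_le_cj (fun g => R.exists_mem_H0) hH e.dvd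
    obtain ⟨h1, h2⟩ := key _ _ x hx (by rintro rfl; rw [card_bot] at e; omega) fun A => RD.centralizer_of_le_H0
    exact ⟨h1 ▸ (Sz.cjEquiv x _).isCyclic.1 R.isCyclic_H, by rw [h1, Sz.card_cj, R.card_H], h2⟩
  · obtain ⟨x, hx⟩ := RD.exists_le_cj (fun g => R.exists_mem_A) hH e.dvd
    obtain ⟨h1, h2⟩ := key _ _ x hx (by rintro rfl; rw [card_bot] at e; omega) fun A => RD.centralizer_of_le_A
    refine ⟨⟨⟨fun a b => Subtype.ext ?_⟩⟩, by rw [h1, Sz.card_cj, R.card_T], fun g _ e => ?_, h2⟩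
    · simpa [mul_assoc] using (comm_conj' x (RD.comm_of_mem_T (Sz.mem_cj.1 (h1.le a.2)) (Sz.mem_cj.1 (h1.le b.2)))).eq
    · have := orderOf_dvd_of_pow_eq_one ((sq g).trans (R.sq_eq_one_of_pow_four (e ▸ pow_orderOf_eq_one g)))
      rw [e] at this; omega

end Cfsg.Agent.S2359
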