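import Cfsg.Statements.S2360
import Cfsg.Agent.Elu.SuInv
import Cfsg.Agent.Char.Central

set_option autoImplicit false
open Cfsg

namespace Cfsg.Agent.S2360

/-- Let q be odd, F the field with q² elements and S = SU_3(F) (determinant-one isometries of the standard Hermitian form). Then all involutions of S are conjugate; there are exactly q²(q²−q+1) of them; the centralizer of an involution has order q(q+1)(q²−1), the order of the full unitary group of degree 2; and for two distinct commuting involutions t and x there is exactly one further involution commuting with both. -/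
theorem result {F : Type*} [Field F] [Fintype F] {q : ℕ} (hq : Odd q)
    (hF : Fintype.card F = q ^ 2) (t : ↥(Cfsg.SU 3 F q)) (ht : t ≠ 1) (ht2 : t * t = 1) :
    (∀ x : ↥(Cfsg.SU 3 F q), x ≠ 1 → x * x = 1 → ∃ g : ↥(Cfsg.SU 3 F q), g * t * g⁻¹ = x) ∧
    Nat.card {x : ↥(Cfsg.SU 3 F q) // x ≠ 1 ∧ x * x = 1} = q ^ 2 * (q ^ 2 - q + 1) ∧
    Nat.card ↥(Subgroup.centralizer ({t} : Set ↥(Cfsg.SU 3 F q))) = q * (q + 1) * (q ^ 2 - 1) ∧
    ∀ x : ↥(Cfsg.SU 3 F q), x ≠ 1 → x * x = 1 → x ≠ t → Commute t x →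
      Nat.card {y : ↥(Cfsg.SU 3 F q) // y ≠ 1 ∧ y * y = 1 ∧ y ≠ t ∧ y ≠ x ∧ Commute t y ∧ Commute x y} = 1 := by
  open Cfsg.Agent.Elu Cfsg.Agent.Classical Cfsg.Agent.Char in
  classical
  have := Fact.mk hF
  have h2 : (2 : F) ≠ 0 := two_ne_zero_iff_odd.2 (by rw [natCard_eq_sq (q := q)]; exact hq.pow)
  obtain ⟨g, R⟩ := exists_rf hq ht ht2
  have h1 : ∀ x : SU 3 F q, x ≠ 1 → x * x = 1 → ∃ g, g * t * g⁻¹ = x := fun x a b => by
    obtain ⟨v, H⟩ := (isR_inv h2).1 ⟨ht, ht2⟩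
    obtain ⟨w, H'⟩ := (isR_inv h2).1 ⟨a, b⟩
    obtain ⟨g, -, c, e⟩ := tRel_of_noniso (.inl (by rintro rfl; exact absurd hq (by decide))) H.1 H'.1
    exact ⟨g, (H'.eq_of (H.conj g) e).symm⟩
  have h3 := R.card_all
  refine ⟨h1, h3, ?_, fun x a b c d => Nat.card_eq_one_iff_exists.2 ⟨⟨t * x, ?_, ?_, by simpa, by simpa,
    (Commute.refl t).mul_right d, d.symm.mul_right (.refl x)⟩, fun y => Subtype.ext ?_⟩⟩
  · have a1 := card_centralizer_mul_card_isConj t
    have a2 := card_SU_mul (F := F) (q := q) (n := 3) (by omega)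
    rw [Nat.card_congr (Equiv.subtypeEquivRight (q := fun x => x ≠ 1 ∧ x * x = 1) fun x => ⟨fun h => by
      obtain ⟨c, rfl⟩ := isConj_iff.1 h
      simp [ht, ht2, conj_mul], fun h => isConj_iff.2 (h1 x h.1 h.2)⟩), h3] at a1
    rw [card_GU, ← a1] at a2
    simp only [Finset.prod_range_succ, Finset.prod_range_zero] at a2
    norm_num [-Nat.card_eq_fintype_card] at a2
    generalize Nat.card (Subgroup.centralizer ({t} : Set (SU 3 F q))) = c at a2 ⊢
    generalize q ^ 2 - 1 = m at a2 ⊢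
    obtain ⟨k, rfl⟩ := Nat.exists_eq_add_of_le' (two_le_q F (q := q))
    rw [show (k + 2) ^ 2 - (k + 2) = k ^ 2 + 3 * k + 2 from Nat.sub_eq_of_eq_add (by ring)] at a2
    refine mul_left_cancel₀ (a := (k + 2 + 1) * ((k + 2) ^ 2 * (k ^ 2 + 3 * k + 2 + 1))) (by positivity) ?_
    linarith
  · exact fun e => c (by rw [← one_mul x, ← ht2, mul_assoc, e, mul_one])
  · rw [mul_assoc, ← mul_assoc x, ← d.eq, mul_assoc, b, mul_one, ht2]
  obtain ⟨y, b1, b2, b3, b4, b5, b6⟩ := y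
  obtain ⟨w, H⟩ := (isR_inv h2).1 ⟨b1, b2⟩
  have key : ∀ z : SU 3 F q, z ≠ 1 → z * z = 1 → y ≠ z → Commute z y → z • w = -w := fun z a b c d => by
    obtain ⟨g, R⟩ := exists_rf hq a b
    have := ((R.comm R.base (w := g⁻¹ • w) (by simpa)).1 d).resolve_left c.symm
    rw [← herm_su_smul g, smul_inv_smul] at this
    simp [R.base.2, this]
  obtain ⟨u, H'⟩ := (isR_inv h2 (x := t * x)).1 ⟨fun e => c (by rw [← one_mul x, ← ht2, mul_assoc, e, mul_one]),
    by rw [mul_assoc, ← mul_assoc x, ← d.eq, mul_assoc, b, mul_one, ht2]⟩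
  obtain ⟨c, e⟩ := H'.of_fix h2 (w := w) (by rw [mul_smul, key x a b b4 b6, smul_neg, key t ht ht2 b3 b5, neg_neg])
  exact (H'.eq_of H e).symm

end Cfsg.Agent.S2360
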