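import Cfsg.Statements.S2387
import Cfsg.Agent.Mult.GLss

set_option autoImplicit false
open scoped MatrixGroups
open Cfsg

namespace Cfsg.Agent.S2387

open Cfsg.Agent.Classical Matrix

/-- In `GL_n(q)` with `n ≥ 1`, `q` a power of the prime `p`, the number of conjugacy classes of elements of order prime to `p` (diagonalisable over the algebraic closure; determined by the characteristic polynomial) is `(q - 1) q^(n-1)`. -/
theorem result {F : Type*} [Field F] [Fintype F] {q : ℕ} (hq : Fintype.card F = q) (p : ℕ) [Fact p.Prime] [CharP F p] (n : ℕ) (hn : 1 ≤ n) :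
    Nat.card {c : ConjClasses (GL (Fin n) F) // ∃ g : GL (Fin n) F, ConjClasses.mk g = c ∧ (orderOf g).Coprime p} = (q - 1) * q ^ (n - 1) := by
  obtain ⟨n, rfl⟩ : ∃ m, n = m + 1 := ⟨n - 1, by omega⟩
  classical
  rw [card_classes_of_inv _ (fun g : GL (Fin (n + 1)) F => g.1.charpoly) (fun f => f.Monic ∧ f.natDegree = n + 1 ∧ f.coeff 0 ≠ 0)
    (fun g h hg hh => ⟨fun e => by simpa using Mult.charpoly_of_isConj (Units.coeHom _) e, Mult.isConj_of_charpoly p hg hh⟩),
    Mult.card_monic_coeff n (· ≠ 0), ← Nat.card_congr (unitsEquivNeZero (G₀ := F)), Nat.card_units,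
    Nat.card_eq_fintype_card, hq, Nat.add_sub_cancel]
  refine fun f => ⟨fun ⟨h1, h2, h3⟩ => ?_, ?_⟩
  · obtain ⟨g, rfl⟩ := Mult.exists_GL_charpoly (ι := Fin (n + 1)) h1 (by simp [h2]) h3
    simpa using Mult.exists_coprime_charpoly p (Units.coeHom _) g
  · rintro ⟨g, -, rfl⟩
    exact ⟨charpoly_monic _, by simp, fun e => g.det_ne_zero (by rw [det_eq_sign_charpoly_coeff, e, mul_zero])⟩

end Cfsg.Agent.S2387
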