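import Cfsg.Statements.S2450
import Cfsg.Agent.Classical.SL2Prod

set_option autoImplicit false
open Cfsg

namespace Cfsg.Agent.S2450

open Cfsg.Agent.Classical Matrix Subgroup MulAction

/-- The Arad–Herzog conjecture for PSL(2,q): let F be a finite field with q ≥ 4 elements. For any two non-identity elements a, b of PSL(2,F), the set of products of a conjugate of a with a conjugate of b is not a single conjugacy class. -/
theorem result {F : Type*} [Field F] [Fintype F] (h4 : 4 ≤ Fintype.card F)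
    (a b : Matrix.ProjectiveSpecialLinearGroup (Fin 2) F) (ha : a ≠ 1) (hb : b ≠ 1) (c : Matrix.ProjectiveSpecialLinearGroup (Fin 2) F) :
    {g : Matrix.ProjectiveSpecialLinearGroup (Fin 2) F | ∃ u v : Matrix.ProjectiveSpecialLinearGroup (Fin 2) F, g = (u * a * u⁻¹) * (v * b * v⁻¹)} ≠ {g | IsConj c g} := by
  intro h
  obtain ⟨x, u, hx, hx'⟩ := exists_conj_lower_ne_zero ha
  obtain ⟨y, v, hy, hy'⟩ := exists_conj_lower_ne_zero hb
  have := card_le_of_quadratic_sq (a := -(x.1 1 0 * y.1 1 0))
    (b := x.1 1 0 * (y.1 0 0 - y.1 1 1) + y.1 1 0 * (x.1 1 1 - x.1 0 0)) (c := (x.1 * y.1).trace)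
    (k := kap (pslι F c)) (neg_ne_zero.2 (mul_ne_zero hx' hy')) fun t => by
      obtain ⟨w, hw⟩ := isConj_iff.1 ((Set.ext_iff.1 h (pslMk F (uSL t * x * (uSL t)⁻¹ * y))).1
        ⟨pslMk F (uSL t) * u, v, by simp only [map_mul, map_inv, hx, hy]; group⟩)
      rw [← kap_conj (pslι F w), ← map_inv, ← map_mul, ← map_mul, hw, kap_pslMk, uSL_inv]
      congr 1
      simp [trace_fin_two, mul_apply, vecMul, dotProduct, vecHead, vecTail]
      ring
  rw [← Nat.card_eq_fintype_card] at h4
  have h5 := this.2 (two_eq_zero_iff_even.2 (by rw [show Nat.card F = 4 by omega]; decide))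
  omega

end Cfsg.Agent.S2450
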