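import Cfsg.Statements.S2455
import Cfsg.Agent.Classical.SL2Prod

set_option autoImplicit false
open Cfsg

namespace Cfsg.Agent.S2455

open Cfsg.Agent.Classical Matrix Subgroup MulAction

/-- A strong covering result in the direction of Thompson's conjecture (non-identity elements) for PSL(2,q), q odd: let F be a finite field of odd characteristic p with at least 5 elements and let x ∈ PSL(2,F) have order greater than 2 and not divisible by p (so x is not unipotent). Then every non-identity element of PSL(2,F) is a product of two conjugates of x. -/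
theorem result {F : Type*} [Field F] [Fintype F] (p : ℕ) [Fact p.Prime] [CharP F p] (hp : p ≠ 2) (h5 : 5 ≤ Fintype.card F)
    (x : Matrix.ProjectiveSpecialLinearGroup (Fin 2) F) (hx2 : 2 < orderOf x) (hxp : ¬ p ∣ orderOf x) : ∀ g : Matrix.ProjectiveSpecialLinearGroup (Fin 2) F, g ≠ 1 → ∃ u v : Matrix.ProjectiveSpecialLinearGroup (Fin 2) F, g = (u * x * u⁻¹) * (v * x * v⁻¹) := by
  intro g hg
  obtain ⟨g, rfl, h1, h3⟩ := exists_lift_disc hg
  obtain ⟨x, rfl⟩ := pslMk_surjective x
  have hx : disc x.1 ≠ 0 := sl_disc_ne_zero_of_coprime p (fun h => by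
    rw [pslMk_eq_one_iff.2 h] at hx2; simp at hx2) hxp
    (pslMk_eq_one_iff.1 (by rw [map_pow, pow_orderOf_eq_one]))
  rcases h3 with h3 | h3
  · obtain ⟨y, a, b⟩ := exists_SL_trace_mul h1 (α := x.1.trace) (β := x.1.trace) (Or.inl h3)
    exact exists_mul_conj_of_trace hx a (Or.inl b)
  · obtain ⟨y, a, b⟩ := exists_SL_trace_mul h1 (α := x.1.trace) (β := -x.1.trace)
      (Or.inr ⟨h3, Or.inl fun h => hx2.not_ge (orderOf_le_of_pow_eq_one two_pos (by
        rw [sq, ← map_mul, sl_mul_self_eq_neg_one_of_trace ((mul_eq_zero.1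
          (show 2 * x.1.trace = 0 by linear_combination h)).resolve_left
            (two_ne_zero_of_char F p hp)), pslMk_neg, map_one]))⟩)
    exact exists_mul_conj_of_trace hx a (Or.inr b)

end Cfsg.Agent.S2455
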