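import Cfsg.Statements.S2456
import Cfsg.Agent.Classical.SL2Prod

set_option autoImplicit false
open Cfsg

namespace Cfsg.Agent.S2456

open Cfsg.Agent.Classical Matrix Subgroup MulAction

/-- A strong covering result in the direction of Thompson's conjecture (non-identity elements) for PSL(2,q), q even: let F be a finite field of characteristic 2 with q ≥ 4 elements and let x ∈ PSL(2,F) have order greater than 2 and not dividing q + 1. Then every non-identity element of PSL(2,F) is a product of two conjugates of x. -/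
theorem result {F : Type*} [Field F] [Fintype F] [CharP F 2] (h4 : 4 ≤ Fintype.card F)
    (x : Matrix.ProjectiveSpecialLinearGroup (Fin 2) F) (hx2 : 2 < orderOf x) (hxq : ¬ orderOf x ∣ Fintype.card F + 1) : ∀ g : Matrix.ProjectiveSpecialLinearGroup (Fin 2) F, g ≠ 1 → ∃ u v : Matrix.ProjectiveSpecialLinearGroup (Fin 2) F, g = (u * x * u⁻¹) * (v * x * v⁻¹) := by
  intro g hg
  obtain ⟨g, rfl, h1, h3⟩ := exists_lift_disc hg
  obtain ⟨x, rfl⟩ := pslMk_surjective x
  have h2 : (2 : F) = 0 := CharTwo.two_eq_zero
  have hx : disc x.1 ≠ 0 := fun h => hx2.not_ge (orderOf_le_of_pow_eq_one two_pos (by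
    rw [sq, ← map_mul, sl_mul_self_eq_neg_one_of_trace (pow_eq_zero_iff two_ne_zero |>.1 (by
      rw [sl_disc] at h; linear_combination h + 2 * h2)), pslMk_neg, map_one]))
  have hx' : ¬ NoEig x.1 := fun h => hxq (orderOf_dvd_of_pow_eq_one (by
    rw [← map_pow, ← Nat.card_eq_fintype_card, sl_pow_eq_one_noEig h, map_one]))
  obtain ⟨y, a, b⟩ := exists_SL_trace_mul h1 (α := x.1.trace) (β := x.1.trace)
    (h3.imp_right fun h => ⟨h, Or.inr (by simpa [NoEig] using hx')⟩)
  exact exists_mul_conj_of_trace hx a (Or.inl b)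

end Cfsg.Agent.S2456
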