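import Cfsg.Statements.S2459
import Cfsg.Agent.Ore.Final

set_option autoImplicit false
open Cfsg

namespace Cfsg.Agent.S2459

/-- A form of Thompson's conjecture for PSL(3,q), q > 2 (covering the non-identity elements), with a semisimple class: for F a finite field of characteristic p with more than 2 elements there is an element x of PSL(3,F) of order prime to p such that every non-identity element of PSL(3,F) is a product of two conjugates of x. -/
theorem result {F : Type*} [Field F] [Fintype F] (p : ℕ) [Fact p.Prime] [CharP F p] (h3 : 3 ≤ Fintype.card F) :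
    ∃ x : Matrix.ProjectiveSpecialLinearGroup (Fin 3) F, ¬ p ∣ orderOf x ∧ ∀ g : Matrix.ProjectiveSpecialLinearGroup (Fin 3) F, g ≠ 1 → ∃ u v : Matrix.ProjectiveSpecialLinearGroup (Fin 3) F, g = (u * x * u⁻¹) * (v * x * v⁻¹) := by
  obtain ⟨x, h1, h2⟩ := Ore.sl3_sq (F := F) p
  refine ⟨x, fun h => h1 (h.trans (orderOf_map_dvd (QuotientGroup.mk' _) x)), fun g hg => ?_⟩
  obtain ⟨g, rfl⟩ := QuotientGroup.mk_surjective g
  obtain ⟨u, v, h⟩ := h2 g (by
    rintro ⟨c, hc⟩
    refine hg ((QuotientGroup.eq_one_iff g).2 (Subgroup.mem_center_iff.2 fun y => Subtype.ext ?_))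
    change y.1 * g.1 = g.1 * y.1
    simp [hc])
  exact ⟨u, v, by rw [h]; rfl⟩

end Cfsg.Agent.S2459
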