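import Cfsg.Statements.S2460
import Cfsg.Agent.SpC.Four

set_option autoImplicit false
open Cfsg

namespace Cfsg.Agent.S2460

/-- A form of Thompson's conjecture for the simple groups PSp(4,q), q ≥ 3 (covering the non-identity elements), with a semisimple class: for F a finite field of characteristic p with at least 3 elements there is an element x of PSp(4,F) of order prime to p such that every non-identity element of PSp(4,F) is a product of two conjugates of x. -/
theorem result {F : Type*} [Field F] [Fintype F] (p : ℕ) [Fact p.Prime] [CharP F p] (h3 : 3 ≤ Fintype.card F) :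
    ∃ x : Cfsg.PSp 2 F, ¬ p ∣ orderOf x ∧ ∀ g : Cfsg.PSp 2 F, g ≠ 1 → ∃ u v : Cfsg.PSp 2 F, g = (u * x * u⁻¹) * (v * x * v⁻¹) := by
  obtain ⟨x, h1, h2⟩ := SpC.sp4_sq (F := F) p h3
  refine ⟨x, fun h => h1 (h.trans (orderOf_map_dvd (QuotientGroup.mk' _) x)), fun g hg => ?_⟩
  obtain ⟨g, rfl⟩ := QuotientGroup.mk_surjective g
  obtain ⟨y, z, a, b, h⟩ := h2 g (by
    rintro ⟨c, hc⟩
    refine hg ((QuotientGroup.eq_one_iff g).2 (Subgroup.mem_center_iff.2 fun y => Subtype.ext ?_))
    change y.1 * g.1 = g.1 * y.1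
    simp [hc])
  obtain ⟨u, rfl⟩ := isConj_iff.1 a
  obtain ⟨v, rfl⟩ := isConj_iff.1 b
  refine ⟨u, v, ?_⟩
  rcases h with h | h
  · rw [h]; rfl
  · let n : Matrix.symplecticGroup (Fin 2) F := ⟨-1, SymplecticGroup.neg_mem (one_mem _)⟩
    have hn : (n : Cfsg.PSp 2 F) = 1 := (QuotientGroup.eq_one_iff n).2 (Subgroup.mem_center_iff.2 fun y =>
      Subtype.ext (by change y.1 * -1 = -1 * y.1; simp))
    have : g = n * (u * x * u⁻¹ * (v * x * v⁻¹)) := Subtype.ext (by rw [h]; exact (neg_one_mul _).symm)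
    rw [this, QuotientGroup.mk_mul, hn, one_mul]; rfl

end Cfsg.Agent.S2460
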