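import Cfsg.Statements.S2461
import Cfsg.Agent.G2C.Main

set_option autoImplicit false
open Cfsg

namespace Cfsg.Agent.S2461

/-- A form of Thompson's conjecture for the simple Chevalley groups G₂(q), q ≥ 3 (covering the non-identity elements), with a semisimple class: for F a finite field of characteristic p with at least 3 elements there is an element x of the Chevalley group of type G₂ over F of order prime to p such that every non-identity element of that group is a product of two conjugates of x. -/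
theorem result {F : Type*} [Field F] [Fintype F] (p : ℕ) [Fact p.Prime] [CharP F p] (h3 : 3 ≤ Fintype.card F) :
    ∃ x : Cfsg.Lie.chevG2.group F, ¬ p ∣ orderOf x ∧ ∀ g : Cfsg.Lie.chevG2.group F, g ≠ 1 → ∃ u v : Cfsg.Lie.chevG2.group F, g = (u * x * u⁻¹) * (v * x * v⁻¹) := by
  obtain ⟨x, h1, h2⟩ := G2C.g2_sq (F := F) p h3
  let e := Chev.stEquiv Cfsg.Lie.chevG2 F (Chev.zkerG2_eq_bot F)
  refine ⟨e x, by rwa [MulEquiv.orderOf_eq], fun g hg => ?_⟩
  obtain ⟨y, z, a, b, c⟩ := h2 (e.symm g) (by simpa using hg)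
  obtain ⟨u, rfl⟩ := isConj_iff.1 a
  obtain ⟨v, rfl⟩ := isConj_iff.1 b
  obtain ⟨w, hw⟩ := isConj_iff.1 c.symm
  refine ⟨e (w * u), e (w * v), ?_⟩
  rw [← map_inv, ← map_inv, ← map_mul, ← map_mul, ← map_mul, ← map_mul, ← map_mul, ← e.symm_apply_eq, ← hw]
  group

end Cfsg.Agent.S2461
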