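import Cfsg.Statements.S2466
import Cfsg.Agent.Spec.Alt

set_option autoImplicit false
open Cfsg

namespace Cfsg.Agent.S2466

theorem exists_mem {m : Multiset ℕ} {r : ℕ} (hr : r.Prime) (h : r ∣ m.lcm) : ∃ a ∈ m, r ∣ a := by
  induction m using Multiset.induction_on with
  | empty => exact absurd (Nat.dvd_one.1 h) hr.ne_one
  | cons a m ih =>
    rw [Multiset.lcm_cons, lcm_eq_nat_lcm] at h
    rcases (Nat.Prime.dvd_mul hr).1 (h.trans (Nat.lcm_dvd_mul _ _)) with h | h
    · exact ⟨a, by simp, h⟩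
    · obtain ⟨b, h1, h2⟩ := ih h
      exact ⟨b, by simp [h1], h2⟩

theorem add_le_sum {m : Multiset ℕ} {a b : ℕ} (ha : a ∈ m) (hb : b ∈ m) (h : a ≠ b) : ∃ m', m = a ::ₘ b ::ₘ m' := by
  obtain ⟨m, rfl⟩ := Multiset.exists_cons_of_mem ha
  obtain ⟨m, rfl⟩ := Multiset.exists_cons_of_mem ((Multiset.mem_cons.1 hb).resolve_left h.symm)
  exact ⟨m, rfl⟩

/-- Adjacency of odd primes in the prime graph of the alternating groups: let r ≠ s be odd primes at most n. The alternating group of degree n has an element of order r·s if and only if r + s ≤ n. -/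
theorem result (n r s : ℕ) (hr : r.Prime) (hs : s.Prime) (hr2 : r ≠ 2) (hs2 : s ≠ 2) (hrs : r ≠ s) (hrn : r ≤ n) (hsn : s ≤ n) :
    (r * s ∈ Set.range (orderOf : alternatingGroup (Fin n) → ℕ)) ↔ r + s ≤ n := by
  rw [Spec.mem_spec_alt]
  have hc := (Nat.coprime_primes hr hs).2 hrs
  have := hr.two_le
  have := hs.two_le
  constructor
  · rintro ⟨m, ⟨h1, h2⟩, h3, -⟩
    obtain ⟨a, ha, h4⟩ := exists_mem hr (h3 ▸ dvd_mul_right r s)
    obtain ⟨b, hb, h5⟩ := exists_mem hs (h3 ▸ dvd_mul_left s r)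
    by_cases e : a = b
    · have := Nat.le_of_dvd (by have := h2 a ha; omega) (hc.mul_dvd_of_dvd_of_dvd h4 (e ▸ h5))
      have := Multiset.le_sum_of_mem ha
      have := Nat.add_le_mul hr.two_le hs.two_le
      omega
    · obtain ⟨m, rfl⟩ := add_le_sum ha hb e
      have := Nat.le_of_dvd (by have := h2 a ha; omega) h4
      have := Nat.le_of_dvd (by have := h2 b hb; omega) h5
      simp at h1; omega
  · intro h
    have := hr.eq_two_or_odd
    have := hs.eq_two_or_odd
    exact ⟨{r, s}, ⟨by simpa, by simp; omega⟩, by simp [lcm_eq_nat_lcm, hc.lcm_eq_mul], by simp; omega⟩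

end Cfsg.Agent.S2466
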