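import Cfsg.Statements.S2467
import Cfsg.Agent.S2466

set_option autoImplicit false
open Cfsg

namespace Cfsg.Agent.S2467

/-- Adjacency of 2 and an odd prime in the prime graph of the alternating groups: let r be an odd prime at most n, with n ≥ 4. The alternating group of degree n has an element of order 2r if and only if r + 4 ≤ n. -/
theorem result (n r : ℕ) (hn : 4 ≤ n) (hr : r.Prime) (hr2 : r ≠ 2) (hrn : r ≤ n) :
    (2 * r ∈ Set.range (orderOf : alternatingGroup (Fin n) → ℕ)) ↔ r + 4 ≤ n := by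
  rw [Spec.mem_spec_alt]
  have hc := (Nat.coprime_primes Nat.prime_two hr).2 hr2.symm
  have := hr.two_le
  have := hr.eq_two_or_odd
  constructor
  · rintro ⟨m, ⟨h1, h2⟩, h3, h4⟩
    obtain ⟨a, ha, h5⟩ := S2466.exists_mem Nat.prime_two (h3 ▸ dvd_mul_right 2 r)
    obtain ⟨c, hc', h6⟩ := S2466.exists_mem hr (h3 ▸ dvd_mul_left r 2)
    obtain ⟨m, rfl⟩ := Multiset.exists_cons_of_mem ha
    obtain ⟨b, hb, h7⟩ : ∃ b ∈ m, 2 ∣ b := by
      by_contra! h
      have : ∀ m : Multiset ℕ, (∀ b ∈ m, ¬ 2 ∣ b) → (m.sum + m.card) % 2 = 0 := fun m => by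
        induction m using Multiset.induction_on with
        | empty => simp
        | cons a m ih => simp only [Multiset.mem_cons, forall_eq_or_imp]; rintro ⟨h1, h2⟩; have := ih h2; simp; omega
      have := this m h
      simp at h4; omega
    obtain ⟨m, rfl⟩ := Multiset.exists_cons_of_mem hb
    simp only [Multiset.mem_cons, forall_eq_or_imp, Multiset.sum_cons] at h1 h2 hc'
    rcases hc' with rfl | rfl | h
    · have := Nat.le_of_dvd (by omega) (hc.mul_dvd_of_dvd_of_dvd h5 h6); omega
    · have := Nat.le_of_dvd (by omega) (hc.mul_dvd_of_dvd_of_dvd h7 h6); omega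
    · have := Nat.le_of_dvd (by have := h2.2.2 c h; omega) h6
      have := Multiset.le_sum_of_mem h
      omega
  · intro h
    refine ⟨{2, 2, r}, ⟨by simp; omega, by simp; omega⟩, ?_, by simp; omega⟩
    simp [lcm_eq_nat_lcm, ← Nat.lcm_assoc, hc.lcm_eq_mul]

end Cfsg.Agent.S2467
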