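import Cfsg.Statements.S2471
import Cfsg.Agent.Classical.PSL2Basic

set_option autoImplicit false
open Cfsg

namespace Cfsg.Agent.S2471

open Cfsg.Agent.Classical

/-- In PSL(2,q) with q odd, the characteristic p is isolated from 2 in the prime graph: for F a finite field of odd characteristic p with at least 5 elements, PSL(2,F) has no element of order 2p. -/
theorem result {F : Type*} [Field F] [Fintype F] (p : ℕ) [Fact p.Prime] [CharP F p] (hp : p ≠ 2) (h5 : 5 ≤ Fintype.card F) (g : Matrix.ProjectiveSpecialLinearGroup (Fin 2) F) :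
    orderOf g ≠ 2 * p := by
  intro h
  have hp' : p.Prime := Fact.out
  rcases psl_pow_eq_one_cases p g with h1 | h1 | h1 <;> have h2 := h ▸ orderOf_dvd_of_pow_eq_one h1
  · have := Nat.le_of_dvd hp'.pos h2
    have := hp'.pos
    omega
  · exact not_char_dvd_card_pred F p (((dvd_mul_left _ _).trans h2).trans
      (Nat.div_dvd_of_dvd (Nat.gcd_dvd_right _ _)))
  · exact not_char_dvd_card_P1 F p (card_P1 (k := F) ▸ ((dvd_mul_left _ _).trans h2).trans
      (Nat.div_dvd_of_dvd (gcd_two_pred_dvd_succ Nat.card_pos)))

end Cfsg.Agent.S2471
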