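import Cfsg.Statements.S2474
import Cfsg.Agent.Classical.Eig5

set_option autoImplicit false
open Cfsg

namespace Cfsg.Agent.S2474

open Cfsg.Agent.Classical Cfsg.Agent.Classical.Eig Cfsg.Agent.Elu Cfsg.Agent.Geom

/-- For q odd and n ≥ 3 the simple groups PΩ(2n+1,q) and PSp(2n,q) (which have the same order but different sets of element orders) have the same prime graph: for all distinct primes r, s, one of them has an element of order r·s if and only if the other does. -/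
theorem result {F : Type*} [Field F] [Fintype F] (hodd : Odd (Fintype.card F)) (n : ℕ) (hn : 3 ≤ n) (r s : ℕ) (hr : r.Prime) (hs : s.Prime) (hrs : r ≠ s) :
    (r * s ∈ Set.range (orderOf : Cfsg.POmega F (Cfsg.quadFormOdd n F) → ℕ)) ↔ (r * s ∈ Set.range (orderOf : Cfsg.PSp n F → ℕ)) := by
  obtain ⟨p, hp⟩ := CharP.exists F
  have hp' := Fact.mk (CharP.char_is_prime F p)
  have h2 := two_ne_of_odd hodd
  have hp2 := odd_char (p := p) h2
  have hp3 : 3 ≤ p := by have := hp'.out.two_le; rw [Nat.odd_iff] at hp2; omega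
  suffices ∀ s : ℕ, s.Prime → s ≠ 2 →
      (2 * s ∈ Set.range (orderOf : POmega F (quadFormOdd n F) → ℕ) ↔
        2 * s ∈ Set.range (orderOf : PSp n F → ℕ)) by
    by_cases h : r = 2
    · exact h ▸ this s hs (h ▸ hrs.symm)
    by_cases h' : s = 2
    · rw [h', mul_comm]; exact this r hr h
    exact mem_PSp_iff_odd h2 (by omega) ((hr.odd_of_ne_two h).mul (hs.odd_of_ne_two h'))
  intro s hs hs2
  have ho := hs.odd_of_ne_two hs2
  have hs3 : 2 < s := lt_of_le_of_ne hs.two_le hs2.symm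
  have hc := Nat.coprime_two_right.2 ho
  have hl : s.lcm 2 = 2 * s := by rw [hc.lcm_eq_mul, mul_comm]
  have hd : ∀ k, 4 ∣ 2 * k ∧ s ∣ 2 * k ↔ 2 * s ∣ k := fun k => by
    rw [hc.dvd_mul_left, ← hl, Nat.lcm_dvd_iff, and_comm]; omega
  obtain ⟨i, hi⟩ := exists_ord (F := F) (p := p) (m := 4) fun h =>
    hp2.not_two_dvd_nat ((Nat.prime_dvd_prime_iff_eq hp'.out Nat.prime_two).1
      (hp'.out.dvd_of_dvd_pow (n := 2) h)).symm.dvd
  have hi2 := sq_ne_one_of_dvd (by omega) hi.symm.dvd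
  have hi1 : eta (qz F) i = 1 := Nat.dvd_one.1 (eta_dvd_iff'.2 (by
    have := card_mod_four h2
    rw [hi, pow_one, qz]; omega))
  by_cases hsp : s = p
  · subst hsp
    refine iff_of_true (mem_odd_of (p := s) (S := {(i, 1)}) (j := 1) h2 (by omega) (by simp)
      (by simpa) (by simp [hi1]; omega) fun k => by simp [hi, up_of_le _ hp3, hd]) ?_
    exact hl ▸ (SpR.unip one_pos).mem_two (p := s) h2 (by simp [bdim_of_sq]; omega) (by omega) ho
      fun k => by simp [up_two hs.one_lt]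
  obtain ⟨ζ, hζ⟩ := exists_ord (F := F) (p := p) (m := s) fun h =>
    hsp ((Nat.prime_dvd_prime_iff_eq hp'.out hs).1 h).symm
  have h1 := sq_ne_one_of_dvd hs3 hζ.symm.dvd
  rcases lt_or_ge (eta (qz F) ζ) n with h3 | h3
  · refine iff_of_true (mem_odd_of (p := p) (S := (i, 1) ::ₘ {(ζ, 1)}) (j := 0) h2 (by omega)
      (by simp) (by simp [h1, hi2]) (by simp [hi1]; omega) fun k => by simp [hi, hζ, hd]) ?_
    exact hl ▸ (SpR.of_ne (A := {(ζ, 1)}) (by simp) (by simpa)).mem_two (p := p) h2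
      (by rw [bdim_of_ne (by simpa)]; simpa) (by omega) ho fun k => by simp [hζ]
  have key : ∀ A : Multiset (Kb F × ℕ), Pos A → bdim A ≤ 2 * n + 1 → (∀ k, Kil p A k → 2 * s ∣ k) →
      ∃ ξ B, ξ ^ 2 ≠ 1 ∧ A = (ξ, 1) ::ₘ B ∧ eta (qz F) ξ = n ∧ bdim A = 2 * n + bdim B :=
    fun A h4 h5 h6 => by
      obtain ⟨z, hz, h7⟩ := exists_dvd_ord hp'.out h6 hs hsp (dvd_mul_left _ _)
      have h8 := sq_ne_one_of_dvd hs3 h7
      exact ⟨_, (single_of_eta h4 hz h8 (h3.trans (Nat.le_of_dvd (eta_pos _)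
        (eta_dvd_of_dvd (hζ ▸ h7)))) h5).imp fun _ h => ⟨h8, h⟩⟩
  constructor
  · intro h
    obtain ⟨f, A, h4, h5, h6, h7⟩ := exists_of_mem_odd (p := p) h2 (by omega) h
    obtain ⟨ξ, B, h8, rfl, h9, h10⟩ := key A h5.pos h6.le fun k h => (h7 k).1 h
    have h11 := (pos_cons.1 h5.pos).2
    obtain ⟨z, hz⟩ := Multiset.exists_mem_of_ne_zero (s := B) (by rintro rfl; rw [h6, bdim_zero] at h10; omega)
    have h12 : z.1 ^ 2 = 1 := by_contra fun h => by have := two_le_bdim h11 hz h; omega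
    obtain ⟨B, rfl⟩ := Multiset.exists_cons_of_mem hz
    have h13 := h11 z hz
    rw [bdim_cons_sq h12] at h10
    obtain rfl := eq_zero_of_bdim (pos_cons.1 h11).2 (by omega)
    have h14 : z.2 = 1 := by omega
    obtain ⟨h15, t, h16, h17⟩ := om_single (quadOdd_nondeg F _ h2) h2 h4 h5 h8 h12 (by simp [h14])
    obtain ⟨u, rfl⟩ := (h7 t).1 (by simp [h14, h15, h16])
    rw [h9] at h17
    refine tor_mem_PSp (by omega) (by omega) (h17.imp (fun h => ⟨u, ?_⟩) fun h => ⟨u, ?_⟩) <;>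
      rw [qz, ← Nat.cast_pow]
    · rw [← h]; push_cast; ring
    · exact_mod_cast h.symm.trans (mul_assoc _ _ _).symm
  · intro h
    obtain ⟨A, h4, h5, h6⟩ := exists_of_mem_PSp (p := p) h
    obtain ⟨ξ, B, h8, rfl, h9, h10⟩ := key A h4 (by omega) fun k h => (h6 k).1 h.kill
    obtain rfl := eq_zero_of_bdim (pos_cons.1 h4).2 (by omega)
    have h11 : ∀ k, orderOf ξ ∣ 2 * k ↔ 2 * s ∣ k := fun k => by
      rw [← h6, Multiset.cons_zero, kill_singleton, orderOf_dvd_iff_pow_eq_one,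
        orderOf_dvd_iff_pow_eq_one, pow_mul, show (-1 - 1 : ℤ) = -(2 : ℕ) by simp, zpow_neg,
        zpow_natCast, inv_pow, inv_eq_one, and_iff_left up_one]
    exact mem_odd_of (p := p) (S := {(ξ, 1)}) (j := 0) h2 (by omega) (by simp) (by simpa)
      (by simp [h9]) fun k => by simp [h11]

end Cfsg.Agent.S2474
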