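import Cfsg.Statements.S2475
import Cfsg.Agent.Classical.PSL2Basic

set_option autoImplicit false
open Cfsg

namespace Cfsg.Agent.S2475

open Cfsg.Agent.Classical

theorem aux {G : Type*} [Group G] (g : G) {m : ℕ} (h0 : orderOf g ≠ 0) (h : m ∣ orderOf g) :
    m ∈ Set.range (orderOf : G → ℕ) :=
  ⟨g ^ (orderOf g / m), orderOf_pow_orderOf_div h0 h⟩

/-- The set of element orders of PSL(2,q): let F be a finite field of characteristic p with q ≥ 4 elements and d = gcd(2, q − 1). The orders of elements of PSL(2,F) are exactly the divisors of p, of (q − 1)/d and of (q + 1)/d. -/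
theorem result {F : Type*} [Field F] [Fintype F] (p : ℕ) [Fact p.Prime] [CharP F p] (h4 : 4 ≤ Fintype.card F) :
    Set.range (orderOf : Matrix.ProjectiveSpecialLinearGroup (Fin 2) F → ℕ) =
      {m : ℕ | m ∣ p ∨ m ∣ (Fintype.card F - 1) / Nat.gcd 2 (Fintype.card F - 1) ∨ m ∣ (Fintype.card F + 1) / Nat.gcd 2 (Fintype.card F - 1)} := by
  rw [← Nat.card_eq_fintype_card]
  ext m
  constructor
  · rintro ⟨g, rfl⟩
    simpa only [Set.mem_ofPred_eq, orderOf_dvd_iff_pow_eq_one] using psl_pow_eq_one_cases p g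
  · rintro (h | h | h)
    · refine aux (pslMk F (uSL 1)) (orderOf_pos _).ne' ?_
      rwa [orderOf_eq_prime (p := p) (by rw [← map_pow, uSL_pow]; simp)
        (by rw [Ne, pslMk_eq_one_iff]; simp [IsScal])]
    · obtain ⟨g, hg⟩ := psl_exists_orderOf_pred (F := F)
      exact aux g (orderOf_pos _).ne' (hg ▸ h)
    · obtain ⟨g, hg⟩ := psl_exists_orderOf_succ (F := F)
      exact aux g (orderOf_pos _).ne' (hg ▸ h)

end Cfsg.Agent.S2475
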