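import Cfsg.Statements.S2476
import Cfsg.Agent.Classical.Eig6

set_option autoImplicit false
open Cfsg

namespace Cfsg.Agent.S2476

open Cfsg.Agent.Classical Cfsg.Agent.Classical.Eig Cfsg.Agent.Elu Cfsg.Agent.Geom

/-- The set of element orders of PSL(3,q): let F be a finite field of characteristic p with q elements and d = gcd(3, q − 1). The orders of elements of PSL(3,F) are exactly the divisors of (q² + q + 1)/d, of (q² − 1)/d, of q − 1, of p(q − 1)/d, and, when p = 2, of 4. -/
theorem result {F : Type*} [Field F] [Fintype F] (p : ℕ) [Fact p.Prime] [CharP F p] :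
    Set.range (orderOf : Matrix.ProjectiveSpecialLinearGroup (Fin 3) F → ℕ) =
      {m : ℕ | m ∣ (Fintype.card F ^ 2 + Fintype.card F + 1) / Nat.gcd 3 (Fintype.card F - 1) ∨
        m ∣ (Fintype.card F ^ 2 - 1) / Nat.gcd 3 (Fintype.card F - 1) ∨ m ∣ Fintype.card F - 1 ∨
        m ∣ p * (Fintype.card F - 1) / Nat.gcd 3 (Fintype.card F - 1) ∨ (p = 2 ∧ m ∣ 4)} := by
  have hp' : p.Prime := Fact.out
  have hq := Fintype.one_lt_card (α := F)
  ext m
  rw [spec_three (spec_PSL 3) du_card char_dvd_card, qz, Nat.card_eq_fintype_card]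
  generalize Fintype.card F = q at *
  rw [show ((q : ℤ) - 1).natAbs = q - 1 by omega,
    show Int.natAbs ((q : ℤ) ^ 2 - 1) = q ^ 2 - 1 by
      rw [← Nat.cast_pow]; have := Nat.one_le_pow 2 q (by omega); omega,
    show (geo (q : ℤ) 3).natAbs = q ^ 2 + q + 1 by
      simp only [geo, Finset.sum_range_succ, Finset.range_zero, Finset.sum_empty, pow_zero,
        pow_one, ← Nat.cast_pow]; omega]
  have : m ∣ p → m ∣ p * (q - 1) / Nat.gcd 3 (q - 1) := fun h => by
    rw [Nat.mul_div_assoc _ (Nat.gcd_dvd_right _ _)]; exact h.mul_right _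
  rw [Set.mem_setOf_eq]
  by_cases h : p = 2
  · subst h
    rw [show 2 ^ Nat.clog 2 3 = 4 by decide]
    tauto
  · rw [Nat.clog_eq_one (by norm_num) (by have := hp'.two_le; omega), pow_one]
    tauto

end Cfsg.Agent.S2476
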