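import Cfsg.Statements.S2478
import Cfsg.Agent.Classical.Kn4
import Cfsg.Agent.S2387

set_option autoImplicit false
open Cfsg

namespace Cfsg.Agent.S2478

open Cfsg.Agent.Classical Cfsg.Agent.Classical.Kn

/-- The number of conjugacy classes of GL(n,q): for F a finite field with q elements and n ≥ 1, the number k of conjugacy classes of GL(n,F) satisfies q^n − q^(n−1) ≤ k ≤ q^n. -/
theorem result {F : Type*} [Field F] [Fintype F] (n : ℕ) (hn : 1 ≤ n) :
    Fintype.card F ^ n - Fintype.card F ^ (n - 1) ≤ Nat.card (ConjClasses (Matrix.GeneralLinearGroup (Fin n) F)) ∧ Nat.card (ConjClasses (Matrix.GeneralLinearGroup (Fin n) F)) ≤ Fintype.card F ^ n := by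
  obtain ⟨p, _⟩ := CharP.exists F
  have hp := Fact.mk (CharP.char_is_prime F p)
  have h2 := (card_gl_le (F := F) n).trans (Kc_gl (Nat.one_le_cast.2 Nat.card_pos) hn)
  rw [Fintype.card_eq_nat_card]
  refine ⟨?_, by exact_mod_cast h2.trans (sub_le_self _ zero_le_one)⟩
  obtain ⟨n, rfl⟩ := Nat.exists_eq_add_of_le' hn
  refine le_trans (le_of_eq ?_) ((S2387.result Fintype.card_eq_nat_card p _ hn).symm.trans_le
    (Finite.card_subtype_le _))
  rw [Nat.sub_one_mul, ← pow_succ', Nat.add_sub_cancel]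

end Cfsg.Agent.S2478
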