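import Cfsg.Statements.S2482
import Cfsg.Agent.Classical.Uc3
import Cfsg.Agent.S2385

set_option autoImplicit false
open Cfsg

namespace Cfsg.Agent.S2482

open Cfsg.Agent.Classical Cfsg.Agent.Classical.Uc Cfsg.Agent.Geom Cfsg.Agent.Elu

/-- The number of conjugacy classes of Sp(2n,q), q odd: for F a finite field of odd order q and n ≥ 1, the number k of conjugacy classes of Sp(2n,F) satisfies q^n ≤ k ≤ 10.8·q^n. -/
theorem result {F : Type*} [Field F] [Fintype F] (hodd : Odd (Fintype.card F)) (n : ℕ) (hn : 1 ≤ n) :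
    Fintype.card F ^ n ≤ Nat.card (ConjClasses (Matrix.symplecticGroup (Fin n) F)) ∧ 5 * Nat.card (ConjClasses (Matrix.symplecticGroup (Fin n) F)) ≤ 54 * Fintype.card F ^ n := by
  have : NeZero (2 : F) := ⟨two_ne_zero_of_odd_card hodd⟩
  obtain ⟨p, _⟩ := CharP.exists F
  have hp := Fact.mk (CharP.char_is_prime F p)
  refine ⟨(S2385.result rfl p n).symm.trans_le (Finite.card_subtype_le _), ?_⟩
  choose r hr using ConjClasses.mk_surjective (α := Matrix.symplecticGroup (Fin n) F)
  have h := card_le_sim (fun _ => sympFormed n F) (fun c => Matrix.toLin' (r c).1) (fun _ => sympFormed_nondeg n F)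
    (fun c => iso_symp.2 (r c).2) (fun _ _ => symp_eps) fun c d h => by
      rw [← hr c, ← hr d, ConjClasses.mk_eq_mk_iff_isConj, isConj_sp]; exact h
  have h1 := Kn.gf_sp (q := Nat.card F) (by
    have := Fintype.one_lt_card (α := F)
    rw [← Fintype.card_eq_nat_card]; obtain ⟨k, hk⟩ := hodd; omega) (2 * n - 1) n
  rw [show Module.finrank F (Fin n ⊕ Fin n → F) = 2 * n by simp [two_mul]] at h
  rw [show 2 * n - 1 + 1 = 2 * n by omega] at h1
  rw [Fintype.card_eq_nat_card, ← Nat.cast_le (α := ℝ)]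
  push_cast
  linarith

end Cfsg.Agent.S2482
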