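import Cfsg.Statements.S2485
import Cfsg.Agent.Low.SylMeet
import Mathlib.NumberTheory.LegendreSymbol.Basic
import Mathlib.LinearAlgebra.Matrix.CharP
import Mathlib.LinearAlgebra.Matrix.Notation
import Mathlib.Algebra.CharP.Lemmas

set_option autoImplicit false
open scoped Pointwise
open Cfsg

namespace Cfsg.Agent.S2485

open Matrix Subgroup

/-- Let q = 2^k − 1 ≥ 7 be a prime and let G = PGL(2,q), the general linear group of degree 2 over the field with q elements modulo its centre. Then any two Sylow 2-subgroups of G have a non-trivial intersection: for a Sylow 2-subgroup H and every x ∈ G, H ∩ H^x ≠ 1. -/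
theorem result {q k : ℕ} [Fact q.Prime] (hk : q + 1 = 2 ^ k) (hq : 7 ≤ q)
    (H : Sylow 2 (GL (Fin 2) (ZMod q) ⧸ Subgroup.center (GL (Fin 2) (ZMod q))))
    (x : GL (Fin 2) (ZMod q) ⧸ Subgroup.center (GL (Fin 2) (ZMod q))) :
    (H : Subgroup (GL (Fin 2) (ZMod q) ⧸ Subgroup.center (GL (Fin 2) (ZMod q)))) ⊓ MulAut.conj x • (H : Subgroup _) ≠ ⊥ := by
  let A : Matrix (Fin 2) (Fin 2) (ZMod q) := !![0, -1; 1, 0]
  have hA : A * A = -1 := by
    ext i j; fin_cases i <;> fin_cases j <;> simp [A, mul_apply, Fin.sum_univ_two]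
  have hq4 : q % 4 = 3 := by
    obtain ⟨j, rfl⟩ : ∃ j, k = j + 2 := by
      refine ⟨k - 2, ?_⟩
      by_contra h
      have : k ≤ 1 := by omega
      interval_cases k <;> omega
    rw [pow_add] at hk; omega
  have h2 : (2 : ZMod q) ≠ 0 := by
    intro h
    have := (ZMod.natCast_eq_zero_iff 2 q).mp (by exact_mod_cast h)
    have := Nat.le_of_dvd (by norm_num) this
    omega
  let N : Subgroup (GL (Fin 2) (ZMod q)) :=
    { carrier := {g | g.1 * A = A * g.1 ∨ g.1 * A = -(A * g.1)}
      one_mem' := by simp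
      mul_mem' := by
        rintro a b (ha | ha) (hb | hb) <;>
          simp [Matrix.mul_assoc, hb, ← Matrix.mul_assoc a.1 A, ha]
      inv_mem' := by
        rintro a ha
        have : ∀ B : Matrix (Fin 2) (Fin 2) (ZMod q), a.1 * A = B * a.1 →
            (a⁻¹).1 * B = A * (a⁻¹).1 := fun B h => by
          calc (a⁻¹).1 * B = (a⁻¹).1 * (B * a.1) * (a⁻¹).1 := by simp [Matrix.mul_assoc]
            _ = _ := by rw [← h]; simp [← Matrix.mul_assoc]
        rcases ha with ha | ha
        · exact Or.inl (this A ha)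
        · right
          have h1 := this (-A) (by simpa using ha)
          rw [← h1]; simp }
  have hcen : ∀ g : GL (Fin 2) (ZMod q), ∀ c : ZMod q, g.1 = c • (1 : Matrix _ _ _) →
      g ∈ center (GL (Fin 2) (ZMod q)) := fun g c h =>
    mem_center_iff.mpr fun b => Units.ext (by simp [h])
  have hpow : ∀ g : GL (Fin 2) (ZMod q), g.1 * A = A * g.1 →
      g ^ (q + 1) ∈ center (GL (Fin 2) (ZMod q)) := by
    intro g hg
    have h1 : g.1 = g.1 0 0 • (1 : Matrix _ _ _) + g.1 1 0 • A := by
      have e1 := congrFun (congrFun hg 0) 0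
      have e2 := congrFun (congrFun hg 1) 0
      simp [A, mul_apply, Fin.sum_univ_two] at e1 e2
      ext i j; fin_cases i <;> fin_cases j <;> simp [A, e1, e2]
    generalize g.1 0 0 = a at h1
    generalize g.1 1 0 = b at h1
    have hAq : A ^ q = -A := by
      rw [show A ^ q = A ^ (4 * (q / 4) + 3) by rw [← hq4, Nat.div_add_mod], pow_add, pow_mul,
        show A ^ 4 = (A * A) * (A * A) by simp [pow_succ, Matrix.mul_assoc], hA]
      simp [pow_succ, hA]
    have h3 : g.1 ^ q = a • (1 : Matrix _ _ _) - b • A := by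
      rw [h1, add_pow_char_of_commute _ (by simp [Commute, SemiconjBy, smul_comm a b]), smul_pow, smul_pow,
        ZMod.pow_card, ZMod.pow_card, hAq]
      simp [sub_eq_add_neg]
    refine hcen _ (a * a + b * b) ?_
    rw [Units.val_pow_eq_pow_val, pow_succ, h3, h1]
    simp only [sub_mul, mul_add, smul_mul_assoc, mul_smul_comm, hA, Matrix.one_mul, Matrix.mul_one]
    module
  have hAdet : A.det ≠ 0 := by simp [A, det_fin_two]
  let A' : GL (Fin 2) (ZMod q) := GeneralLinearGroup.mkOfDetNeZero A hAdet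
  refine Low.sylow_meet (N.map (QuotientGroup.mk' _)) ?_ ?_ H x
  · rintro ⟨_, g, hg, rfl⟩
    refine ⟨k + 1, Subtype.ext ?_⟩
    show (QuotientGroup.mk' _ g) ^ 2 ^ (k + 1) = 1
    rw [← map_pow, QuotientGroup.mk'_apply, QuotientGroup.eq_one_iff, pow_succ', pow_mul, ← hk]
    apply hpow
    rcases hg with hg | hg <;> simp [sq, Matrix.mul_assoc, hg, ← Matrix.mul_assoc g.1 A]
  · intro z
    obtain ⟨z, rfl⟩ := QuotientGroup.mk'_surjective _ z
    let B := z.1 * A * (z⁻¹).1
    have hB : B * B = -1 := by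
      calc B * B = z.1 * A * ((z⁻¹).1 * z.1) * A * (z⁻¹).1 := by simp only [B, Matrix.mul_assoc]
        _ = z.1 * (A * A) * (z⁻¹).1 := by simp [Matrix.mul_assoc]
        _ = -1 := by rw [hA]; simp
    have key : ∀ a ∈ N, a ∉ center (GL (Fin 2) (ZMod q)) →
        (a.1 * B = B * a.1 ∨ a.1 * B = -(B * a.1)) → ∃ a, a ≠ 1 ∧
          a ∈ N.map (QuotientGroup.mk' (center (GL (Fin 2) (ZMod q)))) ∧
          (QuotientGroup.mk' _ z)⁻¹ * a * QuotientGroup.mk' _ z ∈
            N.map (QuotientGroup.mk' (center (GL (Fin 2) (ZMod q)))) := by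
      intro a ha h1 h3
      refine ⟨QuotientGroup.mk' _ a, fun h => h1 ((QuotientGroup.eq_one_iff a).mp h),
        ⟨a, ha, rfl⟩, ⟨z⁻¹ * a * z, ?_, by simp⟩⟩
      have e1 : (z⁻¹ * a * z).1 * A = (z⁻¹).1 * (a.1 * B) * z.1 := by simp [B, Matrix.mul_assoc]
      have e2 : A * (z⁻¹ * a * z).1 = (z⁻¹).1 * (B * a.1) * z.1 := by
        simp [B, ← Matrix.mul_assoc]
      show _ ∨ _
      rw [e1, e2]
      rcases h3 with h3 | h3 <;> simp [h3]
    by_cases hC : A * B - B * A = 0
    · refine key A' (Or.inl rfl) (fun h => ?_) (Or.inl (sub_eq_zero.mp hC))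
      have h1 := congrArg (fun g : GL (Fin 2) (ZMod q) => g.1 0 0) (mem_center_iff.mp h
        (GeneralLinearGroup.mkOfDetNeZero !![1, 1; 0, 1] (by simp [det_fin_two])))
      simp [A', A, mul_apply, Fin.sum_univ_two] at h1
    · obtain ⟨C, hCdef⟩ : ∃ C, C = A * B - B * A := ⟨_, rfl⟩
      rw [← hCdef] at hC
      have h1 : C * A = -(A * C) := by
        rw [hCdef, sub_mul, mul_sub, Matrix.mul_assoc B, ← Matrix.mul_assoc A A, hA]
        simp [Matrix.mul_assoc]
      have h3 : C * B = -(B * C) := by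
        rw [hCdef, sub_mul, mul_sub, Matrix.mul_assoc A, ← Matrix.mul_assoc B B, hB]
        simp [Matrix.mul_assoc, sub_eq_add_neg]
      have hdet : C.det ≠ 0 := by
        have e1 := congrFun (congrFun h1 0) 0
        have e2 := congrFun (congrFun h1 1) 0
        simp [A, mul_apply, Fin.sum_univ_two, vecMul, dotProduct] at e1 e2
        rw [det_fin_two, e1, e2]
        intro h0
        by_cases h4 : C 1 0 = 0
        · have h5 : C 0 0 = 0 := by
            rw [h4] at h0; simpa using h0
          apply hC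
          ext i j; fin_cases i <;> fin_cases j <;> simp [e1, e2, h4, h5]
        · exact ZMod.mod_four_ne_three_of_sq_eq_neg_sq' (x := C 0 0) h4
            (by linear_combination -h0) hq4
      refine key (GeneralLinearGroup.mkOfDetNeZero C hdet) (Or.inr h1) (fun h => ?_) (Or.inr h3)
      have h4 : A * C = C * A := congrArg Units.val (mem_center_iff.mp h A')
      rw [h1] at h4
      have h5 : (2 : ZMod q) • (A * C) = 0 := by rw [two_smul]; nth_rw 1 [h4]; simp
      have h6 := congrArg det ((smul_eq_zero.mp h5).resolve_left h2)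
      rw [det_mul, det_zero] at h6
      exact mul_ne_zero hAdet hdet h6

end Cfsg.Agent.S2485
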