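import Cfsg.Statements.S2486
import Cfsg.Agent.Low.SylMeet
import Cfsg.Agent.GLChar.Flag

set_option autoImplicit false
open scoped Pointwise
open Cfsg

namespace Cfsg.Agent.S2486

open Matrix Subgroup GLChar

section
variable {n : ℕ}

/-- upper triangular matrices -/
def BB (n : ℕ) : Subgroup (GL (Fin n) (ZMod 2)) where
  carrier := {g | g.1.BlockTriangular id}
  one_mem' := blockTriangular_one
  mul_mem' ha hb := BlockTriangular.mul ha hb
  inv_mem' {a} ha := by
    have := blockTriangular_inv_of_blockTriangular (M := a.1) ha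
    simpa using this

lemma h01 : ∀ a : ZMod 2, a ≠ 0 → a = 1 := by decide

lemma BB_pow (hn : 0 < n) {g : GL (Fin n) (ZMod 2)} (hg : g ∈ BB n) : g ^ 2 ^ n = 1 := by
  haveI : Nonempty (Fin n) := ⟨⟨0, hn⟩⟩
  have h1 : ∀ i, g.1 i i = 1 := fun i => h01 _ (by
    have := g.det_ne_zero
    rw [det_of_isUpperTriangular hg] at this
    exact Finset.prod_ne_zero_iff.mp this i (Finset.mem_univ _))
  have h2 := aeval_self_charpoly g.1
  rw [charpoly_of_isUpperTriangular _ hg] at h2
  simp only [h1, Finset.prod_const, Finset.card_univ, Fintype.card_fin, map_pow, map_sub,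
    Polynomial.aeval_X, map_one] at h2
  apply Units.ext
  have h3 := sub_pow_char_pow_of_commute 2 n (Commute.one_right g.1)
  rw [pow_eq_zero_of_le Nat.lt_two_pow_self.le h2, one_pow] at h3
  rw [Units.val_pow_eq_pow_val, Units.val_one, ← sub_eq_zero, ← h3]

/-- elementary transvections -/
def tv {i j : Fin n} (h : i ≠ j) : GL (Fin n) (ZMod 2) :=
  Matrix.SpecialLinearGroup.toGL (Matrix.SpecialLinearGroup.transvection h 1)

lemma tv_mem {i j : Fin n} (h : i ≠ j) : tv h ∈ BB n ↔ i < j := by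
  constructor
  · intro h1
    by_contra h2
    have := h1 (show id j < id i from lt_of_le_of_ne (not_lt.mp h2) h.symm)
    have e : (tv h).1 = 1 + single i j 1 := rfl
    simp [e, h] at this
  · intro h1
    exact blockTriangular_transvection (b := id) h1.le 1

lemma tv_ne {i j : Fin n} (h : i ≠ j) : tv h ≠ 1 := by
  intro h1
  have := congrArg (fun g : GL (Fin n) (ZMod 2) => g.1 i j) h1
  have e : (tv h).1 = 1 + single i j 1 := rfl
  simp [e, h] at this

lemma tv_conj (σ : Equiv.Perm (Fin n)) {i j : Fin n} (h : i ≠ j) :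
    pm (ZMod 2) σ * tv h * (pm (ZMod 2) σ)⁻¹ = tv (σ.injective.ne h) := by
  rw [mul_inv_eq_iff_eq_mul]
  apply Units.ext
  have e : ∀ {i j : Fin n} (h : i ≠ j), (tv h).1 = 1 + single i j 1 := fun _ => rfl
  rw [Units.val_mul, Units.val_mul, e, e, mul_add, add_mul, Matrix.mul_one, Matrix.one_mul]
  congr 1
  ext a b
  by_cases h1 : b = j
  · subst h1
    by_cases h2 : a = σ i
    · subst h2; simp [pm_apply]
    · simp [pm_apply, h2, Ne.symm h2]
  · by_cases h2 : a = σ i
    · subst h2; simp [pm_apply, h1, Ne.symm h1]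
    · simp [h1, h2]

lemma bru (g : GL (Fin n) (ZMod 2)) : ∃ σ, ∃ b ∈ BB n, ∃ c ∈ BB n, g = b * pm (ZMod 2) σ * c := by
  obtain ⟨σ, b, c, hb, hc, h⟩ := bruhat g
  exact ⟨σ, b, hb, c⁻¹, (BB n).inv_mem hc, by rw [← h]; group⟩

lemma norm_BB (g : GL (Fin n) (ZMod 2)) (h : ∀ b ∈ BB n, g * b * g⁻¹ ∈ BB n) : g ∈ BB n := by
  obtain ⟨σ, b, hb, c, hc, rfl⟩ := bru g
  have : StrictMono σ := by
    intro i j hij
    rw [← tv_mem (σ.injective.ne hij.ne), ← tv_conj]
    have h1 := h (c⁻¹ * tv hij.ne * c)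
      (mul_mem (mul_mem (inv_mem hc) ((tv_mem _).mpr hij)) hc)
    simpa [mul_assoc] using mul_mem (mul_mem (inv_mem hb) h1) hb
  have h1 : σ = 1 := Equiv.ext fun i => congrFun this.eq_id i
  rw [h1, map_one, mul_one]
  exact mul_mem hb hc

lemma opp (g : GL (Fin n) (ZMod 2)) (h : ∀ b ∈ BB n, g⁻¹ * b * g ∈ BB n → b = 1) :
    ∃ b ∈ BB n, ∃ c ∈ BB n, g = b * pm (ZMod 2) Fin.revPerm * c := by
  obtain ⟨σ, b, hb, c, hc, rfl⟩ := bru g
  have : StrictMono (σ ∘ Fin.rev) := by
    intro i j hij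
    have h0 : j.rev < i.rev := Fin.rev_lt_rev.mpr hij
    by_contra h1
    have h2 : σ j.rev < σ i.rev := lt_of_le_of_ne (not_lt.mp h1) (σ.injective.ne h0.ne)
    have h3 := h (b * tv h2.ne * b⁻¹) (mul_mem (mul_mem hb ((tv_mem _).mpr h2)) (inv_mem hb)) (by
      rw [← tv_conj σ h0.ne]
      simpa [mul_assoc] using mul_mem (mul_mem (inv_mem hc) ((tv_mem h0.ne).mpr h0)) hc)
    exact tv_ne h2.ne (by simpa using h3)
  have h1 : σ = Fin.revPerm := Equiv.ext fun i => by
    simpa using congrFun this.eq_id i.rev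
  exact ⟨b, hb, c, hc, by rw [h1]⟩

end

/-- Let n ≥ 4 and let G be a finite group with a normal subgroup N of index 2 isomorphic to SL(n,2) and with trivial centralizer in G (so G is the extension of the simple group L_n(2) by its inverse-transpose automorphism, its full automorphism group). Then any two Sylow 2-subgroups of G have a non-trivial intersection: for a Sylow 2-subgroup H and every x ∈ G, H ∩ H^x ≠ 1. -/
theorem result {G : Type*} [Group G] [Finite G] {n : ℕ} (hn : 4 ≤ n) (N : Subgroup G) [N.Normal]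
    (e : N ≃* Matrix.SpecialLinearGroup (Fin n) (ZMod 2)) (hidx : N.index = 2)
    (hC : Subgroup.centralizer (N : Set G) = ⊥)
    (H : Sylow 2 G) (x : G) :
    (H : Subgroup G) ⊓ MulAut.conj x • (H : Subgroup G) ≠ ⊥ := by
  let f : N →* GL (Fin n) (ZMod 2) := Matrix.SpecialLinearGroup.toGL.comp e.toMonoidHom
  have hi : Function.Injective f := Matrix.SpecialLinearGroup.toGL_injective.comp e.injective
  have hs : Function.Surjective f := fun g =>
    ⟨e.symm ⟨g.1, h01 _ g.det_ne_zero⟩, Units.ext (congrArg Subtype.val (e.apply_symm_apply _))⟩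
  refine Low.sylow_meet_index_two N hidx ((BB n).comap f)
    (IsPGroup.comap_of_injective (fun g => ⟨n, Subtype.ext (BB_pow (by omega) g.2)⟩) _ hi) ?_ ?_ H x
  · intro g hg
    refine norm_BB _ fun b hb => ?_
    obtain ⟨b, rfl⟩ := hs b
    simpa using hg b hb
  · have key : ∀ g : N, (∀ b ∈ (BB n).comap f, g⁻¹ * b * g ∈ (BB n).comap f → b = 1) →
        ∃ b ∈ BB n, ∃ c ∈ BB n, f g = b * pm (ZMod 2) Fin.revPerm * c := by
      intro g hg
      refine opp _ fun b hb h => ?_
      obtain ⟨b, rfl⟩ := hs b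
      rw [hg b hb (by simpa using h), map_one]
    intro g g' hg hg'
    obtain ⟨b, hb, c, hc, h1⟩ := key g hg
    obtain ⟨b', hb', c', hc', h2⟩ := key g' hg'
    obtain ⟨a, ha⟩ := hs (b' * b⁻¹)
    refine ⟨a, by rw [mem_comap, ha]; exact mul_mem hb' (inv_mem hb), ?_⟩
    rw [mem_comap, map_mul, map_mul, map_inv, h1, h2, ha]
    simpa [mul_assoc] using mul_mem (inv_mem hc') hc

end Cfsg.Agent.S2486
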