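import Cfsg.Statements.S2487
import Cfsg.Agent.Low.SylMeet
import Cfsg.Agent.Geom.OBridge

set_option autoImplicit false
open scoped Pointwise
open Cfsg

namespace Cfsg.Agent.S2487

open Geom QuadraticMap Module

lemma exists_fix {F V : Type*} [Field F] [AddCommGroup V] [Module F V] [FiniteDimensional F V]
    {Q : QuadraticForm F V} (h : (Formed.ofQuad Q).Nondeg) (S : Submodule F V)
    (hS : finrank F S + 2 ≤ finrank F V) : ∃ a : OG Q, a ≠ 1 ∧ ∀ x ∈ S, a.1 x = x := by
  have h1 := h.finrank_add_finrank_perp S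
  have hc : ∀ v ∈ (Formed.ofQuad Q).perp S, ∀ x ∈ S, polar Q v x = 0 := fun v hv x hx => by
    rw [polar_comm]; exact mem_perp_quad.mp hv x hx
  by_cases hv : ∃ v ∈ (Formed.ofQuad Q).perp S, Q v ≠ 0
  · obtain ⟨v, hv, hQ⟩ := hv
    refine ⟨refl Q v, fun h0 => ?_, fun x hx => refl_of_perp (hc v hv x hx)⟩
    have hv0 : v ≠ 0 := by rintro rfl; simp at hQ
    obtain ⟨y, hy⟩ := h.exists_ne hv0
    have h2 := refl_apply Q v y
    rw [h0] at h2
    have h3 : ((Q v)⁻¹ * polar Q v y) • v = 0 := sub_eq_self.mp h2.symm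
    rcases smul_eq_zero.mp h3 with h4 | h4
    · exact mul_ne_zero (inv_ne_zero hQ) hy h4
    · exact hv0 h4
  · push Not at hv
    obtain ⟨f, hf⟩ := exists_linearIndependent_of_le_finrank
      (show 2 ≤ finrank F ((Formed.ofQuad Q).perp S) by omega)
    have hli := hf.map' _ ((Formed.ofQuad Q).perp S).ker_subtype
    have hp : polar Q (f 0).1 (f 1).1 = 0 := by
      have := quad_add Q (f 0).1 (f 1).1
      rw [hv _ (add_mem (f 0).2 (f 1).2), hv _ (f 0).2, hv _ (f 1).2] at this
      simpa using this.symm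
    refine ⟨eich Q (f 0).1 (f 1).1, fun h0 => ?_, fun x hx => ?_⟩
    · obtain ⟨y, hy⟩ := h.exists_ne (hli.ne_zero 0)
      have h2 := eich_apply (hv _ (f 0).2) hp y
      rw [h0] at h2
      have h3 := Fintype.linearIndependent_iff.mp hli
        ![polar Q (f 1).1 y - Q (f 1).1 * polar Q (f 0).1 y, -polar Q (f 0).1 y] (by
          rw [Fin.sum_univ_two]
          have : y = y + (polar Q (f 1).1 y - Q (f 1).1 * polar Q (f 0).1 y) • (f 0).1 -
            polar Q (f 0).1 y • (f 1).1 := h2
          simp only [Matrix.cons_val_zero, Matrix.cons_val_one, Function.comp, Submodule.coe_subtype,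
            neg_smul]
          linear_combination (norm := module) -this) 1
      exact hy (by simpa using h3)
    · rw [eich_apply_of_perp (hv _ (f 0).2) hp (hc _ (f 0).2 x hx), hc _ (f 1).2 x hx]; simp

/-- Let m ≥ 4 and let G be the full isometry group of the hyperbolic quadratic form x₁y₁ + ⋯ + x_m y_m on the 2m-dimensional space over the field with 2 elements (the orthogonal group O⁺(2m,2), which contains Ω⁺(2m,2) with index 2). Then any two Sylow 2-subgroups of G have a non-trivial intersection: for a Sylow 2-subgroup H and every x ∈ G, H ∩ H^x ≠ 1. -/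
theorem result {F : Type*} [Field F] [Fintype F] (hF : Fintype.card F = 2) {m : ℕ} (hm : 4 ≤ m)
    (H : Sylow 2 (Cfsg.isometryGroup F (Cfsg.quadFormPlus m F)))
    (x : Cfsg.isometryGroup F (Cfsg.quadFormPlus m F)) :
    (H : Subgroup (Cfsg.isometryGroup F (Cfsg.quadFormPlus m F))) ⊓ MulAut.conj x • (H : Subgroup _) ≠ ⊥ := by
  have h01 : ∀ a : F, a ≠ 0 → a = 1 := by
    intro a ha
    have := FiniteField.pow_card_sub_one_eq_one a ha
    simpa [hF] using this
  have h2 : (2 : F) = 0 := by
    have := FiniteField.cast_card_eq_zero F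
    rw [hF] at this; exact_mod_cast this
  revert H x
  rw [← coe_quadPlus]
  intro H x
  let Q := quadPlus F m
  let i0 : Fin m := ⟨0, by omega⟩
  let e : Fin m → Fin m ⊕ Fin m → F := fun i => Pi.single (.inl i) 1
  let K : Subgroup (OG Q) :=
    { carrier := {g | ∀ i ≠ i0, g.1 (e i) = e i}
      one_mem' := fun _ _ => rfl
      mul_mem' := fun {a b} ha hb i hi => by rw [OG.mul_apply, hb i hi, ha i hi]
      inv_mem' := fun {a} ha i hi => by
        conv_lhs => rw [← ha i hi]
        simp }
  have hK : IsPGroup 2 K := by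
    rintro ⟨g, hg⟩
    have hpe : ∀ i v, polar Q (e i) v = v (.inr i) := fun i v => by
      simp [Q, e, polar_quadPlus, Pi.single_apply]
    have s1 : ∀ v i, i ≠ i0 → (g.1 v - v) (.inr i) = 0 := by
      intro v i hi
      rw [Pi.sub_apply, ← hpe i (g.1 v), ← hpe i v, ← OG.map_polar g (e i) v, hg i hi, sub_self]
    have s4 : ∀ v : Fin m ⊕ Fin m → F, (∀ i, v (.inr i) = 0) → v (.inl i0) = 0 → g.1 v - v = 0 := by
      intro v h1 h3
      have : v = ∑ i, v (.inl i) • e i := by
        ext (j | j) <;> simp [e, Finset.sum_apply, Pi.single_apply, h1]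
      rw [sub_eq_zero, this, map_sum]
      refine Finset.sum_congr rfl fun i _ => ?_
      by_cases hi : i = i0
      · simp [hi, h3]
      · rw [map_smul, hg i hi]
    let d : Fin m ⊕ Fin m → F := e i0 + Pi.single (.inr i0) 1
    have hQ : ∀ v : Fin m ⊕ Fin m → F, (∀ i ≠ i0, v (.inr i) = 0) →
        Q v = v (.inl i0) * v (.inr i0) := fun v hv => by
      rw [quadPlus_apply, Finset.sum_eq_single i0 (fun i _ hi => by rw [hv i hi, mul_zero]) (by simp)]
    have hd1 : ∀ i ≠ i0, d (.inr i) = 0 := fun i hi => by simp [d, e, hi]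
    have hd2 : d (.inl i0) = 1 ∧ d (.inr i0) = 1 := by simp [d, e]
    have hgd : ∀ i ≠ i0, g.1 d (.inr i) = 0 := fun i hi => by
      have := s1 d i hi
      rwa [Pi.sub_apply, hd1 i hi, sub_zero] at this
    have hgd2 : g.1 d (.inl i0) = 1 ∧ g.1 d (.inr i0) = 1 := by
      have := OG.map_Q g d
      rw [hQ _ hgd, hQ _ hd1, hd2.1, hd2.2, one_mul] at this
      exact ⟨h01 _ (left_ne_zero_of_mul_eq_one this), h01 _ (right_ne_zero_of_mul_eq_one this)⟩
    have hp : ∀ u v : Fin m ⊕ Fin m → F, (∀ i ≠ i0, u (.inr i) = 0) → (∀ i ≠ i0, v (.inr i) = 0) →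
        polar Q u v = u (.inl i0) * v (.inr i0) + u (.inr i0) * v (.inl i0) := fun u v hu hv => by
      rw [polar_quadPlus, Finset.sum_eq_single i0
        (fun i _ hi => by rw [hv i hi, hu i hi]; simp) (by simp)]
    have s2 : ∀ v : Fin m ⊕ Fin m → F, (∀ i ≠ i0, v (.inr i) = 0) →
        (g.1 v - v) (.inl i0) = (g.1 v - v) (.inr i0) := by
      intro v hv
      have hgv : ∀ i ≠ i0, g.1 v (.inr i) = 0 := fun i hi => by
        have := s1 v i hi
        rwa [Pi.sub_apply, hv i hi, sub_zero] at this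
      have := OG.map_polar g d v
      rw [hp _ _ hgd hgv, hp _ _ hd1 hv, hgd2.1, hgd2.2, hd2.1, hd2.2] at this
      simp only [Pi.sub_apply]
      linear_combination this - (g.1 v (.inr i0) - v (.inr i0)) * h2
    have s3 : ∀ v : Fin m ⊕ Fin m → F, (∀ i ≠ i0, v (.inr i) = 0) → v (.inl i0) = v (.inr i0) →
        (∀ i, (g.1 v - v) (.inr i) = 0) ∧ (g.1 v - v) (.inl i0) = 0 := by
      intro v h1 h3
      have h4 := s4 (v - v (.inl i0) • d) (fun i => by
        by_cases hi : i = i0
        · simp [hi, hd2.2, h3]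
        · simp [h1 i hi, hd1 i hi]) (by simp [hd2.1])
      have h5 : g.1 v - v = v (.inl i0) • (g.1 d - d) := by
        rw [map_sub, map_smul] at h4
        rw [smul_sub]
        linear_combination (exp := 1) h4
      refine ⟨fun i => ?_, by rw [h5]; simp [hgd2.1, hd2.1]⟩
      by_cases hi : i = i0
      · rw [h5]; simp [hi, hgd2.2, hd2.2]
      · exact s1 v i hi
    refine ⟨2, Subtype.ext (OG.ext fun v => ?_)⟩
    have t3 := s3 _ (s1 (g.1 v - v)) (s2 _ (s1 v))
    have t4 := s4 _ t3.1 t3.2
    simp only [map_sub] at t4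
    show (g ^ 2 ^ 2).1 v = v
    rw [show g ^ 2 ^ 2 = g * (g * (g * g)) by simp [pow_succ, mul_assoc]]
    simp only [OG.mul_apply]
    ext j
    have := congrFun t4 j
    simp only [Pi.sub_apply, Pi.zero_apply] at this
    linear_combination this + (2 * g.1 (g.1 (g.1 v)) j - 3 * g.1 (g.1 v) j + 2 * g.1 v j - v j) * h2
  refine Low.sylow_meet (K.comap (isometryEquiv Q).toMonoidHom)
    (hK.comap_of_injective _ (isometryEquiv Q).injective) (fun z => ?_) H x
  let z' := isometryEquiv Q z
  let S : Submodule F (Fin m ⊕ Fin m → F) :=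
    Submodule.span F (Set.range (Sum.elim (fun i : {i // i ≠ i0} => e i)
      (fun i : {i // i ≠ i0} => z'.1 (e i))))
  have hS : finrank F S + 2 ≤ finrank F (Fin m ⊕ Fin m → F) := by
    have := finrank_range_le_card (R := F) (Sum.elim (fun i : {i // i ≠ i0} => e i)
      (fun i : {i // i ≠ i0} => z'.1 (e i)))
    simp only [Fintype.card_sum, Fintype.card_subtype_compl, Fintype.card_fin,
      Fintype.card_unique] at this
    have h3 : finrank F S ≤ m - 1 + (m - 1) := this
    simp only [finrank_fintype_fun_eq_card, Fintype.card_sum, Fintype.card_fin]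
    omega
  obtain ⟨a, ha, hfix⟩ := exists_fix (quadPlus_nondeg F m) S hS
  refine ⟨(isometryEquiv Q).symm a, by simpa using ha, ?_, ?_⟩
  · intro i hi
    simpa using hfix _ (Submodule.subset_span ⟨.inl ⟨i, hi⟩, rfl⟩)
  · intro i hi
    have := hfix _ (Submodule.subset_span ⟨.inr ⟨i, hi⟩, rfl⟩)
    show (isometryEquiv Q (z⁻¹ * (isometryEquiv Q).symm a * z)).1 (e i) = e i
    rw [map_mul, map_mul, map_inv, MulEquiv.apply_symm_apply, OG.mul_apply, OG.mul_apply]
    exact (congrArg _ this).trans (OG.inv_apply_apply _ _)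

end Cfsg.Agent.S2487
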