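import Cfsg.Statements.S2488
import Cfsg.Agent.Comp.Model
import Cfsg.Agent.Comp.Subor
import Cfsg.Agent.Sig.Sf5
import Cfsg.Agent.Golay.Stab

set_option autoImplicit false
open scoped Pointwise
open Cfsg

namespace Cfsg.Agent.S2488

open Cfsg.Agent.Comp MulAction
set_option maxRecDepth 100000

abbrev A := ↥(alternatingGroup (Fin 6))
abbrev R : ℕ → A → Prop := CRep (encFin 5) 3 7
theorem par : Par 6 3 7 := ⟨by norm_num, by norm_num⟩
theorem grp : IsGrp R (mulP 6 3 7) (invP 6 3 7) (oneP 6 3) := isGrp_CRep _ par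
theorem can : IsCanon R := isCanon_CRep _ par

theorem codes {L : List ℕ} (h : allL L (fun c => band (isPermP 6 3 7 c)
    (Nat.beq (powC (mulP 6 3 7) (oneP 6 3) c 3) (oneP 6 3))) = true) :
    CodesIn (PRep (encFin 5) 3 7) L (⊤ : Subgroup A) := fun c hc => by
  have := allL_iff.1 h c hc
  rw [band_eq, Bool.and_eq_true] at this
  have h1 := (encFin 5).toPerm_rep this.1
  refine ⟨⟨(encFin 5).toPerm 3 7 c, Equiv.Perm.mem_alternatingGroup.2 ?_⟩, trivial, h1⟩
  have h2 := congrArg Equiv.Perm.sign (h1.pow_eq_one par this.2)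
  rw [map_pow, map_one] at h2
  rcases Int.units_eq_one_or (Equiv.Perm.sign ((encFin 5).toPerm 3 7 c)) with e | e
  · exact e
  · rw [e] at h2; exact absurd h2 (by decide)

def tA : List (ℕ × List ℕ) := [(0, [181896, 181777, 181826, 180867, 169604, 50821]),
  (1, [181896, 180944, 181336, 173664, 83560]), (2, [181896, 174280, 177416, 116040]), (3, [181896, 120968, 146056])]
def lA : List ℕ := prodL (mulP 6 3 7) tA (oneP 6 3) []
theorem card_A : Nat.card A = 360 := by rw [nat_card_alternatingGroup, Nat.card_fin]; rfl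
theorem lists_A : Lists R lA ⊤ :=
  lists_of_trans par tA (codes (by decide +kernel)).of_flatT (Subgroup.card_top.trans card_A) (by decide +kernel)

def pw (c k : ℕ) : Bool := Nat.beq (powC (mulP 6 3 7) (oneP 6 3) c k) (oneP 6 3)
theorem pw_iff {c k : ℕ} {g : A} (h : R c g) : g ^ k = 1 ↔ pw c k = true :=
  (can.eq_iff (grp.pow h k) grp.one).trans nbeq.symm

theorem fact1 {t w : A} (ht : t ^ 2 = 1) (hw : w ^ 2 = 1) :
    ∃ k, (t * w) ^ k = 1 ∧ (t = 1 ∨ {u : A | u ^ 2 = 1 ∧ (t * u) ^ k = 1}.ncard ≤ 31) := by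
  have h : forceL (filterL (fun c => pw c 2) lA) (fun I => allL I fun a => band
      (allL I fun b => anyL [3, 4, 5] fun k => pw (mulP 6 3 7 a b) k)
      (bor (Nat.beq a (oneP 6 3)) (allL [3, 4, 5] fun k => Nat.ble (countL (fun b => pw (mulP 6 3 7 a b) k) I) 31)))
      = true := by decide +kernel
  rw [forceL_eq] at h
  have hI : ∀ g : A, g ^ 2 = 1 → ∃ c ∈ filterL (fun c => pw c 2) lA, R c g := fun g hg => by
    obtain ⟨c, hc, hr⟩ := lists_A g trivial
    exact ⟨c, by rw [filterL_eq]; exact List.mem_filter.2 ⟨hc, (pw_iff hr).1 hg⟩, hr⟩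
  obtain ⟨a, ha, hr⟩ := hI t ht
  obtain ⟨b, hb, hr'⟩ := hI w hw
  have h1 := allL_iff.1 h a ha
  rw [band_eq, Bool.and_eq_true, bor_eq, Bool.or_eq_true] at h1
  obtain ⟨k, hk, h2⟩ := anyL_iff.1 (allL_iff.1 h1.1 b hb)
  refine ⟨k, (pw_iff (grp.mul hr hr')).2 h2, h1.2.imp (fun e => (can.eq_iff hr grp.one).2 (nbeq.1 e)) fun e => ?_⟩
  refine le_trans ?_ (nble.1 (allL_iff.1 e k hk))
  rw [countL_eq, List.countP_eq_length_filter]
  exact ncard_le_length_of_func can.func fun g hg =>
    let ⟨c, hc, h⟩ := hI g hg.1; ⟨c, List.mem_filter.2 ⟨hc, (pw_iff (grp.mul hr h)).1 hg.2⟩, h⟩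

theorem fact2 {t : A} (ht : t ^ 2 = 1) (h1 : t ≠ 1) : Nat.card (Subgroup.centralizer {t}) ≤ 8 := by
  have h : forceL lA (fun l => allL l fun a => bor (not (pw a 2)) (bor (Nat.beq a (oneP 6 3))
      (Nat.ble (countL (fun b => commC (mulP 6 3 7) b a) l) 8))) = true := by decide +kernel
  rw [forceL_eq] at h
  obtain ⟨a, hr, h⟩ := lists_A.forall h (g := t) trivial
  simp only [bor_eq, Bool.or_eq_true, Bool.not_eq_true', nbeq, nble] at h
  rcases h with h | h | h
  · rw [(pw_iff hr).1 ht] at h; exact absurd h (by simp)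
  · exact absurd ((can.eq_iff hr grp.one).2 h) h1
  · exact (lists_A.card_subgroup_le can.func le_top fun c g hg hc =>
      (commC_iff grp can hc hr).1 (Subgroup.mem_centralizer_singleton_iff.1 hg)).trans h

/-- Let G be a finite group with a normal subgroup N of index 4 isomorphic to the alternating group of degree 6 and with trivial centralizer in G (so G is the full automorphism group of A₆). Then any two Sylow 2-subgroups of G have a non-trivial intersection: for a Sylow 2-subgroup H and every x ∈ G, H ∩ H^x ≠ 1. -/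
theorem result {G : Type*} [Group G] [Finite G] (N : Subgroup G) [N.Normal]
    (e : N ≃* alternatingGroup (Fin 6)) (hidx : N.index = 4)
    (hC : Subgroup.centralizer (N : Set G) = ⊥)
    (H : Sylow 2 G) (x : G) :
    (H : Subgroup G) ⊓ MulAut.conj x • (H : Subgroup G) ≠ ⊥ := by
  have hN : Nat.card N = 360 := (Nat.card_congr e.toEquiv).trans card_A
  have hG : Nat.card G = 1440 := by rw [← N.index_mul_card, hidx, hN]
  have hH : Nat.card (H : Subgroup G) = 32 := by
    rw [H.card_eq_multiplicity, hG, show (1440 : ℕ) = 2 ^ 5 * 45 from rfl, Nat.factorization_mul (by norm_num) (by norm_num),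
      Nat.prime_two.factorization_pow]
    simp [Nat.factorization_eq_zero_of_not_dvd (show ¬ 2 ∣ 45 by norm_num)]
  have rel : ∀ K : Subgroup G, Nat.card K ≤ 4 * Nat.card ↥(N ⊓ K) := fun K => by
    rw [← (N.subgroupOf K).index_mul_card, ← Subgroup.inf_subgroupOf_right,
      Nat.card_congr (Subgroup.subgroupOfEquivOfLe (inf_le_right : N ⊓ K ≤ K)).toEquiv, Subgroup.inf_subgroupOf_right]
    exact Nat.mul_le_mul_right _ (hidx ▸ Nat.le_of_dvd (by omega) (N.relIndex_dvd_index_of_normal K))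
  obtain ⟨z, ⟨z1, z2⟩, z3, z4, z5⟩ := Sig.exists_center_p (N := N ⊓ H) H.isPGroup'
    ⟨inf_le_right, fun g hg => Subgroup.inf_normalizer_le_normalizer_inf
      ⟨by rw [Subgroup.normalizer_eq_top]; trivial, Subgroup.le_normalizer hg⟩⟩ fun h => by
      have := rel H; rw [h, hH] at this; simp at this
  have c1 : (H : Subgroup G) = Subgroup.centralizer {z} := by
    refine Subgroup.eq_of_le_of_card_ge (fun g hg => Subgroup.mem_centralizer_singleton_iff.2 (z3 g hg)) ?_
    have h1 := fact2 (t := e ⟨z, z1⟩) (by rw [← map_pow, ← map_one e]; exact congrArg e (Subtype.ext z5))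
      (by simpa using z4)
    rw [← Nat.card_congr (centralizerEquiv e ⟨z, z1⟩).toEquiv, ← Subgroup.card_subtype,
      map_subtype_centralizer] at h1
    have := rel (Subgroup.centralizer {z})
    rw [hH]; simp only at h1; omega
  have w1 : x * z * x⁻¹ ∈ N := Subgroup.Normal.conj_mem inferInstance z z1 x
  obtain ⟨k, k1, k2⟩ := fact1 (t := e ⟨z, z1⟩) (w := e ⟨_, w1⟩)
    (by rw [← map_pow, ← map_one e]; exact congrArg e (Subtype.ext z5))
    (by rw [← map_pow, ← map_one e]; exact congrArg e (Subtype.ext (by simp [conj_pow, z5])))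
  replace k2 := k2.resolve_left (by simpa using z4)
  intro hb
  have h2 : (orbit (H : Subgroup G) (toCj (x * z * x⁻¹))).ncard ≤ 31 := by
    refine le_trans (Set.ncard_le_ncard (t := (fun u : A => toCj ((e.symm u : N) : G)) '' _) ?_ (Set.toFinite _))
      ((Set.ncard_image_le (Set.toFinite _)).trans k2)
    rintro _ ⟨h, rfl⟩
    have m : (h : G) * (x * z * x⁻¹) * (h : G)⁻¹ ∈ N := Subgroup.Normal.conj_mem inferInstance _ w1 _
    refine ⟨e ⟨_, m⟩, ⟨?_, ?_⟩, by simp; rfl⟩
    · rw [← map_pow, ← map_one e]; exact congrArg e (Subtype.ext (by simp only [SubmonoidClass.mk_pow, conj_pow, z5]; simp))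
    · rw [← map_mul, ← map_pow, ← map_one e] at k1 ⊢
      refine congrArg e (Subtype.ext ?_)
      have k3 : (z * (x * z * x⁻¹)) ^ k = 1 := congrArg Subtype.val (e.injective k1)
      show (z * ((h : G) * (x * z * x⁻¹) * (h : G)⁻¹)) ^ k = 1
      rw [show z * ((h : G) * (x * z * x⁻¹) * (h : G)⁻¹) = h * (z * (x * z * x⁻¹)) * (h : G)⁻¹ by
        rw [← mul_assoc, ← mul_assoc, ← z3 h h.2]; group, conj_pow, k3]; simp
  have h3 := card_eq_ncard_orbit_mul (H : Subgroup G) (toCj (x * z * x⁻¹))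
  rw [stabilizer_toCj, ← map_conj_centralizer, ← c1, show (H : Subgroup G) ⊓ (H : Subgroup G).map (MulAut.conj x).toMonoidHom = ⊥ from hb, hH] at h3
  simp at h3; omega

end Cfsg.Agent.S2488
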