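import Cfsg.Statements.S2493
import Cfsg.Agent.Schur.Alt

set_option autoImplicit false
open Cfsg

namespace Cfsg.Agent.S2493

open Subgroup Equiv Equiv.Perm Cfsg.Agent.Pres Cfsg.Agent.Schur

variable {Ω : Type*} [DecidableEq Ω] [Fintype Ω]

lemma disj {s : Perm Ω} {x y : Ω} (hx : s x = x) (hy : s y = y) : s.Disjoint (swap x y) := fun z => by
  by_cases h1 : z = x
  · exact .inl (h1 ▸ hx)
  by_cases h2 : z = y
  · exact .inl (h2 ▸ hy)
  exact .inr (swap_apply_of_ne_of_ne h1 h2)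

lemma two_inv (n : ℕ) : ∀ (σ : Perm Ω) (y : Ω), σ.support.card ≤ n → ∃ s t : Perm Ω, s * s = 1 ∧ t * t = 1 ∧
    s * t = σ ∧ s y = y ∧ (∀ z, σ z = z → s z = z ∧ t z = z) ∧
    t.support.card = s.support.card + if sign σ = 1 then 0 else 2 := by
  induction n with
  | zero =>
    intro σ y h
    obtain rfl : σ = 1 := by simpa using h
    exact ⟨1, 1, by simp⟩
  | succ n ih =>
    have key : ∀ (σ : Perm Ω) (y : Ω), σ.support.card ≤ n + 1 → σ y ≠ y → ∃ s t : Perm Ω, s * s = 1 ∧
        t * t = 1 ∧ s * t = σ ∧ s y = y ∧ (∀ z, σ z = z → s z = z ∧ t z = z) ∧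
        t.support.card = s.support.card + if sign σ = 1 then 0 else 2 := fun σ y h hy => by
      obtain ⟨x, rfl⟩ := σ.surjective y
      have hx : σ x ≠ x := fun e => hy (congrArg σ e)
      obtain ⟨s, t, h1, h2, h3, h4, h5, h6⟩ := ih (swap x (σ x) * σ) (σ x)
        (Nat.le_of_lt_succ ((card_support_swap_mul hx).trans_le h))
      obtain ⟨h7, h8⟩ := h5 x (by simp)
      have hd := disj h7 h4
      have hf : ∀ z, σ z = z → swap x (σ x) z = z := fun z hz => swap_apply_of_ne_of_ne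
        (fun e => hx (e ▸ hz)) fun e => hy (e ▸ hz)
      have e1 : s * swap x (σ x) * (s * swap x (σ x)) = 1 := by
        rw [← pow_two, hd.commute.mul_pow]; simp [pow_two, h1]
      have e2 := inv_eq_of_mul_eq_one_left e1
      refine ⟨s * swap x (σ x) * t * (s * swap x (σ x))⁻¹, s * swap x (σ x), ?_, e1, ?_, ?_, fun z hz => ?_, ?_⟩
      · rw [conj_mul, h2, mul_one, mul_inv_cancel]
      · rw [inv_mul_cancel_right, hd.commute.eq, mul_assoc, h3, swap_mul_self_mul]
      · rw [e2]; simp [h4, h7, h8]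
      · obtain ⟨a, b⟩ := h5 z (by simp [hz, hf z hz])
        rw [e2]; simp [a, b, hf z hz]
      · rw [card_support_conj, hd.card_support_mul, card_support_swap hx.symm, h6]
        rcases Int.units_eq_one_or (sign σ) with e | e <;> simp [e, hx.symm]
    intro σ y h
    by_cases hy : σ y = y
    · by_cases h1 : σ = 1
      · exact ⟨1, 1, by simp [h1]⟩
      obtain ⟨x, hx⟩ : ∃ x, σ x ≠ x := by_contra fun e => h1 (Equiv.ext (by simpa using e))
      obtain ⟨s, t, a, b, c, -, d, e⟩ := key σ x h hx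
      exact ⟨s, t, a, b, c, (d y hy).1, d, e⟩
    · exact key σ y h hy

lemma inv_facts {s : Perm Ω} (h : s * s = 1) :
    ∃ k, s.cycleType = Multiset.replicate k 2 ∧ s.support.card = 2 * k ∧ sign s = (-1) ^ k := by
  have c1 := cycleType_of_pow_prime_eq_one (σ := s) (p := 2) (by rw [pow_two, h])
  refine ⟨_, c1, by rw [← sum_cycleType, c1]; simp [mul_comm], ?_⟩
  rw [sign_of_cycleType, c1]
  simp [pow_add, pow_mul']

lemma inv_conj {s t : Perm Ω} (hs : s * s = 1) (ht : t * t = 1) (h : s.support.card = t.support.card) :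
    IsConj s t := by
  obtain ⟨k, a, b, -⟩ := inv_facts hs
  obtain ⟨k', a', b', -⟩ := inv_facts ht
  rw [isConj_iff_cycleType_eq, a, a', show k = k' by omega]

lemma peel {s : Perm Ω} (h : s * s = 1) {b : Ω} (hb : s b ≠ b) : ∃ s₀ : Perm Ω, s₀ * s₀ = 1 ∧
    s = s₀ * swap b (s b) ∧ s₀ b = b ∧ s₀ (s b) = s b ∧ (∀ z, s z = z → s₀ z = z) ∧
    s.support.card = s₀.support.card + 2 := by
  have h1 : s (s b) = b := by rw [← Perm.mul_apply, h]; rfl
  have h2 : s * swap b (s b) = swap b (s b) * s := by rw [mul_swap_eq_swap_mul, h1, swap_comm]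
  have h3 : (s * swap b (s b)) b = b := by simp [h1]
  have h4 : (s * swap b (s b)) (s b) = s b := by simp
  refine ⟨s * swap b (s b), ?_, by simp, h3, h4, fun z hz => ?_, ?_⟩
  · rw [← pow_two, Commute.mul_pow h2]; simp [pow_two, h]
  · rw [Perm.mul_apply, swap_apply_of_ne_of_ne (fun e : z = b => hb (e ▸ hz))
      fun e : z = s b => hb (s.injective (e ▸ hz)), hz]
  · rw [← card_support_swap hb.symm, ← (disj h3 h4).card_support_mul]; simp

/-- `x` contains two transpositions. -/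
def Tw (x : Perm Ω) : Prop := ∃ a b c d, [a, b, c, d].Nodup ∧ x a = b ∧ x b = a ∧ x c = d ∧ x d = c

lemma tw_of {s w : Perm Ω} (h : s * s = 1) (h4 : 4 ≤ s.support.card) (hd : s.Disjoint w) : Tw (s * w) := by
  have h1 : ∀ b, s (s b) = b := fun b => by rw [← Perm.mul_apply, h]; rfl
  have h2 : ∀ b, s b ≠ b → w b = b ∧ w (s b) = s b := fun b hb =>
    ⟨(hd b).resolve_left hb, (hd _).resolve_left fun e => hb (s.injective e)⟩
  obtain ⟨a, ha⟩ := Finset.card_pos.1 (show 0 < s.support.card by omega)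
  obtain ⟨c, hc, hc'⟩ := Finset.exists_mem_notMem_of_card_lt_card
    ((Finset.card_le_two (a := a) (b := s a)).trans_lt (show 2 < s.support.card by omega))
  rw [mem_support] at ha hc
  simp only [Finset.mem_insert, Finset.mem_singleton, not_or] at hc'
  refine ⟨a, s a, c, s c, ?_, by simp [h2 a ha], by simp [h2 a ha, h1], by simp [h2 c hc], by simp [h2 c hc, h1]⟩
  simp [ha.symm, hc.symm, Ne.symm hc'.1, Ne.symm hc'.2, show a ≠ s c from fun e => hc'.2 (by rw [e, h1])]

omit [Fintype Ω] in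
lemma v4 {a b c d : Ω} (nd : [a, b, c, d].Nodup) :
    swap a b * swap c d * (swap a c * swap b d) = swap a d * swap b c := by
  simp only [List.nodup_cons, List.mem_cons, not_or, List.not_mem_nil, not_false_eq_true, and_true] at nd
  obtain ⟨⟨h1, h2, h3⟩, ⟨h4, h5⟩, h6, -⟩ := nd
  ext z
  by_cases e1 : z = a
  · simp [e1, swap_apply_of_ne_of_ne, *, Ne.symm]
  by_cases e2 : z = b
  · simp [e2, swap_apply_of_ne_of_ne, *, Ne.symm]
  by_cases e3 : z = c
  · simp [e3, swap_apply_of_ne_of_ne, *, Ne.symm]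
  by_cases e4 : z = d
  · simp [e4, swap_apply_of_ne_of_ne, *, Ne.symm]
  simp [swap_apply_of_ne_of_ne, *]

lemma exists_good (h5 : 5 ≤ Fintype.card Ω) {σ : Perm Ω} (hσ : sign σ = 1) :
    ∃ x x' : Perm Ω, x * x'⁻¹ = σ ∧ IsConj x x' ∧ sign x = 1 ∧ Tw x := by
  have four : ∀ {a b c d : Ω}, [a, b, c, d].Nodup → (swap a b * swap c d) * (swap a b * swap c d) = 1 ∧
      (swap a b * swap c d).support.card = 4 ∧ sign (swap a b * swap c d) = 1 := fun {a b c d} nd => by
    have hd := disjoint_swap_swap nd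
    simp only [List.nodup_cons, List.mem_cons, not_or] at nd
    exact ⟨by rw [← pow_two, hd.commute.mul_pow]; simp [pow_two],
      by rw [hd.card_support_mul, card_support_swap nd.1.1, card_support_swap nd.2.2.1.1], by
        simp [nd.1.1, nd.2.2.1.1]⟩
  have good : ∀ {s t : Perm Ω}, s * s = 1 → t * t = 1 → s.support.card = t.support.card → 4 ≤ s.support.card →
      sign s = 1 → s * t = σ → ∃ x x' : Perm Ω, x * x'⁻¹ = σ ∧ IsConj x x' ∧ sign x = 1 ∧ Tw x :=
    fun {s t} a b c d e f => ⟨s, t, by rwa [inv_eq_of_mul_eq_one_left b], inv_conj a b c, e,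
      by simpa using tw_of a d (disjoint_one_right s)⟩
  have more : ∀ S : Finset Ω, S.card ≤ 4 → ∃ c, c ∉ S := fun S hS => by
    obtain ⟨c, -, h⟩ := Finset.exists_mem_notMem_of_card_lt_card (s := S) (t := Finset.univ)
      (by rw [Finset.card_univ]; omega)
    exact ⟨c, h⟩
  by_cases h1 : σ = 1
  · obtain ⟨a, -⟩ := more ∅ (by simp)
    obtain ⟨b, hb⟩ := more {a} (by simp)
    obtain ⟨c, hc⟩ := more {a, b} (Finset.card_le_two.trans (by norm_num))
    obtain ⟨d, hd⟩ := more {a, b, c} (Finset.card_le_three.trans (by norm_num))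
    obtain ⟨e1, e2, e3⟩ := four (a := d) (b := c) (c := b) (d := a) (by simp_all)
    exact good e1 e1 rfl e2.ge e3 (h1 ▸ e1)
  obtain ⟨a, ha⟩ : ∃ x, σ x ≠ x := by_contra fun e => h1 (Equiv.ext (by simpa using e))
  obtain ⟨s, t, hs, ht, e, sa, -, hc⟩ := two_inv _ σ a le_rfl
  rw [if_pos hσ, add_zero] at hc
  have ta : t a ≠ a := fun h => ha (by rw [← e, Perm.mul_apply, h, sa])
  obtain ⟨b, sb, tb⟩ : ∃ b, s b ≠ b ∧ t b = b := by
    by_contra! h
    have := Finset.eq_of_subset_of_card_le (s := s.support) (t := t.support)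
      (fun b hb => mem_support.2 (h b (mem_support.1 hb))) hc.le
    exact mem_support.1 (this.ge (mem_support.2 ta)) sa
  have ab : a ≠ b := fun h => sb (h ▸ sa)
  obtain ⟨s₀, s1, s2, s3, s4, s5, s6⟩ := peel hs sb
  obtain ⟨t₀, t1, t2, t3, t4, t5, t6⟩ := peel ht ta
  have a1 : a ≠ s b := fun h => ab (s.injective (sa.trans h))
  have b1 : b ≠ t a := fun h => ab (t.injective (tb.trans h)).symm
  obtain ⟨k, -, k1, k2⟩ := inv_facts hs
  by_cases hk : Even k
  · exact good hs ht hc.symm (by obtain ⟨j, rfl⟩ := hk; omega) (k2.trans hk.neg_one_pow) e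
  rw [Nat.not_even_iff_odd] at hk
  by_cases hk1 : k = 1
  · obtain rfl : s₀ = 1 := card_support_eq_zero.1 (by omega)
    obtain rfl : t₀ = 1 := card_support_eq_zero.1 (by omega)
    rw [one_mul] at s2 t2
    generalize s b = b' at *
    generalize t a = a' at *
    subst s2 t2
    by_cases h : a' = b'
    · subst h
      obtain ⟨c, hc⟩ := more {a, b, a'} (Finset.card_le_three.trans (by norm_num))
      obtain ⟨d, hd⟩ := more {a, b, a', c} Finset.card_le_four
      simp only [Finset.mem_insert, Finset.mem_singleton, not_or] at hc hd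
      obtain ⟨e1, e2, e3⟩ := four (a := b) (b := a') (c := c) (d := d) (by simp [*, Ne.symm])
      obtain ⟨f1, f2, -⟩ := four (a := c) (b := d) (c := a) (d := a') (by simp [*, Ne.symm])
      exact good e1 f1 (e2.trans f2.symm) e2.ge e3 (by rw [mul_assoc, swap_mul_self_mul, e])
    · obtain ⟨e1, e2, e3⟩ := four (a := b) (b := a) (c := a') (d := b') (by simp [*, Ne.symm])
      obtain ⟨f1, f2, -⟩ := four (a := b) (b := a') (c := a) (d := b') (by simp [*, Ne.symm])
      exact good e1 f1 (e2.trans f2.symm) e2.ge e3 (e ▸ v4 (by simp [*, Ne.symm]))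
  have d1 : s₀.Disjoint (swap b (s b) * swap b a) := (disj s3 s4).mul_right (disj s3 (s5 a sa))
  have d2 : t₀.Disjoint (swap a (t a) * swap a b) := (disj t3 t4).mul_right (disj t3 (t5 b tb))
  refine ⟨s₀ * (swap b (s b) * swap b a), t₀ * (swap a (t a) * swap a b), ?_,
    Perm.Disjoint.isConj_mul (inv_conj s1 t1 (by omega)) (isConj_iff_cycleType_eq.2
      ((isThreeCycle_swap_mul_swap_same sb.symm ab.symm a1.symm).trans
      (isThreeCycle_swap_mul_swap_same ta.symm ab b1.symm).symm)) d1 d2, ?_,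
    tw_of s1 (by obtain ⟨j, rfl⟩ := hk; omega) d1⟩
  · rw [← mul_assoc, ← s2, ← mul_assoc, ← t2, mul_inv_rev, inv_eq_of_mul_eq_one_left ht, swap_inv,
      swap_comm b, mul_assoc, swap_mul_self_mul, e]
  · rw [← mul_assoc, ← s2, map_mul, k2, hk.neg_one_pow, sign_swap ab.symm]; simp

/-- Let n ≥ 5 and let G be a finite perfect group whose centre has order 2 with G/Z(G) isomorphic to the alternating group of degree n (the double cover of the alternating group). Then every element of G is a commutator. -/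
theorem result {G : Type*} [Group G] [Finite G] (hperf : commutator G = ⊤) {n : ℕ} (hn : 5 ≤ n)
    (hZ : Nat.card (Subgroup.center G) = 2) (e : G ⧸ Subgroup.center G ≃* alternatingGroup (Fin n))
    (g : G) :
    ∃ a b : G, a * b * a⁻¹ * b⁻¹ = g := by
  let π := (alternatingGroup (Fin n)).subtype.comp (e.toMonoidHom.comp (QuotientGroup.mk' (center G)))
  have k : π.ker = center G := by ext g; simp [π, MonoidHom.mem_ker]
  have r : π.range = alternatingGroup (Fin n) := by
    rw [MonoidHom.range_comp, MonoidHom.range_eq_top.2 (e.surjective.comp (QuotientGroup.mk'_surjective _)),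
      ← MonoidHom.range_eq_map, Subgroup.range_subtype]
  have lift : ∀ σ : Perm (Fin n), sign σ = 1 → ∃ g, π g = σ := fun _ h => r.ge h
  obtain ⟨⟨z, hz⟩, z1, zu⟩ := (Nat.card_eq_two_iff' (1 : center G)).1 hZ
  replace z1 : z ≠ 1 := fun e => z1 (Subtype.ext e)
  replace zu : ∀ c, π c = 1 → c = 1 ∨ c = z := fun c hc => or_iff_not_imp_left.2 fun h =>
    congrArg Subtype.val (zu ⟨c, k.le hc⟩ fun e => h (congrArg Subtype.val e))
  have sq : ∀ c ∈ π.ker, c ^ 2 = 1 := fun c hc => by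
    rw [← hZ]; exact congrArg Subtype.val (pow_card_eq_one' (x := (⟨c, k.le hc⟩ : center G)))
  have zc := mem_center_iff.1 hz
  have dt : ∀ {i u j v : Fin n} {t}, [i, u, j, v].Nodup → π t = swap i u * swap j v → t ^ 2 = z :=
    fun {i u j v t} nd ht => (zu _ (by
      rw [map_pow, ht, (disjoint_swap_swap nd).commute.mul_pow]; simp [pow_two])).resolve_left fun e => by
        obtain ⟨L, hL⟩ := split_of_invol k.le r sq nd ht e
        exact z1 (mem_bot.1 (hL.disjoint.le_bot ⟨k.ge hz, BG.comm_subG le_rfl le_rfl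
          ((commutator_eq_of_forall_mul_central L fun g => by
            obtain ⟨⟨a, b⟩, rfl⟩ := hL.2 g
            exact ⟨b, b.2, a, k.le a.2, (mem_center_iff.1 (k.le a.2) b).symm⟩).le (hperf.ge trivial))⟩))
  have cm : ∀ {a t}, π a ^ 3 = 1 → Commute (π a) (π t) → Commute a t := fun {a t} e1 e2 => by
    have hc : a * t * a⁻¹ * t⁻¹ ∈ π.ker := by simp [MonoidHom.mem_ker, e2.eq]
    have cj : ∀ g, g * (a * t * a⁻¹ * t⁻¹) * g⁻¹ = a * t * a⁻¹ * t⁻¹ := fun g => by
      rw [mem_center_iff.1 (k.le hc), mul_inv_cancel_right]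
    have e3 : a ^ 3 * t * (a ^ 3)⁻¹ * t⁻¹ = a * (a * (a * t * a⁻¹ * t⁻¹) * a⁻¹) * a⁻¹ *
      (a * (a * t * a⁻¹ * t⁻¹) * a⁻¹) * (a * t * a⁻¹ * t⁻¹) := by simp only [pow_three]; group
    rw [cj, cj, ← pow_two, sq _ hc, one_mul, ← mem_center_iff.1 (k.le (show a ^ 3 ∈ π.ker by simpa using e1)),
      mul_inv_cancel_right, mul_inv_cancel] at e3
    exact commutatorElement_eq_one_iff_commute.1 e3.symm
  obtain ⟨x, x', h1, h2, h3, a, b, c, d, nd, xa, xb, xc, xd⟩ :=
    exists_good (σ := π g) (by simpa) (r.le ⟨g, rfl⟩)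
  have nd' := nd
  simp only [List.nodup_cons, List.mem_cons, not_or, List.not_mem_nil, not_false_eq_true, and_true] at nd'
  obtain ⟨⟨ab, ac, ad⟩, ⟨bc, bd⟩, cd, -⟩ := nd'
  obtain ⟨y, hy, y1⟩ : ∃ y : Perm (Fin n), y * x * y⁻¹ = x' ∧ sign y = 1 := by
    obtain ⟨y, hy⟩ := isConj_iff.1 h2
    rcases Int.units_eq_one_or (sign y) with h | h
    · exact ⟨y, hy, h⟩
    refine ⟨y * swap a b, ?_, by simp [h, ab]⟩
    rw [mul_inv_rev, swap_inv, ← hy, mul_assoc y, mul_assoc y, ← mul_assoc _ (swap a b), mul_assoc (swap a b),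
      mul_swap_eq_swap_mul x, xa, xb, swap_comm b, swap_mul_self_mul, mul_assoc]
  obtain ⟨X, rfl⟩ := lift x h3
  obtain ⟨Y, rfl⟩ := lift y y1
  rcases zu (X * Y * X⁻¹ * Y⁻¹ * g⁻¹) (by simp [← h1, ← hy, mul_assoc]) with h | h
  · exact ⟨X, Y, mul_inv_eq_one.1 h⟩
  obtain ⟨R, hR⟩ := lift (swap a b * swap c d) (by simp [ab, cd])
  obtain ⟨C₁, h₁⟩ := lift (c3 a c d) (c3_mem (S := Finset.univ) ac cd (by simp) (by simp) (by simp)).1
  obtain ⟨C₂, h₂⟩ := lift (c3 b c d) (c3_mem (S := Finset.univ) bc cd (by simp) (by simp) (by simp)).1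
  have hC : π (C₁ * C₂) = swap a c * swap b d := by rw [map_mul, h₁, h₂, c3_mul_c3 bc bd]
  have hw : ∀ i, π (R * X) i = i → π (R * X) c = c → π (R * X) d = d → Commute (c3 i c d) (π (R * X)) :=
    fun i e1 e2 e3 => (mul_inv_eq_iff_eq_mul.1 (by rw [conj_c3, e1, e2, e3])).symm
  have wc : π (R * X) c = c := by simp [hR, xc, swap_apply_of_ne_of_ne, Ne.symm ac, Ne.symm bc]
  have wd : π (R * X) d = d := by simp [hR, xd, swap_apply_of_ne_of_ne, Ne.symm ad, Ne.symm bd]
  have c1 : Commute (C₁ * C₂) (R * X) :=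
    (cm (h₁ ▸ c3_pow_three ac ad cd) (h₁ ▸ hw a (by simp [hR, xa, swap_apply_of_ne_of_ne, bc, bd]) wc wd)).mul_left
      (cm (h₂ ▸ c3_pow_three bc bd cd) (h₂ ▸ hw b (by simp [hR, xb, swap_apply_of_ne_of_ne, ac, ad]) wc wd))
  generalize C₁ * C₂ = C at hC c1
  have r2 := dt nd hR
  have c2 := dt (by simp [*, Ne.symm]) hC
  have rc := dt (t := R * C) (i := a) (u := d) (j := b) (v := c) (by simp [*, Ne.symm])
    (by rw [map_mul, hR, hC, v4 nd])
  have e1 : C * R = R * C * z⁻¹ := by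
    rw [← c2, pow_two, mul_inv_rev, mul_assoc R, mul_inv_cancel_left, eq_mul_inv_iff_mul_eq]
    exact mul_left_cancel (a := R) (by simpa only [pow_two, mul_assoc] using rc.trans r2.symm)
  have e2 : C * X * C⁻¹ = X * z := by
    have t : C * X * z⁻¹ = X * C := mul_left_cancel (a := R) (by
      rw [← mul_assoc R X, ← c1.eq, ← mul_assoc C R, e1, mul_assoc C, mem_center_iff.1 (inv_mem hz) X]
      simp only [mul_assoc])
    rw [mul_inv_eq_iff_eq_mul.1 t, mul_assoc X, zc C, ← mul_assoc, mul_inv_cancel_right]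
  refine ⟨X, Y * C, ?_⟩
  calc _ = X * Y * (C * X * C⁻¹)⁻¹ * Y⁻¹ := by group
    _ = z⁻¹ * (X * Y * X⁻¹ * Y⁻¹) := by
      rw [e2, mul_inv_rev, ← mul_assoc, mem_center_iff.1 (inv_mem hz) (X * Y)]; group
    _ = g := by rw [← h]; group

end Cfsg.Agent.S2493
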