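import Cfsg.Statements.S2495
import Cfsg.Agent.Classical.Eig7

set_option autoImplicit false
open Cfsg

namespace Cfsg.Agent.S2495

open Cfsg.Agent.Classical Cfsg.Agent.Classical.Eig Cfsg.Agent.Elu Cfsg.Agent.Geom

/-- Let q be an odd prime power, n ≥ 4 even, and L = PSL(n,q). Then L has an element of order q^(n/2) + 1 if and only if the 2-part of n exceeds the 2-part of q − 1. -/
theorem result {F : Type*} [Field F] [Fintype F] {q : ℕ} (hF : Fintype.card F = q) (hodd : Odd q)
    {n : ℕ} (hn : 4 ≤ n) (heven : Even n) :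
    (∃ g : Matrix.ProjectiveSpecialLinearGroup (Fin n) F, orderOf g = q ^ (n / 2) + 1) ↔
      padicValNat 2 (q - 1) < padicValNat 2 n := by
  obtain ⟨p, _⟩ := CharP.exists F
  have hp := Fact.mk (CharP.char_is_prime F p)
  have h1 := Fintype.one_lt_card (α := F)
  have h2 : qz F = q := by rw [qz, Nat.card_eq_fintype_card, hF]
  obtain ⟨h, rfl⟩ := heven.two_dvd
  have := half_mem_iff (q := q) (spec_PSL (F := F) (p := p) (2 * h)) du_card char_dvd_card
    (by rw [Nat.odd_iff] at hodd; omega) (by omega) (.inl h2)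
  rwa [h2, ← Nat.cast_pow, ← Nat.cast_succ, Int.natAbs_natCast,
    show ((q : ℤ) - 1).natAbs = q - 1 by omega, ← Nat.mul_div_cancel_left h two_pos,
    Nat.mul_div_cancel' (dvd_mul_right 2 h)] at this

end Cfsg.Agent.S2495
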