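import Cfsg.Statements.S2496
import Cfsg.Agent.Classical.Eig7

set_option autoImplicit false
open Cfsg

namespace Cfsg.Agent.S2496

open Cfsg.Agent.Classical Cfsg.Agent.Classical.Eig Cfsg.Agent.Elu Cfsg.Agent.Geom

/-- Let q be an odd prime power, n ≥ 4 even, and U = PSU(n,q) (realised over the field with q² elements). Then U has an element of order q^(n/2) + (−1)^(n/2) — that is, q^(n/2) + 1 when n/2 is even and q^(n/2) − 1 when n/2 is odd — if and only if the 2-part of n exceeds the 2-part of q + 1. -/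
theorem result {F : Type*} [Field F] [Fintype F] {q : ℕ} (hF : Fintype.card F = q ^ 2) (hodd : Odd q)
    {n : ℕ} (hn : 4 ≤ n) (heven : Even n) :
    (∃ g : Cfsg.PSU n F q, orderOf g = if Even (n / 2) then q ^ (n / 2) + 1 else q ^ (n / 2) - 1) ↔
      padicValNat 2 (q + 1) < padicValNat 2 n := by
  obtain ⟨p, _⟩ := CharP.exists F
  have hp := Fact.mk (CharP.char_is_prime F p)
  have h1 := one_lt_of_sq hF
  obtain ⟨h, rfl⟩ := heven.two_dvd
  have := half_mem_iff (q := q) (spec_PSU (p := p) hF (show 2 ≤ 2 * h by omega)) (du_neg_of_sq hF)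
    (char_dvd_neg hF) (by rw [Nat.odd_iff] at hodd; omega) (by omega) (.inr rfl)
  rw [show (-(q : ℤ) - 1).natAbs = q + 1 by omega] at this
  rw [← this, Nat.mul_div_cancel_left h two_pos]
  have := pow_pos (by omega : 0 < q) h
  split_ifs with h2
  · rw [h2.neg_pow, ← Nat.cast_pow, ← Nat.cast_succ, Int.natAbs_natCast]
  · rw [(Nat.not_even_iff_odd.1 h2).neg_pow, ← Nat.cast_pow,
      show (-((q ^ h : ℕ) : ℤ) + 1).natAbs = q ^ h - 1 by omega]

end Cfsg.Agent.S2496
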