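import Cfsg.Statements.S2503
import Cfsg.Agent.Classical.SL2Prod

set_option autoImplicit false
open Cfsg

namespace Cfsg.Agent.S2503

open Cfsg.Agent.Classical Matrix Subgroup MulAction

/-- Let F be a finite field with q = 2^t ≥ 4 elements and L = PSL(2,F). Then L has a cyclic subgroup A of order q + 1 and an elementary abelian 2-subgroup B of order q such that L = ABA: every element of L is a product a·b·a' with a, a' ∈ A and b ∈ B. -/
theorem result {F : Type*} [Field F] [Fintype F]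
    (h2 : 2 ∣ Fintype.card F) (h4 : 4 ≤ Fintype.card F) :
    ∃ A B : Subgroup (Matrix.ProjectiveSpecialLinearGroup (Fin 2) F),
      IsCyclic A ∧ Nat.card A = Fintype.card F + 1 ∧ IsMulCommutative B ∧ (∀ b ∈ B, b * b = 1) ∧
        Nat.card B = Fintype.card F ∧
        ∀ g : Matrix.ProjectiveSpecialLinearGroup (Fin 2) F, ∃ a ∈ A, ∃ b ∈ B, ∃ c ∈ A, g = a * b * c := by
  rw [← Nat.card_eq_fintype_card] at *
  have h2' : (2 : F) = 0 := two_eq_zero_iff_even.2 (even_iff_two_dvd.2 h2)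
  have : CharP F 2 := CharTwo.of_one_ne_zero_of_two_eq_zero one_ne_zero h2'
  obtain ⟨t', ht'⟩ := sl_exists_noEig (F := F)
  obtain ⟨s, ht⟩ : ∃ s : F, NoEig (compSL s).1 :=
    ⟨_, (noEig_congr (trace_compSL _) ((sl_det _).trans (sl_det t').symm)).2 ht'⟩
  have hi := pslMk_injective h2'
  have := sl_isCyclic_centralizer ht.disc_ne_zero
  refine ⟨(centralizer {compSL s}).map (pslMk F), ((unipAct_SL 2).U (inf : P1 F)).map (pslMk F),
    isCyclic_of_surjective _ (Subgroup.equivMapOfInjective _ _ hi).surjective,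
    by rw [card_map_of_injective hi, sl_card_centralizer_noEig ht], ⟨⟨?_⟩⟩, ?_, ?_, fun g => ?_⟩
  · rintro ⟨_, a, ha, rfl⟩ ⟨_, b, hb, rfl⟩
    obtain ⟨a, rfl⟩ := (mem_unipSL_inf 2).1 ha
    obtain ⟨b, rfl⟩ := (mem_unipSL_inf 2).1 hb
    exact Subtype.ext (by simp only [coe_mul, ← map_mul, ← uSL_add, add_comm])
  · rintro _ ⟨a, ha, rfl⟩
    rw [← map_mul, ← sq, ha.1, map_one]
  · rw [card_map_of_injective hi]
    exact (Nat.card_congr (Equiv.ofBijective
      (fun b => (⟨uSL b, (mem_unipSL_inf 2).2 ⟨b, rfl⟩⟩ : (unipAct_SL 2).U (inf : P1 F)))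
      ⟨fun a b h => uSL_injective (congrArg Subtype.val h), fun ⟨g, hg⟩ =>
        ((mem_unipSL_inf 2).1 hg).imp fun _ h => Subtype.ext h.symm⟩)).symm
  obtain ⟨g, rfl⟩ := pslMk_surjective g
  obtain ⟨b, hb⟩ := isSquare_of_two_eq_zero h2' ((compSL s * (g * compSL s * g⁻¹)).1.trace + s ^ 2)
  obtain ⟨α, β, h0, h1⟩ := exists_lin_intertwine 1 s (y := (g * compSL s * g⁻¹).1)
    (y' := (uSL b * compSL s * (uSL b)⁻¹).1) (by rw [sl_trace_conj, sl_trace_conj])
    ((sl_det _).trans (sl_det _).symm) (by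
      refine (eq_sub_of_add_eq hb).trans ?_
      rw [uSL_inv, sl_coe_mul, sl_coe_mul]
      simp [compSL, trace_fin_two]
      linear_combination (b * b - s ^ 2 + 1) * h2')
  obtain ⟨r, hr⟩ := isSquare_of_two_eq_zero h2' (α • 1 + β • (compSL s).1).det
  have hr0 : r ≠ 0 := by rintro rfl; exact ht.det_lin_ne_zero h0 (by simpa using hr)
  let a : Matrix.SpecialLinearGroup (Fin 2) F := ⟨r⁻¹ • (α • 1 + β • (compSL s).1), by
    rw [det_smul, hr, Fintype.card_fin]; field_simp⟩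
  have ha : a ∈ centralizer {compSL s} := (mem_centralizer_SL_iff_lin ht.not_isScal).2
    ⟨r⁻¹ * α, r⁻¹ * β, by simp [a, smul_smul]⟩
  have h3 : a * (g * compSL s * g⁻¹) = uSL b * compSL s * (uSL b)⁻¹ * a := Subtype.ext (by
    rw [sl_coe_mul a, sl_coe_mul _ a]
    simp only [a, smul_mul_assoc, mul_smul_comm]
    exact congrArg _ h1)
  refine ⟨_, mem_map_of_mem _ (inv_mem ha), _, mem_map_of_mem _ ((mem_unipSL_inf 2).2 ⟨b, rfl⟩),
    _, mem_map_of_mem _ (x := (uSL b)⁻¹ * a * g) (mem_centralizer_singleton_iff.2 ?_), ?_⟩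
  · calc _ = (uSL b)⁻¹ * (a * (g * compSL s * g⁻¹)) * g := by group
      _ = _ := by rw [h3]; group
  · rw [← map_mul, ← map_mul]; congr 1; group

end Cfsg.Agent.S2503
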