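import Cfsg.Statements.S2506
import Cfsg.Agent.SymN.Ab

set_option autoImplicit false
open scoped Pointwise
open Cfsg

namespace Cfsg.Agent.S2506


/-- In the alternating group of any degree, any two abelian subgroups of the largest possible order (among abelian subgroups) are conjugate. -/
theorem result (n : ℕ)
    (A B : Subgroup (alternatingGroup (Fin n))) (hA : IsMulCommutative A) (hB : IsMulCommutative B)
    (hAmax : ∀ C : Subgroup (alternatingGroup (Fin n)), IsMulCommutative C → Nat.card C ≤ Nat.card A)
    (hBmax : ∀ C : Subgroup (alternatingGroup (Fin n)), IsMulCommutative C → Nat.card C ≤ Nat.card B) :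
    ∃ g : alternatingGroup (Fin n), B = MulAut.conj g • A := by
  obtain ⟨⟨C, hC, cC⟩, hle⟩ := SymN.isGreatest_g n
  have cA : Nat.card A = SymN.g n := le_antisymm (hle ⟨A, hA, rfl⟩) (cC ▸ hAmax C hC)
  have cB : Nat.card B = SymN.g n := le_antisymm (hle ⟨B, hB, rfl⟩) (cC ▸ hBmax C hC)
  obtain ⟨s, hs, e⟩ := SymN.ab_conj n (Fin n) (Fintype.card_fin n)
    (A.map (alternatingGroup _).subtype) (B.map (alternatingGroup _).subtype) inferInstance
    inferInstance (SymN.even_map A) (SymN.even_map B) ((SymN.card_map_alt A).trans cA)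
    ((SymN.card_map_alt B).trans cB)
  exact ⟨_, SymN.alt_conj hs e⟩

end Cfsg.Agent.S2506
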