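import Cfsg.Statements.S2507
import Cfsg.Agent.Classical.PSL2Four

set_option autoImplicit false
open Cfsg

namespace Cfsg.Agent.S2507

open Cfsg.Agent.Classical Matrix Subgroup MulAction

/-- Let F be a finite field with q = 2^f ≥ 4 elements. The conjugacy class sizes of PSL(2,F) are exactly 1, q(q − 1), q² − 1 and q(q + 1). -/
theorem result {F : Type*} [Field F] [Fintype F]
    (h2 : 2 ∣ Fintype.card F) (h4 : 4 ≤ Fintype.card F) :
    Set.range (fun g : (Matrix.ProjectiveSpecialLinearGroup (Fin 2) F) => (Subgroup.centralizer ({g} : Set (Matrix.ProjectiveSpecialLinearGroup (Fin 2) F))).index) =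
      {1, Fintype.card F * (Fintype.card F - 1), Fintype.card F ^ 2 - 1, Fintype.card F * (Fintype.card F + 1)} := by
  rw [← Nat.card_eq_fintype_card] at *
  have h2' : (2 : F) = 0 := two_eq_zero_iff_even.2 (even_iff_two_dvd.2 h2)
  have hg := gcd_two_pred_of_even (even_iff_two_dvd.2 h2) (by omega)
  have hu : ∀ b : F, b ≠ 0 → (centralizer ({uSL b} : Set (Matrix.SpecialLinearGroup (Fin 2) F))).index =
      Nat.card F ^ 2 - 1 := fun b hb => by rw [← index_centralizer_uSL hb, hg, one_mul]
  ext n
  simp only [Set.mem_range, pslMk_surjective.exists, index_centralizer_pslMk (Or.inr h2'),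
    Set.mem_insert_iff, Set.mem_singleton_iff]
  constructor
  · rintro ⟨g, rfl⟩
    by_cases h : disc g.1 = 0
    · obtain ⟨b, hb⟩ := sl_isConj_uSL_of_disc h
      rw [← neg_one_mul, sl_neg_one_eq_one h2', one_mul, or_self] at hb
      rw [← card_carrier_mk, ConjClasses.mk_eq_mk_iff_isConj.2 hb, card_carrier_mk]
      by_cases h0 : b = 0
      · simp [h0]
      · simp [hu b h0]
    · by_cases h' : NoEig g.1
      · simp [index_centralizer_noEig h']
      · simp [index_centralizer_split h h']
  · rintro (rfl | rfl | rfl | rfl)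
    · exact ⟨1, by simp⟩
    · exact sl_exists_noEig.imp fun g => index_centralizer_noEig
    · exact ⟨_, hu 1 one_ne_zero⟩
    · obtain ⟨a, ha, -⟩ := exists_dSL_generator (F := F)
      refine ⟨dSL a, index_centralizer_split ((disc_dSL a).2 fun h => ?_) (not_noEig_dSL a)⟩
      have := orderOf_le_of_pow_eq_one (x := dSL a) two_pos (by
        rw [sq, ← dSL_mul, show a * a = 1 from Units.ext (by simpa [sq] using h)]
        exact map_one (dSLHom F))
      omega

end Cfsg.Agent.S2507
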