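import Cfsg.Statements.S2508
import Cfsg.Agent.Classical.PSL2Four

set_option autoImplicit false
open Cfsg

namespace Cfsg.Agent.S2508

open Cfsg.Agent.Classical Matrix Subgroup MulAction

/-- Let F be a finite field with q elements, q odd and q ≥ 7. If q ≡ 1 (mod 4) the conjugacy class sizes of PSL(2,F) are exactly 1, (q² − 1)/2, q(q + 1)/2, q(q − 1) and q(q + 1); if q ≡ 3 (mod 4) they are exactly 1, (q² − 1)/2, q(q − 1)/2, q(q + 1) and q(q − 1). -/
theorem result {F : Type*} [Field F] [Fintype F]
    (hodd : ¬ 2 ∣ Fintype.card F) (h7 : 7 ≤ Fintype.card F) :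
    (Fintype.card F % 4 = 1 →
      Set.range (fun g : (Matrix.ProjectiveSpecialLinearGroup (Fin 2) F) => (Subgroup.centralizer ({g} : Set (Matrix.ProjectiveSpecialLinearGroup (Fin 2) F))).index) =
        {1, (Fintype.card F ^ 2 - 1) / 2, Fintype.card F * (Fintype.card F + 1) / 2,
          Fintype.card F * (Fintype.card F - 1), Fintype.card F * (Fintype.card F + 1)}) ∧
    (Fintype.card F % 4 = 3 →
      Set.range (fun g : (Matrix.ProjectiveSpecialLinearGroup (Fin 2) F) => (Subgroup.centralizer ({g} : Set (Matrix.ProjectiveSpecialLinearGroup (Fin 2) F))).index) =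
        {1, (Fintype.card F ^ 2 - 1) / 2, Fintype.card F * (Fintype.card F - 1) / 2,
          Fintype.card F * (Fintype.card F + 1), Fintype.card F * (Fintype.card F - 1)}) := by
  rw [← Nat.card_eq_fintype_card] at *
  have ho : Odd (Nat.card F) := Nat.odd_iff.2 (by omega)
  have h2 := two_ne_zero_iff_odd.2 ho
  have hg := gcd_two_pred_of_odd ho
  have hu : ∀ b : F, b ≠ 0 → (centralizer ({pslMk F (uSL b)} :
      Set (ProjectiveSpecialLinearGroup (Fin 2) F))).index = (Nat.card F ^ 2 - 1) / 2 :=
    fun b hb => by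
      rw [index_centralizer_pslMk (Or.inl (by simpa [one_add_one_eq_two] using h2)),
        ← index_centralizer_uSL hb, hg, Nat.mul_div_cancel_left _ two_pos]
  have hd : ∀ g : Matrix.SpecialLinearGroup (Fin 2) F, g.1.trace = 0 → disc g.1 ≠ 0 := fun g h => by
    rw [sl_disc, h]; convert neg_ne_zero.2 (mul_ne_zero h2 h2); ring
  have key : ∀ m, (∀ g : Matrix.SpecialLinearGroup (Fin 2) F, g.1.trace = 0 →
      (centralizer ({g} : Set (Matrix.SpecialLinearGroup (Fin 2) F))).index = m) →
      Set.range (fun g : ProjectiveSpecialLinearGroup (Fin 2) F => (centralizer ({g} :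
        Set (ProjectiveSpecialLinearGroup (Fin 2) F))).index) = {1, (Nat.card F ^ 2 - 1) / 2, m / 2,
          Nat.card F * (Nat.card F - 1), Nat.card F * (Nat.card F + 1)} := fun m hm => by
    have h0 : ∀ g : Matrix.SpecialLinearGroup (Fin 2) F, g.1.trace = 0 → (centralizer ({pslMk F g} :
        Set (ProjectiveSpecialLinearGroup (Fin 2) F))).index = m / 2 := fun g h => by
      rw [← hm g h, ← two_mul_index_centralizer h2 h, Nat.mul_div_cancel_left _ two_pos]
    have h4 : ∀ g : Matrix.SpecialLinearGroup (Fin 2) F, 4 < orderOf g → g.1.trace ≠ 0 :=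
      fun g h e => (orderOf_le_of_pow_eq_one (by norm_num) (sl_pow_four e)).not_gt h
    ext n
    simp only [Set.mem_range, pslMk_surjective.exists, Set.mem_insert_iff, Set.mem_singleton_iff]
    constructor
    · rintro ⟨g, rfl⟩
      by_cases h : disc g.1 = 0
      · obtain ⟨b, hb⟩ := sl_isConj_uSL_of_disc h
        have : IsConj (pslMk F g) (pslMk F (uSL b)) :=
          hb.elim (pslMk F).map_isConj fun h => pslMk_neg (uSL b) ▸ (pslMk F).map_isConj h
        rw [← card_carrier_mk, ConjClasses.mk_eq_mk_iff_isConj.2 this, card_carrier_mk]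
        by_cases h0 : b = 0
        · simp [h0]
        · rw [hu b h0]; tauto
      by_cases ht : g.1.trace = 0
      · rw [h0 g ht]; tauto
      rw [index_centralizer_pslMk (Or.inl ht)]
      by_cases h' : NoEig g.1
      · simp [index_centralizer_noEig h']
      · simp [index_centralizer_split h h']
    · rintro (rfl | rfl | rfl | rfl | rfl)
      · exact ⟨1, by simp⟩
      · exact ⟨_, hu 1 one_ne_zero⟩
      · exact ⟨wSL, h0 _ (by simp)⟩
      · obtain ⟨t, a, b, -⟩ := sl_exists_orderOf_succ (F := F)
        exact ⟨t, by rw [index_centralizer_pslMk (Or.inl (h4 t (by omega))),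
          index_centralizer_noEig b]⟩
      · obtain ⟨a, ha, -⟩ := exists_dSL_generator (F := F)
        refine ⟨dSL a, (index_centralizer_pslMk (Or.inl (h4 _ (by omega)))).trans
          (index_centralizer_split ((disc_dSL a).2 fun h => ?_) (not_noEig_dSL a))⟩
        have := orderOf_le_of_pow_eq_one (x := dSL a) two_pos (by
          rw [sq, ← dSL_mul, show a * a = 1 from Units.ext (by simpa [sq] using h)]
          exact map_one (dSLHom F))
        omega
  refine ⟨fun h => key _ fun g ht => index_centralizer_split (hd g ht) ?_, fun h => ?_⟩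
  · rw [noEig_iff_of_trace_zero ht]; omega
  · rw [key _ fun g ht => index_centralizer_noEig ((noEig_iff_of_trace_zero ht).2 h),
      Set.pair_comm (_ * (_ - 1))]

end Cfsg.Agent.S2508
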