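import Cfsg.Statements.S2511
import Cfsg.Agent.Classical.Eig4

set_option autoImplicit false
open Cfsg

namespace Cfsg.Agent.S2511

open Cfsg.Agent.Classical Cfsg.Agent.Classical.Eig

/-- Let F be a finite field with q² elements, q = p^a, n ≥ 3 with (n, q) ≠ (3, 2), L = PSU(n, q) realised over F, and let r be a prime dividing q + 1 and not dividing n. Then for every m the direct product L × L × L × (ℤ/r)^m has the same set of element orders as L × L × L; and if n − 1 is not a power of p, then already L × L × (ℤ/r)^m has the same set of element orders as L × L. -/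
theorem result {F : Type*} [Field F] [Fintype F] (p a n q r m : ℕ) (hp : p.Prime) (ha : 1 ≤ a) (hq : q = p ^ a) (hF : Fintype.card F = q ^ 2)
    (hn : 3 ≤ n) (hn3 : ¬ (n = 3 ∧ q = 2)) (hr : r.Prime) (hrq : r ∣ q + 1) (hrn : ¬ r ∣ n) :
    Set.range (orderOf : Cfsg.PSU n F q × Cfsg.PSU n F q × Cfsg.PSU n F q × Multiplicative (Fin m → ZMod r) → ℕ) = Set.range (orderOf : Cfsg.PSU n F q × Cfsg.PSU n F q × Cfsg.PSU n F q → ℕ) ∧
    ((¬ ∃ j : ℕ, n - 1 = p ^ j) →
      Set.range (orderOf : Cfsg.PSU n F q × Cfsg.PSU n F q × Multiplicative (Fin m → ZMod r) → ℕ) = Set.range (orderOf : Cfsg.PSU n F q × Cfsg.PSU n F q → ℕ)) := by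
  have := Fact.mk hp
  have := charP_of_dvd (F := F) hp (hF ▸ hq ▸ (dvd_pow_self p (by omega)).trans (dvd_pow_self _ two_ne_zero))
  refine spec_prod (spec_PSU hF (by omega)) (du_herm (Nat.card_eq_fintype_card.trans hF)) ?_
    (by omega) hr ?_ hrn m
  · rw [dvd_neg, hq]
    exact_mod_cast dvd_pow_self p (by omega)
  · rw [← dvd_neg, neg_sub, sub_neg_eq_add, add_comm]
    exact_mod_cast hrq

end Cfsg.Agent.S2511
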