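import Cfsg.Statements.S2512
import Cfsg.Agent.Classical.Eig5

set_option autoImplicit false
open Cfsg

namespace Cfsg.Agent.S2512

open Cfsg.Agent.Classical Cfsg.Agent.Classical.Eig Cfsg.Agent.Elu Cfsg.Agent.Geom

/-- Let F be a finite field of odd order q = p^a, n ≥ 2 (with q ≥ 3 automatic), and L = PSp(2n, F). Then for every m the direct product L × L × L × (ℤ/2)^m has the same set of element orders as L × L × L; and if 2n − 1 is not a power of p, then already L × L × (ℤ/2)^m has the same set of element orders as L × L. -/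
theorem result {F : Type*} [Field F] [Fintype F] (p a n m : ℕ) (hp : p.Prime) (ha : 1 ≤ a) (hF : Fintype.card F = p ^ a) (hodd : Odd (Fintype.card F))
    (hn : 2 ≤ n) :
    Set.range (orderOf : Cfsg.PSp n F × Cfsg.PSp n F × Cfsg.PSp n F × Multiplicative (Fin m → ZMod 2) → ℕ) = Set.range (orderOf : Cfsg.PSp n F × Cfsg.PSp n F × Cfsg.PSp n F → ℕ) ∧
    ((¬ ∃ j : ℕ, 2 * n - 1 = p ^ j) →
      Set.range (orderOf : Cfsg.PSp n F × Cfsg.PSp n F × Multiplicative (Fin m → ZMod 2) → ℕ) = Set.range (orderOf : Cfsg.PSp n F × Cfsg.PSp n F → ℕ)) := by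
  have := Fact.mk hp
  have := charP_of_dvd (F := F) hp (hF ▸ dvd_pow_self p (by omega))
  have hp2 : Odd p := (Nat.odd_pow_iff (by omega)).1 (hF ▸ hodd)
  have h2 : (2 : F) ≠ 0 := cast_two_ne (p := p) (by rintro rfl; exact absurd hp2 (by decide))
  have hq : Odd (qz F ^ n) := Odd.pow (by simpa [qz] using hodd)
  have hq3 : (3 : ℤ) ^ 2 ≤ qz F ^ n := by
    have := card_mod_four h2
    have : 1 < Nat.card F := Finite.one_lt_card
    exact (pow_le_pow_left₀ (by omega) (by unfold qz; omega) 2).trans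
      (pow_le_pow_right₀ (by unfold qz; omega) hn)
  have h1 : 2 ∈ Set.range (orderOf : PSp n F → ℕ) := by
    simpa using SpR.zero.mem_two (p := p) (m := 1) h2 (by simp; omega) hn odd_one (by simp)
  have h3 : p ^ Nat.clog p (2 * n) ∈ Set.range (orderOf : PSp n F → ℕ) :=
    (SpR.unip (j := n) (by omega)).mem_pad (p := p) (by simp [bdim_of_sq]) (.inr ⟨_, Multiset.mem_singleton_self _⟩)
      fun k => by simp [up_iff_dvd hp.one_lt]
  obtain ⟨c, hc, h4⟩ : ∃ c : ℕ, c ∈ Set.range (orderOf : PSp n F → ℕ) ∧ ∀ a : ℕ, Odd a →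
      ((a : ℤ) ∣ qz F ^ n - 1 ∨ (a : ℤ) ∣ qz F ^ n + 1) → a ∣ c ∨
        (((2 * (2 * a) : ℕ) : ℤ) ∣ qz F ^ n - 1 ∨ ((2 * (2 * a) : ℕ) : ℤ) ∣ qz F ^ n + 1) := by
    have key : ∀ (a : ℕ) (x : ℤ), Odd a → (a : ℤ) ∣ x → 4 ∣ x → ((2 * (2 * a) : ℕ) : ℤ) ∣ x :=
      fun a x ha h h' => by
        rw [← mul_assoc, Nat.cast_mul]
        exact (Nat.isCoprime_iff_coprime.2 ((Nat.coprime_two_left.2 ha).mul_left
          (Nat.coprime_two_left.2 ha))).mul_dvd h' h
    have key' : ∀ (a c : ℕ), Odd a → (a : ℤ) ∣ (2 * c : ℕ) → a ∣ c := fun a c ha h =>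
      (Nat.coprime_two_right.2 ha).dvd_of_dvd_mul_left (Int.natCast_dvd_natCast.1 h)
    obtain ⟨t, ht⟩ := hq
    lift t to ℕ using by omega
    by_cases h : 4 ∣ qz F ^ n - 1
    · have h5 : ((2 * (t + 1) : ℕ) : ℤ) = qz F ^ n + 1 := by push_cast; omega
      exact ⟨t + 1, tor_mem_PSp (by omega) (by omega) (.inr h5.dvd), fun a ha h' => h'.elim
        (fun h' => .inr (.inl (key a _ ha h' h))) fun h' => .inl (key' a _ ha (h5 ▸ h'))⟩
    · have h5 : ((2 * t : ℕ) : ℤ) = qz F ^ n - 1 := by push_cast; omega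
      exact ⟨t, tor_mem_PSp (by omega) (by omega) (.inl h5.dvd), fun a ha h' => h'.elim
        (fun h' => .inl (key' a _ ha (h5 ▸ h'))) fun h' => .inr (.inr (key a _ ha h' (by omega)))⟩
  have H : ∀ b ∈ Set.range (orderOf : PSp n F → ℕ), b.lcm 2 ∈ Set.range (orderOf : PSp n F → ℕ) ∨
      b ∣ c ∨ (∃ j, 2 * n - 1 = p ^ j) ∧ b ∣ p ^ Nat.clog p (2 * n) := fun b hb => by
    rcases b.even_or_odd with h | h
    · exact .inl (by rwa [Nat.lcm_eq_left h.two_dvd])
    obtain ⟨A, h5, h6, h7⟩ := exists_of_mem_PSp_odd (p := p) h hb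
    obtain ⟨S, j, h8, h9, h18, h10, h11⟩ := OT.of_odd (n := n) hp2 h h5 (by omega) h7
    obtain ⟨U, h12, h13, h14⟩ := exists_spU (F := F) hp2 j
    rcases h10.lt_or_eq with h10 | h10
    · exact .inl (((SpR.of_ne h8 h9).add h12).mem_two (p := p) h2 (by
        rw [bdim_add, bdim_of_ne h9]; omega) hn h fun k => by rw [kil_add, h14, h11])
    rcases S.empty_or_exists_mem with rfl | ⟨z, hz⟩
    · obtain rfl : j = n := by simpa using h10
      simp only [kil_zero, true_and, up_odd hp2] at h11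
      by_cases h15 : ∃ i, 2 * j - 1 = p ^ i
      · exact .inr (.inr ⟨h15, (h11 _).1 ((up_iff_dvd hp.one_lt).2 dvd_rfl)⟩)
      obtain ⟨U, h12, h13, h14⟩ := exists_spU (F := F) hp2 (j - 1)
      refine .inl (h12.mem_two (p := p) h2 (by omega) hn h fun k => ?_)
      rw [h14, ← h11, show 2 * (j - 1) + 1 = 2 * j - 1 by omega, ← up_succ h15,
        Nat.sub_add_cancel (by omega)]
    obtain ⟨S, rfl⟩ := Multiset.exists_cons_of_mem hz
    rw [pos_cons] at h8
    rw [Multiset.forall_mem_cons] at h9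
    obtain ⟨h15, h16⟩ := SpR.tw (pos_singleton.2 h8.1) (by simpa using h9.1)
    by_cases h17 : S + U = 0
    · obtain ⟨rfl, rfl⟩ := add_eq_zero.1 h17
      obtain rfl : j = 0 := by simpa using h13
      replace h18 := h18 z hz
      have h19 : b = orderOf z.1 := eq_of_forall_dvd fun k => by simp [← h11, h18]
      refine (h4 b h (h19 ▸ eta_dvd_iff'.1 (Eq.dvd (by simpa [h18] using h10)))).elim
        (.inr ∘ .inl) fun h20 => .inl ?_
      rw [(Nat.coprime_two_right.2 h).lcm_eq_mul, mul_comm]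
      exact tor_mem_PSp (by omega) (by have := h.pos; omega) h20
    · exact .inl (((SpR.of_ne h8.2 h9.2).add h12).mem_tw (p := p) h2 h15 h17 (by simp) (by
        rw [h16, bdim_add, bdim_of_ne h9.2, h13, ← h10]; simp; ring) h fun k => by
          simp only [kil_add, kil_singleton, h14, ← h11, kil_cons]; tauto)
  exact ⟨spec_prod_three Nat.prime_two h1 hc h3 m fun a ha => (H a ha).imp_right (·.imp_right (·.2)),
    fun h => spec_prod_two Nat.prime_two h1 hc m fun a ha =>
      (H a ha).imp_right (·.resolve_right (h ·.1))⟩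

end Cfsg.Agent.S2512
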