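import Cfsg.Statements.S2513
import Cfsg.Agent.Classical.Eig4

set_option autoImplicit false
open Cfsg

namespace Cfsg.Agent.S2513

open Cfsg.Agent.Classical Cfsg.Agent.Classical.Eig

/-- Let F be the field with two elements, n ≥ 2, L = PSL(n, F) and k₀ = ⌊(n + 3)/2⌋. Then for every k ≥ k₀ the direct product of k copies of L has the same set of element orders as the direct product of k₀ copies of L. -/
theorem result {F : Type*} [Field F] [Fintype F] (hF : Fintype.card F = 2) (n k : ℕ) (hn : 2 ≤ n) (hk : (n + 3) / 2 ≤ k) :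
    Set.range (orderOf : (Fin k → Matrix.ProjectiveSpecialLinearGroup (Fin n) F) → ℕ) = Set.range (orderOf : (Fin ((n + 3) / 2) → Matrix.ProjectiveSpecialLinearGroup (Fin n) F) → ℕ) := by
  have := charP_of_dvd (F := F) Nat.prime_two hF.symm.dvd
  have hq : qz F = 2 := by simp [qz, hF]
  have hS := spec_PSL (F := F) (p := 2) n
  rw [hq] at hS
  set L := Matrix.ProjectiveSpecialLinearGroup (Fin n) F
  suffices ∀ k, (n + 3) / 2 ≤ k →
      Set.range (orderOf : (Fin k → L) → ℕ) = {m | m ∣ Monoid.exponent L} by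
    rw [this k hk, this _ le_rfl]
  intro k hk
  refine Set.ext fun m => ⟨?_, fun hm => ?_⟩
  · rintro ⟨x, rfl⟩
    exact orderOf_dvd_of_pow_eq_one (funext fun i => Monoid.pow_exponent_eq_one (x i))
  have h1 : ∀ j, 0 < j → j ≤ n → ∃ g : L, orderOf g = 2 ^ j - 1 := fun j h0 hj => by
    obtain ⟨γ, hγ⟩ := exists_ord (F := F) (p := 2) (m := 2 ^ j - 1) (by
      have : 2 ∣ 2 ^ j := dvd_pow_self 2 h0.ne'
      have : 0 < 2 ^ j := by positivity
      omega)
    have h2 : γ ^ geo 2 j = 1 := by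
      rw [← mul_one (geo 2 j), show (1 : ℤ) = 2 - 1 from rfl, geo_mul,
        ← orderOf_dvd_iff_zpow_eq_one, hγ, Nat.cast_pred (by positivity)]
      simp
    have h3 := zpow_of_geo h2
    refine hS.ge (mem_spec (A := tb 2 γ j + Multiset.replicate (n - j) (1, 1))
      (by simp [pos_tb, pos_replicate]) (by simp [tdim_tb h3, hj]) (by simp [tdet_tb h3, h2])
      fun k => ?_)
    simp only [Kill, zpow_ofNat, sq, mul_eq_left, exists_eq_left, forall_add, forall_tb h3 h0,
      forall_replicate (P := fun z : Kb F × ℕ => z.1 ^ k = 1 ∧ Up 2 k z.2) (a := (1, 1))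
        ⟨one_pow _, Up.one _ _⟩, Up.one, and_true, ← hγ, orderOf_dvd_iff_pow_eq_one]
  obtain ⟨u, hu⟩ := hS.ge (unip_mem_spec (by omega))
  choose! g hg using h1
  refine spec_dvd ⟨fun i : Fin k => if i.1 = 0 then u else g (min n (n / 2 + i)), rfl⟩
    (dvd_trans hm (Monoid.exponent_dvd_of_forall_pow_eq_one fun y => ?_))
  generalize hx : (fun i : Fin k => if i.1 = 0 then u else g (min n (n / 2 + i))) = x
  have h2 : ∀ i, orderOf (x i) ∣ orderOf x := fun i => orderOf_apply_dvd_orderOf i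
  obtain ⟨A, ⟨h3, h4, -⟩, h5⟩ := hS.le ⟨y, rfl⟩
  refine orderOf_dvd_iff_pow_eq_one.1 ((h5 _).1 ⟨1, by simp, fun z hz => ?_⟩)
  have h6 : per 2 z.1 * z.2 ≤ n := h4 ▸ Multiset.single_le_sum (by simp) _
    (Multiset.mem_map_of_mem (fun z : Kb F × ℕ => per 2 z.1 * z.2) hz)
  have h7 : 0 < per 2 z.1 := hq ▸ per_card_pos _
  have h8 := h3 z hz
  constructor
  · have h9 : per 2 z.1 ≤ n := le_trans (Nat.le_mul_of_pos_right _ h8) h6
    have h10 := Nat.div_add_mod n (per 2 z.1)
    have h11 := Nat.mod_lt n h7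
    have h12 := Nat.le_mul_of_pos_right (per 2 z.1) (Nat.div_pos h9 h7)
    have h13 := per_dvd_iff'.1 (dvd_mul_right (per 2 z.1) (n / per 2 z.1))
    generalize per 2 z.1 * (n / per 2 z.1) = j at *
    have h14 := h2 ⟨j - n / 2, by omega⟩
    simp only [← hx] at h14
    rw [if_neg (by omega), show min n (n / 2 + (j - n / 2)) = j by omega, hg j (by omega) (by omega),
      hx] at h14
    refine orderOf_dvd_iff_pow_eq_one.1 (dvd_trans ?_ h14)
    rw [← Int.natCast_dvd_natCast, Nat.cast_pred (by positivity)]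
    exact_mod_cast h13
  · have h9 := h2 ⟨0, by omega⟩
    simp only [← hx, if_true, hu] at h9
    exact ((up_iff_dvd one_lt_two).2 (hx ▸ h9)).mono dvd_rfl
      (le_trans (Nat.le_mul_of_pos_left _ h7) h6)

end Cfsg.Agent.S2513
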