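import Cfsg.Statements.S2514
import Mathlib.Data.Set.Finite.Lemmas

set_option autoImplicit false
open Cfsg

namespace Cfsg.Agent.S2514

theorem exists_max {G : Type*} [Group G] [Finite G] (g : G) : ∃ n, (n ∈ Set.range (orderOf : G → ℕ) ∧
    ∀ m ∈ Set.range (orderOf : G → ℕ), n ∣ m → m = n) ∧ orderOf g ∣ n := by
  obtain ⟨x, hx, h⟩ := Set.exists_max_image {x : G | orderOf g ∣ orderOf x} orderOf (Set.toFinite _) ⟨g, dvd_rfl⟩
  refine ⟨_, ⟨⟨x, rfl⟩, ?_⟩, hx⟩
  rintro _ ⟨y, rfl⟩ hy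
  exact le_antisymm (h y (dvd_trans hx hy)) (Nat.le_of_dvd (orderOf_pos y) hy)

theorem exists_of_dvd {G : Type*} [Group G] [Finite G] {n d : ℕ} (h : n ∈ Set.range (orderOf : G → ℕ)) (hd : d ∣ n) :
    ∃ g : G, ∀ k, g ^ k = 1 ↔ d ∣ k := by
  obtain ⟨g, rfl⟩ := h
  exact ⟨g ^ (orderOf g / d), fun k => by rw [← orderOf_dvd_iff_pow_eq_one, orderOf_pow_orderOf_div (orderOf_pos g).ne' hd]⟩

/-- For a finite group X write μ(X) for the set of element orders of X that are maximal under divisibility. Let G and H be finite groups and k ≥ 1 such that μ(H) ⊆ μ(G) and μ(G) has fewer than k elements outside μ(H). Then the direct product of k copies of G has the same set of element orders as the direct product of k − 1 copies of G with H. -/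
theorem result {G H : Type*} [Group G] [Finite G] [Group H] [Finite H] (k : ℕ) (hk : 1 ≤ k)
    (hsub : {n : ℕ | n ∈ Set.range (orderOf : H → ℕ) ∧ ∀ m ∈ Set.range (orderOf : H → ℕ), n ∣ m → m = n} ⊆ {n : ℕ | n ∈ Set.range (orderOf : G → ℕ) ∧ ∀ m ∈ Set.range (orderOf : G → ℕ), n ∣ m → m = n})
    (hfew : ({n : ℕ | n ∈ Set.range (orderOf : G → ℕ) ∧ ∀ m ∈ Set.range (orderOf : G → ℕ), n ∣ m → m = n} \ {n : ℕ | n ∈ Set.range (orderOf : H → ℕ) ∧ ∀ m ∈ Set.range (orderOf : H → ℕ), n ∣ m → m = n}).ncard < k) :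
    Set.range (orderOf : (Fin k → G) → ℕ) = Set.range (orderOf : (Fin (k - 1) → G) × H → ℕ) := by
  classical
  obtain ⟨k, rfl⟩ : ∃ j, k = j + 1 := ⟨k - 1, by omega⟩
  change _ = Set.range (orderOf : (Fin k → G) × H → ℕ)
  ext d
  constructor
  · rintro ⟨x, rfl⟩
    choose m hm hd using fun i => exists_max (x i)
    by_cases h : ∃ i, m i ∈ Set.range (orderOf : H → ℕ)
    · obtain ⟨i, hi⟩ := h
      obtain ⟨y, hy⟩ := exists_of_dvd hi (hd i)
      refine ⟨(fun j => x (i.succAbove j), y), orderOf_eq_orderOf_iff.2 fun n => ?_⟩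
      simp only [Prod.ext_iff, Prod.pow_snd, Prod.snd_one, hy, orderOf_dvd_iff_pow_eq_one, funext_iff]
      rw [Fin.forall_iff_succAbove i, and_comm]; rfl
    obtain ⟨a, b, hab, e⟩ : ∃ a b, a ≠ b ∧ m a = m b := by
      by_contra! h'
      have := lt_of_le_of_lt (Set.ncard_le_ncard_of_injOn m (s := Set.univ) (fun i _ => Set.mem_sdiff_of_mem (hm i) fun h1 => h ⟨i, h1.1⟩)
        (fun a _ b _ e => by_contra fun h => h' a b h e)
        ((Set.finite_range (orderOf : G → ℕ)).subset fun n hn => hn.1.1)) hfew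
      simp at this
    obtain ⟨y, hy⟩ := exists_of_dvd (hm a).1 (Nat.lcm_dvd (hd a) (e ▸ hd b))
    obtain ⟨c, rfl⟩ := Fin.exists_succAbove_eq hab
    refine ⟨(Function.update (fun j => x (b.succAbove j)) c y, 1), orderOf_eq_orderOf_iff.2 fun n => ?_⟩
    simp only [Prod.ext_iff, Prod.pow_snd, Prod.snd_one, one_pow, and_true, funext_iff, Prod.pow_fst, Pi.pow_apply,
      Prod.fst_one, Pi.one_apply]
    rw [Fin.forall_iff_succAbove b, Function.forall_update_iff (p := fun _ g => g ^ n = 1), hy, Nat.lcm_dvd_iff]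
    simp only [orderOf_dvd_iff_pow_eq_one]
    exact ⟨fun h => ⟨h.1.2, fun j => if e : j = c then e ▸ h.1.1 else h.2 j e⟩, fun h => ⟨⟨h.2 c, h.1⟩, fun j _ => h.2 j⟩⟩
  · rintro ⟨⟨x, y⟩, rfl⟩
    obtain ⟨n, hn, hd⟩ := exists_max y
    obtain ⟨g, hg⟩ := exists_of_dvd (hsub hn).1 hd
    refine ⟨Fin.cons g x, orderOf_eq_orderOf_iff.2 fun n => ?_⟩
    simp only [Prod.ext_iff, funext_iff, Fin.forall_fin_succ, Pi.pow_apply, Fin.cons_zero, Fin.cons_succ, Pi.one_apply, hg,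
      orderOf_dvd_iff_pow_eq_one]
    exact and_comm

end Cfsg.Agent.S2514
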