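import Cfsg.Statements.S2515
import Cfsg.Agent.Ree.Aff
import Cfsg.Agent.Ree.Inst

set_option autoImplicit false
open Cfsg

namespace Cfsg.Agent.S2515

/-- Let q = 3^α with α ≥ 3 odd. There is a finite group H having a non-trivial normal 3-subgroup and whose element orders maximal under divisibility are exactly 6, 9, q − 1 and (q + 1)/2. -/
theorem result (α : ℕ) (hα : 3 ≤ α) (hodd : Odd α) :
    ∃ (H : Type) (_ : Group H) (_ : Fintype H), (∃ P : Subgroup H, P.Normal ∧ P ≠ ⊥ ∧ IsPGroup 3 ↥P) ∧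
      {n : ℕ | n ∈ Set.range (orderOf : H → ℕ) ∧ ∀ m ∈ Set.range (orderOf : H → ℕ), n ∣ m → m = n} = ({6, 9, 3 ^ α - 1, (3 ^ α + 1) / 2} : Set ℕ) := by
  obtain ⟨m, rfl⟩ := hodd
  have := Fact.mk Nat.prime_three
  have hK : Nat.card (GaloisField 3 (2 * m + 1)) = 3 ^ (2 * m + 1) := GaloisField.card 3 _ (by omega)
  obtain ⟨R, h, -⟩ := Ree.exists_RC hK
  have hm : 1 ≤ R.m := by omega
  obtain ⟨F, _, _, -, hP, hF⟩ := R.exists_aff hm 0
  refine ⟨F, inferInstance, Fintype.ofFinite F, hP, ?_⟩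
  have h27 := R.le_q hm
  have h1 := R.not_three_dvd_pred
  have h2 := R.not_three_dvd_half
  have h3 : ∀ {d}, _ → _ → d ≤ 2 := R.le_two_of_dvd
  simp only [Set.mem_range, hF]
  rw [hK] at *
  generalize 3 ^ (2 * m + 1) = q at *
  have h4 : ∀ {a b : ℕ}, 3 ∣ a → a ∣ b → 3 ∣ b := dvd_trans
  ext n
  simp only [Set.mem_ofPred_eq, Set.mem_insert_iff, Set.mem_singleton_iff]
  constructor
  · rintro ⟨h | h | h | h, h'⟩ <;> simp [← h' _ (by simp) h]
  · rintro (rfl | rfl | rfl | rfl) <;> refine ⟨by simp, ?_⟩ <;> rintro n (h | h | h | h) h' <;>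
      first
      | exact Nat.dvd_antisymm h h'
      | exact absurd (h'.trans h) (by decide)
      | exact absurd (h4 (by decide) (h'.trans h)) ‹_›
      | (have := Nat.le_of_dvd (by decide) (h'.trans h); omega)
      | (have := h3 dvd_rfl (h'.trans h); omega)
      | (have := h3 (h'.trans h) dvd_rfl; omega)

end Cfsg.Agent.S2515
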