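import Cfsg.Statements.S2516

set_option autoImplicit false
open Cfsg

namespace Cfsg.Agent.S2516

/-- Let F be a field of characteristic p > 0, V a non-zero finite-dimensional F-vector space, G a finite group and ρ a representation of G on V; form the semidirect product V ⋊ G. For g ∈ G of order k, the coset Vg contains an element of order pk if and only if the minimal polynomial of ρ(g) does not divide 1 + X + ⋯ + X^(k−1). -/
theorem result {F : Type*} [Field F] (p : ℕ) [Fact p.Prime] [CharP F p] {V : Type*} [AddCommGroup V] [Module F V] [FiniteDimensional F V] [Nontrivial V]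
    {G : Type*} [Group G] [Finite G] (ρ : Representation F G V) (g : G) :
    (∃ x : Multiplicative V ⋊[(MulAutMultiplicative V).symm.toMonoidHom.comp
        ((DistribMulAction.toAddAut ((V →ₗ[F] V)ˣ) V).comp ρ.asGroupHom)] G,
        x.right = g ∧ orderOf x = p * orderOf g) ↔
      ¬ (minpoly F (ρ g) ∣ ∑ i ∈ Finset.range (orderOf g), (Polynomial.X : Polynomial F) ^ i) := by
  have key : ∀ (x : Multiplicative V ⋊[(MulAutMultiplicative V).symm.toMonoidHom.comp
        ((DistribMulAction.toAddAut ((V →ₗ[F] V)ˣ) V).comp ρ.asGroupHom)] G) (n : ℕ), (x ^ n).right = x.right ^ n ∧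
      (x ^ n).left.toAdd = Polynomial.aeval (ρ x.right) (∑ i ∈ Finset.range n, (Polynomial.X : Polynomial F) ^ i) x.left.toAdd := by
    intro x n
    refine ⟨map_pow SemidirectProduct.rightHom x n, ?_⟩
    induction n with
    | zero => rw [pow_zero]; simp
    | succ n ih =>
      rw [pow_succ, SemidirectProduct.mul_left, toAdd_mul, ih, Finset.sum_range_succ, map_add, LinearMap.add_apply,
        show (x ^ n).right = _ from map_pow SemidirectProduct.rightHom x n, map_pow (Polynomial.aeval _), Polynomial.aeval_X,
        ← map_pow ρ]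
      rfl
  have h0 := orderOf_pos g
  have hp := (Fact.out : p.Prime)
  rw [minpoly.dvd_iff, LinearMap.ext_iff, not_forall]
  constructor
  · rintro ⟨x, rfl, h⟩
    refine ⟨x.left.toAdd, fun e => ?_⟩
    have : x ^ orderOf x.right = 1 := by
      ext
      · exact (key x _).2.trans e
      · exact (key x _).1.trans (pow_orderOf_eq_one _)
    have := Nat.le_of_dvd h0 (h ▸ orderOf_dvd_of_pow_eq_one this)
    nlinarith [hp.two_le]
  · rintro ⟨v, hv⟩
    refine ⟨⟨.ofAdd v, g⟩, rfl, ?_⟩
    generalize hx : (⟨.ofAdd v, g⟩ : Multiplicative V ⋊[_] G) = x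
    obtain rfl : g = x.right := hx ▸ rfl
    obtain rfl : v = x.left.toAdd := hx ▸ rfl
    have h1 : x ^ orderOf x.right = SemidirectProduct.inl (x ^ orderOf x.right).left := by
      ext
      · rfl
      · exact (key x _).1.trans (pow_orderOf_eq_one _)
    have h2 : orderOf (x ^ orderOf x.right) = p := orderOf_eq_prime (by
      rw [h1, ← map_pow, map_eq_one_iff _ SemidirectProduct.inl_injective]
      ext
      rw [toAdd_pow, ← Nat.cast_smul_eq_nsmul F, CharP.cast_eq_zero, zero_smul]; rfl)
      fun e => hv ((key x _).2.symm.trans (by rw [e]; rfl))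
    have h3 : orderOf x.right ∣ orderOf x := orderOf_map_dvd SemidirectProduct.rightHom x
    rw [orderOf_pow_of_dvd h0.ne' h3] at h2
    rw [← h2, Nat.div_mul_cancel h3]

end Cfsg.Agent.S2516
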