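import Cfsg.Statements.S2520
import Cfsg.Agent.Chev.SpecG2

set_option autoImplicit false
open Cfsg

namespace Cfsg.Agent.S2520

open Cfsg.Agent.Chev Cfsg.Lie

theorem exists_order {F : Type*} [Field F] {p : ℕ} [Fact p.Prime] [CharP F p] (w : List (ℕ × ZMod p)) (m n : ℕ)
    (h : ((adj chevG2).word w ^ m) ^ n = 1) (h0 : 0 < m * n)
    (h' : ∀ r ∈ (m * n).primeFactors, (adj chevG2).word w ^ (m * n / r) ≠ 1) :
    ∃ y : chevG2.SteinbergGroup F, orderOf y = m * n :=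
  (word_pow_eq_one (zkerG2_eq_bot F) w).imp fun y hy => orderOf_eq_of_pow_and_pow_div_prime h0 ((hy _).mpr ((pow_mul _ m n).trans h))
    fun r h1 h2 => mt (hy _).mp (h' r (Nat.mem_primeFactors.mpr ⟨h1, h2, h0.ne'⟩))

/-- Let F be a finite field with q = 2^a ≥ 4 elements and G₂(F) the Chevalley group of type G₂ over it. Every element order of G₂(F) maximal under divisibility lies in the set {8, 12, 2(q + 1), 2(q − 1), q² − 1, q² + q + 1, q² − q + 1}, and every member of that set is an element order of G₂(F). -/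
theorem result {F : Type*} [Field F] [Fintype F] (a : ℕ) (ha : 2 ≤ a) (hF : Fintype.card F = 2 ^ a) :
    {n : ℕ | n ∈ Set.range (orderOf : ↥(Cfsg.Lie.chevG2.group F) → ℕ) ∧ ∀ m ∈ Set.range (orderOf : ↥(Cfsg.Lie.chevG2.group F) → ℕ), n ∣ m → m = n} ⊆ ({8, 12, 2 * (2 ^ a + 1), 2 * (2 ^ a - 1), 2 ^ (2 * a) - 1, 2 ^ (2 * a) + 2 ^ a + 1, 2 ^ (2 * a) - 2 ^ a + 1} : Set ℕ) ∧
    ({8, 12, 2 * (2 ^ a + 1), 2 * (2 ^ a - 1), 2 ^ (2 * a) - 1, 2 ^ (2 * a) + 2 ^ a + 1, 2 ^ (2 * a) - 2 ^ a + 1} : Set ℕ) ⊆ Set.range (orderOf : ↥(Cfsg.Lie.chevG2.group F) → ℕ) := by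
  rw [← Nat.card_eq_fintype_card] at hF
  have := charP_of_card_eq_prime_pow (Nat.card_eq_fintype_card.symm.trans hF)
  rw [range_orderOf_G2, pow_mul', ← hF]
  refine (and_iff_right_of_imp (max_subset ?_)).mpr ?_
  · rintro _ ⟨y, rfl⟩
    have := orderOf_dvd_G2 hF y
    simp [ordG2L] at this ⊢
    tauto
  have h := exists_order_G2 hF
  simp only [ordG2L, List.forall_mem_cons] at h
  simp only [Set.insert_subset_iff, Set.singleton_subset_iff]
  exact ⟨exists_order [(7, 1), (6, 1)] 4 2 (by decide +kernel) (by decide) (by decide +kernel),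
    exists_order [(0, 1), (2, 1), (9, 1)] 2 6 (by decide +kernel) (by decide) (by decide +kernel),
    h.2.2.2.2.1, h.2.2.2.1, h.1, h.2.1, h.2.2.1⟩

end Cfsg.Agent.S2520
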