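import Cfsg.Statements.S2519
import Cfsg.Agent.S2520

set_option autoImplicit false
open Cfsg

namespace Cfsg.Agent.S2519

open Cfsg.Agent.Chev Cfsg.Lie

theorem ex3 {F : Type*} [Field F] [CharP F 3] : ∃ y : chevG2.SteinbergGroup F, orderOf y = 3 * 3 :=
  S2520.exists_order [(7, 1), (6, 1)] 3 3 (by decide +kernel) (by decide) (by decide +kernel)

theorem ex5 {F : Type*} [Field F] [CharP F 5] : ∃ y : chevG2.SteinbergGroup F, orderOf y = 5 * 5 :=
  @S2520.exists_order F _ 5 ⟨Nat.prime_five⟩ _ [(7, 1), (6, 1)] 5 5 (by decide +kernel) (by decide) (by decide +kernel)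

theorem anti {p q : ℕ} (hp : p.Prime) (h1 : p ∣ q) (h5 : 5 ≤ q) {L : Set ℕ} (hL : L ⊆ {p * (q + 1), p * (q - 1), q ^ 2 - 1,
    q ^ 2 + q + 1, q ^ 2 - q + 1} ∪ {p ^ 2}) : ∀ n ∈ L, ∀ m ∈ L, n ∣ m → m = n := by
  obtain ⟨t, rfl⟩ : ∃ t, q = t + 1 := ⟨q - 1, by omega⟩
  have h2 : (t + 1) ^ 2 - 1 = t * (t + 2) := Nat.sub_eq_of_eq_add (by ring)
  have h3 : (t + 1) ^ 2 - (t + 1) = t * (t + 1) := Nat.sub_eq_of_eq_add (by ring)
  have h4 := Nat.le_of_dvd (by omega) h1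
  have h6 := hp.two_le
  rw [h2, h3, Nat.add_sub_cancel] at hL
  have a0 : ∀ m, p ∣ m → ¬ p ∣ m + 1 := fun m h e => hp.not_dvd_one ((Nat.dvd_add_right h).mp e)
  have a1 : ¬ p ∣ t := fun e => a0 _ e h1
  have a2 : ¬ p ∣ t + 1 + 1 := a0 _ h1
  have a3 : ¬ p ∣ t * (t + 2) := hp.not_dvd_mul a1 a2
  have a4 : ¬ p ∣ (t + 1) ^ 2 + (t + 1) + 1 := a0 _ ((h1.trans (dvd_pow_self _ two_ne_zero)).add h1)
  have a5 : ¬ p ∣ t * (t + 1) + 1 := a0 _ (h1.mul_left _)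
  have b1 : ∀ n m, ¬ p ∣ n → n ∣ p * m → 0 < m → n ≤ m := fun n m h e h0 =>
    Nat.le_of_dvd h0 ((Nat.Coprime.symm (hp.coprime_iff_not_dvd.mpr h)).dvd_of_dvd_mul_left e)
  have b2 : ∀ n m, ¬ p ∣ m → ¬ p * n ∣ m := fun n m h e => h ((dvd_mul_right _ _).trans e)
  have b3 : ∀ n m, m < n → 0 < m → ¬ n ∣ m := fun n m h h0 e => (Nat.le_of_dvd h0 e).not_gt h
  intro n hn m hm e
  have hn := hL hn
  have hm := hL hm
  simp only [Set.mem_union, Set.mem_insert_iff, Set.mem_singleton_iff, sq p] at hn hm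
  rcases hn with (rfl | rfl | rfl | rfl | rfl) | rfl <;> rcases hm with (rfl | rfl | rfl | rfl | rfl) | rfl <;>
    first | rfl | exact absurd e (b2 _ _ ‹_›) | exact absurd (b1 _ _ ‹_› e (by omega)) (by nlinarith) | exfalso
  · exact b3 _ _ (by omega) (by omega) (Nat.dvd_of_mul_dvd_mul_left hp.pos e)
  · exact b3 _ _ (by omega) (by omega) (Nat.dvd_of_mul_dvd_mul_left hp.pos e)
  · exact b3 _ 2 (by omega) (by omega) ((Nat.dvd_add_right dvd_rfl).mp (Nat.dvd_of_mul_dvd_mul_left hp.pos e))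
  · obtain h | h := (Nat.dvd_prime hp).mp (Nat.dvd_of_mul_dvd_mul_left hp.pos e)
    exacts [by omega, a1 (h ▸ dvd_rfl)]
  · exact b3 _ (t + 3) (by nlinarith) (by omega) ((Nat.dvd_add_right dvd_rfl).mp (e.trans (dvd_of_eq (by ring))))
  · exact b3 _ _ (by nlinarith) (by omega) e
  · exact b3 _ _ (by nlinarith) (by nlinarith) e
  · exact b3 _ _ (by nlinarith) (by omega) e
  · exact b3 _ (t - 1) (by nlinarith [Nat.sub_le t 1]) (by omega) ((Nat.dvd_add_right dvd_rfl).mp (e.trans (dvd_of_eq (by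
      zify [show 1 ≤ t by omega]; ring))))
  · exact b3 _ (2 * t + 2) (by nlinarith) (by omega) ((Nat.dvd_add_right dvd_rfl).mp (e.trans (dvd_of_eq (by ring))))
  · exact a2 (Nat.dvd_of_mul_dvd_mul_left hp.pos e)
  · exact a1 (Nat.dvd_of_mul_dvd_mul_left hp.pos e)

/-- Let F be a finite field of odd order q = p^a ≥ 5. The element orders of the Chevalley group G₂(F) that are maximal under divisibility are exactly p(q + 1), p(q − 1), q² − 1, q² + q + 1, q² − q + 1, together with p² when p is 3 or 5. -/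
theorem result {F : Type*} [Field F] [Fintype F] (p a : ℕ) (hp : p.Prime) (hp2 : p ≠ 2) (ha : 1 ≤ a) (hF : Fintype.card F = p ^ a) (hq5 : 5 ≤ Fintype.card F) :
    {n : ℕ | n ∈ Set.range (orderOf : ↥(Cfsg.Lie.chevG2.group F) → ℕ) ∧ ∀ m ∈ Set.range (orderOf : ↥(Cfsg.Lie.chevG2.group F) → ℕ), n ∣ m → m = n} =
      ({p * (p ^ a + 1), p * (p ^ a - 1), p ^ (2 * a) - 1, p ^ (2 * a) + p ^ a + 1, p ^ (2 * a) - p ^ a + 1} : Set ℕ) ∪
        (if p = 3 ∨ p = 5 then ({p ^ 2} : Set ℕ) else ∅) := by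
  have := Fact.mk hp
  rw [← Nat.card_eq_fintype_card] at *
  have := charP_of_card_eq_prime_pow (Nat.card_eq_fintype_card.symm.trans hF)
  rw [range_orderOf_G2, pow_mul', ← hF]
  have h := exists_order_G2 hF
  simp only [ordG2L, List.forall_mem_cons] at h
  have h1 : ∀ {S L : Set ℕ}, (∀ n ∈ S, ∃ m ∈ L, n ∣ m) → L ⊆ S → (∀ n ∈ L, ∀ m ∈ L, n ∣ m → m = n) →
      {n | n ∈ S ∧ ∀ m ∈ S, n ∣ m → m = n} = L := fun h1 h2 h3 => (max_subset h1 h2).antisymm fun n hn =>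
    ⟨h2 hn, fun m hm e => (h1 m hm).elim fun k hk => Nat.dvd_antisymm (h3 n hn k hk.1 (e.trans hk.2) ▸ hk.2) e⟩
  refine h1 ?_ (Set.union_subset ?_ ?_) (anti hp (hF ▸ dvd_pow_self p (by omega)) hq5
    (Set.union_subset_union_right _ (by split_ifs <;> simp)))
  · rintro _ ⟨y, rfl⟩
    obtain h2 | h2 | h2 := orderOf_dvd_G2 hF y
    · exact h2.imp fun m hm => ⟨.inl (by simp [ordG2L] at hm ⊢; tauto), hm.2⟩
    · exact ⟨_, .inr (by simp [h2.1]), h2.2⟩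
    · exact (hp2 h2.1).elim
  · simp only [Set.insert_subset_iff, Set.singleton_subset_iff]
    exact ⟨h.2.2.2.2.1, h.2.2.2.1, h.1, h.2.1, h.2.2.1⟩
  split_ifs with h2
  · rw [Set.singleton_subset_iff]
    rcases h2 with rfl | rfl
    exacts [ex3, ex5]
  · exact Set.empty_subset _

end Cfsg.Agent.S2519
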