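import Cfsg.Statements.S2522
import Cfsg.Agent.Elu.Lev3

set_option autoImplicit false
open Cfsg

namespace Cfsg.Agent.S2522

/-- Let K be a field with at least four elements (finite or infinite), n ≥ 3, and J ∈ GL(n, K) the regular unipotent matrix (ones on the diagonal and the superdiagonal, zeros elsewhere). Then every non-scalar g ∈ GL(n, K) with det g = 1 is a product of two GL(n, K)-conjugates of J. -/
theorem result {K : Type*} [Field K] (hK : 4 ≤ Cardinal.mk K) (n : ℕ) (hn : 3 ≤ n) (J g : GL (Fin n) K)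
    (hJ : ∀ i j : Fin n, (J : Matrix (Fin n) (Fin n) K) i j = if i = j then 1 else if j.val = i.val + 1 then 1 else 0)
    (hg : ¬ ∃ c : K, (g : Matrix (Fin n) (Fin n) K) = c • (1 : Matrix (Fin n) (Fin n) K))
    (hdet : (g : Matrix (Fin n) (Fin n) K).det = 1) :
    ∃ x y : GL (Fin n) K, g = (x * J * x⁻¹) * (y * J * y⁻¹) := by
  obtain ⟨m, rfl⟩ : ∃ m, n = m + 1 := ⟨n - 1, by omega⟩
  obtain ⟨M, P, h1, h2, h3, ⟨x, h4⟩, y, h5⟩ := Cfsg.Agent.Elu.Lev.exists_reg
    (Cfsg.Agent.Elu.Lev.four_of_card hK) (V := Fin (m + 1) → K) (n := m) (by simp)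
    (g := Matrix.toLin' g.val) (by rw [LinearMap.det_toLin', hdet]) (fun c hc => hg ⟨c, by
      apply Matrix.toLin'.injective
      rw [hc, map_smul, Matrix.toLin'_one]; rfl⟩)
  obtain ⟨X, hX⟩ := Cfsg.Agent.Elu.Lev.conj_J J.val hJ M h2 h4
  obtain ⟨Y, hY⟩ := Cfsg.Agent.Elu.Lev.conj_J J.val hJ P h3 h5
  refine ⟨X, Y, Units.ext ?_⟩
  simp only [Units.val_mul]
  rw [← hX, ← hY, ← LinearMap.toMatrix'_mul, ← h1, LinearMap.toMatrix'_toLin']

end Cfsg.Agent.S2522
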