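import Cfsg.Statements.S2523
import Cfsg.Agent.ThC.Cl
import Cfsg.Agent.ThC.Exc
import Cfsg.Agent.Mult.Stb

set_option autoImplicit false
open Cfsg

namespace Cfsg.Agent.S2523

open Cfsg.Agent.ThC Cfsg.Agent.Chev Cfsg.Agent.Mult in
theorem exc {F : Type*} [Field F] [Fintype F] (hF : 9 ≤ Fintype.card F) {G : Type*} [Group G] [Finite G]
    {D : Cfsg.Lie.ChevalleyDatum} [Good D] [Conn D] {k : ℕ} (T : TA D k) (e : G ≃* D.group F) :
    ∃ c : G, ∀ g : G, ∃ x y : G, g = (x * c * x⁻¹) * (y * c * y⁻¹) := by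
  have : Finite (D.group F) := .of_equiv _ e.toEquiv
  obtain ⟨x, h1, h2⟩ := T.main hF (grFull D F)
  exact sq_of e.symm.toMonoidHom e.symm.surjective (by rw [center_group]; exact bot_le) h1 h2

open Cfsg.Agent.ThC Cfsg.Agent.Chev Cfsg.Agent.Mult in

/-- Let F be a finite field with at least 9 elements and let G be one of PSL(n, F) (n ≥ 2), PSp(2m, F) (m ≥ 2), PΩ(2m+1, F) (m ≥ 3, here q odd), PΩ⁺(2m, F) (m ≥ 4), or the Chevalley group of type G₂, F₄, E₆, E₇ or E₈ over F. Then G is the square of one of its conjugacy classes (Thompson's conjecture on products of conjugacy classes, not his conjecture on class sizes): there is a conjugacy class C of G with C·C = G, i.e. every element of G is a product of two elements of C. -/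
theorem result {F : Type*} [Field F] [Fintype F] (hF : 9 ≤ Fintype.card F) {G : Type*} [Group G] [Finite G]
    (hG : (∃ n : ℕ, 2 ≤ n ∧ Nonempty (G ≃* Matrix.ProjectiveSpecialLinearGroup (Fin n) F)) ∨
      (∃ m : ℕ, 2 ≤ m ∧ Nonempty (G ≃* Cfsg.PSp m F)) ∨
      (∃ m : ℕ, 3 ≤ m ∧ Odd (Fintype.card F) ∧ Nonempty (G ≃* Cfsg.POmega F (Cfsg.quadFormOdd m F))) ∨
      (∃ m : ℕ, 4 ≤ m ∧ Nonempty (G ≃* Cfsg.POmega F (Cfsg.quadFormPlus m F))) ∨
      Nonempty (G ≃* ↥(Cfsg.Lie.chevG2.group F)) ∨ Nonempty (G ≃* ↥(Cfsg.Lie.chevF4.group F)) ∨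
      Nonempty (G ≃* ↥(Cfsg.Lie.chevE6.group F)) ∨ Nonempty (G ≃* ↥(Cfsg.Lie.chevE7.group F)) ∨ Nonempty (G ≃* ↥(Cfsg.Lie.chevE8.group F))) :
    ∃ c : G, ∀ g : G, ∃ x y : G, g = (x * c * x⁻¹) * (y * c * y⁻¹) := by
  rcases hG with ⟨n, hn, ⟨e⟩⟩ | ⟨m, hm, ⟨e⟩⟩ | ⟨m, hm, h, ⟨e⟩⟩ | ⟨m, hm, ⟨e⟩⟩ | ⟨⟨e⟩⟩ | ⟨⟨e⟩⟩ | ⟨⟨e⟩⟩ | ⟨⟨e⟩⟩ | ⟨⟨e⟩⟩
  · obtain ⟨k, rfl⟩ := Nat.exists_eq_add_of_le' hn
    obtain ⟨x, h1, h2⟩ := sl_sq (F := F) (by omega) k
    refine sq_of (e.symm.toMonoidHom.comp (QuotientGroup.mk' _)) (e.symm.surjective.comp (QuotientGroup.mk'_surjective _))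
      (fun z hz => by simpa using hz) (x := x) ⟨1, one_mem _, by simpa using h1.symm⟩ fun g hg => ?_
    obtain ⟨y, z, e1, e2, e3⟩ := h2 g fun c hc => hg (Subgroup.mem_center_iff.2 fun a => Subtype.ext (by
      change a.1 * g.1 = g.1 * a.1
      simp [hc]))
    exact ⟨y, z, e1, h1.symm.trans e2, e3 ▸ IsConj.refl _⟩
  · obtain ⟨k, rfl⟩ := Nat.exists_eq_add_of_le' hm
    exact (taC k).sq hF (spFull hm F) e
  · obtain ⟨k, rfl⟩ := Nat.exists_eq_add_of_le' (show 2 ≤ m by omega)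
    have h2 : (2 : F) ≠ 0 := fun h2 => by
      have := FiniteField.even_card_of_char_two (F := F) (CharP.ringChar_of_prime_eq_zero Nat.prime_two (by simpa using h2))
      have := Nat.odd_iff.1 h
      omega
    exact (taB k).sq hF (oddFull _ F h2) e
  · exact (taD (l := m) (by omega) (m / 2 - 1) (by omega) (by omega)).sq hF (plusFull _ F) e
  exacts [exc hF taG2 e, exc hF taF4 e, exc hF taE6 e, exc hF taE7 e, exc hF taE8 e]

end Cfsg.Agent.S2523
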