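import Cfsg.Statements.S2524
import Cfsg.Agent.WeilGap.F

set_option autoImplicit false
open Cfsg

namespace Cfsg.Agent.S2524

/-- Let F be a finite field of odd order q and G = Sp(2n, F) with n ≥ 2. Then G has exactly four irreducible complex characters of degree (q^n + 1)/2 or (q^n − 1)/2 (two of each), and every other non-principal irreducible character has degree at least (q^n − 1)(q^n − q)/(2(q + 1)). -/
theorem result {F : Type*} [Field F] [Fintype F] (hodd : Odd (Fintype.card F)) (n : ℕ) (hn : 2 ≤ n) :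
    Nat.card {χ : Cfsg.IrrCharacter ↥(Matrix.symplecticGroup (Fin n) F) // (χ : ↥(Matrix.symplecticGroup (Fin n) F) → ℂ) 1 = (((Fintype.card F) ^ n + 1 : ℕ) : ℂ) / 2} = 2 ∧
    Nat.card {χ : Cfsg.IrrCharacter ↥(Matrix.symplecticGroup (Fin n) F) // (χ : ↥(Matrix.symplecticGroup (Fin n) F) → ℂ) 1 = (((Fintype.card F) ^ n - 1 : ℕ) : ℂ) / 2} = 2 ∧
    ∀ χ : Cfsg.IrrCharacter ↥(Matrix.symplecticGroup (Fin n) F),
      (χ : ↥(Matrix.symplecticGroup (Fin n) F) → ℂ) 1 ≠ 1 →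
      (χ : ↥(Matrix.symplecticGroup (Fin n) F) → ℂ) 1 ≠ (((Fintype.card F) ^ n + 1 : ℕ) : ℂ) / 2 →
      (χ : ↥(Matrix.symplecticGroup (Fin n) F) → ℂ) 1 ≠ (((Fintype.card F) ^ n - 1 : ℕ) : ℂ) / 2 →
      (((Fintype.card F) ^ n - 1 : ℕ) : ℝ) * (((Fintype.card F) ^ n - Fintype.card F : ℕ) : ℝ) / (2 * ((Fintype.card F : ℕ) + 1 : ℝ)) ≤ ‖(χ : ↥(Matrix.symplecticGroup (Fin n) F) → ℂ) 1‖ := by
  classical
  have h2 : (2 : F) ≠ 0 := Classical.two_ne_zero_of_odd_card (by rwa [Nat.card_eq_fintype_card])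
  obtain ⟨a, a', b, b', ⟨ha, ha', hb, hb'⟩, h1, h3, ⟨ea, ea'⟩, ⟨eb, eb'⟩, h⟩ :=
    WeilGap.sm_classify (F := F) (m := n) (Nat.odd_iff.1 hodd) h2 hn
  have hq : 1 ≤ Fintype.card F ^ n := Nat.one_le_pow _ _ Fintype.card_pos
  have e1 : ∀ z : ℂ, z = (((Fintype.card F) ^ n + 1 : ℕ) : ℂ) / 2 ↔ 2 * z = (Fintype.card F : ℂ) ^ n + 1 := fun z => by
    rw [eq_div_iff two_ne_zero, mul_comm]
    push_cast
    rfl
  have e2 : ∀ z : ℂ, z = (((Fintype.card F) ^ n - 1 : ℕ) : ℂ) / 2 ↔ 2 * z = (Fintype.card F : ℂ) ^ n + -1 := fun z => by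
    rw [eq_div_iff two_ne_zero, mul_comm, Nat.cast_sub hq]
    push_cast
    rfl
  have hsm : ∀ χ c : Matrix.symplecticGroup (Fin n) F → ℂ, IsIrrCharacter _ χ → WeilGap.Sm c → 2 * χ 1 = 2 * c 1 →
      WeilGap.Sm χ := fun χ c hχ hc e => ⟨hχ, by
    obtain ⟨k, hk⟩ := hc.2
    exact ⟨k, (mul_left_cancel₀ two_ne_zero e).trans hk.1, hk.2⟩⟩
  have hne : (Fintype.card F : ℂ) ^ n + 1 ≠ (Fintype.card F : ℂ) ^ n + -1 := by norm_num
  refine ⟨Nat.card_eq_two_iff.2 ⟨⟨⟨a, ha.1⟩, (e1 _).2 ea⟩, ⟨⟨a', ha'.1⟩, (e1 _).2 ea'⟩,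
      fun e => h1 (congrArg (fun x => x.1.1) e), Set.eq_univ_of_forall fun ⟨⟨χ, hχ⟩, e⟩ => ?_⟩,
    Nat.card_eq_two_iff.2 ⟨⟨⟨b, hb.1⟩, (e2 _).2 eb⟩, ⟨⟨b', hb'.1⟩, (e2 _).2 eb'⟩,
      fun e => h3 (congrArg (fun x => x.1.1) e), Set.eq_univ_of_forall fun ⟨⟨χ, hχ⟩, e⟩ => ?_⟩,
    fun ⟨χ, hχ⟩ h4 h5 h6 => ?_⟩
  · have e' := (e1 _).1 e
    rcases h χ (hsm χ a hχ ha (e'.trans ea.symm)) with (rfl | rfl) | rfl | rfl
    · exact .inl rfl
    · exact (hne (e'.symm.trans eb)).elim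
    · exact .inr rfl
    · exact (hne (e'.symm.trans eb')).elim
  · have e' := (e2 _).1 e
    rcases h χ (hsm χ b hχ hb (e'.trans eb.symm)) with (rfl | rfl) | rfl | rfl
    · exact (hne (ea.symm.trans e')).elim
    · exact .inl rfl
    · exact (hne (ea'.symm.trans e')).elim
    · exact .inr rfl
  · by_contra! hlt
    obtain ⟨k, -, hk⟩ := Char.IsIrrCharacter.exists_pos_apply_one hχ
    simp only [ne_eq, e1, e2] at h4 h5 h6 hlt
    rcases h χ ⟨hχ, k, hk, fun e => h4 (by simp [hk, e]), by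
      rw [hk, Complex.norm_natCast, lt_div_iff₀ (by positivity), mul_comm] at hlt
      exact_mod_cast hlt⟩ with (rfl | rfl) | rfl | rfl
    exacts [h5 ea, h6 eb, h5 ea', h6 eb']

end Cfsg.Agent.S2524
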