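import Cfsg.Statements.S2525
import Cfsg.Agent.Chev.Spec
import Cfsg.Agent.Chev.InvOdd
import Cfsg.Agent.Chev.CoxF4

set_option autoImplicit false
open Cfsg

namespace Cfsg.Agent.S2525

open Cfsg.Agent.Chev Cfsg.Lie

set_option linter.unusedSimpArgs false

theorem annF4 : certF4.allW chevF4 (certF4.ann chevF4
    [[-1, 0, 0, 0, 1], [-1, 1, 0, -1, 1], [-1, -1, 0, 1, 1], [1, 0, 0, 0, 1], [1, 0, -1, 0, 1]]) chevF4.rank [] = true := by
  decide +kernel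

theorem ne3 : ∀ x : ZMod 3, x ^ 2 + 1 ≠ 0 := by decide

theorem fac {r : ℕ} [hr : Fact r.Prime] (h2 : r ≠ 2) (q : ℤ) {e : ℕ} (he : orderOf (q : ZMod r) = e) :
    ((r : ℤ) ∣ q - 1 ↔ e = 1) ∧ ((r : ℤ) ∣ q + 1 ↔ e = 2) ∧ ((r : ℤ) ∣ q ^ 3 - 1 ↔ e = 1 ∨ e = 3) ∧
    ((r : ℤ) ∣ q ^ 2 + 1 ↔ e = 4) ∧ ((r : ℤ) ∣ q ^ 3 + 1 ↔ e = 2 ∨ e = 6) ∧ ((r : ℤ) ∣ q ^ 4 + 1 ↔ e = 8) ∧
    ((r : ℤ) ∣ q ^ 4 - q ^ 2 + 1 ↔ e = 12) ∧ ∀ k, (r : ℤ) ∣ q ^ k - 1 ↔ e ∣ k := by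
  have h0 : (2 : ZMod r) ≠ 0 := fun h => h2 ((Nat.prime_dvd_prime_iff_eq hr.out Nat.prime_two).mp
    ((ZMod.natCast_eq_zero_iff 2 r).mp h))
  simp only [← ZMod.intCast_zmod_eq_zero_iff_dvd]
  push_cast
  generalize (q : ZMod r) = x at *
  have h1 : ∀ k, x ^ k - 1 = 0 ↔ e ∣ k := fun k => by rw [sub_eq_zero, ← he, orderOf_dvd_iff_pow_eq_one]
  have h3 : ∀ k (L : Finset ℕ), k ≠ 0 ∧ L = (2 * k).divisors.filter (¬ · ∣ k) → (x ^ k + 1 = 0 ↔ e ∈ L) := by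
    rintro k _ ⟨h, rfl⟩
    simp only [Finset.mem_filter, Nat.mem_divisors, ← h1, show x ^ (2 * k) - 1 = (x ^ k - 1) * (x ^ k + 1) by ring, mul_eq_zero]
    grind
  have h4 := h3 2 {4} (by decide)
  have h5 := h3 6 {4, 12} (by decide)
  rw [show x ^ 6 + 1 = (x ^ 2 + 1) * (x ^ 4 - x ^ 2 + 1) by ring, mul_eq_zero] at h5
  simp only [Finset.mem_insert, Finset.mem_singleton] at h4 h5
  refine ⟨by simpa using h1 1, by simpa using h3 1 {2} (by decide), by rw [h1, Nat.dvd_prime Nat.prime_three], h4,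
    by simpa using h3 3 {2, 6} (by decide), by simpa using h3 4 {8} (by decide),
    ⟨fun e => (h5.mp (.inr e)).resolve_left fun e' => ?_, fun e => (h5.mpr (.inr e)).resolve_left (by rw [h4]; omega)⟩, h1⟩
  obtain rfl : r = 3 := (Nat.prime_dvd_prime_iff_eq hr.out Nat.prime_three).mp ((ZMod.natCast_eq_zero_iff 3 r).mp (by
    have := h4.mpr e'; push_cast; grind))
  exact absurd (h4.mpr e') (ne3 x)

section

variable {F : Type*} [Field F] [Finite F] [CharP F 2] {n : ℕ} (hF : Nat.card F = 2 ^ n)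
include hF

theorem two {s : ℕ} [hs : Fact s.Prime] (h2 : s ≠ 2) {e : ℕ} (he : orderOf ((Nat.card F : ℤ) : ZMod s) = e)
    (h : e ∣ 8 ∨ e ∣ 12) : (¬ ∃ x : chevF4.SteinbergGroup F, orderOf x = 2 * s) ↔ e = 8 ∨ e = 12 := by
  obtain ⟨-, -, a3, a4, a6, -, -, a⟩ := fac h2 _ he
  have h3 : ¬ 2 ∣ s := fun e => h2 ((Nat.prime_dvd_prime_iff_eq Nat.prime_two hs.out).mp e).symm
  have B := fun l B f u c H h => (bigF4 F 2).exists_order_mul (algebraMap F _) hF isReflF4 (l := l) (B := B) (f := f)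
    (u := u) (c := c) H h3 h ⟨47, by decide⟩
  refine ⟨fun h1 => ?_, fun h1 ⟨x, hx⟩ => ?_⟩
  · by_contra h4
    obtain h | h | h : (e = 1 ∨ e = 3) ∨ (e = 2 ∨ e = 6) ∨ e = 4 := by
      rcases h with h | h <;> have := Nat.le_of_dvd (by norm_num) h <;> interval_cases e <;> simp_all
    · exact h1 (B [0, 1] [[0, 0, 1], [0, 1, 1], [1, 1, 1], []] [-1, 0, 0, 1] [-1, -1, -1] [0, -1, 1] (by decide +kernel)
        ((a3.mpr h).trans (dvd_of_eq (by simp [Finset.sum_range_succ, nth_eq, chevF4]; ring))) (by decide +kernel))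
    · exact h1 (B [0, 1, 2] [[0, 0, 1], [0, 1, 1], [1, 1, 1], []] [1, 0, 0, 1] [-1, -1, -1] [0, -1, 1] (by decide +kernel)
        ((a6.mpr h).trans (dvd_of_eq (by simp [Finset.sum_range_succ, nth_eq, chevF4]; ring))) (by decide +kernel))
    · exact h1 (B [1, 2] [[], [0, 1], [1, 1], []] [1, 0, 1] [0, -1, -1] [0, -1, 1] (by decide +kernel)
        ((a4.mpr h).trans (dvd_of_eq (by simp [Finset.sum_range_succ, nth_eq, chevF4]; ring))) (by decide +kernel))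
  obtain ⟨i, hi⟩ := dvd_card_P (p := 2) ((stS_mult _ F).tor_injective (stCover _ F) (zkerF4_eq_bot F)) (s := x ^ 2) (u := x ^ s)
    (by rw [orderOf_pow_of_dvd hs.out.ne_zero (hx ▸ dvd_mul_left _ _), hx, Nat.mul_div_cancel _ hs.out.pos])
    (Commute.pow_pow_self _ _ _)
  have h5 := Nat.prime_iff_prime_int.mp hs.out
  have h6 : ∀ k ∈ [1, 2, 3, 4, 6], ¬ (s : ℤ) ∣ (Nat.card F : ℤ) ^ k - 1 := by
    simp only [a]; rcases h1 with rfl | rfl <;> decide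
  simp only [List.forall_mem_cons, pow_one] at h6
  rw [orderOf_pow_of_dvd two_ne_zero (hx ▸ dvd_mul_right _ _), hx, Nat.mul_div_cancel_left _ two_pos, h5.dvd_mul] at hi
  obtain hi | hi := hi
  · exact h2 ((Nat.prime_dvd_prime_iff_eq hs.out Nat.prime_two).mp (hs.out.dvd_of_dvd_pow
      (hF ▸ Int.natCast_dvd_natCast.mp (h5.dvd_of_dvd_pow hi))))
  obtain h | h | h | h : ({i}ᶜ : Set _) = msk chevF4 14 ∨ ({i}ᶜ : Set _) = msk chevF4 13 ∨ ({i}ᶜ : Set _) = msk chevF4 11 ∨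
      ({i}ᶜ : Set _) = msk chevF4 7 := by
    simp only [Set.ext_iff, msk, Set.mem_compl_singleton_iff, Set.mem_ofPred]; clear hi; revert i; decide
  all_goals rw [h, show chevF4.rank = 4 from rfl] at hi
  all_goals simp [poinF4_14, poinF4_13, poinF4_11, poinF4_k7, h5.dvd_mul, h6] at hi

set_option maxHeartbeats 800000 in
theorem odd {r s : ℕ} [hr : Fact r.Prime] [hs : Fact s.Prime] (h1 : r ≠ 2) (h2 : s ≠ 2) (h3 : r ≠ s) {k l : ℕ}
    (hk : orderOf ((Nat.card F : ℤ) : ZMod r) = k) (hl : orderOf ((Nat.card F : ℤ) : ZMod s) = l) :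
    (∃ x : chevF4.SteinbergGroup F, orderOf x = r * s) ↔ k ∈ [1, 2, 3] ∧ l ∈ [1, 2, 3] ∨ k ∈ [1, 2, 6] ∧ l ∈ [1, 2, 6] ∨
      k ∈ [1, 2, 4] ∧ l ∈ [1, 2, 4] ∨ k = 8 ∧ l = 8 ∨ k = 12 ∧ l = 12 := by
  obtain ⟨a1, a2, a3, a4, a6, a8, a12, -⟩ := fac h1 _ hk
  obtain ⟨b1, b2, b3, b4, b6, b8, b12, -⟩ := fac h2 _ hl
  have h4 : ¬ 2 ∣ r * s := by
    simp [Nat.prime_two.dvd_mul, Nat.prime_dvd_prime_iff_eq Nat.prime_two, hr.out, hs.out, h1.symm, h2.symm]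
  have h5 := Nat.prime_iff_prime_int.mp hr.out
  have h6 := Nat.prime_iff_prime_int.mp hs.out
  have h7 : ∀ g : ℤ, ((r * s : ℕ) : ℤ) ∣ g ↔ (r : ℤ) ∣ g ∧ (s : ℤ) ∣ g := fun g => ⟨fun h =>
    ⟨(by simp : _ ∣ _).trans h, (by simp : _ ∣ _).trans h⟩, fun h => Nat.cast_mul (α := ℤ) r s ▸
      (Nat.isCoprime_iff_coprime.mpr ((Nat.coprime_primes hr.out hs.out).mpr h3)).mul_dvd h.1 h.2⟩
  set q : ℤ := (Nat.card F : ℤ)
  constructor
  · rintro ⟨x, hx⟩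
    obtain ⟨a, w, u, j, c1, -, c2, -, c3⟩ := (bigF4 F 2).exists_data (algebraMap F _) hF x
    obtain rfl : j = 0 := by_contra fun e => h4 (by rw [← hx, c3, c2]; exact (dvd_pow_self 2 e).mul_left _)
    obtain ⟨c, c4, c5⟩ := certF4_ok.pow_eq_one (fun _ => rfl) annF4 c1
    rw [c2, pow_zero, mul_one, hx] at c3
    simp only [List.mem_cons, List.not_mem_nil, or_false] at *
    rcases c4 with rfl | rfl | rfl | rfl | rfl
    · rw [← c3, show evH q _ = (q - 1) * (q + 1) * (q ^ 2 + 1) by simp [evH]; ring, h7] at c5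
      simp only [h5.dvd_mul, h6.dvd_mul, a1, a2, a3, a4, a6, b1, b2, b3, b4, b6] at c5; clear * - c5; omega
    · rw [← c3, show evH q _ = (q - 1) * (q ^ 3 + 1) by simp [evH]; ring, h7] at c5
      simp only [h5.dvd_mul, h6.dvd_mul, a1, a2, a3, a4, a6, b1, b2, b3, b4, b6] at c5; clear * - c5; omega
    · rw [← c3, show evH q _ = (q + 1) * (q ^ 3 - 1) by simp [evH]; ring, h7] at c5
      simp only [h5.dvd_mul, h6.dvd_mul, a1, a2, a3, a4, a6, b1, b2, b3, b4, b6] at c5; clear * - c5; omega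
    · rw [← c3, show evH q _ = q ^ 4 + 1 by simp [evH]; ring, h7, a8, b8] at c5; simp [c5]
    · rw [← c3, show evH q _ = q ^ 4 - q ^ 2 + 1 by simp [evH]; ring, h7, a12, b12] at c5; simp [c5]
  have B := fun l B f u c H g (e : g = _) h => (bigF4 F 2).exists_order (algebraMap F _) hF isReflF4 (l := l) (B := B) (f := f)
    (u := u) (c := c) H h4 (((h7 g).mpr h).trans (dvd_of_eq e))
  intro h
  obtain h | h | h | h | h | h : k ∈ [1, 2, 3] ∧ l ∈ [1, 2, 3] ∨ k ∈ [1, 2, 6] ∧ l ∈ [1, 2, 6] ∨ k ∈ [1, 4] ∧ l ∈ [1, 4] ∨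
      k ∈ [2, 4] ∧ l ∈ [2, 4] ∨ k = 8 ∧ l = 8 ∨ k = 12 ∧ l = 12 := by simp at h ⊢; clear * - h; omega
  · exact B [0, 1, 3] [[0, 0, 1, 1], [0, 1, 2, 1], [1, 2, 2, 1], [0, 1, 1, 1]] [-1, -1, 0, 1, 1] [-1, -1, -1, -1] [1, -1, 1, -1]
      (by decide +kernel) ((q + 1) * (q ^ 3 - 1)) (by simp [Finset.sum_range_succ, nth_eq, chevF4]; ring)
      (by simp [h5.dvd_mul, h6.dvd_mul, a1, a2, a3, a4, a6, b1, b2, b3, b4, b6] at h ⊢; clear * - h; omega)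
  · exact B [0, 1, 2] [[0, 0, 0, 1], [0, 0, 1, 1], [0, 1, 1, 1], [1, 0, 0, 1]] [-1, 1, 0, -1, 1] [-1, -1, -1, -1] [-1, 0, 0, 1]
      (by decide +kernel) ((q - 1) * (q ^ 3 + 1)) (by simp [Finset.sum_range_succ, nth_eq, chevF4]; ring)
      (by simp [h5.dvd_mul, h6.dvd_mul, a1, a2, a3, a4, a6, b1, b2, b3, b4, b6] at h ⊢; clear * - h; omega)
  · exact B [1, 2] [[1, 0, 1], [1, 1, 1], [2, 1, 1], [1, 0, 1]] [-1, 1, -1, 1] [-1, -1, -1, -1] [-3, -1, 1, 3]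
      (by decide +kernel) ((q - 1) * (q ^ 2 + 1)) (by simp [Finset.sum_range_succ, nth_eq, chevF4]; ring)
      (by simp [h5.dvd_mul, h6.dvd_mul, a1, a2, a3, a4, a6, b1, b2, b3, b4, b6] at h ⊢; clear * - h; omega)
  · exact B [1, 2, 1, 2, 3] [[], [0, 0, 1], [-1, 0, 1], [0, 1, 1]] [1, 1, 1, 1] [0, -1, -1, -1] [-3, 1, -1]
      (by decide +kernel) ((q + 1) * (q ^ 2 + 1)) (by simp [Finset.sum_range_succ, nth_eq, chevF4]; ring)
      (by simp [h5.dvd_mul, h6.dvd_mul, a1, a2, a3, a4, a6, b1, b2, b3, b4, b6] at h ⊢; clear * - h; omega)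
  · exact B [0, 1, 2, 1, 2, 3] [[0, 0, 0, 1], [0, 0, 1, 1], [-1, 1, 1, 1], [0, 1, 0, 1]] [1, 0, 0, 0, 1] [-1, -1, -1, -1]
      [-1, 1, -1, 1] (by decide +kernel) (q ^ 4 + 1) (by simp [Finset.sum_range_succ, nth_eq, chevF4]; ring) (by rwa [a8, b8])
  · exact B [0, 1, 2, 3] [[0, 0, 0, 1], [0, 0, 1, 1], [0, 1, 1, 1], [1, 0, 0, 1]] [1, 0, -1, 0, 1] [-1, -1, -1, -1]
      [-1, 0, 0, 1] (by decide +kernel) (q ^ 4 - q ^ 2 + 1) (by simp [Finset.sum_range_succ, nth_eq, chevF4]; ring) (by rwa [a12, b12])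

omit [CharP F 2] in
theorem of_dvd {r : ℕ} [hr : Fact r.Prime] (h1 : r ≠ 2) (h : r ∣ Nat.card (chevF4.group F)) :
    orderOf ((Nat.card F : ℤ) : ZMod r) ∣ 8 ∨ orderOf ((Nat.card F : ℤ) : ZMod r) ∣ 12 := by
  have h2 := card_group chevF4 F
  rw [zkerF4_eq_bot, Subgroup.card_bot, Nat.cast_one, one_mul, show _ ^ chevF4.rank * _ = _ from poinF4 _] at h2
  have h5 := Nat.prime_iff_prime_int.mp hr.out
  simp only [← Int.natCast_dvd_natCast (n := Nat.card _), h2, h5.dvd_mul, (fac h1 _ rfl).2.2.2.2.2.2.2] at h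
  obtain h | ((h | h) | h) | h := h
  exacts [(h1 ((Nat.prime_dvd_prime_iff_eq hr.out Nat.prime_two).mp (hr.out.dvd_of_dvd_pow
    (hF ▸ Int.natCast_dvd_natCast.mp (h5.dvd_of_dvd_pow h))))).elim, .inl (h.trans (by decide)), .inr (h.trans (by decide)),
    .inl h, .inr h]

end

/-- Let F be a finite field with q = 2^n elements and G = F₄(F). For an odd prime r let e(r, q) be the multiplicative order of q modulo r. Two distinct primes r, s dividing the order of G are non-adjacent in the prime graph of G (no element of order rs) if and only if, up to swapping r and s, either r = 2 and e(s, q) ∈ {8, 12}, or r, s are both odd with k = e(r, q) < l = e(s, q) and one of: l ∈ {8, 12}; l = 6 and k ∈ {3, 4}; l = 4 and k = 3. -/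
theorem result {F : Type*} [Field F] [Fintype F] (n : ℕ) (hn : 1 ≤ n) (hF : Fintype.card F = 2 ^ n)
    (r s : ℕ) (hr : r.Prime) (hs : s.Prime) (hrs : r ≠ s) (hrG : r ∣ Nat.card ↥(Cfsg.Lie.chevF4.group F)) (hsG : s ∣ Nat.card ↥(Cfsg.Lie.chevF4.group F)) :
    (¬ ∃ x : ↥(Cfsg.Lie.chevF4.group F), orderOf x = r * s) ↔
      ((r = 2 ∧ orderOf ((Fintype.card F : ℕ) : ZMod s) ∈ ({8, 12} : Finset ℕ)) ∨ (s = 2 ∧ orderOf ((Fintype.card F : ℕ) : ZMod r) ∈ ({8, 12} : Finset ℕ)) ∨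
       (r ≠ 2 ∧ s ≠ 2 ∧
         ((orderOf ((Fintype.card F : ℕ) : ZMod r) < orderOf ((Fintype.card F : ℕ) : ZMod s) ∧ (orderOf ((Fintype.card F : ℕ) : ZMod s) ∈ ({8, 12} : Finset ℕ) ∨ (orderOf ((Fintype.card F : ℕ) : ZMod s) = 6 ∧ orderOf ((Fintype.card F : ℕ) : ZMod r) ∈ ({3, 4} : Finset ℕ)) ∨ (orderOf ((Fintype.card F : ℕ) : ZMod s) = 4 ∧ orderOf ((Fintype.card F : ℕ) : ZMod r) = 3))) ∨
          (orderOf ((Fintype.card F : ℕ) : ZMod s) < orderOf ((Fintype.card F : ℕ) : ZMod r) ∧ (orderOf ((Fintype.card F : ℕ) : ZMod r) ∈ ({8, 12} : Finset ℕ) ∨ (orderOf ((Fintype.card F : ℕ) : ZMod r) = 6 ∧ orderOf ((Fintype.card F : ℕ) : ZMod s) ∈ ({3, 4} : Finset ℕ)) ∨ (orderOf ((Fintype.card F : ℕ) : ZMod r) = 4 ∧ orderOf ((Fintype.card F : ℕ) : ZMod s) = 3)))))) := by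
  rw [← Nat.card_eq_fintype_card] at *
  have := Fact.mk hr
  have := Fact.mk hs
  have := charP_of_card_eq_prime_pow (Nat.card_eq_fintype_card.symm.trans hF)
  rw [(stEquiv chevF4 F (zkerF4_eq_bot F)).surjective.exists, ← Int.cast_natCast (R := ZMod r),
    ← Int.cast_natCast (R := ZMod s)]
  simp only [MulEquiv.orderOf_eq]
  rcases eq_or_ne r 2 with rfl | h1
  · simp [-Int.cast_natCast, two hF hrs.symm rfl (of_dvd hF hrs.symm hsG), hrs.symm]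
  rcases eq_or_ne s 2 with rfl | h2
  · simp [-Int.cast_natCast, mul_comm r, two hF h1 rfl (of_dvd hF h1 hrG), h1]
  have h3 := of_dvd hF h1 hrG
  have h4 := of_dvd hF h2 hsG
  rw [odd hF h1 h2 hrs rfl rfl]
  generalize orderOf (_ : ZMod r) = k, orderOf (_ : ZMod s) = l at *
  have h5 : ∀ k : ℕ, k ∣ 8 ∨ k ∣ 12 → k ∈ [1, 2, 3, 4, 6, 8, 12] := fun k h => by
    rcases h with h | h <;> have := Nat.le_of_dvd (by norm_num) h <;> interval_cases k <;> simp_all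
  simp only [h1, h2, false_and, false_or, ne_eq, not_false_eq_true, true_and]
  have h6 := h5 k h3
  have h7 := h5 l h4
  clear * - h6 h7
  revert l
  revert k
  decide

end Cfsg.Agent.S2525
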