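import Cfsg.Statements.S2557
import Cfsg.Agent.Classical.Cv5
import Cfsg.Agent.S2385

set_option autoImplicit false
open Cfsg

namespace Cfsg.Agent.S2557

open Cfsg.Agent.Classical Cfsg.Agent.Classical.Uc Cfsg.Agent.Geom Cfsg.Agent.Elu

/-- The number of conjugacy classes of Sp(2n,q), q even: for F a finite field of even order q and n ≥ 1, the number k of conjugacy classes of Sp(2n,F) satisfies q^n ≤ k ≤ 15.2·q^n. -/
theorem result {F : Type*} [Field F] [Fintype F] (heven : Even (Fintype.card F)) (n : ℕ) (hn : 1 ≤ n) :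
    Fintype.card F ^ n ≤ Nat.card (ConjClasses (Matrix.symplecticGroup (Fin n) F)) ∧
      5 * Nat.card (ConjClasses (Matrix.symplecticGroup (Fin n) F)) ≤ 76 * Fintype.card F ^ n := by
  obtain ⟨p, _⟩ := CharP.exists F
  have hp := Fact.mk (CharP.char_is_prime F p)
  refine ⟨(S2385.result rfl p n).symm.trans_le (Finite.card_subtype_le _), ?_⟩
  obtain ⟨n, rfl⟩ : ∃ m, n = m + 1 := ⟨n - 1, by omega⟩
  have h2 : (2 : F) = 0 := by
    have := FiniteField.even_card_iff_char_two.2 (Nat.even_iff.1 heven)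
    simpa [this] using ringChar.Nat.cast_ringChar (R := F)
  rw [card_conj_congr (spEquiv (n + 1) F), Fintype.card_eq_nat_card]
  exact Cv.card_sp (sympFormed_nondeg _ F) ⟨h2, sympB_isAlt _ F, .inl rfl, fun _ _ => rfl, fun _ => rfl⟩ rfl
    (by simp [two_mul])

end Cfsg.Agent.S2557
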