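import Cfsg.Statements.S2731
import Cfsg.Agent.Mult.Bal4

set_option autoImplicit false
open Cfsg

namespace Cfsg.Agent.S2731

open Cfsg.Agent.AutCl Cfsg.Agent.Geom Cfsg.Agent.Mult.Bal in
theorem aux {F : Type*} [Field F] [Finite F] {r : ℕ} [Fact r.Prime] [CharP F r] (h2 : (2 : F) ≠ 0)
    {m : ℕ} (hm : 3 ≤ m) [IsSimpleGroup (POmega F ⇑(qO F m))]
    {A : Subgroup (MulAut (POmega F ⇑(qO F m)))} (hinn : ∀ k, MulAut.conj k ∈ A) {p : ℕ} [Fact p.Prime]
    (hpr : p ≠ r) {x : MulAut (POmega F ⇑(qO F m))} (hord : orderOf x = p)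
    (hnot : ¬ IsSimilarityInducedAutPOmega ⇑(qO F m) x) :
    pPrimeCore p ↥(A ⊓ Subgroup.centralizer {x}) ≠ ⊥ ↔ (IsFieldAutClassPOmega ⇑(qO F m) x ∧
      Nat.Coprime p (Nat.card ↥(MonoidHom.eqLocus x.toMonoidHom (MonoidHom.id _)))) := by
  have hQ := qO_nondeg m h2
  have h7 := qO_h7 hm
  have C := clO hQ h7
  have := C.finite
  obtain ⟨n, rfl⟩ := qO_surj hm h2 x
  have h1 : n.1.right ≠ 1 := fun h => hnot (by
    obtain ⟨hs, e⟩ := cl_left C h
    exact ⟨n.1.left, (sim_quad_eq (qO F m)).ge hs, (C.eq_theta_iff ⟨_, hs⟩ _).2 (congrArg _ e)⟩)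
  refine bal_iff (cl_center C) hinn hord (fun hk M hM =>
    orth_field_kill hQ h7 Fact.out hpr h1 hord hk (fun y _ => qO_surj hm h2 y) hM) fun _ => ?_
  obtain ⟨δ, hδ, e⟩ := cl_std C (std_qO m) n
  have ho := C.pSim.orderOf_right h1 Fact.out hord
  obtain ⟨α, -, hα⟩ := (lang_odd hQ h7 (qO_odd m) (n := (std_qO m).fa n.1.right) h1 Fact.out
    ((C.pSim.orderOf_inr _).trans ho) hδ).1 (e ▸ hord)
  have h3 : α⁻¹ * C.theta n * α⁻¹⁻¹ = C.theta ((std_qO m).fa n.1.right) := by rw [e, hα]; group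
  exact ⟨α⁻¹, _, n.1.right, h1, (C.field_iff ((std_qO m).fa n.1.right).2 _).2 rfl, h3⟩

/-- A criterion for the failure of local balance in almost simple groups whose socle is an odd-dimensional orthogonal group Ω_{2m+1}(F) (m ≥ 3, |F| odd; the form x₀² + Σ xᵢ yᵢ). Let F be a finite field of characteristic r and K the (simple) group in question; let A be a group of automorphisms of K containing all inner automorphisms, and x ∈ A an automorphism of prime order p ≠ r that is not inner-diagonal (not induced by a similarity of the form). Then the largest normal subgroup of C_A(x) of order prime to p is nontrivial if and only if x is a field automorphism of K (conjugate under Aut(K) to a non-identity standard field automorphism) and p does not divide the number of fixed points of x on K. -/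
theorem result {F : Type*} [Field F] [Fintype F] {r : ℕ} [Fact r.Prime] [CharP F r] (hodd : Odd (Fintype.card F)) {m : ℕ} (hm : 3 ≤ m) (hK : IsSimpleGroup (Cfsg.POmega F (Cfsg.quadFormOdd m F))) (A : Subgroup (MulAut (Cfsg.POmega F (Cfsg.quadFormOdd m F)))) (hinn : ∀ k : Cfsg.POmega F (Cfsg.quadFormOdd m F), MulAut.conj k ∈ A) {p : ℕ} [Fact p.Prime] (hpr : p ≠ r) (x : MulAut (Cfsg.POmega F (Cfsg.quadFormOdd m F))) (hxA : x ∈ A) (hord : orderOf x = p) (hnot : ¬ Cfsg.IsInnerDiagonalAutPOmegaOdd m x) :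
    Cfsg.pPrimeCore p ↥(A ⊓ Subgroup.centralizer {x}) ≠ ⊥ ↔ (Cfsg.IsFieldAutClassPOmega (Cfsg.quadFormOdd m F) x ∧ Nat.Coprime p (Nat.card ↥(MonoidHom.eqLocus x.toMonoidHom (MonoidHom.id (Cfsg.POmega F (Cfsg.quadFormOdd m F)))))) := by
  exact @aux F _ _ r _ _ (Geom.two_ne_zero_of_odd_card hodd) m hm hK A hinn p _ hpr x hord hnot

end Cfsg.Agent.S2731
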