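import Cfsg.Statements.S2898
import Cfsg.Agent.Loc.SE
import Cfsg.Agent.Gen.Invol

set_option autoImplicit false
open Cfsg

namespace Cfsg.Agent.S2898

/-- Let G be a finite group of even order with parabolic characteristic 2. If the centre of G ⧸ O(G) is trivial, then O(G) = 1. -/
theorem result {G : Type*} [Group G] [Finite G] (h2 : 2 ∣ Nat.card G) (hG : Cfsg.IsOfParabolicCharacteristic 2 G) [hN : (Cfsg.oddCore G).Normal] (hZ : Subgroup.center (G ⧸ Cfsg.oddCore G) = ⊥) : Cfsg.oddCore G = ⊥ := by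
  open Cfsg.Agent.Loc Subgroup in
  open scoped commutatorElement in
  by_contra hO
  rw [parabolicCharP_iff] at hG
  obtain ⟨S, hS⟩ := exists_sylIn 2 (⊤ : Subgroup G)
  have hn : ∀ K : Subgroup G, K ≤ normalizer ((oddCore G : Subgroup G) : Set G) := fun K =>
    le_top.trans (normalizer_eq_top _).ge
  have key : ∀ z ∈ S ⊓ centralizer (S : Set G), z ≠ 1 → oddCore G ⊓ centralizer {z} = ⊥ := by
    intro z hz h1
    have hp : IsPGroup 2 (zpowers z) := hS.pg.to_le (zpowers_le.2 hz.1)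
    have k1 := hG (zpowers z) S hp (by rwa [Ne, zpowers_eq_bot]) hS
      (le_normalizer_of_le_centralizer (le_centralizer_iff.1 (zpowers_le.2 hz.2)))
    rw [chP_normalizer_iff hp, centralizer_zpowers, chP_iff_layer] at k1
    rw [eq_bot_iff, ← k1.2]
    exact (inf_le_inf_right _ (Sig.ppIn_top 2).ge).trans (Sig.ppIn_inf_le le_top)
  obtain ⟨z, hz, h1, h3⟩ := exists_pow_eq_one_of_isPGroup (hS.pg.to_le inf_le_left)
    (center_ne_bot hS.pg (hS.ne_bot (by rwa [card_top])))
  obtain ⟨-, -, hinv⟩ := Gen.fpf_invol (K := oddCore G) (w := z) (hn _ (mem_top z))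
    (by rw [← sq, h3]; exact one_mem _) (key z hz h1)
  have hC : centralizer ((oddCore G : Subgroup G) : Set G) ≤ oddCore G := by
    refine Solv.le_pPrimeCore ?_
    rw [Nat.coprime_comm, Nat.prime_two.coprime_iff_not_dvd]
    intro hd
    have h4 := hS.inf_normal' (N := centralizer ((oddCore G : Subgroup G) : Set G)) le_top (normalizer_eq_top _).ge
    obtain ⟨⟨y, hy⟩, hy1⟩ := ne_bot_iff_exists_ne_one.1 (inf_centralizer_ne_bot hS.pg h4.pg
      (le_normalizer_inf le_normalizer (le_top.trans (normalizer_eq_top _).ge)) (h4.ne_bot hd))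
    refine hO ?_
    rw [← key y ⟨hy.1.1, hy.2⟩ fun e => hy1 (Subtype.ext e)]
    exact (inf_eq_left.2 fun x hx => mem_centralizer_singleton_iff.2 (hy.1.2 x hx)).symm
  have h5 : (QuotientGroup.mk z : G ⧸ oddCore G) ∈ center (G ⧸ oddCore G) := by
    rw [mem_center_iff]
    intro q
    obtain ⟨g, rfl⟩ := QuotientGroup.mk_surjective q
    rw [← QuotientGroup.mk_mul, ← QuotientGroup.mk_mul, QuotientGroup.eq]
    refine hC fun x hx => ?_
    have a1 := hinv _ (hN.conj_mem x hx g)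
    have a2 := hinv x hx
    have hz2 : z⁻¹ = z := inv_eq_of_mul_eq_one_right (by rw [← sq, h3])
    have a3 : z⁻¹ * x⁻¹ * z = x := by rw [← a2]; group
    calc x * ((g * z)⁻¹ * (z * g)) = (z⁻¹ * x⁻¹ * z) * ((g * z)⁻¹ * (z * g)) := by rw [a3]
      _ = z⁻¹ * g⁻¹ * (g * x * g⁻¹)⁻¹ * z * g := by group
      _ = _ := by rw [← a1]; group
  rw [hZ, mem_bot, QuotientGroup.eq_one_iff] at h5
  exact h1 ((eq_bot_iff_forall _).1 (key z hz h1) z ⟨h5, mem_centralizer_singleton_iff.2 rfl⟩)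

end Cfsg.Agent.S2898
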