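import Cfsg.Statements.S2905
import Cfsg.Agent.Loc.PMin

set_option autoImplicit false
open Cfsg

namespace Cfsg.Agent.S2905

/-- Let P be a finite p-minimal group (a Sylow p-subgroup S is not normal and lies in a unique maximal subgroup M of P) and let F be the normal core of M. Then: every subnormal subgroup N of P contained in M satisfies N ∩ S ≤ O_p(P); if O^p(P) has a normal Sylow p-subgroup then the order of P has at most two prime divisors; every normal subgroup N of P either contains O^p(P) or is contained in F; and O^p(P)F ⧸ F is a minimal normal subgroup of P ⧸ F. -/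
theorem result {P : Type*} [Group P] [Finite P] {p : ℕ} [Fact p.Prime] (hP : Cfsg.IsPMinimal p P) (S : Sylow p P) (M : Subgroup P) (hM : IsCoatom M) (hSM : (S : Subgroup P) ≤ M) [hF : M.normalCore.Normal] : (∀ N : Subgroup P, N.IsSubnormal → N ≤ M → N ⊓ (S : Subgroup P) ≤ Cfsg.pCore p P) ∧ ((∀ T : Sylow p ↥(Cfsg.pResidual p P), (T : Subgroup ↥(Cfsg.pResidual p P)).Normal) → (Nat.card P).primeFactors.card ≤ 2) ∧ (∀ N : Subgroup P, N.Normal → Cfsg.pResidual p P ≤ N ∨ N ≤ M.normalCore) ∧ (∀ N : Subgroup P, N.Normal → M.normalCore ≤ N → N ≤ Cfsg.pResidual p P ⊔ M.normalCore → N = M.normalCore ∨ N = Cfsg.pResidual p P ⊔ M.normalCore) ∧ M.normalCore < Cfsg.pResidual p P ⊔ M.normalCore := by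
  open Cfsg.Agent.Loc Subgroup in
  open scoped commutatorElement in
  have um := isPMinimal_top hP S hM hSM
  have hS := sylIn_top S
  have hc : ∀ N : Subgroup P, N.Normal → pResidual p P ≤ N ∨ N ≤ M.normalCore := fun N hN => by
    by_cases h : pResidual p P ≤ N
    · exact Or.inl h
    · exact Or.inr (normal_le_normalCore.2 (um.le_of_not_le hS le_top
        (normalizer_eq_top_iff.2 hN).ge (by rwa [pResidualOf_top])))
  have hR := um.not_pResidualOf_le hS
  rw [pResidualOf_top] at hR
  refine ⟨fun N h1 h2 => um.inf_le_pCore hS h1 h2, fun h => ?_, hc, fun N h1 h2 h3 => ?_,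
    lt_of_le_of_ne le_sup_right fun e => hR ((le_sup_left.trans e.ge).trans (normalCore_le M))⟩
  · have hQ : (pCore p P).Normal := normal_of_top_le_normalizer
      (by rw [← pCoreOf_top]; exact le_normalizer_pCoreOf p ⊤)
    let f := QuotientGroup.mk' (pCore p P)
    have hQS : pCore p P ≤ S := pCoreOf_top p P ▸ hS.pCoreOf_le
    have hk : f.ker = pCore p P := QuotientGroup.ker_mk' _
    have um' := um.map f (by rw [hk]; exact inf_le_left.trans (hQS.trans hSM))
    have hn : (⊤ : Subgroup P) ≤ normalizer (pResidual p P : Set P) := by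
      rw [← pResidualOf_top]; exact le_normalizer_pResidualOf p ⊤
    have hcl : PCl p (pResidual p P) := by
      obtain ⟨T, hT⟩ := exists_sylIn p (pResidual p P)
      have := h hT.toSylow
      rw [normal_iff_map_subtype, hT.map_toSylow] at this
      exact pCl_of_sylIn hT this
    have hkp : IsPGroup p (f.ker ⊓ ⊤ : Subgroup P) := by
      rw [hk]; exact (isPGroup_pCore p P).to_inf_left
    have hO : pCoreOf p ((⊤ : Subgroup P).map f) = ⊥ := by
      rw [← map_pCoreOf_of_ker hkp, pCoreOf_top, Subgroup.map_eq_bot_iff, hk]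
    obtain ⟨t, R, ht, h1, h2, h3⟩ := um'.exists_sylIn_sup (S.isPGroup'.map f)
      (map_mono (le_top (a := pResidual p P))) (map_le_normalizer_map (le_top.trans hn) f)
      ((hcl.map f).coprime_of_pCoreOf_eq_bot (eq_bot_iff.2 (hO ▸ pCoreOf_le_of_normal
        (map_mono le_top) (map_le_normalizer_map hn f)))) (by
        rw [← pResidualOf_top, map_pResidualOf]; exact um'.not_pResidualOf_le (hS.map f))
    haveI := Fact.mk ht
    have hsub : (Nat.card P).primeFactors ⊆ {p, t} := fun q hq => by
      by_contra hne
      simp only [Finset.mem_insert, Finset.mem_singleton, not_or] at hne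
      have hq' := Nat.prime_of_mem_primeFactors hq
      haveI := Fact.mk hq'
      have c1 : (Nat.card (pCore p P)).Coprime q :=
        Sig.coprime_of_isPGroup_of_ne (Ne.symm hne.1) (isPGroup_pCore p P)
      have c2 : (Nat.card (R ⊔ (S : Subgroup P).map f : Subgroup _)).Coprime q :=
        Nat.Coprime.coprime_dvd_left (Solv.card_sup_dvd h2)
          (Nat.Coprime.mul_left (Sig.coprime_of_isPGroup_of_ne (Ne.symm hne.2) h1.pg)
            (Sig.coprime_of_isPGroup_of_ne (Ne.symm hne.1) (S.isPGroup'.map f)))
      rw [h3, map_top_of_surjective _ (QuotientGroup.mk'_surjective _), card_top] at c2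
      have := Nat.Coprime.mul_left c2 c1
      rw [← card_eq_card_quotient_mul_card_subgroup] at this
      exact (Nat.Prime.coprime_iff_not_dvd hq').1 this.symm (Nat.dvd_of_mem_primeFactors hq)
    exact (Finset.card_le_card hsub).trans Finset.card_le_two
  · rcases hc N h1 with h | h
    · exact Or.inr (le_antisymm h3 (sup_le h h2))
    · exact Or.inl (le_antisymm h h2)

end Cfsg.Agent.S2905
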