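import Cfsg.Statements.S2906
import Cfsg.Agent.Loc.PMin

set_option autoImplicit false
open Cfsg

namespace Cfsg.Agent.S2906

/-- Let P be a finite p-minimal group with O_p(P) = 1, S a Sylow p-subgroup of P and K a component of P. Then O^p(P) = F*(P) = E(P) is generated by the S-conjugates of K, and the subgroup K·N_S(K) is again p-minimal. -/
theorem result {P : Type*} [Group P] [Finite P] {p : ℕ} [Fact p.Prime] (hP : Cfsg.IsPMinimal p P) (hOp : Cfsg.pCore p P = ⊥) (S : Sylow p P) (K : Subgroup P) (hK : Cfsg.IsComponent K) : Cfsg.pResidual p P = Cfsg.generalizedFittingSubgroup P ∧ Cfsg.generalizedFittingSubgroup P = Cfsg.layer P ∧ Cfsg.layer P = ⨆ s : ↥(S : Subgroup P), K.map (MulAut.conj (s : P)).toMonoidHom ∧ Cfsg.IsPMinimal p ↥(K ⊔ ((S : Subgroup P) ⊓ Subgroup.normalizer (K : Set P))) := by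
  open Cfsg.Agent.Loc Subgroup in
  open scoped commutatorElement in
  have hS := sylIn_top S
  obtain ⟨hnn, M, um⟩ : ¬ (⊤ : Subgroup P) ≤ normalizer (S : Set P) ∧ ∃ M, UMax (S : Subgroup P) ⊤ M := by
    obtain ⟨h1, M, h2, -⟩ := hP S
    exact ⟨fun h => h1 (normal_of_top_le_normalizer h), M, isPMinimal_top hP S h2.1 h2.2⟩
  have hO : pCoreOf p (⊤ : Subgroup P) = ⊥ := by rwa [pCoreOf_top]
  have hK' : Sig.CompIn K ⊤ := Sig.compIn_top_iff.2 hK
  have hc : ∀ g : P, Sig.CompIn (cj g K) ⊤ := fun g => hK'.conj (le_normalizer (mem_top g))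
  have hE : Sig.layerIn (⊤ : Subgroup P) ≤ pResidualOf p ⊤ :=
    (le_pResidualOf_of_perfect (Sig.layerIn_perfect _)).trans (pResidualOf_mono le_top)
  have hE' : pResidualOf p ⊤ ≤ Sig.layerIn (⊤ : Subgroup P) :=
    um.pResidualOf_le hS hO le_top (Sig.le_normalizer_layerIn le_normalizer) hK'.qs hK'.le_layerIn
  have hF : Sig.fstarIn (⊤ : Subgroup P) = Sig.layerIn ⊤ := by
    rw [Sig.fstarIn_eq]
    exact sup_eq_left.2 ((le_pResidualOf_of_coprime le_top (coprime_fitIn hO)).trans hE')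
  have hD : pResidualOf p ⊤ ≤ ⨆ s : (S : Subgroup P), cj (s : P) K := by
    refine um.pResidualOf_le hS hO le_top ?_ hK'.qs (le_iSup_cj _ _)
    rw [← hS.pResidualOf_sup]
    exact sup_le (hE'.trans (le_normalizer_of_cj_le fun g hg => by
      rw [cj_iSup]
      exact iSup_mono fun s => (cj_eq_of_mem_normalizer ((hc s).layerIn_le_normalizer hg)).le))
      (le_normalizer_iSup_cj _ _)
  have hKM : ¬ K ≤ M := fun h =>
    um.not_pResidualOf_le hS (hD.trans (iSup_cj_le h (um.le.trans le_normalizer)))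
  refine ⟨by rw [← pResidualOf_top, ← Sig.fstarIn_top, hF]; exact le_antisymm hE' hE,
    by rw [← Sig.fstarIn_top, hF, Sig.layerIn_top], by
      rw [← Sig.layerIn_top]
      exact le_antisymm (hE.trans hD) (iSup_le fun s => (hc s).le_layerIn), ?_⟩
  set S₀ := (S : Subgroup P) ⊓ normalizer (K : Set P) with hS₀
  have hp₀ : IsPGroup p S₀ := S.isPGroup'.to_inf_left
  have hSK : SylIn p (S₀ ⊓ K) K := by
    have := hS.inf_subnIn hK'.subnIn
    rwa [hS₀, inf_assoc, inf_eq_right.2 (le_normalizer (H := K))]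
  have h₀ : SylIn p S₀ (K ⊔ S₀) := sylIn_sup_of_sylIn_inf hp₀ inf_le_right hSK
  have um₀ : UMax S₀ (K ⊔ S₀) ((K ⊔ S₀) ⊓ M) := by
    refine ⟨le_inf le_sup_right (inf_le_left.trans um.le),
      lt_of_le_of_ne inf_le_left fun e => hKM (le_sup_left.trans (e.ge.trans inf_le_right)),
      fun Y h1 h2 => le_inf h2.le ?_⟩
    have hY : Y = (K ⊓ Y) ⊔ S₀ := by
      rw [← sup_inf_of_le_right inf_le_right h1, inf_eq_right.2 h2.le]
    rcases um.eq_or_le (X := (⨆ s : (S : Subgroup P), cj (s : P) (K ⊓ Y)) ⊔ S) le_sup_right le_top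
      with e | e
    · exfalso
      have h3 : K ≤ ⨆ s : (S : Subgroup P), cj (s : P) (K ⊓ Y) :=
        (hK'.le_layerIn.trans hE).trans (pResidualOf_le_of_le_sup S.isPGroup'
          (le_normalizer_iSup_cj _ _) e.ge)
      have h4 : K ≤ centralizer (K : Set P) ⊔ (K ⊓ Y) := h3.trans (iSup_le fun s => by
        by_cases hs : cj (s : P) K = K
        · have hs' : (s : P) ∈ S₀ := ⟨s.2, mem_normalizer_iff_cj.2 hs⟩
          rw [cj_inf, hs, cj_eq_of_mem (h1 hs')]
          exact le_sup_right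
        · exact ((cj_mono _ inf_le_left).trans (commutator_eq_bot_iff_le_centralizer.1
            ((hc s).commutator_eq_bot_of_ne hK' hs))).trans le_sup_left)
      have h5 : K = (centralizer (K : Set P) ⊓ K) ⊔ (K ⊓ Y) := by
        rw [← sup_inf_of_le_right (inf_le_left.trans (le_normalizer_centralizer le_normalizer))
          inf_le_left, inf_eq_right.2 h4]
      have hZ : ⁅centralizer (K : Set P) ⊓ K, K ⊓ Y⁆ = ⊥ := commutator_eq_bot_iff_le_centralizer.2
        (inf_le_left.trans (centralizer_anti inf_le_left))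
      have hZ' : ⁅centralizer (K : Set P) ⊓ K, K⁆ = ⊥ :=
        commutator_eq_bot_iff_le_centralizer.2 inf_le_left
      have h6 : ⁅K, K⁆ ≤ Y := by
        have e1 : ⁅K, K⁆ = ⁅K ⊓ Y, K⁆ := by
          conv_lhs => arg 1; rw [h5, sup_comm]
          exact Sig.commutator_sup_left_of_central hZ hZ'
        have e2 : ⁅K ⊓ Y, K⁆ = ⁅K ⊓ Y, K ⊓ Y⁆ := by
          conv_lhs => arg 2; rw [h5, sup_comm]
          exact Sig.commutator_sup_right_of_central hZ hZ
        rw [e1, e2]
        exact (commutator_le_left_of_le_normalizer le_normalizer).trans inf_le_right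
      rw [hK'.perfect] at h6
      exact h2.not_ge (sup_le h6 h1)
    · rw [hY]
      exact sup_le ((le_iSup_cj _ _).trans (le_sup_left.trans e)) (inf_le_left.trans um.le)
  refine (isPMinimal_iff h₀).2 ⟨fun h => ?_, _, um₀⟩
  have hb : S₀ ⊓ K = ⊥ := eq_bot_of_subnIn hO ((Sig.SubnIn.of_normal inf_le_right
    (le_normalizer_inf (le_sup_left.trans h) le_normalizer)).trans hK'.subnIn) hp₀.to_inf_left
  have hcop : (Nat.card K).Coprime p := by
    have := hSK.not_dvd_relIndex
    rw [hb, relIndex_bot_left] at this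
    exact ((Nat.Prime.coprime_iff_not_dvd Fact.out).2 this).symm
  obtain ⟨t, R, ht, h1, h2, h3⟩ := um₀.exists_sylIn_sup hp₀ le_sup_left inf_le_right hcop
    fun h => hKM (h.trans inf_le_right)
  haveI := Fact.mk ht
  exact Sig.qs_not_le_solvable hK'.qs (Sig.isSolvable_of_isPGroup h1.pg)
    (((le_pResidualOf_of_perfect hK'.perfect).trans (pResidualOf_mono le_sup_left)).trans
      (pResidualOf_le_of_le_sup hp₀ h2 h3.ge))

end Cfsg.Agent.S2906
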