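import Cfsg.Statements.S2907
import Cfsg.Agent.PGrp.Basic
import Mathlib.Tactic.Group

set_option autoImplicit false
open Cfsg

namespace Cfsg.Agent.S2907
open scoped commutatorElement

open PGrp Subgroup

/-- Let X be a finite semi-extraspecial p-group and x an element of X outside the centre. Then the index of C_X(x) in X equals the order of Z(X), and the commutators [x, y], y ∈ X, form exactly the centre Z(X). -/
theorem result {X : Type*} [Group X] [Finite X] {p : ℕ} [Fact p.Prime] (hX : Cfsg.IsSemiExtraspecial p X) (x : X) (hx : x ∉ Subgroup.center X) : (Subgroup.centralizer ({x} : Set X)).index = Nat.card ↥(Subgroup.center X) ∧ {z : X | ∃ y : X, z = x * y * x⁻¹ * y⁻¹} = (Subgroup.center X : Set X) := by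
  obtain ⟨⟨hp, hΦ, hD⟩, h⟩ := hX
  have hc : ∀ a b : X, ⁅a, b⁆ ∈ center X := fun a b => hD ▸ commutator_mem_commutator (mem_top a) (mem_top b)
  let f : X →* X := MonoidHom.mk' (fun y => ⁅x, y⁆) fun a b => commutator_mul_right (commute_of_mem_center (hc _ _) _)
  have hle : f.range ≤ center X := by rintro _ ⟨y, rfl⟩; exact hc x y
  have hr : f.range = center X := by
    refine le_antisymm hle (subgroupOf_eq_top.1 ?_)
    by_contra hne
    obtain ⟨M, hM, hMle⟩ := (eq_top_or_exists_le_coatom _).resolve_left hne
    have e : (M.map (center X).subtype).subgroupOf (center X) = M := comap_map_eq_self_of_injective (subtype_injective _) M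
    obtain ⟨hN, hE⟩ := h (M.map (center X).subtype) (map_subtype_le M) (e.symm ▸ hM)
    set Y := M.map (center X).subtype
    have h1 : (x : X ⧸ Y) ∈ center (X ⧸ Y) := mem_center_iff.2 fun g => by
      obtain ⟨g, rfl⟩ := QuotientGroup.mk_surjective g
      rw [eq_comm, ← commutatorElement_eq_one_iff_mul_comm, ← QuotientGroup.mk'_apply, ← QuotientGroup.mk'_apply,
        ← map_commutatorElement, QuotientGroup.mk'_apply, QuotientGroup.eq_one_iff]
      exact ⟨⟨_, hc x g⟩, hMle (mem_subgroupOf.2 ⟨g, rfl⟩), rfl⟩
    rw [← hE.1.2.2, _root_.commutator_def, ← map_top_of_surjective _ (QuotientGroup.mk'_surjective Y),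
      ← map_commutator, ← _root_.commutator_def, hD] at h1
    obtain ⟨u, hu, e⟩ := h1
    refine hx ?_
    rw [← mul_inv_cancel_left u x]
    exact mul_mem hu (map_subtype_le M (QuotientGroup.eq.1 e))
  refine ⟨?_, ?_⟩
  · rw [← hr, ← index_ker]
    congr 1
    ext y
    rw [mem_centralizer_singleton_iff, MonoidHom.mem_ker, eq_comm, ← commutatorElement_eq_one_iff_mul_comm]
    rfl
  · rw [← hr]
    ext z
    exact exists_congr fun y => eq_comm

end Cfsg.Agent.S2907
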