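import Cfsg.Statements.S2908
import Cfsg.Agent.BG.Base6
import Cfsg.Agent.Loc.Comm

set_option autoImplicit false
open Cfsg

namespace Cfsg.Agent.S2908

open Cfsg.Agent.BG

/-- Let P be a p-subgroup of a finite group, normalized by a p-subgroup A and by a subgroup B of order prime to p that commutes elementwise with A. If [P, B] ≤ [P, A], then B centralizes P. -/
theorem result {G : Type*} [Group G] [Finite G] {p : ℕ} [Fact p.Prime] (P A B : Subgroup G) (hP : IsPGroup p ↥P) (hA : IsPGroup p ↥A) (hB : ¬ p ∣ Nat.card ↥B) (hnA : A ≤ Subgroup.normalizer (P : Set G)) (hnB : B ≤ Subgroup.normalizer (P : Set G)) (hAB : ⁅A, B⁆ = ⊥) (hcomm : ⁅P, B⁆ ≤ ⁅P, A⁆) : ⁅P, B⁆ = ⊥ := by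
  have hc : (#P).Coprime #B :=
    Solv.coprime_card_of_isPGroup hP ((Nat.Prime.coprime_iff_not_dvd Fact.out).2 hB).symm
  have hAB' : A ≤ N[B] := cents_norm (commG1.1 hAB)
  have hQ : P ⊔ A ≤ N[⁅P, B⁆] := sup_le (commg_norml P B) (normsR hnA hAB')
  by_contra hne
  have hlt := Loc.commutator_lt_of_isPGroup (hP.to_sup_of_normal_left' hA hnA)
    (hP.to_le (commg_subl hnB)) hQ hne
  have hBn : B ≤ N[⁅⁅P, B⁆, P ⊔ A⁆] :=
    normsR (commg_normr P B) (normsY hnB (cents_norm (commG1'.1 hAB)))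
  have h := Loc.three_subgroups (A := P) (B := A) (C := B)
    (le_sup_left.trans (commg_normr ⁅P, B⁆ (P ⊔ A))) (le_sup_right.trans (commg_normr _ _)) hBn
    (by rw [hAB, Subgroup.commutator_bot_left]; exact bot_le)
    (by rw [commGC B P]; exact commgS _ le_sup_right)
  refine hlt.not_ge (le_trans ?_ h)
  conv_lhs => rw [← coprime_commGid hnB hc]
  exact commSg _ hcomm

end Cfsg.Agent.S2908
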