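import Cfsg.Statements.S2909
import Cfsg.Agent.Loc.SFF2

set_option autoImplicit false
open Cfsg

namespace Cfsg.Agent.S2909

/-- Let p be a prime, E a normal p-subgroup of the finite group G, and U a non-cyclic elementary abelian p-subgroup of G such that either C_E(U) = C_E(u) for every nontrivial u ∈ U, or [E, U] = [E, ⟨u⟩] for every nontrivial u ∈ U. If R is a subgroup of order prime to p normalized by U, then [R, U] centralizes E. -/
theorem result {G : Type*} [Group G] [Finite G] {p : ℕ} [Fact p.Prime] (E : Subgroup G) [E.Normal] (hE : IsPGroup p ↥E) (U : Subgroup G) (hU : Cfsg.IsElementaryAbelian p U) (hnc : ¬ IsCyclic ↥U) (hcond : (∀ u ∈ U, u ≠ 1 → E ⊓ Subgroup.centralizer (U : Set G) = E ⊓ Subgroup.centralizer ({u} : Set G)) ∨ (∀ u ∈ U, u ≠ 1 → ⁅E, U⁆ = ⁅E, Subgroup.zpowers u⁆)) (R : Subgroup G) (hR : ¬ p ∣ Nat.card ↥R) (hRU : U ≤ Subgroup.normalizer (R : Set G)) : ⁅R, U⁆ ≤ Subgroup.centralizer (E : Set G) := by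
  open Cfsg.Agent.Loc Subgroup in
  open scoped commutatorElement in
  have hco : (Nat.card R).Coprime p := ((Nat.Prime.coprime_iff_not_dvd Fact.out).2 hR).symm
  have pU := isPGroup_of_isElementaryAbelian hU
  have cU := (isElementaryAbelian_iff.1 hU).1
  refine (le_commKer_iff.1 (BG.coprime_abelian_gen_cent1 hU.1 hnc hRU
    (Sig.coprime_of_isPGroup_of_coprime pU hco).symm fun u hu h1 => le_commKer_iff.2 ⟨le_normalizer_of_normal, ?_⟩)).2
  set X := R ⊓ centralizer ({u} : Set G) with hX
  have Xu : X ≤ centralizer (zpowers u : Set G) := by rw [centralizer_zpowers]; exact inf_le_right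
  have UX : U ≤ normalizer (X : Set G) := le_normalizer_inf hRU
    (le_normalizer_of_le (cU.trans (centralizer_le (Set.singleton_subset_iff.2 hu))))
  have DX : ⁅X, U⁆ ≤ X := commutator_le_left_of_le_normalizer UX
  have cD := Sig.coprime_card_of_le (DX.trans inf_le_left) hco
  have pu : IsPGroup p (zpowers u) := pU.to_le (zpowers_le.2 hu)
  rcases hcond with h | h
  · refine Solv.thompson_PxQ pu cD hE (le_centralizer_iff.1 (DX.trans Xu)) le_normalizer_of_normal
      le_normalizer_of_normal (le_centralizer_iff.1 ?_)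
    rw [centralizer_zpowers]
    exact (commutator_mono le_rfl (le_centralizer_iff.1 ((h u hu h1).ge.trans inf_le_right))).trans
      (commutator_le_right_of_le_normalizer (le_normalizer_centralizer (le_normalizer_inf le_normalizer_of_normal
        (le_normalizer_of_le inf_le_right))))
  · set D := ⁅X, U⁆ with hD
    have nW : X ≤ normalizer ((⁅E, U⁆ : Subgroup G) : Set G) := by
      rw [h u hu h1]; exact le_normalizer_commutator le_normalizer_of_normal (le_normalizer_of_le_centralizer Xu)
    have a : ⁅D, E⁆ ≤ ⁅E, U⁆ := (le_commKer_iff.1 ((commutator_mono le_rfl (le_commKer_iff.2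
      ⟨normalizer_commutator_ge_right _ _, (commutator_comm _ _).le⟩)).trans (commutator_le_right_of_le_normalizer
      (le_normalizer_commKer nW le_normalizer_of_normal)))).2
    have uD : zpowers u ≤ centralizer (D : Set G) := le_centralizer_iff.1 (DX.trans Xu)
    have n1 : E ⊔ zpowers u ≤ normalizer ((⁅E, D⁆ : Subgroup G) : Set G) := sup_le (normalizer_commutator_ge_left _ _)
      (le_normalizer_commutator le_normalizer_of_normal (le_normalizer_of_le_centralizer uD))
    have n2 : E ⊔ zpowers u ≤ normalizer ((⁅⁅E, D⁆, E ⊔ zpowers u⁆ : Subgroup G) : Set G) :=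
      normalizer_commutator_ge_right _ _
    have b : ⁅⁅E, zpowers u⁆, D⁆ ≤ ⁅⁅E, D⁆, E ⊔ zpowers u⁆ := three_subgroups (le_sup_left.trans n2)
      (le_sup_right.trans n2) (le_normalizer_commutator (normalizer_commutator_ge_right _ _)
        (le_normalizer_sup le_normalizer_of_normal (le_normalizer_of_le_centralizer (DX.trans Xu))))
      (by rw [commutator_eq_bot_iff_le_centralizer.2 uD, commutator_bot_left]; exact bot_le)
      (by rw [commutator_comm D]; exact commutator_mono le_rfl le_sup_right)
    refine commutator_eq_bot_iff'.1 (eq_bot_of_le_commutator (N := ⁅E, D⁆) (P := E ⊔ zpowers u) (p := p) (hE.to_sup_of_normal_left pu)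
      (hE.to_le (commutator_le_left_of_le_normalizer le_normalizer_of_normal)) n1 (le_trans ?_ b))
    rw [← h u hu h1]
    exact (Solv.commutator_commutator_eq le_normalizer_of_normal
      (Sig.coprime_of_isPGroup_of_coprime hE cD).symm).ge.trans (commutator_mono ((commutator_comm E D).le.trans a) le_rfl)

end Cfsg.Agent.S2909
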