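import Cfsg.Statements.S2910
import Cfsg.Agent.Loc.Isol
import Cfsg.Agent.Transfer.Hol
import Cfsg.Agent.Transfer.Frobenius

set_option autoImplicit false
open Cfsg

namespace Cfsg.Agent.S2910

/-- Let p be an odd prime dividing the order of the finite group G and P a Sylow p-subgroup of G. If Ω₁(P) (generated by the elements of order dividing p) is contained in the centre of G, then G has a normal p-complement. In particular, if G is quasisimple then Ω₁(P) is not central in G. -/
theorem result {G : Type*} [Group G] [Finite G] {p : ℕ} [Fact p.Prime] (hp : p ≠ 2) (hdiv : p ∣ Nat.card G) (P : Sylow p G) (hZ : Cfsg.omegaOne p (P : Subgroup G) ≤ Subgroup.center G) : Cfsg.HasNormalPComplement p G ∧ ¬ Cfsg.IsQuasisimple G := by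
  open Cfsg.Agent.Loc Subgroup in
  open scoped commutatorElement in
  have h1 : HasNormalPComplement p G := by
    rw [Transfer.hasNormalPComplement_iff_normalizer_centralizer P]
    intro Q hQ g hg hc
    have := Transfer.le_centralizer_of_omega hp (A := zpowers g) (P.isPGroup'.to_le hQ) (zpowers_le.2 hg)
      (by rwa [Nat.card_zpowers]) fun y hy hyp => center_le_centralizer _ (hZ (mem_omegaOne (hQ hy) hyp))
    rw [centralizer_zpowers] at this
    exact le_cent1_iff.1 this
  refine ⟨h1, fun hq => ?_⟩
  have h2 : pResidual p G = ⊤ := by
    rw [Transfer.pResidual_eq_top_iff_not_dvd_index_commutator]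
    have : commutator G = ⊤ := hq.1.commutator_eq_top
    rw [this, index_top, Nat.dvd_one]
    exact (Fact.out : p.Prime).one_lt.ne'
  rw [Transfer.hasNormalPComplement_iff_not_dvd_card_pResidual, h2, card_top] at h1
  exact h1 hdiv

end Cfsg.Agent.S2910
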