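import Cfsg.Statements.S2911
import Cfsg.Agent.Loc.TT
import Cfsg.Agent.Invol.Transfer
import Cfsg.Agent.BG.Base6
import Mathlib.Tactic.Group

set_option autoImplicit false
open Cfsg

namespace Cfsg.Agent.S2911
open scoped commutatorElement

open Subgroup BG

theorem central_transfer {G : Type*} [Group G] [Finite G] (hG : ∀ H : Subgroup G, H.index ≠ 2) (S : Sylow 2 G)
    {T : Subgroup G} (hT : T ≤ S) (hi : T.relIndex S = 2) {u : G} (hu : u * u = 1) (huS : u ∈ S) (huT : u ∉ T)
    (hc : (S : Subgroup G) ≤ C1[u]) : ∃ g ∈ N[(S : Subgroup G)], g * u * g⁻¹ ∈ T := by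
  have := normal_of_index_eq_two hi
  obtain ⟨g, h1, h2⟩ := Loc.thompson_transfer_cyclic (Nat.not_even_iff_odd.1 (mt even_iff_two_dvd.1 S.not_dvd_index))
    (isCyclic_of_prime_card (p := 2) hi) hu huS huT hT
    (Invol.mem_commutator_of_no_index_two hG (k := 1) (by simpa [sq] using hu)) S.isPGroup' hc
  exact ⟨g, mem_norm_of_cj_le h2, h1⟩

/-- A finite group whose Sylow 2-subgroups are isomorphic to the direct product of a group of order 2 and a dihedral group of order 8 has a subgroup of index two. -/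
theorem result {G : Type*} [Group G] [Finite G] (S : Sylow 2 G) (hS : Nonempty (↥(S : Subgroup G) ≃* Multiplicative (ZMod 2) × DihedralGroup 4)) : ∃ H : Subgroup G, H.index = 2 := by
  obtain ⟨e⟩ := hS
  by_contra! hG
  let f := (MonoidHom.fst _ _).comp e.toMonoidHom
  have k1 : ∀ s : Multiplicative (ZMod 2) × DihedralGroup 4, s * s ≠ (Multiplicative.ofAdd 1, 1) ∧
      s * (Multiplicative.ofAdd 1, 1) = (Multiplicative.ofAdd 1, 1) * s := by decide
  have k2 : ∀ w : Multiplicative (ZMod 2) × DihedralGroup 4, w.1 = 1 → (∀ s, s * w = w * s) → ∃ s, s * s = w := by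
    decide
  obtain ⟨u, hu⟩ := e.surjective (Multiplicative.ofAdd 1, 1)
  have hc : (S : Subgroup G) ≤ C1[(u : G)] := fun s hs => mem_cent1.2 (congrArg Subtype.val
    (e.injective (by rw [map_mul, map_mul, hu, (k1 _).2]) : ⟨s, hs⟩ * u = u * ⟨s, hs⟩))
  obtain ⟨g, hg, w, hw, ew⟩ := central_transfer hG S (map_subtype_le f.ker) (u := u) (by
      rw [relIndex_map_subtype, index_ker, MonoidHom.range_eq_top_of_surjective _
        (Prod.fst_surjective.comp e.surjective)]; simp)
    (congrArg Subtype.val (e.injective (by rw [map_mul, hu, map_one e]; decide) : u * u = 1)) u.2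
    (fun ⟨w, hw, ew⟩ => by
      rw [show w = u from Subtype.ext ew] at hw
      exact absurd (hu ▸ hw : (Multiplicative.ofAdd (1 : ZMod 2), (1 : DihedralGroup 4)).1 = 1) (by decide)) hc
  obtain ⟨s, hs⟩ := k2 (e w) hw fun s => by
    obtain ⟨s, rfl⟩ := e.surjective s
    rw [← map_mul, ← map_mul]
    refine congrArg e (Subtype.ext ?_)
    have := mem_cent1.1 (hc (conj_mem_of_norm' hg s.2))
    change (s : G) * w = w * s
    rw [show (w : G) = g * u * g⁻¹ from ew]
    calc (s : G) * (g * u * g⁻¹) = g * (g⁻¹ * s * g * u) * g⁻¹ := by group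
      _ = _ := by rw [this]; group
  obtain ⟨s, rfl⟩ := e.surjective s
  refine (k1 (e ⟨_, conj_mem_of_norm' hg s.2⟩)).1 ?_
  rw [← hu, ← map_mul]
  refine congrArg e (Subtype.ext ?_)
  have : (s : G) * s = g * u * g⁻¹ := (congrArg Subtype.val (e.injective ((map_mul e s s).trans hs))).trans ew
  change g⁻¹ * s * g * (g⁻¹ * s * g) = u
  calc g⁻¹ * s * g * (g⁻¹ * s * g) = g⁻¹ * (s * s) * g := by group
    _ = u := by rw [this]; group

end Cfsg.Agent.S2911
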