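import Cfsg.Statements.S2912
import Cfsg.Agent.BG.Base6
import Cfsg.Agent.PGrp.ES
import Cfsg.Agent.Sig.Sf1

set_option autoImplicit false
open Cfsg

namespace Cfsg.Agent.S2912

open Subgroup Cfsg.Agent.BG Cfsg.Agent.PGrp Module
open scoped commutatorElement

theorem mem_zp {G : Type*} [Group G] {P : Subgroup G} {x z : P} : x ∈ zpowers z ↔ (x : G) ∈ zpowers (z : G) :=
  ⟨fun ⟨k, h⟩ => ⟨k, by simp [← h]⟩, fun ⟨k, h⟩ => ⟨k, Subtype.ext (by simpa using h)⟩⟩

theorem shift {S : Type*} [Group S] {p : ℕ} [Fact p.Prime] {z y c : S} (h : IsES p z) (hZ : center S = zpowers z)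
    (hy : y ∉ zpowers z) (hc : c ∈ zpowers z) : ∃ u : S, ⁅u, y⁆ = c := by
  obtain ⟨v, hv⟩ : ∃ v, h.B (h.π y) v ≠ 0 := by
    by_contra! q
    exact hy (hZ ▸ h.mem_center_iff.2 q)
  obtain ⟨u, hu⟩ := h.mk_surjective ((-(h.lg c / h.B (h.π y) v)) • v)
  refine ⟨u, ?_⟩
  rw [← h.ez_B, hu, map_smul, LinearMap.smul_apply, ← h.isAlt.neg_eq (h.π y) v, smul_eq_mul, neg_mul_neg, div_mul_cancel₀ _ hv,
    h.ez_lg hc]

theorem main {G : Type*} [Group G] [Finite G] {p r n : ℕ} [hp : Fact p.Prime] [hr : Fact r.Prime] (hpr : p ≠ r)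
    (hmin : ∀ k : ℕ, 1 ≤ k → p ∣ r ^ k - 1 → n ≤ k) (w : ℕ) : ∀ (S : Subgroup G) (z : S), IsES p z →
      center S = zpowers z → #S = p ^ (2 * w + 1) → ∀ W : Subgroup G, Abelem r W → S ≤ N[W] → W ≠ ⊥ →
      W ⊓ C1[(z : G)] = ⊥ → r ^ (n * p ^ w) ≤ #W := by
  induction w with
  | zero =>
    intro S z h hZ hc W hW hn h0 hz
    obtain ⟨k, hk⟩ := hW.pg.exists_card_eq
    have h1 := regular_norm_dvd_pred (K := W) (H := zpowers (z : G)) ((zpowers_le.2 z.2).trans hn) fun x hx x1 => by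
      rw [← C_zpowers, eq_of_le_of_card_ge (zpowers_le.2 hx) (by
        rw [Nat.card_zpowers, Nat.card_zpowers, orderOf_coe, h.ord, abelem_order_p (cycle_abelem
          (congrArg Subtype.val (h.pow_eq_one (mem_zpowers z)))) hx x1]), C_zpowers, hz]
    rw [Nat.card_zpowers, orderOf_coe, h.ord, hk] at h1
    rw [hk, pow_zero, mul_one]
    exact Nat.pow_le_pow_right hr.1.pos (hmin k (Nat.pos_of_ne_zero fun e => h0 (card_eq_one.1 (by simp [hk, e]))) h1)
  | succ w ih =>
    intro S z h hZ hc W hW hn h0 hz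
    have fr := h.finrank_eq hc
    by_cases hq : p = 2 ∧ w = 0
    · obtain ⟨rfl, rfl⟩ := hq
      obtain ⟨k, hk⟩ := hW.pg.exists_card_eq
      have n1 : n ≤ 1 := hmin 1 le_rfl (by have := hr.1.eq_two_or_odd; rw [pow_one]; omega)
      rw [hk]
      refine Nat.pow_le_pow_right hr.1.pos ((by omega : n * 2 ^ (0 + 1) ≤ 2).trans (not_lt.1 fun k2 => h0 ?_))
      have cy : IsCyclic W := isCyclic_of_card_dvd_prime (p := r) (by
        rw [hk]; exact (pow_dvd_pow r (by omega : k ≤ 1)).trans (by simp))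
      obtain ⟨y, hy⟩ : ∃ y : S, y ∉ zpowers z := by
        by_contra! c
        have := h.card_zpowers
        rw [(eq_top_iff' _).2 c, card_top, hc] at this
        omega
      obtain ⟨u, hu⟩ := shift h hZ hy (mem_zpowers z)
      have : (z : G) ∈ C[W] := der1_cent_cyclic cy hn (by rw [← hu]; exact commutator_mem_commutator u.2 y.2)
      rw [← hz, left_eq_inf, ← C_zpowers]
      exact cents_symm (zpowers_le.2 this)
    obtain ⟨x, hx, xp⟩ : ∃ x : S, x ∉ zpowers z ∧ x ^ p = 1 := by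
      by_cases p2 : p = 2
      · subst p2
        obtain ⟨k, hk, k1⟩ : ∃ k, h.quad.WittIndex k ∧ 1 ≤ k := by
          rcases h.wittIndex_cases hZ hc with e | e
          exacts [⟨_, e, by omega⟩, ⟨_, e, by omega⟩]
        obtain ⟨A, a1, a2, a3⟩ := h.exists_elem hk
        by_contra! c
        have := card_le_card (show A ≤ zpowers z from fun x hx => by_contra fun q => c x q (a1.2 x hx))
        rw [a3, h.card_zpowers, pow_succ] at this
        have := Nat.pow_le_pow_right two_pos k1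
        omega
      · have h1 := (h.L p2).finrank_range_add_finrank_ker
        have h2 := (LinearMap.range (h.L p2)).finrank_le
        rw [finrank_self] at h2
        obtain ⟨v, hv, v0⟩ := (Submodule.ne_bot_iff _).1 (show LinearMap.ker (h.L p2) ≠ ⊥ from fun e => by
          rw [e, finrank_bot] at h1; omega)
        obtain ⟨x, rfl⟩ := h.mk_surjective v
        exact ⟨x, fun e => v0 (h.mk_eq_zero.2 e), h.pw_eq_zero.1 hv⟩
    have zp : (z : G) ^ p = 1 := congrArg Subtype.val (h.pow_eq_one (mem_zpowers z))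
    have xp' : (x : G) ^ p = 1 := congrArg Subtype.val xp
    have cz : zpowers (x : G) ≤ C[zpowers (z : G)] := zpowers_le.2 (by
      rw [C_zpowers]; exact mem_cent1.2 (congrArg Subtype.val (h.commute_of_mem (mem_zpowers z) x).symm.eq))
    have hA := abelemY (cycle_abelem xp') (cycle_abelem zp) cz
    have oz : #(zpowers (z : G)) = p := by rw [Nat.card_zpowers, orderOf_coe, h.ord]
    have ox : #(zpowers (x : G)) = p := by
      rw [Nat.card_zpowers, orderOf_coe, orderOf_eq_prime xp fun e => hx (e ▸ one_mem _)]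
    have cA : #(zpowers (x : G) ⊔ zpowers (z : G)) = p ^ 2 := by
      have := card_sup_mul_inf (.inl (cents_norm cz))
      rwa [show zpowers (x : G) ⊓ zpowers (z : G) = ⊥ from by_contra fun c =>
        hx (mem_zp.2 (prime_meet (ox.symm ▸ hp.1) c (mem_zpowers _))), card_bot, mul_one, ox, oz, ← sq] at this
    have AS : zpowers (x : G) ⊔ zpowers (z : G) ≤ S := sup_le (zpowers_le.2 x.2) (zpowers_le.2 z.2)
    have h1 := Sig.abelem_Wielandt hA (fun e => by
      rw [e, card_bot] at cA; exact absurd cA (Nat.one_lt_pow two_ne_zero hp.1.one_lt).ne) (AS.trans hn)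
      (IsPGroup.coprime_card_of_ne r p hpr.symm _ _ hW.pg hA.pg)
    have gz : ∀ {a b : G}, #(zpowers b) = p → a ∈ zpowers b → a ≠ 1 → C1[a] = C1[b] := fun {a b} e ha a1 => by
      rw [← C_zpowers, ← C_zpowers, le_antisymm (zpowers_le.2 ha) (prime_meet (e.symm ▸ hp.1) fun q =>
        a1 (mem_bot.1 (q ▸ mem_inf.2 ⟨ha, mem_zpowers a⟩)))]
    have h2 : ∀ a ∈ Sig.nt (zpowers (x : G) ⊔ zpowers (z : G)), #(W ⊓ C1[a]) ^ p =
        open _root_.Classical in if a ∈ zpowers (z : G) then 1 else #(W ⊓ C1[(x : G)]) ^ p := fun a ha => by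
      obtain ⟨ha, a1⟩ := Sig.mem_nt.1 ha
      split_ifs with q
      · rw [gz oz q a1, hz, card_bot, one_pow]
      · obtain ⟨b, hb, c, hc, rfl⟩ := (mem_sup_normr (cents_norm cz)).1 ha
        have bS : b ∈ S := zpowers_le.2 x.2 hb
        have cS : c ∈ S := zpowers_le.2 z.2 hc
        obtain ⟨u, hu⟩ := shift h hZ (y := ⟨b, bS⟩) (c := ⟨c, cS⟩) (fun e => q (mul_mem (mem_zp.1 e) hc)) (mem_zp.2 hc)
        have e : b * c = u * b * (u : G)⁻¹ := by
          have := congrArg Subtype.val (h.commute_of_mem (x := ⟨c, cS⟩) (mem_zp.2 hc) ⟨b, bS⟩).eq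
          rw [← show c * b = b * c from this, ← show ⁅(u : G), b⁆ = c from congrArg Subtype.val hu]
          simp [commutatorElement_def]
        rw [e, C1_conj, gz ox hb fun e => q (by simpa [e] using hc)]
        conv_lhs => rw [← mem_norm.1 (hn u.2), ← cj_inf, card_cj]
    have h3 : W ⊓ C[zpowers (x : G) ⊔ zpowers (z : G)] = ⊥ :=
      eq_bot_iff.2 (hz ▸ inf_le_inf_left _ (by rw [← C_zpowers]; exact centralizer_le (SetLike.coe_subset_coe.2 le_sup_right)))
    have h4 : ((Sig.nt (zpowers (x : G) ⊔ zpowers (z : G))).filter fun a => a ∈ zpowers (z : G)).card = p - 1 := by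
      rw [← oz, ← Sig.card_nt]
      congr 1
      ext a
      simp only [Finset.mem_filter, Sig.mem_nt]
      exact ⟨fun q => ⟨q.2, q.1.2⟩, fun q => ⟨⟨mem_sup_right q.1, q.2⟩, q.1⟩⟩
    have h5 := Finset.card_filter_add_card_filter_not (s := Sig.nt (zpowers (x : G) ⊔ zpowers (z : G)))
      fun a => a ∈ zpowers (z : G)
    have pp : p < p ^ 2 := (pow_one p).symm.trans_lt (Nat.pow_lt_pow_right hp.1.one_lt one_lt_two)
    rw [h4, Sig.card_nt, cA] at h5
    rw [Finset.prod_congr rfl h2, Finset.prod_ite, Finset.prod_const_one, one_mul, Finset.prod_const, h3, card_bot,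
      one_pow, mul_one, cA, show Finset.card _ = p ^ 2 - p by have := hp.1.pos; omega] at h1
    have h6 := Nat.pow_left_injective (by omega) h1
    obtain ⟨y, hy⟩ := shift h hZ hx (mem_zpowers z)
    have b1 : h.B (h.π y) (h.π x) = 1 := h.ez_injective (by rw [h.ez_B, hy, h.ez_one])
    have b2 : h.B (h.π x) (h.π y) = -1 := by rw [← h.isAlt.neg_eq, b1]
    let f : h.V →ₗ[ZMod p] ZMod p × ZMod p := (h.B (h.π x)).prod (h.B (h.π y))
    have dec : ∀ v, v - h.B (h.π y) v • h.π x + h.B (h.π x) v • h.π y ∈ LinearMap.ker f := fun v => by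
      simp [f, h.isAlt.self_eq_zero, b1, b2]
    have f1 : finrank (ZMod p) (LinearMap.ker f) = 2 * w := by
      have := f.finrank_range_add_finrank_ker
      rw [LinearMap.range_eq_top.2 fun t => ⟨t.2 • h.π x - t.1 • h.π y, by
        simp [f, h.isAlt.self_eq_zero, b1, b2]⟩, finrank_top, Module.finrank_prod, finrank_self] at this
      omega
    set K := h.pre (LinearMap.ker f)
    have zK : (z : G) ∈ K.map S.subtype := ⟨z, h.le_pre _ (mem_zpowers z), rfl⟩
    have KS := map_subtype_le K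
    have zc : ∀ a : K.map S.subtype, a ∈ zpowers (⟨z, zK⟩ : K.map S.subtype) ↔ (⟨a, KS a.2⟩ : S) ∈ zpowers z :=
      fun a => mem_zp.trans (mem_zp (P := S) (x := ⟨a, KS a.2⟩) (z := z)).symm
    have zc' : zpowers (⟨z, zK⟩ : K.map S.subtype) ≤ center _ := fun a ha => mem_center_iff.2 fun b => Subtype.ext
      (congrArg (Subtype.val : S → G) (h.commute_of_mem ((zc a).1 ha) ⟨b, KS b.2⟩).symm.eq)
    have := ih (K.map S.subtype) ⟨z, zK⟩ ⟨by rw [← orderOf_coe, ← h.ord, ← orderOf_coe], zc' (mem_zpowers _),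
      fun a b => (zc _).2 (h.comm ⟨a, KS a.2⟩ ⟨b, KS b.2⟩), fun a => (zc _).2 (h.pow ⟨a, KS a.2⟩)⟩
      (le_antisymm (fun a ha => (zc a).2 (hZ ▸ h.mem_center_iff.2 fun v => ?_)) zc')
      (by rw [card_map_of_injective S.subtype_injective, h.card_pre_eq, f1]) (W ⊓ C1[(x : G)])
      (abelemS inf_le_left hW) (normsI (KS.trans hn) (le_trans ?_ le_normalizer))
      (fun e => h0 (card_eq_one.1 (by rw [← h6, e, card_bot, one_pow])))
      (eq_bot_iff.2 (hz ▸ inf_le_inf_right _ inf_le_left))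
    · rw [← h6, pow_succ, ← mul_assoc, pow_mul]
      exact Nat.pow_le_pow_left this p
    · obtain ⟨_, a, aK, rfl⟩ := a
      obtain ⟨b, hb⟩ := h.mk_surjective (v - h.B (h.π y) v • h.π x + h.B (h.π x) v • h.π y)
      have q := h.B_eq_zero.2 (show a * b = b * a from Subtype.ext
        (congrArg Subtype.val (mem_center_iff.1 ha ⟨b, b, h.mem_pre.2 (hb ▸ dec v), rfl⟩)).symm)
      obtain ⟨q1, q2⟩ := Prod.ext_iff.1 (show f (h.π a) = 0 from aK)
      have q3 : h.B (h.π a) (h.π x) = 0 := by rw [← h.isAlt.neg_eq, neg_eq_zero]; exact q1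
      have q4 : h.B (h.π a) (h.π y) = 0 := by rw [← h.isAlt.neg_eq, neg_eq_zero]; exact q2
      simpa [hb, q3, q4] using q
    · rintro _ ⟨a, aK, rfl⟩ _ rfl
      exact congrArg Subtype.val (h.B_eq_zero.1 (Prod.ext_iff.1 (show f (h.π a) = 0 from aK)).1).eq

/-- Let p and r be distinct primes, let E be an extraspecial subgroup of order p^(2w+1) of a finite group, and let A be an elementary abelian r-subgroup normalized by E on which E acts faithfully (C_E(A) = 1). If n ≥ 1 is least with p dividing rⁿ − 1 (the smallest dimension of a faithful representation of a group of order p over the field with r elements), then the order of A is at least r^(n·p^w). -/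
theorem result {G : Type*} [Group G] [Finite G] {p r : ℕ} [Fact p.Prime] [hr : Fact r.Prime] (hpr : p ≠ r) (E A : Subgroup G) (w : ℕ) (hE : Cfsg.IsExtraspecial p ↥E) (hEcard : Nat.card ↥E = p ^ (2 * w + 1)) (hA : Cfsg.IsElementaryAbelian r A) (hnorm : E ≤ Subgroup.normalizer (A : Set G)) (hfaith : E ⊓ Subgroup.centralizer (A : Set G) = ⊥) (n : ℕ) (hn : 1 ≤ n) (hdiv : p ∣ r ^ n - 1) (hmin : ∀ k : ℕ, 1 ≤ k → p ∣ r ^ k - 1 → n ≤ k) : r ^ (n * p ^ w) ≤ Nat.card ↥A := by
  obtain ⟨z, h, hZ⟩ := exists_isES hE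
  have hz : zpowers (z : G) ≤ E := zpowers_le.2 z.2
  have hc := IsPGroup.coprime_card_of_ne r p hpr.symm _ _ hA.pg (h.isPGroup.to_le hz)
  refine (main hpr hmin w E z h hZ hEcard ⁅A, zpowers (z : G)⁆ (abelemS (commg_subl (hz.trans hnorm)) hA)
    (normsR hnorm (cents_norm (cents_symm (zpowers_le.2 fun x hx =>
      congrArg Subtype.val (h.commute_of_mem (mem_zpowers z) ⟨x, hx⟩).symm.eq)))) (fun e => h.ne_one (Subtype.ext
      (mem_bot.1 (hfaith ▸ mem_inf.2 ⟨z.2, commG1'.1 e (mem_zpowers _)⟩))))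
    (by rw [← C_zpowers]; exact coprime_abel_cent_TI (hz.trans hnorm) hc hA.1)).trans
    (card_le_card (commg_subl (hz.trans hnorm)))

end Cfsg.Agent.S2912
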