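import Cfsg.Statements.S2924
import Cfsg.Agent.Sig.Sf5
import Cfsg.Agent.Gen.Invol

set_option autoImplicit false
open Cfsg

namespace Cfsg.Agent.S2924

open Subgroup Cfsg.Agent.BG Cfsg.Agent.Sig

theorem pLayerIn_eq_bot {G : Type*} [Group G] [Finite G] {K : Subgroup G} {z : G} (hz : z ^ 2 = 1) (hzK : z ∈ K)
    (hE : layerIn K = ⊥) (hC : xeIn 2 (K ⊓ C1[z]) = ⊥) : pLayerIn 2 K = ⊥ := by
  have nO := pcore_normal {2}ᶜ K
  have pO := pcore_pgroup {2}ᶜ K
  have eO : ppIn 2 K = Op' 2 K := (Op'_eq 2 K).symm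
  have hzz : zpowers z ≤ K := zpowers_le.2 hzK
  have h1 : Op' 2 K ⊓ C1[z] = ⊥ := le_bot_iff.1 (le_trans (le_trans (le_inf inf_le_left
    (le_inf (inf_le_left.trans nO.1) inf_le_right)) (pcore_setI _ inf_le_left)) (by
      rw [← hC, ← Op', Op'_eq]; exact le_sup_right))
  have hinv := (Gen.fpf_invol (nO.2 hzK) (by rw [← sq, hz]; exact one_mem _) h1).2.2
  have hH : ⁅K, zpowers z⁆ ≤ C[Op' 2 K] := commutator_le.2 fun k hk y hy => by
    obtain ⟨n, rfl⟩ := mem_zpowers_iff.1 hy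
    rw [zpow_eq_zpow_emod n (n := 2) (by exact_mod_cast hz)]
    rcases Int.emod_two_eq_zero_or_one n with e | e <;> rw [e]
    · simp
    refine mem_cent.2 fun o ho => ?_
    have h2 := hinv _ (conj_mem_of_norm' (nO.2 hk) (inv_mem ho))
    have h3 := hinv _ (conj_mem_of_norm' (nO.2 hzK) ho)
    have h4 : z⁻¹ * o * z = o⁻¹ := by rw [← inv_inj, ← h3]; group
    rw [zpow_one, commutatorElement_def]
    calc o * (k * z * k⁻¹ * z⁻¹) = k * (k⁻¹ * o⁻¹ * k)⁻¹ * z * k⁻¹ * z⁻¹ := by group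
      _ = k * z * k⁻¹ * o⁻¹ * z⁻¹ := by rw [← h2]; group
      _ = _ := by rw [← h4]; group
  refine pLayerIn_eq_bot_iff.2 fun L hL => ?_
  rcases hL.le_or_commutator (SubnIn.of_normal (commg_subl (normsG hzz)) (commg_norml _ _)) with h | h
  · refine layerIn_eq_bot_iff.1 hE L ⟨hL.subnIn, hL.pqs.qs ?_⟩
    rw [hL.ppIn_eq, eO]
    exact inf_le_left.trans (cents_symm (h.trans hH))
  rw [eO] at h
  have nL := hL.le.trans nO.2
  have k1 : ⁅⁅L, zpowers z⁆, L⁆ ≤ Op' 2 K := commGC L _ ▸ (commgS L (commSg _ hL.le)).trans h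
  have k2 := PLocal.three_subgroups nL nL (hzz.trans nO.2) k1 (commGC L (zpowers z) ▸ k1)
  rw [hL.perfect] at k2
  have k3 := le_inf (quotientS (Op' 2 K) hL.le) (quotient_cents2r k2)
  rw [← coprime_quotient_cent nO.1 (hzz.trans nO.2) (cop_of_pp pO (cycle_abelem hz).pg)
    (.inl (abelian_sol (abelian_zpowers z))), C_zpowers] at k3
  have k4 := ((hL.quotient pO nO.2).restrict k3 (quotientS _ inf_le_left)).le_pLayerIn.trans
    (le_sup_left.trans (xeIn_quotient pO (inf_le_left.trans nO.2)).le)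
  rw [hC, quotient_bot] at k4
  exact (hL.quotient pO nO.2).ne_bot (le_bot_iff.1 k4)

/-- Let X be a finite group and Y an elementary abelian 2-subgroup of X of order at least 8 such that C_X(x) has no components (E(C_X(x)) = 1) for every nontrivial x ∈ Y, and F*(C_X(z)) = O₂(C_X(z)) for some nontrivial z ∈ Y. Then the subgroup generated by the cores O(C_X(y)), y ∈ Y nontrivial, has odd order and is normalized by N_X(Y). -/
theorem result {X : Type*} [Group X] [Finite X] (Y : Subgroup X) (hY : Cfsg.IsElementaryAbelian 2 Y) (h8 : 8 ≤ Nat.card ↥Y) (hE : ∀ x ∈ Y, x ≠ 1 → Cfsg.layer ↥(Subgroup.centralizer ({x} : Set X)) = ⊥) (hz : ∃ z ∈ Y, z ≠ 1 ∧ Cfsg.generalizedFittingSubgroup ↥(Subgroup.centralizer ({z} : Set X)) = Cfsg.pCore 2 ↥(Subgroup.centralizer ({z} : Set X))) : Odd (Nat.card ↥(⨆ y : {y : X // y ∈ Y ∧ y ≠ 1}, (Cfsg.oddCore ↥(Subgroup.centralizer ({(y : X)} : Set X))).map (Subgroup.centralizer ({(y : X)}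 : Set X)).subtype)) ∧ Subgroup.normalizer (Y : Set X) ≤ Subgroup.normalizer ((⨆ y : {y : X // y ∈ Y ∧ y ≠ 1}, (Cfsg.oddCore ↥(Subgroup.centralizer ({(y : X)} : Set X))).map (Subgroup.centralizer ({(y : X)} : Set X)).subtype : Subgroup X) : Set X) := by
  obtain ⟨z, hz, hz1, hF⟩ := hz
  rw [← fstarIn_eq_pcIn_iff_sub, fstarIn_eq_pcIn_iff_xeIn] at hF
  have hθ := sf_core hY (fun y hy h1 => pLayerIn_eq_bot (hY.pow hz) (le_cent1_iff.2 (hY.cent hy) hz)
    (layerIn_eq_bot_iff'.2 (hE y hy h1)) (by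
      rw [inf_comm, ← C_zpowers y]
      exact xeIn_centralizer_eq_bot hF (hY.pg.sub (zpowers_le.2 hy))
        (normsG (zpowers_le.2 (le_cent1_iff.2 (hY.cent hz) hy))))) fun _ _ _ => odd_sol (pcore_pgroup _ _)
  have e : (⨆ y : {y : X // y ∈ Y ∧ y ≠ 1}, (Cfsg.oddCore ↥(Subgroup.centralizer ({(y : X)} : Set X))).map
      (Subgroup.centralizer ({(y : X)} : Set X)).subtype) = Cl Y fun a => Op' 2 C1[a] :=
    iSup_congr fun y => (Op'_eq 2 _).symm
  rw [e]
  refine ⟨pnat_odd.1 (hθ.complete_two h8).pp, fun g hg => mem_norm.2 ?_⟩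
  rw [← Cl_cj fun a _ _ => Op'_C1_conj 2 g a, cj_of_norm hg]

end Cfsg.Agent.S2924
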