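import Cfsg.Statements.S2925
import Cfsg.Agent.Loc.Fst

set_option autoImplicit false
open Cfsg

namespace Cfsg.Agent.S2925

/-- Let K be a component of the finite group X and T a Sylow 2-subgroup of X. If some abelian normal subgroup Y of T does not normalize K, then K ⧸ Z(K) has abelian Sylow 2-subgroups. -/
theorem result {X : Type*} [Group X] [Finite X] (K : Subgroup X) (hK : Cfsg.IsComponent K) (T : Sylow 2 X) (Y : Subgroup X) (hYT : Y ≤ (T : Subgroup X)) (hYn : (Y.subgroupOf (T : Subgroup X)).Normal) (hYab : IsMulCommutative ↥Y) (hnot : ¬ Y ≤ Subgroup.normalizer (K : Set X)) (P : Sylow 2 (↥K ⧸ Subgroup.center ↥K)) : IsMulCommutative ↥(P : Subgroup (↥K ⧸ Subgroup.center ↥K)) := by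
  open Cfsg.Agent.Loc Subgroup in
  open scoped commutatorElement in
  obtain ⟨y, hy, hyK⟩ := SetLike.not_le_iff_exists.1 hnot
  have hK' := Sig.compIn_top_iff.2 hK
  have hS := (sylIn_top T).inf_subnIn hK'.1
  have hc : cj y K ≤ centralizer (K : Set X) := commutator_eq_bot_iff'.1 (hK'.commutator_eq_bot_of_ne
    (hK'.conj (le_normalizer (mem_top y))) fun e => hyK (mem_normalizer_iff_cj.2 e.symm))
  have nY := (normal_subgroupOf_iff_le_normalizer hYT).1 hYn
  have h1 := hS.subgroupOf_top.map (QuotientGroup.mk' (center K))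
  rw [map_top_of_surjective _ (QuotientGroup.mk'_surjective _)] at h1
  obtain ⟨g, -, e⟩ := h1.exists_conj (sylIn_top P)
  rw [← e]
  refine isMulCommutative_cj g ⟨⟨?_⟩⟩
  rintro ⟨_, a, ha, rfl⟩ ⟨_, b, hb, rfl⟩
  refine Subtype.ext (QuotientGroup.eq.2 (mem_center_iff.2 fun k => Subtype.ext ?_))
  have m : ∀ x ∈ (T : Subgroup X), x * (y * x⁻¹ * y⁻¹) ∈ Y := fun x hx => by
    simpa [mul_assoc] using mul_mem (conj_mem_of_mem_normalizer (nY hx) hy) (inv_mem hy)
  have m' : ∀ x : K, y * (x : X)⁻¹ * y⁻¹ ∈ cj y K := fun x => conj_mem_cj (inv_mem x.2)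
  have c := congrArg Subtype.val (hYab.is_comm.comm ⟨_, m a ha.1⟩ ⟨_, m b hb.1⟩)
  simp only [coe_mul] at c
  have c1 := hc (m' a) b b.2
  have c2 := hc (m' b) a a.2
  have := hc (mul_mem (mul_mem (m' a) (m' b)) (inv_mem (mul_mem (m' b) (m' a)))) k k.2
  generalize y * (a : X)⁻¹ * y⁻¹ = a' at *
  generalize y * (b : X)⁻¹ * y⁻¹ = b' at *
  have e : ((a : X) * b)⁻¹ * (b * a) = a' * b' * (b' * a')⁻¹ := by
    rw [inv_mul_eq_iff_eq_mul, ← mul_assoc, eq_mul_inv_iff_mul_eq]
    calc (b : X) * a * (b' * a') = b * b' * (a * a') := by rw [mul_assoc, ← mul_assoc (a : X), c2]; simp [mul_assoc]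
      _ = a * a' * (b * b') := c.symm
      _ = _ := by rw [mul_assoc, ← mul_assoc a', ← c1]; simp [mul_assoc]
  rw [← e] at this
  exact this

end Cfsg.Agent.S2925
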