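import Cfsg.Statements.S2928
import Cfsg.Agent.FG.SymQS

set_option autoImplicit false
open Cfsg

namespace Cfsg.Agent.S2928

open Cfsg.Agent.FG.HS Finset Equiv

/-- Let n ≥ 8 and let H be a subgroup of the symmetric group of degree n whose generalized Fitting subgroup F*(H) is quasisimple. If H contains a Sylow 2-subgroup of the alternating group of degree n, then F*(H) is isomorphic to an alternating group of degree m for some m ∈ {n − 3, n − 2, n − 1, n}. -/
theorem result (n : ℕ) (hn : 8 ≤ n) (H : Subgroup (Equiv.Perm (Fin n))) (hF : Cfsg.IsQuasisimple ↥(Cfsg.generalizedFittingSubgroup ↥H)) (hS : ∃ P : Sylow 2 ↥(alternatingGroup (Fin n)), ((P : Subgroup ↥(alternatingGroup (Fin n))).map (alternatingGroup (Fin n)).subtype) ≤ H) : ∃ m : ℕ, (m = n - 3 ∨ m = n - 2 ∨ m = n - 1 ∨ m = n) ∧ Nonempty (↥(Cfsg.generalizedFittingSubgroup ↥H) ≃* ↥(alternatingGroup (Fin m))) := by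
  obtain ⟨P, hP⟩ := hS
  have h := qs_fstar hF
  have hM : ¬ 2 ∣ H.relIndex (alternatingGroup (Fin n)) := fun hd =>
    P.not_dvd_index (hd.trans (Subgroup.index_dvd_of_le (Subgroup.map_le_iff_le_comap.1 hP)))
  obtain ⟨t, ht, ht'⟩ := h.exists_three (by simpa using hn) hM
  obtain ⟨a, b, c, t⟩ := T_of_three ht ht'
  obtain ⟨Δ, h1, h2, h6⟩ := h.three t
  obtain ⟨R, hR, hR'⟩ := pack_klein hM
  have h3 : Rᶜ ⊆ Δ := fun x hx => by
    by_contra hxΔ
    obtain ⟨y, z, w, hnd, k1, k2⟩ := hR' x (mem_compl.1 hx)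
    simp only [List.nodup_cons, List.mem_cons, not_or, List.not_mem_nil, not_false_eq_true, and_true, List.nodup_nil] at hnd
    obtain ⟨⟨xy, xz, xw⟩, ⟨yz, yw⟩, zw⟩ := hnd
    have hy : y ∉ Δ := fun h => hxΔ (by simpa [swap_apply_def, Ne.symm xy, yz, yw] using h2 _ k1 y h)
    have hz : z ∉ Δ := fun h => hxΔ (by simpa [swap_apply_def, Ne.symm xz, Ne.symm yz, zw] using h2 _ k2 z h)
    have hw : w ∉ Δ := fun h => hz (by simpa [swap_apply_def, Ne.symm xz, Ne.symm yz] using h2 _ k1 w h)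
    have h7 := h.cent _ k1 fun l hl => by
      have h8 := (mem_AO.1 (h1 ▸ hl)).2
      refine (Equiv.Perm.Disjoint.commute fun u => ?_).eq
      by_cases hu : u ∈ Δ
      · right
        have : ∀ v, v ∉ Δ → u ≠ v := fun v hv e => hv (e ▸ hu)
        simp [swap_apply_def, this _ hxΔ, this _ hy, this _ hz, this _ hw]
      · exact Or.inl (by_contra fun e => hu (h8 u e))
    exact hxΔ ((mem_AO.1 (h1 ▸ h7)).2 x (by simp [swap_apply_def, xz, xw, Ne.symm xy]))
  have h4 := card_le_card h3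
  have h5 := card_le_univ Δ
  rw [card_compl] at h4
  rw [Fintype.card_fin] at h4 h5
  exact ⟨Δ.card, by omega, ⟨((Subgroup.equivMapOfInjective _ _ H.subtype_injective).trans (MulEquiv.subgroupCongr h1)).trans
    (AOequiv Δ)⟩⟩

end Cfsg.Agent.S2928
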