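import Cfsg.Statements.S2929
import Cfsg.Agent.FG.SymQS

set_option autoImplicit false
open Cfsg

namespace Cfsg.Agent.S2929

open Cfsg.Agent.FG.HS Finset

/-- Let n ≥ 5 and let H be a subgroup of the symmetric group of degree n whose generalized Fitting subgroup F*(H) is quasisimple. If H contains a Sylow 3-subgroup of the symmetric group, then F*(H) is isomorphic to an alternating group of degree m for some m ∈ {n − 2, n − 1, n}. -/
theorem result (n : ℕ) (hn : 5 ≤ n) (H : Subgroup (Equiv.Perm (Fin n))) (hF : Cfsg.IsQuasisimple ↥(Cfsg.generalizedFittingSubgroup ↥H)) (hS : ∃ P : Sylow 3 (Equiv.Perm (Fin n)), (P : Subgroup (Equiv.Perm (Fin n))) ≤ H) : ∃ m : ℕ, (m = n - 2 ∨ m = n - 1 ∨ m = n) ∧ Nonempty (↥(Cfsg.generalizedFittingSubgroup ↥H) ≃* ↥(alternatingGroup (Fin m))) := by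
  obtain ⟨P, hP⟩ := hS
  have h := qs_fstar hF
  obtain ⟨R, hR, hR'⟩ := pack_odd (M := H) Nat.prime_three (by norm_num) fun hd =>
    P.not_dvd_index ((hd.trans (relIndex_dvd_index' _ _)).trans (Subgroup.index_dvd_of_le hP))
  have hT : ∀ a ∉ R, ∃ b c, T H a b c := fun a ha =>
    let ⟨_, hc, _, hW, haW⟩ := hR' a ha; T_of_cyc hc hW haW
  obtain ⟨a, -, ha⟩ := exists_not_mem_of_card_lt (R := R) (V := univ) (by simp; omega)
  obtain ⟨b, c, t⟩ := hT a ha
  obtain ⟨Δ, h1, -, h2⟩ := h.three t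
  have h3 : Rᶜ ⊆ Δ := fun x hx => let ⟨_, _, t⟩ := hT x (mem_compl.1 hx); h2 _ _ _ t
  have h4 := card_le_card h3
  have h5 := card_le_univ Δ
  rw [card_compl] at h4
  rw [Fintype.card_fin] at h4 h5
  exact ⟨Δ.card, by omega, ⟨((Subgroup.equivMapOfInjective _ _ H.subtype_injective).trans (MulEquiv.subgroupCongr h1)).trans
    (AOequiv Δ)⟩⟩

end Cfsg.Agent.S2929
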