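import Cfsg.Statements.S2930
import Cfsg.Agent.Small.SymSyl2
import Cfsg.Agent.Perm.AutAlt
import Cfsg.Agent.Sig.FStar

set_option autoImplicit false
open Cfsg

namespace Cfsg.Agent.S2930

open Subgroup Equiv Equiv.Perm MulAction Cfsg.Agent.Small
open scoped Pointwise

theorem tri {Ω : Type*} [Fintype Ω] [DecidableEq Ω] {a b c : Ω} (h1 : a ≠ b) (h2 : b ≠ c) :
    swap a b * swap b c ∈ alternatingGroup Ω := by simp [h1, h2]

theorem two_over {Ω : Type*} [Fintype Ω] [DecidableEq Ω] (h5 : 5 ≤ Fintype.card Ω) (h6 : Fintype.card Ω ≠ 6)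
    (h9 : Fintype.card Ω ≠ 9) (hn : ¬ ∃ k, 2 ≤ k ∧ Fintype.card Ω = 3 ^ k + 1) (P : Sylow 3 (Perm Ω)) :
    ∃ X Y : Subgroup (Perm Ω), (P : Subgroup (Perm Ω)) ≤ X ∧ (P : Subgroup (Perm Ω)) ≤ Y ∧
      IsCoatom (X.subgroupOf (alternatingGroup Ω)) ∧ ¬ alternatingGroup Ω ≤ Y ∧ ∃ g ∈ Y, g ∈ alternatingGroup Ω ∧ g ∉ X := by
  haveI : Fact (Nat.Prime 3) := ⟨Nat.prime_three⟩
  obtain ⟨W, P', h⟩ := exists_ws P
  rw [h]
  have hc : ∀ x : Ω, IsCoatom ((stabilizer (Perm Ω) ({x} : Set Ω)).subgroupOf (alternatingGroup Ω)) := fun x =>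
    alternatingGroup.isCoatom_stabilizer_singleton (by rw [Nat.card_eq_fintype_card]; omega) ⟨_, rfl⟩
      Set.subsingleton_singleton
  have hfx : ∀ r, W.grp P' ≤ stabilizer (Perm Ω) ({W.fx r} : Set Ω) := by
    rintro r _ ⟨π, hπ, ε, rfl⟩
    simp
  obtain e | e | e : Fintype.card Ω % 3 = 0 ∨ Fintype.card Ω % 3 = 1 ∨ Fintype.card Ω % 3 = 2 := by omega
  · haveI : IsEmpty (Fin (Fintype.card Ω % 3)) := by rw [e]; infer_instance
    haveI : Nontrivial (Fin (Fintype.card Ω / 3)) := Fin.nontrivial_iff_two_le.2 (by omega)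
    have hU := W.unif_blk (by norm_num)
    have hX : IsCoatom ((PS W.blk).subgroupOf (alternatingGroup Ω)) := by
      simpa using hU.isCoatom_alt (by simp)
    obtain ⟨W', P'', h'⟩ := exists_ws P'
    by_cases e2 : Fintype.card Ω / 3 % 3 = 0
    · haveI : IsEmpty (Fin (Fintype.card (Fin (Fintype.card Ω / 3)) % 3)) := by
        rw [Fintype.card_fin, e2]; infer_instance
      haveI : Nontrivial (Fin (Fintype.card (Fin (Fintype.card Ω / 3)) / 3)) :=
        Fin.nontrivial_iff_two_le.2 (by rw [Fintype.card_fin]; omega)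
      have hU' := hU.comp (W'.unif_blk (by norm_num))
      obtain ⟨i⟩ : Nonempty (Fin (Fintype.card (Fin (Fintype.card Ω / 3)) / 3)) := inferInstance
      refine ⟨_, _, W.grp_le_PS' _, W.grp_le_PS (h'.le.trans (W'.grp_le_PS' _)), hX, hU'.ne_top,
        swap (W.pt (W'.pt i 0) 0) (W.pt (W'.pt i 1) 0) * swap (W.pt (W'.pt i 1) 0) (W.pt (W'.pt i 1) 1),
        mul_mem (swap_mem_PS (by simp)) (swap_mem_PS (by simp)), tri (by simp) (by simp), fun h3 => ?_⟩
      have := h3 (W.pt (W'.pt i 0) 0) (W.pt (W'.pt i 0) 1)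
      simp [swap_apply_of_ne_of_ne] at this
    · let b := W'.fx ⟨0, by rw [Fintype.card_fin]; omega⟩
      obtain ⟨c, hc1⟩ := exists_notMem_of_card_lt {b} (by simp; omega)
      obtain ⟨d, hd1⟩ := exists_notMem_of_card_lt {b, c} (Finset.card_le_two.trans_lt (by simp; omega))
      simp only [Finset.mem_insert, Finset.mem_singleton, not_or] at hc1 hd1
      refine ⟨_, stabilizer (Perm Ω) {y | W.blk y = b}, W.grp_le_PS' _, ?_, hX, fun h1 => ?_,
        swap (W.pt c 0) (W.pt d 0) * swap (W.pt d 0) (W.pt d 1), mul_mem ?_ ?_, tri (by simp [Ne.symm hd1.2]) (by simp), fun h3 => ?_⟩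
      · rintro _ ⟨π, hπ, ε, rfl⟩
        rw [h'] at hπ
        obtain ⟨π', -, ε', rfl⟩ := hπ
        refine mem_stabilizer_set.2 fun y => ?_
        simp only [Perm.smul_def, Set.mem_setOf_eq, WS.blk_el]
        rw [← (W'.el π' ε').injective.eq_iff (a := W.blk y) (b := b), WS.el_fx]
      · have := (mem_stabilizer_set.1 (h1 (tri (a := W.pt b 0) (b := W.pt c 0) (c := W.pt c 1) (by simp [Ne.symm hc1])
          (by simp))) (W.pt b 0)).2 (by simp)
        simp [swap_apply_of_ne_of_ne, Ne.symm hc1, hc1] at this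
      · exact Equiv.swap_mem_stabilizer.2 (by simp [hc1, hd1])
      · exact Equiv.swap_mem_stabilizer.2 (by simp)
      · have := h3 (W.pt c 0) (W.pt c 1)
        simp [swap_apply_of_ne_of_ne, Ne.symm hd1.2, hd1.2] at this
  · let x := W.fx ⟨0, by omega⟩
    have hQ := P'.isPGroup'
    have hfx' := hfx ⟨0, by omega⟩
    generalize (P' : Subgroup (Perm (Fin (Fintype.card Ω / 3)))) = Q at *
    obtain ⟨b, b', hb⟩ : ∃ b b' : Fin (Fintype.card Ω / 3), b' ∉ orbit Q b := by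
      by_contra hc
      push Not at hc
      haveI : IsPretransitive Q (Fin (Fintype.card Ω / 3)) := ⟨fun a b => hc a b⟩
      obtain ⟨j, hj⟩ := hQ.index (stabilizer Q (⟨0, by omega⟩ : Fin (Fintype.card Ω / 3)))
      rw [index_stabilizer_of_transitive, Nat.card_eq_fintype_card, Fintype.card_fin] at hj
      refine hn ⟨j + 1, ?_, by omega⟩
      rcases j with _ | j <;> omega
    let O : Set Ω := {y | ∃ a ∈ orbit Q b, ∃ c, y = W.pt a c}
    have hO : ∀ a c, W.pt a c ∈ O ↔ a ∈ orbit Q b := fun a c =>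
      ⟨fun ⟨_, h1, _, h2⟩ => (W.pt_inj.1 h2).1 ▸ h1, fun h => ⟨a, h, c, rfl⟩⟩
    have hO' : ∀ r, W.fx r ∉ O := fun r ⟨_, _, _, h2⟩ => W.fx_ne_pt _ _ _ h2
    have hb' : b ≠ b' := fun e => hb (e ▸ mem_orbit_self b)
    refine ⟨_, stabilizer (Perm Ω) O, hfx', ?_, hc x, fun h1 => ?_, swap x (W.pt b' 0) * swap (W.pt b' 0) (W.pt b' 1),
      mul_mem ?_ ?_, tri (by simp [x]) (by simp), ?_⟩
    · rintro _ ⟨π, hπ, ε, rfl⟩
      refine mem_stabilizer_set.2 fun y => ?_
      rcases W.cases y with ⟨a, c, rfl⟩ | ⟨r, rfl⟩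
      · simp only [Perm.smul_def, WS.el_pt, hO]
        refine ⟨fun h1 => ?_, mem_orbit_of_mem_orbit (⟨π, hπ⟩ : Q)⟩
        have := mem_orbit_of_mem_orbit (⟨π, hπ⟩ : Q)⁻¹ h1
        rwa [show π a = (⟨π, hπ⟩ : Q) • a from rfl, inv_smul_smul] at this
      · simp
    · have := (mem_stabilizer_set.1 (h1 (tri (a := W.pt b 0) (b := x) (c := W.pt b' 0) (by simp [x]) (by simp [x])))
        (W.pt b 0)).2 ((hO _ _).2 (mem_orbit_self b))
      simp [x, swap_apply_of_ne_of_ne, hb', hO'] at this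
    · exact Equiv.swap_mem_stabilizer.2 (by simp [x, hO, hO', hb])
    · exact Equiv.swap_mem_stabilizer.2 (by simp [hO])
    · simp [x, swap_apply_of_ne_of_ne]
  · let b : Fin (Fintype.card Ω / 3) := ⟨0, by omega⟩
    refine ⟨_, _, hfx ⟨0, by omega⟩, hfx ⟨1, by omega⟩, hc _, fun h1 => (hc _).1 (subgroupOf_eq_top.2 h1),
      swap (W.fx ⟨0, by omega⟩) (W.pt b 0) * swap (W.pt b 0) (W.pt b 1), ?_, tri (by simp) (by simp), ?_⟩ <;>
    simp [swap_apply_of_ne_of_ne]

theorem conj6 (g : alternatingGroup (Fin 6)) (h3 : orderOf g = 3) (h : ¬ IsThreeCycle (g : Perm (Fin 6))) :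
    IsConj (⟨swap 0 1 * swap 1 2 * (swap 3 4 * swap 4 5), mem_alternatingGroup.2 (by decide)⟩ : alternatingGroup (Fin 6)) g := by
  rw [← orderOf_coe] at h3
  obtain ⟨k, hk⟩ := cycleType_prime_order (σ := (g : Perm (Fin 6))) (h3 ▸ Nat.prime_three)
  have h1 := sum_cycleType_le (g : Perm (Fin 6))
  rw [h3] at hk
  rw [hk] at h1
  simp only [Multiset.sum_replicate, smul_eq_mul, Fintype.card_fin] at h1
  have hk1 : k = 1 := by
    rcases k with _ | _ | k
    · exact absurd hk h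
    · rfl
    · omega
  subst hk1
  obtain ⟨σ, hσ⟩ := isConj_iff.1 (isConj_iff_cycleType_eq.2 (show cycleType (swap (0 : Fin 6) 1 * swap 1 2 * (swap 3 4 * swap 4 5)) =
    cycleType (g : Perm (Fin 6)) by rw [hk]; decide))
  rcases Int.units_eq_one_or (sign σ) with e | e
  · exact isConj_iff.2 ⟨⟨σ, e⟩, Subtype.ext hσ⟩
  · refine isConj_iff.2 ⟨⟨σ * (swap 0 3 * swap 1 4 * swap 2 5), mem_alternatingGroup.2 (by rw [map_mul, e]; decide)⟩,
      Subtype.ext ?_⟩
    have : (swap (0 : Fin 6) 3 * swap 1 4 * swap 2 5) * (swap 0 1 * swap 1 2 * (swap 3 4 * swap 4 5)) *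
      (swap 0 3 * swap 1 4 * swap 2 5)⁻¹ = swap 0 1 * swap 1 2 * (swap 3 4 * swap 4 5) := by decide
    change σ * (swap 0 3 * swap 1 4 * swap 2 5) * (swap 0 1 * swap 1 2 * (swap 3 4 * swap 4 5)) *
      (σ * (swap 0 3 * swap 1 4 * swap 2 5))⁻¹ = (g : Perm (Fin 6))
    rw [← hσ]
    conv_rhs => rw [← this]
    group

theorem exists_perm {n : ℕ} (hn : 5 ≤ n) (ψ : MulAut (alternatingGroup (Fin n))) (ho : Odd (orderOf ψ)) :
    ∃ σ : Perm (Fin n), MulAut.conjNormal σ = ψ := by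
  refine Cfsg.Agent.Perm.AutAlt.exists_conj_of_threeCycle (by simp; omega) ψ fun g hg => ?_
  by_cases h6 : n = 6
  swap
  · exact Cfsg.Agent.Perm.AutAlt.isThreeCycle_map (by simpa using h6) ψ g hg
  subst h6
  have hc : ∀ u v : alternatingGroup (Fin 6), IsConj u v → IsThreeCycle (u : Perm (Fin 6)) → IsThreeCycle (v : Perm (Fin 6)) :=
    fun u v h hu => (isConj_iff_cycleType_eq.1 ((alternatingGroup (Fin 6)).subtype.map_isConj h)).symm.trans hu
  have ho3 : ∀ φ : MulAut (alternatingGroup (Fin 6)), orderOf (φ g) = 3 := fun φ => by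
    rw [MulEquiv.orderOf_eq, ← orderOf_coe, hg.orderOf]
  by_contra hne
  have h2 : IsThreeCycle ((ψ ^ 2) g : Perm (Fin 6)) := by
    by_contra h
    have h1 := ψ.symm.toMonoidHom.map_isConj ((conj6 _ (ho3 ψ) hne).symm.trans (conj6 _ (ho3 (ψ ^ 2)) h))
    exact hne (hc _ _ (by simpa [pow_two] using h1) hg)
  have h4 : ∀ m : ℕ, IsThreeCycle (((ψ ^ 2) ^ m) g : Perm (Fin 6)) := by
    intro m
    induction m with
    | zero => exact hg
    | succ m ih =>
      rw [pow_succ', MulAut.mul_apply]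
      exact hc _ _ ((ψ ^ 2).toMonoidHom.map_isConj (alternatingGroup.isThreeCycle_isConj (by simp) hg ih)) h2
  obtain ⟨m, hm⟩ := exists_pow_eq_self_of_coprime (x := ψ) (n := 2) (Nat.coprime_two_left.2 ho)
  exact hne (hm ▸ h4 m)

/-- Let X be a finite 3-minimal group (a Sylow 3-subgroup is not normal and lies in a unique maximal subgroup) whose generalized Fitting subgroup is isomorphic to an alternating group of degree n ≥ 5. Then X = F*(X), and n = 6, n = 9, or n = 3ᵃ + 1 for some a ≥ 2. -/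
theorem result {X : Type*} [Group X] [Finite X] (hX : Cfsg.IsPMinimal 3 X) (n : ℕ) (hn : 5 ≤ n) (hF : Nonempty (↥(Cfsg.generalizedFittingSubgroup X) ≃* ↥(alternatingGroup (Fin n)))) : Cfsg.generalizedFittingSubgroup X = ⊤ ∧ (n = 6 ∨ n = 9 ∨ ∃ a : ℕ, 2 ≤ a ∧ n = 3 ^ a + 1) := by
  haveI : Fact (Nat.Prime 3) := ⟨Nat.prime_three⟩
  obtain ⟨e⟩ := hF
  obtain ⟨S⟩ : Nonempty (Sylow 3 X) := inferInstance
  obtain ⟨hS, M, ⟨hM, hSM⟩, hu⟩ := hX S
  have hle : ∀ K : Subgroup X, K ≠ ⊤ → (S : Subgroup X) ≤ K → K ≤ M := fun K h1 h2 => by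
    obtain ⟨M', h3, h4⟩ := (eq_top_or_exists_le_coatom K).resolve_left h1
    exact hu M' ⟨h3, h2.trans h4⟩ ▸ h4
  have htop : Cfsg.generalizedFittingSubgroup X = ⊤ := by
    let φ : X →* MulAut (alternatingGroup (Fin n)) := (MulAut.congr e).toMonoidHom.comp MulAut.conjNormal
    have hSF : (S : Subgroup X) ≤ Cfsg.generalizedFittingSubgroup X := fun x hx => by
      obtain ⟨k, hk⟩ := IsPGroup.iff_orderOf.1 S.isPGroup' ⟨x, hx⟩
      have ho : Odd (orderOf x) := by rw [← orderOf_mk x hx, hk]; exact Odd.pow (by decide)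
      obtain ⟨σ, hσ⟩ := exists_perm hn (φ x) (ho.of_dvd_nat (orderOf_map_dvd φ x))
      have hσ2 : σ ^ 2 ∈ alternatingGroup (Fin n) := by simp [mem_alternatingGroup]
      have h1 : φ (e.symm ⟨σ ^ 2, hσ2⟩) = φ (x ^ 2) := by
        rw [map_pow φ, ← hσ, ← map_pow MulAut.conjNormal]
        ext1 y
        simp only [φ, MonoidHom.comp_apply, MulEquiv.coe_toMonoidHom, MulAut.congr_apply, MulEquiv.trans_apply,
          MulAut.conjNormal_val, MulAut.conj_apply, map_mul, map_inv, MulEquiv.apply_symm_apply]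
        ext1
        rw [MulAut.conjNormal_apply]
        rfl
      have h2 : (e.symm ⟨σ ^ 2, hσ2⟩ : X)⁻¹ * x ^ 2 ∈ φ.ker := by rw [MonoidHom.mem_ker, map_mul, map_inv, h1, inv_mul_cancel]
      have h3 := Cfsg.Agent.Sig.centralizer_fstar_le (x := (e.symm ⟨σ ^ 2, hσ2⟩ : X)⁻¹ * x ^ 2) fun y hy => by
        have h4 : MulAut.conjNormal ((e.symm ⟨σ ^ 2, hσ2⟩ : X)⁻¹ * x ^ 2) = (1 : MulAut (Cfsg.generalizedFittingSubgroup X)) :=
          (MulAut.congr e).injective (by rw [map_one]; exact h2)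
        have h5 := congrArg Subtype.val (DFunLike.congr_fun h4 ⟨y, hy⟩)
        rw [MulAut.conjNormal_apply, mul_inv_eq_iff_eq_mul] at h5
        exact h5.symm
      rw [mul_mem_cancel_left (inv_mem (e.symm _).2)] at h3
      obtain ⟨m, hm⟩ := exists_pow_eq_self_of_coprime (x := x) (n := 2) (Nat.coprime_two_left.2 ho)
      exact hm ▸ pow_mem h3 m
    by_contra hne
    refine hM.1 (top_le_iff.1 ((S.normalizer_sup_eq_top' hSF).ge.trans (sup_le (hle _ (fun h => hS ?_) le_normalizer)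
      (hle _ hne hSF))))
    exact normalizer_eq_top_iff.1 h
  refine ⟨htop, ?_⟩
  by_contra hc
  simp only [not_or] at hc
  let f : X ≃* alternatingGroup (Fin n) := (Subgroup.topEquiv.symm.trans (MulEquiv.subgroupCongr htop.symm)).trans e
  obtain ⟨P, hP⟩ := ((S.isPGroup'.map f.toMonoidHom).map (alternatingGroup (Fin n)).subtype).exists_le_sylow
  obtain ⟨Y, Z, h1, h2, h3, h4, g, h5, h6, h7⟩ := two_over (by simpa using hn) (by simpa using hc.1) (by simpa using hc.2.1)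
    (by simpa using hc.2.2) P
  have key : ∀ K : Subgroup (Perm (Fin n)), (P : Subgroup _) ≤ K →
      (S : Subgroup X) ≤ (K.subgroupOf _).comap f.toMonoidHom := fun K h x hx => h (hP ⟨_, ⟨x, hx, rfl⟩, rfl⟩)
  have h8 := hu _ ⟨(f.comapSubgroup.isCoatom_iff _).2 h3, key Y h1⟩
  have h9 := hle _ (fun h => h4 fun x hx => by
    have : f.symm ⟨x, hx⟩ ∈ (Z.subgroupOf _).comap f.toMonoidHom := h ▸ mem_top _
    simpa [mem_subgroupOf] using this) (key Z h2)
  have h10 : f.symm ⟨g, h6⟩ ∈ M := h9 (by simpa [mem_subgroupOf] using h5)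
  rw [← h8] at h10
  exact h7 (by simpa [mem_subgroupOf] using h10)

end Cfsg.Agent.S2930
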