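import Cfsg.Statements.S2931
import Cfsg.Agent.S0288
import Cfsg.Agent.Classical.SpSimple
import Cfsg.Agent.Classical.FieldCongr
import Mathlib

set_option autoImplicit false
open Cfsg

namespace Cfsg.Agent.S2931

open Matrix

@[ext] structure Wr (D : Type) where
  a : D
  b : D
  s : Bool
  deriving DecidableEq

section
variable {D : Type} [Group D]

instance instMulWr : Mul (Wr D) :=
  ⟨fun x y => if x.s then ⟨x.a * y.b, x.b * y.a, !y.s⟩ else ⟨x.a * y.a, x.b * y.b, y.s⟩⟩
instance instOneWr : One (Wr D) := ⟨⟨1, 1, false⟩⟩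
instance instInvWr : Inv (Wr D) := ⟨fun x => if x.s then ⟨x.b⁻¹, x.a⁻¹, true⟩ else ⟨x.a⁻¹, x.b⁻¹, false⟩⟩

theorem mul_def (x y : Wr D) :
    x * y = if x.s then ⟨x.a * y.b, x.b * y.a, !y.s⟩ else ⟨x.a * y.a, x.b * y.b, y.s⟩ := rfl

instance instGroupWr : Group (Wr D) := Group.ofLeftAxioms
  (by rintro ⟨a, b, _ | _⟩ ⟨c, d, _ | _⟩ ⟨e, f, _ | _⟩ <;> simp [mul_def, mul_assoc])
  (by rintro ⟨a, b, s⟩; show (⟨1 * a, 1 * b, s⟩ : Wr D) = _; simp)
  (by
    rintro ⟨a, b, _ | _⟩
    · show (⟨a⁻¹ * a, b⁻¹ * b, false⟩ : Wr D) = ⟨1, 1, false⟩; simp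
    · show (⟨b⁻¹ * b, a⁻¹ * a, false⟩ : Wr D) = ⟨1, 1, false⟩; simp)

def eqv (D : Type) : D × D × Bool ≃ Wr D := ⟨fun x => ⟨x.1, x.2.1, x.2.2⟩, fun x => (x.a, x.b, x.s), fun _ => rfl, fun _ => rfl⟩

instance instFinWr [Fintype D] : Fintype (Wr D) := Fintype.ofEquiv _ (eqv D)

theorem card_Wr [Finite D] : Nat.card (Wr D) = Nat.card D * (Nat.card D * 2) := by
  rw [← Nat.card_congr (eqv D)]; simp

def lift {X : Type*} [Monoid X] (f g : D → X) (t : X) (h1 : f 1 = 1 ∧ g 1 = 1 ∧ t * t = 1)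
    (h2 : ∀ a b, f (a * b) = f a * f b ∧ g (a * b) = g a * g b ∧ g a * f b = f b * g a)
    (h3 : ∀ a, t * f a = g a * t ∧ t * g a = f a * t) : Wr D →* X where
  toFun x := if x.s then f x.a * g x.b * t else f x.a * g x.b
  map_one' := by show f 1 * g 1 = 1; rw [h1.1, h1.2.1, one_mul]
  map_mul' := by
    have k1 : ∀ a b (y : X), g a * (f b * y) = f b * (g a * y) := fun a b y => by
      rw [← mul_assoc, (h2 a b).2.2, mul_assoc]
    have k2 : ∀ a (y : X), t * (f a * y) = g a * (t * y) := fun a y => by rw [← mul_assoc, (h3 a).1, mul_assoc]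
    have k3 : ∀ a (y : X), t * (g a * y) = f a * (t * y) := fun a y => by rw [← mul_assoc, (h3 a).2, mul_assoc]
    rintro ⟨a, b, _ | _⟩ ⟨c, d, _ | _⟩ <;>
      simp [mul_def, (h2 _ _).1, (h2 _ _).2.1, mul_assoc, k1, k2, k3, (h3 _).2, h1.2.2, (h2 _ _).2.2]

end

theorem syl {W G H : Type*} [Group W] [Group G] [Group H] [Finite W] [Finite G] [Finite H] (f : W →* G) (g : W →* H)
    (hk : f.ker = g.ker) {k m n : ℕ} (hc : f.ker.index = 2 ^ k) (hG : Nat.card G = 2 ^ k * m) (hm : Odd m)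
    (hH : Nat.card H = 2 ^ k * n) (hn : Odd n) (P : Sylow 2 G) (Q : Sylow 2 H) :
    Nonempty ((P : Subgroup G) ≃* (Q : Subgroup H)) := by
  haveI : Fact (Nat.Prime 2) := ⟨Nat.prime_two⟩
  have fac : ∀ {m : ℕ}, Odd m → (2 ^ k * m).factorization 2 = k := fun hm => by
    rw [Nat.factorization_mul (by positivity) hm.pos.ne']
    simp [Nat.factorization_eq_zero_of_not_dvd hm.not_two_dvd_nat, Nat.prime_two.factorization_self]
  exact ⟨(P.equiv (Sylow.ofCard f.range (by rw [← Subgroup.index_ker, hc, hG, fac hm]))).trans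
    ((QuotientGroup.quotientKerEquivRange f).symm.trans ((QuotientGroup.quotientMulEquivOfEq hk).trans
    ((QuotientGroup.quotientKerEquivRange g).trans
      (Sylow.equiv (Sylow.ofCard g.range (by rw [← Subgroup.index_ker, ← hk, hc, hH, fac hn])) Q))))⟩

abbrev I6 := (Fin 2 ⊕ Fin 2) ⊕ Fin 2
abbrev I4 := Fin 2 ⊕ Fin 2
def ix4 : I4 → ℕ := Sum.elim (fun i => i.1) fun i => 2 + i.1
def ix6 : I6 → ℕ := Sum.elim ix4 fun i => 4 + i.1
def m6 (c : ℕ) : Matrix I6 I6 (ZMod 2) := of fun i j => ((c / 2 ^ (6 * ix6 i + ix6 j) % 2 : ℕ) : ZMod 2)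
def m4 (c : ℕ) : Matrix I4 I4 (ZMod 3) := of fun i j => ((c / 3 ^ (4 * ix4 i + ix4 j) % 3 : ℕ) : ZMod 3)
def tD {X : Type} (f : ℕ → X) (l l' : List ℕ) : DihedralGroup 4 → X
  | .r i => f (l.getD i.val 0)
  | .sr i => f (l'.getD i.val 0)
def tQ {X : Type} (f : ℕ → X) (l l' : List ℕ) : QuaternionGroup 2 → X
  | .a i => f (l.getD i.val 0)
  | .xa i => f (l'.getD i.val 0)

def fO : Wr (DihedralGroup 4) →* Matrix I6 I6 (ZMod 2) :=
  lift (tD m6 [34630287489, 51827167425, 35704098945, 52900843713] [51810156673, 35721040065, 52883968129, 34647232705])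
    (tD m6 [34630287489, 55036145857, 35704369281, 53962723521] [53962358913, 34630594753, 55036440705, 35704131777])
    (m6 36824432769) (by decide +kernel) (by decide +kernel) (by decide +kernel)

theorem fO_ker : ∀ w, fO w = 1 → w = 1 := by decide +kernel

theorem fO_Q : ∀ w v, Cfsg.quadFormMinus 2 (ZMod 2) 1 1 (fO w *ᵥ v) = Cfsg.quadFormMinus 2 (ZMod 2) 1 1 v := by
  let L : List ℕ := [34630287489, 51827167425, 35704098945, 52900843713, 51810156673, 35721040065, 52883968129,
      34647232705, 55036145857, 35704369281, 53962723521, 53962358913, 34630594753, 55036440705,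
      35704131777, 36824432769]
  have h : ∀ c ∈ L, ∀ v, Cfsg.quadFormMinus 2 (ZMod 2) 1 1 (m6 c *ᵥ v) =
        Cfsg.quadFormMinus 2 (ZMod 2) 1 1 v := by decide +kernel
  have h1 : ∀ l l' : List ℕ, (∀ i : Fin 4, l.getD i 0 ∈ L ∧ l'.getD i 0 ∈ L) → ∀ a v,
      Cfsg.quadFormMinus 2 (ZMod 2) 1 1 (tD m6 l l' a *ᵥ v) = Cfsg.quadFormMinus 2 (ZMod 2) 1 1 v := by
    rintro l l' hl (i | i)
    exacts [h _ (hl i).1, h _ (hl i).2]
  have e : ∀ w, fO w = if w.s then tD m6 [34630287489, 51827167425, 35704098945, 52900843713]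
      [51810156673, 35721040065, 52883968129, 34647232705] w.a *
      tD m6 [34630287489, 55036145857, 35704369281, 53962723521] [53962358913, 34630594753, 55036440705, 35704131777] w.b *
      m6 36824432769 else tD m6 [34630287489, 51827167425, 35704098945, 52900843713]
      [51810156673, 35721040065, 52883968129, 34647232705] w.a *
      tD m6 [34630287489, 55036145857, 35704369281, 53962723521] [53962358913, 34630594753, 55036440705, 35704131777] w.b :=
    fun w => rfl
  intro w v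
  rw [e]
  split_ifs
  · rw [← mulVec_mulVec, ← mulVec_mulVec, h1 _ _ (by decide), h1 _ _ (by decide), h _ (by decide)]
  · rw [← mulVec_mulVec, h1 _ _ (by decide), h1 _ _ (by decide)]

def fS : Wr (QuaternionGroup 2) →* Matrix I4 I4 (ZMod 3) :=
  lift (tQ m4 [14408200, 14355729, 14467250, 14362281] [14473819, 14480389, 14421341, 14414771])
    (tQ m4 [14408200, 1657747, 28757350, 3249883] [30353617, 31950127, 17601463, 16004953])
    (m4 4960200) (by decide +kernel) (by decide +kernel) (by decide +kernel)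

theorem fS_mem : ∀ w, fS w * J (Fin 2) (ZMod 3) * (fS w)ᵀ = J (Fin 2) (ZMod 3) := by decide +kernel

theorem fS_ker : ∀ w, (fS w = 1 ∨ fS w = -1) ↔ (w = 1 ∨ w = ⟨.a 2, .a 2, false⟩) := by decide +kernel

open Equiv in
def pD (R S : Perm (Fin 8)) : DihedralGroup 4 → Perm (Fin 8)
  | .r i => R ^ i.val
  | .sr i => S * R ^ i.val

open Equiv in
def fP : Wr (DihedralGroup 4) →* Perm (Fin 8) :=
  lift (pD (swap 0 1 * (swap 0 2 * swap 1 3)) (swap 0 1)) (pD (swap 4 5 * (swap 4 6 * swap 5 7)) (swap 4 5))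
    (swap 0 4 * swap 1 5 * swap 2 6 * swap 3 7) (by decide +kernel) (by decide +kernel) (by decide +kernel)

theorem fP_ker : ∀ w, fP w = 1 → w = 1 := by decide +kernel

def al : QuaternionGroup 2 → QuaternionGroup 2
  | .a i => if i.val % 2 = 0 then .a i else .xa (i - 1)
  | .xa i => if i.val % 2 = 0 then .a (i + 1) else .xa (i + 2)

def fA : Wr (QuaternionGroup 2) →* Equiv.Perm (QuaternionGroup 2) :=
  lift Equiv.mulLeft (fun b => Equiv.mulRight (al b)⁻¹)
    ⟨fun x => al x⁻¹, fun x => al x⁻¹, by decide +kernel, by decide +kernel⟩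
    (by decide +kernel) (by decide +kernel) (by decide +kernel)

theorem fA_ker : ∀ w, fA w = 1 ↔ (w = 1 ∨ w = ⟨.a 2, .a 2, false⟩) := by decide +kernel

theorem fA_sign : ∀ w, Equiv.Perm.sign (fA w) = 1 := by decide +kernel

/-- The Sylow 2-subgroups of the alternating group of degree 8 and of PSp₄(3) are isomorphic, and so are the Sylow 2-subgroups of the symmetric group of degree 8 and of the full isometry group of a non-degenerate quadratic form of minus type in dimension 6 over the field with 2 elements. -/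
theorem result (F : Type) [Field F] [Fintype F] (hF : Fintype.card F = 3) (K : Type) [Field K] [Fintype K] (hK : Fintype.card K = 2) (a b : K) (hab : ∀ z₁ z₂ : K, z₁ ^ 2 + a * z₁ * z₂ + b * z₂ ^ 2 = 0 → z₁ = 0 ∧ z₂ = 0) (P : Sylow 2 ↥(alternatingGroup (Fin 8))) (Q : Sylow 2 (Cfsg.PSp 2 F)) (P' : Sylow 2 (Equiv.Perm (Fin 8))) (Q' : Sylow 2 ↥(Cfsg.isometryGroup K (Cfsg.quadFormMinus 2 K a b))) : Nonempty (↥(P : Subgroup ↥(alternatingGroup (Fin 8))) ≃* ↥(Q : Subgroup (Cfsg.PSp 2 F))) ∧ Nonempty (↥(P' : Subgroup (Equiv.Perm (Fin 8))) ≃* ↥(Q' : Subgroup ↥(Cfsg.isometryGroup K (Cfsg.quadFormMinus 2 K a b)))) := by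
  haveI : Fact (Nat.Prime 3) := ⟨Nat.prime_three⟩
  constructor
  · obtain ⟨e⟩ := Classical.nonempty_ringEquiv_zmod (F := F) (p := 3) (by rw [Nat.card_eq_fintype_card, hF])
    let f : Wr (QuaternionGroup 2) →* symplecticGroup (Fin 2) F :=
      ((e.symm : ZMod 3 →+* F).mapMatrix.toMonoidHom.comp fS).codRestrict _ fun w =>
        SymplecticGroup.map_mem (SymplecticGroup.mem_iff.2 (fS_mem w)) (e.symm : ZMod 3 →+* F)
    let c : QuaternionGroup 2 ≃ Fin 8 := Fintype.equivFinOfCardEq (by decide)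
    let g : Wr (QuaternionGroup 2) →* alternatingGroup (Fin 8) :=
      (c.permCongrHom.toMonoidHom.comp fA).codRestrict _ fun w => by
        rw [Equiv.Perm.mem_alternatingGroup]
        exact (Equiv.Perm.sign_permCongr c _).trans (fA_sign w)
    have hg : ∀ w, w ∈ g.ker ↔ (w = 1 ∨ w = ⟨.a 2, .a 2, false⟩) := fun w => by
      rw [← fA_ker, MonoidHom.mem_ker, Subtype.ext_iff]
      exact c.permCongrHom.map_eq_one_iff
    have hi : Function.Injective ((e.symm : ZMod 3 →+* F).mapMatrix (m := I4)) := map_injective e.symm.injective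
    refine syl g ((QuotientGroup.mk' _).comp f) (Subgroup.ext fun w => ?_) (k := 6) (m := 315) (n := 405) ?_ ?_
      (by decide) ?_ (by decide) P Q
    · rw [hg, ← fS_ker, MonoidHom.mem_ker, MonoidHom.comp_apply, QuotientGroup.mk'_apply, QuotientGroup.eq_one_iff,
        Classical.mem_center_sp_iff, ← hi.eq_iff, ← hi.eq_iff, map_neg, map_one]
      rfl
    · have h1 := g.ker.index_mul_card
      have h2 : Nat.card g.ker = 2 := by
        rw [Nat.card_congr (Equiv.subtypeEquivRight hg), Nat.card_eq_fintype_card]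
        decide +kernel
      rw [h2, card_Wr, Nat.card_eq_fintype_card, QuaternionGroup.card] at h1
      omega
    · rw [nat_card_alternatingGroup]; simp [Nat.factorial]
    · have := Classical.card_PSp_mul (F := F) (m := 2) (by norm_num)
      rw [Nat.card_eq_fintype_card (α := F), hF] at this
      simp only [Finset.prod_range_succ, Finset.prod_range_zero] at this
      exact Nat.eq_of_mul_eq_mul_left two_pos this
  · obtain ⟨e⟩ := Classical.nonempty_ringEquiv_zmod (F := K) (p := 2) (by rw [Nat.card_eq_fintype_card, hK])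
    have z2 : ∀ x : K, x = 0 ∨ x = 1 := fun x => by
      have : ∀ y : ZMod 2, y = 0 ∨ y = 1 := by decide
      simpa using this (e x)
    have hb : b = 1 := (z2 b).resolve_left fun h => by simpa [h] using hab 0 1
    have h2 : (1 + 1 : K) = 0 := e.injective (by simp; rfl)
    have ha : a = 1 := (z2 a).resolve_left fun h => by simpa [h, hb, h2] using hab 1 1
    subst ha hb
    let f : Wr (DihedralGroup 4) →* Cfsg.isometryGroup K (Cfsg.quadFormMinus 2 K 1 1) :=
      ((e.symm : ZMod 2 →+* K).mapMatrix.toMonoidHom.comp fO).toHomUnits.codRestrict _ fun w => by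
        rw [Geom.mem_isometryGroup]
        intro v
        have hq : ∀ u, Cfsg.quadFormMinus 2 K 1 1 (e.symm ∘ u) = e.symm (Cfsg.quadFormMinus 2 (ZMod 2) 1 1 u) :=
          fun u => by
            simp only [Cfsg.quadFormMinus, Function.comp, map_add, map_mul, map_pow, map_sum, one_mul]
        obtain ⟨u, rfl⟩ : ∃ u, v = e.symm ∘ u := ⟨e ∘ v, by ext; simp⟩
        rw [hq, ← fO_Q w, ← hq]
        congr 1
        ext i
        exact ((e.symm : ZMod 2 →+* K).map_mulVec (fO w) u i).symm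
    have hi : Function.Injective ((e.symm : ZMod 2 →+* K).mapMatrix (m := I6)) := map_injective e.symm.injective
    have k1 : fP.ker = ⊥ := eq_bot_iff.2 fP_ker
    have k2 : f.ker = ⊥ := eq_bot_iff.2 fun w hw => fO_ker w (hi ((congrArg (fun x => x.1.1) hw).trans (map_one _).symm))
    refine syl fP f (k1.trans k2.symm) (k := 7) (m := 315) (n := 405) ?_ ?_ (by decide) ?_ (by decide) P' Q'
    · rw [k1, Subgroup.index_bot, card_Wr, DihedralGroup.nat_card]; rfl
    · rw [Nat.card_perm]; simp [Nat.factorial]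
    · exact (S0288.result hK 3 (by norm_num) 1 1 hab).trans (by decide)

end Cfsg.Agent.S2931
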