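import Cfsg.Statements.S2932
import Cfsg.Agent.Gen2.NSL1

set_option autoImplicit false
open Cfsg

namespace Cfsg.Agent.S2932

open Subgroup Cfsg.Agent.Gen2.NSL

/-- Let p be a prime. Inside a finite ambient group let V be an elementary abelian p-subgroup and G a subgroup normalizing V and acting faithfully on it (G ∩ C(V) = 1), and let L ≤ G act on V as SL₂(F) on its natural module, F a finite field of characteristic p, with L ≅ SL₂(F). If every Sylow p-subgroup of N_G(L) is a Sylow p-subgroup of G, then either L is normal in G, or F has 4 elements and G is isomorphic to the alternating group of degree 7. -/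
theorem result {X : Type*} [Group X] [Finite X] {p : ℕ} [Fact p.Prime] (F : Type) [Field F] [Fintype F] [CharP F p] (V G L : Subgroup X) (hV : Cfsg.IsElementaryAbelian p V) (hGV : G ≤ Subgroup.normalizer (V : Set X)) (hfaith : G ⊓ Subgroup.centralizer (V : Set X) = ⊥) (hLG : L ≤ G) (hnat : Cfsg.IsNaturalSL2Module F V L) (hLiso : Nonempty (↥L ≃* Matrix.SpecialLinearGroup (Fin 2) F)) (hSyl : ∀ S : Sylow p ↥(G ⊓ Subgroup.normalizer (L : Set X)), ∀ P : Sylow p ↥G, Nat.card S = Nat.card P) : (L.subgroupOf G).Normal ∨ (Fintype.card F = 4 ∧ Nonempty (↥G ≃* ↥(alternatingGroup (Fin 7)))) := by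
  obtain ⟨-, ρ, ψ, hρ, hker, hact⟩ := hnat
  let φ : G →* MulAut V := V.normalizerMonoidHom.comp (inclusion hGV)
  have hφ : ∀ (g : G) (v : V), (φ g v : X) = g * v * (g : X)⁻¹ := fun _ _ => rfl
  let _ : DistribMulAction G (Fin 2 → F) :=
    { smul := fun g w => ψ (Additive.ofMul (φ g (ψ.symm w).toMul))
      one_smul := fun w => by show ψ _ = w; simp
      mul_smul := fun a b w => by show ψ _ = ψ (Additive.ofMul (φ a (ψ.symm (ψ _)).toMul)); simp
      smul_zero := fun a => by show ψ _ = 0; simp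
      smul_add := fun a v w => by show ψ _ = ψ _ + ψ _; simp }
  have hs : ∀ (g : G) (w : Fin 2 → F), g • w = ψ (Additive.ofMul (φ g (ψ.symm w).toMul)) := fun _ _ => rfl
  have hρi : Function.Injective ρ := (MonoidHom.ker_eq_bot_iff ρ).1 (by
    rw [hker, eq_bot_iff]
    intro l hl
    exact Subtype.ext (mem_bot.1 (hfaith ▸ (⟨hLG l.2, hl⟩ : (l : X) ∈ G ⊓ centralizer (V : Set X)))))
  let e := MulEquiv.ofBijective ρ ⟨hρi, hρ⟩
  let ι := (inclusion hLG).comp e.symm.toMonoidHom
  have hι : ι.range = L.subgroupOf G := by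
    ext x
    exact ⟨by rintro ⟨m, rfl⟩; exact (e.symm m).2, fun hx => ⟨e ⟨x, hx⟩, Subtype.ext (by simp [ι])⟩⟩
  have h : Nat2 p ι := ⟨fun g hg => ?_, fun m w => ?_, fun hd => ?_⟩
  · by_cases h4 : Nat.card F = 4
    · exact (h.four h4).imp (hι ▸ id) fun h' => ⟨Nat.card_eq_fintype_card.symm.trans h4, h'⟩
    · exact Or.inl (hι ▸ h.normal h4)
  · refine Subtype.ext (mem_bot.1 (hfaith ▸ (⟨g.2, fun v hv => ?_⟩ : (g : X) ∈ G ⊓ centralizer (V : Set X))))
    have := hg (ψ (Additive.ofMul ⟨v, hv⟩))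
    rw [hs, ψ.injective.eq_iff, ψ.symm_apply_apply] at this
    have := (hφ g ⟨v, hv⟩).symm.trans (congrArg Subtype.val (Additive.ofMul.injective this))
    exact (mul_inv_eq_iff_eq_mul.1 this).symm
  · obtain ⟨u, hu, hu'⟩ := hact (e.symm m) (ψ.symm w).toMul
    rw [hs, show φ (ι m) (ψ.symm w).toMul = u from Subtype.ext (by rw [hφ, hu]; rfl), hu',
      show ρ (e.symm m) = m from e.apply_symm_apply m]
    simp
  · rw [hι, ← subgroupOf_normalizer_eq hLG] at hd
    obtain ⟨S⟩ := (inferInstance : Nonempty (Sylow p ↥(G ⊓ normalizer (L : Set X))))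
    obtain ⟨P⟩ := (inferInstance : Nonempty (Sylow p G))
    have h1 := hSyl S P
    have h2 := S.1.index_mul_card
    have h3 := P.1.index_mul_card
    have h4 := ((normalizer (L : Set X)).subgroupOf G).index_mul_card
    rw [← inf_subgroupOf_left, Nat.card_congr (subgroupOfEquivOfLe inf_le_left).toEquiv, ← h2, ← h3, h1, ← mul_assoc,
      inf_subgroupOf_left] at h4
    exact P.not_dvd_index (Nat.eq_of_mul_eq_mul_right Nat.card_pos h4 ▸ hd.mul_right _)

end Cfsg.Agent.S2932
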