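import Cfsg.Statements.S2939
import Cfsg.Agent.Loc.Chain

set_option autoImplicit false
open Cfsg

namespace Cfsg.Agent.S2939

section helpers
open Cfsg.Agent.Loc Subgroup
open scoped commutatorElement

variable {G : Type*} [Group G] {p : ℕ}

def Step (p : ℕ) (𝓕 : Set (Subgroup G)) (S : Subgroup G) (A : Set G) (h h' : G) : Prop :=
  ∃ Y ∈ sylowMembers p 𝓕 S, h⁻¹ * h' ∈ Y ∧ conjRight h' A ⊆ (S : Set G) ∩ (Y : Set G)

theorem data_iff {𝓕 : Set (Subgroup G)} {S : Subgroup G} {A : Set G} {h : G} :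
    (∃ (n : ℕ) (Y : Fin n → Subgroup G) (y : Fin n → G),
      (∀ i : Fin n, Y i ∈ sylowMembers p 𝓕 S ∧ y i ∈ Y i) ∧ h = (List.ofFn y).prod ∧
      ∀ i : Fin n, conjRight (((List.ofFn y).take (i.val + 1)).prod) A ⊆ (S : Set G) ∩ (Y i : Set G)) ↔
    Relation.ReflTransGen (Step p 𝓕 S A) 1 h := by
  constructor
  · rintro ⟨n, Y, y, h1, rfl, h2⟩
    have : ∀ i ≤ n, Relation.ReflTransGen (Step p 𝓕 S A) 1 ((List.ofFn y).take i).prod := by
      intro i
      induction i with
      | zero => intro _; simpa using Relation.ReflTransGen.refl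
      | succ i ih =>
        intro hi
        refine (ih (by omega)).tail ⟨Y ⟨i, hi⟩, (h1 _).1, ?_, h2 ⟨i, hi⟩⟩
        rw [List.prod_take_succ _ _ (by simpa using hi), inv_mul_cancel_left, List.getElem_ofFn]
        exact (h1 _).2
    have := this n le_rfl
    rwa [List.take_of_length_le (by simp)] at this
  · intro H
    induction H with
    | refl => exact ⟨0, Fin.elim0, Fin.elim0, fun i => i.elim0, by simp, fun i => i.elim0⟩
    | @tail b c _ hbc ih =>
      obtain ⟨n, Y, y, h1, rfl, h2⟩ := ih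
      obtain ⟨Z, h3, h4, h5⟩ := hbc
      have e : List.ofFn (Fin.snoc (α := fun _ => G) y ((List.ofFn y).prod⁻¹ * c)) =
          List.ofFn y ++ [(List.ofFn y).prod⁻¹ * c] := by
        rw [List.ofFn_succ_last]; simp
      refine ⟨n + 1, Fin.snoc (α := fun _ => Subgroup G) Y Z,
        Fin.snoc (α := fun _ => G) y ((List.ofFn y).prod⁻¹ * c), fun i => ?_, by rw [e]; simp, fun i => ?_⟩
      · induction i using Fin.lastCases with
        | last => simpa using ⟨h3, h4⟩
        | cast i => simpa using h1 i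
      · rw [e]
        induction i using Fin.lastCases with
        | last =>
          rw [List.take_of_length_le (by simp)]
          simpa using h5
        | cast i =>
          rw [List.take_append_of_le_length (by simpa using i.2)]
          simpa using h2 i

end helpers

/-- Let p be a prime dividing the order of the finite group G and 𝓕 a family of subgroups of G closed under conjugation, with conjugates taken as X^g = g⁻¹Xg. Then 𝓕 controls Sylow p-intersections in G (any two distinct Sylow p-subgroups S and T with S ∩ T ≠ 1 are joined by a chain S = S₀, S₁, …, Sₙ = T of Sylow p-subgroups where, for each i, some member Xᵢ of 𝓕 meets both S_{i-1} and Sᵢ in Sylow p-subgroups of Xᵢ, satisfies S ∩ T ≤ Sᵢ ∩ Xᵢ, and contains an element xᵢ with Sᵢ^{xᵢ} = S_{i-1}) if and only if 𝓕 strongly controls p-fusion in G (whenever A is a subset of a Sylow p-subgroup S, A contains an element other than 1, and A^g ⊆ S, the element g factorises as g = y₁⋯yₙy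 with y ∈ N_G(S) and each yᵢ in a member Yᵢ of 𝓕 that meets S in a Sylow p-subgroup of Yᵢ, with A^{y₁⋯yᵢ} ⊆ S ∩ Yᵢ for each i). -/
theorem result {G : Type*} [Group G] [Finite G] {p : ℕ} [Fact p.Prime] (hdiv : p ∣ Nat.card G) (𝓕 : Set (Subgroup G)) (h𝓕 : Cfsg.IsNormalSet 𝓕) : Cfsg.ControlsSylowIntersections p 𝓕 ↔ Cfsg.FamilyStronglyControlsFusion p 𝓕 := by
  open Cfsg.Agent.Loc Subgroup in
  open scoped commutatorElement in
  rw [csi_top_iff]
  have hF : ∀ X ∈ 𝓕, ∀ g, cj g X ∈ 𝓕 := fun X hX g => by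
    have := h𝓕 X hX g⁻¹
    rwa [subgroupConjRight, inv_inv] at this
  constructor
  · intro h S A g hA ⟨a, ha, ha1⟩ hg
    have hsub : ∀ x ∈ A, x ∈ (S : Subgroup G) ⊓ cj g S := fun x hx => ⟨hA hx, mem_cj.2 (hg ⟨x, hx, rfl⟩)⟩
    have key : ∀ T, Relation.ReflTransGen (Link p 𝓕 ⊤ ((S : Subgroup G) ⊓ cj g S)) S T →
        ∃ k, cj k S = T ∧ Relation.ReflTransGen (Step p 𝓕 S A) 1 k := by
      intro T hT
      induction hT with
      | refl => exact ⟨1, cj_one _, Relation.ReflTransGen.refl⟩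
      | @tail b c _ hbc ih =>
        obtain ⟨k, rfl, hk⟩ := ih
        obtain ⟨-, -, X, hX, h1, -, x, hx, h2, h3⟩ := hbc
        have e : cj (x * k) S = c := by rw [← cj_cj, ← h2, cj_cj_inv]
        refine ⟨x * k, e, hk.tail ⟨cj k⁻¹ X, mem_sylowMembers.2 ⟨hF X hX _, ?_⟩, ?_, ?_⟩⟩
        · simpa only [cj_inf, cj_inv_cj] using h1.conj k⁻¹
        · simpa [mul_assoc] using conj_mem_cj (g := k⁻¹) hx
        · rintro _ ⟨y, hy, rfl⟩
          have := h3 (hsub y hy)
          refine ⟨mem_cj.1 (e.ge this.1), mem_cj_inv.2 ?_⟩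
          simpa [mul_assoc] using X.mul_mem (X.mul_mem (X.inv_mem hx) this.2) hx
    obtain ⟨k, e, hk⟩ := key _ (h S (cj g S) (sylIn_top S) ((sylIn_top S).conj_of_mem trivial)
      fun e => ha1 ((eq_bot_iff_forall _).1 e a (hsub a ha)))
    obtain ⟨n, Y, y, h1, h2, h3⟩ := data_iff.2 hk
    exact ⟨n, Y, y, k⁻¹ * g, mem_normalizer_iff_cj.2 (by rw [← cj_cj, ← e, cj_inv_cj]), h1,
      by rw [← h2]; group, h3⟩
  · intro h S T hS hT hne
    obtain ⟨S, rfl⟩ := hS.exists_sylow_top
    obtain ⟨g, -, rfl⟩ := hS.exists_conj hT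
    obtain ⟨⟨a, ha⟩, ha1⟩ := ne_bot_iff_exists_ne_one.1 hne
    obtain ⟨n, Y, y, y₀, h0, h1, h2, h3⟩ := h S (((S : Subgroup G) ⊓ cj g S : Subgroup G) : Set G) g
      (fun x hx => hx.1) ⟨a, ha, fun e => ha1 (Subtype.ext e)⟩ (by rintro _ ⟨x, hx, rfl⟩; exact mem_cj.1 hx.2)
    have := rtg_lift (fun k : G => cj k (S : Subgroup G)) (s := Link p 𝓕 ⊤ ((S : Subgroup G) ⊓ cj g S)) (by
      rintro k k' ⟨Z, hZ, a1, a2⟩
      rw [mem_sylowMembers] at hZ
      have e : cj k' Z = cj k Z := by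
        conv_rhs => rw [← cj_eq_of_mem a1, cj_cj, mul_inv_cancel_left]
      refine ⟨hS.conj_of_mem trivial, hS.conj_of_mem trivial, cj k Z, hF Z hZ.1 k, cj_inf k _ Z ▸ hZ.2.conj k,
        e ▸ cj_inf k' _ Z ▸ hZ.2.conj k', k' * k⁻¹, by simpa [mul_assoc] using conj_mem_cj (g := k) a1,
        by rw [cj_cj]; congr 2; group, fun x hx => ?_⟩
      have := a2 ⟨x, hx, rfl⟩
      exact ⟨mem_cj.2 this.1, e.le (mem_cj.2 this.2)⟩) (data_iff.1 ⟨n, Y, y, h1, rfl, h3⟩)
    rw [cj_one] at this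
    have e : cj g (S : Subgroup G) = cj (List.ofFn y).prod S := by rw [h2, ← cj_cj, cj_eq_of_mem_normalizer h0]
    rwa [← e] at this

end Cfsg.Agent.S2939
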