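import Cfsg.Statements.S2955
import Cfsg.Agent.Loc.Chain

set_option autoImplicit false
open Cfsg

namespace Cfsg.Agent.S2955

/-- Let p be a prime dividing the order of the finite group G and 𝓕 a conjugation-closed family of subgroups that controls Sylow p-intersections in G. Suppose the Sylow p-subgroups of G are chain-connected: any two of them are joined by a chain of Sylow p-subgroups, consecutive ones distinct with nontrivial intersection, all containing the intersection of the two ends (equivalently, the graph on the Sylow p-subgroups whose edges are the distinct pairs meeting nontrivially is connected). Then for every Sylow p-subgroup S, G is generated by N_G(S) together with the members of 𝓕 that meet S in a Sylow p-subgroup of themselves. -/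
theorem result {G : Type*} [Group G] [Finite G] (p : ℕ) [Fact p.Prime] (hdiv : p ∣ Nat.card G)
    (𝓕 : Set (Subgroup G)) (h𝓕 : Cfsg.IsNormalSet 𝓕) (hc : Cfsg.ControlsSylowIntersections p 𝓕)
    (hconn : Cfsg.IsSylowChainConnected p G) (S : Sylow p G) :
    (⨆ X ∈ Cfsg.sylowMembers p 𝓕 (S : Subgroup G), X) ⊔ Subgroup.normalizer ((S : Subgroup G) : Set G) = ⊤ := by
  open Cfsg.Agent.Loc Subgroup in
  open scoped commutatorElement in
  rw [csi_top_iff] at hc
  rw [chainConnected_iff] at hconn
  set H := (⨆ X ∈ sylowMembers p 𝓕 (S : Subgroup G), X) ⊔ normalizer ((S : Subgroup G) : Set G) with hH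
  have k1 : ∀ D A B, Relation.ReflTransGen (Link p 𝓕 ⊤ D) A B → (∃ h ∈ H, cj h S = A) → ∃ h ∈ H, cj h S = B := by
    intro D A B hAB h0
    induction hAB with
    | refl => exact h0
    | tail _ hbc ih =>
      obtain ⟨h, hh, rfl⟩ := ih
      obtain ⟨-, -, X, hX, h1, -, x, hx, h2, -⟩ := hbc
      have h3 : cj h⁻¹ X ≤ H := le_sup_of_le_left (le_iSup₂ (f := fun X (_ : X ∈ sylowMembers p 𝓕 (S : Subgroup G)) => X)
        _ (mem_sylowMembers.2 ⟨h𝓕 X hX h, by simpa only [cj_inf, cj_inv_cj] using h1.conj h⁻¹⟩))
      rw [cj_le_iff, inv_inv, cj_eq_of_mem hh] at h3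
      exact ⟨x * h, H.mul_mem (h3 hx) hh, by rw [← cj_cj, ← h2, cj_cj_inv]⟩
  have k2 : ∀ B : Sylow p G, ∃ h ∈ H, cj h S = B := by
    intro B
    induction hconn S B with
    | refl => exact ⟨1, H.one_mem, cj_one _⟩
    | tail _ hbc ih => exact k1 _ _ _ (hc _ _ (sylIn_top _) (sylIn_top _) hbc.2) ih
  refine eq_top_iff.2 fun g _ => ?_
  obtain ⟨h, hh, e⟩ := k2 (g • S)
  have : h⁻¹ * g ∈ H := mem_sup_right (mem_normalizer_iff_cj.2 (by
    rw [← cj_cj, ← coe_smul_sylow g, ← e, cj_inv_cj]))
  simpa using H.mul_mem hh this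

end Cfsg.Agent.S2955
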