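import Cfsg.Statements.S2956
import Cfsg.Agent.Loc.Chain

set_option autoImplicit false
open Cfsg

namespace Cfsg.Agent.S2956

/-- Let p be a prime dividing the order of the finite group G, and f an assignment to every p-subgroup P of a set f(P) of subgroups of P, each normalized by N_G(P), compatible with conjugation, such that for P ≠ 1 the members of f(P) are nontrivial. Let 𝓕 be the family of the normalizers N_G(F) of the members F of f(S) over the Sylow p-subgroups S of G, and 𝓕' the family of the maximal p-local subgroups M of G that are singular for f (the corresponding family of normalizers inside M does not control Sylow p-intersections in M). Then 𝓕 ∪ 𝓕' controls Sylow p-intersections in G. -/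
theorem result {G : Type*} [Group G] [Finite G] (p : ℕ) [Fact p.Prime] (hdiv : p ∣ Nat.card G)
    (f : Subgroup G → Set (Subgroup G)) (hf : Cfsg.IsNormalizerFunctor p f)
    (hf1 : ∀ P : Subgroup G, IsPGroup p ↥P → P ≠ ⊥ → ∀ F ∈ f P, F ≠ ⊥)
    (𝓕 𝓕' : Set (Subgroup G)) (h𝓕 : 𝓕 = Cfsg.functorFamily p f ⊤)
    (h𝓕' : 𝓕' = {M | Cfsg.IsMaximalPLocal p M ∧ ¬ Cfsg.IsFunctorRegular p f M}) :
    Cfsg.ControlsSylowIntersections p (𝓕 ∪ 𝓕') := by
  open Cfsg.Agent.Loc Subgroup in
  open scoped commutatorElement in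
  rw [csi_top_iff]
  have hconj : ∀ (D S : Subgroup G), SylIn p D S → ∀ M, D ≤ M → M ≤ S → SylIn p D M := fun D S h M h1 h2 => h.mono h1 h2
  suffices H : ∀ D : Subgroup G, D ≠ ⊥ → ∀ S T, SylIn p S ⊤ → SylIn p T ⊤ → S ⊓ T = D →
      Relation.ReflTransGen (Link p (𝓕 ∪ 𝓕') ⊤ D) S T from fun S T hS hT hne => H _ hne S T hS hT rfl
  intro D
  induction D using WellFoundedGT.induction with
  | ind D ih =>
  intro hD
  have PI : ∀ S T, SylIn p S ⊤ → SylIn p T ⊤ → D < S ⊓ T → Relation.ReflTransGen (Link p (𝓕 ∪ 𝓕') ⊤ D) S T :=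
    fun S T hS hT hlt => rtg_link_mono (ih _ hlt hlt.ne_bot S T hS hT rfl) le_rfl hlt.le
  have SI : ∀ (n : ℕ) (L R : Subgroup G), IsPLocal p L → SylIn p R L → R.index = n → ∀ S T, SylIn p S ⊤ → SylIn p T ⊤ →
      D < S ⊓ L → D < T ⊓ L → Relation.ReflTransGen (Link p (𝓕 ∪ 𝓕') ⊤ D) S T := by
    intro n
    induction n using Nat.strong_induction_on with
    | _ n ihn =>
    intro L R hL hR hn S T hS hT h1 h2
    obtain ⟨M, ⟨hM, hLM⟩, hmax⟩ := exists_maximal_mem (S := {M | IsPLocal p M ∧ L ≤ M}) ⟨L, hL, le_rfl⟩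
    have hM' : IsMaximalPLocal p M := ⟨hM, fun N h3 h4 => hmax N ⟨h3, hLM.trans h4⟩ h4⟩
    have ex : ∀ S, SylIn p S ⊤ → D < S ⊓ L → ∃ P S₁, SylIn p P M ∧ SylIn p S₁ ⊤ ∧ S₁ ⊓ M = P ∧ D < P ∧ D < S ⊓ S₁ := by
      intro S hS h1
      obtain ⟨P, hP, h3⟩ := exists_sylIn_ge (Q := S ⊓ L) (inf_le_right.trans hLM) (hS.pg.to_le inf_le_left)
      obtain ⟨S₁, hS₁, h4⟩ := exists_sylIn_ge (H := ⊤) le_top hP.pg
      exact ⟨P, S₁, hP, hS₁, hP.max _ inf_le_right (hS₁.pg.to_le inf_le_left) (le_inf h4 hP.le), h1.trans_le h3,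
        h1.trans_le (le_inf inf_le_left (h3.trans h4))⟩
    obtain ⟨P, S₁, hP, hS₁, e1, a1, a2⟩ := ex S hS h1
    obtain ⟨Q, T₁, hQ, hT₁, e2, b1, b2⟩ := ex T hT h2
    refine (PI S S₁ hS hS₁ a2).trans (Relation.ReflTransGen.trans ?_ (PI T₁ T hT₁ hT (by rwa [inf_comm])))
    by_cases hreg : IsFunctorRegular p f M
    · have hch := (functorRegular_iff.1 hreg).rtg hP hQ hD a1.le b1.le
      by_cases hPG : SylIn p P ⊤
      · have e3 : S₁ = P := hPG.max _ le_top hS₁.pg (e1.ge.trans inf_le_left)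
        have hQG : SylIn p Q ⊤ := sylIn_of_card_le hPG le_top hQ.pg (hP.card_eq hQ).le
        have e4 : T₁ = Q := hQG.max _ le_top hT₁.pg (e2.ge.trans inf_le_left)
        rw [e3, e4]
        exact rtg_link_mono (rtg_functor_top hf hch hPG) (h𝓕 ▸ Set.subset_union_left) le_rfl
      · have : ∀ Q, Relation.ReflTransGen (Link p (functorFamily p f M) M D) P Q → SylIn p Q M ∧ D < Q ∧
            ∀ T₁, SylIn p T₁ ⊤ → Q ≤ T₁ → Relation.ReflTransGen (Link p (𝓕 ∪ 𝓕') ⊤ D) S₁ T₁ := by
          intro Q hch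
          induction hch with
          | refl => exact ⟨hP, a1, fun T₁ h3 h4 => PI _ _ hS₁ h3 (a1.trans_le (le_inf (e1.ge.trans inf_le_left) h4))⟩
          | @tail b c _ hbc ih =>
            obtain ⟨U, hU, F, hF, c1, c2, c3, -⟩ := hbc.functor hf
            have hDc : D < c := lt_of_le_of_ne c3 fun e => by
              have := Solv.card_lt_of_lt a1
              rw [e, hP.card_eq hbc.hT] at this
              exact lt_irrefl _ this
            refine ⟨hbc.hT, hDc, fun T₁ h3 h4 => ?_⟩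
            obtain ⟨B, hB, h5⟩ := exists_sylIn_ge (H := ⊤) le_top ih.1.pg
            refine (ih.2.2 B hB h5).trans ?_
            have hFU := (hf U hU.pg).1 F hF
            have hUb : U ≠ ⊥ := fun e => by
              have := Solv.card_lt_of_lt a1
              rw [hP.card_eq hU, e, card_bot] at this
              exact absurd this (by have := Nat.card_pos (α := D); omega)
            obtain ⟨V, hV, h6⟩ := exists_sylIn_ge (Q := U) (H := normalizer (F : Set G))
              (le_normalizer.trans hFU.2) hU.pg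
            have h7 : U < V := lt_of_le_of_ne h6 fun e => hPG (sylIn_of_card_le
              (sylIn_of_sylIn_normalizer (H := ⊤) ((e ▸ hV).mono (le_inf le_top le_normalizer)
                (inf_le_right.trans hFU.2))) le_top hP.pg (hU.card_eq hP).le)
            refine ihn V.index ?_ _ V ⟨F, hU.pg.to_le hFU.1, hf1 U hU.pg hUb F hF, rfl⟩ hV rfl B T₁ hB h3
              (ih.2.1.trans_le (le_inf h5 c1)) (hDc.trans_le (le_inf h4 c2))
            have k1 := Solv.card_lt_of_lt h7
            have k2 := card_le_of_isPGroup hU (hR.le.trans hLM) hR.pg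
            have k3 := V.card_mul_index
            have k4 := R.card_mul_index
            have k5 : 0 < V.index := Nat.pos_of_ne_zero V.index_ne_zero_of_finite
            rw [← hn]
            by_contra hh
            push Not at hh
            nlinarith
        exact (this Q hch).2.2 T₁ hT₁ (e2.ge.trans inf_le_left)
    · obtain ⟨x, hx, e⟩ := hP.exists_conj hQ
      have e3 : cj x⁻¹ T₁ ⊓ M = P := by
        rw [← cj_eq_of_mem (M.inv_mem hx), ← cj_inf, e2, ← e, cj_inv_cj]
      refine (PI S₁ (cj x⁻¹ T₁) hS₁ (hT₁.conj_of_mem trivial) (a1.trans_le (le_inf (e1.ge.trans inf_le_left)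
        (e3.ge.trans inf_le_left)))).tail ⟨hT₁.conj_of_mem trivial, hT₁, M, Or.inr (h𝓕' ▸ ⟨hM', hreg⟩),
          e3 ▸ hP, e2 ▸ hQ, x, hx, rfl, e2 ▸ b1.le⟩
  intro S T hS hT e
  by_cases hST : S = T
  · rw [hST]
  have hDp : IsPGroup p D := hS.pg.to_le (e.ge.trans inf_le_left)
  obtain ⟨R, hR⟩ := exists_sylIn p (normalizer (D : Set G))
  refine SI _ _ R ⟨D, hDp, hD, rfl⟩ hR rfl S T hS hT (lt_inf_normalizer hS.pg (lt_of_le_of_ne (e.ge.trans inf_le_left)
    fun e' => hST (hS.eq_of_le hT (e'.ge.trans (e.ge.trans inf_le_right)))))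
    (lt_inf_normalizer hT.pg (lt_of_le_of_ne (e.ge.trans inf_le_right)
    fun e' => hST (hT.eq_of_le hS (e'.ge.trans (e.ge.trans inf_le_left))).symm))

end Cfsg.Agent.S2956
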