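import Cfsg.Statements.S2957
import Cfsg.Agent.Loc.Chain

set_option autoImplicit false
open Cfsg

namespace Cfsg.Agent.S2957

/-- Let p be a prime dividing the order of the finite group G, f an equivariant assignment of a set of subgroups f(P) of P to every p-subgroup P, each normalized by N_G(P), and S a Sylow p-subgroup. If G = G₁G₂ for subgroups G₁, G₂ both containing S and both regular for f (in each Gᵢ, the family of normalizers in Gᵢ of the members of f(P), P a Sylow p-subgroup of Gᵢ, controls Sylow p-intersections), then G itself is regular for f. -/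
theorem result {G : Type*} [Group G] [Finite G] (p : ℕ) [Fact p.Prime] (hdiv : p ∣ Nat.card G)
    (f : Subgroup G → Set (Subgroup G)) (hf : Cfsg.IsNormalizerFunctor p f) (S : Sylow p G)
    (G₁ G₂ : Subgroup G) (h₁ : (S : Subgroup G) ≤ G₁) (h₂ : (S : Subgroup G) ≤ G₂)
    (hprod : ∀ g : G, ∃ g₁ ∈ G₁, ∃ g₂ ∈ G₂, g = g₁ * g₂)
    (hr₁ : Cfsg.IsFunctorRegular p f G₁) (hr₂ : Cfsg.IsFunctorRegular p f G₂) :
    Cfsg.IsFunctorRegular p f ⊤ := by
  open Cfsg.Agent.Loc Subgroup in
  open scoped commutatorElement in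
  rw [functorRegular_iff] at *
  have key : ∀ T, SylIn p T ⊤ → (S : Subgroup G) ⊓ T ≠ ⊥ →
      Relation.ReflTransGen (Link p (functorFamily p f ⊤) ⊤ (S ⊓ T)) S T := by
    intro T hT hne
    obtain ⟨g, -, rfl⟩ := (sylIn_top S).exists_conj hT
    obtain ⟨U, hU, h3, h4⟩ := exists_sylIn_of_factor (sylIn_top S) h₁ h₂ hprod g
    refine (rtg_functor_top hf (hr₁.rtg ((sylIn_top S).mono h₁ le_top) (hU.mono (h4.trans inf_le_left) le_top)
      hne inf_le_left h3) (sylIn_top S)).trans (rtg_functor_top hf
        ((hr₂.conj g fun X hX => cj_mem_functorFamily hf hX g).rtg (hU.mono (h4.trans inf_le_right) le_top)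
        (hT.mono (cj_mono g h₂) le_top) hne h3 inf_le_right) hU)
  intro A B hA hB hne
  obtain ⟨g, -, rfl⟩ := (sylIn_top S).exists_conj hA
  have := rtg_lift (fun X => cj g X) (fun a b hab => hab.conj g fun X hX => cj_mem_functorFamily hf hX g)
    (key (cj g⁻¹ B) (hB.conj_of_mem trivial) (by
      rw [← cj_inv_cj g (S : Subgroup G), ← cj_inf, Ne, cj_eq_bot_iff]; exact hne))
  simpa only [cj_inf, cj_cj_inv, cj_top] using this

end Cfsg.Agent.S2957
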