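import Cfsg.Statements.S2958
import Cfsg.Agent.Loc.SE

set_option autoImplicit false
open Cfsg

namespace Cfsg.Agent.S2958

/-- Let X, A, B be subgroups of a group G such that G is generated by the conjugates of X and every conjugate of X is contained in A or in B. Then A = G or B = G. -/
theorem result {G : Type*} [Group G] (X A B : Subgroup G) (hgen : (⨆ g : G, X.map (MulAut.conj g).toMonoidHom) = ⊤) (hcover : ∀ g : G, X.map (MulAut.conj g).toMonoidHom ≤ A ∨ X.map (MulAut.conj g).toMonoidHom ≤ B) : A = ⊤ ∨ B = ⊤ := by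
  open Cfsg.Agent.Loc Subgroup in
  open scoped commutatorElement in
  by_cases h : ∀ g, cj g X ≤ A
  · left; exact eq_top_iff.2 (hgen.ge.trans (iSup_le h))
  right
  push Not at h
  obtain ⟨g₀, h0⟩ := h
  set D := ⨆ g : {g : G // ¬ cj g X ≤ A}, cj (g : G) X with hD
  have h1 : D ≤ B := iSup_le fun g => (hcover g).resolve_left g.2
  have h2 : A ≤ normalizer (D : Set G) := le_normalizer_of_cj_le fun a ha => by
    rw [hD, cj_iSup]
    refine iSup_le fun g => ?_
    rw [cj_cj]
    refine le_iSup (fun g : {g : G // ¬ cj g X ≤ A} => cj (g : G) X) ⟨a * g, fun h => g.2 ?_⟩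
    rw [← cj_cj, cj_le_iff, cj_eq_of_mem (A.inv_mem ha)] at h
    exact h
  have h3 : ⊤ ≤ normalizer (D : Set G) := hgen.ge.trans (iSup_le fun g => by
    by_cases h : cj g X ≤ A
    · exact h.trans h2
    · exact (le_iSup (fun g : {g : G // ¬ cj g X ≤ A} => cj (g : G) X) ⟨g, h⟩).trans le_normalizer)
  refine eq_top_iff.2 (hgen.ge.trans (iSup_le fun g => le_trans ?_ h1))
  have := cj_le_of_mem_normalizer (h3 (mem_top (g * g₀⁻¹)))
    (le_iSup (fun g : {g : G // ¬ cj g X ≤ A} => cj (g : G) X) ⟨g₀, h0⟩)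
  rwa [cj_cj, inv_mul_cancel_right] at this

end Cfsg.Agent.S2958
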