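import Cfsg.Statements.S2961
import Cfsg.Agent.Loc.SE
import Cfsg.Agent.S2960

set_option autoImplicit false
open Cfsg

namespace Cfsg.Agent.S2961

/-- Let G be a finite group of characteristic p (C_G(O_p(G)) ≤ O_p(G)), p prime, T a Sylow p-subgroup of G and Q a normal subgroup of T with C_T(Q) ≤ Q. Then every subgroup L of G containing Q has characteristic p: C_L(O_p(L)) ≤ O_p(L). -/
theorem result {G : Type*} [Group G] [Finite G] {p : ℕ} [Fact p.Prime] (hG : Subgroup.centralizer (Cfsg.pCore p G : Set G) ≤ Cfsg.pCore p G) (T : Sylow p G) (Q : Subgroup G) (hQT : Q ≤ (T : Subgroup G)) (hQn : (T : Subgroup G) ≤ Subgroup.normalizer (Q : Set G)) (hC : (T : Subgroup G) ⊓ Subgroup.centralizer (Q : Set G) ≤ Q) (L : Subgroup G) (hQL : Q ≤ L) : Subgroup.centralizer (Cfsg.pCore p ↥L : Set ↥L) ≤ Cfsg.pCore p ↥L := by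
  open Cfsg.Agent.Loc Subgroup in
  open scoped commutatorElement in
  have hCQ := S2960.result hG T Q hQT hQn hC
  have hQ := T.isPGroup'.to_le hQT
  refine chP_iff.1 (chP_iff_xeIn.2 ?_)
  set X := Sig.xeIn p L
  have hXL : X ≤ L := Sig.xeIn_le
  have hO : pCore p G ≤ T := pCore_le_sylow T
  have hn : ∀ K : Subgroup G, K ≤ normalizer ((pCore p G : Subgroup G) : Set G) := fun K =>
    le_top.trans (normalizer_eq_top _).ge
  have hR : X ≤ centralizer ((pCore p G ⊓ Q : Subgroup G) : Set G) :=
    Sig.xeIn_le_centralizer_pcIn.trans (centralizer_anti ((inf_le_inf_left _ hQL).trans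
      (le_pCoreOf inf_le_right (le_normalizer_inf (hn _) le_normalizer) ((isPGroup_pCore p G).to_le inf_le_left))))
  have hc : ⁅pCore p G, Q⁆ ≤ pCore p G ⊓ Q := commutator_le_inf_of_normalizes (hO.trans hQn) (hn _)
  have h1 : ⁅⁅X, Q⁆, pCore p G⁆ ≤ pCore p G ⊓ Q :=
    three_subgroups (le_normalizer_of_le_centralizer hR) (le_normalizer_inf (hn _) le_normalizer)
      (le_normalizer_inf (hn _) (hO.trans hQn))
      ((commutator_mono ((Subgroup.commutator_comm _ _).le.trans hc) le_rfl).trans
        (commutator_le_of_le_centralizer' hR _))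
      ((commutator_mono (commutator_le_left_of_le_normalizer (hn _)) le_rfl).trans hc)
  have hQX : Q ≤ normalizer (X : Set G) := Sig.le_normalizer_xeIn (hQL.trans le_normalizer)
  have hY : ⁅X, Q⁆ ≤ X := commutator_le_left_of_le_normalizer hQX
  have h2 : IsPGroup p (⁅X, Q⁆ : Subgroup G) := isPGroup_of_pResidualOf_le (isPGroup_pCore p G)
    ((pResidualOf_le_centralizer_of_le (isPGroup_pCore p G) (hn _)
      ((commutator_mono le_rfl (pResidualOf_le _ _)).trans ((Subgroup.commutator_comm _ _).le.trans h1))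
      ((pResidualOf_le _ _).trans (hY.trans hR))).trans hG)
  have h3 : ⁅X, Q⁆ ≤ pCoreOf p L := le_pCoreOf_of_subnIn (Sig.SubnIn.step hY (normalizer_commutator_ge_left _ _)
    Sig.subnIn_xeIn) h2
  have h4 : X ≤ centralizer (Q : Set G) := Sig.xeIn_le_of_forall_coprime fun x hx ho => by
    have := Solv.le_centralizer_of_commutator_le (A := zpowers x) (K := Q) (N := ⁅X, Q⁆)
      (coprime_card_zpowers h2 ho) (le_centralizer_iff.1 ((zpowers_le.2 hx).trans
        (Sig.xeIn_le_centralizer_pcIn.trans (centralizer_anti h3))))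
      ((Subgroup.commutator_comm _ _).le.trans (commutator_mono (zpowers_le.2 hx) le_rfl))
    exact le_centralizer_iff.1 this (mem_zpowers x)
  refine eq_bot_iff.2 (Sig.xeIn_le_of_forall_coprime fun x hx ho => ?_)
  exact Transfer.eq_one_of_mem_isPGroup_of_coprime hQ (hCQ (h4 hx)) ho

end Cfsg.Agent.S2961
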