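import Cfsg.Statements.S2962
import Cfsg.Agent.Loc.Cpl
import Cfsg.Agent.Invol.ZS
import Cfsg.Agent.S0205

set_option autoImplicit false
open Cfsg

namespace Cfsg.Agent.S2962

section helpers
open Cfsg.Agent.Loc Subgroup
open scoped commutatorElement

theorem comm_aux {G : Type*} [Group G] {a b a' b' : G} (h1 : Commute (a'⁻¹ * a) b) (h2 : Commute (b'⁻¹ * b) a') :
    ⁅a', b'⁆ = ⁅a, b⁆ := by
  have e1 : ⁅a', b⁆ = ⁅a', b'⁆ := by
    have : b = b' * (b'⁻¹ * b) := by group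
    generalize b'⁻¹ * b = c at this h2
    rw [this, commutatorElement_def, commutatorElement_def, mul_inv_rev]
    calc a' * (b' * c) * a'⁻¹ * (c⁻¹ * b'⁻¹) = a' * b' * (c * a'⁻¹) * c⁻¹ * b'⁻¹ := by group
      _ = _ := by rw [h2.inv_right.eq]; group
  have : a' = a * (a'⁻¹ * a)⁻¹ := by group
  generalize a'⁻¹ * a = c at this h1
  rw [← e1, this, commutatorElement_def, commutatorElement_def, mul_inv_rev]
  calc a * c⁻¹ * b * (c⁻¹⁻¹ * a⁻¹) * b⁻¹ = a * (c⁻¹ * b) * c * a⁻¹ * b⁻¹ := by group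
    _ = _ := by rw [h1.inv_left.eq]; group

end helpers

/-- Let G be a finite group with G = QN, where N is a normal subgroup of G and Q is a non-abelian 2-subgroup with Q ∩ N = 1. Suppose that some nontrivial element t of Z(Q) ∩ [Q, Q] satisfies C_N(Q) = C_N(t). Then [N, Q] is solvable of odd order. -/
theorem result {G : Type*} [Group G] [Finite G] (N Q : Subgroup G) [N.Normal] (hG : Q ⊔ N = ⊤) (hQ : IsPGroup 2 ↥Q) (hQna : ¬ IsMulCommutative ↥Q) (hdisj : Q ⊓ N = ⊥) (t : G) (ht1 : t ≠ 1) (htZ : t ∈ Q ⊓ Subgroup.centralizer (Q : Set G)) (htQ : t ∈ ⁅Q, Q⁆) (hC : N ⊓ Subgroup.centralizer (Q : Set G) = N ⊓ Subgroup.centralizer ({t} : Set G)) : Group.IsSolvable ↥⁅N, Q⁆ ∧ Odd (Nat.card ↥⁅N, Q⁆) := by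
  open Cfsg.Agent.Loc Subgroup in
  open scoped commutatorElement in
  have hN : N.Normal := inferInstance
  have hC' : ∀ c ∈ N, Commute c t → ∀ q ∈ Q, Commute c q := fun c hc h q hq =>
    ((hC.ge ⟨hc, mem_cent1'.2 h⟩).2 q hq).symm
  have hC'' : ∀ n, ∀ c ∈ N, Commute c (n * t * n⁻¹) → ∀ q ∈ Q, Commute c (n * q * n⁻¹) := fun n c hc h q hq => by
    have h1 := (hC' _ (hN.conj_mem' c hc n) (by simpa [mul_assoc] using h.conj n⁻¹) q hq).conj n
    simpa [mul_assoc] using h1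
  have hiso : IsIsolated t := by
    intro g hg
    obtain ⟨n, hn, q, hq, rfl⟩ := (mem_sup_of_le_normalizer_left le_normalizer_of_normal).1
      ((sup_comm Q N ▸ hG).ge (mem_top g))
    have e : n * q * t * (n * q)⁻¹ = n * t * n⁻¹ := by rw [mul_assoc n q t, htZ.2 q hq]; group
    rw [e] at hg ⊢
    have hd : t⁻¹ * (n * t * n⁻¹) ∈ N := by
      simpa only [mul_assoc] using mul_mem (hN.conj_mem' n hn t) (inv_mem hn)
    have h1 : ∀ q ∈ Q, Commute (n * t * n⁻¹) q := fun q hq => by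
      have := Commute.mul_left (htZ.2 q hq).symm (hC' _ hd (Commute.mul_left (Commute.refl t).inv_left hg.symm) q hq)
      rwa [mul_inv_cancel_left] at this
    have h2 : ∀ q ∈ Q, Commute t (n * q * n⁻¹) := fun q hq => by
      have := Commute.mul_left (hC'' n _ hd (Commute.mul_left hg.inv_left (Commute.refl _)) q hq)
        (Commute.conj (htZ.2 q hq).symm n).inv_left
      rw [mul_inv_cancel_right] at this
      simpa using this.inv_left
    have h3 : ∀ q ∈ Q, (n * q * n⁻¹)⁻¹ * q ∈ N := fun q _ => by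
      simpa only [mul_assoc, mul_inv_rev, inv_inv] using mul_mem hn (hN.conj_mem' _ (inv_mem hn) q)
    have h4 : ∀ q ∈ Q, ∀ r ∈ Q, Commute ((n * q * n⁻¹)⁻¹ * q) r := fun q hq =>
      hC' _ (h3 q hq) (Commute.mul_left (h2 q hq).symm.inv_left (htZ.2 q hq))
    have h5 : ∀ q ∈ Q, ∀ r ∈ Q, Commute ((n * q * n⁻¹)⁻¹ * q) (n * r * n⁻¹) := fun q hq =>
      hC'' n _ (h3 q hq) (Commute.mul_left (Commute.conj (htZ.2 q hq) n).inv_left (h1 q hq).symm)
    have h6 : ⁅Q, Q⁆ ≤ centralizer ({n} : Set G) := commutator_le.2 fun a ha b hb => by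
      rw [mem_cent1_comm, mem_cent1, conjugate_commutatorElement]
      exact comm_aux (h4 a ha b hb) (h5 b hb a ha)
    exact mem_cent1.1 (mem_cent1_comm.1 (h6 htQ))
  obtain ⟨S, hS⟩ := hQ.exists_le_sylow
  have htS := hS htZ.1
  have hz := Invol.comm_mem_oddCore_of_weaklyClosed S htS
    (fun s hs => mem_cent1'.1 (isolated_le_cent hiso S.isPGroup' htS hs)) fun k g hg => by
      rw [isolated_zpow_eq hiso S.isPGroup' htS (pow_mem (mem_zpowers t) k) hg]; exact mem_zpowers _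
  obtain ⟨k, hk⟩ := exists_pow_of_isPGroup hQ htZ.1
  have hO : pPrimeCore 2 G ≤ N := Solv.le_of_le_sup_of_coprime (H := Q) le_normalizer_of_normal
    ((sup_comm Q N ▸ hG).ge.trans' le_top) (Sig.coprime_of_isPGroup_of_coprime hQ Sig.coprime_pPrimeCore).symm
  have h1 : ⁅N, Q⁆ ≤ pPrimeCore 2 G := by
    refine (commutator_le_of_forall_mul_centralizer (X := pPrimeCore 2 G) fun n hn => ?_).trans (commutator_le_left _ _)
    obtain ⟨o, ho, c, hc, rfl⟩ := Invol.exists_oddCore_mul_centralizer hk hz n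
    exact ⟨o, ho, c, fun q hq => (hC' c ((mul_mem_cancel_left (hO ho)).1 hn) hc q hq).symm, rfl⟩
  have h2 : Odd (Nat.card (⁅N, Q⁆ : Subgroup G)) := Invol.odd_oddCore.of_dvd_nat (card_dvd_of_le h1)
  exact ⟨S0205.result h2, h2⟩

end Cfsg.Agent.S2962
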