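import Cfsg.Statements.S2963
import Mathlib.GroupTheory.Perm.MaximalSubgroups
import Mathlib.GroupTheory.GroupAction.SubMulAction.Combination
import Mathlib.Data.Nat.Choose.Lucas
import Mathlib.Data.Nat.Factorization.Induction

set_option autoImplicit false
open Cfsg

namespace Cfsg.Agent.S2963

open scoped Pointwise

lemma odd_choose (a : ℕ) : ∀ n : ℕ, Odd (n / 2 ^ a) → Odd (n.choose (2 ^ a)) := by
  induction a with
  | zero => intro n h; simpa using h
  | succ a ih =>
    intro n h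
    have h1 := Choose.choose_modEq_choose_mod_mul_choose_div_nat (n := n) (k := 2 ^ (a + 1)) (p := 2)
    have h2 : 2 ^ (a + 1) % 2 = 0 := by rw [pow_succ]; simp
    have h3 : 2 ^ (a + 1) / 2 = 2 ^ a := by rw [pow_succ]; simp
    rw [h2, h3, Nat.choose_zero_right, one_mul] at h1
    have h4 := ih (n / 2) (by rw [Nat.div_div_eq_div_mul, mul_comm, ← pow_succ]; exact h)
    rw [Nat.odd_iff] at h4 ⊢
    rw [h1, h4]

lemma fixed_set (n k : ℕ) (S : Sylow 2 (Equiv.Perm (Fin n))) (h : Odd (n.choose k)) :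
    ∃ B : Set (Fin n), B.ncard = k ∧
      (S : Subgroup (Equiv.Perm (Fin n))) ≤ MulAction.stabilizer (Equiv.Perm (Fin n)) B := by
  have hc : ¬ 2 ∣ Nat.card (Set.powersetCard (Fin n) k) := by
    rw [Set.powersetCard.card]
    simp only [Nat.card_eq_fintype_card, Fintype.card_fin]
    exact h.not_two_dvd_nat
  obtain ⟨B, hB⟩ := S.isPGroup'.nonempty_fixed_point_of_prime_not_dvd_card
    (Set.powersetCard (Fin n) k) hc
  refine ⟨B, Set.powersetCard.ncard_eq B, fun g hg => ?_⟩
  rw [← Set.powersetCard.stabilizer_coe]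
  exact hB ⟨g, hg⟩

/-- Let n be odd. If the symmetric group of degree n is a minimal parabolic group for the prime 2, that is, a Sylow 2-subgroup is not normal and lies in exactly one maximal subgroup, then n = 2^m + 1 for some natural number m. -/
theorem result (n : ℕ) (hn : Odd n) (h : Cfsg.IsPMinimal 2 (Equiv.Perm (Fin n))) : ∃ m : ℕ, n = 2 ^ m + 1 := by
  by_contra hne
  push Not at hne
  obtain ⟨S⟩ : Nonempty (Sylow 2 (Equiv.Perm (Fin n))) := inferInstance
  obtain ⟨hN, M, -, hM⟩ := h S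
  have hn1 : n ≠ 1 := by
    rintro rfl
    exact hN ⟨fun a ha g => by rwa [Subsingleton.elim (g * a * g⁻¹) a]⟩
  obtain ⟨r, hr⟩ := hn
  have hr0 : r ≠ 0 := by omega
  obtain ⟨a, b, hb, hab⟩ := Nat.exists_eq_two_pow_mul_odd hr0
  have hb1 : b ≠ 1 := by
    rintro rfl
    exact hne (a + 1) (by rw [hr, hab, pow_succ]; ring)
  have hb3 : 3 ≤ b := by obtain ⟨c, hc⟩ := hb; omega
  have hpos : 1 ≤ 2 ^ a := Nat.one_le_two_pow
  have hk : n / 2 ^ (a + 1) = b := by
    rw [hr, hab, show 2 * (2 ^ a * b) + 1 = 1 + 2 ^ (a + 1) * b by ring,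
      Nat.add_mul_div_left _ _ (by positivity), Nat.div_eq_of_lt (by rw [pow_succ]; omega)]
    simp
  have hle : 3 * 2 ^ a ≤ r := by rw [hab, mul_comm]; exact Nat.mul_le_mul_left _ hb3
  obtain ⟨B, hBk, hSB⟩ := fixed_set n (2 ^ (a + 1)) S (odd_choose _ _ (hk ▸ hb))
  obtain ⟨C, hCk, hSC⟩ := fixed_set n 1 S (by simpa using ⟨r, hr⟩)
  rw [pow_succ] at hBk
  have hcard : ∀ D : Set (Fin n), D.ncard + Dᶜ.ncard = n := fun D => by
    simpa using Set.ncard_add_ncard_compl D
  have hco : ∀ D : Set (Fin n), 0 < D.ncard → D.ncard < n →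
      IsCoatom (MulAction.stabilizer (Equiv.Perm (Fin n)) D) := by
    intro D h1 h2
    apply Equiv.Perm.isCoatom_stabilizer
    · exact Set.nonempty_of_ncard_ne_zero (by omega)
    · exact Set.nonempty_of_ncard_ne_zero (by have := hcard D; omega)
    · simp only [Nat.card_eq_fintype_card, Fintype.card_fin]; omega
  have heq : MulAction.stabilizer (Equiv.Perm (Fin n)) B =
      MulAction.stabilizer (Equiv.Perm (Fin n)) C :=
    (hM _ ⟨hco B (by omega) (by omega), hSB⟩).trans (hM _ ⟨hco C (by omega) (by omega), hSC⟩).symm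
  obtain ⟨x, rfl⟩ := Set.ncard_eq_one.mp hCk
  have key : ∀ y, y ≠ x → (y ∈ B ↔ x ∈ B) → False := by
    intro y hyx hy
    have h1 : Equiv.swap x y ∈ MulAction.stabilizer (Equiv.Perm (Fin n)) B := by
      rw [MulAction.mem_stabilizer_set_iff_smul_set_subset (Set.toFinite _)]
      rintro _ ⟨z, hz, rfl⟩
      show Equiv.swap x y z ∈ B
      rw [Equiv.swap_apply_def]
      split_ifs with h1 h2
      · exact hy.mpr (h1 ▸ hz)
      · exact hy.mp (h2 ▸ hz)
      · exact hz
    rw [heq, MulAction.stabilizer_singleton, MulAction.mem_stabilizer_iff] at h1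
    apply hyx
    simpa using h1
  by_cases hx : x ∈ B
  · obtain ⟨y, hy, hyx⟩ := Set.exists_ne_of_one_lt_ncard (s := B) (by omega) x
    exact key y hyx (by simp [hx, hy])
  · obtain ⟨y, hy, hyx⟩ := Set.exists_ne_of_one_lt_ncard (s := Bᶜ)
      (by have := hcard B; omega) x
    exact key y hyx ⟨fun h => absurd h hy, fun h => absurd h hx⟩

end Cfsg.Agent.S2963
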