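import Cfsg.Statements.S2981
import Cfsg.Agent.PLocal.FF8
-- import your own Cfsg.Agent.* helpers here

set_option autoImplicit false
open Cfsg

namespace Cfsg.Agent.S2981


open Subgroup Cfsg Cfsg.Agent.Transfer Cfsg.Agent.BG Cfsg.Agent.PLocal Pointwise
open scoped commutatorElement

/-- The local C**(G,T)-Theorem for minimal parabolic groups. Let G be a finite p-minimal group (a Sylow p-subgroup T is not normal and lies in exactly one maximal subgroup) of characteristic p (C_G(O_p(G)) ≤ O_p(G)), and suppose G ≠ C**(G,T), the subgroup generated by C_G(Ω₁(Z(T))) and N_G(J(T)) (J(T) generated by the elementary abelian p-subgroups of T of largest order). Put V = Ω₁(Z(O_p(G))) and C = C_G(V). Then there are subgroups E₁, …, E_r of G containing C such that: J(G)TC = G and the E_i C/C form an internal direct product equal to J(G)C/C; any two of the E_i are conjugate by an element of T; V = C_V(⟨E_i⟩)·∏[V, E_i]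 with [V, E_i, E_j] = 1 for i ≠ j; for some n ≥ 1, each E_i/C is isomorphic to SL₂(pⁿ), or p = 2 and to the symmetric group of degree 2ⁿ + 1; and E_i acts on [V, E_i]/C_{[V,E_i]}(E_i) as the natural two-dimensional SL₂(pⁿ)-module, respectively as the symmetric group of degree 2ⁿ+1 on its even-weight permutation module. -/
theorem result {G : Type*} [Group G] [Finite G] {p : ℕ} [Fact p.Prime] (hmin : Cfsg.IsPMinimal p G) (hG : Subgroup.centralizer (Cfsg.pCore p G : Set G) ≤ Cfsg.pCore p G) (T : Sylow p G) (hne : Cfsg.cStarStarOf p (T : Subgroup G) ≠ ⊤) : ∃ (r : ℕ) (E : Fin r → Subgroup G), (∀ i, Subgroup.centralizer (Cfsg.omegaOneCenter p (Cfsg.pCore p G) : Set G) ≤ E i) ∧ Cfsg.thompsonSubgroup p G ⊔ (T : Subgroup G) ⊔ Subgroup.centralizer (Cfsg.omegaOneCenter p (Cfsg.pCore p G) : Set G) = ⊤ ∧ (⨆ i, E i) = Cfsg.thompsonSubgroup p G ⊔ Subgroup.centralizer (Cfsg.omegaOneCenter p (Cfsg.pCore p G) : Set G)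 ∧ (∀ i j, i ≠ j → ⁅E i, E j⁆ ≤ Subgroup.centralizer (Cfsg.omegaOneCenter p (Cfsg.pCore p G) : Set G)) ∧ (∀ i, E i ⊓ (⨆ j ∈ {j | j ≠ i}, E j) ≤ Subgroup.centralizer (Cfsg.omegaOneCenter p (Cfsg.pCore p G) : Set G)) ∧ (∀ i j, ∃ t ∈ (T : Subgroup G), (E i).map (MulAut.conj t).toMonoidHom = E j) ∧ (Cfsg.omegaOneCenter p (Cfsg.pCore p G) ⊓ Subgroup.centralizer ((⨆ i, E i : Subgroup G) : Set G)) ⊔ (⨆ i, ⁅Cfsg.omegaOneCenter p (Cfsg.pCore p G), E i⁆) = Cfsg.omegaOneCenter p (Cfsg.pCore p G) ∧ (∀ i j, i ≠ j → ⁅⁅Cfsg.omegaOneCenter p (Cfsg.pCore p G), E i⁆, E j⁆ = ⊥) ∧ ∀ i, ∃ n : ℕ, 1 ≤ n ∧ ((∃ (F : Type) (_ : Field F) (_ : Fintype F), Fintype.card F = p ^ n ∧ (∃ _ : ((Subgroup.centralizer (Cfsg.omegaOneCenter p (Cfsg.pCore p G) : Set G)).subgroupOf (E i)).Normal, Nonempty (↥(E i) ⧸ (Subgroup.centralizer (Cfsg.omegaOneCenter p (Cfsg.pCore p G) : Set G)).subgroupOf (E i) ≃* Matrix.SpecialLinearGroup (Fin 2) F))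 ∧ Cfsg.ActsAsSL2OnSection F ⊤ (E i) ⁅Cfsg.omegaOneCenter p (Cfsg.pCore p G), E i⁆ (⁅Cfsg.omegaOneCenter p (Cfsg.pCore p G), E i⁆ ⊓ Subgroup.centralizer ((E i : Subgroup G) : Set G))) ∨ (p = 2 ∧ (∃ _ : ((Subgroup.centralizer (Cfsg.omegaOneCenter p (Cfsg.pCore p G) : Set G)).subgroupOf (E i)).Normal, Nonempty (↥(E i) ⧸ (Subgroup.centralizer (Cfsg.omegaOneCenter p (Cfsg.pCore p G) : Set G)).subgroupOf (E i) ≃* Equiv.Perm (Fin (2 ^ n + 1)))) ∧ Cfsg.ActsAsOddPermModuleOnSection (2 ^ n + 1) ⊤ (E i) ⁅Cfsg.omegaOneCenter p (Cfsg.pCore p G), E i⁆ (⁅Cfsg.omegaOneCenter p (Cfsg.pCore p G), E i⁆ ⊓ Subgroup.centralizer ((E i : Subgroup G) : Set G)))) := by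
  obtain ⟨M, um⟩ := FF.umax_of_isPMinimal hmin T
  have hT := Loc.sylIn_top T
  have hV : IsElementaryAbelian p (omegaOneCenter p (pCore p G)) := Loc.isElementaryAbelian_omegaOne_center p _
  have hVT : omegaOneCenter p (pCore p G) ≤ T := (Loc.omegaOne_center_le p _).trans (Loc.pCore_le_sylow T)
  have hQC : pCore p G ≤ centralizer (omegaOneCenter p (pCore p G) : Set G) := Loc.le_centralizer_omegaOne_center p _
  have hcs : cStarStarOf p (T : Subgroup G) ≤ M :=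
    um.max _ (le_sup_of_le_left (Loc.le_centralizer_omegaOne_center p _)) (lt_top_iff_ne_top.2 hne)
  have hCM := (Loc.centralizer_anti (FF.omegaOneCenter_le_of_charP hG hT)).trans (le_sup_left.trans hcs)
  obtain ⟨ρ, π, hS⟩ : ∃ (ρ : Representation (ZMod p) (G ⧸ centralizer (omegaOneCenter p (pCore p G) : Set G)) (AbV hV))
    (π : G →* _), FF.Setup ρ π := let ⟨ρ, h⟩ := FF.exists_setup hV; ⟨ρ, _, h⟩
  obtain ⟨A, hA, hAC⟩ := hS.exists_offender um hT hCM (le_sup_right.trans hcs)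
  have hP := hS.pm um hT hQC hCM
  have hF := hS.ffs um hT hQC hCM hVT hA hAC
  have hf := hS.inj
  have hs := hS.surj
  obtain ⟨𝓔, hB⟩ := hF.blocks
  obtain ⟨r, E', hr, hi, rfl⟩ := hB.exists_enum
  have hc := fun i => hS.cor' (E' i)
  obtain ⟨t1, t2, t3⟩ := hB.transfer hf hi hc
  have hJ : (thompsonSubgroup p G).map π = ⨆ i, E' i := by
    rw [← sSup_range]
    refine le_antisymm (J_top p G ▸ (hS.map_J_le hF le_top).trans (FF.star_le_iff.2 fun D hD _ => hB.root_le hP hF hD))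
      (sSup_le fun E hE => (hB.gen E hE).trans (FF.star_le_iff.2 fun B hB' _ => ?_))
    obtain ⟨g, hg⟩ := hF.exists_cj hB'
    haveI := (inferInstance : (thompsonSubgroup p G).Normal).map π hs
    have := Loc.cj_le_iff.1 ((hS.le_map_J hF hVT hA hAC hg).trans (map_mono ((J_sylIn_le hT).trans (J_top p G).le)))
    rwa [Loc.cj_eq_of_normal] at this
  refine ⟨r, fun i => (E' i).comap π, fun i => hS.le_comap _, ?_, ?_, fun i j hne => ?_, fun i => ?_, fun i j => ?_,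
    t1, t2, fun i => ?_⟩
  · rw [← hS.comap_map, Subgroup.map_sup, hJ, ← sSup_range, hB.sup_eq hP hF, comap_top]
  · rw [← hS.comap_map, hJ]
    refine le_antisymm (iSup_le fun i => comap_mono (le_iSup E' i)) (le_trans (fun g hg => ?_) (sup_le le_rfl
      ((hS.le_comap _).trans (le_iSup (fun i => (E' i).comap π) ⟨0, hr⟩)) : (⨆ i, (E' i).comap π) ⊔ _ ≤ _))
    rw [← hS.comap_map, Subgroup.map_iSup]
    simpa only [map_comap_eq_self_of_surjective hs] using hg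
  · rw [← hS.map_eq_bot, map_commutator, map_comap_eq_self_of_surjective hs, map_comap_eq_self_of_surjective hs]
    exact commutator_eq_bot_iff_le_centralizer.2 (hB.comm hf ⟨i, rfl⟩ ⟨j, rfl⟩ fun e => hne (hi e))
  · have := hB.indep (X := ⨆ j ∈ {j | j ≠ i}, E' j) ⟨i, rfl⟩
      (iSup₂_le fun j hj => le_sSup ⟨⟨j, rfl⟩, fun e => hj (hi e)⟩)
    refine le_trans ?_ hS.ker.le
    rw [← MonoidHom.comap_bot, ← this, comap_inf]
    exact inf_le_inf_left _ (iSup₂_le fun j hj => comap_mono (le_iSup₂ (f := fun j (_ : j ∈ {j | j ≠ i}) => E' j) j hj))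
  · obtain ⟨_, ⟨t, ht, rfl⟩, e⟩ := hB.tr _ ⟨i, rfl⟩ _ ⟨j, rfl⟩
    exact ⟨t, ht, (Loc.comap_cj π t _).symm.trans (congrArg _ e)⟩
  · obtain ⟨n, hn, h⟩ := t3 i
    obtain ⟨_, ⟨e⟩⟩ := (hc i).quot_equiv hf
    refine ⟨n, hn, h.imp ?_ ?_⟩
    · rintro ⟨F, _, _, a, ⟨b⟩, c⟩; exact ⟨F, inferInstance, inferInstance, a, ⟨inferInstance, ⟨e.trans b⟩⟩, c⟩
    · rintro ⟨a, ⟨b⟩, c⟩; exact ⟨a, ⟨inferInstance, ⟨e.trans b⟩⟩, c⟩


end Cfsg.Agent.S2981
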