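import Cfsg.Statements.S2998
import Cfsg.Agent.Loc.Isol

set_option autoImplicit false
open Cfsg

namespace Cfsg.Agent.S2998

/-- Let G be a finite group, p a prime, P a Sylow p-subgroup of G and x ∈ P an element such that N_G(R) ≤ C_G(x) for every nontrivial subgroup R of P. Then P ≤ C_G(x); every G-conjugate of x lying in P equals x (so g ∈ C_G(x) whenever g x g⁻¹ ∈ P); and for every normal subgroup N of G, the image of x in G ⧸ N has the same property with respect to the image of P: the normalizer of every nontrivial subgroup of the image of P centralizes the image of x. -/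
theorem result {G : Type*} [Group G] [Finite G] {p : ℕ} [Fact p.Prime] (P : Sylow p G) (x : G) (hxP : x ∈ (P : Subgroup G)) (hlc : ∀ R : Subgroup G, R ≤ (P : Subgroup G) → R ≠ ⊥ → Subgroup.normalizer (R : Set G) ≤ Subgroup.centralizer ({x} : Set G)) : (P : Subgroup G) ≤ Subgroup.centralizer ({x} : Set G) ∧ (∀ g : G, g * x * g⁻¹ ∈ (P : Subgroup G) → g * x * g⁻¹ = x) ∧ ∀ (N : Subgroup G) [N.Normal], ∀ R : Subgroup (G ⧸ N), R ≤ (P : Subgroup G).map (QuotientGroup.mk' N) → R ≠ ⊥ → Subgroup.normalizer (R : Set (G ⧸ N)) ≤ Subgroup.centralizer ({(QuotientGroup.mk x : G ⧸ N)} : Set (G ⧸ N)) := by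
  open Cfsg.Agent.Loc Subgroup in
  open scoped commutatorElement in
  have h1 : (P : Subgroup G) ≤ centralizer ({x} : Set G) := by
    by_cases hP : (P : Subgroup G) = ⊥
    · rw [hP]; exact bot_le
    · exact le_normalizer.trans (hlc _ le_rfl hP)
  refine ⟨h1, fun g hg => ?_, fun N _ R hR hne => ?_⟩
  · by_cases hx : x = 1
    · simp [hx]
    by_cases hM : centralizer ({x} : Set G) = ⊤
    · exact mem_cent1.1 (hM ▸ mem_top g)
    have hP : (P : Subgroup G) ≠ ⊥ := fun h => hx (by rwa [h, mem_bot] at hxP)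
    have hs := se_of_normalizer_le' (lt_top_iff_ne_top.2 hM) (sylIn_top P) hP fun U h2 h3 =>
      inf_le_right.trans (hlc U h3 h2)
    obtain ⟨k, hk⟩ := exists_pow_of_isPGroup P.isPGroup' hxP
    exact mem_cent1.1 (hs.mem_of_pelt (self_mem_cent1 x) hx hk (mem_top g) (h1 hg))
  · intro g hg
    obtain ⟨g, rfl⟩ := QuotientGroup.mk'_surjective N g
    have hle : R.comap (QuotientGroup.mk' N) ≤ N ⊔ (P : Subgroup G) := by
      refine (comap_mono hR).trans ?_
      rw [comap_map_eq, QuotientGroup.ker_mk', sup_comm]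
    have hN : N ≤ R.comap (QuotientGroup.mk' N) := by
      conv_lhs => rw [← QuotientGroup.ker_mk' N]
      exact ker_le_comap _ _
    have hs := (sylIn_of_sylow_le P (le_sup_right : (P : Subgroup G) ≤ N ⊔ P)).inf_subnIn
      (subnIn_of_pResidualOf_le ((pResidualOf_le_of_le_sup P.isPGroup' le_normalizer_of_normal le_rfl).trans hN) hle)
    have hg' : g ∈ normalizer ((R.comap (QuotientGroup.mk' N) : Subgroup G) : Set G) := by
      rw [mem_normalizer_iff_cj] at hg ⊢
      rw [← comap_cj, hg]
    obtain ⟨n, hn, k, hk, rfl⟩ := hs.frattini hg'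
    have hne' : (P : Subgroup G) ⊓ R.comap (QuotientGroup.mk' N) ≠ ⊥ := by
      intro hb
      refine hne (eq_bot_iff.2 fun r hr => ?_)
      obtain ⟨s, hs, rfl⟩ := hR hr
      have : s ∈ (P : Subgroup G) ⊓ R.comap (QuotientGroup.mk' N) := ⟨hs, hr⟩
      rw [hb, mem_bot] at this
      rw [this, map_one]; exact one_mem _
    have key : ∀ c ∈ centralizer ({x} : Set G),
        QuotientGroup.mk' N c ∈ centralizer ({(QuotientGroup.mk x : G ⧸ N)} : Set (G ⧸ N)) := fun c hc =>
      mem_cent1'.2 ((mem_cent1'.1 hc).map (QuotientGroup.mk' N))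
    rw [map_mul]
    refine mul_mem ?_ (key k (hlc _ inf_le_left hne' hk))
    obtain ⟨s, hs, e⟩ := hR hn
    rw [← e]; exact key s (h1 hs)

end Cfsg.Agent.S2998
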