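import Cfsg.Statements.S2999
import Cfsg.Agent.PLocal.FF7
-- import your own Cfsg.Agent.* helpers here

set_option autoImplicit false
open Cfsg

namespace Cfsg.Agent.S2999


open Subgroup Cfsg Cfsg.Agent.Transfer Cfsg.Agent.BG Cfsg.Agent.PLocal Pointwise
open scoped commutatorElement

/-- Let p be a prime and let P and V be subgroups of a finite group with V elementary abelian, P normalizing V and acting faithfully on it (P ∩ C(V) = 1). Suppose P is p-minimal (a Sylow p-subgroup T of P is not normal and lies in a unique maximal subgroup M of P) and A ≤ T is an elementary abelian subgroup such that: |V/C_V(A)| ≤ |A| while |A₀|·|C_V(A₀)| < |A|·|C_V(A)| for every nontrivial proper subgroup A₀ of A; [C_V(T), P] ≠ 1; and P = ⟨A, xAx⁻¹⟩ for every x ∈ P outside M. Then, with q = |A|, there is a field F with q elements such that P ≅ SL₂(F), C_V(A) = [V, A]·C_V(P), and P acts on V/C_V(P) as SL₂(F) on its natural two-dimensional module.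 -/
theorem result {G : Type*} [Group G] [Finite G] {p : ℕ} [Fact p.Prime] (V P : Subgroup G) (hV : Cfsg.IsElementaryAbelian p V) (hPV : P ≤ Subgroup.normalizer (V : Set G)) (hfaith : P ⊓ Subgroup.centralizer (V : Set G) = ⊥) (hmin : Cfsg.IsPMinimal p ↥P) (T : Sylow p ↥P) (M : Subgroup ↥P) (hM : IsCoatom M) (hTM : (T : Subgroup ↥P) ≤ M) (A : Subgroup G) (hAT : A ≤ ((T : Subgroup ↥P).map P.subtype)) (hAel : Cfsg.IsElementaryAbelian p A) (hi : Nat.card ↥V ≤ Nat.card ↥A * Nat.card ↥(V ⊓ Subgroup.centralizer ((A : Subgroup G) : Set G)) ∧ ∀ A₀ : Subgroup G, A₀ ≤ A → A₀ ≠ ⊥ → A₀ ≠ A → Nat.card ↥A₀ * Nat.card ↥(V ⊓ Subgroup.centralizer ((A₀ : Subgroup G) : Set G)) < Nat.card ↥A * Nat.card ↥(V ⊓ Subgroup.centralizer ((A : Subgroup G) : Set G))) (hii : ⁅(V ⊓ Subgroup.centralizer ((((T : Subgroup ↥P).map P.subtype) : Subgroup G) : Set G)), P⁆ ≠ ⊥) (hiii : ∀ x : ↥P, x ∉ M → A ⊔ A.map (MulAut.conj (x : G)).toMonoidHom = P) : ∃ (F :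 Type) (_ : Field F) (_ : Fintype F), Fintype.card F = Nat.card ↥A ∧ Nonempty (↥P ≃* Matrix.SpecialLinearGroup (Fin 2) F) ∧ (V ⊓ Subgroup.centralizer ((A : Subgroup G) : Set G)) = ⁅V, A⁆ ⊔ (V ⊓ Subgroup.centralizer ((P : Subgroup G) : Set G)) ∧ Cfsg.ActsAsSL2OnSection F ⊤ P V (V ⊓ Subgroup.centralizer ((P : Subgroup G) : Set G)) := by
  have hf := abRep_injective (hV := hV) (hA := hPV) hfaith
  have hAP : A ≤ P := hAT.trans (map_subtype_le _)
  obtain ⟨A', rfl⟩ : ∃ A' : Subgroup P, A'.map P.subtype = A := ⟨_, map_subgroupOf_eq_of_le hAP⟩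
  have hA'T : A' ≤ T := (map_le_map_iff_of_injective P.subtype_injective).1 hAT
  have mu : ∀ B : Subgroup P, FF.mu (abRep hV hPV) B = Nat.card (B.map P.subtype) *
      Nat.card (V ⊓ centralizer (B.map P.subtype : Set G) : Subgroup G) := fun B => by
    rw [FF.mu, (FF.cor_abRep hPV B).card_fx, Loc.card_map_subtype]
  have hL : FF.LC p A' ⊥ ⊤ M := ⟨hA'T.trans hTM, bot_le, hM.1.lt_top, Loc.le_normalizer_bot _, IsPGroup.of_bot,
    fun x _ hx => map_injective P.subtype_injective (by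
      rw [sup_bot_eq, Subgroup.map_sup, ← Loc.cj_map_subtype, hiii x hx, ← MonoidHom.range_eq_map, range_subtype])⟩
  obtain ⟨x, -, hx⟩ := SetLike.exists_of_lt hL.lt
  have hg := hL.gen x (mem_top x) hx
  rw [sup_bot_eq] at hg
  have hA : FF.MinOff (abRep hV hPV) A' := ⟨fun e => hx (by
      rw [e, Loc.cj_bot, sup_bot_eq] at hg; exact (hg.ge (mem_top x)).symm ▸ M.one_mem),
    ea_of_map P.subtype_injective hAel, by rw [mu, AbV.card]; exact hi.1, fun B h1 h2 h3 => by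
      rw [mu, mu]
      exact hi.2 _ (map_mono h1) (by rwa [Ne, map_eq_bot_iff_of_injective _ P.subtype_injective])
        fun e => h3 (map_injective P.subtype_injective e)⟩
  have cT := FF.cor_abRep' (hV := hV) hPV le_rfl
  rw [subgroupOf_self] at cT
  have hn : ¬ FF.fx (abRep hV hPV) T ≤ FF.fx (abRep hV hPV) ⊤ := fun hle => hii
    (commutator_eq_bot_iff_le_centralizer.2 fun y hy => cT.mem_fx.1 (hle ((FF.cor_abRep hPV _).mem_fx.2
      (show (AbV.mk hV y hy.1).val ∈ _ from hy.2))))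
  obtain ⟨h1, h2, h3⟩ := hL.core hf hA (Loc.sylIn_top T) hn
  have hp := FF.LC.pair h1 h3 (mem_top 1) (mem_top x) (by simpa using hx)
  rw [Loc.cj_one] at hp
  have h4 := hp.top_eq h2 (by
    have := h2.cj x
    rwa [Loc.cj_eq_of_mem_normalizer (Loc.le_normalizer_pCoreOf p ⊤ (mem_top x))] at this)
  have hO : pCore p P = ⊥ := eq_bot_iff.2 fun y hy => FF.eq_one_of_dl hf (LinearMap.ext fun v =>
    FF.mem_fx'.1 ((h4.ge.trans (sup_le le_rfl (FF.fx_anti (le_top.trans hg.ge)))) Submodule.mem_top) y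
      (Loc.pCoreOf_top p P ▸ hy))
  have hl := hL.line hf (((FF.pm_of_isPMinimal hmin T hM hTM hO).par hn).noOver hf) h1 h3 (mem_top x) hx
  rw [hg] at hl
  obtain ⟨Λ, hl, m1⟩ : ∃ Λ, FF.Line (abRep hV hPV) ⊤ Λ ∧ A' ∈ Λ :=
    ⟨_, hl, ⟨1, mem_top _, Loc.cj_one A'⟩, FF.fx_anti le_top⟩
  obtain ⟨B, hB, hne⟩ := hl.other A'
  obtain ⟨F, _, _, φ, ψ, f1, f2, -⟩ := hl.sl2 hf m1 hB hne
  refine ⟨F, inferInstance, inferInstance, by rw [f1, Loc.card_map_subtype],
    ⟨topEquiv.symm.trans (MulEquiv.ofBijective φ f2.bij)⟩, ?_, ?_⟩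
  · obtain ⟨a, ha, a1⟩ := h1.exists
    rw [← (FF.cor_abRep hPV A').toSub_fx, ← (FF.cor_abRep hPV A').cm_top, ← cT.toSub_fx, ← AbV.toSub_sup]
    refine congrArg _ (le_antisymm ((hl.fx_eq m1 ha a1).le.trans (sup_le_sup_right ?_ _))
      (sup_le (FF.cm_le.2 fun a ha u _ => h1.quad a ha u) (FF.fx_anti le_top)))
    rintro _ ⟨v, rfl⟩; exact FF.dl_mem_cm ha Submodule.mem_top
  · have := cT.actsSL2 hf f2 (W := ⊤) (fun _ _ _ _ => Submodule.mem_top) (top_sup_eq _)
    rwa [AbV.toSub_top] at this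


end Cfsg.Agent.S2999
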