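import Cfsg.Statements.S3000
import Cfsg.Agent.PLocal.FF7
-- import your own Cfsg.Agent.* helpers here

set_option autoImplicit false
open Cfsg

namespace Cfsg.Agent.S3000


open Subgroup Cfsg Cfsg.Agent.Transfer Cfsg.Agent.BG Cfsg.Agent.PLocal Pointwise
open scoped commutatorElement

/-- Let p be a prime and let P and V be subgroups of a finite group with V elementary abelian, P normalizing V and acting faithfully on it (P ∩ C(V) = 1). Suppose P is p-minimal (a Sylow p-subgroup T of P is not normal and lies in a unique maximal subgroup M of P), O_p(P) = 1, C_P(C_V(T)) ≤ M, and P has a best offender on V: a subgroup A not centralizing V, with A/C_A(V) elementary abelian, such that |B|·|C_V(B)| ≤ |A|·|C_V(A)| for every subgroup B of A. Then there are subgroups E₁, …, E_r of P (r ≥ 1), pairwise commuting and forming with T a product P = (E₁ × ⋯ × E_r)T (internal direct product of the E_i),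 any two of which are conjugate by an element of T, such that V = C_V(E₁⋯E_r)·∏[V, E_i] with [V, E_i, E_j] = 1 for i ≠ j, and for each i there is n ≥ 1 with either E_i ≅ SL₂(pⁿ) acting on [V, E_i]/C_{[V,E_i]}(E_i) as on its natural two-dimensional module, or p = 2 and E_i isomorphic to the symmetric group of degree 2ⁿ + 1 acting on [V, E_i]/C_{[V,E_i]}(E_i) as on its even-weight permutation module. -/
theorem result {G : Type*} [Group G] [Finite G] {p : ℕ} [Fact p.Prime] (V P : Subgroup G) (hV : Cfsg.IsElementaryAbelian p V) (hPV : P ≤ Subgroup.normalizer (V : Set G)) (hfaith : P ⊓ Subgroup.centralizer (V : Set G) = ⊥) (hmin : Cfsg.IsPMinimal p ↥P) (T : Sylow p ↥P) (M : Subgroup ↥P) (hM : IsCoatom M) (hTM : (T : Subgroup ↥P) ≤ M) (hOp : Cfsg.pCore p ↥P = ⊥) (hoff : ∃ A : Subgroup G, A ≤ P ∧ ¬ A ≤ Subgroup.centralizer (V : Set G) ∧ Cfsg.IsBestOffenderOn p V A) (hCT : P ⊓ Subgroup.centralizer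 ((V ⊓ Subgroup.centralizer ((((T : Subgroup ↥P).map P.subtype) : Subgroup G) : Set G)) : Set G) ≤ M.map P.subtype) : ∃ (r : ℕ) (E : Fin r → Subgroup G), 1 ≤ r ∧ (∀ i, E i ≤ P) ∧ (∀ i j, i ≠ j → ⁅E i, E j⁆ = ⊥) ∧ (∀ i, E i ⊓ (⨆ j ∈ {j | j ≠ i}, E j) = ⊥) ∧ (⨆ i, E i) ⊔ ((T : Subgroup ↥P).map P.subtype) = P ∧ (∀ i j, ∃ t ∈ ((T : Subgroup ↥P).map P.subtype), (E i).map (MulAut.conj t).toMonoidHom = E j) ∧ (V ⊓ Subgroup.centralizer (((⨆ i, E i) : Subgroup G) : Set G)) ⊔ (⨆ i, ⁅V, E i⁆) = V ∧ (∀ i j, i ≠ j → ⁅⁅V, E i⁆, E j⁆ = ⊥) ∧ ∀ i, ∃ n : ℕ, 1 ≤ n ∧ ((∃ (F : Type) (_ : Field F) (_ : Fintype F), Fintype.card F = p ^ n ∧ Nonempty (↥(E i) ≃* Matrix.SpecialLinearGroup (Fin 2) F) ∧ Cfsg.ActsAsSL2OnSection F ⊤ (E i) ⁅V, E i⁆ (⁅V, E i⁆ ⊓ Subgroup.centralizer ((E i : Subgroup G) : Set G))) ∨ (p = 2 ∧ Nonempty (↥(E i) ≃* Equiv.Perm (Fin (2 ^ n + 1))) ∧ Cfsg.ActsAsOddPermModuleOnSection (2 ^ n + 1)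 ⊤ (E i) ⁅V, E i⁆ (⁅V, E i⁆ ⊓ Subgroup.centralizer ((E i : Subgroup G) : Set G)))) := by
  obtain ⟨A, hAP, hn, hb⟩ := hoff
  have hf := abRep_injective (hV := hV) (hA := hPV) hfaith
  obtain ⟨h1, h2, h3⟩ := (FF.cor_abRep' (hV := hV) hPV hAP).offender hf hb.2.1 hb.2.2 hn (FF.best_le hb)
  have hP := FF.pm_of_isPMinimal hmin T hM hTM hOp
  have hF := hP.ffs hf (hP.not_fx_le hf h1 h2 h3) h1 h2 h3
  obtain ⟨𝓔, hB⟩ := hF.blocks
  obtain ⟨r, E', hr, hi, rfl⟩ := hB.exists_enum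
  have hc := fun i => FF.cor_abRep (hV := hV) hPV (E' i)
  obtain ⟨t1, t2, t3⟩ := hB.transfer hf hi hc
  refine ⟨r, fun i => (E' i).map P.subtype, hr, fun i => map_subtype_le _, fun i j hne => ?_, fun i => ?_, ?_,
    fun i j => ?_, t1, t2, fun i => ?_⟩
  · rw [← map_commutator, commutator_eq_bot_iff_le_centralizer.2
      (hB.comm hf ⟨i, rfl⟩ ⟨j, rfl⟩ fun e => hne (hi e)), Subgroup.map_bot]
  · have := hB.indep (X := ⨆ j ∈ {j | j ≠ i}, E' j) ⟨i, rfl⟩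
      (iSup₂_le fun j hj => le_sSup ⟨⟨j, rfl⟩, fun e => hj (hi e)⟩)
    simp only [← Subgroup.map_iSup]
    rw [← Subgroup.map_inf _ _ _ P.subtype_injective, this, Subgroup.map_bot]
  · rw [← Subgroup.map_iSup, ← Subgroup.map_sup, ← sSup_range, hB.sup_eq hP hF, ← MonoidHom.range_eq_map, range_subtype]
  · obtain ⟨t, ht, e⟩ := hB.tr _ ⟨i, rfl⟩ _ ⟨j, rfl⟩
    exact ⟨t, ⟨t, ht, rfl⟩, (Loc.cj_map_subtype t _).trans (congrArg _ e)⟩
  · obtain ⟨n, hn, h⟩ := t3 i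
    have e := (E' i).equivMapOfInjective _ P.subtype_injective
    refine ⟨n, hn, h.imp ?_ ?_⟩
    · rintro ⟨F, _, _, a, ⟨b⟩, c⟩; exact ⟨F, inferInstance, inferInstance, a, ⟨e.symm.trans b⟩, c⟩
    · rintro ⟨a, ⟨b⟩, c⟩; exact ⟨a, ⟨e.symm.trans b⟩, c⟩


end Cfsg.Agent.S3000
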