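import Cfsg.Statements.S3001
import Cfsg.Agent.PLocal.FF7
-- import your own Cfsg.Agent.* helpers here

set_option autoImplicit false
open Cfsg

namespace Cfsg.Agent.S3001


open Subgroup Cfsg Cfsg.Agent.Transfer Cfsg.Agent.BG Cfsg.Agent.PLocal Pointwise
open scoped commutatorElement

/-- Let p be a prime and let P and V be subgroups of a finite group with V elementary abelian, P normalizing V and acting faithfully on it (P ∩ C(V) = 1). Suppose P is p-minimal (a Sylow p-subgroup is not normal and lies in a unique maximal subgroup), O_p(P) = 1, and P has a best offender on V (a subgroup A not centralizing V, with A/C_A(V) elementary abelian and |B|·|C_V(B)| ≤ |A|·|C_V(A)| for every B ≤ A). Then [C_V(T), P] ≠ 1 for every Sylow p-subgroup T of P. -/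
theorem result {G : Type*} [Group G] [Finite G] {p : ℕ} [Fact p.Prime] (V P : Subgroup G) (hV : Cfsg.IsElementaryAbelian p V) (hPV : P ≤ Subgroup.normalizer (V : Set G)) (hfaith : P ⊓ Subgroup.centralizer (V : Set G) = ⊥) (hmin : Cfsg.IsPMinimal p ↥P) (hOp : Cfsg.pCore p ↥P = ⊥) (hoff : ∃ A : Subgroup G, A ≤ P ∧ ¬ A ≤ Subgroup.centralizer (V : Set G) ∧ Cfsg.IsBestOffenderOn p V A) (T : Sylow p ↥P) : ⁅(V ⊓ Subgroup.centralizer ((((T : Subgroup ↥P).map P.subtype) : Subgroup G) : Set G)), P⁆ ≠ ⊥ := by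
  obtain ⟨A, hAP, hn, hb⟩ := hoff
  obtain ⟨M, ⟨hM, hT⟩, -⟩ := (hmin T).2
  have hf := abRep_injective (hV := hV) (hA := hPV) hfaith
  obtain ⟨h1, h2, h3⟩ := (FF.cor_abRep' (hV := hV) hPV hAP).offender hf hb.2.1 hb.2.2 hn (FF.best_le hb)
  intro e
  refine (FF.pm_of_isPMinimal hmin T hM hT hOp).not_fx_le hf h1 h2 h3 fun v hv => ?_
  refine (FF.cor_abRep' hPV le_rfl).mem_fx.2 (commutator_eq_bot_iff_le_centralizer.1 e ⟨v.val_mem,
    (FF.cor_abRep hPV _).mem_fx.1 hv⟩) |> (subgroupOf_self P ▸ ·)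


end Cfsg.Agent.S3001
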