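import Cfsg.Statements.S3003
import Cfsg.Agent.Loc.WC
import Cfsg.Agent.BG.S3Gen
import Cfsg.Agent.PGrp.Basic

set_option autoImplicit false
open Cfsg

namespace Cfsg.Agent.S3003

/-- Let G be a finite group, p a prime and Q a large p-subgroup of G: C_G(Q) ≤ Q and N_G(U) ≤ N_G(Q) for every nontrivial subgroup U of C_G(Q). Let Q ≤ G₁ ≤ G, let R be a subgroup of order prime to p normalized by G₁, and let U ≤ G₁ be a p-subgroup. If U contains a nontrivial element which is G₁-conjugate to an element of Z(Q), then C_R(U) = 1. In particular, if U is elementary abelian of order at least p² and every maximal subgroup of U contains a nontrivial element G₁-conjugate into Z(Q), then R = 1. -/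
theorem result {G : Type*} [Group G] [Finite G] {p : ℕ} [Fact p.Prime] (Q : Subgroup G) (hQp : IsPGroup p ↥Q) (hlarge : Cfsg.IsLarge Q) (G₁ : Subgroup G) (hQG : Q ≤ G₁) (R : Subgroup G) (hR : (Nat.card ↥R).Coprime p) (hGR : G₁ ≤ Subgroup.normalizer (R : Set G)) (U : Subgroup G) (hUG : U ≤ G₁) (hUp : IsPGroup p ↥U) : ((∃ x ∈ U, x ≠ 1 ∧ ∃ g ∈ G₁, g * x * g⁻¹ ∈ Q ⊓ Subgroup.centralizer (Q : Set G)) → R ⊓ Subgroup.centralizer (U : Set G) = ⊥) ∧ (Cfsg.IsElementaryAbelian p U → p ^ 2 ≤ Nat.card ↥U → (∀ U₀ : Subgroup G, U₀ ≤ U → IsCoatom (U₀.subgroupOf U) → ∃ x ∈ U₀, x ≠ 1 ∧ ∃ g ∈ G₁, g * x * g⁻¹ ∈ Q ⊓ Subgroup.centralizer (Q : Set G)) → R = ⊥) := by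
  open Cfsg.Agent.Loc Subgroup in
  open scoped commutatorElement in
  have key : ∀ U : Subgroup G, (∃ x ∈ U, x ≠ 1 ∧ ∃ g ∈ G₁, g * x * g⁻¹ ∈ Q ⊓ centralizer (Q : Set G)) →
      R ⊓ centralizer (U : Set G) = ⊥ := by
    rintro U ⟨x, hx, h1, g, hg, h2⟩
    have a : cj g (R ⊓ centralizer (U : Set G)) ≤ R := cj_le_of_mem_normalizer (hGR hg) inf_le_left
    have b : cj g (R ⊓ centralizer (U : Set G)) ≤ normalizer (Q : Set G) := by
      refine le_trans ?_ (hlarge.2 (zpowers (g * x * g⁻¹)) (zpowers_le.2 h2.2)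
        (by rwa [Ne, zpowers_eq_bot, conj_eq_one_iff]))
      rw [← cj_zpowers, ← cj_normalizer]
      exact cj_mono g (inf_le_right.trans (le_normalizer_of_le_centralizer (centralizer_anti (zpowers_le.2 hx))))
    have e := inf_eq_bot_of_isPGroup_of_coprime hQp hR
    have c : ⁅cj g (R ⊓ centralizer (U : Set G)), Q⁆ = ⊥ := eq_bot_iff.2 (e ▸ le_inf
      (commutator_le_right_of_le_normalizer b) ((commutator_mono a le_rfl).trans
      (commutator_le_left_of_le_normalizer (hQG.trans hGR))))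
    rw [← cj_eq_bot_iff (g := g), eq_bot_iff, ← e]
    exact le_inf ((commutator_eq_bot_iff_le_centralizer.1 c).trans hlarge.1) a
  refine ⟨key U, fun hU h2 h => eq_bot_iff.2 (BG.coprime_abelem_gen_cent hU (hUG.trans hGR)
    (Sig.coprime_of_isPGroup_of_coprime hUp hR).symm fun B hB hi => ?_)⟩
  obtain ⟨C, hC, hi'⟩ : ∃ C ≤ B, C.relIndex U = p := by
    rcases (Nat.dvd_prime Fact.out).1 hi with e | e
    · have h0 : (⊥ : Subgroup G) < U := bot_lt_iff_ne_bot.2 fun e => by
        rw [e, card_bot] at h2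
        exact absurd h2 (not_le.2 (Nat.one_lt_pow two_ne_zero (Fact.out : p.Prime).one_lt))
      have : Nontrivial U := (nontrivial_iff_ne_bot U).2 h0.ne'
      obtain ⟨M, hM, -⟩ := (eq_top_or_exists_le_coatom (⊥ : Subgroup U)).resolve_left bot_ne_top
      exact ⟨M.map U.subtype, (map_subtype_le M).trans (relIndex_eq_one.1 e), by
        rw [relIndex, subgroupOf_map_subtype', PGrp.index_of_isCoatom hUp hM]⟩
    · exact ⟨B, le_rfl, e⟩
  refine le_trans (inf_le_inf_left _ (centralizer_anti hC)) (key C (h C (hC.trans hB) ?_)).le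
  exact PGrp.isCoatom_of_index_eq hi'

end Cfsg.Agent.S3003
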