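import Cfsg.Statements.S3006
import Cfsg.Agent.Loc.CD

set_option autoImplicit false
open scoped Pointwise
open Cfsg

namespace Cfsg.Agent.S3006

/-- Let P be a finite p-group, Q a centrally large subgroup of P (|Q|·|Z(Q)| maximal among subgroups of P) and A an abelian subgroup of P of largest order. Then QA = AQ is a centrally large subgroup of P, C_{QA}(Q ∩ A) = Z(Q)·A, and the subgroup generated by all centrally large subgroups of P contains C_P(Z(J(P))), where J(P) is generated by the abelian subgroups of largest order. -/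
theorem result {p : ℕ} [Fact p.Prime] (P : Type*) [Group P] [Finite P] (hP : IsPGroup p P) (Q A : Subgroup P) (hQ : Cfsg.IsCentrallyLarge Q) (hA : A ∈ Cfsg.maxAbelianSubgroups P) : ((Q ⊔ A : Subgroup P) : Set P) = (Q : Set P) * (A : Set P) ∧ Cfsg.IsCentrallyLarge (Q ⊔ A) ∧ (Q ⊔ A) ⊓ Subgroup.centralizer ((Q ⊓ A : Subgroup P) : Set P) = (Q ⊓ Subgroup.centralizer (Q : Set P)) ⊔ A ∧ (((Q ⊓ Subgroup.centralizer (Q : Set P)) ⊔ A : Subgroup P) : Set P) = ((Q ⊓ Subgroup.centralizer (Q : Set P)) : Set P) * (A : Set P) ∧ Subgroup.centralizer ((Cfsg.thompsonSubgroupA P ⊓ Subgroup.centralizer (Cfsg.thompsonSubgroupA P : Set P) : Subgroup P) : Set P) ≤ Cfsg.centrallyLargeJoin P := by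
  open Cfsg.Agent.Loc Subgroup in
  obtain ⟨h1, h2, h3⟩ := cl_maxAbelian hQ hA
  obtain ⟨hcd, hZQ⟩ := cl_iff.1 hQ
  have hA1 := (maxAbelian_iff.1 hA).1
  have hZ : Q ⊓ centralizer (Q : Set P) = centralizer (Q : Set P) := inf_eq_right.2 hZQ
  have key : ∀ x ∈ (Q ⊔ A) ⊓ centralizer ((Q ⊓ A : Subgroup P) : Set P),
      ∃ z ∈ centralizer (Q : Set P), ∃ a ∈ A, z * a = x := by
    rintro x ⟨hx, hc⟩
    obtain ⟨q, hq, a, ha, rfl⟩ := forall_mul_of_coe_eq h2 x hx
    have hq' : q ∈ centralizer ((Q ⊓ A : Subgroup P) : Set P) :=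
      (mul_mem_cancel_right (centralizer_anti inf_le_right (hA1 ha))).1 hc
    have : q ∈ centralizer (Q : Set P) ⊔ (Q ⊓ A) := by
      rw [← centralizer_eq_of_maxAbelian h3, centralizer_sup']
      exact ⟨le_centralizer_centralizer Q hq, hq'⟩
    obtain ⟨z, hz, b, hb, rfl⟩ := (mem_sup_of_le_normalizer_left
      (le_normalizer_centralizer (le_normalizer_of_le inf_le_left))).1 this
    exact ⟨z, hz, b * a, mul_mem hb.2 ha, by rw [mul_assoc]⟩
  have hle : centralizer (Q : Set P) ⊔ A ≤ (Q ⊔ A) ⊓ centralizer ((Q ⊓ A : Subgroup P) : Set P) :=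
    sup_le (le_inf (hZQ.trans le_sup_left) (centralizer_anti inf_le_left))
      (le_inf le_sup_right (hA1.trans (centralizer_anti inf_le_right)))
  refine ⟨h2, h1, ?_, ?_, ?_⟩
  · rw [hZ]
    refine le_antisymm (fun x hx => ?_) hle
    obtain ⟨z, hz, a, ha, rfl⟩ := key x hx
    exact mul_mem_sup hz ha
  · apply Set.Subset.antisymm
    · intro x hx
      rw [hZ] at hx
      obtain ⟨z, hz, a, ha, rfl⟩ := key x (hle hx)
      exact ⟨z, ⟨hZQ hz, hz⟩, a, ha, rfl⟩
    · rintro _ ⟨z, hz, a, ha, rfl⟩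
      exact mul_mem_sup hz ha
  · apply centralizer_center_thompson_le (cl_iff.1 (cl_centrallyLargeJoin P)).1
    exact le_sup_right.trans (le_sSup (s := {R : Subgroup P | IsCentrallyLarge R}) (cl_sup_thompson hQ))

end Cfsg.Agent.S3006
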