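import Cfsg.Statements.S3008
import Cfsg.Agent.Loc.CD

set_option autoImplicit false
open Cfsg

namespace Cfsg.Agent.S3008

/-- Let P be a finite p-group, with J(P) generated by its abelian subgroups of largest order and J̃(P) = C_P(Z(J(P))); call R ≤ P centrally large if |R|·|Z(R)| is as large as possible, and let P_MCL be generated by the minimal centrally large subgroups. Then: for every centrally large Q, Q·J(P) ⊇ J̃(P); some minimal centrally large subgroup of P is normalized by both J(P) and P_MCL; if P = J(P) and d(P)² = |P|·|Z(P)|, where d(P) is the largest order of an abelian subgroup, then every minimal centrally large subgroup of P is abelian; and if every minimal centrally large subgroup is abelian then J̃(P) = J(P). -/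
theorem result {p : ℕ} [Fact p.Prime] (P : Type*) [Group P] [Finite P] (hP : IsPGroup p P) : (∀ Q : Subgroup P, Cfsg.IsCentrallyLarge Q → Subgroup.centralizer ((Cfsg.thompsonSubgroupA P ⊓ Subgroup.centralizer (Cfsg.thompsonSubgroupA P : Set P) : Subgroup P) : Set P) ≤ Q ⊔ Cfsg.thompsonSubgroupA P) ∧ (∃ Q : Subgroup P, Cfsg.IsMinimalCentrallyLarge Q ∧ Cfsg.thompsonSubgroupA P ≤ Subgroup.normalizer (Q : Set P) ∧ Cfsg.minimalCentrallyLargeJoin P ≤ Subgroup.normalizer (Q : Set P)) ∧ (Cfsg.thompsonSubgroupA P = ⊤ → (∀ A ∈ Cfsg.maxAbelianSubgroups P, Nat.card ↥A ^ 2 = Nat.card P * Nat.card ↥(Subgroup.center P)) → ∀ Q : Subgroup P, Cfsg.IsMinimalCentrallyLarge Q → IsMulCommutative ↥Q) ∧ ((∀ Q : Subgroup P, Cfsg.IsMinimalCentrallyLarge Q → IsMulCommutative ↥Q) → Subgroup.centralizer ((Cfsg.thompsonSubgroupA P ⊓ Subgroup.centralizer (Cfsg.thompsonSubgroupA P : Set P) : Subgroup P) : Set P) = Cfsg.thompsonSubgroupA P) := by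
  open Cfsg.Agent.Loc Subgroup in
  refine ⟨fun Q hQ => centralizer_center_thompson_le (cl_iff.1 (cl_sup_thompson hQ)).1 le_sup_right, ?_, ?_, ?_⟩
  · have := hP.isNilpotent
    obtain ⟨Q, hQ, h⟩ := exists_mcl_normalized (G := P)
    obtain ⟨hcd, hZQ⟩ := cl_iff.1 hQ.1
    refine ⟨Q, hQ, sSup_le fun A hA => h A (maxAbelian_iff.1 hA).1 ?_, sSup_le fun R hR => ?_⟩
    · obtain ⟨h1, h2, h3⟩ := cl_maxAbelian hQ.1 hA
      have hA1 := (maxAbelian_iff.1 hA).1
      intro x hx
      have hx' : x ∈ (A ⊔ Q) ⊓ centralizer ((Q ⊓ A : Subgroup P) : Set P) :=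
        (sup_le (le_inf le_sup_left (hA1.trans (centralizer_anti inf_le_right)))
          (le_inf (hZQ.trans le_sup_right) (centralizer_anti inf_le_left)) : A ⊔ _ ≤ _) hx
      obtain ⟨a, ha, q, hq, rfl⟩ := forall_mul_symm (forall_mul_of_coe_eq h2) x hx'.1
      have hq' : q ∈ centralizer ((Q ⊓ A : Subgroup P) : Set P) :=
        (mul_mem_cancel_left (centralizer_anti inf_le_right (hA1 ha))).1 hx'.2
      have : q ∈ (Q ⊓ A) ⊔ centralizer (Q : Set P) := by
        rw [sup_comm, ← centralizer_eq_of_maxAbelian h3, centralizer_sup']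
        exact ⟨le_centralizer_centralizer Q hq, hq'⟩
      obtain ⟨b, hb, z, hz, rfl⟩ := (mem_sup_of_le_normalizer_right
        (le_normalizer_centralizer (le_normalizer_of_le inf_le_left))).1 this
      exact ⟨a * b, mul_mem ha hb.2, z, hz, by rw [mul_assoc]⟩
    · have hR' : IsMinimalCentrallyLarge R := hR
      obtain ⟨h1, h2⟩ := cl_iff.1 hR'.1
      rw [← mcl_eq hR' hQ.1]
      exact sup_le (le_normalizer_of_le inf_le_right)
        (h _ (centralizer_anti h2) (cd_mul (cd_centralizer h1) (cd_centralizer hcd)))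
  · intro hJ hd Q hQ
    have h1 := cl_sup_thompson hQ.1
    rw [hJ, sup_top_eq] at h1
    obtain ⟨A, hA⟩ := exists_maxAbelian P
    have h2 := cd_eq (cl_iff.1 h1).1
    rw [card_top, coe_top, centralizer_univ, ← hd A hA] at h2
    have hAcl : IsCentrallyLarge A := cl_iff.2 ⟨cd_of_le (by
      rw [centralizer_eq_of_maxAbelian hA, ← h2, sq]), (centralizer_eq_of_maxAbelian hA).le⟩
    obtain ⟨R, hR, hle⟩ := exists_mcl_le hAcl
    rw [← commutator_self_eq_bot_iff, mcl_commutator_eq hQ hR, commutator_eq_bot_iff_le_centralizer]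
    exact le_centralizer_self_of_le (maxAbelian_iff.1 hA).1 hle
  · intro h
    obtain ⟨Q, hQ⟩ := exists_mcl P
    have hQA := (mcl_iff_maxAbelian hQ (le_centralizer_iff_isMulCommutative.2 (h Q hQ)) Q).1 hQ
    have h1 := cl_sup_thompson hQ.1
    rw [sup_eq_right.2 (le_thompsonSubgroupA hQA)] at h1
    exact le_antisymm (centralizer_center_thompson_le (cl_iff.1 h1).1 le_rfl) (le_centralizer_center _)

end Cfsg.Agent.S3008
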