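import Cfsg.Statements.S3009
import Cfsg.Agent.PLocal.QMod
-- import your own Cfsg.Agent.* helpers here

set_option autoImplicit false
open Cfsg

namespace Cfsg.Agent.S3009


open Subgroup Cfsg Cfsg.Agent.Transfer Cfsg.Agent.BG Cfsg.Agent.PLocal Pointwise
open scoped commutatorElement

/-- Let p be a prime and let G and V be subgroups of a finite group with V elementary abelian and normalized by G, and G isomorphic to SL₂(F) for a finite field F with pⁿ elements. Suppose G acts irreducibly and nontrivially on V by conjugation (no G-invariant subgroups of V other than 1 and V, and [V, G] ≠ 1), and let S be a Sylow p-subgroup of G and V₀ = C_V(S). If [V, S, S] = 1 or |V| ≤ |V₀|², then G acts on V as SL₂(F) on its natural two-dimensional module; in particular |V| = |F|². -/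
theorem result {X : Type*} [Group X] [Finite X] {p : ℕ} [Fact p.Prime] (G V : Subgroup X) (hV : Cfsg.IsElementaryAbelian p V) (hGV : G ≤ Subgroup.normalizer (V : Set X)) (F : Type) [Field F] [Fintype F] (n : ℕ) (hF : Fintype.card F = p ^ n) (hG : Nonempty (↥G ≃* Matrix.SpecialLinearGroup (Fin 2) F)) (hirr : ∀ U : Subgroup X, U ≤ V → G ≤ Subgroup.normalizer (U : Set X) → U = ⊥ ∨ U = V) (hnt : ⁅V, G⁆ ≠ ⊥) (S : Sylow p ↥G) (hyp : ⁅⁅V, (S : Subgroup ↥G).map G.subtype⁆, (S : Subgroup ↥G).map G.subtype⁆ = ⊥ ∨ Nat.card ↥V ≤ Nat.card ↥(V ⊓ Subgroup.centralizer (((S : Subgroup ↥G).map G.subtype : Subgroup X) : Set X)) ^ 2) : Cfsg.ActsAsSL2OnSection F ⊤ G V ⊥ := by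
  have := PU.charP_of_card hF
  obtain ⟨e, he⟩ := FF.exists_equiv_UU hG.some (Loc.sylIn_top S)
  let ρ : Representation (ZMod p) (Matrix.SpecialLinearGroup (Fin 2) F) (AbV hV) := (abRep hV hGV).comp e.symm.toMonoidHom
  have cor : ∀ B : Subgroup G, FF.Cor ρ (B.map G.subtype) (B.map e.toMonoidHom) := fun B =>
    ⟨by rintro _ ⟨g, hg, rfl⟩; exact ⟨e g, ⟨g, hg, rfl⟩, fun v => by simp [ρ, val_abRep]⟩,
      by rintro _ ⟨g, hg, rfl⟩; exact ⟨g, ⟨g, hg, rfl⟩, fun v => by simp [ρ, val_abRep]⟩⟩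
  have c1 := cor ⊤
  have c2 := cor S
  rw [map_top_of_surjective e.toMonoidHom e.surjective, ← MonoidHom.range_eq_map, G.range_subtype] at c1
  rw [he] at c2
  obtain ⟨φ, ψ, h1, h2⟩ := FF.nat_of_irr (ρ := ρ) (fun W hW => (hirr _ (AbV.toSub_le W) (c1.inv_iff.1 hW)).imp
    AbV.toSub_eq_bot.1 AbV.toSub_eq_self.1) (fun e => hnt (comm_eq_bot_iff'.2 (AbV.ofSub_eq_top.1 (c1.fx_eq ▸ e))))
    (hyp.imp (c2.kil_iff c2).2 fun h => by rwa [c2.card_fx])
  refine ⟨hGV, bot_le, φ.comp e.toMonoidHom, MonoidHom.mk' (fun u => .ofAdd (ψ (AbV.mk hV u u.2))) fun a b =>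
    congrArg Multiplicative.ofAdd (ψ.map_add (AbV.mk hV a a.2) (AbV.mk hV b b.2)),
    MonoidHom.range_eq_top.2 (h1.comp e.surjective), fun v => ⟨⟨_, (ψ.symm v.toAdd).val_mem⟩,
    congrArg Multiplicative.ofAdd (ψ.apply_symm_apply _)⟩, fun u => ?_, fun g u => ⟨⟨_,
      Loc.conj_mem_of_mem_normalizer (hGV g.2) u.2⟩, rfl, ?_⟩⟩
  · exact ψ.map_eq_zero_iff.trans ⟨fun h => congrArg AbV.val h, fun h => AbV.val_injective h⟩
  · refine Eq.trans (congrArg ψ (AbV.val_injective ?_)) (h2 (e g) (AbV.mk hV u u.2))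
    simp [ρ, val_abRep]


end Cfsg.Agent.S3009
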