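import Cfsg.Statements.S3011
import Cfsg.Agent.Invol.More
import Mathlib.Tactic.Group

set_option autoImplicit false
open Cfsg

namespace Cfsg.Agent.S3011
open scoped commutatorElement

open Subgroup Cfsg.Agent.Invol

theorem four {G : Type*} [Group G] [Finite G] {V : Subgroup G} (h4 : Nat.card V ≤ 4) {a b w : G} (ha : a ∈ V)
    (hb : b ∈ V) (hw : w ∈ V) (ha1 : a ≠ 1) (hb1 : b ≠ 1) (hab : a ≠ b) (hb2 : b * b = 1) (hw1 : w ≠ 1) :
    w = a ∨ w = b ∨ w = a * b := by
  classical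
  by_contra h
  push Not at h
  have h1 : a * b ≠ 1 := fun e => hab (by
    calc a = a * b * b := by rw [mul_assoc, hb2, mul_one]
      _ = b := by rw [e, one_mul])
  have h2 : a * b ≠ a := by simpa using hb1
  have h3 : a * b ≠ b := by simpa using ha1
  have hs : (({1, a, b, a * b, w} : Finset G) : Set G) ⊆ V := by
    intro x hx
    simp only [Finset.coe_insert, Finset.coe_singleton, Set.mem_insert_iff, Set.mem_singleton_iff] at hx
    rcases hx with rfl | rfl | rfl | rfl | rfl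
    exacts [one_mem _, ha, hb, mul_mem ha hb, hw]
  have := Set.ncard_le_ncard hs
  rw [Set.ncard_coe_finset, Finset.card_insert_of_notMem (by simp [ha1.symm, hb1.symm, h1.symm, hw1.symm]),
    Finset.card_insert_of_notMem (by simp [hab, h2.symm, h.1.symm]),
    Finset.card_insert_of_notMem (by simp [h3.symm, h.2.1.symm]),
    Finset.card_insert_of_notMem (by simp [h.2.2.symm]), Finset.card_singleton] at this
  have e : (V : Set G).ncard = Nat.card V := rfl
  omega

/-- Let G be a finite group and V a nontrivial elementary abelian 2-subgroup of G of order at most 4 such that, whenever an element of V inverts an element h of G of odd order, some nontrivial element of V commutes with h. Then V meets O₂(G) nontrivially. (The case of order at most 4 has a short argument from the Baer–Suzuki theorem.) -/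
theorem result {G : Type*} [Group G] [Finite G] (V : Subgroup G) (hV : Cfsg.IsElementaryAbelian 2 V) (hV1 : V ≠ ⊥) (hS : Cfsg.IsSidkiPair V) (h4 : Nat.card V ≤ 4) : V ⊓ Cfsg.pCore 2 G ≠ ⊥ := by
  intro h0
  haveI : Fact (Nat.Prime 2) := ⟨Nat.prime_two⟩
  have sq : ∀ v ∈ V, v * v = 1 := fun v hv => by rw [← pow_two]; exact hV.2 v hv
  have key : ∀ v ∈ V, v ≠ 1 → ∃ r : G, r ≠ 1 ∧ Odd (orderOf r) ∧ v * r * v⁻¹ = r⁻¹ ∧
      ∃ w ∈ V, w ≠ 1 ∧ w ≠ v ∧ Commute w r := by
    intro v hv h1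
    obtain ⟨r, hr1, hr, hi⟩ := exists_odd_inverted (orderOf_two_iff.2 ⟨sq v hv, h1⟩)
      (fun h => h1 (mem_bot.1 (h0.le ⟨hv, h⟩)))
    obtain ⟨w, hw, hw1, hc⟩ := hS r v hv hr hi
    refine ⟨r, hr1, hr, hi, w, hw, hw1, ?_, hc⟩
    rintro rfl
    exact hr1 (eq_one_of_odd_of_inverts_of_commute hr hi (Commute.symm hc))
  obtain ⟨v, hv, hv1⟩ := (V.bot_or_exists_ne_one).resolve_left hV1
  obtain ⟨h, h1, ho, hi, a, ha, ha1, hav, hah⟩ := key v hv hv1
  obtain ⟨k, k1, ko, hak, b, hb, hb1, hba, hbk⟩ := key a ha ha1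
  have F : ∀ w ∈ V, w ≠ 1 → w = a ∨ w = b ∨ w = a * b := fun w hw hw1 =>
    four h4 ha hb hw ha1 hb1 hba.symm (sq b hb) hw1
  have hbh : b * h * b⁻¹ = h⁻¹ := by
    rcases F v hv hv1 with rfl | rfl | rfl
    · exact (hav rfl).elim
    · exact hi
    · have := inverts_commute_mul hi hah
      rwa [← mul_assoc, sq a ha, one_mul] at this
  have hch : a * b * h * (a * b)⁻¹ = h⁻¹ := inverts_commute_mul hbh hah
  have hck : a * b * k * (a * b)⁻¹ = k⁻¹ := inverts_mul_of_commute hak hbk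
  have step : ∀ i : ℕ, Commute (b * (h ^ i)⁻¹ * (h ^ i)⁻¹) k ∨ Commute (a * b * (h ^ i)⁻¹ * (h ^ i)⁻¹) k := by
    intro i
    have e1 : a * ((h ^ i)⁻¹ * k * h ^ i) * a⁻¹ = ((h ^ i)⁻¹ * k * h ^ i)⁻¹ := by
      have := (hah.pow_right i).eq
      calc a * ((h ^ i)⁻¹ * k * h ^ i) * a⁻¹ = (a * h ^ i * a⁻¹)⁻¹ * (a * k * a⁻¹) * (a * h ^ i * a⁻¹) := by group
        _ = _ := by rw [this, hak]; group
    have ko' : Odd (orderOf ((h ^ i)⁻¹ * k * h ^ i)) := by rwa [orderOf_conj'']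
    obtain ⟨w, hw, hw1, hc⟩ := hS _ a ha ko' e1
    have e2 : ∀ w : G, w * h * w⁻¹ = h⁻¹ → w * ((h ^ i)⁻¹ * k * h ^ i) = (h ^ i)⁻¹ * k * h ^ i * w →
        Commute (w * (h ^ i)⁻¹ * (h ^ i)⁻¹) k := by
      intro w e hc
      have e3 := conj_pow_of_inverts e i
      have e4 : w * (h ^ i)⁻¹ * (h ^ i)⁻¹ = h ^ i * w * (h ^ i)⁻¹ := by
        calc w * (h ^ i)⁻¹ * (h ^ i)⁻¹ = (w * h ^ i * w⁻¹)⁻¹ * w * (h ^ i)⁻¹ := by group
          _ = _ := by rw [e3, inv_inv]
      rw [e4]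
      calc h ^ i * w * (h ^ i)⁻¹ * k = h ^ i * (w * ((h ^ i)⁻¹ * k * h ^ i)) * (h ^ i)⁻¹ := by group
        _ = k * (h ^ i * w * (h ^ i)⁻¹) := by rw [hc]; group
    rcases F w hw hw1 with rfl | rfl | rfl
    · have := eq_one_of_odd_of_inverts_of_commute ko' e1 (Commute.symm hc)
      refine (k1 ?_).elim
      calc k = h ^ i * ((h ^ i)⁻¹ * k * h ^ i) * (h ^ i)⁻¹ := by group
        _ = 1 := by rw [this]; group
    · exact Or.inl (e2 _ hbh hc)
    · exact Or.inr (e2 _ hch hc)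
  have h4k : Commute (h ^ 4) k := by
    rcases step 1 with e | e
    · have := (e.inv_left.mul_left hbk).pow_left 2
      rwa [show ((b * (h ^ 1)⁻¹ * (h ^ 1)⁻¹)⁻¹ * b) ^ 2 = h ^ 4 by group] at this
    · rcases step 2 with e' | e'
      · have := e'.inv_left.mul_left hbk
        rwa [show (b * (h ^ 2)⁻¹ * (h ^ 2)⁻¹)⁻¹ * b = h ^ 4 by group] at this
      · have := (e'.inv_left.mul_left e).pow_left 2
        rwa [show ((a * b * (h ^ 2)⁻¹ * (h ^ 2)⁻¹)⁻¹ * (a * b * (h ^ 1)⁻¹ * (h ^ 1)⁻¹)) ^ 2 = h ^ 4 by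
          group] at this
  have hhk : Commute h k := by
    have hc : (orderOf h).Coprime 4 := (Nat.coprime_pow_right_iff (n := 2) two_pos _ 2).2 ho.coprime_two_right
    obtain ⟨m, hm⟩ := exists_pow_eq_self_of_coprime hc.symm
    rw [← hm]
    exact h4k.pow_left m
  have ho' : Odd (orderOf (h * k)) := (ho.mul ko).of_dvd_nat hhk.orderOf_mul_dvd_mul_orderOf
  have hi' : a * b * (h * k) * (a * b)⁻¹ = (h * k)⁻¹ := by
    calc a * b * (h * k) * (a * b)⁻¹ = (a * b * h * (a * b)⁻¹) * (a * b * k * (a * b)⁻¹) := by group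
      _ = (k * h)⁻¹ := by rw [hch, hck]; group
      _ = _ := by rw [hhk.eq]
  obtain ⟨w, hw, hw1, hc⟩ := hS _ _ (mul_mem ha hb) ho' hi'
  have hak' : ¬ Commute a (h * k) := fun e => k1 (eq_one_of_odd_of_inverts_of_commute ko hak (by
    have := hah.inv_right.mul_right e
    rw [inv_mul_cancel_left] at this
    exact this.symm))
  rcases F w hw hw1 with rfl | rfl | rfl
  · exact hak' hc
  · refine h1 (eq_one_of_odd_of_inverts_of_commute ho hbh ?_)
    have := (show Commute w (h * k) from hc).mul_right hbk.inv_right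
    rw [mul_inv_cancel_right] at this
    exact this.symm
  · refine hak' ?_
    rw [eq_one_of_odd_of_inverts_of_commute ho' hi' (Commute.symm hc)]
    exact Commute.one_right a

end Cfsg.Agent.S3011
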