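import Cfsg.Statements.S3012
import Cfsg.Agent.Loc.Res
import Cfsg.Agent.Loc.Isol

set_option autoImplicit false
open Cfsg

namespace Cfsg.Agent.S3012

/-- Let G be a finite group, V a nontrivial elementary abelian 2-subgroup of G satisfying the Sidki pair condition (every odd-order element inverted by an element of V commutes with a nontrivial element of V), and K a normal subgroup of G with V ∩ K = 1. Then the image of V in G/K satisfies the Sidki pair condition in G/K. -/
theorem result {G : Type*} [Group G] [Finite G] (V K : Subgroup G) [K.Normal] (hV : Cfsg.IsElementaryAbelian 2 V) (hV1 : V ≠ ⊥) (hS : Cfsg.IsSidkiPair V) (hVK : V ⊓ K = ⊥) : Cfsg.IsSidkiPair (V.map (QuotientGroup.mk' K)) := by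
  open Cfsg.Agent.Loc Subgroup in
  open scoped commutatorElement in
  haveI : Fact (Nat.Prime 2) := ⟨Nat.prime_two⟩
  rintro h v ⟨v, hv, rfl⟩ hodd hinv
  obtain ⟨g, rfl⟩ := QuotientGroup.mk'_surjective K h
  set f := QuotientGroup.mk' K with hf
  have v2 : v * v = 1 := by rw [← pow_two]; exact (isElementaryAbelian_iff.1 hV).2 v hv
  have vi : v⁻¹ = v := inv_eq_of_mul_eq_one_right v2
  set g' := g * (v * g⁻¹ * v⁻¹) with hg'
  have i1 : v * g' * v⁻¹ = g'⁻¹ := by
    rw [hg', vi]
    calc v * (g * (v * g⁻¹ * v)) * v = v * g * v * g⁻¹ * (v * v) := by group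
      _ = (g * (v * g⁻¹ * v))⁻¹ := by rw [v2, mul_inv_rev, mul_inv_rev, mul_inv_rev, vi]; group
  have i2 : f g' = f g ^ 2 := by
    have : f v * (f g)⁻¹ * (f v)⁻¹ = f g := by
      have := congrArg (·⁻¹) hinv
      simp only [mul_inv_rev, inv_inv] at this
      rw [mul_assoc]; exact this
    rw [hg', map_mul, map_mul, map_mul, map_inv, map_inv, this, pow_two]
  obtain ⟨k, hk⟩ := Transfer.exists_coprime_orderOf_pow (p := 2) g' (orderOf_pos g').ne'
  obtain ⟨w, hw, w1, hc⟩ := hS (g' ^ 2 ^ k) v hv (Nat.coprime_two_right.1 hk)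
    (by rw [← conj_pow, i1, inv_pow])
  refine ⟨f w, mem_map_of_mem _ hw, fun e => w1 ?_, ?_⟩
  · have : w ∈ V ⊓ K := ⟨hw, (QuotientGroup.eq_one_iff w).1 e⟩
    rwa [hVK, mem_bot] at this
  · have h1 : f g ^ (2 * 2 ^ k) ∈ centralizer ({f w} : Set (G ⧸ K)) := by
      rw [pow_mul, ← i2, ← map_pow, mem_cent1', Commute, SemiconjBy, ← map_mul, ← map_mul, hc]
    have h2 := mem_of_pow_mem_of_coprime h1 (by
      rw [← pow_succ']; exact (Nat.coprime_two_right.2 hodd).pow_right _)
    exact (mem_cent1'.1 h2).symm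

end Cfsg.Agent.S3012
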