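import Cfsg.Statements.S3013
import Cfsg.Agent.Loc.Res
import Cfsg.Agent.Loc.Isol

set_option autoImplicit false
open Cfsg

namespace Cfsg.Agent.S3013

/-- Let G be a finite group and V a nontrivial elementary abelian 2-subgroup of G satisfying the Sidki pair condition. Let v ∈ V and let x be an element of odd order inverted by v, and put C = C_G(v) ∩ C_G(x), the centralizer of the dihedral subgroup generated by v and x. Then C ∩ V is nontrivial and satisfies the Sidki pair condition inside C: every odd-order element of C inverted by an element of C ∩ V commutes with a nontrivial element of C ∩ V. -/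
theorem result {G : Type*} [Group G] [Finite G] (V : Subgroup G) (hV : Cfsg.IsElementaryAbelian 2 V) (hV1 : V ≠ ⊥) (hS : Cfsg.IsSidkiPair V) (v x : G) (hv : v ∈ V) (hx : Odd (orderOf x)) (hinv : v * x * v⁻¹ = x⁻¹) (C : Subgroup G) (hC : C = Subgroup.centralizer ({v} : Set G) ⊓ Subgroup.centralizer ({x} : Set G)) : C ⊓ V ≠ ⊥ ∧ Cfsg.IsSidkiPair ((C ⊓ V).subgroupOf C) := by
  open Cfsg.Agent.Loc Subgroup in
  open scoped commutatorElement in
  have hVc := (isElementaryAbelian_iff.1 hV).1
  have comm : ∀ a ∈ V, ∀ b ∈ V, a * b = b * a := fun a ha b hb => (mem_centralizer_iff.1 (hVc hb) a ha)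
  have memC : ∀ w ∈ V, w * x = x * w → w ∈ C ⊓ V := fun w hw h => by
    rw [hC]; exact ⟨⟨mem_cent1'.2 (comm w hw v hv), mem_cent1'.2 h⟩, hw⟩
  constructor
  · obtain ⟨w, hw, w1, hc⟩ := hS x v hv hx hinv
    intro e
    have := memC w hw hc
    rw [e, mem_bot] at this
    exact w1 this
  · rintro ⟨h, hh⟩ ⟨u, hu'⟩ hu hodd hi
    have hu : u ∈ C ⊓ V := hu
    have hodd : Odd (orderOf h) := by rwa [← Subgroup.orderOf_coe] at hodd
    have hi : u * h * u⁻¹ = h⁻¹ := congrArg Subtype.val hi
    rw [hC] at hh hu'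
    have hv' : Commute h v := mem_cent1'.1 hh.1
    have hx' : Commute h x := mem_cent1'.1 hh.2
    have ux : Commute u x := mem_cent1'.1 hu'.2
    have odd2 : Odd (orderOf (x * h)) := by
      refine Odd.of_dvd_nat (hx.mul hodd) ?_
      exact hx'.symm.orderOf_mul_dvd_mul_orderOf
    have i1 : (u * v) * (x * h) * (u * v)⁻¹ = (x * h)⁻¹ := by
      calc (u * v) * (x * h) * (u * v)⁻¹ = u * ((v * x * v⁻¹) * (v * h * v⁻¹)) * u⁻¹ := by group
        _ = u * (x⁻¹ * h) * u⁻¹ := by rw [hinv, ← hv'.eq, mul_inv_cancel_right]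
        _ = (u * x⁻¹ * u⁻¹) * (u * h * u⁻¹) := by group
        _ = x⁻¹ * h⁻¹ := by rw [hi, ux.inv_right.eq, mul_inv_cancel_right]
        _ = (x * h)⁻¹ := by rw [← mul_inv_rev, hx'.eq]
    obtain ⟨w, hw, w1, hc⟩ := hS (x * h) (u * v) (V.mul_mem hu.2 hv) odd2 i1
    have c1 : x * h ∈ centralizer ({w} : Set G) := mem_cent1'.2 hc.symm
    have cv : v ∈ centralizer ({w} : Set G) := mem_cent1'.2 (comm v hv w hw)
    have c2 : x⁻¹ * h ∈ centralizer ({w} : Set G) := by
      have := mul_mem (mul_mem cv c1) (inv_mem cv)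
      rwa [show v * (x * h) * v⁻¹ = (v * x * v⁻¹) * (v * h * v⁻¹) by group, hinv, ← hv'.eq,
        mul_inv_cancel_right] at this
    have c3 : h ^ 2 ∈ centralizer ({w} : Set G) := by
      have := mul_mem c2 c1
      rwa [show x⁻¹ * h * (x * h) = x⁻¹ * (h * x) * h by group, hx'.eq,
        show x⁻¹ * (x * h) * h = h ^ 2 by rw [pow_two]; group] at this
    have c4 := mem_of_pow_mem_of_coprime c3 (Nat.coprime_two_right.2 hodd)
    have c5 : x ∈ centralizer ({w} : Set G) := by simpa using mul_mem c1 (inv_mem c4)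
    have hw' := memC w hw (mem_cent1'.1 c5).symm
    refine ⟨⟨w, hw'.1⟩, hw', fun e => w1 (congrArg Subtype.val e), Subtype.ext (mem_cent1'.1 c4).symm⟩

end Cfsg.Agent.S3013
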