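import Cfsg.Statements.S3014
import Cfsg.Agent.Loc.Conj
import Cfsg.Agent.Char.Frobenius

set_option autoImplicit false
open Cfsg

namespace Cfsg.Agent.S3014

/-- Let G be a finite group and H ≤ M ≤ G subgroups such that for every g ∈ G the subgroup generated by H and g H g⁻¹ meets M exactly in H. If H is a maximal subgroup of M and M is a maximal subgroup of G, then the normal closure of H in G meets M exactly in H. -/
theorem result {G : Type*} [Group G] [Finite G] (H M : Subgroup G) (hHM : H ≤ M) (hcl : ∀ g : G, (H ⊔ H.map (MulAut.conj g).toMonoidHom) ⊓ M = H) (hmaxH : IsCoatom (H.subgroupOf M)) (hmaxM : IsCoatom M) : Subgroup.normalClosure (H : Set G) ⊓ M = H := by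
  open Cfsg.Agent.Loc Subgroup in
  open scoped commutatorElement in
  have hcl' : ∀ g : G, (H ⊔ cj g H) ⊓ M = H := hcl
  have hn : M ≤ normalizer (H : Set G) := le_normalizer_of_cj_le fun m hm =>
    (le_inf le_sup_right (cj_le_of_mem hm hHM)).trans (hcl' m).le
  have fin : ∀ K : Subgroup G, K.Normal → H ≤ K → K ⊓ M ≤ H → normalClosure (H : Set G) ⊓ M = H :=
    fun K _ h1 h2 => le_antisymm ((inf_le_inf_right M (normalClosure_le_normal h1)).trans h2)
      (le_inf le_normalClosure hHM)
  by_cases hN : H.Normal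
  · exact fin H hN le_rfl inf_le_left
  have hNM : normalizer (H : Set G) = M := by
    by_contra e
    exact hN (normal_of_top_le_normalizer (hmaxM.2 _ (lt_of_le_of_ne hn (Ne.symm e))).ge)
  by_cases hTI : ∀ g : G, g ∉ M → ∀ x ∈ M, g * x * g⁻¹ ∈ M → x ∈ H
  · obtain ⟨N, h1, -, h2, -⟩ := Char.exists_normal_of_wielandt hHM
      (fun h hh x hx => conj_mem_of_mem_normalizer (hn hh) hx) hTI
    exact fin N h1 (h2.ge.trans inf_le_left) h2.le
  push Not at hTI
  obtain ⟨g, hg, x, hx, hgx, hxH⟩ := hTI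
  have hx2 : x ∈ normalizer ((cj g⁻¹ H : Subgroup G) : Set G) := by
    rw [← cj_normalizer, hNM]; exact mem_cj_inv.2 hgx
  have hK : M ≤ normalizer ((H ⊔ cj g⁻¹ H : Subgroup G) : Set G) := by
    have h1 : H.subgroupOf M < (normalizer ((H ⊔ cj g⁻¹ H : Subgroup G) : Set G)).subgroupOf M := by
      refine lt_of_le_of_ne (fun y hy => le_normalizer (mem_sup_left hy)) fun e => hxH ?_
      have : (⟨x, hx⟩ : M) ∈ (normalizer ((H ⊔ cj g⁻¹ H : Subgroup G) : Set G)).subgroupOf M :=
        le_normalizer_sup (zpowers_le.2 (hn hx)) (zpowers_le.2 hx2) (mem_zpowers x)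
      rw [← e] at this
      exact this
    exact subgroupOf_eq_top.1 (hmaxH.2 _ h1)
  refine fin _ (normal_of_top_le_normalizer (hmaxM.2 _ (lt_of_le_of_ne hK fun e => hg ?_)).ge) le_sup_left
    (hcl' g⁻¹).le
  have h3 : cj g⁻¹ H ≤ H := (le_inf le_sup_right (le_sup_right.trans (le_normalizer.trans e.ge))).trans (hcl' g⁻¹).le
  have := mem_normalizer_of_cj_le h3
  rw [hNM] at this
  exact (inv_mem_iff (x := g)).1 this

end Cfsg.Agent.S3014
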