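import Cfsg.Statements.S3015
import Cfsg.Agent.Loc.Cpl
import Cfsg.Agent.S3014
import Cfsg.Agent.Char.Frobenius

set_option autoImplicit false
open Cfsg

namespace Cfsg.Agent.S3015

/-- Let G be a finite non-abelian simple group, M a maximal subgroup of G and H a normal subgroup of M of prime index in M. Then G is generated by H together with one of its conjugates. -/
theorem result {G : Type*} [Group G] [Finite G] [IsSimpleGroup G] (hG : ¬ IsMulCommutative G) (M H : Subgroup G) (hmaxM : IsCoatom M) (hHM : H ≤ M) (hHn : (H.subgroupOf M).Normal) (hidx : (H.relIndex M).Prime) : ∃ g : G, H ⊔ H.map (MulAut.conj g).toMonoidHom = ⊤ := by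
  open Cfsg.Agent.Loc Subgroup in
  open scoped commutatorElement in
  by_contra hcon
  push Not at hcon
  have hcon' : ∀ g : G, H ⊔ cj g H ≠ ⊤ := hcon
  set p := H.relIndex M with hp
  haveI : Fact p.Prime := ⟨hidx⟩
  have hn : M ≤ normalizer (H : Set G) := (normal_subgroupOf_iff_le_normalizer hHM).1 hHn
  have hne : H ≠ M := fun e => by
    rw [e, relIndex_self] at hp; exact hidx.ne_one hp
  have hM0 : M ≠ ⊥ := fun e => hne (le_antisymm hHM (e ▸ bot_le))
  have nrm : ∀ X : Subgroup G, X ≠ ⊥ → X ≤ M → M ≤ normalizer (X : Set G) → normalizer (X : Set G) = M :=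
    fun X h0 h1 h2 => by
      by_contra e
      have := normal_of_top_le_normalizer (hmaxM.2 _ (lt_of_le_of_ne h2 (Ne.symm e))).ge
      rcases IsSimpleGroup.eq_bot_or_eq_top_of_normal X this with h | h
      · exact h0 h
      · exact hmaxM.1 (top_le_iff.1 (h ▸ h1))
  have hNM := nrm M hM0 le_rfl le_normalizer
  have hco : IsCoatom (H.subgroupOf M) := by
    refine ⟨fun e => hne (le_antisymm hHM (subgroupOf_eq_top.1 e)), fun K hK => ?_⟩
    have h1 := relIndex_mul_index hK.le
    change _ = p at h1
    rcases (Nat.dvd_prime hidx).1 (Dvd.intro_left _ h1) with h | h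
    · exact index_eq_one.1 h
    · rw [h] at h1
      have := (Nat.mul_eq_right hidx.ne_zero).1 h1
      exact absurd (relIndex_eq_one.1 this) (not_le_of_gt hK)
  have hcard : Nat.card H * p = Nat.card M := by
    rw [hp, ← card_subgroupOf hHM]; exact card_mul_index _
  by_cases hH : H = ⊥
  · obtain ⟨N, h1, -, h2, h3⟩ := Char.exists_normal_of_wielandt (H := M) (L := ⊥) bot_le
      (fun h _ x hx => by rw [mem_bot.1 hx]; simp) (fun g hg x hx hgx => by
        by_contra x1
        have e : zpowers x = M := by
          have := hco.2 ((zpowers x).subgroupOf M) (by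
            rw [hH, bot_subgroupOf]
            refine bot_lt_iff_ne_bot.2 fun e => x1 ?_
            have : (⟨x, hx⟩ : M) ∈ (zpowers x).subgroupOf M := mem_zpowers x
            rw [e, mem_bot] at this
            exact congrArg Subtype.val this)
          exact le_antisymm (zpowers_le.2 hx) (subgroupOf_eq_top.1 this)
        refine hg (hNM ▸ mem_normalizer_of_cj_le ?_)
        conv_lhs => rw [← e]
        rw [cj_zpowers]; exact zpowers_le.2 hgx)
    rcases IsSimpleGroup.eq_bot_or_eq_top_of_normal N h1 with h | h
    · rw [h, bot_sup_eq] at h3; exact hmaxM.1 h3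
    · rw [h, top_inf_eq] at h2; exact hM0 h2
  have hNH := nrm H hH hHM hn
  have hres : pResidualOf p M ≤ H := pResidualOf_le_of_forall_pow fun x hx => ⟨1, by
    rw [pow_one]
    exact pow_index_mem (H := H.subgroupOf M) ⟨x, hx⟩⟩
  have hres' := pResidualOf_eq_of_le hres hHM
  have hcl : ∀ g : G, (H ⊔ cj g H) ⊓ M = H := fun g => by
    by_contra e
    have h1 : H.subgroupOf M < (H ⊔ cj g H).subgroupOf M := by
      refine lt_of_le_of_ne (fun y hy => mem_sup_left hy) fun e' => e ?_
      rw [← subgroupOf_map_subtype, ← e', subgroupOf_map_subtype, inf_eq_left.2 hHM]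
    have h2 : M ≤ H ⊔ cj g H := subgroupOf_eq_top.1 (hco.2 _ h1)
    have h3 : H ⊔ cj g H = M := by
      by_contra e'
      exact hcon' g (hmaxM.2 _ (lt_of_le_of_ne h2 (Ne.symm e')))
    have h4 : cj g H ≤ M := le_sup_right.trans h3.le
    have hg : g ∈ M := by
      by_cases h0 : pResidualOf p M = ⊥
      · have hP := isPGroup_of_pResidualOf_eq_bot h0
        have h5 : cj g H < M := lt_of_le_of_ne h4 fun e' => hne (eq_of_le_of_card_ge hHM (by
          rw [← e', card_cj]))
        have h6 : M ⊓ normalizer ((cj g H : Subgroup G) : Set G) = M := by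
          refine eq_of_card_lt_mul hP inf_le_left ?_
          have a1 := Solv.card_lt_of_lt (lt_inf_normalizer hP h5)
          rw [card_cj] at a1
          rw [← hcard, mul_comm]
          exact Nat.mul_lt_mul_of_pos_left a1 hidx.pos
        have h7 : M ≤ cj g M := by
          have := inf_eq_left.1 h6
          rwa [← cj_normalizer, hNH] at this
        have h8 : cj g⁻¹ M ≤ M := le_cj_iff.1 h7
        have := mem_normalizer_of_cj_le h8
        rw [hNM] at this
        exact (inv_mem_iff (x := g)).1 this
      · rw [← nrm _ h0 (pResidualOf_le p M) (le_normalizer_pResidualOf p M)]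
        refine mem_normalizer_of_cj_le ?_
        conv_lhs => rw [← hres']
        rw [cj_pResidualOf]
        exact pResidualOf_mono h4
    rw [cj_eq_of_mem_normalizer (hn hg), sup_idem] at h3
    exact hne h3
  have key := S3014.result H M hHM hcl hco hmaxM
  rcases IsSimpleGroup.eq_bot_or_eq_top_of_normal (normalClosure (H : Set G)) inferInstance with h | h
  · exact hH (le_bot_iff.1 (h ▸ le_normalClosure))
  · rw [h, top_inf_eq] at key; exact hne key.symm

end Cfsg.Agent.S3015
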