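import Cfsg.Statements.S3020
import Cfsg.Agent.Loc.Cpl

set_option autoImplicit false
open Cfsg

namespace Cfsg.Agent.S3020

/-- Let G be a finite group, p a prime and H an abelian p-subgroup of G that is extremely closed (for every g, the subgroup generated by H and g H g⁻¹ meets N_G(H) exactly in H). Then for every g ∈ G, the subgroup T generated by H and g H g⁻¹ is the product of H with O_{p'}(T), and H meets O_{p'}(T) trivially; that is, O_{p'}(T) is a normal p-complement of H in T. -/
theorem result {G : Type*} [Group G] [Finite G] {p : ℕ} [Fact p.Prime] (H : Subgroup G) (hHp : IsPGroup p H) (hHab : IsMulCommutative H) (hcl : Cfsg.IsExtremelyClosed H) (g : G) (T : Subgroup G) (hT : T = H ⊔ H.map (MulAut.conj g).toMonoidHom) : H ⊔ (Cfsg.pPrimeCore p ↥T).map T.subtype = T ∧ H ⊓ (Cfsg.pPrimeCore p ↥T).map T.subtype = ⊥ := by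
  open Cfsg.Agent.Loc Subgroup in
  open scoped commutatorElement in
  have h1 : T ⊓ normalizer (H : Set G) = H := hT ▸ hcl g
  have hle : H ≤ T := hT ▸ le_sup_left
  have hS : SylIn p H T := sylIn_of_sylIn_normalizer (by rw [h1]; exact sylIn_self hHp)
  have hc : HasNormalPComplement p T := by
    refine Transfer.hasNormalPComplement_of_normalizer_le_centralizer hS.toSylow ?_
    change normalizer ((H.subgroupOf T : Subgroup T) : Set T) ≤ centralizer ((H.subgroupOf T : Subgroup T) : Set T)
    rw [← subgroupOf_centralizer hle, ← subgroupOf_normalizer_eq hle]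
    intro x hx
    have : (x : G) ∈ T ⊓ normalizer (H : Set G) := ⟨x.2, hx⟩
    rw [h1] at this
    exact le_centralizer H this
  exact ⟨(sup_comm _ _).trans (ppIn_sup_of_complement hc hS),
    inf_eq_bot_of_isPGroup_of_coprime hHp (Sig.coprime_ppIn (K := T))⟩

end Cfsg.Agent.S3020
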