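import Cfsg.Statements.S3021
import Cfsg.Agent.Loc.PGrp

set_option autoImplicit false
open Cfsg

namespace Cfsg.Agent.S3021

/-- Let G be a finite group, p a prime and H a p-subgroup of G that is extremely closed (for every g, the subgroup generated by H and g H g⁻¹ meets N_G(H) exactly in H). Then every p-subgroup Q of G containing H has N_G(Q) ≤ N_G(H); in particular every Sylow p-subgroup P of G containing H normalizes H, and H is strongly closed in P with respect to G. -/
theorem result {G : Type*} [Group G] [Finite G] {p : ℕ} [Fact p.Prime] (H : Subgroup G) (hHp : IsPGroup p H) (hcl : Cfsg.IsExtremelyClosed H) : (∀ Q : Subgroup G, IsPGroup p Q → H ≤ Q → Subgroup.normalizer (Q : Set G) ≤ Subgroup.normalizer (H : Set G)) ∧ ∀ P : Sylow p G, H ≤ (P : Subgroup G) → (P : Subgroup G) ≤ Subgroup.normalizer (H : Set G) ∧ Cfsg.IsStronglyClosed H (P : Subgroup G) := by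
  open Cfsg.Agent.Loc Subgroup in
  open scoped commutatorElement in
  have key : ∀ Q : Subgroup G, IsPGroup p Q → H ≤ Q → ∀ g, cj g H ≤ Q → cj g H = H := fun Q hQ hle g hg => by
    have h1 : H = H ⊔ cj g H := eq_of_inf_normalizer_le (hQ.to_le (sup_le hle hg)) le_sup_left (hcl g).le
    exact cj_eq_of_cj_le (le_sup_right.trans h1.ge)
  have k1 : ∀ Q : Subgroup G, IsPGroup p Q → H ≤ Q → normalizer (Q : Set G) ≤ normalizer (H : Set G) :=
    fun Q hQ hle g hg => mem_normalizer_iff_cj.2 (key Q hQ hle g (cj_le_of_mem_normalizer hg hle))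
  refine ⟨k1, fun P hP => ⟨le_normalizer.trans (k1 _ P.isPGroup' hP), hP, fun x hx g hg => ?_⟩⟩
  have hn : (P : Subgroup G) ≤ normalizer (H : Set G) := le_normalizer.trans (k1 _ P.isPGroup' hP)
  have : g * x * g⁻¹ ∈ (H ⊔ cj g H) ⊓ normalizer (H : Set G) :=
    ⟨mem_sup_right (conj_mem_cj hx), hn hg⟩
  exact (hcl g).le this

end Cfsg.Agent.S3021
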