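import Cfsg.Statements.S3022
import Cfsg.Agent.PLocal.BB3
-- import your own Cfsg.Agent.* helpers here

set_option autoImplicit false
open Cfsg

namespace Cfsg.Agent.S3022


open Subgroup Cfsg Cfsg.Agent.Transfer Cfsg.Agent.BG Cfsg.Agent.PLocal Pointwise
open scoped commutatorElement

open Cfsg.Agent.Loc Cfsg.Agent.PLocal.PU

structure I1 {G : Type*} [Group G] (S P V : Subgroup G) : Prop where
  pg : IsPGroup 2 S
  PS : P ≤ S
  VP : V ≤ P
  cV : P ≤ C[V]
  ea : ∀ v ∈ V, v ^ 2 = 1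
  om : ∀ z ∈ S, z ∈ C[S] → z ^ 2 = 1 → z ∈ V
  ti : ∀ a ∈ S, a ∉ P → ∀ v ∈ V, ⁅a, v⁆ = 1 → v ∈ C[S]
  idx : (V ⊓ C[S]).relIndex V = P.relIndex S
  ne : ¬ S ≤ P

section
variable {G G' : Type*} [Group G] [Group G'] {f : G →* G'} {S P V P' V' P'' V'' : Subgroup G}

theorem I1.map (hf : Function.Injective f) (h : I1 S P V) : I1 (S.map f) (P.map f) (V.map f) where
  pg := h.pg.map f
  PS := map_mono h.PS
  VP := map_mono h.VP
  cV := (cent_map_iff hf).2 h.cV
  ea := by rintro _ ⟨v, hv, rfl⟩; rw [← map_pow, h.ea v hv, map_one]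
  om := by
    rintro _ ⟨z, hz, rfl⟩ h1 h2
    exact ⟨z, h.om z hz ((mem_cent_map hf).1 h1) (hf (by rw [map_pow, h2, map_one])), rfl⟩
  ti := by
    rintro _ ⟨a, ha, rfl⟩ h1 _ ⟨v, hv, rfl⟩ h2
    exact (mem_cent_map hf).2 (h.ti a ha (fun e => h1 ⟨a, e, rfl⟩) v hv (hf (by rw [map_commutatorElement, h2, map_one])))
  idx := by
    rw [← map_inf_centralizer_of_injOn (inf_ker_of_injective hf ⊤) le_top le_top, relIndex_map_map_of_injective _ _ hf,
      relIndex_map_map_of_injective _ _ hf, h.idx]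
  ne := by rw [map_le_map_iff_of_injective hf]; exact h.ne

theorem I1.of_map (hf : Function.Injective f) (h : I1 (S.map f) (P.map f) (V.map f)) : I1 S P V where
  pg := h.pg.of_equiv (S.equivMapOfInjective f hf).symm
  PS := (map_le_map_iff_of_injective hf).1 h.PS
  VP := (map_le_map_iff_of_injective hf).1 h.VP
  cV := (cent_map_iff hf).1 h.cV
  ea := fun v hv => hf (by rw [map_pow, h.ea _ ⟨v, hv, rfl⟩, map_one])
  om := fun z hz h1 h2 => (mem_map_inj hf).1 (h.om _ ⟨z, hz, rfl⟩ ((mem_cent_map hf).2 h1) (by rw [← map_pow, h2, map_one]))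
  ti := fun a ha h1 v hv h2 => (mem_cent_map hf).1 (h.ti _ ⟨a, ha, rfl⟩ (fun e => h1 ((mem_map_inj hf).1 e)) _ ⟨v, hv, rfl⟩
    (by rw [← map_commutatorElement, h2, map_one]))
  idx := by
    have := h.idx
    rwa [← map_inf_centralizer_of_injOn (inf_ker_of_injective hf ⊤) le_top le_top, relIndex_map_map_of_injective _ _ hf,
      relIndex_map_map_of_injective _ _ hf] at this
  ne := fun e => h.ne (map_mono e)

variable [Finite G]

theorem I1.le_P (h : I1 S P V) {U : Subgroup G} (h1 : U ≤ S) (h2 : U ≤ C[V]) : U ≤ P := fun a ha => by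
  by_contra h3
  refine h.ne (relIndex_eq_one.1 ?_)
  rw [← h.idx, inf_eq_left.2 fun v hv => h.ti a (h1 ha) h3 v hv (commutatorElement_eq_one_iff_mul_comm.2 (h2 ha v hv).symm),
    relIndex_self]

theorem I1.crit (h : I1 S P V) (h' : I1 S P' V') (hn : ¬ V ≤ C[V']) : ∀ x ∈ S, ∃ u ∈ V', ∃ y ∈ P, u * y = x := by
  obtain ⟨a, ha, h1⟩ := SetLike.not_le_iff_exists.1 fun e : V ≤ P' => hn (e.trans h'.cV)
  have e1 : V' ⊓ P ≤ V' ⊓ C[S] := fun v hv => ⟨hv.1, h'.ti a (h.PS (h.VP ha)) h1 v hv.1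
    (commutatorElement_eq_one_iff_mul_comm.2 (h.cV hv.2 a ha))⟩
  obtain ⟨b, hb, h2⟩ := SetLike.not_le_iff_exists.1 fun e : V' ≤ P => hn (le_centralizer_iff.1 (e.trans h.cV))
  have e2 : V ⊓ P' ≤ V ⊓ C[S] := fun v hv => ⟨hv.1, h.ti b (h'.PS (h'.VP hb)) h2 v hv.1
    (commutatorElement_eq_one_iff_mul_comm.2 (h'.cV hv.2 b hb))⟩
  have e3 : P'.relIndex S ≤ P.relIndex V' := by
    rw [← h'.idx, ← inf_relIndex_left V' P]; exact relIndex_le_of_le_left e1 (relIndex_ne _ _)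
  have e4 : P.relIndex S ≤ P'.relIndex V := by
    rw [← h.idx, ← inf_relIndex_left V P']; exact relIndex_le_of_le_left e2 (relIndex_ne _ _)
  have e5 : P'.relIndex V ≤ P'.relIndex S := relIndex_le_of_le_right (h.VP.trans h.PS) (relIndex_ne _ _)
  exact fun x hx => exists_mul_of_relIndex_le (h'.VP.trans h'.PS) (by omega) hx

theorem I1.dec (h : I1 S P V) (h' : I1 S P' V') (hn : ¬ V ≤ C[V']) : ∀ x ∈ P, ∃ u ∈ V, ∃ y ∈ P ⊓ P', u * y = x := fun x hx => by
  obtain ⟨u, hu, y, hy, rfl⟩ := h'.crit h (fun e => hn (le_centralizer_iff.1 e)) x (h.PS hx)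
  exact ⟨u, hu, y, ⟨(mul_mem_cancel_left (h.VP hu)).1 hx, hy⟩, rfl⟩

theorem I1.phi_le (h : I1 S P V) (h' : I1 S P' V') (hn : ¬ V ≤ C[V']) : Phi P ≤ Phi P' := by
  have hp := h'.pg.to_le h'.PS
  refine (Phi_min (h.pg.to_le h.PS)).2 ⟨commutator_le.2 fun a ha b hb => ?_, fun a ha => ?_⟩
  · obtain ⟨u, hu, y, hy, rfl⟩ := h.dec h' hn a ha
    obtain ⟨v, hv, z, hz, rfl⟩ := h.dec h' hn b hb
    rw [comm_mul_left (h.cV hy.1 u hu) (h.cV hb u hu), h.cV hz.1 v hv, comm_mul_right (h.cV hy.1 v hv)]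
    exact ((Phi_min hp).1 le_rfl).1 (commutator_mem_commutator hy.2 hz.2)
  · obtain ⟨u, hu, y, hy, rfl⟩ := h.dec h' hn a ha
    rw [Commute.mul_pow (h.cV hy.1 u hu), h.ea u hu, one_mul]
    exact pow_mem_Phi hp hy.2

theorem I1.comm_le (h : I1 S P V) (h' : I1 S P' V') (hn : ¬ V ≤ C[V']) : ⁅V, S⁆ ≤ ⁅V', S⁆ := commutator_le.2 fun v hv x hx => by
  obtain ⟨u, hu, y, hy, rfl⟩ := h.crit h' hn x hx
  rw [comm_mul_right (h.cV hy v hv).symm]
  exact comm_inv_mem (commutator_mem_commutator hu (h.PS (h.VP hv)))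

theorem I1.uniq (h : I1 S P V) (h' : I1 S P' V') (h'' : I1 S P'' V'') (hn : ¬ V ≤ C[V']) (hn' : ¬ V ≤ C[V''])
    (h0 : ⁅V, S⁆ ⊓ Phi P = ⊥) : V'' ≤ V' := by
  have hp := h.pg.to_le h.PS
  have key : ∀ w ∈ V'', w ∈ V' ∨ w ∈ P := fun w hw => by
    obtain ⟨u, hu, y, hy, rfl⟩ := h.crit h' hn w (h''.PS (h''.VP hw))
    obtain ⟨v, hv, d, hd, rfl⟩ := h.dec h' hn y hy
    have c : ∀ x ∈ P ⊓ P', u * v * x = x * (u * v) := fun x hx => by
      rw [mul_assoc, h.cV hx.1 v hv, ← mul_assoc, h'.cV hx.2 u hu, mul_assoc x]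
    have hd' : d ∈ C[S] := fun s hs => by
      obtain ⟨u', hu', y', hy', rfl⟩ := h.crit h' hn s hs
      obtain ⟨v', hv', x, hx, rfl⟩ := h.dec h' hn y' hy'
      have : ⁅d, x⁆ = 1 := h0.le ⟨by
        have := h''.comm_le h (fun e => hn' (le_centralizer_iff.1 e)) (commutator_mem_commutator hw (h.PS hx.1))
        rwa [← mul_assoc, comm_mul_left (c d hd) (c x hx)] at this,
        ((Phi_min hp).1 le_rfl).1 (commutator_mem_commutator hd.1 hx.1)⟩
      rw [mul_assoc, mul_assoc, ← commutatorElement_eq_one_iff_mul_comm.1 this, ← mul_assoc v', h.cV hd.1 v' hv',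
        ← mul_assoc, ← mul_assoc, h'.cV hd.2 u' hu']
      simp only [mul_assoc]
    have e := h''.ea _ hw
    have e1 : ⁅v, u⁆ = d ^ 2 := by
      rw [← mul_assoc, Commute.mul_pow (c d hd), mul_eq_one_iff_inv_eq] at e
      rw [← e, commutatorElement_def, pow_two, inv_eq_of_mul_eq_one_right ((pow_two v).symm.trans (h.ea v hv)),
        _root_.mul_inv_rev, _root_.mul_inv_rev, inv_eq_of_mul_eq_one_right ((pow_two v).symm.trans (h.ea v hv)),
        inv_eq_of_mul_eq_one_right ((pow_two u).symm.trans (h'.ea u hu))]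
      simp only [mul_assoc]
    have e2 : ⁅v, u⁆ = 1 := h0.le ⟨commutator_mem_commutator hv (h'.PS (h'.VP hu)), e1 ▸ pow_mem_Phi hp hd.1⟩
    by_cases h1 : u ∈ P
    · exact .inr (mul_mem h1 hy)
    · exact .inl (mul_mem hu (mul_mem (h'.om v (h.PS (h.VP hv)) (h.ti u (h'.PS (h'.VP hu)) h1 v hv (by
        rw [← commutatorElement_inv, e2, inv_one])) (h.ea v hv)) (h'.om d (h.PS hd.1) hd' (e1 ▸ e2))))
  obtain ⟨a, ha, h1⟩ := SetLike.not_le_iff_exists.1 fun e : V'' ≤ P => hn' (le_centralizer_iff.1 (e.trans h.cV))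
  exact fun w hw => (key w hw).elim id fun h2 => (mul_mem_cancel_right ((key a ha).resolve_right h1)).1
    ((key _ (mul_mem hw ha)).resolve_right fun h3 => h1 ((mul_mem_cancel_left h2).1 h3))

theorem map_mul' (α β : MulAut G) (U : Subgroup G) : U.map (α * β).toMonoidHom = (U.map β.toMonoidHom).map α.toMonoidHom :=
  (Subgroup.map_map U α.toMonoidHom β.toMonoidHom).symm

theorem core (H : Subgroup (MulAut G)) (h : I1 S P V) (hS : ∀ α ∈ H, S.map α.toMonoidHom = S)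
    (h1 : ∀ K ≤ Phi P, (∀ α ∈ H, K.map α.toMonoidHom ≤ K) → K = ⊥) {a : MulAut G} (ha : a ∈ H)
    (h2 : ¬ V ≤ C[V.map a.toMonoidHom]) {m : ℕ} (hm : Odd m) : ¬ V ≤ C[V.map (a ^ m).toMonoidHom] := by
  have k : ∀ α ∈ H, I1 S (P.map α.toMonoidHom) (V.map α.toMonoidHom) := fun α hα => by
    have := h.map (f := α.toMonoidHom) α.injective
    rwa [hS α hα] at this
  have h0 : ⁅V, S⁆ ⊓ Phi P = ⊥ := by
    refine eq_bot_iff.2 ((le_iSup₂_of_le (f := fun α (_ : α ∈ H) => (⁅V, S⁆ ⊓ Phi P).map α.toMonoidHom) 1 H.one_mem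
      (map_id _).ge).trans (h1 _ (iSup₂_le fun α hα => ?_) fun β hβ => ?_).le)
    · rw [map_inf_eq _ _ _ α.injective, map_commutator, hS α hα, map_Phi _ (h.pg.to_le h.PS)]
      by_cases c1 : V.map α.toMonoidHom ≤ C[V]
      swap
      · exact inf_le_right.trans ((k α hα).phi_le h c1)
      by_cases c2 : V.map α.toMonoidHom ≤ C[V.map a.toMonoidHom]
      swap
      · exact inf_le_right.trans (((k α hα).phi_le (k a ha) c2).trans ((k a ha).phi_le h fun e => h2 (le_centralizer_iff.1 e)))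
      refine inf_le_left.trans (commutator_le.2 fun v hv x hx => ?_)
      obtain ⟨y, hy, u, hu, rfl⟩ := swap_mul (h.crit (k a ha) h2) x hx
      rw [comm_mul_right (c2 hv u hu)]
      exact ((Phi_min (h.pg.to_le h.PS)).1 le_rfl).1
        (commutator_mem_commutator (h.le_P ((k α hα).VP.trans (k α hα).PS) c1 hv) hy)
    · rw [Subgroup.map_iSup]
      refine iSup_le fun α => ?_
      rw [Subgroup.map_iSup]
      exact iSup_le fun hα => le_iSup₂_of_le (β * α) (H.mul_mem hβ hα) (map_mul' β α _).ge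
  have h3 : ¬ V ≤ C[V.map a⁻¹.toMonoidHom] := fun e => h2 (le_centralizer_iff.1 (by
    have := (cent_map_iff (f := a.toMonoidHom) a.injective).2 e
    rwa [← map_mul', mul_inv_cancel, show V.map (1 : MulAut G).toMonoidHom = V from map_id V] at this))
  have e := le_antisymm (h.uniq (k _ (H.inv_mem ha)) (k a ha) h3 h2 h0) (h.uniq (k a ha) (k _ (H.inv_mem ha)) h2 h3 h0)
  obtain ⟨n, rfl⟩ := hm
  induction n with
  | zero => simpa using h2
  | succ n ih => rwa [show 2 * (n + 1) + 1 = (2 * n + 2) + 1 by ring, pow_succ, map_mul', e, ← map_mul', pow_succ,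
      mul_inv_cancel_right]

end


/-- Let G be a finite group all of whose non-abelian simple sections are known simple groups, such that a Sylow 2-subgroup of G lies in exactly one maximal subgroup of G and C_G(O₂(G)) ≤ O₂(G). Let S be a Sylow 2-subgroup of G and A a group of automorphisms of S of odd order. Then some nontrivial A-invariant subgroup of S is normal in G. -/
theorem result {G : Type*} [Group G] [Finite G] (hK : Cfsg.IsKGroup G) (hirr : ∀ S : Sylow 2 G, ∃! M : Subgroup G, IsCoatom M ∧ (S : Subgroup G) ≤ M) (hchar : Subgroup.centralizer (Cfsg.pCore 2 G : Set G) ≤ Cfsg.pCore 2 G) (S : Sylow 2 G) (A : Subgroup (MulAut ↥(S : Subgroup G))) (hA : Odd (Nat.card A)) : ∃ U : Subgroup G, U ≠ ⊥ ∧ U.Normal ∧ U ≤ (S : Subgroup G) ∧ ∀ a ∈ A, ∀ x : ↥(S : Subgroup G), (x : G) ∈ U → ((a x : ↥(S : Subgroup G)) : G) ∈ U := by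
  by_contra! hn
  have key : ∀ K : Subgroup S, (K.map (S : Subgroup G).subtype).Normal → (∀ a ∈ A, K.map a.toMonoidHom ≤ K) → K = ⊥ :=
    fun K h1 h2 => by
      by_contra h0
      obtain ⟨a, ha, x, h3, h4⟩ := hn _ (fun e => h0 ((map_eq_bot_iff_of_injective _ (subtype_injective _)).1 e)) h1
        (map_subtype_le K)
      exact h4 ⟨_, h2 a ha ⟨x, (mem_map_inj (subtype_injective _)).1 h3, rfl⟩, rfl⟩
  have key' : ∀ K ≤ (S : Subgroup G), (K.subgroupOf S).Characteristic → K.Normal → K = ⊥ := fun K a b c => by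
    rw [← map_subgroupOf_eq_of_le a, key _ (by rwa [map_subgroupOf_eq_of_le a]) fun α _ => characteristic_iff_map_le.1 b α,
      Subgroup.map_bot]
  obtain ⟨M, hM, hu⟩ := hirr S
  have h := pmg_of_char (sylIn_top S) (uMax_top_iff.2 ⟨hM, hu⟩) hchar key'
  obtain ⟨L, b⟩ := h.exists_bl
  obtain ⟨E, e1, e2, e3⟩ := b.pu.b1 (h.ncr b fun K a c => key' K (a.trans (BB_le 2 _))
    (char_trans a (BB_le 2 _) c (BB_char 2 _))) (by decide)
  have hf := (S : Subgroup G).subtype_injective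
  have r := b.r
  have m1 := map_subgroupOf_eq_of_le (BB_le 2 (S : Subgroup G))
  have m2 := map_subgroupOf_eq_of_le (r.PS.trans (BB_le 2 _))
  have m3 := map_subgroupOf_eq_of_le (r.VS.trans (BB_le 2 _))
  have i : I1 ((BB 2 (S : Subgroup G)).subgroupOf S) ((pCoreOf 2 L).subgroupOf S) ((VV 2 L).subgroupOf S) := I1.of_map hf (by
    rw [m1, m2, m3]
    exact ⟨b.pu.syl.pg, r.PS, r.VP, r.cV, r.ea, fun z a b c => r.mem_V a b c, r.ti, r.idx, r.ne⟩)
  have k2 : ∀ K : Subgroup S, (∀ α ∈ (MulAut.conj : S →* _).range ⊔ A, K.map α.toMonoidHom ≤ K) →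
      E ≤ N[K.map (S : Subgroup G).subtype] → K = ⊥ := fun K h1 h2 => by
    have : (S : Subgroup G) ≤ N[K.map (S : Subgroup G).subtype] := Loc.normal_map_subtype
      ⟨fun x hx t => h1 _ (mem_sup_left ⟨t, rfl⟩) ⟨x, hx, rfl⟩⟩
    exact key K (h.normal_of b this (e1.ge.trans (sup_le h2 ((r.PS.trans (BB_le 2 _)).trans this))))
      fun a ha => h1 a (mem_sup_right ha)
  have hS : ∀ α ∈ (MulAut.conj : S →* _).range ⊔ A, ((BB 2 (S : Subgroup G)).subgroupOf S).map α.toMonoidHom =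
      (BB 2 (S : Subgroup G)).subgroupOf S := fun α _ => characteristic_iff_map_eq.1 (BB_char 2 _) α
  obtain ⟨a, ha, h2⟩ : ∃ a ∈ (MulAut.conj : S →* _).range ⊔ A,
      ¬ (VV 2 L).subgroupOf S ≤ C[((VV 2 L).subgroupOf S).map a.toMonoidHom] := by
    by_contra! h1
    have l1 : (VV 2 L).subgroupOf S ≤ ⨆ α ∈ (MulAut.conj : S →* _).range ⊔ A, ((VV 2 L).subgroupOf S).map α.toMonoidHom :=
      le_iSup₂_of_le 1 (one_mem _) (map_id _).ge
    refine r.not_le (m3.ge.trans ((map_mono (l1.trans (k2 _ (fun β hβ => ?_) (le_normalizer_of_commutator_le' ?_)).le)).trans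
      ((Subgroup.map_bot _).le.trans bot_le)))
    · rw [Subgroup.map_iSup]
      refine iSup_le fun α => ?_
      rw [Subgroup.map_iSup]
      exact iSup_le fun hα => le_iSup₂_of_le (β * α) (mul_mem hβ hα) (map_mul' β α _).ge
    · refine (commutator_mono ((map_mono (iSup₂_le fun α hα => i.le_P ?_ (le_centralizer_iff.1 (h1 α hα)))).trans m2.le)
        le_rfl).trans (e2.trans (m3.ge.trans (map_mono l1)))
      exact (map_mono (i.VP.trans i.PS)).trans (hS α hα).le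
  refine core _ i hS (fun K h1 h3 => k2 K h3 (le_normalizer_of_le_centralizer (le_centralizer_iff.1
    ((map_mono h1).trans (le_trans ?_ e3))))) ha h2 hA ?_
  · rw [map_Phi _ (i.pg.to_le i.PS), m2]
  obtain ⟨t, ht⟩ : a ^ Nat.card A ∈ (MulAut.conj : S →* _).range := by
    obtain ⟨c, hc, α, hα, rfl⟩ := mem_sup_of_normal_left.1 ha
    rw [← QuotientGroup.eq_one_iff, QuotientGroup.mk_pow, QuotientGroup.mk_mul, (QuotientGroup.eq_one_iff c).2 hc, one_mul,
      ← QuotientGroup.mk_pow, show α ^ Nat.card A = 1 from congrArg Subtype.val (pow_card_eq_one' (x := (⟨α, hα⟩ : A)))]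
    rfl
  haveI := h.sup_normal b
  rw [← ht, ← cent_map_iff hf]
  refine (m3.le.trans le_sup_right).trans ((h.sup_comm' b).trans (centralizer_anti ?_))
  rintro _ ⟨_, ⟨v, hv, rfl⟩, rfl⟩
  exact (h.sup_normal b).conj_mem _ (mem_sup_right hv) _


end Cfsg.Agent.S3022
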