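import Cfsg.Statements.S3025
import Cfsg.Agent.Loc.PGrp
import Cfsg.Agent.PGrp.Cyclic
import Cfsg.Agent.BMod.Cyc1

set_option autoImplicit false
open Cfsg

namespace Cfsg.Agent.S3025

/-- Let F be a finite group and H a nontrivial subgroup of F that is contained in every nontrivial subgroup of F which H normalizes. Then F has a nontrivial normal subgroup N contained in every nontrivial normal subgroup of F (a unique minimal normal subgroup), N is simple, and one of the following holds: C_F(N) = 1; or H = N has prime order p, C_F(N) is cyclic of order a power of p, and F/C_F(N) is cyclic of order dividing p − 1; or H = N has order 2, N is central in F, and F is a generalized quaternion group. -/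
theorem result {F : Type*} [Group F] [Finite F] (H : Subgroup F) (hH : H ≠ ⊥)
    (hmin : ∀ R : Subgroup F, R ≠ ⊥ → H ≤ Subgroup.normalizer (R : Set F) → H ≤ R) :
    ∃ N : Subgroup F, N.Normal ∧ N ≠ ⊥ ∧ (∀ M : Subgroup F, M.Normal → M ≠ ⊥ → N ≤ M) ∧ IsSimpleGroup ↥N ∧
      (Subgroup.centralizer (N : Set F) = ⊥ ∨
       (H = N ∧ (Nat.card N).Prime ∧ IsCyclic ↥(Subgroup.centralizer (N : Set F)) ∧
          (∃ k : ℕ, 1 ≤ k ∧ Nat.card ↥(Subgroup.centralizer (N : Set F)) = Nat.card N ^ k) ∧
          (∃ g : F, Subgroup.centralizer (N : Set F) ⊔ Subgroup.zpowers g = ⊤) ∧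
          (Subgroup.centralizer (N : Set F)).index ∣ Nat.card N - 1) ∨
       (H = N ∧ Nat.card N = 2 ∧ Subgroup.centralizer (N : Set F) = ⊤ ∧
          ∃ k : ℕ, 1 ≤ k ∧ Nonempty (F ≃* QuaternionGroup (2 ^ k)))) := by
  open Cfsg.Agent.Loc Subgroup in
  open scoped commutatorElement in
  set N : Subgroup F := normalClosure (H : Set F) with hN
  have hHN : H ≤ N := le_normalClosure
  have hN0 : N ≠ ⊥ := fun e => hH (eq_bot_iff.2 (hHN.trans e.le))
  have hmn : ∀ M : Subgroup F, M.Normal → M ≠ ⊥ → N ≤ M := fun M hM h0 =>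
    normalClosure_le_normal (hmin M h0 (by rw [normalizer_eq_top]; exact le_top))
  have hs : IsSimpleGroup N := by
    haveI : Nontrivial N := (nontrivial_iff_ne_bot N).2 hN0
    refine ⟨fun R hR => or_iff_not_imp_left.2 fun h0 => ?_⟩
    have h1 : R.map N.subtype ≠ ⊥ := fun e => h0 ((map_eq_bot_iff_of_injective _ N.subtype_injective).1 e)
    have h2 : ∀ g : F, cj g H ≤ R.map N.subtype := by
      intro g
      refine cj_le_iff.2 (hmin _ (fun e => h1 (cj_eq_bot_iff.1 e)) (hHN.trans ?_))
      rw [← cj_normalizer]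
      exact (cj_eq_of_normal g⁻¹ N).ge.trans (cj_mono _ (normal_map_subtype hR))
    have h3 : N ≤ R.map N.subtype := by
      refine (closure_le _).2 fun x hx => ?_
      obtain ⟨a, ha, hc⟩ := Group.mem_conjugatesOfSet_iff.1 hx
      obtain ⟨c, rfl⟩ := isConj_iff.1 hc
      exact h2 c (conj_mem_cj ha)
    rw [eq_top_iff]
    intro x _
    rw [← subgroupOf_map_subtype' R]
    exact h3 x.2
  refine ⟨N, inferInstance, hN0, hmn, hs, or_iff_not_imp_left.2 fun hC => ?_⟩
  set C : Subgroup F := centralizer (N : Set F) with hCd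
  have hNC : N ≤ C := hmn C inferInstance hC
  haveI : IsMulCommutative N := ⟨⟨fun a b => Subtype.ext (hNC b.2 a a.2)⟩⟩
  have hp : (Nat.card N).Prime := by
    letI : CommGroup N := { mul_comm := mul_comm' }
    exact IsSimpleGroup.prime_card
  haveI := Fact.mk hp
  have hHe : H = N := by
    haveI : Normal (H.subgroupOf N) := normal_of_isMulCommutative _
    rcases hs.eq_bot_or_eq_top_of_normal (H.subgroupOf N) inferInstance with e | e
    · exact absurd ((subgroupOf_eq_bot.1 e).eq_bot_of_le hHN) hH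
    · exact le_antisymm hHN (subgroupOf_eq_top.1 e)
  have hsub : ∀ R : Subgroup F, R ≤ C → R ≠ ⊥ → N ≤ R := fun R hR h0 =>
    hHe ▸ hmin R h0 (hHe ▸ le_normalizer_of_le_centralizer (le_centralizer_iff.1 hR))
  have hcard : ∀ (R : Subgroup C) (r : ℕ), r.Prime → Nat.card R = r → R.map C.subtype = N := by
    intro R r hr e
    rw [← card_map_subtype] at e
    have h0 : R.map C.subtype ≠ ⊥ := fun e' => by
      rw [e', card_bot] at e; exact hr.one_lt.ne e
    have h1 := hsub _ (map_subtype_le R) h0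
    refine (eq_of_le_of_card_ge h1 (le_of_eq ?_)).symm
    rw [e]
    exact ((Nat.prime_dvd_prime_iff_eq hp hr).1 (e ▸ card_dvd_of_le h1)).symm
  have hPC : IsPGroup (Nat.card N) C := by
    refine IsPGroup.of_card (Nat.eq_prime_pow_of_unique_prime_dvd Nat.card_pos.ne' fun {r} hr hd => ?_)
    haveI := Fact.mk hr
    obtain ⟨x, hx⟩ := exists_prime_orderOf_dvd_card' r hd
    have := hcard (zpowers x) r hr (by rw [Nat.card_zpowers, hx])
    rw [← this, card_map_subtype, Nat.card_zpowers, hx]
  obtain ⟨hidx, t, -, ht, -⟩ := BMod.exists_gen_normalizer (Z := N) (K := ⊤) rfl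
    (by rw [normalizer_eq_top])
  rw [relIndex_top_right] at hidx
  rcases PGrp.isCyclic_or_quaternion hPC (fun A B hA hB => map_injective C.subtype_injective
    ((hcard A _ hp hA).trans (hcard B _ hp hB).symm)) with hc | ⟨h2, k, hk, ⟨e⟩⟩
  · refine Or.inl ⟨hHe, hp, hc, ?_, ⟨t, eq_top_iff.2 fun n _ => ?_⟩, hidx⟩
    · obtain ⟨k, hk⟩ := IsPGroup.iff_card.1 hPC
      refine ⟨k, Nat.pos_of_ne_zero fun e => hC ?_, hk⟩
      rw [e, pow_zero] at hk
      exact card_eq_one.1 hk
    · obtain ⟨k, c, hc, rfl⟩ := ht n trivial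
      exact mul_mem_sup hc (pow_mem (mem_zpowers t) k)
  · have hT : C = ⊤ := by
      rw [h2] at hidx
      exact index_eq_one.1 (Nat.dvd_one.1 hidx)
    exact Or.inr ⟨hHe, h2, hT, k, hk, ⟨(topEquiv.symm.trans (MulEquiv.subgroupCongr hT.symm)).trans e⟩⟩

end Cfsg.Agent.S3025
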