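import Cfsg.Statements.S3027
import Cfsg.Agent.Loc.CharP

set_option autoImplicit false
open Cfsg

namespace Cfsg.Agent.S3027

section helpers
open Cfsg.Agent.Loc Subgroup
open scoped commutatorElement

open Cfsg.Agent.Loc Subgroup in
theorem comm_sup {G : Type*} [Group G] (D : Subgroup G) [D.Normal]
    (hperf : ⁅(⊤ : Subgroup G), (⊤ : Subgroup G)⁆ ⊔ D = ⊤) {A B : Subgroup G} (hA : A ⊔ D = ⊤) (hB : B ⊔ D = ⊤) :
    ⁅A, B⁆ ⊔ D = ⊤ := by
  have key : ∀ X : Subgroup G, X ⊔ D = ⊤ ↔ X.map (QuotientGroup.mk' D) = ⊤ := fun X => by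
    constructor
    · intro h
      have := congrArg (Subgroup.map (QuotientGroup.mk' D)) h
      rwa [Subgroup.map_sup, (Subgroup.map_eq_bot_iff D).2 (by rw [QuotientGroup.ker_mk']), sup_bot_eq,
        map_top_of_surjective _ (QuotientGroup.mk'_surjective D)] at this
    · intro h
      have := congrArg (Subgroup.comap (QuotientGroup.mk' D)) h
      rwa [comap_map_eq, QuotientGroup.ker_mk', comap_top] at this
  rw [key] at hperf hA hB ⊢
  rw [Subgroup.map_commutator] at hperf ⊢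
  rw [hA, hB]
  rwa [map_top_of_surjective _ (QuotientGroup.mk'_surjective D)] at hperf

end helpers

/-- Let G be a finite group and D a normal subgroup of G such that G/D is perfect (that is, G = G′D). Then among the subnormal subgroups B of G with BD = G there is a least one, and it is normal in G. -/
theorem result {G : Type*} [Group G] [Finite G] (D : Subgroup G) [D.Normal] (hperf : ⁅(⊤ : Subgroup G), (⊤ : Subgroup G)⁆ ⊔ D = ⊤) :
    ∃ B : Subgroup G, B.Normal ∧ B ⊔ D = ⊤ ∧ ∀ B' : Subgroup G, B'.IsSubnormal → B' ⊔ D = ⊤ → B ≤ B' := by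
  open Cfsg.Agent.Loc Subgroup in
  open scoped commutatorElement in
  obtain ⟨B, hB, hmin⟩ := exists_minimal_of_wellFoundedLT (fun B : Subgroup G => B.Normal ∧ B ⊔ D = ⊤)
    ⟨⊤, inferInstance, top_sup_eq _⟩
  haveI := hB.1
  have hle : ∀ A : Subgroup G, A.Normal → A ⊔ D = ⊤ → B ≤ A := fun A _ hA =>
    (hmin (y := ⁅A, B⁆) ⟨inferInstance, comm_sup D hperf hA hB.2⟩ (commutator_le_right A B)).trans
      (commutator_le_left A B)
  refine ⟨B, hB.1, hB.2, fun B' hB' => ?_⟩
  refine (Sig.SubnIn.top_iff.2 hB').induction (P := fun X => X ⊔ D = ⊤ → B ≤ X) (fun _ => le_top)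
    (fun A C hAC hn _ ih hA => ?_)
  have hBC : B ≤ C := ih (top_le_iff.1 (hA ▸ sup_le_sup_right hAC D))
  -- minimal B-normal supplement inside B
  obtain ⟨B₂, h₂, hmin₂⟩ := exists_minimal_of_wellFoundedLT
    (fun X : Subgroup G => X ≤ B ∧ B ≤ normalizer (X : Set G) ∧ X ⊔ D = ⊤) ⟨B, le_rfl, le_normalizer, hB.2⟩
  have hle₂ : ∀ X : Subgroup G, X ≤ B → B ≤ normalizer (X : Set G) → X ⊔ D = ⊤ → B₂ ≤ X := fun X h0 hX hX' =>
    (hmin₂ (y := ⁅X, B₂⁆) ⟨(commutator_le_sup X B₂).trans (sup_le h0 h₂.1),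
      le_normalizer_commutator hX h₂.2.1, comm_sup D hperf hX' h₂.2.2⟩
      (commutator_le_right_of_le_normalizer (h0.trans h₂.2.1))).trans
      (commutator_le_left_of_le_normalizer (h₂.1.trans hX))
  have hN : B₂.Normal := normal_of_cj_le fun g => by
    rw [cj_le_iff]
    refine hle₂ _ (cj_le_of_mem_normalizer (le_normalizer_of_normal (mem_top _)) h₂.1) ?_ ?_
    · rw [← cj_normalizer]
      exact (cj_eq_of_normal g⁻¹ B).ge.trans (cj_mono _ h₂.2.1)
    · rw [← cj_eq_of_normal g⁻¹ D, ← cj_sup, h₂.2.2, cj_top]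
  refine (hle B₂ hN h₂.2.2).trans ((hle₂ ⁅A, B⁆ (commutator_le_right A B)
    (le_normalizer_commutator (hBC.trans hn) le_normalizer) (comm_sup D hperf hA hB.2)).trans
    (commutator_le_left_of_le_normalizer (hBC.trans hn)))

end Cfsg.Agent.S3027
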