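import Cfsg.Statements.S3028
import Cfsg.Agent.Loc.Wiel

set_option autoImplicit false
open Cfsg

namespace Cfsg.Agent.S3028

/-- Let G be a finite group, p a prime, S a Sylow p-subgroup of G and A₁, A₂ subnormal subgroups of G. Then the join of S ∩ A₁ and S ∩ A₂ is a Sylow p-subgroup of the join of A₁ and A₂; equivalently ⟨A₁, A₂⟩ ∩ S = ⟨A₁ ∩ S, A₂ ∩ S⟩. -/
theorem result {G : Type*} [Group G] [Finite G] {p : ℕ} [Fact p.Prime] (S : Sylow p G) (A₁ A₂ : Subgroup G)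
    (h₁ : A₁.IsSubnormal) (h₂ : A₂.IsSubnormal) :
    (A₁ ⊔ A₂) ⊓ (S : Subgroup G) = (A₁ ⊓ (S : Subgroup G)) ⊔ (A₂ ⊓ (S : Subgroup G)) := by
  open Cfsg.Agent.Loc Subgroup in
  open scoped commutatorElement in
  rw [inf_comm, inf_comm A₁, inf_comm A₂]
  exact (sylIn_top S).inf_sup_subnIn (Sig.SubnIn.top_iff.2 h₁) (Sig.SubnIn.top_iff.2 h₂)

end Cfsg.Agent.S3028
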