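import Cfsg.Statements.S3031
import Cfsg.Agent.FTC.HSub

set_option autoImplicit false
open Cfsg

namespace Cfsg.Agent.S3031

/-- Let G be a finite group, p the smallest prime dividing |G| and P a Sylow p-subgroup. Suppose that P is cyclic, or that P has a subgroup D with 1 < |D| < |P| such that every subgroup E of P of order |D|, and also every subgroup E of P of order 4 when |D| = 2, satisfies g E g⁻¹ ∩ N_G(E) ≤ E for all g ∈ G (E is strongly closed in its normalizer with respect to G). Then G has a normal p-complement. -/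
theorem result {G : Type*} [Group G] [Finite G] {p : ℕ} [Fact p.Prime] (hdiv : p ∣ Nat.card G)
    (hmin : ∀ q : ℕ, q.Prime → q ∣ Nat.card G → p ≤ q) (P : Sylow p G)
    (h : IsCyclic ↥(P : Subgroup G) ∨ ∃ D : Subgroup G, D ≤ (P : Subgroup G) ∧ 1 < Nat.card D ∧ Nat.card D < Nat.card (P : Subgroup G) ∧
      ∀ E : Subgroup G, E ≤ (P : Subgroup G) → (Nat.card E = Nat.card D ∨ (Nat.card D = 2 ∧ Nat.card E = 4)) →
        ∀ g : G, E.map (MulAut.conj g).toMonoidHom ⊓ Subgroup.normalizer (E : Set G) ≤ E) :
    Cfsg.HasNormalPComplement p G := by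
  rcases h with h | h
  · refine Transfer.hasNormalPComplement_of_normalizer_le_centralizer P (IsCyclic.normalizer_le_centralizer ?_ h)
    have hp : p.Prime := Fact.out
    have h1 : Nat.card G ≠ 1 := fun e => hp.ne_one (Nat.dvd_one.1 (e ▸ hdiv))
    exact le_antisymm (Nat.minFac_le_of_dvd hp.two_le hdiv) (hmin _ (Nat.minFac_prime h1) (Nat.minFac_dvd _))
  · obtain ⟨e, he⟩ := FTC.allSC_of_H P.isPGroup' h
    exact FTC.hasNormalPComplement_of_allSC hmin P he

end Cfsg.Agent.S3031
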