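import Cfsg.Statements.S3032
import Cfsg.Agent.FTC.HSub
import Cfsg.Agent.S3031

set_option autoImplicit false
open Cfsg

namespace Cfsg.Agent.S3032

open Subgroup FTC

theorem allSC_subgroup {G : Type*} [Group G] {p e : ℕ} {E : Subgroup G} {P : Subgroup E}
    (h : AllSC p (P.map E.subtype) e) : AllSC p P e := by
  have hc : ∀ F : Subgroup E, Nat.card (F.map E.subtype) = Nat.card F := fun F =>
    card_map_of_injective E.subtype_injective
  refine ⟨h.pgrp.of_equiv (P.equivMapOfInjective _ E.subtype_injective).symm, h.pos, hc P ▸ h.lt,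
    fun F hF h1 => ⟨hF, fun x hx g hg => ?_⟩⟩
  exact (mem_map_iff_mem E.subtype_injective).1
    ((h.sc _ (map_mono hF) (by rwa [hc])).2 x (mem_map_of_mem _ hx) g (mem_map_of_mem _ hg))

theorem allSC_quotient {G : Type*} [Group G] [Finite G] {p e : ℕ} {Q K : Subgroup G} [K.Normal]
    (h : AllSC p Q e) (hd : K ⊓ Q = ⊥) (hN : ∀ g : G, ∃ k ∈ K, ∃ n ∈ normalizer (Q : Set G), g = k * n) :
    AllSC p (Q.map (QuotientGroup.mk' K)) e := by
  have hc : ∀ F ≤ Q, Nat.card (F.map (QuotientGroup.mk' K)) = Nat.card F := fun F hF => by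
    have := Solv.card_map_mul_card_inf_ker (QuotientGroup.mk' K) F
    rwa [QuotientGroup.ker_mk', eq_bot_iff.2 ((inf_le_inf_left K hF).trans hd.le), card_bot, mul_one] at this
  refine ⟨h.pgrp.map _, h.pos, by rw [hc Q le_rfl]; exact h.lt, fun F hF h1 => ⟨hF, fun x hx g _ => ?_⟩⟩
  have h2 : (Q ⊓ F.comap (QuotientGroup.mk' K)).map (QuotientGroup.mk' K) = F := by
    refine le_antisymm (map_le_iff_le_comap.2 inf_le_right) fun y hy => ?_
    obtain ⟨z, hz, rfl⟩ := hF hy
    exact ⟨z, ⟨hz, hy⟩, rfl⟩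
  have h3 := h.sc (Q ⊓ F.comap (QuotientGroup.mk' K)) inf_le_left (by rw [← hc _ inf_le_left, h2]; exact h1)
  obtain ⟨z, hz, rfl⟩ := hF hx
  induction g using QuotientGroup.induction_on with
  | H g =>
  obtain ⟨k, hk, n, hn, rfl⟩ := hN g
  have h4 := (h3.2 z ⟨hz, hx⟩ n ((mem_normalizer_iff.1 hn z).1 hz)).2
  rw [QuotientGroup.mk_mul, (QuotientGroup.eq_one_iff k).2 hk, one_mul]
  exact h4

/-- Let G be a finite group and E a normal subgroup with G/E supersolvable. Suppose that for every prime p and every non-cyclic Sylow p-subgroup P of E there is a subgroup D of P with 1 < |D| < |P| such that every subgroup F of P of order |D|, and also every subgroup F of P of order 4 when |D| = 2, satisfies g F g⁻¹ ∩ N_G(F) ≤ F for all g ∈ G. Then G is supersolvable. -/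
theorem result {G : Type*} [Group G] [Finite G] (E : Subgroup G) [E.Normal] (hGE : Cfsg.IsSupersolvable (G ⧸ E))
    (h : ∀ (p : ℕ), p.Prime → ∀ P : Subgroup G, P ≤ E → IsPGroup p P → ¬ p ∣ P.relIndex E → ¬ IsCyclic ↥P →
      ∃ D : Subgroup G, D ≤ P ∧ 1 < Nat.card D ∧ Nat.card D < Nat.card P ∧
        ∀ F : Subgroup G, F ≤ P → (Nat.card F = Nat.card D ∨ (Nat.card D = 2 ∧ Nat.card F = 4)) →
          ∀ g : G, F.map (MulAut.conj g).toMonoidHom ⊓ Subgroup.normalizer (F : Set G) ≤ F) :
    Cfsg.IsSupersolvable G := by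
  induction hn : Nat.card E using Nat.strong_induction_on generalizing E with
  | _ n ih =>
  by_cases h0 : E = ⊥
  · subst h0
    exact SolvStr.isSupersolvable_of_mulEquiv QuotientGroup.quotientBot hGE
  have h1 : Nat.card E ≠ 1 := fun e => h0 (card_eq_one.1 e)
  set q := (Nat.card E).minFac with hq
  have hqp : q.Prime := Nat.minFac_prime h1
  haveI : Fact q.Prime := ⟨hqp⟩
  obtain ⟨Q'⟩ : Nonempty (Sylow q E) := inferInstance
  have hQ := Transfer.isSylowIn_map_subtype Q'
  set Q := (Q' : Subgroup E).map E.subtype with hQdef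
  have hmin : ∀ r : ℕ, r.Prime → r ∣ Nat.card E → q ≤ r := fun r hr hd => Nat.minFac_le_of_dvd hr.two_le hd
  have hcase : IsCyclic Q ∨ ∃ e, AllSC q Q e := (em _).imp_right fun hc =>
    allSC_of_H hQ.isPGroup (h q hqp Q hQ.le hQ.isPGroup hQ.not_dvd hc)
  have hE : HasNormalPComplement q E := by
    rcases hcase with hc | ⟨e, he⟩
    · exact S3031.result (Nat.minFac_dvd _) hmin Q' (Or.inl
        (((Q' : Subgroup E).equivMapOfInjective _ E.subtype_injective).isCyclic.2 hc))
    · exact hasNormalPComplement_of_allSC hmin Q' (allSC_subgroup he)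
  haveI := Transfer.pResidual_characteristic q E
  let K := (pResidual q E).map E.subtype
  have hKE : K ≤ E := map_subtype_le _
  have hKc : (Nat.card K).Coprime q := by
    rw [card_map_of_injective E.subtype_injective]
    exact Transfer.hasNormalPComplement_iff_coprime_card_pResidual.1 hE
  have hKQ : K ⊔ Q = E := by
    rw [hQdef, ← Subgroup.map_sup, Transfer.pResidual_sup_sylow, ← MonoidHom.range_eq_map, range_subtype]
  obtain ⟨k, hk⟩ := hQ.isPGroup.exists_card_eq
  have hd : K ⊓ Q = ⊥ := (disjoint_of_coprime_natCard (hk ▸ hKc.pow_right k)).eq_bot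
  have hlt : K < E := lt_of_le_of_ne hKE fun e =>
    (Nat.Prime.coprime_iff_not_dvd hqp).1 hKc.symm (e ▸ Nat.minFac_dvd _)
  have hmap : Q.map (QuotientGroup.mk' K) = E.map (QuotientGroup.mk' K) := by
    have := congrArg (Subgroup.map (QuotientGroup.mk' K)) hKQ
    rwa [Subgroup.map_sup, (Subgroup.map_eq_bot_iff _).2 (QuotientGroup.ker_mk' K).ge, bot_sup_eq] at this
  haveI : (Q.map (QuotientGroup.mk' K)).Normal := hmap ▸ inferInstance
  have hqq : IsSupersolvable ((G ⧸ K) ⧸ Q.map (QuotientGroup.mk' K)) :=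
    SolvStr.isSupersolvable_of_mulEquiv ((QuotientGroup.quotientQuotientEquivQuotient K E hKE).symm.trans
      (QuotientGroup.quotientMulEquivOfEq hmap.symm)) hGE
  refine ih _ (hn ▸ Solv.card_lt_of_lt hlt) K ?_ (fun p hp P hP hPp hPi hPc => h p hp P (hP.trans hKE) hPp ?_ hPc) rfl
  · rcases hcase with hc | ⟨e, he⟩
    · haveI : IsCyclic (Q.map (QuotientGroup.mk' K)) :=
        isCyclic_of_surjective _ ((QuotientGroup.mk' K).subgroupMap_surjective Q)
      exact SolvStr.isSupersolvable_of_isCyclic_of_quotient _ hqq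
    · refine isSupersolvable_of_allSC _ (allSC_quotient he hd fun g => ?_) hqq
      obtain ⟨x, hx, m, hm, rfl⟩ := hQ.frattini (g := g) (le_normalizer_of_normal (mem_top g))
      obtain ⟨a, ha, b, hb, rfl⟩ := (Solv.mem_sup_left_of_le_normalizer le_normalizer_of_normal).1 (hKQ.ge hx)
      exact ⟨a, ha, b * m, mul_mem (le_normalizer hb) hm, mul_assoc _ _ _⟩
  · haveI : Fact p.Prime := ⟨hp⟩
    rw [← relIndex_mul_relIndex P K E hP hKE]
    intro hdv
    refine hPi (((Nat.Prime.dvd_mul hp).1 hdv).resolve_right fun h2 => ?_)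
    have hP0 : P ≠ ⊥ := by rintro rfl; exact hPc inferInstance
    have h3 := (Solv.dvd_card_of_isPGroup hPp hP0).trans (card_dvd_of_le hP)
    rw [← hKQ, sup_comm, Solv.relIndex_sup_of_le_normalizer le_normalizer_of_normal] at h2
    have h4 := (Nat.prime_dvd_prime_iff_eq hp hqp).1 (hp.dvd_of_dvd_pow (hk ▸ h2.trans (relIndex_dvd_card _ _)))
    exact (Nat.Prime.coprime_iff_not_dvd hqp).1 hKc.symm (h4 ▸ h3)

end Cfsg.Agent.S3032
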