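import Cfsg.Statements.S3048
import Cfsg.Agent.S3012
import Cfsg.Agent.S3013
import Cfsg.Agent.Sig.Quasi
import Cfsg.Agent.Solv.Fitting

set_option autoImplicit false
universe u
open Cfsg

namespace Cfsg.Agent.S3048

open Subgroup Cfsg.Agent.Loc
open scoped commutatorElement

/-- Minimal counterexample reduction for the Sidki pair problem. Let G be a finite group and V a nontrivial elementary abelian 2-subgroup satisfying the Sidki pair condition with V ∩ O₂(G) = 1. Suppose that for every finite group H of smaller order, every nontrivial elementary abelian 2-subgroup W of H satisfying the Sidki pair condition meets O₂(H) nontrivially, and that the same holds in G for every such subgroup W of order smaller than that of V. Then the generalized Fitting subgroup F*(G) is a non-abelian simple group and G = V F*(G). -/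
theorem result {G : Type u} [Group G] [Finite G] (V : Subgroup G) (hV : Cfsg.IsElementaryAbelian 2 V) (hV1 : V ≠ ⊥) (hS : Cfsg.IsSidkiPair V) (hVO : V ⊓ Cfsg.pCore 2 G = ⊥) (hminG : ∀ (H : Type u) [Group H] [Finite H] (W : Subgroup H), Nat.card H < Nat.card G → Cfsg.IsElementaryAbelian 2 W → W ≠ ⊥ → Cfsg.IsSidkiPair W → W ⊓ Cfsg.pCore 2 H ≠ ⊥) (hminV : ∀ W : Subgroup G, Nat.card W < Nat.card V → Cfsg.IsElementaryAbelian 2 W → W ≠ ⊥ → Cfsg.IsSidkiPair W → W ⊓ Cfsg.pCore 2 G ≠ ⊥) : IsSimpleGroup ↥(Cfsg.generalizedFittingSubgroup G) ∧ ¬ IsMulCommutative ↥(Cfsg.generalizedFittingSubgroup G) ∧ V ⊔ Cfsg.generalizedFittingSubgroup G = ⊤ := by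
  haveI : Fact (Nat.Prime 2) := ⟨Nat.prime_two⟩
  have vc : ∀ a ∈ V, ∀ b ∈ V, a * b = b * a := fun a ha b hb =>
    congrArg Subtype.val (hV.1.is_comm.comm (⟨a, ha⟩ : V) ⟨b, hb⟩)
  have v2 : ∀ a ∈ V, a * a = 1 := fun a ha => by rw [← sq]; exact hV.2 a ha
  have vi : ∀ a ∈ V, a⁻¹ = a := fun a ha => inv_eq_of_mul_eq_one_right (v2 a ha)
  have p2 : ∀ W ≤ V, IsPGroup 2 W := fun W hW x => ⟨1, Subtype.ext (by simpa using hV.2 x (hW x.2))⟩
  have hB : ∀ (K : Subgroup G) [K.Normal], K ≠ ⊥ → V ⊓ K = ⊥ →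
      ∃ w ∈ V, w ≠ 1 ∧ QuotientGroup.mk' K w ∈ pCore 2 (G ⧸ K) := fun K _ h0 h1 => by
    have := hminG (G ⧸ K) (V.map (QuotientGroup.mk' K)) (by
        have h2 := K.card_mul_index
        have h3 := K.one_lt_card_iff_ne_bot.2 h0
        have h4 : 0 < Nat.card (G ⧸ K) := Nat.card_pos
        rw [← h2]; exact (lt_mul_iff_one_lt_left h4).2 h3)
      ⟨⟨⟨by rintro ⟨_, a, ha, rfl⟩ ⟨_, b, hb, rfl⟩; exact Subtype.ext (by
          change QuotientGroup.mk' K a * QuotientGroup.mk' K b = QuotientGroup.mk' K b * QuotientGroup.mk' K a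
          rw [← map_mul, ← map_mul, vc a ha b hb])⟩⟩,
        by rintro _ ⟨a, ha, rfl⟩; rw [← map_pow, hV.2 a ha, map_one]⟩
      (fun e => hV1 (by
        rw [Subgroup.map_eq_bot_iff, QuotientGroup.ker_mk'] at e
        rwa [inf_eq_left.2 e] at h1)) (S3012.result V K hV hV1 hS h1)
    obtain ⟨⟨_, ⟨w, hw, rfl⟩, h3⟩, h4⟩ := ne_bot_iff_exists_ne_one.1 this
    exact ⟨w, hw, fun e => h4 (Subtype.ext (by simp [e])), h3⟩
  have hO : pCore 2 G = ⊥ := by
    by_contra h0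
    obtain ⟨w, hw, w1, h⟩ := hB _ h0 hVO
    have : (pCore 2 (G ⧸ pCore 2 G)).comap (QuotientGroup.mk' _) ≤ pCore 2 G :=
      Solv.le_pCore ((Solv.isPGroup_pCore 2 _).comap_of_ker_isPGroup _ (by
        rw [QuotientGroup.ker_mk']; exact Solv.isPGroup_pCore 2 G))
    exact w1 (mem_bot.1 (hVO ▸ (⟨hw, this h⟩ : w ∈ V ⊓ pCore 2 G)))
  have sn : ∀ P L : Subgroup G, P ≤ L → L ≤ normalizer (P : Set G) → L.IsSubnormal → IsPGroup 2 P → P = ⊥ :=
    fun P L h1 h2 h3 h4 => le_bot_iff.1 (hO ▸ Solv.le_pCore_of_isSubnormal (IsSubnormal.trans h1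
      ((normal_subgroupOf_iff_le_normalizer h1).2 h2).isSubnormal h3) h4)
  have odd : ∀ L : Subgroup G, L.IsSubnormal → L ≠ ⊥ → ∃ x ∈ L, x ≠ 1 ∧ Odd (orderOf x) := fun L h1 h2 => by
    by_contra! h
    refine h2 (sn L L le_rfl le_normalizer h1 (isPGroup_of_pResidualOf_eq_bot (le_bot_iff.1
      (pResidualOf_le_iff.2 fun x hx hc => by_contra fun e => h x hx e (Nat.coprime_two_right.1 hc)))))
  have hA : ∀ H W L : Subgroup G, H ≠ ⊤ → W ≤ H → W ≤ V → W ≠ ⊥ → (∀ h ∈ H, ∀ v ∈ W, Odd (orderOf h) →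
      v * h * v⁻¹ = h⁻¹ → ∃ w ∈ W, w ≠ 1 ∧ w * h = h * w) → L ≤ H → H ≤ normalizer (L : Set G) → L.IsSubnormal →
      ∃ w ∈ W, w ≠ 1 ∧ w ∈ centralizer (L : Set G) := fun H W L h1 h2 h3 h4 h5 h6 h7 h8 => by
    have := hminG H (W.subgroupOf H) (by
        rw [← card_top (G := G)]; exact Solv.card_lt_of_lt (lt_top_iff_ne_top.2 h1))
      ⟨⟨⟨fun a b => Subtype.ext (Subtype.ext (vc _ (h3 a.2) _ (h3 b.2)))⟩⟩,
        fun a ha => Subtype.ext (hV.2 _ (h3 ha))⟩
      (fun e => h4 (by rw [subgroupOf_eq_bot, disjoint_iff] at e; rwa [inf_eq_left.2 h2] at e))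
      (fun h v hv ho hi => by
        obtain ⟨w, a1, a2, a3⟩ := h5 h h.2 v hv (by rwa [orderOf_coe]) (congrArg Subtype.val hi)
        exact ⟨⟨w, h2 a1⟩, a1, fun e => a2 (congrArg Subtype.val e), Subtype.ext a3⟩)
    obtain ⟨⟨w, a1, a2⟩, a3⟩ := ne_bot_iff_exists_ne_one.1 this
    refine ⟨w, a1, fun e => a3 (Subtype.ext (Subtype.ext e)), fun x hx => ?_⟩
    have nO : ∀ g ∈ H, ∀ y ∈ (pCore 2 H).map H.subtype, g * y * g⁻¹ ∈ (pCore 2 H).map H.subtype := by
      rintro g hg _ ⟨y, hy, rfl⟩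
      exact ⟨_, (Solv.instNormalPCore 2 H).conj_mem y hy ⟨g, hg⟩, rfl⟩
    have := sn (L ⊓ (pCore 2 H).map H.subtype) L inf_le_left (fun g hg => mem_normalizer_fintype fun y hy =>
      ⟨L.mul_mem (L.mul_mem hg hy.1) (L.inv_mem hg), nO g (h6 hg) y hy.2⟩) h8
      (((Solv.isPGroup_pCore 2 H).map _).to_inf_right)
    have h9 : x * w * x⁻¹ * (w : G)⁻¹ ∈ L ⊓ (pCore 2 H).map H.subtype := ⟨by
      have := mul_mem hx ((mem_normalizer_iff.1 (h7 w.2) _).1 (inv_mem hx))
      simpa [mul_assoc] using this, Subgroup.mul_mem _ (nO x (h6 hx) _ ⟨w, a2, rfl⟩)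
        (Subgroup.inv_mem _ ⟨w, a2, rfl⟩)⟩
    rw [this, mem_bot] at h9
    exact mul_inv_eq_iff_eq_mul.1 (mul_inv_eq_one.1 h9)
  have hK : ∀ K : Subgroup G, K.Normal → K ≠ ⊥ → V ⊔ K = ⊤ := fun K hn h0 => by
    by_contra hH
    obtain ⟨u, a1, a2, a3⟩ := hA (V ⊔ K) V K hH le_sup_left le_rfl hV1 (fun h _ v hv => hS h v hv) le_sup_right
      le_normalizer_of_normal hn.isSubnormal
    have hU : V ≤ centralizer (K : Set G) := by
      by_contra hU
      refine hminV (V ⊓ centralizer (K : Set G)) (Solv.card_lt_of_lt (inf_lt_left.2 hU))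
        ⟨⟨⟨fun a b => Subtype.ext (vc _ a.2.1 _ b.2.1)⟩⟩, fun a ha => hV.2 _ ha.1⟩
        (fun e => a2 (mem_bot.1 (e ▸ (⟨a1, a3⟩ : u ∈ V ⊓ centralizer (K : Set G))))) (fun h v hv ho hi => ?_)
        (by rw [hO, inf_bot_eq])
      have hh : h ∈ centralizer (K : Set G) := mem_of_pow_mem_of_coprime (n := 2) (by
        have := mul_mem ((normal_centralizer (H := K)).conj_mem _ hv.2 h) (inv_mem hv.2)
        rwa [show h * v * h⁻¹ * v⁻¹ = h * (v * h * v⁻¹)⁻¹ by group, hi, inv_inv, ← sq] at this)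
        (Nat.coprime_two_right.2 ho)
      obtain ⟨b1, b2⟩ := S3013.result V hV hV1 hS v h hv.1 ho hi _ rfl
      have kc : K ≤ centralizer ({v} : Set G) ⊓ centralizer ({h} : Set G) := fun k hk =>
        ⟨mem_cent1'.2 (hv.2 k hk), mem_cent1'.2 (hh k hk)⟩
      obtain ⟨w, c1, c2, c3⟩ := hA (_ ⊔ K) _ K (fun e => hH (eq_top_iff.2 (e.ge.trans (sup_le_sup_right inf_le_right K))))
        le_sup_left inf_le_right b1 (fun x hx y hy ho hi => by
          obtain ⟨w, a1, a2, a3⟩ := b2 ⟨x, sup_le inf_le_left kc hx⟩ ⟨y, hy.1⟩ hy (by rwa [← orderOf_coe])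
            (Subtype.ext hi)
          exact ⟨w, a1, fun e => a2 (Subtype.ext e), congrArg Subtype.val a3⟩) le_sup_right
        le_normalizer_of_normal hn.isSubnormal
      exact ⟨w, ⟨c1.2, c3⟩, c2, mem_cent1'.1 c1.1.2⟩
    obtain ⟨w, b1, b2, b3⟩ := hB K h0 (sn _ K inf_le_right (fun g hg => mem_normalizer_fintype fun y hy => by
      rwa [hU hy.1 g hg, mul_inv_cancel_right]) hn.isSubnormal (p2 _ inf_le_left))
    let M := (pCore 2 (G ⧸ K)).comap (QuotientGroup.mk' K) ⊓ centralizer (K : Set G)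
    haveI : M.Normal := inferInstance
    haveI := (Solv.isPGroup_pCore 2 (G ⧸ K)).isNilpotent
    have hM : Group.IsNilpotent M := Subgroup.isNilpotent_of_ker_le_center
      (((QuotientGroup.mk' K).comp M.subtype).codRestrict (pCore 2 (G ⧸ K)) fun x => x.2.1)
      (fun x hx => mem_center_iff.2 fun y => Subtype.ext
        (y.2.2 x ((QuotientGroup.eq_one_iff _).1 (congrArg Subtype.val hx))).symm)
    have := Solv.le_pCore_of_le_fitting (p2 _ (zpowers_le.2 b1))
      ((zpowers_le.2 (⟨b3, hU b1⟩ : w ∈ M)).trans (le_sSup ⟨‹_›, hM⟩))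
    exact b2 (mem_bot.1 (hO ▸ this (mem_zpowers w)))
  obtain ⟨K, -, ⟨hn, h0⟩, hm⟩ := exists_minimal_le_of_wellFoundedLT (fun N : Subgroup G => N.Normal ∧ N ≠ ⊥) ⊤
    ⟨inferInstance, fun e => hV1 (le_bot_iff.1 (e ▸ le_top))⟩
  have hm' : ∀ N : Subgroup G, N.Normal → N ≤ K → N = ⊥ ∨ K ≤ N := fun N h1 h2 =>
    or_iff_not_imp_left.2 fun e => hm ⟨h1, e⟩ h2
  have dec : ∀ g : G, ∃ v ∈ V, ∃ k ∈ K, v * k = g := fun g =>
    (mem_sup_of_le_normalizer_right le_normalizer_of_normal).1 (hK K hn h0 ▸ mem_top g)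
  have nrm : ∀ N : Subgroup G, (∀ g, g ∈ V ∨ g ∈ K → ∀ x ∈ N, g * x * g⁻¹ ∈ N) → N.Normal := fun N h =>
    ⟨fun x hx g => by
      obtain ⟨v, hv, k, hk, rfl⟩ := dec g
      have := h v (.inl hv) _ (h k (.inr hk) x hx)
      simpa [mul_assoc] using this⟩
  have cv : ∀ u ∈ V, u ∈ centralizer (K : Set G) → u = 1 := fun u h1 h2 => by
    haveI := nrm (zpowers u) fun g hg x hx => by
      have : u ∈ centralizer ({g} : Set G) := mem_cent1'.2 (hg.elim (vc u h1 g) fun h => (h2 g h).symm)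
      rwa [← (mem_cent1'.1 (zpowers_le.2 this hx)).eq, mul_inv_cancel_right]
    exact mem_bot.1 (hO ▸ Solv.le_pCore (p2 _ (zpowers_le.2 h1)) (mem_zpowers u))
  have inv : ∀ v ∈ V, ∀ x, Odd (orderOf x) → Commute x (v * x⁻¹ * v⁻¹) →
      ∃ w ∈ V, w ≠ 1 ∧ w * (x * (v * x⁻¹ * v⁻¹)) = x * (v * x⁻¹ * v⁻¹) * w := fun v hv x ho hc =>
    hS _ v hv (Odd.of_dvd_nat (ho.mul (by rwa [orderOf_conj', orderOf_inv])) hc.orderOf_mul_dvd_mul_orderOf) (by
      rw [vi v hv]
      calc v * (x * (v * x⁻¹ * v)) * v = v * x * v * x⁻¹ * (v * v) := by group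
        _ = _ := by rw [v2 v hv, mul_inv_rev, mul_inv_rev, mul_inv_rev, vi v hv]; group)
  obtain ⟨⟨v, hv⟩, v1⟩ := ne_bot_iff_exists_ne_one.1 hV1
  replace v1 : v ≠ 1 := fun e => v1 (Subtype.ext e)
  have hZ : ¬ K ≤ centralizer (K : Set G) := fun hZ => by
    have fx : ∀ w ∈ V, w ≠ 1 → ∀ x ∈ K, w * x = x * w → x = 1 := fun w hw w1 x hx e => by
      rcases hm' (K ⊓ centralizer {w}) (nrm _ fun g hg y hy => ⟨hn.conj_mem y hy.1 g, by
        rcases hg with hg | hg
        · exact Subgroup.mul_mem _ (Subgroup.mul_mem _ (mem_cent1'.2 (vc g hg w hw)) hy.2)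
            (Subgroup.inv_mem _ (mem_cent1'.2 (vc g hg w hw)))
        · rw [hZ hy.1 g hg, mul_inv_cancel_right]; exact hy.2⟩) inf_le_left with h | h
      · exact mem_bot.1 (h ▸ (⟨hx, mem_cent1'.2 e.symm⟩ : x ∈ K ⊓ centralizer {w}))
      · exact (w1 (cv w hw fun k hk => mem_cent1'.1 (h hk).2)).elim
    obtain ⟨x, hx, x1, xo⟩ := odd K hn.isSubnormal h0
    have hy := hn.conj_mem _ (inv_mem hx) v
    obtain ⟨w, hw, w1, e⟩ := inv v hv x xo (hZ hy x hx)
    have := fx w hw w1 _ (mul_mem hx hy) e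
    exact x1 (fx v hv v1 x hx (by
      calc v * x = x * (v * x⁻¹ * v⁻¹) * v * x := by rw [this, one_mul]
        _ = x * v := by group))
  have hZ' : ∀ x ∈ K, x ∈ centralizer (K : Set G) → x = 1 := fun x h1 h2 =>
    mem_bot.1 (((hm' (K ⊓ centralizer (K : Set G)) inferInstance inf_le_left).resolve_right
      fun h => hZ (h.trans inf_le_right)) ▸ (⟨h1, h2⟩ : x ∈ K ⊓ centralizer (K : Set G)))
  have hs : ∀ N ≤ K, K ≤ normalizer (N : Set G) → N ≠ ⊥ → K ≤ N := fun N n1 n2 n3 => by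
    obtain ⟨L, l0, ⟨l1, l2, l3⟩, lm⟩ := exists_minimal_le_of_wellFoundedLT
      (fun L : Subgroup G => L ≤ K ∧ K ≤ normalizer (L : Set G) ∧ L ≠ ⊥) N ⟨n1, n2, n3⟩
    refine le_trans (by_contra fun hL => ?_) l0
    have lk : ∀ k ∈ K, ∀ x ∈ L, k * x * k⁻¹ ∈ L := fun k hk x hx => (mem_normalizer_iff.1 (l2 hk) x).1 hx
    have ls : L.IsSubnormal := IsSubnormal.trans l1 ((normal_subgroupOf_iff_le_normalizer l1).2 l2).isSubnormal
      hn.isSubnormal
    have dich : ∀ w : G, w ∉ normalizer (L : Set G) → ∀ x ∈ L, w * x * w⁻¹ ∈ L → x = 1 := fun w hw x h1 h2 => by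
      by_contra x1
      refine hw (mem_normalizer_fintype fun y hy => ?_)
      exact (lm (y := L ⊓ L.comap (MulAut.conj w).toMonoidHom) ⟨inf_le_left.trans l1, fun k hk =>
        mem_normalizer_fintype fun y hy => ⟨lk k hk y hy.1, by
          have := lk _ (hn.conj_mem k hk w) _ hy.2
          simpa [mul_assoc] using this⟩,
        fun e => x1 (mem_bot.1 (e ▸ (⟨h1, h2⟩ : x ∈ L ⊓ L.comap (MulAut.conj w).toMonoidHom)))⟩ inf_le_left hy).2
    have cm : ∀ w ∈ V, w ∉ normalizer (L : Set G) → ∀ x ∈ L, ∀ y ∈ L, Commute x (w * y * w⁻¹) :=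
      fun w hw h x hx y hy => by
        refine commutatorElement_eq_one_iff_commute.1 (dich w h _ ?_ ?_)
        · have := mul_mem hx (lk _ (hn.conj_mem y (l1 hy) w) _ (inv_mem hx))
          simpa [commutatorElement_def, mul_assoc] using this
        · have := mul_mem (lk _ (hn.conj_mem x (l1 hx) w) _ hy) (inv_mem hy)
          convert this using 1
          have e := v2 w hw
          simp only [commutatorElement_def, mul_inv_rev, inv_inv, vi w hw, mul_assoc]
          simp only [← mul_assoc w w, e, one_mul, mul_one]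
    have gen : ∀ u, (∀ w ∈ V, ∀ y ∈ L, Commute u (w * y * w⁻¹)) → u ∈ centralizer (K : Set G) := fun u h k hk => by
      have := (hm' (normalClosure (L : Set G)) inferInstance (normalClosure_le_normal l1)).resolve_left
        fun e => l3 (le_bot_iff.1 (e ▸ le_normalClosure))
      refine (mem_cent1'.1 (((closure_le (centralizer {u})).2 ?_) (this hk))).eq
      intro z hz
      obtain ⟨y, hy, c⟩ := Group.mem_conjugatesOfSet_iff.1 hz
      obtain ⟨g, rfl⟩ := isConj_iff.1 c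
      obtain ⟨w, hw, k, hk, rfl⟩ := dec g
      have := (h w hw _ (lk k hk y hy)).symm
      exact mem_cent1'.2 (by simpa [mul_assoc] using this)
    by_cases hW : V ⊓ normalizer (L : Set G) = ⊥
    · have nw : ∀ w ∈ V, w ≠ 1 → w ∉ normalizer (L : Set G) := fun w h1 h2 h3 =>
        h2 (mem_bot.1 (hW ▸ (⟨h1, h3⟩ : w ∈ V ⊓ normalizer (L : Set G))))
      obtain ⟨x, hx, x1, xo⟩ := odd L ls l3
      have hc := cm v hv (nw v hv v1) x hx _ (inv_mem hx)
      obtain ⟨w, hw, w1, e⟩ := inv v hv x xo hc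
      by_cases wv : w * v = 1
      · obtain rfl : w = v := by rw [eq_inv_of_mul_eq_one_left wv, vi v hv]
        have : w * x ^ 2 * w⁻¹ = x ^ 2 := by
          have e3 : w * (w * x⁻¹ * w⁻¹) * w⁻¹ = x⁻¹ := by
            rw [vi w hw]
            calc _ = w * w * x⁻¹ * (w * w) := by group
              _ = _ := by rw [v2 w hw, one_mul, mul_one]
          have e4 : (x * (w * x⁻¹ * w⁻¹)) ^ 2 = 1 := by
            calc _ = x * (w * x⁻¹ * w⁻¹) * w * w⁻¹ * (x * (w * x⁻¹ * w⁻¹)) := by rw [sq]; group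
              _ = w * x * w⁻¹ * (w * (w * x⁻¹ * w⁻¹) * w⁻¹) * (x * (w * x⁻¹ * w⁻¹)) := by rw [← e]; group
              _ = 1 := by rw [e3]; group
          rw [hc.mul_pow, conj_pow] at e4
          exact .trans (by group) (eq_inv_of_mul_eq_one_left e4).symm
        have := dich w (nw w hw w1) _ (pow_mem hx 2) (this.symm ▸ pow_mem hx 2)
        exact x1 (mem_bot.1 (mem_of_pow_mem_of_coprime (this ▸ one_mem ⊥) (Nat.coprime_two_right.2 xo)))
      refine x1 (hZ' x (l1 hx) (gen x fun u hu y hy => ?_))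
      by_cases u1 : u = 1
      swap
      · exact cm u hu (nw u hu u1) x hx y hy
      have : x = w * x * w⁻¹ * (w * v * x⁻¹ * (w * v)⁻¹) * (v * x * v⁻¹) := by
        calc x = x * (v * x⁻¹ * v⁻¹) * w * w⁻¹ * (v * x * v⁻¹) := by group
          _ = _ := by rw [← e]; group
      rw [u1, one_mul, inv_one, mul_one, this]
      exact (((cm w hw (nw w hw w1) y hy x hx).mul_right (cm _ (mul_mem hw hv) (nw _ (mul_mem hw hv) wv) y hy _
        (inv_mem hx))).mul_right (cm v hv (nw v hv v1) y hy x hx)).symm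
    have hN : V ⊓ normalizer (L : Set G) ⊔ L ≤ normalizer (L : Set G) := sup_le inf_le_right le_normalizer
    obtain ⟨w, a1, a2, a3⟩ := hA _ _ L (fun e => hL ((hm' L (normalizer_eq_top_iff.1 (eq_top_iff.2 (e ▸ hN))) l1).resolve_left
      l3)) le_sup_left inf_le_left hW (fun h hh u hu ho hi => by
        by_cases h1 : h = 1
        · obtain ⟨⟨w, hw⟩, w1⟩ := ne_bot_iff_exists_ne_one.1 hW
          exact ⟨w, hw, fun e => w1 (Subtype.ext e), by simp [h1]⟩
        obtain ⟨w, b1, b2, b3⟩ := hS h u hu.1 ho hi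
        refine ⟨w, ⟨b1, by_contra fun e => h1 ?_⟩, b2, b3⟩
        have : h ∈ L := mem_of_pow_mem_of_coprime (n := 2) (by
          obtain ⟨a, ha, b, hb, rfl⟩ := (mem_sup_of_le_normalizer_right inf_le_right).1 hh
          have := mul_mem ((mem_normalizer_iff.1 ha.2 b).1 hb) hb
          rwa [vi a ha.1, mul_assoc, ← sq] at this) (Nat.coprime_two_right.2 ho)
        exact dich w e h this (by rwa [b3, mul_inv_cancel_right])) le_sup_right hN ls
    refine a2 (cv w a1.1 (gen w fun u hu y hy => ?_))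
    exact ((Commute.mul_right (vc w a1.1 u hu) (a3 y hy).symm).mul_right (Commute.inv_right (vc w a1.1 u hu)))
  have sq2 : ∀ g : G, g ^ 2 ∈ K := fun g => by
    obtain ⟨a, ha, b, hb, rfl⟩ := dec g
    have := mul_mem (hn.conj_mem b hb a) hb
    rwa [vi a ha, mul_assoc, ← sq] at this
  have ck : ∀ a b : G, ⁅a, b⁆ ∈ K := fun a b => by
    have := mul_mem (mul_mem (sq2 a) (sq2 (a⁻¹ * b))) (inv_mem (sq2 b))
    convert this using 1
    simp only [commutatorElement_def, sq, mul_inv_rev]; group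
  have e : generalizedFittingSubgroup G = K := le_antisymm (sup_le (sSup_le fun C hC => by
      rw [← (isPerfect_iff.1 hC.2.1 : ⁅C, C⁆ = C)]
      exact commutator_le.2 fun a _ b _ => ck a b) (sSup_le fun N hN => by
      haveI := hN.1
      rcases hm' (N ⊓ K) inferInstance inf_le_right with h | h
      · exact (sn N N le_rfl le_normalizer hN.1.isSubnormal fun x => ⟨1, Subtype.ext (mem_bot.1
          (h ▸ (⟨pow_mem x.2 _, sq2 x⟩ : x.1 ^ 2 ∈ N ⊓ K)))⟩).trans_le bot_le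
      · haveI := hN.2
        haveI := Group.nilpotent_of_mulEquiv (subgroupOfEquivOfLe (h.trans inf_le_left))
        haveI := (nontrivial_iff_ne_bot K).2 h0
        obtain ⟨⟨x, hx⟩, x1⟩ := ne_bot_iff_exists_ne_one.1 (Group.IsNilpotent.center_ne_bot (G := K))
        exact (x1 (Subtype.ext (Subtype.ext (hZ' x x.2 fun k hk =>
          congrArg Subtype.val (mem_center_iff.1 hx ⟨k, hk⟩))))).elim))
    (le_sup_of_le_left (le_sSup ⟨hn.isSubnormal, Sig.isQuasisimple_subgroup_iff.2 ⟨h0, le_antisymm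
      (commutator_le.2 fun a _ b _ => ck a b) ((hm' _ inferInstance (commutator_le.2 fun a _ b _ => ck a b)).resolve_left
        fun e => hZ (commutator_eq_bot_iff_le_centralizer.1 e)), fun N n1 n2 => by
          by_cases n3 : N = ⊥
          · exact .inr (n3 ▸ bot_le)
          · exact .inl (le_antisymm n1 (hs N n1 n2 n3))⟩⟩))
  rw [e]
  haveI := (nontrivial_iff_ne_bot K).2 h0
  refine ⟨⟨fun N hN => or_iff_not_imp_left.2 fun n3 => eq_top_iff.2 fun x _ => ?_⟩,
    fun h => hZ fun a ha b hb => congrArg Subtype.val (h.is_comm.comm (⟨b, hb⟩ : K) ⟨a, ha⟩), hK K hn h0⟩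
  obtain ⟨y, hy, e⟩ := hs (N.map K.subtype) (map_subtype_le N) (fun g hg => mem_normalizer_fintype (by
    rintro _ ⟨y, hy, rfl⟩
    exact ⟨_, hN.conj_mem y hy ⟨g, hg⟩, rfl⟩)) (fun e => n3 ((map_eq_bot_iff_of_injective N K.subtype_injective).1 e)) x.2
  exact Subtype.ext e ▸ hy

end Cfsg.Agent.S3048
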