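import Cfsg.Statements.S3049
import Cfsg.Agent.Loc.Cpl

set_option autoImplicit false
open Cfsg

namespace Cfsg.Agent.S3049

/-- Let G be a finite group and p an odd prime with O_{p'}(G) = 1. Suppose that G has p-rank at most 2 (no elementary abelian subgroup of order p³) and that some element x of order p is isolated in G (no G-conjugate of x other than x commutes with x) and not central. Then the generalized Fitting subgroup F*(G) is a non-abelian simple group. Since O_{p'}(G) = 1, such an x is not central modulo O_{p'}(G): the hypotheses describe a counterexample to the Z*_p statement in p-rank at most 2. -/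
theorem result {G : Type*} [Group G] [Finite G] {p : ℕ} [Fact p.Prime] (hp : p ≠ 2) (hcore : Cfsg.pPrimeCore p G = ⊥)
    (hrank : Cfsg.PRankLE p 2 G) (x : G) (hx : orderOf x = p) (hiso : Cfsg.IsIsolated x) (hnc : x ∉ Subgroup.center G) :
    IsSimpleGroup ↥(Cfsg.generalizedFittingSubgroup G) ∧ ¬ IsMulCommutative ↥(Cfsg.generalizedFittingSubgroup G) := by
  open Cfsg.Agent.Loc Subgroup in
  open scoped commutatorElement in
  have hpx := isPGroup_zpowers_of_orderOf_eq hx
  have hxp : x ^ p = 1 := hx ▸ pow_orderOf_eq_one x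
  have hO : Sig.ppIn p (⊤ : Subgroup G) = ⊥ := by rw [Sig.ppIn_top, hcore]
  obtain ⟨P, hP, hxP⟩ := exists_sylIn_ge (H := ⊤) le_top hpx
  have hxP' := hxP (mem_zpowers x)
  have hPC := isolated_le_cent hiso hP.pg hxP'
  obtain ⟨L, hL, hxL⟩ : ∃ L : Subgroup G, Sig.CompIn L ⊤ ∧ x ∉ centralizer (L : Set G) := by
    by_contra hc
    push Not at hc
    have h1 := Sig.le_pcIn_of_commutator_eq_bot hO (le_top : zpowers x ≤ ⊤)
      (by rw [commutator_eq_bot_iff', centralizer_zpowers]
          exact Sig.layerIn_le_iff.2 fun L hL => le_cent1_iff.2 (hc L hL))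
      (by rw [commutator_eq_bot_iff', centralizer_zpowers]; exact hP.pCoreOf_le.trans hPC)
    have h2 := isolated_normalizer_le hiso Sig.isPGroup_pcIn (h1 (mem_zpowers x))
    exact hnc (mem_center_iff.2 fun a => mem_cent1'.1
      (h2 (Sig.le_normalizer_pcIn (A := ⊤) (le_normalizer_of_le le_top) (mem_top a))))
  have key : ∀ A : Subgroup G, Sig.SubnIn A ⊤ → A ≤ centralizer (L : Set G) → A = ⊥ := by
    intro A hA hAL
    by_contra hne
    have h1 : P ⊓ A ≠ ⊥ := by
      intro hb
      have := hP.inf_subnIn hA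
      rw [hb] at this
      exact hne (eq_bot_iff.2 (hO ▸ Sig.le_ppIn_of_subnIn hA (Sig.coprime_of_sylIn_eq_bot this)))
    obtain ⟨z, hz, hz1, hzp⟩ := exists_pow_eq_one_of_isPGroup hP.pg.to_inf_left h1
    refine hL.not_coprime hO (coprime_of_perfect_of_complement hL.perfect
      (complement_of_omega hp (hP.inf_subnIn hL.subnIn) fun u hu hup g hg hgu => ?_))
    have ea : ∀ y : G, y ^ p = 1 → IsElementaryAbelian p (zpowers y) := fun y hy =>
      ⟨inferInstance, by rintro _ ⟨k, rfl⟩; simp only; rw [← zpow_natCast, ← zpow_mul, mul_comm, zpow_mul,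
        zpow_natCast, hy, one_zpow]⟩
    have hzx : zpowers z ≤ centralizer ((zpowers x : Subgroup G) : Set G) := by
      rw [centralizer_zpowers]; exact zpowers_le.2 (hPC hz.1)
    have e1 := isElementaryAbelian_sup (ea z hzp) (ea x hxp) hzx
    have e2 := isElementaryAbelian_sup e1 (ea u hup) (by
      rw [centralizer_zpowers]
      exact sup_le (zpowers_le.2 (mem_cent1'.2 (hAL hz.2 u hu.2).symm)) (zpowers_le.2 (mem_cent1_comm.1 (hPC hu.1))))
    have c1 := mul_card_le_of_lt (isPGroup_of_isElementaryAbelian e1)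
      (lt_of_le_of_ne le_sup_left fun h => hxL (zpowers_le.2 (hAL hz.2) (h ▸ mem_sup_right (mem_zpowers x))))
    rw [Nat.card_zpowers, orderOf_eq_prime_of_pow hz1 hzp] at c1
    have c2 := hrank _ e2.1 e2.2
    have e3 := eq_of_le_of_card_ge (le_sup_left : zpowers z ⊔ zpowers x ≤ _) (c2.trans (by rwa [pow_two]))
    have h3 : u ∈ zpowers z ⊔ zpowers x := e3 ▸ mem_sup_right (mem_zpowers u)
    obtain ⟨a, ha, b, hb, rfl⟩ := (mem_sup_of_le_normalizer_right (le_normalizer_of_le_centralizer hzx)).1 h3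
    have h4 : g * a * g⁻¹ = a := by rw [zpowers_le.2 (hAL hz.2) ha g hg, mul_inv_cancel_right]
    have h5 : g * (a * b) * g⁻¹ = a * (g * b * g⁻¹) := by
      rw [show g * (a * b) * g⁻¹ = (g * a * g⁻¹) * (g * b * g⁻¹) by group, h4]
    rw [h5] at hgu ⊢
    rw [isolated_zpow_eq hiso hP.pg hxP' hb ((mul_mem_cancel_left (zpowers_le.2 hz.1 ha)).1 hgu.1)]
  have h1 : Sig.fitIn (⊤ : Subgroup G) = ⊥ := key _ Sig.subnIn_fitIn (commutator_eq_bot_iff'.1
    (Sig.commutator_eq_bot_mono Sig.commutator_layerIn_fitIn hL.le_layerIn le_rfl))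
  have h2 := key _ ((Sig.SubnIn.of_normal inf_le_left (le_normalizer_inf le_normalizer
    (le_normalizer_centralizer hL.layerIn_le_normalizer))).trans (Sig.subnIn_layerIn ⊤)) inf_le_right
  have e : generalizedFittingSubgroup G = L := by
    rw [← Sig.fstarIn_top, Sig.fstarIn_eq, h1, sup_bot_eq, hL.layerIn_eq_sup_centralizer, h2, sup_bot_eq]
  rw [e]
  exact ⟨simple_of_compIn hL.qs (eq_bot_iff.2 (h1 ▸ Sig.center_le_fitIn hL.subnIn)), Sig.qs_not_isMulCommutative hL.qs⟩

end Cfsg.Agent.S3049
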