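import Cfsg.Statements.S3050
import Cfsg.Agent.HigSL.B
import Cfsg.Agent.HigSL.D

set_option autoImplicit false
open Cfsg Cfsg.Agent.HigSL MatrixGroups

namespace Cfsg.Agent.S3050

/-- Let G be a finite group with a normal 2-subgroup Q such that G/Q is isomorphic to SL(2, 2ⁿ) with n ≥ 2, and suppose some element of G of order 3 fixes no nonidentity element of Q under conjugation. Then Q is elementary abelian and is the direct product of normal subgroups of G on each of which G acts as SL(2, 2ⁿ) acts on its natural two-dimensional module (a Galois twist of the natural action allowed). -/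
theorem result {G : Type*} [Group G] [Finite G]
    (Q : Subgroup G) [Q.Normal] (hQ : IsPGroup 2 ↥Q) (n : ℕ) (hn : 2 ≤ n)
    (K : Type*) [Field K] [Fintype K] (hK : Fintype.card K = 2 ^ n)
    (e : G ⧸ Q ≃* Matrix.SpecialLinearGroup (Fin 2) K)
    (x : G) (hx : orderOf x = 3) (hfpf : ∀ q ∈ Q, x * q * x⁻¹ = q → q = 1) :
    Cfsg.IsElementaryAbelian 2 Q ∧
      ∃ (k : ℕ) (V : Fin k → Subgroup G), (∀ i, V i ≤ Q ∧ (V i).Normal ∧
        Cfsg.ActsAsSL2OnSection K ⊤ ⊤ (V i) ⊥) ∧ iSupIndep V ∧ ⨆ i, V i = Q := by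
  classical
  have hcard : Nat.card K = 2 ^ n := by rw [Nat.card_eq_fintype_card, hK]
  have h4 : 4 ≤ Nat.card K := by
    rw [hcard]
    exact le_trans (by norm_num) (Nat.pow_le_pow_right (by norm_num) hn)
  have hchar : CharP K 2 := by
    obtain ⟨p, hp⟩ := CharP.exists K
    obtain ⟨m, hpp, hm⟩ := FiniteField.card K p
    have h1 : p ∣ 2 ^ n := by
      rw [← hK, hm]
      exact dvd_pow_self p m.ne_zero
    have := (Nat.prime_dvd_prime_iff_eq hpp Nat.prime_two).1 (hpp.dvd_of_dvd_pow h1)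
    exact this ▸ hp
  have h4' : ∃ a : K, a ≠ 0 ∧ a + 1 ≠ 0 := by
    by_contra hne
    have h1 : (Finset.univ : Finset K) ⊆ {0, -1} := by
      intro a _
      by_contra ha
      simp only [Finset.mem_insert, Finset.mem_singleton, not_or] at ha
      exact hne ⟨a, ha.1, fun h => ha.2 (eq_neg_of_add_eq_zero_left h)⟩
    have h2 := Finset.card_le_card h1
    have h3 : ({0, -1} : Finset K).card ≤ 2 := Finset.card_le_two
    rw [Finset.card_univ, ← Nat.card_eq_fintype_card] at h2
    omega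
  have : Fact (Nat.Prime 2) := ⟨Nat.prime_two⟩
  let π : G →* SL(2, K) := e.toMonoidHom.comp (QuotientGroup.mk' Q)
  have hs : Function.Surjective π := e.surjective.comp (QuotientGroup.mk'_surjective Q)
  have hk : π.ker = Q := by
    ext g
    simp [π]
  have hxv : Valid Q x := ⟨by rw [← pow_three', ← hx, pow_orderOf_eq_one], hfpf⟩
  have hx1 : π x ≠ 1 := by
    intro h
    have : x ∈ Q := hk ▸ h
    have := hfpf x this (by group)
    rw [this, orderOf_one] at hx
    omega
  have hab := abelian hQ π hs hk h4 h4' hxv hx1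
  let cg : CommGroup Q :=
    { (inferInstance : Group Q) with mul_comm := fun p q => Subtype.ext (hab p p.2 q q.2) }
  let ρ₀ : G ⧸ Q →* MulAut Q := QuotientGroup.lift Q MulAut.conjNormal (by
    intro g hg
    rw [MonoidHom.mem_ker]
    ext q
    simp [hab g hg q q.2])
  let ρ : SL(2, K) →* MulAut Q := ρ₀.comp e.symm.toMonoidHom
  have hρ : ∀ (g : G) (q : Q), ((ρ (π g) q : Q) : G) = g * q * g⁻¹ := by
    intro g q
    simp [ρ, π, ρ₀]
  let ac : DistribMulAction SL(2, K) (Additive Q) :=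
    { smul := fun g v => Additive.ofMul (ρ g v.toMul)
      one_smul := fun v => by
        change Additive.ofMul (ρ 1 v.toMul) = v
        simp
      mul_smul := fun g g' v => by
        change Additive.ofMul (ρ (g * g') v.toMul) = Additive.ofMul (ρ g (ρ g' v.toMul))
        simp
      smul_zero := fun g => by
        change Additive.ofMul (ρ g 1) = 0
        simp
      smul_add := fun g v v' => by
        change Additive.ofMul (ρ g (v.toMul * v'.toMul)) =
          Additive.ofMul (ρ g v.toMul) + Additive.ofMul (ρ g v'.toMul)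
        simp }
  have hsm : ∀ (g : SL(2, K)) (q : Q), g • Additive.ofMul q = Additive.ofMul (ρ g q) := fun _ _ => rfl
  have hy : Hy K (Additive Q) := by
    refine ⟨fun t ht z hz => ?_, h4'⟩
    obtain ⟨y, hy, rfl⟩ := exists_valid π hs hxv hx1 t ht
    have h1 : ρ (π y) z.toMul = z.toMul := congrArg Additive.toMul hz
    have h2 := hy.2 _ z.toMul.2 (by rw [← hρ, h1])
    exact congrArg Additive.ofMul (Subtype.ext h2 : z.toMul = 1)
  obtain ⟨m, hm⟩ := IsPGroup.iff_card.1 hQ
  obtain ⟨k, P, hP⟩ := exists_coord (K := K) (V := Additive Q) (m := m) hm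
  let ψ : Fin k → (Q →* Multiplicative (Fin 2 → K)) := fun i =>
    { toFun := fun q => Multiplicative.ofAdd (P (Additive.ofMul q) i)
      map_one' := by simp
      map_mul' := fun p q => by simp }
  have hψ : ∀ i (q : Q), ψ i q = 1 ↔ P (Additive.ofMul q) i = 0 := fun _ _ => Iff.rfl
  have hψc : ∀ i (g : G) (q : Q), (ψ i (ρ (π g) q)).toAdd = (π g).1.mulVec (ψ i q).toAdd :=
    fun i g q => hP (π g) (Additive.ofMul q) i
  let V : Fin k → Subgroup G := fun i => (⨅ j, ⨅ _ : j ≠ i, (ψ j).ker).map Q.subtype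
  have hV : ∀ i g, g ∈ V i ↔ ∃ h : g ∈ Q, ∀ j, j ≠ i → P (Additive.ofMul ⟨g, h⟩) j = 0 := by
    intro i g
    simp [V, Subgroup.mem_iInf, hψ]
  have hVQ : ∀ i, V i ≤ Q := fun i => Subgroup.map_subtype_le _
  have hVc : ∀ i (g u : G), u ∈ V i → g * u * g⁻¹ ∈ V i := by
    intro i g u hu
    obtain ⟨h, hu⟩ := (hV i u).1 hu
    refine (hV i _).2 ⟨Subgroup.Normal.conj_mem inferInstance _ h g, fun j hj => ?_⟩
    have := hP (π g) (Additive.ofMul ⟨u, h⟩) j
    rw [hu j hj, Matrix.mulVec_zero, hsm] at this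
    rw [show ρ (π g) ⟨u, h⟩ = ⟨_, Subgroup.Normal.conj_mem inferInstance _ h g⟩ from
      Subtype.ext (hρ g _)] at this
    exact this
  have hVn : ∀ i, (V i).Normal := fun i => ⟨fun u hu g => hVc i g u hu⟩
  have hsingle : ∀ i (c : Fin 2 → K), ((P.symm (Pi.single i c)).toMul : G) ∈ V i := by
    intro i c
    refine (hV i _).2 ⟨(P.symm (Pi.single i c)).toMul.2, fun j hj => ?_⟩
    simp [hj]
  have hker : ∀ i (u : G) (hu : u ∈ V i), P (Additive.ofMul ⟨u, hVQ i hu⟩) i = 0 → u = 1 := by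
    intro i u hu h0
    obtain ⟨h, hu'⟩ := (hV i u).1 hu
    have h1 : P (Additive.ofMul ⟨u, h⟩) = 0 := by
      funext j
      by_cases hj : j = i
      · rw [hj]; exact h0
      · exact hu' j hj
    have h2 : (⟨u, h⟩ : Q) = 1 := (map_eq_zero_iff P P.injective).1 h1
    exact congrArg Subtype.val h2
  refine ⟨⟨⟨⟨fun p q => Subtype.ext (hab p p.2 q q.2)⟩⟩, fun a ha => ?_⟩, k, V,
    fun i => ⟨hVQ i, hVn i, ?_, bot_le, π.comp (Subgroup.subtype ⊤),
      (ψ i).comp (Subgroup.inclusion (hVQ i)), ?_, ?_, ?_, ?_⟩, ?_, ?_⟩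
  · have h1 : P (Additive.ofMul ⟨a, ha⟩ + Additive.ofMul ⟨a, ha⟩) = 0 := by
      rw [map_add]
      ext i j
      exact CharTwo.add_self_eq_zero _
    have h2 : (⟨a, ha⟩ * ⟨a, ha⟩ : Q) = 1 := (map_eq_zero_iff P P.injective).1 h1
    rw [pow_two]
    exact congrArg Subtype.val h2
  · have := hVn i
    rw [Subgroup.normalizer_eq_top]
  · rw [MonoidHom.range_eq_top]
    intro t
    obtain ⟨g, rfl⟩ := hs t
    exact ⟨⟨g, trivial⟩, rfl⟩
  · intro c
    refine ⟨⟨_, hsingle i c.toAdd⟩, ?_⟩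
    change Multiplicative.ofAdd (P (P.symm (Pi.single i c.toAdd)) i) = c
    simp
  · intro u
    rw [Subgroup.mem_bot]
    refine ⟨fun h => hker i u u.2 h, fun h => ?_⟩
    rw [(Subtype.ext h : u = 1), map_one]
  · intro g u
    refine ⟨⟨_, hVc i g u u.2⟩, rfl, ?_⟩
    have := hψc i g ⟨u, hVQ i u.2⟩
    rw [show ρ (π g) ⟨u, hVQ i u.2⟩ = ⟨_, hVQ i (hVc i g u u.2)⟩ from Subtype.ext (hρ g _)] at this
    exact this
  · intro i
    rw [Subgroup.disjoint_def]
    intro u hu hu'
    have h1 : (⨆ j, ⨆ _ : j ≠ i, V j) ≤ (ψ i).ker.map Q.subtype := by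
      refine iSup₂_le fun j hj => Subgroup.map_mono ?_
      exact iInf₂_le i hj.symm
    obtain ⟨q, hq, rfl⟩ := h1 hu'
    exact hker i _ hu hq
  · refine le_antisymm (iSup_le hVQ) fun a ha => ?_
    have h1 : (⟨a, ha⟩ : Q) = ∏ i, (P.symm (Pi.single i (P (Additive.ofMul ⟨a, ha⟩) i))).toMul := by
      rw [← toMul_sum, ← map_sum, Finset.univ_sum_single]
      simp
    have h2 : (⟨a, ha⟩ : Q) ∈ (⨆ i, V i).comap Q.subtype := by
      rw [h1]
      exact Subgroup.prod_mem _ fun i _ => Subgroup.mem_iSup_of_mem i (hsingle i _)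
    exact h2

end Cfsg.Agent.S3050
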