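import Cfsg.Statements.S3053
import Cfsg.Agent.Small.P3

set_option autoImplicit false
open Cfsg

namespace Cfsg.Agent.S3053

open Subgroup Cfsg.Agent.BG Cfsg.Agent.Small
open scoped commutatorElement

/-- Let p be an odd prime and G a finite group with a Sylow p-subgroup P that is extraspecial of order p³ and exponent p². Then the centre of P is strongly closed in P with respect to G: a G-conjugate of an element of Z(P) that lies in P already lies in Z(P). In particular a nontrivial central element of P is conjugate in G to no noncentral element of P. -/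
theorem result {G : Type*} [Group G] [Finite G]
    {p : ℕ} [Fact p.Prime] (hp : p ≠ 2) (P : Sylow p G) (hE : Cfsg.IsExtraspecial p ↥P)
    (hcard : Nat.card P = p ^ 3) (hexp : Monoid.exponent ↥P = p ^ 2) :
    Cfsg.IsStronglyClosed ((Subgroup.center ↥P).map (P : Subgroup G).subtype) (P : Subgroup G) := by
  obtain ⟨z, h⟩ := X3.of P hE hcard
  erw [h.map_center]
  refine ⟨h.zle, fun c hc g hy => by_contra fun hn => ?_⟩
  obtain ⟨t, ht, t1, d, hd, t2⟩ := h.torus hy hn (g := g⁻¹) (by simpa [mul_assoc] using hc) (a := -1) (b := -1) (by simp)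
  obtain ⟨x, hx⟩ : ∃ x : (P : Subgroup G), x ^ p ≠ 1 := by
    by_contra! c
    have := Nat.le_of_dvd (Fact.out : p.Prime).pos (hexp ▸ Monoid.exponent_dvd_of_forall_pow_eq_one c)
    nlinarith [(Fact.out : p.Prime).two_le]
  set α := (P : Subgroup G).normalizerMonoidHom ⟨t, ht⟩
  set y : (P : Subgroup G) := ⟨_, hy⟩
  have e := h.es
  have a1 : ∀ c ∈ zpowers (⟨z, h.mem⟩ : (P : Subgroup G)), α c = c⁻¹ := by
    rintro _ ⟨k, rfl⟩
    rw [map_zpow, show α ⟨z, h.mem⟩ = ⟨z, h.mem⟩⁻¹ from Subtype.ext (t1.trans (zpow_neg_one z)), inv_zpow]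
  have a2 : e.π (α y) = -e.π y := by
    rw [show α y = y ^ (-1 : ℤ) * ⟨d, h.zle hd⟩ from Subtype.ext t2, e.mk_mul, (e.mk_eq_zero (x := ⟨d, _⟩)).2 (mem_zp.2 hd), add_zero,
      zpow_neg_one, e.mk_inv]
  have a3 : e.B (e.π (α x)) (e.π (α y)) = -e.B (e.π x) (e.π y) := e.ez_injective (by
    rw [e.ez_neg, e.ez_B, e.ez_B, ← map_commutatorElement, a1 _ (e.comm _ _)])
  have a4 : Commute (x⁻¹ * α x) y := e.B_eq_zero.1 (by
    rw [a2, map_neg, neg_inj] at a3
    rw [e.mk_mul, e.mk_inv, map_add, map_neg, LinearMap.add_apply, LinearMap.neg_apply, a3, neg_add_cancel])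
  have yp : y ^ p = 1 := Subtype.ext (by
    have := congrArg Subtype.val (e.pow_eq_one (x := ⟨c, h.zle hc⟩) (mem_zp.2 hc))
    simp only [SubmonoidClass.coe_pow, OneMemClass.coe_one, y] at this ⊢
    rw [conj_pow, this]; simp)
  have hA : Abelem p (zpowers y ⊔ zpowers (⟨z, h.mem⟩ : (P : Subgroup G))) := abelemY (cycle_abelem yp)
    (cycle_abelem (e.pow_eq_one (mem_zpowers _))) (zpowers_le.2 (by
      rw [C_zpowers]; exact mem_cent1.2 (e.commute_of_mem (mem_zpowers _) y).symm))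
  have a5 := e.card_mul_card_centralizer h.cen (mem_sup_right (S := zpowers y) (mem_zpowers _))
  obtain ⟨k, hk⟩ := hA.pg.exists_card_eq
  have a6 : p ^ 1 < p ^ k := by
    rw [← hk, pow_one]
    exact e.card_zpowers.ge.trans_lt (proper_card
      (lt_of_le_of_ne le_sup_right fun q => hn (mem_zp.1 (q ▸ mem_sup_left (mem_zpowers y)))))
  have a7 : p ^ 2 ≤ p ^ k := Nat.pow_le_pow_right (Fact.out : p.Prime).pos
    ((Nat.pow_lt_pow_iff_right (Fact.out : p.Prime).one_lt).1 a6)
  have a8 := eq_of_le_of_card_ge (abelian_iff.1 hA.1) (by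
    rw [h.card, hk] at a5
    rw [hk]
    refine Nat.le_of_mul_le_mul_left (a5.trans_le ?_) (pow_pos (Fact.out : p.Prime).pos k)
    calc p * p ^ 3 = p ^ 2 * p ^ 2 := by ring
    _ ≤ _ := Nat.mul_le_mul a7 a7)
  have a9 : (x⁻¹ * α x) ^ p = 1 := hA.2 _ (a8.ge (cents_symm (sup_le (zpowers_le.2 (by
    rw [C_zpowers]; exact mem_cent1.2 a4.symm)) (e.le_center.trans (center_le_centralizer _))) (mem_zpowers _)))
  rw [← e.pw_eq_zero, ← e.L_apply hp, e.mk_mul, e.mk_inv, map_add, map_neg, neg_add_eq_zero, e.L_apply, e.L_apply] at a9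
  have b1 := congrArg e.ez a9
  rw [e.ez_pw, e.ez_pw, ← map_pow, a1 _ (e.pow x), eq_inv_iff_mul_eq_one, ← sq] at b1
  exact hx (orderOf_eq_one_iff.1 (Nat.eq_one_of_dvd_coprimes ((Nat.coprime_primes Nat.prime_two Fact.out).2 hp.symm)
    (orderOf_dvd_of_pow_eq_one b1) (orderOf_dvd_of_pow_eq_one (e.pow_eq_one (e.pow x)))))

end Cfsg.Agent.S3053
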