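import Cfsg.Statements.S3054
import Cfsg.Agent.Small.P3

set_option autoImplicit false
open Cfsg

namespace Cfsg.Agent.S3054

open Subgroup Cfsg.Agent.BG Cfsg.Agent.Small

theorem aut {A : Type*} [CommGroup A] [Finite A] {p : ℕ} [hp : Fact p.Prime] (hc : Nat.card A = p ^ 2)
    (he : ∀ a : A, a ^ p = 1) {z : A} (hz : orderOf z = p) : ∃ φ : MulAut A, orderOf φ = p ∧ φ z ∉ zpowers z := by
  obtain ⟨y, hy⟩ : ∃ y, y ∉ zpowers z := by
    by_contra! c
    have := Nat.card_zpowers z
    rw [(eq_top_iff' _).2 c, card_top, hc, hz] at this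
    exact absurd ((Nat.pow_eq_self_iff hp.1.one_lt).1 this) (by norm_num)
  have oy : #(zpowers y) = p := by
    rw [Nat.card_zpowers, orderOf_eq_prime (he y) fun e => hy (e ▸ one_mem _)]
  have cq : Nat.card (A ⧸ zpowers y) = p := by
    have := card_eq_card_quotient_mul_card_subgroup (zpowers y)
    rw [hc, oy, sq] at this
    exact (Nat.eq_of_mul_eq_mul_right hp.1.pos this).symm
  let g : A →* A := (zpowers y).subtype.comp ((mulEquivOfPrimeCardEq cq oy).toMonoidHom.comp (QuotientGroup.mk' _))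
  have g1 : ∀ a, g a ∈ zpowers y := fun a => Subtype.property _
  have g2 : ∀ a, g a = 1 ↔ a ∈ zpowers y := fun a => by simp [g]
  have ti : zpowers z ⊓ zpowers y = ⊥ := by
    by_contra c
    exact hy (prime_meet (A := zpowers y) (oy.symm ▸ hp.1) (by rwa [inf_comm]) (mem_zpowers y))
  have zy : z ∉ zpowers y := fun c => hp.1.one_lt.ne' (by
    rw [← hz, orderOf_eq_one_iff]; exact mem_bot.1 (ti ▸ mem_inf.2 ⟨mem_zpowers z, c⟩))
  let φ : MulAut A := MulEquiv.ofBijective (MonoidHom.id A * g) (Finite.injective_iff_bijective.1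
    ((injective_iff_map_eq_one _).2 fun a ha => by
      have h1 : a * g a = 1 := ha
      have h2 := congrArg g h1
      rw [map_mul, (g2 _).2 (g1 a), mul_one, map_one] at h2
      rwa [h2, mul_one] at h1))
  have f1 : ∀ a, φ a = a * g a := fun a => rfl
  have f2 : ∀ (n : ℕ) a, (φ ^ n) a = a * g a ^ n := fun n a => by
    induction n with
    | zero => simp
    | succ n ih => rw [pow_succ', MulAut.mul_apply, ih, f1, map_mul, map_pow, (g2 _).2 (g1 a), one_pow, mul_one,
      mul_assoc, pow_succ]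
  have f3 : φ z ∉ zpowers z := fun c => zy ((g2 z).1 (mem_bot.1 (ti ▸ mem_inf.2
    ⟨(mul_mem_cancel_left (mem_zpowers z)).1 c, g1 z⟩)))
  exact ⟨φ, orderOf_eq_prime (MulEquiv.ext fun a => by rw [f2, he, mul_one]; rfl)
    fun e => f3 (by rw [e]; exact mem_zpowers z), f3⟩

/-- Let p be an odd prime and G a finite group with a Sylow p-subgroup P that is extraspecial of order p³ and exponent p. Suppose P contains three distinct subgroups A of order p² (each is elementary abelian of rank 2) such that every automorphism of A of order p is induced by conjugation by an element of G; equivalently the automorphism group induced on A by its normalizer contains the special linear group of A. Then p ≤ 13. -/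
theorem result {G : Type*} [Group G] [Finite G]
    {p : ℕ} [Fact p.Prime] (hp : p ≠ 2) (P : Sylow p G) (hE : Cfsg.IsExtraspecial p ↥P)
    (hcard : Nat.card P = p ^ 3) (hexp : Monoid.exponent ↥P = p)
    (A : Fin 3 → Subgroup G) (hA : Function.Injective A) (hAP : ∀ i, A i ≤ (P : Subgroup G))
    (hAcard : ∀ i, Nat.card ↥(A i) = p ^ 2)
    (hSL : ∀ i, ∀ φ : MulAut ↥(A i), orderOf φ = p → ∃ g : G, ∀ a : ↥(A i), (φ a : G) = g * (a : G) * g⁻¹) :
    p ≤ 13 := by
  obtain ⟨z, h⟩ := X3.of P hE hcard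
  have pp : p.Prime := Fact.out
  have he : ∀ x ∈ (P : Subgroup G), x ^ p = 1 := fun x hx =>
    congrArg Subtype.val (hexp ▸ Monoid.pow_exponent_eq_one (⟨x, hx⟩ : P))
  have key : ∀ i, ∃ y, (y ∈ (P : Subgroup G) ∧ y ∉ zpowers z ∧ ∃ g, g * y * g⁻¹ ∈ zpowers z) ∧
      A i = zpowers y ⊔ zpowers z := fun i => by
    haveI := IsPGroup.isMulCommutative_of_card_eq_prime_sq (hAcard i)
    have zA : z ∈ A i := by
      by_contra c
      have h1 := card_sup_mul_inf (A := A i) (B := zpowers z) (.inl (cents_norm (cents_symm (zpowers_le.2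
        fun x hx => (h.com (mem_zpowers z) (hAP i hx)).symm))))
      have h2 : A i ⊓ zpowers z = ⊥ := by
        by_contra c'
        exact c (prime_meet (A := zpowers z) (by rwa [Nat.card_zpowers, h.ord]) (by rwa [inf_comm]) (mem_zpowers z))
      rw [h2, card_bot, mul_one, hAcard, Nat.card_zpowers, h.ord, ← pow_succ, ← h.card] at h1
      have h3 := eq_of_le_of_card_ge (sup_le (hAP i) h.zle) h1.ge
      have h4 : IsMulCommutative (P : Subgroup G) := h3 ▸ abelianY inferInstance inferInstance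
        (cents_symm (zpowers_le.2 fun x hx => (h.com (mem_zpowers z) (hAP i hx)).symm))
      exact PGrp.ES_not_comm hE h4
    letI : CommGroup (A i) := IsMulCommutative.instCommGroup
    obtain ⟨φ, o, hφ⟩ := aut (hAcard i) (fun a => Subtype.ext (he a (hAP i a.2))) (z := ⟨z, zA⟩)
      (by rw [← orderOf_coe]; exact h.ord)
    obtain ⟨g, hg⟩ := hSL i φ o
    have hn : (φ ⟨z, zA⟩ : G) ∉ zpowers z := fun c => hφ (mem_zp.2 c)
    refine ⟨φ ⟨z, zA⟩, ⟨hAP i (Subtype.property _), hn, g⁻¹, by simp [hg, mul_assoc]⟩, (eq_of_le_of_card_ge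
      (sup_le (zpowers_le.2 (Subtype.property _)) (zpowers_le.2 zA)) ?_).symm⟩
    obtain ⟨k, hk⟩ := (P.2.to_le (sup_le (zpowers_le.2 (hAP i (φ ⟨z, zA⟩).2)) h.zle)).exists_card_eq
    have := proper_card (lt_of_le_of_ne le_sup_right fun q => hn (q ▸ mem_sup_left (mem_zpowers _)) :
      zpowers z < zpowers (φ ⟨z, zA⟩ : G) ⊔ zpowers z)
    rw [hk, Nat.card_zpowers, h.ord] at this
    rw [hk, hAcard]
    exact Nat.pow_le_pow_right pp.pos ((Nat.pow_lt_pow_iff_right pp.one_lt).1 ((pow_one p).trans_lt this))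
  choose y hy e using key
  have ne : ∀ i j, i ≠ j → y j ∉ zpowers (y i) ⊔ zpowers z := fun i j hij c => hij (hA (eq_of_le_of_card_ge
    (by rw [e i, e j]; exact sup_le (zpowers_le.2 c) le_sup_right) (by rw [hAcard, hAcard])).symm)
  have := h.bound (Y := Set.range y) (by rintro _ ⟨i, rfl⟩; exact hy i) ⟨0, rfl⟩ ⟨1, rfl⟩ ⟨2, rfl⟩
    (ne 0 1 (by decide)) (ne 0 2 (by decide)) (ne 1 2 (by decide))
  omega

end Cfsg.Agent.S3054
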