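import Cfsg.Statements.S3055
import Cfsg.Agent.Small.P3

set_option autoImplicit false
open Cfsg

namespace Cfsg.Agent.S3055

open Subgroup Cfsg.Agent.BG Cfsg.Agent.Small

/-- Let p be an odd prime and G a finite group with a Sylow p-subgroup P that is extraspecial of order p³ and exponent p. If all nonidentity elements of P are conjugate in G, then p ≤ 7. -/
theorem result {G : Type*} [Group G] [Finite G]
    {p : ℕ} [Fact p.Prime] (hp : p ≠ 2) (P : Sylow p G) (hE : Cfsg.IsExtraspecial p ↥P)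
    (hcard : Nat.card P = p ^ 3) (hexp : Monoid.exponent ↥P = p)
    (hconj : ∀ x y : ↥P, x ≠ 1 → y ≠ 1 → ∃ g : G, g * (x : G) * g⁻¹ = (y : G)) :
    p ≤ 7 := by
  obtain ⟨z, h⟩ := X3.of P hE hcard
  obtain ⟨c, -, c1, c2, c3, c4, -⟩ := coord h.es h.cen h.card
  have key : ∀ x y : P, c x 0 * c y 1 ≠ c x 1 * c y 0 → (y : G) ∉ zpowers (x : G) ⊔ zpowers z := fun x y hn hy => by
    obtain ⟨_, ⟨k, rfl⟩, d, hd, e⟩ := (mem_sup_normr (zpowers_le.2 (mem_norm_of_cj_le (by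
      rintro _ ⟨w, hw, rfl⟩
      simpa [← (h.com hw x.2).eq] using hw)))).1 hy
    rw [show y = x ^ k * ⟨d, h.zle hd⟩ from Subtype.ext e, c1, c2, (c4 ⟨d, _⟩).2 (mem_zp.2 hd), add_zero] at hn
    exact hn (by simp only [Pi.smul_apply, smul_eq_mul]; ring)
  obtain ⟨x, hx⟩ := c3 ![1, 0]
  obtain ⟨y, hy⟩ := c3 ![0, 1]
  obtain ⟨w, hw⟩ := c3 ![1, 1]
  have mem : ∀ x : P, c x ≠ 0 → (x : G) ∈ {y | y ∈ (P : Subgroup G) ∧ y ∉ zpowers z} :=
    fun x hx => ⟨x.2, fun e => hx ((c4 x).2 (mem_zp.2 e))⟩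
  rcases h.bound (Y := {y | y ∈ (P : Subgroup G) ∧ y ∉ zpowers z}) (fun y hy => ⟨hy.1, hy.2, by
      obtain ⟨g, hg⟩ := hconj ⟨y, hy.1⟩ ⟨z, h.mem⟩ (fun e => hy.2 (by rw [show y = 1 from congrArg Subtype.val e]; simp))
        h.es.ne_one
      exact ⟨g, hg ▸ mem_zpowers z⟩⟩) (mem x (by simp [hx])) (mem y (by simp [hy])) (mem w (by simp [hw]))
    (key x y (by simp [hx, hy])) (key x w (by simp [hx, hw])) (key y w (by simp [hy, hw])) with h | ⟨-, y, h1, h2, h3⟩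
  · exact h
  · exact absurd ⟨h1, h2⟩ h3

end Cfsg.Agent.S3055
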