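import Cfsg.Statements.S3057
import Cfsg.Agent.Loc.Rk1
import Cfsg.Agent.Loc.Chain
import Cfsg.Agent.PLocal.PSolv

set_option autoImplicit false
open Cfsg

namespace Cfsg.Agent.S3057

/-- Let p be a prime and G a finite p-solvable group of order divisible by p, with Sylow p-subgroup P. Then the Sylow p-subgroups of G fail to be chain-connected through nontrivial intersections (equivalently, G has a strongly p-embedded subgroup) if and only if O_p(G) = 1 and P is cyclic or, for p = 2, generalized quaternion. -/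
theorem result {G : Type*} [Group G] [Finite G]
    (p : ℕ) [Fact p.Prime] (hdiv : p ∣ Nat.card G) (hsol : Cfsg.IsPSolvable p G) (P : Sylow p G) :
    ¬ Cfsg.IsSylowChainConnected p G ↔
      Cfsg.pCore p G = ⊥ ∧ (IsCyclic ↥P ∨ (p = 2 ∧ ∃ n : ℕ, Nonempty (↥P ≃* QuaternionGroup (2 ^ n)))) := by
  open Cfsg.Agent.Loc Subgroup in
  open scoped commutatorElement in
  rw [not_chainConnected_iff]
  have hP : (P : Subgroup G) ≠ ⊥ := (sylIn_top P).ne_bot (by rwa [card_top])
  constructor
  · rintro ⟨M, hM⟩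
    have hO : pCore p G = ⊥ := (pCoreOf_top p G).symm.trans hM.pCoreOf_eq_bot
    refine ⟨hO, ?_⟩
    obtain ⟨T, hT, hT', hb⟩ := hM.exists_sylIn
    obtain ⟨g, -, e⟩ := hT'.exists_conj (sylIn_top P)
    have hr : Rk1 p (P : Subgroup G) := by
      rw [← e]
      refine ((rk1_or_exists hT.pg).resolve_right ?_).conj g
      rintro ⟨A, hA, hE, hc⟩
      have h1 : pPrimeCore p G ≤ M := hM.le_of_not_isCyclic (hA.trans hT.le) (isPGroup_of_isElementaryAbelian hE)
        hE.1 hc le_top (le_top.trans (normalizer_eq_top _).ge) Sig.coprime_pPrimeCore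
      have hs : (⊤ : Subgroup G).map (QuotientGroup.mk' (pPrimeCore p G)) = ⊤ :=
        map_top_of_surjective _ (QuotientGroup.mk'_surjective _)
      have h : SE p (M.map (QuotientGroup.mk' (pPrimeCore p G))) ⊤ := by
        rw [← hs]
        refine hM.map _ Sig.coprime_ker_mk' fun e => hM.lt.ne ?_
        rw [← sup_eq_left.2 h1, ← Solv.comap_map_mk', e, hs, comap_top]
      haveI : Nontrivial (G ⧸ pPrimeCore p G) := by
        obtain ⟨x, -, hx, -⟩ := h.ex
        exact ⟨x, 1, hx⟩
      rcases PLocal.core_ne_bot_of_pSolv (PLocal.pSolv_quotient hsol (pPrimeCore p G)) with h2 | h2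
      · exact h2 ((pCoreOf_top p _).symm.trans h.pCoreOf_eq_bot)
      · exact h2 Sig.pPrimeCore_quotient
    rcases hr.isCyclic_or_quaternion P.isPGroup' with h | ⟨h, n, -, e⟩
    · exact Or.inl h
    · exact Or.inr ⟨h, n, e⟩
  · rintro ⟨hO, hT⟩
    have h : Rk1 p (P : Subgroup G) := by
      rcases hT with h | ⟨-, n, ⟨e⟩⟩
      · exact rk1_of_isCyclic h
      · exact (rk1_of_quaternion P.isPGroup' e).2
    refine ⟨_, h.se (sylIn_top P) hP fun hn => omegaOne_ne_bot P.isPGroup' hP (eq_bot_iff.2 ?_)⟩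
    rw [← hO]
    exact le_pCore (normal_of_top_le_normalizer hn) (P.isPGroup'.to_le (omegaOne_le _ _))

end Cfsg.Agent.S3057
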