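import Cfsg.Statements.S3058
import Cfsg.Agent.Loc.Chain

set_option autoImplicit false
open Cfsg

namespace Cfsg.Agent.S3058

/-- Let p be a prime and G a finite group whose Sylow p-subgroups are not chain-connected through nontrivial intersections (so G has a strongly p-embedded subgroup). If N and M are normal subgroups of G whose orders are both divisible by p, then the order of N ∩ M is divisible by p. Consequently, among the normal subgroups of G whose order is divisible by p there is a smallest one (the intersection of all of them). -/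
theorem result {G : Type*} [Group G] [Finite G]
    (p : ℕ) [Fact p.Prime] (hG : ¬ Cfsg.IsSylowChainConnected p G)
    (N M : Subgroup G) [N.Normal] [M.Normal] (hN : p ∣ Nat.card N) (hM : p ∣ Nat.card M) :
    p ∣ Nat.card ↥(N ⊓ M) := by
  open Cfsg.Agent.Loc Subgroup in
  open scoped commutatorElement in
  obtain ⟨H, hH⟩ := not_chainConnected_iff.1 hG
  by_contra hd
  obtain ⟨T, hT, hT', -⟩ := hH.exists_sylIn
  have h1 := hT'.inf_normal' (N := N) le_top (normalizer_eq_top N).ge
  have h2 := hT'.inf_normal' (N := M) le_top (normalizer_eq_top M).ge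
  have hc : (Nat.card (N ⊓ M : Subgroup G)).Coprime p :=
    ((Fact.out : p.Prime).coprime_iff_not_dvd.2 hd).symm
  -- `N` normalizes `(T ⊓ M)(N ⊓ M)`
  have hn : N ≤ normalizer (((N ⊓ M) ⊔ (T ⊓ M) : Subgroup G) : Set G) :=
    le_normalizer_of_commutator_le (le_trans (by
      refine le_inf (commutator_le_left _ _) ?_
      exact (commutator_mono le_rfl (sup_le inf_le_right inf_le_right)).trans (commutator_le_right _ _)) le_sup_left)
  have h3 : SylIn p (T ⊓ M) ((N ⊓ M) ⊔ (T ⊓ M)) := h2.mono le_sup_right (sup_le inf_le_right inf_le_right)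
  have hb := h2.ne_bot hM
  -- `N ⊓ M ≤ H` or `T ⊓ N`, `T ⊓ M` generate a noncyclic group
  obtain ⟨x, hx, hx1, hxp⟩ := exists_pow_eq_one_of_isPGroup (hT.pg.to_le (inf_le_left.trans inf_le_left))
    (inf_centralizer_ne_bot hT.pg h1.pg (le_normalizer_inf le_normalizer (le_top.trans (normalizer_eq_top N).ge))
      (h1.ne_bot hN))
  obtain ⟨y, hy, hy1, hyp⟩ := exists_pow_eq_one_of_isPGroup h2.pg hb
  have hA : IsElementaryAbelian p (zpowers x ⊔ zpowers y) :=
    isElementaryAbelian_sup (PLocal.ea_zpowers hxp) (PLocal.ea_zpowers hyp)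
      (zpowers_le.2 (centralizer_anti (zpowers_le.2 hy.1) hx.2))
  have hAT : zpowers x ⊔ zpowers y ≤ T := sup_le (zpowers_le.2 hx.1.1) (zpowers_le.2 hy.1)
  have hnc : ¬ IsCyclic (zpowers x ⊔ zpowers y : Subgroup G) := by
    intro hcy
    obtain ⟨⟨g, hg⟩, hgen⟩ := hcy.exists_generator
    have hgp := hA.2 g hg
    have key : ∀ z ∈ zpowers x ⊔ zpowers y, z ≠ 1 → zpowers z = zpowers g := by
      intro z hz hz1
      obtain ⟨k, hk⟩ := hgen ⟨z, hz⟩
      have hk' : g ^ k = z := congrArg Subtype.val hk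
      have hg1 : g ≠ 1 := by rintro rfl; exact hz1 (by rw [← hk', one_zpow])
      refine eq_of_le_of_card_ge (zpowers_le.2 ⟨k, hk'⟩) ?_
      rw [Nat.card_zpowers, Nat.card_zpowers, orderOf_eq_prime_of_pow hg1 hgp,
        orderOf_eq_prime_of_pow hz1 (hA.2 z hz)]
    have e := (key x (mem_sup_left (mem_zpowers x)) hx1).trans (key y (mem_sup_right (mem_zpowers y)) hy1).symm
    have hxM : x ∈ M := (e.le.trans (zpowers_le.2 hy.2)) (mem_zpowers x)
    have := inf_eq_bot_of_isPGroup_of_coprime hT.pg hc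
    exact hx1 ((eq_bot_iff_forall _).1 this x ⟨hx.1.1, hx.1.2, hxM⟩)
  have h4 : N ⊓ M ≤ H := hH.le_of_not_isCyclic (hAT.trans hT.le) (isPGroup_of_isElementaryAbelian hA) hA.1 hnc
    le_top (le_top.trans (normalizer_eq_top _).ge) hc
  refine hH.not_le (N := N) le_top (normalizer_eq_top N).ge hN fun g hg => ?_
  obtain ⟨n, hn', k, hk, rfl⟩ := h3.frattini (hn hg)
  exact H.mul_mem (sup_le h4 (inf_le_left.trans hT.le) hn')
    (hH.normalizer_le h2.pg hb (inf_le_left.trans hT.le) ⟨trivial, hk⟩)

end Cfsg.Agent.S3058
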