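import Cfsg.Statements.S3060
import Cfsg.Agent.Loc.DStar

set_option autoImplicit false
open Cfsg

namespace Cfsg.Agent.S3060

/-- The D*-Theorem. For a finite p-group S let D*(S) be the subgroup generated by the abelian subgroups A of S such that every x ∈ S with ⟨A, x⟩ of nilpotency class at most two centralizes A. Let p be an odd prime and H a finite p-stable group with Sylow p-subgroup S. Here H is p-stable in the following sense: the largest normal p-subgroup O_p(H) contains its centralizer in H, and for every normal p-subgroup P of H, every element acting quadratically on P has image in O_p(H/C_H(P)). Then D*(S) is a normal subgroup of H. -/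
theorem result {G : Type*} [Group G] [Finite G] {p : ℕ} [Fact p.Prime] (hp : p ≠ 2)
    (hc : Subgroup.centralizer (Cfsg.pCore p G : Set G) ≤ Cfsg.pCore p G)
    (hst : ∀ (P : Subgroup G) [P.Normal], IsPGroup p P → Cfsg.IsPStableOn p P) (S : Sylow p G) :
    (Cfsg.dStarOf (S : Subgroup G)).Normal := by
  open Cfsg.Agent.Loc Subgroup in
  set D := dStarOf (S : Subgroup G) with hD
  have hDS : D ≤ S := map_subtype_le _
  have hSD : (S : Subgroup G) ≤ normalizer (D : Set G) :=
    le_normalizer.trans (normalizer_le_normalizer_map_subtype _)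
  have hmem := dStarFamily_iff.1 (dStar_mem S.isPGroup')
  have hDab : D ≤ centralizer (D : Set G) := by
    rintro _ ⟨x, hx, rfl⟩ _ ⟨y, hy, rfl⟩
    exact congrArg Subtype.val (hmem.1 hx y hy)
  have hDq : ∀ x ∈ (S : Subgroup G), ⁅⁅D, zpowers x⁆, zpowers x⁆ = ⊥ → x ∈ centralizer (D : Set G) := by
    rintro x hx h _ ⟨y, hy, rfl⟩
    refine congrArg Subtype.val (hmem.2 ⟨x, hx⟩ ?_ ?_ y hy)
    · exact commutator_eq_bot_iff_le_centralizer.2 ((commutator_le_left _ _).trans hmem.1)
    · apply map_injective (S : Subgroup G).subtype_injective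
      rw [map_commutator, map_commutator, MonoidHom.map_zpowers, Subgroup.map_bot]
      exact h
  have hT : pCore p G ≤ S := pCore_le_sylow S
  have hDT : D ≤ pCore p G := by
    intro d hd
    have h1 := hst (pCore p G) (isPGroup_pCore p G) d (commutator_eq_bot_iff_le_centralizer.2
      (((commutator_mono hT (zpowers_le.2 hd)).trans (commutator_le_right_of_le_normalizer hSD)).trans
        (hDab.trans (centralizer_anti (zpowers_le.2 hd)))))
    rw [← comap_pCore_of_ker_isPGroup (QuotientGroup.mk'_surjective (centralizer (pCore p G : Set G)))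
      (by rw [QuotientGroup.ker_mk']; exact (isPGroup_pCore p G).to_le hc)]
    exact h1
  have hDE : D ≤ dStarOf (pCore p G) := by
    have : D.subgroupOf (pCore p G) ∈ dStarFamily (pCore p G) := by
      refine dStarFamily_iff.2 ⟨?_, fun x _ h2 => ?_⟩
      · rw [← subgroupOf_centralizer hDT]; exact subgroupOf_mono _ hDab
      · rw [← subgroupOf_centralizer hDT]
        refine hDq x (hT x.2) ?_
        have := congrArg (Subgroup.map (pCore p G).subtype) h2
        rwa [map_commutator, map_commutator, MonoidHom.map_zpowers, Subgroup.map_bot, subgroupOf_map_subtype,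
          inf_eq_left.2 hDT] at this
    have h2 := map_mono (f := (pCore p G).subtype) (le_dStar this)
    rwa [subgroupOf_map_subtype, inf_eq_left.2 hDT] at h2
  have hEn : (dStarOf (pCore p G)).Normal := normal_of_top_le_normalizer
    (le_normalizer_of_normal.trans (normalizer_le_normalizer_map_subtype _))
  have hEab : dStarOf (pCore p G) ≤ centralizer ((dStarOf (pCore p G) : Subgroup G) : Set G) := by
    rintro _ ⟨x, hx, rfl⟩ _ ⟨y, hy, rfl⟩
    exact congrArg Subtype.val (dStar_abelian (isPGroup_pCore p G) hx y hy)
  set W := normalClosure (D : Set G) with hW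
  have hWE : W ≤ dStarOf (pCore p G) := normalClosure_le_normal hDE
  have hWT : W ≤ pCore p G := hWE.trans (map_subtype_le _)
  have hWab : W ≤ centralizer (W : Set G) := le_centralizer_self_of_le hEab hWE
  have hDW : D ≤ W := le_normalClosure
  have hWq : ∀ x : G, ⁅⁅W, zpowers x⁆, zpowers x⁆ = ⊥ → x ∈ centralizer (D : Set G) := by
    intro x hx
    have h1 := hst W ((isPGroup_pCore p G).to_le hWT) x hx
    have h2 : pCore p (G ⧸ centralizer (W : Set G)) ≤
        (S : Subgroup G).map (QuotientGroup.mk' (centralizer (W : Set G))) :=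
      pCore_le_sylow (S.mapSurjective (QuotientGroup.mk'_surjective _))
    obtain ⟨y, hy, hyx⟩ := h2 h1
    have hc' : y⁻¹ * x ∈ centralizer (W : Set G) := QuotientGroup.eq.1 hyx
    have h3 : zpowers y ≤ zpowers x ⊔ centralizer (W : Set G) := by
      rw [zpowers_le]
      have : y = x * (y⁻¹ * x)⁻¹ := by group
      rw [this]; exact mul_mem_sup (mem_zpowers x) (inv_mem hc')
    have h4 : ⁅W, zpowers y⁆ ≤ ⁅W, zpowers x⁆ :=
      (commutator_mono le_rfl h3).trans (commutator_sup_right_le (normalizer_commutator_ge_right _ _)
        (le_normalizer_of_le_centralizer (centralizer_anti (commutator_le_left _ _))) le_rfl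
        (commutator_le_of_le_centralizer' le_rfl _))
    have h5 : ⁅⁅D, zpowers y⁆, zpowers y⁆ = ⊥ := by
      rw [commutator_eq_bot_iff']
      refine h3.trans (le_trans (sup_le (commutator_eq_bot_iff'.1 hx)
        (centralizer_anti (commutator_le_left _ _))) (centralizer_anti ?_))
      exact (commutator_mono hDW le_rfl).trans h4
    have : x = y * (y⁻¹ * x) := by group
    rw [this]; exact mul_mem (hDq y hy h5) (centralizer_anti hDW hc')
  have hWD : W ≤ D := by
    have hWS := hWT.trans hT
    have : W.subgroupOf S ∈ dStarFamily (S : Subgroup G) := by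
      refine dStarFamily_iff.2 ⟨?_, fun x _ h2 => ?_⟩
      · rw [← subgroupOf_centralizer hWS]; exact subgroupOf_mono _ hWab
      · rw [← subgroupOf_centralizer hWS, mem_subgroupOf]
        have h3 := congrArg (Subgroup.map (S : Subgroup G).subtype) h2
        rw [map_commutator, map_commutator, MonoidHom.map_zpowers, Subgroup.map_bot, subgroupOf_map_subtype,
          inf_eq_left.2 hWS] at h3
        rw [hW, normalClosure_eq_iSup_cj, centralizer_iSup', mem_iInf]
        intro g
        rw [← cj_centralizer, mem_cj]
        apply hWq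
        have h4 := congrArg (fun K => cj g⁻¹ K) h3
        simp only [cj_commutator, cj_zpowers, cj_bot, cj_eq_of_normal, inv_inv] at h4
        exact h4
    have h2 := map_mono (f := (S : Subgroup G).subtype) (le_dStar this)
    rwa [subgroupOf_map_subtype, inf_eq_left.2 hWS] at h2
  rw [le_antisymm hDW hWD]; infer_instance

end Cfsg.Agent.S3060
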