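import Cfsg.Statements.S3062
import Cfsg.Agent.Loc.DStar

set_option autoImplicit false
open Cfsg

namespace Cfsg.Agent.S3062

/-- Let S be a finite p-group, J(S) the subgroup generated by the abelian subgroups of S of largest order and Z(J(S)) its centre. Then Z(S) ≤ D*(S) ≤ Z(J(S)), and every maximal normal abelian subgroup of S contains D*(S). -/
theorem result {S : Type*} [Group S] [Finite S] {p : ℕ} [Fact p.Prime]
    (hS : IsPGroup p S) :
    Subgroup.center S ≤ Cfsg.dStar S ∧
    Cfsg.dStar S ≤ Cfsg.thompsonSubgroupA S ⊓ Subgroup.centralizer (Cfsg.thompsonSubgroupA S : Set S) ∧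
    ∀ A : Subgroup S, A.Normal → IsMulCommutative A →
      (∀ B : Subgroup S, B.Normal → IsMulCommutative B → A ≤ B → B = A) → Cfsg.dStar S ≤ A := by
  open Cfsg.Agent.Loc Subgroup in
  have := hS.isNilpotent
  have hC : dStar S ≤ centralizer ((thompsonSubgroupA S : Subgroup S) : Set S) := by
    rw [le_centralizer_iff]
    refine sSup_le fun A hA => ?_
    by_contra hne
    obtain ⟨B, hB, h1, h2⟩ := exists_maxAbelian_quadratic (dStar_abelian hS) hA hne
    refine h1 fun b hb => (dStarFamily_iff.1 (dStar_mem hS)).2 b ?_ ?_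
    · exact commutator_eq_bot_iff_le_centralizer.2 ((commutator_le_left _ _).trans (dStar_abelian hS))
    · exact commutator_eq_bot_iff_le_centralizer.2 ((commutator_mono le_rfl (zpowers_le.2 hb)).trans
        (h2.trans ((maxAbelian_iff.1 hB).1.trans (centralizer_anti (zpowers_le.2 hb)))))
  refine ⟨le_dStar center_mem_dStarFamily, le_inf (hC.trans centralizer_thompsonSubgroupA_le) hC, ?_⟩
  intro A hA hab hmax
  have hab' := le_centralizer_iff_isMulCommutative.2 hab
  refine (le_inf le_top (dStar_le_centralizer hS hab')).trans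
    (inf_centralizer_le_of_maximal_normal_abelian (hS.to_subgroup ⊤) le_top le_normalizer_of_normal hab' ?_)
  intro B h1 _ h3 h4
  exact hmax B (normal_of_top_le_normalizer h3) (le_centralizer_iff_isMulCommutative.1 h4) h1

end Cfsg.Agent.S3062
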