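import Cfsg.Statements.S3063
import Cfsg.Agent.Loc.Replace

set_option autoImplicit false
open Cfsg

namespace Cfsg.Agent.S3063

/-- A weak replacement Theorem for metabelian p-groups: let S be a finite p-group whose derived subgroup is abelian and A an abelian subgroup of S of largest possible order. Then the normal closure of A in S contains an abelian subgroup B of the same order as A that is normal in S. -/
theorem result {S : Type*} [Group S] [Finite S] {p : ℕ} [Fact p.Prime]
    (hS : IsPGroup p S) (hmeta : IsMulCommutative ↥(commutator S))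
    (A : Subgroup S) (hA : A ∈ Cfsg.maxAbelianSubgroups S) :
    ∃ B ∈ Cfsg.maxAbelianSubgroups S, B.Normal ∧ B ≤ Subgroup.normalClosure (A : Set S) := by
  open Cfsg.Agent.Loc Subgroup in
  have := hS.isNilpotent
  obtain ⟨B, ⟨hB, hBA⟩, hmax⟩ := exists_max_measure
    (S := {B : Subgroup S | B ∈ maxAbelianSubgroups S ∧ B ≤ normalClosure (A : Set S)})
    ⟨A, hA, le_normalClosure⟩ potential
  refine ⟨B, hB, normal_of_top_le_normalizer fun x _ => ?_, hBA⟩
  obtain ⟨hZ, hB2⟩ := maxAbelian_iff.1 hB
  have hM : commEl x B ≤ centralizer ((commEl x B : Subgroup S) : Set S) :=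
    le_centralizer_self_of_le (le_centralizer_iff_isMulCommutative.2 hmeta)
      ((commEl_le_commutator (mem_top x)).trans (commutator_mono le_rfl le_top))
  have hY := replace_le_centralizer hZ hM
  have hle := hmax _ ⟨maxAbelian_of_card_le hB hY (thompson_card_le hZ hM),
    sup_le ((commEl_le_commutator (mem_top x)).trans ((commutator_mono le_rfl hBA).trans
      (commutator_le_right _ _))) (inf_le_left.trans hBA)⟩
  have hc : B ≤ centralizer ((commEl x B : Subgroup S) : Set S) := by
    by_contra hne
    exact absurd (potential_lt hZ hM hne) (not_lt.2 hle)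
  apply mem_normalizer_of_commEl_le
  exact (le_centralizer_iff.1 hc).trans (centralizer_eq_of_maxAbelian hB).le

end Cfsg.Agent.S3063
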