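import Cfsg.Statements.S3064
import Cfsg.Agent.Loc.Cpl
import Cfsg.Agent.Char.Frobenius

set_option autoImplicit false
open Cfsg

namespace Cfsg.Agent.S3064

section helpers
open Cfsg.Agent.Loc Subgroup
open scoped commutatorElement

theorem aux (p : ℕ) [Fact p.Prime] (n : ℕ) : ∀ (G : Type*) [Group G] [Finite G], Nat.card G = n →
    ∀ x : G, IsPGroup p (zpowers x) → IsIsolated x →
    (∀ H : Subgroup G, (Nat.card H).Coprime p → x ∈ normalizer (H : Set G) → x ∈ centralizer (H : Set G)) →
    x ∈ center G := by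
  induction n using Nat.strong_induction_on with
  | _ n ih =>
  intro G _ _ hn x hx hiso hb
  have key : ∀ H : Subgroup G, H ≠ ⊤ → x ∈ H → H ≤ centralizer ({x} : Set G) := by
    intro H hH hxH g hg
    have := ih _ (hn ▸ Solv.card_lt_of_ne_top hH) H rfl ⟨x, hxH⟩
      (isPGroup_of_map_subtype (by rw [MonoidHom.map_zpowers]; exact hx)) (isolated_subgroup hiso hxH)
      fun K hK hxK => by
        have h1 := hb (K.map H.subtype) (by rwa [card_map_subtype])
          ((map_subtype_normalizer K).le (mem_map_of_mem H.subtype hxK)).1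
        exact fun k hk => Subtype.ext (h1 k (mem_map_of_mem H.subtype hk))
    exact mem_cent1'.2 (congrArg Subtype.val (mem_center_iff.1 this ⟨g, hg⟩))
  obtain ⟨N, hN, -, h1, h2⟩ := Char.exists_normal_of_wielandt (H := centralizer ({x} : Set G)) (L := center G)
    (center_le_centralizer _) (fun h _ y hy => (inferInstance : (center G).Normal).conj_mem y hy h)
    fun g hg y hy hy' => by
      by_contra hc
      have h3 : centralizer ({y} : Set G) ≠ ⊤ := fun h => hc (mem_center_iff.2 fun a =>
        mem_cent1'.1 (h ▸ mem_top a : a ∈ centralizer ({y} : Set G)))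
      have h4 : g⁻¹ * x * g⁻¹⁻¹ ∈ centralizer ({y} : Set G) := by
        have := conj_mem_cj (g := g⁻¹) (mem_cent1_comm.1 hy')
        rwa [cj_centralizer_singleton, show g⁻¹ * (g * y * g⁻¹) * g⁻¹⁻¹ = y by group] at this
      exact hg (inv_mem_iff.1 (mem_cent1.2 (hiso g⁻¹ (mem_cent1'.1 (key _ h3 (mem_cent1_comm.1 hy) h4)).symm)))
  obtain ⟨P, hP, hxP⟩ := exists_sylIn_ge (H := ⊤) le_top hx
  have hPC := isolated_le_cent hiso hP.pg (hxP (mem_zpowers x))
  have hT := hP.inf_normal' (le_top : N ≤ ⊤) le_normalizer_of_normal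
  have h5 := ppIn_sup_of_central hT (fun t ht => center_le_centralizer _ (h1 ▸ ⟨ht.2, hPC ht.1⟩))
  have h6 : N ≤ centralizer ({x} : Set G) := by
    rw [← h5]
    exact sup_le (le_cent1_iff.2 (hb _ Sig.coprime_ppIn (Sig.le_normalizer_ppIn (A := ⊤) le_normalizer_of_normal
      (mem_top x)))) (inf_le_left.trans hPC)
  rw [sup_eq_right.2 h6] at h2
  exact mem_center_iff.2 fun a => mem_cent1'.1 (h2 ▸ mem_top a : a ∈ centralizer ({x} : Set G))

end helpers

/-- Let S be a Sylow p-subgroup of the finite group G and x an element of S such that (i) x is the only G-conjugate of x lying in S, and (ii) x centralizes every subgroup of order prime to p that it normalizes. Then x lies in the centre of G. -/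
theorem result {G : Type*} [Group G] [Finite G] {p : ℕ} [Fact p.Prime]
    (S : Sylow p G) (x : G) (hx : x ∈ S)
    (hU : ∀ g : G, g⁻¹ * x * g ∈ S → g⁻¹ * x * g = x)
    (hb : ∀ H : Subgroup G, (Nat.card H).Coprime p → (∀ h ∈ H, x * h * x⁻¹ ∈ H) → ∀ h ∈ H, x * h = h * x) :
    x ∈ Subgroup.center G := by
  open Cfsg.Agent.Loc Subgroup in
  open scoped commutatorElement in
  refine aux p _ G rfl x (S.isPGroup'.to_le (zpowers_le.2 hx))
    (isolated_of_sylIn (sylIn_top S) hx fun g hg => by simpa using hU g⁻¹ (by rw [inv_inv]; exact hg)) fun H hH hn h hh => ?_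
  exact (hb H hH (fun k hk => conj_mem_of_mem_normalizer hn hk) h hh).symm

end Cfsg.Agent.S3064
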