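import Cfsg.Statements.S3066
import Cfsg.Agent.FTC.Out

set_option autoImplicit false
open Cfsg
open scoped Pointwise

namespace Cfsg.Agent.S3066

/-- Let G be a finite non-abelian simple group with a nontrivial Sylow 2-subgroup S (that is, G has even order). Then Out(G) = Aut(G)/Inn(G) is solvable provided one of the following holds: (a) S is generated by two elements; (b) S is generated by three elements and N_G(S)/C_G(S) is not a 2-group (some element of N_G(S) of odd order does not centralize S); (c) the involutions of S commute pairwise and are all conjugate in G. -/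
theorem result {G : Type*} [Group G] [Finite G] [IsSimpleGroup G]
    (hG : ¬ IsMulCommutative G) (S : Sylow 2 G) (hS1 : (S : Subgroup G) ≠ ⊥)
    (h : (∃ a b : ↥S, Subgroup.closure ({a, b} : Set ↥S) = ⊤) ∨
      ((∃ a b c : ↥S, Subgroup.closure ({a, b, c} : Set ↥S) = ⊤) ∧
        ∃ g ∈ Subgroup.normalizer ((S : Subgroup G) : Set G), Odd (orderOf g) ∧ g ∉ Subgroup.centralizer ((S : Subgroup G) : Set G)) ∨
      ((∀ s ∈ S, ∀ t ∈ S, orderOf s = 2 → orderOf t = 2 → s * t = t * s) ∧
        (∀ s ∈ S, ∀ t ∈ S, orderOf s = 2 → orderOf t = 2 → ∃ g : G, g * s * g⁻¹ = t))) :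
    Group.IsSolvable (Cfsg.Out G) := by
  open Subgroup FTC in
  classical
  haveI : Fact (Nat.Prime 2) := ⟨Nat.prime_two⟩
  refine out_solvable_of_perfect S hS1 fun B hB => ?_
  have hB' := perfect_map (resN (S : Subgroup G)) hB
  rcases h with ⟨a, b, h⟩ | ⟨⟨a, b, c, h⟩, g, hg, hodd, hgc⟩ | ⟨h1, h2⟩
  · obtain ⟨k, hk⟩ := (card_mulAut_dvd S.isPGroup' (T := {a, b}) (by simpa using h)).1 Finset.card_le_two
    haveI := solvable_of_dvd_two_mul Nat.prime_three hk
    exact eq_bot_of_perfect hB'
  · obtain ⟨k, hk⟩ := (card_mulAut_dvd S.isPGroup' (T := {a, b, c}) (by simpa using h)).2 Finset.card_le_three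
    have h3 : B.map (resN (S : Subgroup G)) ≤ imA (S : Subgroup G) ⊤ := by
      refine le_of_perfect_of_three_gen hk (y := (S : Subgroup G).normalizerMonoidHom ⟨g, hg⟩)
        (mem_map_of_mem _ (mem_top g)) (fun e => hgc ?_) ?_ hB' ?_
      · have : (⟨g, hg⟩ : normalizer ((S : Subgroup G) : Set G)) ∈ (S : Subgroup G).normalizerMonoidHom.ker := e
        rwa [normalizerMonoidHom_ker] at this
      · exact hodd.of_dvd_nat ((orderOf_map_dvd _ _).trans (by rw [← orderOf_coe]))
      · rintro _ ⟨φ, -, rfl⟩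
        exact resN_mem_normalizer φ fun x => Iff.rfl
    refine eq_bot_of_perfect_of_le h3 ?_ hB'
    have h4 := solvable_inf_normalizer (Transfer.isSylowIn_top S)
    rw [top_inf_eq] at h4
    rw [imA_top]
    exact Group.isSolvable_of_surjective (MonoidHom.rangeRestrict_surjective _)
  · have ho : ∀ x : G, x * x = 1 → x = 1 ∨ orderOf x = 2 := fun x hx =>
      (em (x = 1)).imp_right fun h => orderOf_eq_prime (by rwa [sq]) h
    have hcm : ∀ x ∈ S, ∀ y ∈ S, x * x = 1 → y * y = 1 → x * y = y * x := by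
      intro x hx y hy hx2 hy2
      rcases ho x hx2 with rfl | hx3
      · simp
      rcases ho y hy2 with rfl | hy3
      · simp
      exact h1 x hx y hy hx3 hy3
    let V : Subgroup G :=
      { carrier := {x | x ∈ S ∧ x * x = 1}
        mul_mem' := fun {x y} hx hy => ⟨S.1.mul_mem hx.1 hy.1, by
          rw [mul_assoc, ← mul_assoc y, ← hcm x hx.1 y hy.1 hx.2 hy.2, mul_assoc, hy.2, mul_one, hx.2]⟩
        one_mem' := ⟨S.1.one_mem, mul_one 1⟩
        inv_mem' := fun {x} hx => ⟨S.1.inv_mem hx.1, by rw [← mul_inv_rev, hx.2, inv_one]⟩ }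
    have hVS : V ≤ S := fun x hx => hx.1
    have hwc : ∀ g : G, MulAut.conj g • V ≤ S → g ∈ normalizer (V : Set G) := by
      intro g hg
      apply Transfer.mem_normalizer_of_conj_smul_le
      rw [Transfer.conj_smul_le_iff] at hg ⊢
      refine fun x hx => ⟨hg x hx, ?_⟩
      calc g * x * g⁻¹ * (g * x * g⁻¹) = g * (x * x) * g⁻¹ := by group
        _ = 1 := by rw [hx.2]; group
    have hSN : (S : Subgroup G) ≤ normalizer (V : Set G) := fun g hg => hwc g
      (Transfer.conj_smul_le_iff.2 fun x hx => S.1.mul_mem (S.1.mul_mem hg hx.1) (S.1.inv_mem hg))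
    have hVc : ∀ x ∈ V, V ≤ centralizer {x} := fun x hx y hy =>
      mem_centralizer_singleton_iff.2 (hcm y hy.1 x hx.1 hy.2 hx.2)
    have htr : ∀ v : V, v ≠ 1 → ∀ w : V, w ≠ 1 → ∃ a ∈ imA V ⊤, a v = w := by
      intro v hv w hw
      obtain ⟨g, hg⟩ := h2 v v.2.1 w w.2.1 ((ho _ v.2.2).resolve_left fun e => hv (Subtype.ext e))
        ((ho _ w.2.2).resolve_left fun e => hw (Subtype.ext e))
      obtain ⟨n, hn, e⟩ := exists_normalizer_conj S (S.isPGroup'.to_le hVS) hwc (hVc _ v.2) (hVc _ w.2) hg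
      exact ⟨V.normalizerMonoidHom ⟨n, hn⟩, mem_map_of_mem _ (mem_top n), Subtype.ext e⟩
    have hle : autN (S : Subgroup G) ≤ autN V := fun φ hφ x => and_congr (hφ x) (by
      rw [← map_mul, φ.map_eq_one_iff])
    let f : autN (S : Subgroup G) →* MulAut V := (resN V).comp (inclusion hle)
    have hf := perfect_map f hB
    have h3 : B.map f ≤ imA V ⊤ := le_of_perfect_of_transitive (fun x => Subtype.ext x.2.2) htr hf (by
      rintro _ ⟨φ, -, rfl⟩
      exact resN_mem_normalizer (inclusion hle φ) fun x => Iff.rfl)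
    have h4 : B.map f = ⊥ := eq_bot_of_perfect_of_le (le_inf h3 (by
      rintro _ ⟨φ, -, rfl⟩
      exact resN_mem_normalizer (inclusion hle φ) φ.2)) (solvable_inf_normalizer (isSylowIn_imA S hSN)) hf
    rw [eq_bot_iff]
    rintro _ ⟨φ, hφ, rfl⟩
    refine mem_bot.2 (MulEquiv.ext fun x => ?_)
    refine trivial_of_perfect_of_fix_involutions (B := B) ?_ S.isPGroup' ((resN (S : Subgroup G)).comp B.subtype)
      (fun b y hy => Subtype.ext ?_) ⟨φ, hφ⟩ x
    · apply map_injective B.subtype_injective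
      rw [map_subtype_commutator, hB, ← MonoidHom.range_eq_map, range_subtype]
    · have h5 : f b = 1 := mem_bot.1 (h4 ▸ mem_map_of_mem _ b.2)
      exact congrArg (fun a : MulAut V => (a ⟨y, y.2, congrArg Subtype.val hy⟩ : G)) h5

end Cfsg.Agent.S3066
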