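import Cfsg.Statements.S3068
import Cfsg.Agent.Sig.JD3
import Cfsg.Agent.FG.Coc

set_option autoImplicit false
open Cfsg

namespace Cfsg.Agent.S3068

open Subgroup Cfsg.Agent.BG Cfsg.Agent.Sig

/-- Let p ≥ 7 be a prime, S a Sylow p-subgroup of the finite group G, J(S) the subgroup generated by the abelian subgroups of S of largest order and M = N_G(J(S)). Then G/O^p(G) ≅ M/O^p(M): the largest p-factor group of G is that of M (here O^p(X) is the subgroup generated by the elements of X of order prime to p). -/
theorem result {G : Type*} [Group G] [Finite G] {p : ℕ} [Fact p.Prime]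
    (hp : 7 ≤ p) (S : Sylow p G)
    [hn : (Cfsg.pResidual p G).Normal]
    [hm : (Cfsg.pResidual p ↥(Subgroup.normalizer (Cfsg.thompsonSubgroupAOf (S : Subgroup G) : Set G))).Normal] :
    Nonempty (G ⧸ Cfsg.pResidual p G ≃*
      ↥(Subgroup.normalizer (Cfsg.thompsonSubgroupAOf (S : Subgroup G) : Set G)) ⧸
        Cfsg.pResidual p ↥(Subgroup.normalizer (Cfsg.thompsonSubgroupAOf (S : Subgroup G) : Set G))) := by
  have htc : PLocal.TCok p {PLocal.JAF} G := PLocal.tcok_of_degree PLocal.JAF_char (fun K R _ _ T h => by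
    rw [PLocal.ind_JAF] at h
    obtain ⟨g, h1, h2, h3, -⟩ := JD.JA_degree (by omega) T.2 (Solv.pCore_le_sylow T) h
    refine ⟨g, h1, h2, fun U V hU hUT => PLocal.iter_le_of_le ?_ (h3 U V hU hUT) (by omega)⟩
    haveI := hU.2.2.1
    exact norm_of_normal _ _) G (PLocal.involves_self G)
  have h1 := (PLocal.tcok_single_iff' PLocal.JAF_char (Transfer.isSylowIn_top S)).1 htc
  rw [PLocal.ind_JAF] at h1
  have hSH : (S : Subgroup G) ≤ N[thompsonSubgroupAOf (S : Subgroup G)] :=
    (normG _).trans (PLocal.normalizer_le_normalizer_JA _)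
  generalize N[thompsonSubgroupAOf (S : Subgroup G)] = H at *
  have h2 := FG.Coc.tate S hSH fun M _ hM _ u hu hu' => by
    have h3 : (u : G) ∈ commutator G := by
      obtain ⟨k, hk⟩ := S.2 ⟨u, hu⟩
      have hk' : (u : G) ^ p ^ k = 1 := congrArg Subtype.val hk
      let K : Subgroup (Abelianization G) :=
        { carrier := {x | Nat.Coprime (orderOf x) p}
          one_mem' := by simp
          mul_mem' := fun {a b} ha hb => Nat.Coprime.coprime_dvd_left
            (Commute.all a b).orderOf_mul_dvd_mul_orderOf (Nat.Coprime.mul_left ha hb)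
          inv_mem' := fun {a} ha => by simpa using ha }
      have h4 : pResidual p G ≤ K.comap Abelianization.of := Transfer.pResidual_le_iff.2 fun g hg =>
        Nat.Coprime.coprime_dvd_left (orderOf_map_dvd _ g) hg
      have h5 := Transfer.eq_one_of_pow_eq_one_of_coprime (g := Abelianization.of (u : G)) (k := k)
        (by rw [← map_pow, hk', map_one]) (h4 hu')
      exact (QuotientGroup.eq_one_iff _).1 h5
    have h4 := h1 ⟨hu, h3⟩
    rw [← map_subtype_commutator] at h4
    obtain ⟨y, hy, e⟩ := h4
    exact hM (Subtype.ext e ▸ hy)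
  let f : H →* G ⧸ pResidual p G := (QuotientGroup.mk' _).comp H.subtype
  have hf : Function.Surjective f := by
    intro x
    obtain ⟨g, rfl⟩ := QuotientGroup.mk'_surjective _ x
    obtain ⟨n, hn', s, hs, rfl⟩ := Transfer.exists_pResidual_mul_sylow S g
    refine ⟨⟨s, hSH hs⟩, ?_⟩
    rw [map_mul, show QuotientGroup.mk' (pResidual p G) n = 1 from (QuotientGroup.eq_one_iff _).2 hn', one_mul]
    rfl
  have hk : f.ker = pResidual p H := by
    refine le_antisymm (fun x hx => ?_) fun x hx =>
      (QuotientGroup.eq_one_iff _).2 (Transfer.map_subtype_pResidual_le H (mem_map_of_mem _ hx))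
    have hx' : (x : G) ∈ pResidual p G := (QuotientGroup.eq_one_iff _).1 hx
    obtain ⟨n, hn', s, hs, rfl⟩ := Transfer.exists_pResidual_mul_sylow (S.subtype hSH) x
    refine mul_mem hn' ?_
    have h5 : (s : G) ∈ pResidual p G := by
      have := mul_mem (inv_mem (Transfer.map_subtype_pResidual_le H (mem_map_of_mem _ hn'))) hx'
      simpa using this
    obtain ⟨y, hy, e⟩ := h2 ⟨h5, hs⟩
    exact Subtype.ext e ▸ hy
  exact ⟨(QuotientGroup.quotientKerEquivOfSurjective f hf).symm.trans (QuotientGroup.quotientMulEquivOfEq hk)⟩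

end Cfsg.Agent.S3068
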