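import Cfsg.Statements.S3070
import Cfsg.Agent.Sig.JD3

set_option autoImplicit false
open Cfsg

namespace Cfsg.Agent.S3070

open Subgroup Cfsg.Agent.BG Cfsg.Agent.Sig

/-- Let p ≥ 5 be a prime, S a Sylow p-subgroup of the finite group G and J(S) the subgroup generated by the abelian subgroups of S of largest order. Then G has a normal p-complement if and only if N_G(J(S))/C_G(J(S)) is a p-group (every element of N_G(J(S)) of order prime to p centralizes J(S)). -/
theorem result {G : Type*} [Group G] [Finite G] {p : ℕ} [Fact p.Prime]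
    (hp : 5 ≤ p) (S : Sylow p G) :
    Cfsg.HasNormalPComplement p G ↔
      ∀ g ∈ Subgroup.normalizer (Cfsg.thompsonSubgroupAOf (S : Subgroup G) : Set G), (orderOf g).Coprime p →
        g ∈ Subgroup.centralizer (Cfsg.thompsonSubgroupAOf (S : Subgroup G) : Set G) := by
  refine ⟨fun h g hg hg' => ?_, fun h => ?_⟩
  · exact (Transfer.hasNormalPComplement_iff_normalizer_centralizer S).1 h _ (PLocal.JA_le _) g hg hg'
  have hN := PLocal.npc_norm_of_selfcent (Transfer.isSylowIn_top S)
    ⟨PLocal.JA_le _, (normG _).trans (PLocal.normalizer_le_normalizer_JA _)⟩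
    ((PLocal.inf_centralizer_JA_eq _).le.trans inf_le_left) h
  refine PLocal.npc_of_degree PLocal.JAF_char (fun K R _ hc T h => ?_) (Transfer.isSylowIn_top S)
    (by rwa [PLocal.ind_JAF])
  rw [PLocal.ind_JAF] at h
  obtain ⟨g, h1, h2, -, h3⟩ := JD.JA_degree (by omega) T.2 (Solv.pCore_le_sylow T) h
  obtain ⟨U, V, h4, h5, h6, h7⟩ := h3 hc
  haveI := h4.2.2.1
  exact ⟨g, h1, h2, U, V, h4, h5, PLocal.iter_le_of_le (norm_of_normal _ _) h6 (by omega), h7⟩

end Cfsg.Agent.S3070
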