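import Cfsg.Statements.S3071
import Cfsg.Agent.PLocal.ZLoc
-- import your own Cfsg.Agent.* helpers here

set_option autoImplicit false
open Cfsg

namespace Cfsg.Agent.S3071


open Subgroup Cfsg Cfsg.Agent.Transfer Cfsg.Agent.BG Cfsg.Agent.PLocal Pointwise
open scoped commutatorElement

/-- Let p be an odd prime and S a Sylow p-subgroup of the finite group G such that, for every subgroup P with Z(S) ≤ P ≤ S, the normalizer N_G(P) has no section isomorphic to SL₂(p). Let J(S) be the subgroup generated by the abelian subgroups of S of largest order. Then two elements of S are conjugate in G if and only if they are conjugate in N_G(Z(J(S))). -/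
theorem result {G : Type*} [Group G] [Finite G] {p : ℕ} [Fact p.Prime]
    (hp : p ≠ 2) (S : Sylow p G)
    (hfree : ∀ P : Subgroup G, (S : Subgroup G) ⊓ Subgroup.centralizer ((S : Subgroup G) : Set G) ≤ P → P ≤ S →
      ¬ ∃ (H K : Subgroup G) (hK : (K.subgroupOf H).Normal), H ≤ Subgroup.normalizer (P : Set G) ∧
        Nonempty ((H ⧸ K.subgroupOf H) ≃* Matrix.SpecialLinearGroup (Fin 2) (ZMod p))) :
    ∀ x ∈ S, ∀ y ∈ S, (∃ g : G, g * x * g⁻¹ = y) ↔
      ∃ n ∈ Subgroup.normalizer (Cfsg.centerThompsonAOf (S : Subgroup G) : Set G), n * x * n⁻¹ = y := by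
  have hS := isSylowIn_top S
  refine fun x hx y hy => ⟨?_, fun ⟨n, _, h⟩ => ⟨n, h⟩⟩
  rintro ⟨g, rfl⟩
  have := sf_of_local_Z (ind_functor ZJAF_char) (fun P hP => ind_ZJAF P ▸ center_le_ZJA P) hS
    (Good := fun x => x ∈ N[inducedFunctor ZJAF (S : Subgroup G)]) (fun _ h => h) (fun D h1 h2 y hy A hA hA' => ?_)
    {x} g (by simpa using hx) (by rintro _ rfl; exact hy)
  · obtain ⟨n, hn, h⟩ := this.exists_mem fun _ h => h
    exact ⟨n, ind_ZJAF (S : Subgroup G) ▸ hn, h x rfl⟩
  have h3 := h1.2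
  rw [top_inf_eq] at h3
  have h4 := famSF_of_sub (single_char ZJAF_char) (sfok_ZJA_of_nstab hp N[D] (nstab_of_not_SL2 hp fun h =>
    hfree D h2 h1.1 (involves_iff.1 (map_subtype_top N[D] ▸ h.map_of_injective N[D].subtype_injective)))) h3
  refine (h4 A y hy hA hA').imp le_rfl ?_
  rintro x ⟨_, ⟨_, rfl, rfl⟩, hx⟩ B hB hB'
  exact SF.single hB (Or.inl hx.2) hB'


end Cfsg.Agent.S3071
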