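import Cfsg.Statements.S3073
import Cfsg.Agent.S1988
-- import your own Cfsg.Agent.* helpers here

set_option autoImplicit false
universe u
open Cfsg

namespace Cfsg.Agent.S3073


open Subgroup Cfsg Cfsg.Agent.Transfer Cfsg.Agent.BG Cfsg.Agent.PLocal Pointwise
open scoped commutatorElement

/-- For an odd prime p, every finite p-group S has a characteristic subgroup K with C_S(K) ≤ K such that, whenever S is (isomorphic to) a Sylow p-subgroup of a finite group G, G has a normal p-complement if and only if N_G(K)/C_G(K) is a p-group, i.e. every element of N_G(K) of order prime to p centralizes K (K transported into G along the isomorphism). -/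
theorem result (p : ℕ) [Fact p.Prime] (hp : p ≠ 2)
    (S : Type u) [Group S] [Finite S] (hS : IsPGroup p S) :
    ∃ K : Subgroup S, K.Characteristic ∧ Subgroup.centralizer (K : Set S) ≤ K ∧
      ∀ (G : Type u) [Group G] [Finite G] (P : Sylow p G) (e : ↥(P : Subgroup G) ≃* S),
        Cfsg.HasNormalPComplement p G ↔
          ∀ g ∈ Subgroup.normalizer (((K.comap (e : ↥(P : Subgroup G) →* S)).map (P : Subgroup G).subtype : Subgroup G) : Set G),
            (orderOf g).Coprime p →
              g ∈ Subgroup.centralizer (((K.comap (e : ↥(P : Subgroup G) →* S)).map (P : Subgroup G).subtype : Subgroup G) : Set G) := by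
  refine ⟨kInfLower S, characteristic_iff_map_eq.2 fun φ => kL_char.2 S S hS φ, ?_, fun G _ _ P e => ?_⟩
  · have h := cent_kL (P := (⊤ : Subgroup S)) (hS.to_subgroup ⊤)
    have e : kL (⊤ : Subgroup S) = kInfLower S := by
      rw [← ind_kL, ← kL_char.2 _ _ (hS.to_subgroup ⊤) topEquiv]; rfl
    rwa [e, top_inf_eq] at h
  have e1 : (kInfLower S).comap (e : (P : Subgroup G) →* S) = kInfLower (P : Subgroup G) := by
    rw [← kL_char.2 _ _ P.2 e]
    exact comap_map_eq_self_of_injective e.injective _
  rw [e1]
  exact ⟨fun h g => mem_centralizer_of_hasNormalPComplement h (ind_pg kInfLower P.2),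
    fun h => S1988.result hp P (Or.inr h)⟩


end Cfsg.Agent.S3073
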