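import Cfsg.Statements.S3074
import Cfsg.Agent.PLocal.Qd2
import Cfsg.Agent.PGrp.ES
-- import your own Cfsg.Agent.* helpers here

set_option autoImplicit false
open Cfsg

namespace Cfsg.Agent.S3074


open Subgroup Cfsg Cfsg.Agent.Transfer Cfsg.Agent.BG Cfsg.Agent.PLocal Pointwise
open scoped commutatorElement

theorem aux (p : ℕ) [Fact p.Prime] (hp : p ≠ 2) :
    IsExtraspecial p (qdS p) ∧ Monoid.exponent (qdS p) = p := by
  have hpow : ∀ x : qdS p, x ^ p = 1 := by
    rintro ⟨_, a, b, z, rfl⟩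
    refine Subtype.ext ?_
    have : ((p.choose 2 : ℕ) : ZMod p) = 0 := (ZMod.natCast_eq_zero_iff _ _).2
      ((Fact.out : p.Prime).dvd_choose_self (by omega) (by
        have := (Fact.out : p.Prime).two_le; omega))
    simp [heis_pow, this, heis_one]
  have hne : ∀ a b z : ZMod p, heisE p (a, b, z) = 1 ↔ a = 0 ∧ b = 0 ∧ z = 0 := fun a b z => by
    rw [Subtype.ext_iff, coe_heisE, ← heis_inj, heis_one]; rfl
  have hz : ∀ z : ZMod p, heisE p (0, 0, z) ∈ zpowers (heisE p (0, 0, 1)) := fun z =>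
    ⟨(z.val : ℕ), Subtype.ext (by
      simp only [zpow_natCast, coe_pow, coe_heisE, heis_pow]; simp)⟩
  have ho : orderOf (heisE p (0, 0, 1)) = p :=
    orderOf_eq_prime (hpow _) fun h => one_ne_zero ((hne _ _ _).1 h).2.2
  have hc : heisE p (0, 0, 1) ∈ center (qdS p) := mem_center_iff.2 fun x => by
    obtain ⟨⟨a, b, z⟩, rfl⟩ := (heisE p).surjective x
    simp [heisE_mul, add_comm]
  refine ⟨PGrp.IsES.isExtraspecial (z := heisE p (0, 0, 1)) ⟨ho, hc, fun x y => ?_, fun x => ?_⟩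
    (le_antisymm (fun x hx => ?_) (zpowers_le.2 hc)) fun h => ?_, ?_⟩
  · obtain ⟨⟨a, b, z⟩, rfl⟩ := (heisE p).surjective x
    obtain ⟨⟨a', b', z'⟩, rfl⟩ := (heisE p).surjective y
    convert hz (a * b' - a' * b) using 1
    rw [commutatorElement_def, mul_inv_eq_iff_eq_mul, mul_inv_eq_iff_eq_mul]
    simp only [heisE_mul]
    congr 2 <;> [skip; congr 1] <;> ring
  · rw [hpow]; exact one_mem _
  · obtain ⟨⟨a, b, z⟩, rfl⟩ := (heisE p).surjective x
    have h1 := mem_center_iff.1 hx (heisE p (1, 0, 0))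
    have h2 := mem_center_iff.1 hx (heisE p (0, 1, 0))
    simp [heisE_mul] at h1 h2
    rw [h1.2, h2.2]; exact hz z
  · have := h.is_comm.comm (heisE p (1, 0, 0)) (heisE p (0, 1, 0))
    simp [heisE_mul] at this
  · exact Nat.dvd_antisymm (Monoid.exponent_dvd_of_forall_pow_eq_one hpow)
      (ho.symm.dvd.trans (Monoid.order_dvd_exponent _))

/-- Let p be an odd prime. A Sylow p-subgroup of Qd(p), the split extension of an elementary abelian group of order p² by SL₂(p) acting naturally, is extraspecial of order p³ and exponent p. -/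
theorem result (p : ℕ) [Fact p.Prime] (hp : p ≠ 2) (P : Sylow p ↥(Cfsg.qd p)) :
    Cfsg.IsExtraspecial p ↥P ∧ Nat.card P = p ^ 3 ∧ Monoid.exponent ↥P = p := by
  obtain ⟨x, -, h⟩ := (isSylowIn_top P).exists_conj_eq qdS_sylow
  have e : qdS p ≃* P := ((MulAut.conj x).subgroupMap _).trans (MulEquiv.subgroupCongr h)
  obtain ⟨h1, h2⟩ := aux p hp
  exact ⟨PGrp.ES_of_mulEquiv h1 e, (Nat.card_congr e.toEquiv).symm.trans card_qdS,
    (Monoid.exponent_eq_of_mulEquiv e).symm.trans h2⟩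


end Cfsg.Agent.S3074
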