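import Cfsg.Statements.S3075
import Cfsg.Agent.BG.Base6
import Cfsg.Agent.Invol.Basic

set_option autoImplicit false
open Cfsg

namespace Cfsg.Agent.S3075

open Subgroup BG
open scoped commutatorElement

/-- Let p be an odd prime and N a finite group with a normal elementary abelian subgroup A of order p² that is its own centralizer in N, such that N/A is isomorphic to SL₂(p) (over any field F with p elements). Then N splits over A: some subgroup U of N satisfies A ∩ U = 1 and AU = N. -/
theorem result {N : Type*} [Group N] [Finite N] {p : ℕ} [Fact p.Prime] (hp : p ≠ 2)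
    (A : Subgroup N) [A.Normal] (hAcomm : IsMulCommutative A) (hAcard : Nat.card A = p ^ 2) (hAexp : Monoid.exponent ↥A = p)
    (hAself : Subgroup.centralizer (A : Set N) = A)
    {F : Type*} [Field F] [Fintype F] (hF : Fintype.card F = p) (e : N ⧸ A ≃* Matrix.SpecialLinearGroup (Fin 2) F) :
    ∃ U : Subgroup N, A ⊓ U = ⊥ ∧ A ⊔ U = ⊤ := by
  have pp : p.Prime := Fact.out
  have po := pp.odd_of_ne_two hp
  let f := e.toMonoidHom.comp (QuotientGroup.mk' A)
  have hk : ∀ x, f x = 1 ↔ x ∈ A := fun x => by simp [f]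
  have sur : Function.Surjective f := e.surjective.comp (QuotientGroup.mk'_surjective A)
  have ex : ∀ x ∈ A, x ^ p = 1 := fun x hx => congrArg Subtype.val (hAexp ▸ Monoid.pow_exponent_eq_one (⟨x, hx⟩ : A))
  obtain ⟨y, hy⟩ := sur (-1)
  have ft : f (y ^ p) = -1 := by rw [map_pow, hy, po.neg_one_pow]
  have tt : y ^ p * y ^ p = 1 := by rw [← (Commute.refl y).mul_pow]; exact ex _ ((hk _).1 (by simp [hy]))
  generalize y ^ p = t at ft tt
  have tA : t ∉ A := fun h => by
    have := congrFun (congrFun (congrArg Subtype.val (ft.symm.trans ((hk t).2 h))) 0) 0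
    have h2 : (2 : F) = 0 := by simp at this; linear_combination -this
    have : CharP F p := charP_of_card_eq_prime hF
    exact hp ((Nat.prime_dvd_prime_iff_eq pp Nat.prime_two).1 ((CharP.cast_eq_zero_iff F p 2).1 (by exact_mod_cast h2)))
  have top : A ⊔ C1[t] = ⊤ := eq_top_iff.2 fun g _ => by
    have m : t * (g * t * g⁻¹) ∈ A := (hk _).1 (by simp [ft])
    obtain ⟨k, r⟩ := Invol.exists_conj_of_odd tt (y := g * t * g⁻¹) (by rw [conj_mul, tt]; simp)
      (po.of_dvd_nat (orderOf_dvd_of_pow_eq_one (ex _ m)))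
    rw [← mul_inv_cancel_left ((t * (g * t * g⁻¹)) ^ k) g]
    refine mul_mem_sup (zpow_mem m k) (mem_cent1.2 ?_)
    generalize (t * (g * t * g⁻¹)) ^ k = c at r
    calc _ = c⁻¹ * (g * t * g⁻¹) * g := by group
      _ = _ := by rw [← r]; group
  refine ⟨C1[t], by_contra fun h0 => ?_, top⟩
  have n : ∀ X : Subgroup N, X ≤ N[A] := fun X => le_normalizer_of_normal
  have d := coprime_abelian_cent_dprod (n (zpowers t)) (by
    rw [hAcard, Nat.card_zpowers]
    exact (Nat.coprime_two_right.2 po.pow).coprime_dvd_right (orderOf_dvd_of_pow_eq_one (by rwa [pow_two]))) hAcomm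
  have u : C1[t] ≤ N[zpowers t] := cents_norm (C_zpowers t).ge
  have c := d.card
  rw [hAcard] at c
  obtain ⟨c1, c2⟩ := (pp.mul_eq_prime_sq_iff (fun r => tA (hAself ▸ zpowers_le.1 (commG1'.1 (card_eq_one.1 r))))
    fun r => h0 (C_zpowers t ▸ card_eq_one.1 r)).1 c
  have k : ⁅(⊤ : Subgroup N), (⊤ : Subgroup N)⁆ ≤ A := ((le_inf
    (der1_cent_cyclic (prime_cyclic (c1 ▸ pp)) (top.ge.trans (sup_le (commg_norml _ _) (normsR (n _) u))))
    (der1_cent_cyclic (prime_cyclic (c2 ▸ pp)) (top.ge.trans (sup_le (sub_abelian_norm hAcomm inf_le_left)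
      (normsI (n _) (norms_cent u)))))).trans (cent_sup _ _).ge).trans (by rw [d.sup, hAself])
  obtain ⟨a, ha⟩ := sur ⟨!![1, 1; 0, 1], by simp⟩
  obtain ⟨b, hb⟩ := sur ⟨!![1, 0; 1, 1], by simp⟩
  have := (hk _).2 (k (commutator_mem_commutator (mem_top a) (mem_top b)))
  rw [map_commutatorElement, commutatorElement_eq_one_iff_mul_comm, ha, hb] at this
  have : (!![1, 1; 0, 1] * !![1, 0; 1, 1] : Matrix _ _ F) 0 0 = (!![1, 0; 1, 1] * !![1, 1; 0, 1] : Matrix _ _ F) 0 0 :=
    congrFun (congrFun (congrArg Subtype.val this) 0) 0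
  simp at this

end Cfsg.Agent.S3075
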