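import Cfsg.Statements.S3076
import Cfsg.Agent.PLocal.OpMod

set_option autoImplicit false
open Cfsg

namespace Cfsg.Agent.S3076

open Subgroup Cfsg.Agent.Loc Cfsg.Agent.PLocal

/-- Let P be a Sylow p-subgroup of the finite group G and H ≤ P a subgroup with N_P(H) a Sylow p-subgroup of N_G(H). Let N be the preimage in N_G(H) of O_p(N_G(H)/C_G(H)). Then H is a Sylow p-subgroup of N if and only if C_P(H) ≤ H and O_{p',p}(N_G(H)) = H·C_G(H). -/
theorem result {G : Type*} [Group G] [Finite G] {p : ℕ} [Fact p.Prime]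
    (P : Sylow p G) (H : Subgroup G) (hHP : H ≤ (P : Subgroup G))
    (hSyl : ¬ p ∣ ((P : Subgroup G) ⊓ Subgroup.normalizer (H : Set G)).relIndex (Subgroup.normalizer (H : Set G)))
    [hC : ((Subgroup.centralizer (H : Set G)).subgroupOf (Subgroup.normalizer (H : Set G))).Normal] :
    (H ≤ ((Cfsg.pCore p (↥(Subgroup.normalizer (H : Set G)) ⧸
              (Subgroup.centralizer (H : Set G)).subgroupOf (Subgroup.normalizer (H : Set G)))).comap
            (QuotientGroup.mk' _)).map (Subgroup.normalizer (H : Set G)).subtype ∧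
      ¬ p ∣ H.relIndex (((Cfsg.pCore p (↥(Subgroup.normalizer (H : Set G)) ⧸
              (Subgroup.centralizer (H : Set G)).subgroupOf (Subgroup.normalizer (H : Set G)))).comap
            (QuotientGroup.mk' _)).map (Subgroup.normalizer (H : Set G)).subtype)) ↔
    ((P : Subgroup G) ⊓ Subgroup.centralizer (H : Set G) ≤ H ∧
      (Cfsg.pPrimePCore p ↥(Subgroup.normalizer (H : Set G))).map (Subgroup.normalizer (H : Set G)).subtype =
        H ⊔ Subgroup.centralizer (H : Set G)) := by
  have hCN : centralizer (H : Set G) ≤ normalizer (H : Set G) := centralizer_le_normalizer _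
  have hNC : normalizer (H : Set G) ≤ normalizer ((centralizer (H : Set G) : Subgroup G) : Set G) :=
    (normal_subgroupOf_iff_le_normalizer hCN).1 hC
  rw [← opMod_eq_comap (QuotientGroup.mk'_surjective _) (QuotientGroup.ker_mk' _)]
  have eL : (Cfsg.pPrimePCore p ↥(normalizer (H : Set G))).map (normalizer (H : Set G)).subtype =
      opMod p (normalizer (H : Set G)) (ppCoreOf p (normalizer (H : Set G))) := by
    refine (opMod_eq_comap (QuotientGroup.mk'_surjective _) ?_).symm
    rw [QuotientGroup.ker_mk']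
    exact (comap_map_eq_self_of_injective (subtype_injective _) _).symm
  rw [eL]
  set N := normalizer (H : Set G)
  set C := centralizer (H : Set G)
  set O := ppCoreOf p N
  have hH : IsPGroup p H := P.2.to_le hHP
  have hHN : H ≤ N := le_normalizer
  have hNO : N ≤ normalizer (O : Set G) := le_normalizer_ppCoreOf p N
  have hOC : O ≤ C := by
    intro o ho
    rw [mem_centralizer_iff]
    intro h hh
    have h1 : h * o * h⁻¹ * o⁻¹ ∈ H ⊓ O := by
      refine ⟨?_, O.mul_mem ((mem_normalizer_iff.1 (hNO (hHN hh)) o).1 ho) (O.inv_mem ho)⟩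
      rw [show h * o * h⁻¹ * o⁻¹ = h * (o * h⁻¹ * o⁻¹) by group]
      exact H.mul_mem hh ((mem_normalizer_iff.1 (ppCoreOf_le p N ho) _).1 (H.inv_mem hh))
    rw [disjoint_of_isPGroup_of_coprime hH (coprime_ppCoreOf p N), mem_bot] at h1
    calc h * o = (h * o * h⁻¹ * o⁻¹) * (o * h) := by group
      _ = o * h := by rw [h1, one_mul]
  have hS : SylIn p ((P : Subgroup G) ⊓ N) N :=
    sylIn_of_not_dvd_relIndex inf_le_right (P.2.to_le inf_le_left) hSyl
  have hHp : ∀ D : Subgroup G, H ≤ opMod p N D := fun D => le_opMod hHN le_rfl fun d hd => by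
    obtain ⟨k, hk⟩ := hH ⟨d, hd⟩
    exact ⟨k, by rw [show d ^ p ^ k = 1 from congrArg Subtype.val hk]; exact D.one_mem⟩
  have hCK : C ≤ opMod p N C := le_opMod hCN hNC fun d hd => ⟨0, by simpa using hd⟩
  have hNK : ∀ D : Subgroup G, N ≤ normalizer (D : Set G) → N ≤ normalizer (opMod p N D : Set G) :=
    fun D hD => le_normalizer_opMod le_normalizer hD
  constructor
  · rintro ⟨-, hi⟩
    have hHK : SylIn p H (opMod p N C) := sylIn_of_not_dvd_relIndex (hHp C) hH hi
    have h1 : (P : Subgroup G) ⊓ C ≤ H := by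
      rw [← hHK.max ((P : Subgroup G) ⊓ opMod p N C) inf_le_right (P.2.to_le inf_le_left) (le_inf hHP (hHp C))]
      exact inf_le_inf_left _ hCK
    refine ⟨h1, le_antisymm ((opMod_mono N hOC).trans ?_) (sup_le (hHp O) (le_opMod hCN hNC ?_))⟩
    · have h2 : opMod p N C ≤ opMod p (opMod p N C) C :=
        le_opMod le_rfl le_normalizer fun d hd => exists_pow_mem_of_mem_opMod hNC hd
      exact h2.trans ((opMod_le_sup ((opMod_le p N C).trans hNC) hHK).trans (sup_le_sup_left inf_le_right _))
    · have hSC := hS.inf_normal' hCN hNC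
      have hb : normalizer ((hSC.toSylow : Subgroup C) : Set C) ≤ centralizer ((hSC.toSylow : Subgroup C) : Set C) := by
        intro c _
        rw [mem_centralizer_iff]
        intro t ht
        rw [hSC.coe_toSylow] at ht
        exact Subtype.ext (mem_centralizer_iff.1 c.2 t (h1 ⟨ht.1.1, ht.2⟩))
      intro c hc
      obtain ⟨k, hk⟩ := IsPGroup.iff_card.1 hSC.toSylow.2
      refine ⟨k, ppCoreOf_le_of_normal hCN hNC ⟨⟨c, hc⟩ ^ p ^ k, ?_, rfl⟩⟩
      refine le_pPrimeCore (N := (MonoidHom.transferSylow hSC.toSylow hb).ker) inferInstance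
        ((Nat.Prime.coprime_iff_not_dvd Fact.out).2 (MonoidHom.not_dvd_card_ker_transferSylow _ hb)).symm ?_
      rw [MonoidHom.mem_ker, map_pow, ← hk, pow_card_eq_one']
  · rintro ⟨h1, h2⟩
    refine ⟨hHp C, ?_⟩
    have h3 : opMod p N C ≤ H ⊔ C := by
      rw [← h2]
      exact opMod_le_of_pow fun c hc => exists_pow_mem_of_mem_opMod hNO (h2.ge (mem_sup_right hc.2))
    have h4 := hS.inf_normal' (opMod_le p N C) (hNK C hNC)
    have h5 : (P : Subgroup G) ⊓ N ⊓ opMod p N C = H := by
      refine le_antisymm (fun x hx => ?_) (le_inf (le_inf hHP hHN) (hHp C))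
      have hx2 : x ∈ ((H ⊔ C : Subgroup G) : Set G) := h3 hx.2
      rw [coe_mul_of_left_le_normalizer_right H C (hHN.trans hNC)] at hx2
      obtain ⟨h, hh, c, hc, rfl⟩ := hx2
      refine H.mul_mem hh (h1 ⟨?_, hc⟩)
      have := (P : Subgroup G).mul_mem ((P : Subgroup G).inv_mem (hHP hh)) hx.1.1
      rwa [inv_mul_cancel_left] at this
    rw [h5] at h4
    exact h4.not_dvd_relIndex

end Cfsg.Agent.S3076
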