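import Cfsg.Statements.S3078
import Cfsg.Agent.PLocal.ZJD
-- import your own Cfsg.Agent.* helpers here

set_option autoImplicit false
open Cfsg

namespace Cfsg.Agent.S3078


open Subgroup Cfsg Cfsg.Agent.Transfer Cfsg.Agent.BG Cfsg.Agent.PLocal Pointwise
open scoped commutatorElement

/-- A replacement Theorem for abelian subgroups of p-groups, p odd. Let G be a finite p-group with p odd, A an abelian subgroup of G, and B a subgroup of nilpotency class at most 2 with [B, B] ≤ A, such that A normalizes B but B does not normalize A. Then there is an abelian subgroup A* of G of the same order as A with A ∩ B strictly contained in A* ∩ B, A* contained in N_G(A) and in the normal closure of A, the exponent of A* dividing the exponent of A, and with the subgroup generated by the elements of order dividing p in A of order at most that of the corresponding subgroup of A* (the rank of A is at most the rank of A*). -/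
theorem result {G : Type*} [Group G] [Finite G] {p : ℕ} [Fact p.Prime] (hp : p ≠ 2) (hG : IsPGroup p G) (A B : Subgroup G) (hA : IsMulCommutative A) (hB2 : ⁅⁅B, B⁆, B⁆ = ⊥) (hBA : ⁅B, B⁆ ≤ A) (hAB : A ≤ Subgroup.normalizer (B : Set G)) (hBnA : ¬ B ≤ Subgroup.normalizer (A : Set G)) : ∃ Astar : Subgroup G, IsMulCommutative Astar ∧ Nat.card Astar = Nat.card A ∧ A ⊓ B < Astar ⊓ B ∧ Astar ≤ Subgroup.normalizer (A : Set G) ∧ Astar ≤ Subgroup.normalClosure (A : Set G) ∧ Monoid.exponent Astar ∣ Monoid.exponent A ∧ Nat.card (Cfsg.omegaOne p A) ≤ Nat.card (Cfsg.omegaOne p Astar) := by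
  have hS := hG.to_subgroup (A ⊔ B)
  have hn : A ⊔ B ≤ normalizer (B : Set G) := sup_le hAB le_normalizer
  obtain ⟨b, hb, h1, h2⟩ := exists_repl_elt hS le_sup_right hn hBnA
  have h := replHyp_of_normalizer hA le_sup_left hn hBA hb (mem_sup_right hb) h1
  have hB := Or.inr (a := IsMulCommutative B) (eq_one_of_sq_of_isPGroup hp (hG.to_subgroup B))
  have hodd : Odd (Monoid.exponent A) := by
    obtain ⟨k, hk⟩ := IsPGroup.iff_card.1 (hG.to_subgroup A)
    exact Odd.of_dvd_nat (hk ▸ ((Fact.out : p.Prime).odd_of_ne_two hp).pow) Group.exponent_dvd_nat_card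
  refine ⟨repl A b, h.isMulCommutative_repl hB, h.card_repl, h.inf_lt h2, ReplHyp.repl_le.trans h.H_le_normalizer,
    ReplHyp.repl_le.trans (sup_le le_normalClosure (Loc.cj_le_of_mem_normalizer (norm_of_normal _ ⊤ (mem_top _))
      le_normalClosure)), Monoid.exponent_dvd_of_forall_pow_eq_one fun x => Subtype.ext
    ((h.ea_repl hB hodd fun a ha => congrArg Subtype.val (Monoid.pow_exponent_eq_one (⟨a, ha⟩ : A))).2 x x.2), ?_⟩
  set D := A ⊓ A.map (MulAut.conj b⁻¹).toMonoidHom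
  set A₁ := omegaOne p A
  set A₂ := omegaOne p (repl A b)
  have e1 := ea_omegaOne (p := p) hA
  have e2 := ea_omegaOne (p := p) (h.isMulCommutative_repl hB)
  have hA₁ : A₁ ≤ A := PLocal.omegaOne_le p A
  have hf : ∀ a ∈ A, a * b⁻¹ * a⁻¹ * b ∈ repl A b := fun a ha => mem_sup_right (subset_closure ⟨a, ha, rfl⟩)
  have hf' : ∀ a ∈ A₁, a * b⁻¹ * a⁻¹ * b ∈ A₂ := fun a ha => PLocal.mem_omegaOne (hf a (hA₁ ha)) (by
    have hy : b⁻¹ * a⁻¹ * b ∈ A.map (MulAut.conj b⁻¹).toMonoidHom := by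
      simpa using Loc.conj_mem_cj (g := b⁻¹) (A.inv_mem (hA₁ ha))
    have hd := h.derived_H (commutator_mem_commutator (mem_sup_right hy) (mem_sup_left (hA₁ ha)))
    have h1 := PGrp.mul_pow_of_commute_commutator (x := a) (y := b⁻¹ * a⁻¹ * b)
      (h.central hd _ (mem_sup_left (hA₁ ha))).symm (h.central hd _ (mem_sup_right hy)).symm p
    have h2 : (b⁻¹ * a⁻¹ * b) ^ p = 1 := by
      have := conj_pow (a := b⁻¹) (b := a⁻¹) (i := p)
      rw [inv_inv] at this
      rw [this, e1.2 _ (inv_mem ha)]; group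
    have h3 : ⁅b⁻¹ * a⁻¹ * b, a⁆ ^ p = 1 := by
      rw [← PGrp.commutator_pow_right (h.central hd _ (mem_sup_left (hA₁ ha))).symm, e1.2 a ha]; simp
    obtain ⟨m, hm⟩ := (Fact.out : p.Prime).odd_of_ne_two hp
    have h4 : p.choose 2 = p * m := by
      rw [Nat.choose_two_right, hm, Nat.add_sub_cancel, mul_left_comm, Nat.mul_div_cancel_left _ two_pos]
    rw [h2, e1.2 a ha, h4, pow_mul, h3] at h1
    simpa [mul_assoc] using h1)
  have hD : ∀ c ∈ A, b⁻¹ * c * b ∈ A → c ∈ D := fun c hc h3 => by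
    haveI := hA
    have h4 : b ∈ normalizer (D : Set G) := Loc.mem_normalizer_of_cj_le (Loc.cj_le_iff_forall.2 fun d hd => by
      have h1 : b * d * b⁻¹ ∈ A := Loc.mem_cj_inv.1 hd.2
      have h2 : b * d * b⁻¹ * d⁻¹ ∈ A ⊓ B := ⟨A.mul_mem h1 (A.inv_mem hd.1), by
        simpa [mul_assoc] using B.mul_mem hb (Loc.conj_mem_of_mem_normalizer (hAB hd.1) (B.inv_mem hb))⟩
      simpa using D.mul_mem (h.inf_le h2) hd)
    have h5 : b⁻¹ * c * b ∈ D := ⟨h3, by simpa using Loc.conj_mem_cj (g := b⁻¹) hc⟩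
    simpa [mul_assoc] using Loc.conj_mem_of_mem_normalizer h4 h5
  have key : ∀ a ∈ A, ∀ a' ∈ A, (a * b⁻¹ * a⁻¹ * b)⁻¹ * (a' * b⁻¹ * a'⁻¹ * b) ∈ D → a⁻¹ * a' ∈ D := fun a ha a' ha' h3 => by
    have h4 : b⁻¹ * a * b ∈ normalizer (A : Set G) := h.n1 (by simpa using Loc.conj_mem_cj (g := b⁻¹) ha)
    have h5 := Loc.conj_mem_of_mem_normalizer h4 (mul_mem (inv_mem ha) ha')
    refine hD _ (mul_mem (inv_mem ha) ha') ?_
    rw [mul_comm_of_mem hA (inv_mem ha) ha']
    convert A.mul_mem (A.inv_mem h3.1) h5 using 1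
    group
  have c1 : D.relIndex A₁ ≤ D.relIndex A₂ := by
    refine Nat.card_le_card_of_injective (fun q : A₁ ⧸ D.subgroupOf A₁ =>
      ((⟨_, hf' _ q.out.2⟩ : A₂) : A₂ ⧸ D.subgroupOf A₂)) fun q q' e => ?_
    rw [← q.out_eq', ← q'.out_eq']
    exact QuotientGroup.eq.2 (key _ (hA₁ q.out.2) _ (hA₁ q'.out.2) (mem_subgroupOf.1 (QuotientGroup.eq.1 e)))
  have c2 : D.subgroupOf A₁ ≃ (D ⊓ A₁ : Subgroup G) := (inf_subgroupOf_right D A₁ ▸ subgroupOfEquivOfLe inf_le_right).toEquiv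
  have c3 : D.subgroupOf A₂ ≃ (D ⊓ A₂ : Subgroup G) := (inf_subgroupOf_right D A₂ ▸ subgroupOfEquivOfLe inf_le_right).toEquiv
  rw [← (D.subgroupOf A₁).card_mul_index, ← (D.subgroupOf A₂).card_mul_index, Nat.card_congr c2, Nat.card_congr c3]
  exact Nat.mul_le_mul (card_le_of_le (le_inf inf_le_left fun x hx =>
    PLocal.mem_omegaOne (mem_sup_left hx.1) (e1.2 x hx.2))) c1


end Cfsg.Agent.S3078
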