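import Cfsg.Statements.S3086
import Cfsg.Agent.Loc.PGV3

set_option autoImplicit false
open Cfsg

namespace Cfsg.Agent.S3086

section helpers
open Cfsg.Agent.Loc Subgroup
open scoped commutatorElement

open Cfsg.Agent.Transfer SemidirectProduct

/-- the action of `G` on `Multiplicative V` -/
def mulAct {G V : Type*} [Group G] [AddCommGroup V] {p : ℕ} [Fact p.Prime] [Module (ZMod p) V]
    (ρ : Representation (ZMod p) G V) : G →* MulAut (Multiplicative V) where
  toFun g :=
    { toFun := fun v => Multiplicative.ofAdd (ρ g v.toAdd)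
      invFun := fun v => Multiplicative.ofAdd (ρ g⁻¹ v.toAdd)
      left_inv := fun v => by simp
      right_inv := fun v => by simp
      map_mul' := fun v w => by simp }
  map_one' := by ext v; simp
  map_mul' g h := by ext v; simp

theorem card_fix {G V : Type*} [Group G] [AddCommGroup V] {p : ℕ} [Fact p.Prime] [Module (ZMod p) V]
    (ρ : Representation (ZMod p) G V) (B : Subgroup G) :
    Nat.card ↥(sdL (mulAct ρ) ⊤ ⊓ centralizer (sdR (mulAct ρ) B : Set _)) =
      Nat.card {v : V // ∀ b ∈ B, ρ b v = v} := by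
  refine (Nat.card_congr (Equiv.ofBijective (fun v : {v : V // ∀ b ∈ B, ρ b v = v} =>
    (⟨inl (Multiplicative.ofAdd v.1), (inl_mem_sdL _).2 trivial, (inl_mem_centralizer_sdR _).2 fun b hb =>
      congrArg Multiplicative.ofAdd (v.2 b hb)⟩ : ↥(sdL (mulAct ρ) ⊤ ⊓ centralizer (sdR (mulAct ρ) B : Set _))))
    ⟨fun v w e => Subtype.ext (Multiplicative.ofAdd.injective (inl_injective (congrArg Subtype.val e))), ?_⟩)).symm
  rintro ⟨_, ⟨v, -, rfl⟩, hv⟩
  exact ⟨⟨v.toAdd, fun b hb => congrArg Multiplicative.toAdd ((inl_mem_centralizer_sdR _).1 hv b hb)⟩, rfl⟩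

end helpers

/-- The P(G,V)-theorem. Let p be a prime, G a finite group acting faithfully and linearly on a finite vector space V over the field with p elements, and A a nontrivial elementary abelian p-subgroup of G such that |A|·|C_V(A)| ≥ |B|·|C_V(B)| for every subgroup B of A. Then A normalizes every component (subnormal quasisimple subgroup) of G. -/
theorem result {G V : Type*} [Group G] [Finite G] [AddCommGroup V] [Finite V] (p : ℕ) [Fact p.Prime] [Module (ZMod p) V]
    (ρ : Representation (ZMod p) G V) (hρ : Function.Injective ρ)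
    (A : Subgroup G) (hA : A ≠ ⊥) (hAel : Cfsg.IsElementaryAbelian p A)
    (hP : ∀ B : Subgroup G, B ≤ A →
      Nat.card ↥B * Nat.card {v : V // ∀ b ∈ B, ρ b v = v} ≤ Nat.card ↥A * Nat.card {v : V // ∀ a ∈ A, ρ a v = v}) :
    ∀ K : Subgroup G, Cfsg.IsComponent K → A ≤ Subgroup.normalizer (K : Set G) := by
  open Cfsg.Agent.Loc Subgroup in
  open scoped commutatorElement in
  open Cfsg.Agent.Transfer SemidirectProduct in
  intro K hK
  have hK' := Sig.compIn_top_iff.2 hK
  have hi : Function.Injective (inr : G →* Multiplicative V ⋊[mulAct ρ] G) := inr_injective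
  have hV : IsElementaryAbelian p (sdL (mulAct ρ) ⊤) := by
    refine isElementaryAbelian_map _ (isElementaryAbelian_iff.2 ⟨fun x _ y _ => mul_comm _ _, fun x _ => ?_⟩)
    apply Multiplicative.toAdd.injective
    rw [toAdd_pow, toAdd_one, ← Nat.cast_smul_eq_nsmul (ZMod p), ZMod.natCast_self, zero_smul]
  have hAa := isElementaryAbelian_map (inr : G →* Multiplicative V ⋊[mulAct ρ] G) hAel
  have := le_normalizer_of_best (K := sdR (mulAct ρ) K) (A := sdR (mulAct ρ) A) hV
    (Sig.qs_map_of_injective hK'.qs hi) hAa (sdR_le_normalizer_top _ _) (sdR_le_normalizer_top _ _) ?_ ?_ ?_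
  · intro a ha
    have e := cj_eq_of_mem_normalizer (this (mem_map_of_mem _ ha))
    rw [← map_cj] at e
    exact mem_normalizer_iff_cj.2 (map_injective hi e)
  · rintro _ ⟨a, -, rfl⟩
    rw [Sw, ← map_cj]
    by_cases e : cj a K = K
    · exact Or.inl (by rw [e])
    · refine Or.inr (commutator_eq_bot_iff_le_centralizer.1 ?_)
      rw [← map_commutator, (hK'.conj (by rw [normalizer_eq_top]; trivial)).commutator_eq_bot_of_ne hK' e,
        Subgroup.map_bot]
  · intro e
    refine hK'.ne_bot (eq_bot_iff.2 fun k hk => hρ ?_)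
    ext v
    rw [map_one]
    exact congrArg Multiplicative.toAdd ((sdR_le_centralizer_sdL _).1 e k hk (Multiplicative.ofAdd v) trivial)
  · refine ⟨fun B hB => ?_, ?_, fun a ha => ?_⟩
    · obtain ⟨B', rfl⟩ : ∃ B' : Subgroup G, B = sdR (mulAct ρ) B' :=
        ⟨B.comap inr, (map_comap_eq_self (hB.trans (map_le_range _ _))).symm⟩
      rw [card_fix, card_fix, card_sdR, card_sdR]
      exact hP B' ((map_le_map_iff_of_injective hi).1 hB)
    · exact commutator_le_of_le_centralizer (isElementaryAbelian_iff.1 hAa).1 _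
    · rw [(isElementaryAbelian_iff.1 hAa).2 a ha]; exact one_mem _

end Cfsg.Agent.S3086
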