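import Cfsg.Statements.S3087
import Cfsg.Agent.Loc.Replace

set_option autoImplicit false
open Cfsg

namespace Cfsg.Agent.S3087

section helpers
open Cfsg.Agent.Loc Subgroup

/-- The fixed vectors of a subgroup, as a subgroup of `Multiplicative V`. -/
def fixSub {G V : Type*} [Group G] [AddCommGroup V] {p : ℕ} [Fact p.Prime] [Module (ZMod p) V]
    (ρ : Representation (ZMod p) G V) (B : Subgroup G) : Subgroup (Multiplicative V) where
  carrier := {v | ∀ b ∈ B, ρ b v.toAdd = v.toAdd}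
  one_mem' := fun b _ => map_zero (ρ b)
  mul_mem' := fun {x y} hx hy b hb => by
    rw [toAdd_mul, map_add, hx b hb, hy b hb]
  inv_mem' := fun {x} hx b hb => by rw [toAdd_inv, map_neg, hx b hb]

end helpers

/-- Let p be a prime, G a finite group acting linearly on a finite vector space V over the field with p elements, W a G-invariant subspace, and A a subgroup of G with |A|·|C_V(A)| ≥ |B|·|C_V(B)| for every subgroup B of A. Then |A|·|C_W(A)| ≥ |B|·|C_W(B)| for every subgroup B of A that contains C_A(W); that is, the image of A in the group induced on W satisfies the same maximality condition. -/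
theorem result {G V : Type*} [Group G] [Finite G] [AddCommGroup V] [Finite V] (p : ℕ) [Fact p.Prime] [Module (ZMod p) V]
    (ρ : Representation (ZMod p) G V) (W : Submodule (ZMod p) V) (hW : ∀ g : G, ∀ w ∈ W, ρ g w ∈ W)
    (A : Subgroup G)
    (hP : ∀ B : Subgroup G, B ≤ A →
      Nat.card ↥B * Nat.card {v : V // ∀ b ∈ B, ρ b v = v} ≤ Nat.card ↥A * Nat.card {v : V // ∀ a ∈ A, ρ a v = v})
    (B : Subgroup G) (hBA : B ≤ A) (hCB : ∀ a ∈ A, (∀ w ∈ W, ρ a w = w) → a ∈ B) :
    Nat.card ↥B * Nat.card {w : W // ∀ b ∈ B, ρ b w = w} ≤ Nat.card ↥A * Nat.card {w : W // ∀ a ∈ A, ρ a w = w} := by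
  open Cfsg.Agent.Loc Subgroup in
  let W' : Subgroup (Multiplicative V) := AddSubgroup.toSubgroup W.toAddSubgroup
  have e1 : ∀ C : Subgroup G, Nat.card {v : V // ∀ b ∈ C, ρ b v = v} = Nat.card (fixSub ρ C) := fun C => rfl
  have e2 : ∀ C : Subgroup G, Nat.card {w : W // ∀ b ∈ C, ρ b w = w} = Nat.card (W' ⊓ fixSub ρ C : Subgroup _) :=
    fun C => Nat.card_congr
      { toFun := fun w => ⟨Multiplicative.ofAdd w.1.1, w.1.2, w.2⟩
        invFun := fun v => ⟨⟨v.1.toAdd, v.2.1⟩, v.2.2⟩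
        left_inv := fun _ => rfl
        right_inv := fun _ => rfl }
  have h1 := hP B hBA
  rw [e1, e1] at h1
  rw [e2, e2]
  have hAB : fixSub ρ A ≤ fixSub ρ B := fun v hv b hb => hv b (hBA hb)
  have h2 := card_mul_card_le (W' ⊓ fixSub ρ B) (fixSub ρ A)
  rw [inf_assoc, inf_eq_right.2 hAB] at h2
  have h3 : Nat.card ((W' ⊓ fixSub ρ B) ⊔ fixSub ρ A : Subgroup _) ≤ Nat.card (fixSub ρ B) :=
    card_le_of_le (sup_le inf_le_right hAB)
  apply Nat.le_of_mul_le_mul_right _ (Nat.card_pos (α := fixSub ρ A))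
  calc _ = Nat.card B * (Nat.card (W' ⊓ fixSub ρ B : Subgroup _) * Nat.card (fixSub ρ A)) := by ring
    _ ≤ Nat.card B * (Nat.card (fixSub ρ B) * Nat.card (W' ⊓ fixSub ρ A : Subgroup _)) :=
      Nat.mul_le_mul_left _ (h2.trans (Nat.mul_le_mul_right _ h3))
    _ = Nat.card B * Nat.card (fixSub ρ B) * Nat.card (W' ⊓ fixSub ρ A : Subgroup _) := by ring
    _ ≤ _ := Nat.mul_le_mul_right _ h1
    _ = _ := by ring

end Cfsg.Agent.S3087
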