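import Cfsg.Statements.S3099
import Cfsg.Agent.GW.Down
import Cfsg.Agent.GW.Main
import Cfsg.Agent.Loc.Rk1

set_option autoImplicit false
open Cfsg

namespace Cfsg.Agent.S3099


/-- Let X be a finite perfect group of 2-rank exactly 1 (X has even order and contains no Klein four-group). Then X modulo its largest normal subgroup of odd order is isomorphic to the special linear group of dimension 2 over a field with q elements for some odd q > 3, or is a non-split double cover of the alternating group of degree 7. -/
theorem result {X : Type*} [Group X] [Finite X] (hP : Group.IsPerfect X) (h1 : Cfsg.PRankLE 2 1 X) (h2 : Even (Nat.card X)) :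
    (∃ (F : Type) (_ : Field F) (_ : Fintype F), Odd (Fintype.card F) ∧ 3 < Fintype.card F ∧
        Nonempty (X ⧸ Cfsg.oddCore X ≃* Matrix.SpecialLinearGroup (Fin 2) F)) ∨
      Cfsg.IsNonsplitDoubleCover (X ⧸ Cfsg.oddCore X) ↥(alternatingGroup (Fin 7)) := by
  obtain ⟨S⟩ : Nonempty (Sylow 2 X) := inferInstance
  have : Nontrivial X := Finite.one_lt_card_iff_nontrivial.1 (by
    have := Nat.card_pos (α := X); have := Nat.even_iff.1 h2; omega)
  rcases (Loc.rk1_of_pRankLE S.isPGroup' fun A a b => (BG.card_map_subtype A).ge.trans (h1 _ (Subgroup.map_isMulCommutative _ _)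
    (by rintro _ ⟨x, hx, rfl⟩; exact congrArg Subtype.val (b x hx)))).isCyclic_or_quaternion S.isPGroup' with
    h | ⟨-, _ | n, hn, e⟩
  · exact absurd (GW.sol_of_compl (Block.complement_of_isCyclic S)) (Group.IsPerfect.not_isSolvable X)
  · omega
  obtain ⟨e⟩ := BG.isog_trans (BG.isog_symm (Invol.sylow_equiv_quot_oddCore S)) e
  exact GW.GWH.quat GW.gw_simple _ e (Solv.pPrimeCore_quotient_pPrimeCore 2 X)

end Cfsg.Agent.S3099
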