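import Cfsg.Statements.S3144
import Cfsg.Agent.StdZ.E8G

set_option autoImplicit false
open Cfsg

namespace Cfsg.Agent.S3144

/-- Let G be a finite group with no nontrivial normal subgroup of odd order and L a standard subgroup of G which is a double cover of the simple orthogonal group PΩ⁺ of dimension 8 over the field with 2 elements (the centre of L has order 2 and L modulo its centre is isomorphic to that group), and suppose the centralizer of L in G has cyclic Sylow 2-subgroups. Then L is normal in G. -/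
theorem result {G : Type*} [Group G] [Finite G] (hO : Cfsg.oddCore G = ⊥) (L : Subgroup G) (hL : Cfsg.IsStandardSubgroup L)
    {F : Type*} [Field F] [Fintype F] (hF : Fintype.card F = 2)
    (hZ : Nat.card ↥(Subgroup.center ↥L) = 2) (hLX : Nonempty ((↥L ⧸ Subgroup.center ↥L) ≃* Cfsg.POmega F (Cfsg.quadFormPlus 4 F)))
    (hR : ∀ R : Sylow 2 ↥(Subgroup.centralizer (L : Set G)), IsCyclic ↥(R : Subgroup ↥(Subgroup.centralizer (L : Set G)))) :
    L.Normal := by
  obtain ⟨e⟩ := hLX
  obtain ⟨f⟩ := Known.O82T.equiv hF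
  have := Known.O82T.fin
  have st := Schur.isStem_equiv_comp (σ := QuotientGroup.mk' (Subgroup.center L)) ⟨QuotientGroup.mk'_surjective _,
    (QuotientGroup.ker_mk' _).le, le_top.trans (Group.isPerfect_def.1 hL.1.1).ge⟩ (e.trans f)
  obtain ⟨i⟩ := StdZ.three Known.O82T.mult StdZ.E8.perfG st (by rw [← hZ]; congr 2; ext; simp) StdZ.E8.stem StdZ.E8.card_ker
    StdZ.E8.τ StdZ.E8.ine1 StdZ.E8.ine2
  obtain ⟨j, rfl, H⟩ := StdZ.of_std hL i StdZ.E8.n2 StdZ.E8.cen' hR
  exact H.normal_of hO (StdZ.E8.isol H)

end Cfsg.Agent.S3144
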