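import Cfsg.Statements.S3974
import Cfsg.Agent.Schur.Lift
import Mathlib

set_option autoImplicit false
universe u v
open Cfsg

namespace Cfsg.Agent.S3974

open Cfsg.Agent.Schur Subgroup Function

section Fwd
variable {Q : Type u} [Group Q] [Finite Q] {A : Type v} [CommGroup A]

theorem side (hA : HasSchurMultiplier Q A) (hc : Nat.Coprime (Nat.card (Abelianization Q)) (Nat.card A))
    {Γ Y : Type*} [Group Γ] [Group Y] {ρ : Γ →* Q} (hρ : IsCentralExt ρ)
    (hN : ∀ x ∈ ρ.ker, x ^ Nat.card A = 1) {σ : Y →* Q} (hσ : IsStemExtension σ) (e : σ.ker ≃* A)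
    {φ : Γ →* Y} (hφ : σ.comp φ = ρ) :
    Bijective (φ.comp ((powMonoidHom (Nat.card (Abelianization Q))).comp
      (Abelianization.of (G := Γ))).ker.subtype) := by
  haveI := finite_of_hasSchurMultiplier hA
  set m := Nat.card (Abelianization Q)
  set Δ := ((powMonoidHom m).comp (Abelianization.of (G := Γ))).ker
  have hΔ : ∀ x, x ∈ Δ ↔ x ^ m ∈ commutator Γ := fun x => by
    rw [← Abelianization.ker_of, MonoidHom.mem_ker, MonoidHom.mem_ker, map_pow]; rfl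
  have hmap := map_commutator_of_surjective hρ.surj
  have hm : ∀ q : Q, q ^ m ∈ commutator Q := fun q => by
    rw [← Abelianization.ker_of, MonoidHom.mem_ker, map_pow, pow_card_eq_one']
  obtain ⟨f, hf⟩ := exists_surj_mul hA hρ
  haveI : Finite (mul ρ) := Finite.of_surjective f hf
  have hinj := ker_inf_commutator_eq_bot hρ.surj hσ.2.1 hφ
    (nonempty_mulEquiv_of_surj_of_card_le _ (mulMap_surjective hρ.surj hσ.2.1 hφ) (by
      rw [mul_eq_ker_of_stem hσ, Nat.card_congr e.toEquiv]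
      exact Nat.card_le_card_of_surjective f hf)).1
  constructor
  · rw [injective_iff_map_eq_one]
    rintro ⟨x, hx⟩ h1
    have h1' : φ x = 1 := h1
    have h2 : x ^ m ∈ φ.ker ⊓ commutator Γ := ⟨by simp [h1'], (hΔ x).1 hx⟩
    rw [hinj, mem_bot] at h2
    have h3 := hN x (by rw [MonoidHom.mem_ker, ← hφ, MonoidHom.comp_apply, h1', map_one])
    apply Subtype.ext
    have := pow_gcd_eq_one.2 ⟨h2, h3⟩
    rwa [hc, pow_one] at this
  · refine surjective_of_over_stem (ρ := ρ.comp Δ.subtype) (fun q => ?_) hσ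
      (by rw [← MonoidHom.comp_assoc, hφ])
    obtain ⟨x, rfl⟩ := hρ.surj q
    obtain ⟨n, h1, h2⟩ := Nat.chineseRemainder hc 1 0
    obtain ⟨c, hc', ec⟩ : ρ x ^ m ∈ (commutator Γ).map ρ := hmap ▸ hm _
    have hy : x ^ n ∈ Δ := by
      have hz := hN (c⁻¹ * x ^ m) (by rw [MonoidHom.mem_ker, map_mul, map_inv, ec, map_pow]; simp)
      obtain ⟨k, rfl⟩ := (Nat.modEq_zero_iff_dvd.1 h2)
      have hc1 : Abelianization.of c = 1 := by rwa [← Abelianization.ker_of] at hc'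
      have := congrArg Abelianization.of hz
      simp only [map_pow, map_mul, map_inv, hc1, inv_one, one_mul, map_one] at this
      change Abelianization.of (x ^ (Nat.card A * k)) ^ m = 1
      rw [map_pow, ← pow_mul, mul_comm _ m, pow_mul, pow_mul, this, one_pow]
    have hd : ρ x * (ρ (x ^ n))⁻¹ ∈ (commutator Γ).map ρ := by
      rw [hmap, ← Abelianization.ker_of, MonoidHom.mem_ker]
      simp only [map_mul, map_inv, map_pow]
      rw [pow_eq_pow_mod n pow_card_eq_one', h1, ← pow_eq_pow_mod 1 pow_card_eq_one']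
      simp
    obtain ⟨d, hd1, hd2⟩ := hd
    exact ⟨⟨d * x ^ n, Δ.mul_mem ((hΔ d).2 (pow_mem hd1 m)) hy⟩, by simp [hd2]⟩

theorem fwd (hA : HasSchurMultiplier Q A) (hc : Nat.Coprime (Nat.card (Abelianization Q)) (Nat.card A))
    {Γ₁ Γ₂ : Type*} [Group Γ₁] [Group Γ₂] {σ₁ : Γ₁ →* Q} {σ₂ : Γ₂ →* Q} (h₁ : IsStemExtension σ₁)
    (h₂ : IsStemExtension σ₂) (e₁ : σ₁.ker ≃* A) (e₂ : σ₂.ker ≃* A) :
    ∃ e : Γ₁ ≃* Γ₂, σ₂.comp e.toMonoidHom = σ₁ := by
  let ρ := σ₁.comp (pullFst σ₁ σ₂)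
  have hk : ∀ x ∈ ρ.ker, x.1.1 ∈ σ₁.ker ∧ x.1.2 ∈ σ₂.ker := fun x hx =>
    ⟨hx, (x.2 : σ₁ x.1.1 = σ₂ x.1.2).symm.trans hx⟩
  have hρ : IsCentralExt ρ := by
    refine ⟨fun q => ?_, fun x hx => mem_center_iff.2 fun y => Subtype.ext (Prod.ext ?_ ?_)⟩
    · obtain ⟨a, ha⟩ := h₁.1 q
      obtain ⟨b, hb⟩ := h₂.1 q
      exact ⟨⟨(a, b), ha.trans hb.symm⟩, ha⟩
    · exact mem_center_iff.1 (h₁.2.1 (hk x hx).1) _
    · exact mem_center_iff.1 (h₂.2.1 (hk x hx).2) _
  have hN : ∀ x ∈ ρ.ker, x ^ Nat.card A = 1 := fun x hx => by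
    refine Subtype.ext (Prod.ext ?_ ?_)
    · have := pow_card_eq_one' (x := (⟨_, (hk x hx).1⟩ : σ₁.ker))
      rw [Nat.card_congr e₁.toEquiv] at this
      exact congrArg Subtype.val this
    · have := pow_card_eq_one' (x := (⟨_, (hk x hx).2⟩ : σ₂.ker))
      rw [Nat.card_congr e₂.toEquiv] at this
      exact congrArg Subtype.val this
  have b₁ := side hA hc hρ hN h₁ e₁ (φ := pullFst σ₁ σ₂) rfl
  have b₂ := side hA hc hρ hN h₂ e₂ (φ := pullSnd σ₁ σ₂) (pull_comm σ₁ σ₂).symm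
  refine ⟨(MulEquiv.ofBijective _ b₁).symm.trans (MulEquiv.ofBijective _ b₂), ?_⟩
  ext g
  obtain ⟨x, rfl⟩ := (MulEquiv.ofBijective _ b₁).surjective g
  simp only [MonoidHom.comp_apply, MulEquiv.coe_toMonoidHom, MulEquiv.trans_apply,
    MulEquiv.symm_apply_apply]
  exact (x.1.2 : σ₁ x.1.1.1 = σ₂ x.1.1.2).symm

end Fwd

theorem ex_char (B : Type*) [CommGroup B] [Finite B] : ∃ (q : B) (χ : B →* Multiplicative (ZMod (Monoid.exponent B))),
    χ q = Multiplicative.ofAdd 1 := by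
  obtain ⟨q, hq⟩ := Monoid.exists_orderOf_eq_exponent (Monoid.ExponentExists.of_finite (G := B))
  set n := Monoid.exponent B
  haveI : NeZero n := ⟨Monoid.exponent_ne_zero_of_finite⟩
  have hζ := Complex.isPrimitiveRoot_exp n (NeZero.ne n)
  let ζ : ℂˣ := (hζ.isUnit (NeZero.ne n)).unit
  have hζ' : IsPrimitiveRoot ζ n := hζ.isUnit_unit (NeZero.ne n)
  have ho : orderOf ζ = n := hζ'.eq_orderOf.symm
  let f : zpowers q ≃* zpowers ζ := mulEquivOfOrderOfEq (g := ⟨q, mem_zpowers q⟩) (g' := ⟨ζ, mem_zpowers ζ⟩)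
    (fun x => by obtain ⟨x, k, rfl⟩ := x; exact ⟨k, rfl⟩) (fun x => by obtain ⟨x, k, rfl⟩ := x; exact ⟨k, rfl⟩)
    (by rw [← orderOf_coe, ← orderOf_coe, hq, ho])
  obtain ⟨g, hg⟩ := exists_extend_of_divisible complex_units_divisible (zpowers q).subtype
    (zpowers q).subtype_injective ((zpowers ζ).subtype.comp f.toMonoidHom)
  have hmem : ∀ b, g b ∈ zpowers ζ := fun b => by
    rw [hζ'.zpowers_eq, mem_rootsOfUnity, ← map_pow, Monoid.pow_exponent_eq_one, map_one]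
  let k : zpowers ζ ≃* Multiplicative (ZMod n) := mulEquivOfOrderOfEq (g := ⟨ζ, mem_zpowers ζ⟩)
    (g' := Multiplicative.ofAdd 1) (fun x => by obtain ⟨x, k, rfl⟩ := x; exact ⟨k, rfl⟩)
    (fun x => ⟨(Multiplicative.toAdd x).val, by
      apply Multiplicative.toAdd.injective; simp⟩)
    (by rw [← orderOf_coe, ho, orderOf_ofAdd_eq_addOrderOf, ZMod.addOrderOf_one])
  refine ⟨q, k.toMonoidHom.comp (g.codRestrict _ hmem), ?_⟩
  have : g.codRestrict _ hmem q = ⟨ζ, mem_zpowers ζ⟩ := by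
    apply Subtype.ext
    have := DFunLike.congr_fun hg ⟨q, mem_zpowers q⟩
    simp only [MonoidHom.comp_apply, coe_subtype, MulEquiv.coe_toMonoidHom, f,
      mulEquivOfOrderOfEq_apply_gen] at this
    exact this
  change k (g.codRestrict _ hmem q) = _
  rw [this]
  exact mulEquivOfOrderOfEq_apply_gen _ _ _

theorem bwd {Q : Type u} [Group Q] [Finite Q] {Γ : Type u} [Group Γ] [Finite Γ] {σ : Γ →* Q}
    (hσ : IsStemExtension σ) {p : ℕ} (hp : p.Prime) (h1 : p ∣ Nat.card (Abelianization Q))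
    (h2 : p ∣ Nat.card σ.ker) : ∃ (Γ₂ : Type u) (_ : Group Γ₂) (_ : Finite Γ₂) (σ₂ : Γ₂ →* Q),
      IsStemExtension σ₂ ∧ Nonempty (σ₂.ker ≃* σ.ker) ∧ ¬ ∃ e : Γ ≃* Γ₂, σ₂.comp e.toMonoidHom = σ := by
  haveI := Fact.mk hp
  let n := Monoid.exponent (Abelianization Q)
  obtain ⟨q, χ, hq⟩ : ∃ (q : Abelianization Q) (χ : Abelianization Q →* Multiplicative (ZMod n)),
    χ q = Multiplicative.ofAdd 1 := ex_char (Abelianization Q)
  have hpn : p ∣ n := by
    obtain ⟨b, hb⟩ := exists_prime_orderOf_dvd_card' p h1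
    exact hb ▸ Monoid.order_dvd_exponent b
  obtain ⟨a, ha⟩ : ∃ a : σ.ker, ∀ z : σ.ker, z ^ p ≠ a := by
    by_contra hc
    push Not at hc
    obtain ⟨b, hb⟩ := exists_prime_orderOf_dvd_card' p h2
    have : (fun z : σ.ker => z ^ p) b = (fun z : σ.ker => z ^ p) 1 := by
      simp [← hb]
    rw [Finite.injective_iff_surjective.2 hc this, orderOf_one] at hb
    exact hp.one_lt.ne hb
  let χ' : Γ →* Multiplicative (ZMod n) := χ.comp (Abelianization.of.comp σ)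
  let c : Multiplicative ℤ →* Multiplicative (ZMod n) := (Int.castAddHom (ZMod n)).toMultiplicative
  let P := pullback χ' c
  let ρ : P →* Q := σ.comp (pullFst χ' c)
  have hcs : Surjective c := fun y => by
    obtain ⟨k, hk⟩ := ZMod.intCast_surjective (Multiplicative.toAdd y)
    exact ⟨Multiplicative.ofAdd k, congrArg Multiplicative.ofAdd hk⟩
  have hfst : Surjective (pullFst χ' c) := fun g => by
    obtain ⟨k, hk⟩ := hcs (χ' g)
    exact ⟨⟨(g, k), hk.symm⟩, rfl⟩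
  have hρ : IsCentralExt ρ := by
    refine ⟨hσ.1.comp hfst, fun x hx => mem_center_iff.2 fun y => Subtype.ext (Prod.ext ?_ ?_)⟩
    · exact mem_center_iff.1 (hσ.2.1 hx) _
    · exact mul_comm _ _
  have hχ' : ∀ g ∈ commutator Γ, χ' g = 1 := fun g hg =>
    Abelianization.commutator_subset_ker χ' hg
  let ι : commutator Γ →* P :=
    ((commutator Γ).subtype.prod 1).codRestrict _ fun g => (hχ' g g.2).trans (map_one c).symm
  have hι : ∀ g, ι g ∈ commutator P := by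
    intro g
    obtain ⟨x, hx, e⟩ : (g : Γ) ∈ (commutator P).map (pullFst χ' c) := by
      rw [map_commutator_of_surjective hfst]; exact g.2
    have : ι g = x := by
      refine Subtype.ext (Prod.ext e.symm ?_)
      exact (Abelianization.commutator_subset_ker (pullSnd χ' c) hx).symm
    rw [this]; exact hx
  let j : σ.ker →* P := ι.comp (inclusion hσ.2.2)
  have hj : ∀ z, j z ∈ ρ.ker := fun z => z.2
  let t : P := ⟨(a, Multiplicative.ofAdd (-(n : ℤ))), (hχ' a (hσ.2.2 a.2)).trans (by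
    change _ = Multiplicative.ofAdd (((-(n : ℤ) : ℤ) : ZMod n))
    simp)⟩
  have hT : zpowers t ≤ ρ.ker := zpowers_le.2 a.2
  haveI : (zpowers t).Normal := normal_of_le_center (hT.trans hρ.central)
  have hdec : ∀ r : P, r.1.1 ∈ commutator Γ → ∃ k : ℤ, (t ^ k)⁻¹ * r ∈ ι.range ∧
      r.1.2 = Multiplicative.ofAdd (-(n * k)) := by
    intro r hr
    have h0 : c r.1.2 = 1 := (r.2 : χ' r.1.1 = c r.1.2).symm.trans (hχ' _ hr)
    obtain ⟨k, hk⟩ := (ZMod.intCast_zmod_eq_zero_iff_dvd (Multiplicative.toAdd r.1.2) n).1 h0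
    have hk' : r.1.2 = Multiplicative.ofAdd (-(n * -k : ℤ)) := by
      apply Multiplicative.toAdd.injective; simp [hk, mul_comm]
    refine ⟨-k, ⟨⟨((t ^ (-k))⁻¹ * r).1.1, mul_mem (inv_mem (zpow_mem (hσ.2.2 a.2) _)) hr⟩,
      Subtype.ext (Prod.ext rfl ?_)⟩, hk'⟩
    change 1 = (Multiplicative.ofAdd (-(n : ℤ)) ^ (-k))⁻¹ * r.1.2
    rw [hk']
    apply Multiplicative.toAdd.injective; simp
  have hstem := isStem_quotExt hρ (zpowers t) hT fun r hr => by
    obtain ⟨k, ⟨g, hg⟩, -⟩ := hdec r (hσ.2.2 hr)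
    exact ⟨_, zpow_mem_zpowers t k, hg ▸ hι g⟩
  set σ₂ := quotExt ρ (zpowers t) hT
  have hσ₂ : ∀ x : P, σ₂ (x : P ⧸ zpowers t) = ρ x := fun x => rfl
  let μ : σ.ker →* σ₂.ker := ((QuotientGroup.mk' _).comp j).codRestrict _ fun z => hj z
  have hμ : Bijective μ := by
    constructor
    · rw [injective_iff_map_eq_one]
      intro z hz
      obtain ⟨k, hk⟩ := (QuotientGroup.eq_one_iff _).1 (congrArg Subtype.val hz)
      have e1 : (a : Γ) ^ k = z := congrArg (fun x : P => x.1.1) hk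
      have e2 : Multiplicative.ofAdd (-(n : ℤ)) ^ k = 1 := congrArg (fun x : P => x.1.2) hk
      have hn0 : n ≠ 0 := Monoid.exponent_ne_zero_of_finite
      have : k = 0 := by simpa [hn0] using congrArg Multiplicative.toAdd e2
      exact Subtype.ext (by rw [← e1, this]; simp)
    · rintro ⟨y, hy⟩
      obtain ⟨r, rfl⟩ := QuotientGroup.mk_surjective y
      obtain ⟨k, ⟨g, hg⟩, -⟩ := hdec r (hσ.2.2 hy)
      have hm : ι g ∈ ρ.ker := hg ▸ mul_mem (inv_mem (hT (zpow_mem_zpowers t k))) hy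
      refine ⟨⟨g, hm⟩, Subtype.ext ?_⟩
      change ((ι g : P) : P ⧸ zpowers t) = r
      rw [hg, QuotientGroup.mk_mul, (QuotientGroup.eq_one_iff _).2 (inv_mem (zpow_mem_zpowers t k)),
        one_mul]
  haveI : Finite σ₂.ker := Finite.of_surjective μ hμ.2
  refine ⟨_, inferInstance, finite_of_finite_ker σ₂, σ₂, hstem,
    ⟨(MulEquiv.ofBijective μ hμ).symm⟩, ?_⟩
  rintro ⟨e, he⟩
  have hover : σ₂.comp (e.toMonoidHom.comp (pullFst χ' c)) = σ₂.comp (QuotientGroup.mk' _) := by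
    rw [← MonoidHom.comp_assoc, he]; rfl
  have hcomm := fun g => eq_on_commutator_of_over hstem.2.1 hover (hι g)
  obtain ⟨q0, hq0⟩ : ∃ q0 : Q, Abelianization.of q0 = q := QuotientGroup.mk_surjective q
  obtain ⟨g, hg⟩ := hσ.1 q0
  have hq' : χ' g = Multiplicative.ofAdd 1 := by rw [← hq, ← hq0, ← hg]; rfl
  let x : P := ⟨(g, Multiplicative.ofAdd 1), hq'.trans (by
    change _ = Multiplicative.ofAdd (((1 : ℤ) : ZMod n))
    simp)⟩
  have hgn : g ^ n ∈ commutator Γ := by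
    have : σ (g ^ n) ∈ (commutator Γ).map σ := by
      rw [map_commutator_of_surjective hσ.1, ← Abelianization.ker_of, MonoidHom.mem_ker, map_pow,
        map_pow, Monoid.pow_exponent_eq_one]
    obtain ⟨d, hd, e⟩ := this
    have := mul_mem hd (hσ.2.2 (show d⁻¹ * g ^ n ∈ σ.ker by simp [MonoidHom.mem_ker, e]))
    simpa using this
  obtain ⟨z, hz⟩ := hμ.2 ⟨(e g)⁻¹ * (x : P ⧸ zpowers t), by
    rw [MonoidHom.mem_ker, map_mul, map_inv, hσ₂, inv_mul_eq_one]
    exact DFunLike.congr_fun he g⟩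
  have hz' : (x : P ⧸ zpowers t) = e g * (μ z : P ⧸ zpowers t) := by rw [hz]; simp
  have hc : Commute (e g) (μ z : P ⧸ zpowers t) := mem_center_iff.1 (hstem.2.1 (μ z).2) _
  have e1 : x ^ n * t = ι ⟨g ^ n, hgn⟩ * j a := by
    refine Subtype.ext (Prod.ext rfl ?_)
    change Multiplicative.ofAdd (1 : ℤ) ^ n * Multiplicative.ofAdd (-(n : ℤ)) = 1 * 1
    apply Multiplicative.toAdd.injective; simp
  have e2 := congrArg (QuotientGroup.mk' (zpowers t)) e1
  rw [map_mul, map_mul, ← hcomm, map_pow, QuotientGroup.mk'_apply, hz', hc.mul_pow,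
    QuotientGroup.mk'_apply, (QuotientGroup.eq_one_iff _).2 (mem_zpowers t), mul_one, ← map_pow] at e2
  have e3 : μ (z ^ n) = μ a := Subtype.ext (by rw [map_pow]; exact mul_left_cancel e2)
  obtain ⟨k, hk⟩ := hpn
  exact ha (z ^ k) (by rw [← pow_mul, mul_comm, ← hk]; exact hμ.1 e3)

/-- Let `Q` be a finite group with Schur multiplier `A`. Any two Schur covering groups of `Q` (finite stem extensions `σ₁ : Γ₁ →* Q`, `σ₂ : Γ₂ →* Q` with kernels isomorphic to `A`, `Γ₁, Γ₂` in the universe of `Q`) are isomorphic over `Q` — there is a group isomorphism `e : Γ₁ ≃* Γ₂` with `σ₂ ∘ e = σ₁` — if and only if the order of the commutator quotient of `Q` is coprime to the order of `A`. In particular a finite perfect group has a unique Schur covering group up to isomorphism over it. -/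
theorem result {Q : Type u} [Group Q] [Finite Q] {A : Type v} [CommGroup A] (hA : Cfsg.HasSchurMultiplier Q A) : (∀ (Γ₁ Γ₂ : Type u) [Group Γ₁] [Finite Γ₁] [Group Γ₂] [Finite Γ₂] (σ₁ : Γ₁ →* Q) (σ₂ : Γ₂ →* Q), Cfsg.IsStemExtension σ₁ → Cfsg.IsStemExtension σ₂ → Nonempty (σ₁.ker ≃* A) → Nonempty (σ₂.ker ≃* A) → ∃ e : Γ₁ ≃* Γ₂, σ₂.comp e.toMonoidHom = σ₁) ↔ Nat.Coprime (Nat.card (Abelianization Q)) (Nat.card A) := by
  refine ⟨fun h => ?_, fun hc Γ₁ Γ₂ _ _ _ _ σ₁ σ₂ h₁ h₂ ⟨e₁⟩ ⟨e₂⟩ => fwd hA hc h₁ h₂ e₁ e₂⟩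
  by_contra hc
  obtain ⟨p, hp, h1, h2⟩ := Nat.Prime.not_coprime_iff_dvd.1 hc
  obtain ⟨Γ, _, _, σ, hσ, ⟨e⟩⟩ := hA.1
  obtain ⟨Γ₂, _, _, σ₂, h₂, ⟨e₂⟩, hne⟩ := bwd hσ hp h1 (by rwa [Nat.card_congr e.toEquiv])
  exact hne (h Γ Γ₂ σ σ₂ hσ h₂ ⟨e⟩ ⟨e₂.trans e⟩)

end Cfsg.Agent.S3974
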