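import Cfsg.Statements.S3149
import Cfsg.Agent.StdZ.RuF
import Cfsg.Agent.Known.RuG

set_option autoImplicit false
open Cfsg

namespace Cfsg.Agent.S3149

/-- Let G be a finite group with no nontrivial normal subgroup of odd order and A a standard subgroup of G which is a double cover of the Rudvalis group (the centre of A has order 2 and A modulo its centre is isomorphic to the Rudvalis group). If the centralizer of A in G has cyclic Sylow 2-subgroups, then A is normal in G. -/
theorem result {G : Type*} [Group G] [Finite G] (hO : Cfsg.oddCore G = ⊥) (A : Subgroup G) (hA : Cfsg.IsStandardSubgroup A)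
    (hZ : Nat.card ↥(Subgroup.center ↥A) = 2) (hAX : Cfsg.Spor.IsoRu (↥A ⧸ Subgroup.center ↥A))
    (hR : ∀ R : Sylow 2 ↥(Subgroup.centralizer (A : Set G)), IsCyclic ↥(R : Subgroup ↥(Subgroup.centralizer (A : Set G)))) : A.Normal := by
  obtain ⟨e⟩ := hAX
  obtain ⟨f⟩ := Known.RuL.main.1
  have : Fact (Nat.Prime 2) := ⟨Nat.prime_two⟩
  have := Known.RuT.fin
  have st := Schur.isStem_equiv_comp (σ := QuotientGroup.mk' (Subgroup.center A)) ⟨QuotientGroup.mk'_surjective _,
    (QuotientGroup.ker_mk' _).le, le_top.trans (Group.isPerfect_def.1 hA.1.1).ge⟩ (e.trans f.symm)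
  obtain ⟨i, -⟩ := S3974.fwd Known.RuT.mult (by
      rw [show Nat.card (Abelianization Spor.MdRu.G) = 1 from Subgroup.index_eq_one.2 (Group.isPerfect_def.1 StdZ.Ru.perfG)]
      exact Nat.coprime_one_left _) st StdZ.Ru.stem
    (mulEquivOfPrimeCardEq (p := 2) (by rw [← hZ]; congr 2; ext; simp) (by simp))
    (mulEquivOfPrimeCardEq (p := 2) StdZ.Ru.card_ker (by simp))
  obtain ⟨j, rfl, H⟩ := StdZ.of_std hA i StdZ.Ru.n2 StdZ.Ru.cen hR
  exact H.normal_of hO (StdZ.Ru.isol H)

end Cfsg.Agent.S3149
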