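import Cfsg.Statements.S3153
import Cfsg.Agent.Loc.Std

set_option autoImplicit false
open Cfsg

namespace Cfsg.Agent.S3153

/-- Let X be a finite group and P a standard subgroup of X whose centralizer has 2-rank at most 1 and whose centre has odd order. Let S be a Sylow 2-subgroup of N_X(P) and t an involution of S centralizing P. Suppose some element g of X normalizes S, does not lie in S, has its square in S, and conjugates t into P·C_X(P). Then P commutes elementwise with the largest normal odd-order subgroup O(X) of X; consequently every t-invariant 2-component of X containing P is quasisimple. -/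
theorem result {X : Type*} [Group X] [Finite X] (P : Subgroup X) (hP : Cfsg.IsStandardSubgroup P)
    (hr : Cfsg.PRankLE 2 1 ↥(Subgroup.centralizer (P : Set X))) (hZ : Odd (Nat.card ↥(Subgroup.center ↥P)))
    (S : Sylow 2 ↥(Subgroup.normalizer (P : Set X))) (t : X) (ht : orderOf t = 2) (htS : t ∈ (S : Subgroup ↥(Subgroup.normalizer (P : Set X))).map (Subgroup.normalizer (P : Set X)).subtype)
    (htP : t ∈ Subgroup.centralizer (P : Set X))
    (g : X) (hgN : ∀ s ∈ (S : Subgroup ↥(Subgroup.normalizer (P : Set X))).map (Subgroup.normalizer (P : Set X)).subtype, g * s * g⁻¹ ∈ (S : Subgroup ↥(Subgroup.normalizer (P : Set X))).map (Subgroup.normalizer (P : Set X)).subtype)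
    (hgS : g ∉ (S : Subgroup ↥(Subgroup.normalizer (P : Set X))).map (Subgroup.normalizer (P : Set X)).subtype) (hg2 : g ^ 2 ∈ (S : Subgroup ↥(Subgroup.normalizer (P : Set X))).map (Subgroup.normalizer (P : Set X)).subtype)
    (hgt : g * t * g⁻¹ ∈ P ⊔ Subgroup.centralizer (P : Set X)) :
    ⁅P, Cfsg.oddCore X⁆ = ⊥ ∧
      ∀ L : Subgroup X, Cfsg.IsPComponent 2 L → P ≤ L → (∀ l ∈ L, t * l * t⁻¹ ∈ L) → Cfsg.IsQuasisimple ↥L := by
  open Cfsg.Agent.Loc Subgroup in
  open scoped commutatorElement in
  have hK := inv1_of_pRankLE _ hr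
  have t2 : t * t = 1 := Invol.mul_self_of ht
  set T := (S : Subgroup ↥(normalizer (P : Set X))).map (normalizer (P : Set X)).subtype with hT
  have pT : IsPGroup 2 T := S.isPGroup'.map _
  have TN : T ≤ normalizer (P : Set X) := map_subtype_le _
  have gT : g ∈ normalizer (T : Set X) := mem_normalizer_of_cj_le (cj_le_iff_forall.2 hgN)
  have gN : g ∉ normalizer (P : Set X) := fun h => by
    have p1 : IsPGroup 2 (zpowers g) := by
      obtain ⟨k, hk⟩ := pT ⟨_, hg2⟩
      have : orderOf g ∣ 2 ^ (k + 1) := orderOf_dvd_of_pow_eq_one (by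
        rw [pow_succ', pow_mul]; exact congrArg Subtype.val hk)
      obtain ⟨n, -, hn⟩ := (Nat.dvd_prime_pow Nat.prime_two).1 this
      exact IsPGroup.of_card (by rw [Nat.card_zpowers, hn])
    have p2 : IsPGroup 2 (zpowers g ⊔ T : Subgroup X) := IsPGroup.to_sup_of_normal_right' p1 pT (zpowers_le.2 gT)
    have := S.is_maximal' (isPGroup_subgroupOf p2 _) (fun x hx => mem_sup_right (mem_map_of_mem _ hx))
    exact hgS ⟨⟨g, h⟩, by rw [← this]; exact mem_sup_left (mem_zpowers g), rfl⟩
  have tZ : ∀ s ∈ T, Commute s t := fun s hs => by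
    have r1 := rk1_of_pRankLE (T := T ⊓ centralizer (P : Set X)) (pT.to_le inf_le_left) (pRankLE_of_le inf_le_right hr)
    have h1 : s * t * s⁻¹ ∈ T ⊓ centralizer (P : Set X) := ⟨T.mul_mem (T.mul_mem hs htS) (T.inv_mem hs),
      conj_mem_of_mem_normalizer (normalizer_le_normalizer_centralizer _ (TN hs)) htP⟩
    have := r1 t ⟨htS, htP⟩ _ h1 (by rw [pow_two, t2]) (by rw [conj_pow, pow_two, t2]; group) (Invol.ne_one_of ht)
    rcases (Invol.mem_zpowers_invol t2).1 this with e | e
    · rw [mul_inv_eq_one, mul_eq_left] at e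
      exact absurd e (Invol.ne_one_of ht)
    · exact mul_inv_eq_iff_eq_mul.1 e
  set u := g * t * g⁻¹ with hu
  have ou : orderOf u = 2 := by rw [← ht]; exact (MulAut.conj g).orderOf_eq _
  have u2 : u * u = 1 := Invol.mul_self_of ou
  have cut : Commute u t := tZ u (hgN t htS)
  have ne : t ≠ u := fun e => gN ((S1754.result P hP t ht htP).1 (mem_centralizer_singleton_iff.2
    (mul_inv_eq_iff_eq_mul.1 e.symm)))
  have gu : g * u * g⁻¹ = t := by
    have := (tZ _ hg2).eq
    calc g * u * g⁻¹ = g ^ 2 * t * (g ^ 2)⁻¹ := by rw [hu, pow_two]; group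
      _ = t := by rw [this]; group
  have zodd : ∀ z ∈ P, z ∈ centralizer (P : Set X) → Odd (orderOf z) := fun z h1 h2 => by
    rw [← card_map_subtype, map_subtype_center] at hZ
    exact hZ.of_dvd_nat (orderOf_dvd_natCard _ (show z ∈ P ⊓ centralizer (P : Set X) from ⟨h1, h2⟩))
  obtain ⟨a, ha, c, hc, e, a2⟩ : ∃ a ∈ P, ∃ c ∈ centralizer (P : Set X), a * c = u ∧ a * a = 1 := by
    obtain ⟨a, ha, c, hc, e⟩ := (mem_sup_of_le_normalizer_right (le_normalizer_centralizer le_normalizer)).1 hgt
    have cac : Commute a c := hc a ha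
    have h1 : a * a ∈ centralizer (P : Set X) := by
      have : a * a * (c * c) = 1 := by rw [cac.mul_mul_mul_comm, e, u2]
      rw [eq_inv_of_mul_eq_one_left this]; exact inv_mem (mul_mem hc hc)
    obtain ⟨k, hk⟩ := zodd _ (mul_mem ha ha) h1
    refine ⟨a ^ (2 * k + 1), pow_mem ha _, ((a * a) ^ k)⁻¹ * c, mul_mem (inv_mem (pow_mem h1 _)) hc, ?_, ?_⟩
    · rw [← e, ← pow_two, ← pow_mul]; group
    · rw [← (Commute.refl a).mul_pow, ← hk, pow_orderOf_eq_one]
  have cac : Commute a c := hc a ha
  have cat : Commute a t := htP a ha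
  have c2 : c * c = 1 := by
    have : a * a * (c * c) = 1 := by rw [cac.mul_mul_mul_comm, e, u2]
    rwa [a2, one_mul] at this
  have hct : c = 1 ∨ c = t := by
    by_cases c1 : c = 1
    · exact .inl c1
    refine .inr (hK c hc t htP (Invol.orderOf_two_iff.2 ⟨c2, c1⟩) ht ?_)
    rw [← eq_inv_mul_iff_mul_eq] at e
    rw [e]; exact cat.inv_left.mul_left cut
  have a1 : a ≠ 1 := by
    rintro rfl
    rw [one_mul] at e
    rcases hct with h | h
    · exact Invol.ne_one_of ou (e ▸ h)
    · exact ne (h.symm.trans e)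
  have oa : orderOf a = 2 := Invol.orderOf_two_iff.2 ⟨a2, a1⟩
  have aC : a ∉ centralizer (P : Set X) := fun h => by
    have := zodd a ha h
    rw [oa] at this; exact absurd this (by decide)
  set O := oddCore X with hO
  have oO : Odd (Nat.card O) := Invol.odd_oddCore
  have nN : ∀ x : X, x ∈ normalizer (O : Set X) := fun x => le_normalizer_of_normal (mem_top _)
  have k1 : O ⊓ centralizer {t} ≤ centralizer ({a} : Set X) :=
    (std_cent hP ht htP oO).trans (centralizer_le (Set.singleton_subset_iff.2 ha))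
  have h2 : P ≤ centralizer (O : Set X) := by
    rcases hct with rfl | rfl
    · rw [mul_one] at e
      subst e
      have k2 : O ⊓ centralizer {u} ≤ centralizer ({t} : Set X) := std_cent_conj hP ht htP oO (by
        rw [← gu]; convert ha using 1; group)
      have m : ∀ x : X, Commute x t → Commute x u → x ∈ centralizer ({u * t} : Set X) := fun x h1 h2 =>
        mem_centralizer_singleton_iff.2 (h2.mul_right h1)
      have h1 : O ≤ centralizer ({u * t} : Set X) := SE.le_of_four ou ht ne.symm cut oO (nN _) (nN _)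
        (fun x hx => m x (mem_centralizer_singleton_iff.1 (k2 hx)) (mem_centralizer_singleton_iff.1 hx.2))
        (fun x hx => m x (mem_centralizer_singleton_iff.1 hx.2) (mem_centralizer_singleton_iff.1 (k1 hx))) inf_le_right
      exact qs_le_of_mem hP.1 ha aC htP fun o ho => mem_centralizer_singleton_iff.1 (h1 ho)
    · have e1 : u * c = a := by rw [← e, mul_assoc, t2, mul_one]
      have k2 : O ⊓ centralizer {u} ≤ centralizer ({a} : Set X) := std_cent_conj hP ht htP oO (by
        have : g⁻¹ * a * g = c * u := by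
          rw [← e1]
          calc g⁻¹ * (u * c) * g = g⁻¹ * (u * (g * u * g⁻¹)) * g := by rw [gu]
            _ = c * u := by rw [hu]; group
        rw [this, ← cut.eq, e1]; exact ha)
      have h1 : O ≤ centralizer ({a} : Set X) := SE.le_of_four ou ht ne.symm cut oO (nN _) (nN _) k2 k1
        (e1 ▸ inf_le_right)
      exact qs_le_of_mem hP.1 ha aC (one_mem _) (by
        rw [mul_one]; exact fun o ho => mem_centralizer_singleton_iff.1 (h1 ho))
  refine ⟨commutator_eq_bot_iff_le_centralizer.2 h2, fun L hL hPL _ => ?_⟩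
  rw [Sig.isPComponent_iff] at hL
  rcases hL.pqs.normal (N := L ⊓ centralizer (O : Set X)) inf_le_left
    (le_normalizer_inf le_normalizer le_normalizer_of_normal) with h | h
  · refine hL.pqs.qs ((Sig.ppIn_mono hL.subnIn).trans ?_)
    rw [Sig.ppIn_top]
    exact le_centralizer_iff.1 (h.ge.trans inf_le_right)
  · exact absurd (Nat.coprime_two_right.1 (Nat.Coprime.coprime_dvd_left (card_dvd_of_le
      ((Sig.qs_perfect hP.1).ge.trans ((commutator_mono (le_inf hPL h2) hPL).trans h))) Sig.coprime_ppIn))
      (qs_not_odd hP.1)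

end Cfsg.Agent.S3153
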