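import Cfsg.Statements.S3154
import Cfsg.Agent.Mult.L34b
import Cfsg.Agent.Classical.PSL2Basic
import Cfsg.Agent.Classical.SLCard

set_option autoImplicit false
open Cfsg

namespace Cfsg.Agent.S3154

open Cfsg.Agent.Mult Cfsg.Agent.Classical Matrix Subgroup
open scoped MatrixGroups

theorem dich {X L F : Type*} [Group X] [Group L] [Finite L] [Field F] [Fintype F] (hF : Fintype.card F = 4) (h2 : (2 : F) = 0)
    (π : X →* L) (ψ : SL(3, F) →* L) (kψ : ∀ z, ψ z = 1 ↔ z ∈ center SL(3, F)) (H : Subgroup X) (hk : π.ker ≤ H)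
    (hT : ∀ x ∈ H, ∃ a b c, π x = ψ (l3u a b c)) (hH : IsElementaryAbelian 2 (H.map π)) (hc : Nat.card (H.map π) = 16) :
    (∀ x, x ∈ H ↔ ∃ a c, π x = ψ (l3u a 0 c)) ∨ (∀ x, x ∈ H ↔ ∃ b c, π x = ψ (l3u 0 b c)) := by
  have inj : ∀ {a b c a' b' c' : F}, ψ (l3u a b c) = ψ (l3u a' b' c') → a = a' ∧ b = b' ∧ c = c' := fun {a b c a' b' c'} e =>
    l3u_inj (l3_center_eq ((kψ (l3u a b c * (l3u a' b' c')⁻¹)).1 (by simp [e])) (by simp) (by simp [l3u_val]) (by simp [l3u_val]))
  have key : ∀ f : F × F → L, (∀ x ∈ H, ∃ a c, π x = f (a, c)) → ∀ x, x ∈ H ↔ ∃ a c, π x = f (a, c) := by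
    intro f hf x
    refine ⟨hf x, fun ⟨a, c, e⟩ => ?_⟩
    have : ((H.map π : Subgroup L) : Set L) = Set.range f := by
      refine Set.eq_of_subset_of_ncard_le ?_ ?_ (Set.toFinite _)
      · rintro _ ⟨y, hy, rfl⟩
        obtain ⟨a, c, e⟩ := hf y hy
        exact ⟨_, e.symm⟩
      · rw [← Set.image_univ]
        refine (Set.ncard_image_le (Set.toFinite _)).trans ?_
        rw [Set.ncard_univ, ← Nat.card_coe_set_eq]
        simp only [SetLike.coe_sort_coe, hc]
        simp [hF]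
    have h1 : π x ∈ H.map π := by
      rw [← SetLike.mem_coe, this]; exact ⟨_, e.symm⟩
    rwa [← mem_comap, comap_map_eq_self hk] at h1
  by_cases hA : ∀ x ∈ H, ∃ a c, π x = ψ (l3u a 0 c)
  · exact Or.inl (key (fun p => ψ (l3u p.1 0 p.2)) hA)
  refine Or.inr (key (fun p => ψ (l3u 0 p.1 p.2)) fun y hy => ?_)
  push Not at hA
  obtain ⟨x, hx, hx'⟩ := hA
  obtain ⟨a, b, c, e⟩ := hT x hx
  obtain ⟨a', b', c', e'⟩ := hT y hy
  have hb : b ≠ 0 := by rintro rfl; exact hx' _ _ e
  have s1 := hH.2 _ ⟨x, hx, rfl⟩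
  rw [e, ← map_pow, sq, l3u_mul, ← map_one ψ, ← l3u_zero] at s1
  have ha : a = 0 := by
    have : a * b = 0 := by linear_combination (inj s1).2.2 - c * h2
    exact (mul_eq_zero.1 this).resolve_right hb
  have s2 := congrArg (Subtype.val : H.map π → L) (hH.1.is_comm.comm ⟨_, x, hx, rfl⟩ ⟨_, y, hy, rfl⟩)
  simp only [coe_mul, e, e'] at s2
  rw [← map_mul, ← map_mul, l3u_mul, l3u_mul, ha] at s2
  have ha' : a' = 0 := by
    have : a' * b = 0 := by linear_combination -(inj s2).2.2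
    exact (mul_eq_zero.1 this).resolve_right hb
  exact ⟨b', c', by rw [e', ha']⟩

/-- Let X be a finite quasisimple group whose centre is an elementary abelian 2-group and whose central quotient is isomorphic to the projective special linear group of dimension 3 over the field with 4 elements. Let T be a Sylow 2-subgroup of X and H ≠ K subgroups of T containing the centre Z(X) whose images in X/Z(X) are elementary abelian of order 16 (the two such subgroups of a Sylow 2-subgroup of the quotient). Then H and K are elementary abelian, H ∩ K is the centre of the subgroup they generate, and each of N_X(H), N_X(K) is a split extension of H, respectively K, by the projective special linear group of dimension 2 over the field with 4 elements (there is a complement isomorphic to that group). -/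
theorem result {X : Type*} [Group X] [Finite X] (hq : Cfsg.IsQuasisimple X) (hZ : Cfsg.IsElementaryAbelian 2 (Subgroup.center X))
    {F : Type*} [Field F] [Fintype F] (hF : Fintype.card F = 4) (hXL : Nonempty ((X ⧸ Subgroup.center X) ≃* Matrix.ProjectiveSpecialLinearGroup (Fin 3) F))
    (T : Sylow 2 X) (H K : Subgroup X) (hHK : H ≠ K) (hHT : H ≤ T) (hKT : K ≤ T) (hZH : Subgroup.center X ≤ H) (hZK : Subgroup.center X ≤ K)
    (hH : Cfsg.IsElementaryAbelian 2 (H.map (QuotientGroup.mk' (Subgroup.center X))) ∧ Nat.card ↥(H.map (QuotientGroup.mk' (Subgroup.center X))) = 16)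
    (hK : Cfsg.IsElementaryAbelian 2 (K.map (QuotientGroup.mk' (Subgroup.center X))) ∧ Nat.card ↥(K.map (QuotientGroup.mk' (Subgroup.center X))) = 16) :
    Cfsg.IsElementaryAbelian 2 H ∧ Cfsg.IsElementaryAbelian 2 K ∧
      H ⊓ K = (Subgroup.center ↥(H ⊔ K)).map (H ⊔ K).subtype ∧
      (∃ C : Subgroup X, C ≤ Subgroup.normalizer (H : Set X) ∧ C ⊓ H = ⊥ ∧ H ⊔ C = Subgroup.normalizer (H : Set X) ∧
        Nonempty (↥C ≃* Matrix.ProjectiveSpecialLinearGroup (Fin 2) F)) ∧
      (∃ C : Subgroup X, C ≤ Subgroup.normalizer (K : Set X) ∧ C ⊓ K = ⊥ ∧ K ⊔ C = Subgroup.normalizer (K : Set X) ∧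
        Nonempty (↥C ≃* Matrix.ProjectiveSpecialLinearGroup (Fin 2) F)) := by
  haveI : Fact (Nat.Prime 2) := ⟨Nat.prime_two⟩
  obtain ⟨e⟩ := hXL
  obtain ⟨h2, w, hw, -⟩ := F4_cases hF
  have h3 : ∀ s : F, s ≠ 0 → s ^ 3 = 1 := fun s hs => by
    have := FiniteField.pow_card_sub_one_eq_one s hs
    rwa [hF] at this
  let π := QuotientGroup.mk' (center X)
  have sπ : Function.Surjective π := QuotientGroup.mk'_surjective _
  let ψ₀ : SL(3, F) →* X ⧸ center X := e.symm.toMonoidHom.comp (QuotientGroup.mk' _)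
  have sψ : Function.Surjective ψ₀ := e.symm.surjective.comp (QuotientGroup.mk'_surjective _)
  have hc : Nat.card SL(3, F) = 60480 := by
    have h2 := card_SL_mul (F := F) 3 (by simp)
    simp [hF, Fin.prod_univ_succ, -Nat.card_eq_fintype_card, Nat.card_eq_fintype_card (α := F)] at h2
    omega
  let U : Sylow 2 SL(3, F) := Sylow.ofCard (l3U F) (by
    rw [l3U_card, hF, hc, show 60480 = 2 ^ 6 * 945 by norm_num, Nat.factorization_mul (by norm_num) (by norm_num),
      Nat.factorization_pow]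
    simp [Nat.Prime.factorization_self Nat.prime_two, Nat.factorization_eq_zero_of_not_dvd])
  obtain ⟨g, hg⟩ := MulAction.exists_smul_eq (X ⧸ center X) (U.mapSurjective sψ) (T.mapSurjective sπ)
  let ψ : SL(3, F) →* X ⧸ center X := (MulAut.conj g).toMonoidHom.comp ψ₀
  have kπ : π.ker = center X := QuotientGroup.ker_mk' _
  have kψ : ∀ z, ψ z = 1 ↔ z ∈ center SL(3, F) := fun z => by
    simp [ψ, ψ₀]
  have mT : ∀ x, x ∈ (T : Subgroup X) ↔ ∃ a b c, π x = ψ (l3u a b c) := fun x => by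
    have h1 : (T : Subgroup X).map π = (l3U F).map ψ := by
      have := congrArg (fun P : Sylow 2 (X ⧸ center X) => (P : Subgroup (X ⧸ center X))) hg
      simp only [Sylow.coe_subgroup_smul, Sylow.coe_mapSurjective] at this
      rw [← this]; exact Subgroup.map_map _ _ _
    conv_lhs => rw [← comap_map_eq_self (f := π) (H := (T : Subgroup X)) (kπ.le.trans (hZH.trans hHT)), mem_comap, h1]
    constructor
    · rintro ⟨_, ⟨a, b, c, rfl⟩, e⟩
      exact ⟨a, b, c, e.symm⟩
    · rintro ⟨a, b, c, e⟩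
      exact ⟨_, ⟨a, b, c, rfl⟩, e.symm⟩
  have mk : ∀ H K : Subgroup X, (∀ x, x ∈ H ↔ ∃ a c, π x = ψ (l3u a 0 c)) → (∀ x, x ∈ K ↔ ∃ b c, π x = ψ (l3u 0 b c)) →
      L3Cov π ψ H K T := fun H K h1 h2 =>
    ⟨sπ, (MulAut.conj g).surjective.comp sψ, fun x => QuotientGroup.eq_one_iff x, hZ.2, kψ, h1, h2, mT⟩
  suffices hs : ∃ ψ : SL(3, F) →* X ⧸ center X, L3Cov π ψ H K T by
    obtain ⟨ψ, h⟩ := hs
    have eH := h.elemAb h2 hw
    have eK := h.symm.elemAb h2 hw
    obtain ⟨C, a1, a2, a3, ⟨a4⟩⟩ := h.split T h2 hw h3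
    obtain ⟨D, b1, b2, b3, ⟨b4⟩⟩ := h.symm.split T h2 hw h3
    exact ⟨eH, eK, h.center_eq eH eK, ⟨C, a1, a2, a3, ⟨a4.trans (slEquivPSL h2)⟩⟩, D, b1, b2, b3, ⟨b4.trans (slEquivPSL h2)⟩⟩
  rcases dich hF h2 π ψ kψ H (kπ.le.trans hZH) (fun x hx => (mT x).1 (hHT hx)) hH.1 hH.2 with h1 | h1 <;>
    rcases dich hF h2 π ψ kψ K (kπ.le.trans hZK) (fun x hx => (mT x).1 (hKT hx)) hK.1 hK.2 with h3 | h3
  · exact absurd (Subgroup.ext fun x => (h1 x).trans (h3 x).symm) hHK
  · exact ⟨_, mk H K h1 h3⟩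
  · exact ⟨_, (mk K H h3 h1).symm⟩
  · exact absurd (Subgroup.ext fun x => (h1 x).trans (h3 x).symm) hHK

end Cfsg.Agent.S3154
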