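import Cfsg.Statements.S3155
import Mathlib.LinearAlgebra.Determinant
import Mathlib.Algebra.Module.ZMod
import Mathlib.LinearAlgebra.Dimension.Constructions

set_option autoImplicit false
open Cfsg

namespace Cfsg.Agent.S3155

/-- Let B be the direct product of three cyclic groups of order 4. Then the automorphism of B inverting every element is not the square of any automorphism of B. -/
theorem result {B : Type*} [CommGroup B] [Finite B] (hB : Nonempty (B ≃* Multiplicative (ZMod 4 × ZMod 4 × ZMod 4)))
    (τ : B ≃* B) : τ.trans τ ≠ MulEquiv.inv B := by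
  intro h
  obtain ⟨e⟩ := hB
  let σ : (ZMod 4 × ZMod 4 × ZMod 4) →+ (ZMod 4 × ZMod 4 × ZMod 4) :=
    MonoidHom.toAdditiveRight ((e.symm.trans τ).trans e).toMonoidHom |>.comp
      (AddEquiv.toAddMonoidHom (AddEquiv.additiveMultiplicative _).symm)
  have hσ : ∀ v, σ v = Multiplicative.toAdd (e (τ (e.symm (Multiplicative.ofAdd v)))) := fun v => rfl
  have hσσ : ∀ v, σ (σ v) = -v := by
    intro v
    rw [hσ, hσ]
    have := DFunLike.congr_fun h (e.symm (Multiplicative.ofAdd v))
    simp only [MulEquiv.trans_apply, MulEquiv.inv_apply] at this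
    simp [this]
  let L := σ.toZModLinearMap 4
  have hL : L ∘ₗ L = (-1 : ZMod 4) • LinearMap.id := by
    refine LinearMap.ext fun v => ?_
    simp [L, hσσ]
  have : Fact (1 < 4) := ⟨by norm_num⟩
  have hd := congrArg LinearMap.det hL
  rw [LinearMap.det_comp, LinearMap.det_smul, LinearMap.det_id] at hd
  simp only [Module.finrank_prod, Module.finrank_self] at hd
  generalize LinearMap.det L = d at hd
  revert d
  decide

end Cfsg.Agent.S3155
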