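import Cfsg.Statements.S3157
import Cfsg.Agent.Mult.L34c

set_option autoImplicit false
open Cfsg

namespace Cfsg.Agent.S3157

open Cfsg.Agent.Mult Subgroup
open scoped commutatorElement

/-- Let T be a non-abelian group of order 64 admitting automorphisms ρ of order 3 and x of order 2 with x ρ x⁻¹ = ρ⁻¹ (so they generate a symmetric group of degree 3), where ρ fixes only the identity. Then T is isomorphic to a Sylow 2-subgroup of the projective special linear group of dimension 3 over the field with 4 elements, and the subgroup of fixed points of x is dihedral of order 8 or quaternion of order 8. -/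
theorem result {T : Type*} [Group T] [Finite T] (hT : Nat.card T = 64) (hna : ¬ IsMulCommutative T) (ρ x : MulAut T) (hρ : orderOf ρ = 3) (hx : orderOf x = 2)
    (hxr : x * ρ * x⁻¹ = ρ⁻¹) (hfp : ∀ y : T, ρ y = y → y = 1) (C : Subgroup T) (hC : ∀ y : T, y ∈ C ↔ x y = y) :
    (∃ (F : Type) (_ : Field F) (_ : Fintype F), Fintype.card F = 4 ∧
        ∃ S : Sylow 2 (Matrix.ProjectiveSpecialLinearGroup (Fin 3) F), Nonempty (T ≃* ↥(S : Subgroup (Matrix.ProjectiveSpecialLinearGroup (Fin 3) F)))) ∧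
      (Nonempty (↥C ≃* DihedralGroup 4) ∨ Nonempty (↥C ≃* QuaternionGroup 2)) := by
  have h := f3_of (hρ ▸ pow_orderOf_eq_one ρ) hfp
  have x2 : x * x = 1 := by rw [← sq]; exact hx ▸ pow_orderOf_eq_one x
  have r3 : ρ ^ 3 = 1 := hρ ▸ pow_orderOf_eq_one ρ
  have e1 : x * ρ = ρ * x * ρ⁻¹ := by
    rw [mul_inv_eq_iff_eq_mul] at hxr
    have : ρ * x = x * ρ⁻¹ := by rw [eq_mul_inv_iff_mul_eq, mul_assoc, hxr]; simp
    rw [this, mul_assoc, mul_right_inj, eq_comm, ← mul_inv_rev, inv_eq_iff_mul_eq_one, ← r3, pow_three']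
  have dec : ∀ y : T, ∃ c ∈ C, ∃ d ∈ C, y = c * ρ d := fun y => by
    open Transfer SemidirectProduct in
    obtain ⟨_, ⟨⟨c, -, rfl⟩, hc⟩, _, ⟨⟨d, -, rfl⟩, hd⟩, e⟩ := FG.exists_mul_cent_of_invol (G := Hol T) (K := sdL _ ⊤)
      (t := inr x) (s := inr (x * ρ)) (a := inl y) (sdR_le_normalizer_top _ ⊤ ((inr_mem_sdR _).2 trivial))
      (sdR_le_normalizer_top _ ⊤ ((inr_mem_sdR _).2 trivial)) (by rw [← map_mul, x2, map_one])
      (by
        rw [← map_mul, ← map_one inr, e1, show ρ * x * ρ⁻¹ * (ρ * x * ρ⁻¹) = ρ * (x * x) * ρ⁻¹ by group, x2]; simp) (by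
        rw [eq_bot_iff]
        rintro _ ⟨⟨g, -, rfl⟩, h⟩
        rw [← map_mul, ← mul_assoc, x2, one_mul] at h
        rw [hfp g ((inr_mul_inl_eq_iff _).1 (mem_centralizer_singleton_iff.1 h).symm), map_one]
        exact one_mem _) ((inl_mem_sdL _).2 (mem_top y))
    have hc' := (inr_mul_inl_eq_iff _).1 (mem_centralizer_singleton_iff.1 hc).symm
    have hd' := (inr_mul_inl_eq_iff _).1 (mem_centralizer_singleton_iff.1 hd).symm
    refine ⟨c, (hC c).2 hc', ρ⁻¹ d, (hC _).2 ?_, by simpa using inl_injective (e.trans (map_mul _ _ _).symm)⟩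
    rw [e1] at hd'
    exact ρ.injective (by simpa using hd')
  have hc : Nat.card C = 8 := by
    have : Nat.card (C × C) = Nat.card T := by
      refine Nat.card_eq_of_bijective (fun p => p.1 * ρ p.2) ⟨?_, fun y => ?_⟩
      · rintro ⟨c, d⟩ ⟨c', d'⟩ e
        have e2 : ((c'⁻¹ * c : C) : T) = ρ (d' * d⁻¹ : C) := by
          simp only at e
          simp only [coe_mul, coe_inv, map_mul, map_inv]
          rw [inv_mul_eq_iff_eq_mul, ← mul_assoc, ← e]; simp
        have f1 := (hC _).1 (c'⁻¹ * c).2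
        have f2 := (hC _).1 (d' * d⁻¹).2
        have f3 : (x * ρ) (ρ (d' * d⁻¹ : C)) = ρ (d' * d⁻¹ : C) := by rw [e1]; simp only [MulAut.mul_apply, MulAut.inv_apply_self, f2]
        rw [← e2, MulAut.mul_apply] at f3
        have f4 := hfp _ (x.injective (f3.trans f1.symm))
        rw [f4, eq_comm, map_eq_one_iff _ ρ.injective] at e2
        exact Prod.ext (inv_mul_eq_one.1 (Subtype.ext f4)).symm (mul_inv_eq_one.1 (Subtype.ext e2)).symm
      · obtain ⟨c, hc, d, hd, rfl⟩ := dec y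
        exact ⟨(⟨c, hc⟩, ⟨d, hd⟩), rfl⟩
    rw [Nat.card_prod, hT] at this
    nlinarith
  have hn : ¬ ∀ a ∈ C, ∀ b ∈ C, a * b = b * a := fun hab => hna ⟨⟨fun y w => by
    obtain ⟨c, hc, d, hd, rfl⟩ := dec y
    obtain ⟨c', hc', d', hd', rfl⟩ := dec w
    have k : ∀ a ∈ C, ∀ b ∈ C, ⁅a, b⁆ = 1 := fun a ha b hb => commutatorElement_eq_one_iff_mul_comm.2 (hab a ha b hb)
    rw [← commutatorElement_eq_one_iff_mul_comm]
    simp [h.mul_left, h.mul_right, h.left1, h.right1, k _ hc _ hc', k _ hc _ hd', k _ hd _ hc', k _ hd _ hd']⟩⟩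
  obtain ⟨t, r, ho, hi, htr, hm, htt⟩ := nonab_eight hc hn
  have h4 : r ^ 4 = 1 := ho ▸ pow_orderOf_eq_one r
  have z1 : r ^ 2 ≠ 1 := pow_ne_one_of_lt_orderOf (by norm_num) (by omega)
  have c1 : ⁅r, t⁆ = r ^ 2 := by
    have : t * r⁻¹ * t⁻¹ = r := by rw [← inv_inj, show (t * r⁻¹ * t⁻¹)⁻¹ = t * r * t⁻¹ by group, hi]
    rw [commutatorElement_def, mul_assoc r, mul_assoc r, this, sq]
  suffices hs : ∃ e f : T, e * e = 1 ∧ f * f = 1 ∧ ⁅f, e⁆ ≠ 1 by
    obtain ⟨e, f, h1, h2, h3⟩ := hs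
    obtain ⟨φ⟩ := h.equiv_l3U hT h1 h2 h3
    obtain ⟨S, ⟨ψ⟩⟩ := l3_sylow (F := Spor.F4) (n := 2) (by norm_num) rfl
    exact ⟨⟨_, _, _, rfl, S, ⟨φ.trans ψ⟩⟩, htt.imp (fun e => Invol.nonempty_equiv_dihedral e hi ho htr hm)
      fun e => Invol.nonempty_equiv_quaternion (n := 2) e hi ho htr hm⟩
  rcases htt with e | e
  · refine ⟨t, r * t, e, ?_, by rw [h.mul_left, c1]; simpa using z1⟩
    rw [mul_assoc, ← mul_assoc t, ← inv_eq_of_mul_eq_one_right e, inv_eq_of_mul_eq_one_right e]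
    nth_rw 2 [← inv_eq_of_mul_eq_one_right e]
    rw [hi, mul_inv_cancel]
  · have sq2 : ∀ y : T, ⁅y, t⁆ * (y * y) * r ^ 2 = 1 → y * t * (y * t) = 1 := fun y hy => by
      have c := h.cen y t
      have zz : ⁅y, t⁆ * ⁅y, t⁆ = 1 := by
        rw [← h.mul_right, e, ← c1, commutatorElement_eq_one_iff_commute]; exact (h.cen _ _ _).symm
      have : t * y = ⁅y, t⁆ * (y * t) := by
        rw [eq_inv_of_mul_eq_one_left zz, commutatorElement_inv, commutatorElement_def]; group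
      rw [← hy, ← e, mul_assoc, ← mul_assoc t, this, (c (y * y)).eq]
      simp only [mul_assoc, (c _).eq]
    obtain ⟨z, hz⟩ : ∃ z, z = r ^ 2 := ⟨_, rfl⟩
    have zz : z * z = 1 := by rw [hz, ← pow_add, h4]
    have n1 := h.nm z
    have n2 := h.nm (ρ z)
    have n3 := h.nm (ρ (ρ z))
    rw [h.r3] at n2 n3
    refine ⟨ρ r * t, ρ (ρ r) * t, sq2 _ ?_, sq2 _ ?_, ?_⟩
    · rw [h.left1, ← map_mul, ← sq, c1, ← hz, ← (h.cm _).eq, n2]
    · rw [h.left2, ← map_mul ρ (ρ r), ← map_mul ρ r, ← sq, c1, ← hz, n2]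
    · have c2 : ⁅t, ρ r⁆ = ρ (ρ z) := by
        rw [h.right1, ← commutatorElement_inv, c1, ← hz, inv_eq_of_mul_eq_one_left zz]
      rw [h.mul_left, h.mul_right, h.mul_right, commutatorElement_self, c2, h.left2 r t, c1, ← hz,
        commutatorElement_eq_one_iff_commute.2 (h.cm _).symm, one_mul, mul_one]
      intro e
      rw [e, one_mul, hz] at n2
      exact z1 n2

end Cfsg.Agent.S3157
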