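import Cfsg.Statements.S3161
import Cfsg.Agent.Elu.Sg3

set_option autoImplicit false
open Cfsg

namespace Cfsg.Agent.S3161

/-- Let Q be a non-abelian finite 2-group admitting commuting automorphisms α of order 2 and ρ of order 2^n − 1, where n ≥ 2, such that the fixed points of α form an elementary abelian subgroup of order 2^n on whose nonidentity elements the group generated by ρ acts transitively. Then Q is isomorphic to a Sylow 2-subgroup of the projective special unitary group of dimension 3 with parameter 2^n (realised over the field with 4^n elements) or of the projective special linear group of dimension 3 over the field with 2^n elements. -/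
theorem result {Q : Type*} [Group Q] [Finite Q] (hQ : IsPGroup 2 Q) (hna : ¬ IsMulCommutative Q) (n : ℕ) (hn : 2 ≤ n)
    (α ρ : MulAut Q) (hα : orderOf α = 2) (hρ : orderOf ρ = 2 ^ n - 1) (hc : Commute α ρ)
    (C : Subgroup Q) (hC : ∀ x : Q, x ∈ C ↔ α x = x) (hCE : Cfsg.IsElementaryAbelian 2 C ∧ Nat.card ↥C = 2 ^ n)
    (htr : ∀ x y : Q, x ∈ C → y ∈ C → x ≠ 1 → y ≠ 1 → ∃ k : ℕ, (ρ ^ k) x = y) :
    (∃ (F : Type) (_ : Field F) (_ : Fintype F), Fintype.card F = 4 ^ n ∧
        ∃ S : Sylow 2 (Cfsg.PSU 3 F (2 ^ n)), Nonempty (Q ≃* ↥(S : Subgroup (Cfsg.PSU 3 F (2 ^ n))))) ∨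
      (∃ (F : Type) (_ : Field F) (_ : Fintype F), Fintype.card F = 2 ^ n ∧
        ∃ S : Sylow 2 (Matrix.ProjectiveSpecialLinearGroup (Fin 3) F), Nonempty (Q ≃* ↥(S : Subgroup (Matrix.ProjectiveSpecialLinearGroup (Fin 3) F)))) := by
  have := hCE.1.1
  obtain ⟨K, _, _, D, hK, h, -⟩ := Elu.Sg.exists_good hQ (by omega : 1 ≤ n) α ρ (by rw [← sq, ← hα, pow_orderOf_eq_one])
    (by rw [← hρ, pow_orderOf_eq_one]) hc C hC hCE.1.2 hCE.2 htr
  have : CharP K 2 := charP_of_card_eq_prime_pow hK
  obtain ⟨k, hk⟩ : ∃ k : K, k * k + k ≠ 0 := by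
    classical
    obtain ⟨k, -, hk⟩ := Finset.exists_mem_notMem_of_card_lt_card (s := ({0, -1} : Finset K)) (t := Finset.univ)
      (Finset.card_le_two.trans_lt (by
        rw [Finset.card_univ, hK]; exact lt_of_lt_of_le (by norm_num) (Nat.pow_le_pow_right two_pos hn)))
    simp only [Finset.mem_insert, Finset.mem_singleton, not_or] at hk
    exact ⟨k, by rw [← mul_add_one]; exact mul_ne_zero hk.1 fun e => hk.2 (eq_neg_of_add_eq_zero_left e)⟩
  obtain ⟨A, B, ψ, hψ⟩ := h.exists_model hk fun e => hna ⟨⟨e⟩⟩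
  exact (Elu.Sg.model_iso hn hK ψ hψ).imp_right fun e => ⟨K, inferInstance, inferInstance, hK, e⟩

end Cfsg.Agent.S3161
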