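import Cfsg.Statements.S3162
import Cfsg.Agent.Low.U3Aut

set_option autoImplicit false
open Cfsg

namespace Cfsg.Agent.S3162

open Cfsg.Agent.Low.U3A

/-- Let S be a Sylow 2-subgroup of the special unitary group of dimension 3 with parameter q = 2^n (n ≥ 2; realised over the field with q² elements). Then the largest normal 2-subgroup of the automorphism group of S is elementary abelian of order 2^(2n²), and the automorphism group has order 2^(2n²) · 2n(q² − 1). -/
theorem result {S : Type*} [Group S] [Finite S] (n : ℕ) (hn : 2 ≤ n) {F : Type*} [Field F] [Fintype F] (hF : Fintype.card F = 4 ^ n)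
    (P : Sylow 2 ↥(Cfsg.SU 3 F (2 ^ n))) (hS : Nonempty (S ≃* ↥(P : Subgroup ↥(Cfsg.SU 3 F (2 ^ n))))) :
    Cfsg.IsElementaryAbelian 2 (Cfsg.pCore 2 (MulAut S)) ∧ Nat.card ↥(Cfsg.pCore 2 (MulAut S)) = 2 ^ (2 * n ^ 2) ∧
      Nat.card (MulAut S) = 2 ^ (2 * n ^ 2) * (2 * n * ((2 ^ n) ^ 2 - 1)) := by
  haveI hq : Fact (Fintype.card F = (2 ^ n) ^ 2) := ⟨by rw [hF, ← pow_mul, mul_comm, pow_mul]; rfl⟩
  haveI : CharP F 2 := charP_of_card_eq_prime_pow (f := 2 * n) (by rw [hF, pow_mul]; rfl)
  obtain ⟨e₁⟩ := hS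
  obtain ⟨e₂⟩ := sylow_equiv (by omega) P
  let e := MulAut.congr (e₁.trans e₂)
  letI := ZMod.algebra F 2
  have hr : Module.finrank (ZMod 2) F = 2 * n := by
    have := Module.card_eq_pow_finrank (K := ZMod 2) (V := F)
    rw [ZMod.card, hF, show 4 = 2 ^ 2 by norm_num, ← pow_mul] at this
    exact (Nat.pow_right_injective le_rfl this).symm
  have hk : Nat.card (Phi (E := F) (q := 2 ^ n)).ker = 2 ^ (2 * n ^ 2) := by
    letI : Module (ZMod 2) (KK F (2 ^ n)) := AddCommGroup.zmodModule fun x =>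
      Subtype.ext (by simp [two_smul, CharTwo.add_self_eq_zero])
    haveI : Module.Finite (ZMod 2) (KK F (2 ^ n)) := Module.Finite.of_finite
    have hr' : Module.finrank (ZMod 2) (KK F (2 ^ n)) = n := by
      have := Module.natCard_eq_pow_finrank (K := ZMod 2) (V := KK F (2 ^ n))
      rw [Nat.card_zmod] at this
      exact (Nat.pow_right_injective le_rfl ((Classical.card_fixed F (2 ^ n)).symm.trans this)).symm
    rw [card_ker, Nat.card_congr (AddMonoidHom.toZModLinearMapEquiv 2).toEquiv,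
      Module.natCard_eq_pow_finrank (K := ZMod 2), Module.finrank_linearMap, hr, hr', Nat.card_zmod]
    ring
  have ha : Nat.card (F ≃+* F) = 2 * n := by
    rw [← hr, ← IsGalois.card_aut_eq_finrank]
    exact Nat.card_congr ⟨fun τ => AlgEquiv.ofRingEquiv (f := τ) fun r =>
      DFunLike.congr_fun (RingHom.ext_zmod (τ.toRingHom.comp (algebraMap (ZMod 2) F)) _) r,
      fun σ => σ.toRingEquiv, fun _ => rfl, fun _ => rfl⟩
  have hp : pCore 2 (MulAut S) = (Phi (E := F) (q := 2 ^ n)).ker.comap e.toMonoidHom := by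
    rw [← pCore_eq]
    apply le_antisymm
    · rw [← Subgroup.map_le_iff_le_comap]
      haveI := (Solv.instNormalPCore 2 (MulAut S)).map e.toMonoidHom e.surjective
      exact Solv.le_pCore ((Solv.isPGroup_pCore 2 _).map _)
    · exact Solv.le_pCore ((Solv.isPGroup_pCore 2 _).comap_of_injective _ e.injective)
  refine ⟨⟨⟨⟨fun a b => Subtype.ext (e.injective ?_)⟩⟩, fun a ha => e.injective ?_⟩, ?_, ?_⟩
  · have ha := hp.le a.2
    have hb := hp.le b.2
    have := congrArg Subtype.val (ker_elem.1.1.1 ⟨_, ha⟩ ⟨_, hb⟩)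
    simpa using this
  · rw [hp] at ha
    simpa using ker_elem.2 _ ha
  · rw [hp, ← hk, Subgroup.comap_equiv_eq_map_symm', Subgroup.card_map_of_injective e.symm.injective]
  · rw [Nat.card_congr e.toEquiv, ← (Phi (E := F) (q := 2 ^ n)).ker.card_mul_index, Subgroup.index_ker,
      hk, card_range, ha, Nat.card_units, Nat.card_eq_fintype_card, hq.out, mul_comm (2 * n)]

end Cfsg.Agent.S3162
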