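import Cfsg.Statements.S3175
import Cfsg.Agent.Small.AssaA
import Cfsg.Agent.Gen2.MinInv

set_option autoImplicit false
open Cfsg

namespace Cfsg.Agent.S3175

open Subgroup Cfsg.Agent.Small.Assa

/-- Let G be a finite group whose Sylow 2-subgroup T has order at least 2^14 and whose upper central series has fourth term of order 16; let W be the centralizer in T of the third term, and suppose the Frattini subgroup of W has order at most 8 and lies in every subgroup of W of index at most 16. Then the normalizer of T in G has a normal 2-complement, and W is weakly closed in T with respect to G. -/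
theorem result {G : Type*} [Group G] [Finite G]
    (T : Sylow 2 G) (ha : 2 ^ 14 ≤ Nat.card ↥(T : Subgroup G))
    (hb : Nat.card ↥(Subgroup.upperCentralSeries ↥(T : Subgroup G) 4) = 16)
    (W : Subgroup ↥(T : Subgroup G))
    (hW : W = Subgroup.centralizer ((Subgroup.upperCentralSeries ↥(T : Subgroup G) 3 : Subgroup ↥(T : Subgroup G)) : Set ↥(T : Subgroup G)))
    (hc : Nat.card ↥(frattini ↥W) ≤ 8)
    (hd : ∀ U : Subgroup ↥W, U.index ≤ 16 → frattini ↥W ≤ U) :
    Cfsg.HasNormalPComplement 2 ↥(Subgroup.normalizer ((T : Subgroup G) : Set G)) ∧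
      Cfsg.IsWeaklyClosed (W.map (T : Subgroup G).subtype) (T : Subgroup G) := by
  have h : Hyp W := ⟨T.isPGroup', ha, uni_of T.isPGroup' (by omega) hb, hW, hc, hd⟩
  refine ⟨Gen2.npc_of_omega4 fun x g hx hg => ?_, map_subtype_le _, fun g hg => ?_⟩
  · have h4 : x.1 ^ 2 ^ 2 = 1 := by
      rcases hx with hx | hx
      · rw [← coe_pow, show 2 ^ 2 = 2 * 2 from rfl, pow_mul, hx, one_pow, coe_one]
      · rw [← coe_pow, show 2 ^ 2 = 4 from rfl, hx.2, coe_one]
    have hp : IsPGroup 2 (zpowers x.1) := by
      obtain ⟨k, -, hk⟩ := (Nat.dvd_prime_pow Nat.prime_two).1 (orderOf_dvd_of_pow_eq_one h4)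
      exact IsPGroup.of_card (by rw [Nat.card_zpowers, hk])
    have hxT : x.1 ∈ (T : Subgroup G) := ((hp.inf_normalizer_sylow T).le ⟨mem_zpowers _, x.2⟩).2
    have := h.aut ((T : Subgroup G).normalizerMonoidHom g) (Odd.of_dvd_nat (Nat.coprime_two_right.1 hg)
      (orderOf_map_dvd _ g))
    have := congrArg (fun φ : MulAut (T : Subgroup G) => (φ ⟨x.1, hxT⟩ : G)) this
    exact Subtype.ext (mul_inv_eq_iff_eq_mul.1 this)
  · have := h.weak (((W.equivMapOfInjective _ (T : Subgroup G).subtype_injective).trans
      (equivMapOfInjective _ (MulAut.conj g).toMonoidHom (MulAut.conj g).injective)).trans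
        (subgroupOfEquivOfLe hg).symm)
    conv_rhs => rw [← this]
    rw [subgroupOf_map_subtype, inf_eq_left.2 hg]

end Cfsg.Agent.S3175
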