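import Cfsg.Statements.S3178
import Cfsg.Agent.Invol.ZS
import Cfsg.Agent.Invol.DihSyl

set_option autoImplicit false
open Cfsg

namespace Cfsg.Agent.S3178

/-- Groups with a modular Sylow 2-subgroup have a normal 2-complement. Let S, of order 2^(n+1) with n ≥ 3, be a Sylow 2-subgroup of a finite group G, and suppose S contains an element a of order 2^n and an involution b with b a b⁻¹ = a^(2^(n-1) + 1); so S is the non-abelian 2-group with a cyclic subgroup of index 2 that is neither dihedral, semidihedral nor generalized quaternion. Then G has a normal 2-complement. -/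
theorem result {G : Type*} [Group G] [Finite G]
    (S : Sylow 2 G) (n : ℕ) (hn : 3 ≤ n) (hS : Nat.card ↥(S : Subgroup G) = 2 ^ (n + 1))
    (a b : G) (ha : a ∈ (S : Subgroup G)) (hb : b ∈ (S : Subgroup G))
    (hao : orderOf a = 2 ^ n) (hbo : orderOf b = 2) (hrel : b * a * b⁻¹ = a ^ (2 ^ (n - 1) + 1)) :
    Cfsg.HasNormalPComplement 2 G := by
  open Cfsg.Agent.Invol in
  obtain ⟨m, rfl⟩ : ∃ m, n = m + 3 := ⟨n - 3, by omega⟩
  have hnm : b ∉ Subgroup.zpowers a := by
    rintro ⟨k, rfl⟩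
    have h1 : a ^ 2 ^ (m + 2) * a = a := by
      rw [← pow_succ]; change a ^ (2 ^ (m + 3 - 1) + 1) = a
      rw [← hrel]; group
    have h2 := orderOf_dvd_of_pow_eq_one (mul_eq_right.1 h1)
    rw [hao, Nat.pow_dvd_pow_iff_le_right (by norm_num)] at h2
    omega
  obtain ⟨r, s, T, -, -⟩ := exists_tab (k := ((2 ^ (m + 2) + 1 : ℕ) : ℤ)) (c := 0) hao (by rw [zpow_natCast]; exact hrel)
    (by rw [mul_self_of hbo, zpow_zero]) hnm
    (mem_iff_of_card (by rw [hS, hao]; ring) ha hb hnm)
  have H := z2_qd m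
  have hρ : (((2 ^ (m + 2) + 1 : ℕ) : ℤ) : ZMod (2 ^ (m + 3))) = 4 * 2 ^ m + 1 := by push_cast; ring
  rw [hρ, Int.cast_zero] at T
  refine complement_of_triv S fun D hD hc => by_contra fun ht => ?_
  rcases T.four_or_quat S.isPGroup' hD ht with h4 | ⟨⟨e⟩⟩
  · have h1 : r 2 ∈ D := hc ⟨T.r_mem 2, fun g hg => by
      obtain ⟨i, rfl | rfl⟩ := (T.mem g).1 (hD hg)
      · exact T.commute_rr _ _
      · exact (T.commute_rs.2 (by linear_combination H.two_h)).symm⟩
    have h2 := mul_self_of_mem_four h4 h1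
    rw [T.rr, T.r_eq_one] at h2
    exact H.h_ne (by linear_combination 2 ^ m * h2)
  · obtain ⟨i, j, hq⟩ := T.quat_cases e hD
    have h1 := hq.inv
    rw [T.conj_sr, T.inv_r] at h1
    have h2 := T.r_inj.1 h1
    have h3 : 2 * i = 0 := H.cancel (b := 2 ^ m) (by linear_combination h2)
    exact hq.ii (by rw [T.rr, T.r_eq_one]; linear_combination h3)

end Cfsg.Agent.S3178
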