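import Cfsg.Statements.S3180
import Cfsg.Agent.Transfer.SylowIn
import Cfsg.Agent.Invol.StrongEmb

set_option autoImplicit false
open Cfsg

namespace Cfsg.Agent.S3180

/-- Let P be a Sylow p-subgroup of a finite group J and P₁ a subgroup of P that is weakly closed in P with respect to J. If J acts on a set and two points, each fixed by every element of P₁, lie in one J-orbit, then they lie in one orbit of the normalizer of P₁ in J. -/
theorem result {J : Type*} [Group J] [Finite J]
    {p : ℕ} [Fact p.Prime] (P : Sylow p J) (P₁ : Subgroup J) (hW : Cfsg.IsWeaklyClosed P₁ (P : Subgroup J))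
    {Ω : Type*} [MulAction J Ω] (x y : Ω) (hx : ∀ g ∈ P₁, g • x = x) (hy : ∀ g ∈ P₁, g • y = y)
    (hc : ∃ g : J, g • x = y) :
    ∃ g ∈ Subgroup.normalizer (P₁ : Set J), g • x = y := by
  open Cfsg.Agent.Transfer Pointwise in
  obtain ⟨g, rfl⟩ := hc
  have hP1 : IsPGroup p P₁ := P.isPGroup'.to_le hW.1
  have h1 : P₁ ≤ MulAction.stabilizer J (g • x) := fun a ha => hy a ha
  have h2 : MulAut.conj g • P₁ ≤ MulAction.stabilizer J (g • x) := by
    intro a ha
    rw [mem_conj_smul] at ha
    have := hx _ ha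
    show a • g • x = g • x
    conv_rhs => rw [← this]
    simp [mul_smul]
  obtain ⟨R, hR, hle⟩ := exists_isSylowIn_ge hP1 h1
  obtain ⟨h, hh, hle2⟩ := hR.exists_conj_le (isPGroup_conj_smul hP1 g) h2
  obtain ⟨k, hk⟩ := exists_conj_le_sylow P hR.isPGroup
  have e1 := hW.2 k (by rw [← conj_smul_eq_map]; exact (conj_smul_mono k hle).trans hk)
  have e2 := hW.2 (k * (h * g)) (by
    rw [← conj_smul_eq_map, ← conj_smul_conj_smul, ← conj_smul_conj_smul]
    exact (conj_smul_mono k hle2).trans hk)
  rw [← conj_smul_eq_map, ← mem_normalizer_iff_conj_smul] at e1 e2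
  refine ⟨h * g, ?_, ?_⟩
  · have := Subgroup.mul_mem _ (Subgroup.inv_mem _ e1) e2
    simpa using this
  · rw [mul_smul]; exact hh

end Cfsg.Agent.S3180
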