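import Cfsg.Statements.S3184
import Cfsg.Agent.S0215
import Cfsg.Agent.GW.DihCent

set_option autoImplicit false
open Cfsg

namespace Cfsg.Agent.S3184

open BG Subgroup Invol

/-- Let G be a finite group in which the intersection of any two distinct Sylow 2-subgroups is contained in the centre of some Sylow 2-subgroup, and let S be a Sylow 2-subgroup. If C is a nontrivial cyclic characteristic subgroup of S, then the involution of C is central modulo the largest normal subgroup of odd order of G: each of its conjugates has the same image in G/O(G). -/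
theorem result {G : Type*} [Group G] [Finite G]
    (hCI : ∀ S T : Sylow 2 G, S ≠ T → ∃ U : Sylow 2 G,
      (S : Subgroup G) ⊓ (T : Subgroup G) ≤ (Subgroup.center ↥(U : Subgroup G)).map (U : Subgroup G).subtype)
    (S : Sylow 2 G) (C : Subgroup ↥(S : Subgroup G)) (hC : C ≠ ⊥) (hCc : IsCyclic ↥C) (hCh : C.Characteristic)
    (c : ↥(S : Subgroup G)) (hc : c ∈ C) (hc2 : orderOf c = 2) :
    ∀ g : G, (QuotientGroup.mk (s := Cfsg.oddCore G) (g * (c : G) * g⁻¹)) =
      QuotientGroup.mk (s := Cfsg.oddCore G) (c : G) := by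
  have hn : ∀ n ∈ N[(S : Subgroup G)], n * c * n⁻¹ = c := fun n hn => by
    have h1 : (S : Subgroup G).normalizerMonoidHom ⟨n, hn⟩ c ∈ C := by
      rw [← hCh.fixed ((S : Subgroup G).normalizerMonoidHom ⟨n, hn⟩)] at hc; exact hc
    have h2 : orderOf ((S : Subgroup G).normalizerMonoidHom ⟨n, hn⟩ c) = 2 := by rw [MulEquiv.orderOf_eq, hc2]
    exact congrArg Subtype.val ((GW.eq_of_cyclic hCc hc hc2 h1 (mul_self_of h2)).resolve_left (ne_one_of h2))
  have hz : (c : G) ∈ C[(S : Subgroup G)] := mem_cent.2 fun s hs => by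
    have := hn s (normG _ hs); rwa [mul_inv_eq_iff_eq_mul] at this
  obtain ⟨N, _, hN, h⟩ := S0215.result S c (by rw [Subgroup.orderOf_coe, hc2]) c.2 fun g hy => by
    have hyS : g * c * g⁻¹ ∈ C[(S : Subgroup G)] := by_contra fun hyS => by
      set y := g * c * g⁻¹
      have h1 : SylowIn 2 (cj g S) C1[y] := pHall_subl (le_cent1_iff.2 (by rw [C_cj]; exact conj_mem_cj g hz)) le_top
        (pHallJsub (mem_top g) (sylowIn_top S))
      obtain ⟨d, hd, h2⟩ := Sylow_subJ h1 (Q := S ⊓ C1[y]) inf_le_right (IsPGroup.sub S.isPGroup' inf_le_left)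
      obtain ⟨T, hT⟩ := sylow_of_sylowIn_top (pHallJsub (mem_top d) (pHallJsub (mem_top g) (sylowIn_top S)))
      obtain ⟨U, hU⟩ := hCI S T fun e => hyS (le_cent1_iff.1 (by rw [e, hT]; exact (pHallJsub hd h1).le))
      rw [map_subtype_center, hT] at hU
      have h3 : (U : Subgroup G) ≤ C[S ⊓ C1[y]] := cents_symm ((le_inf inf_le_left h2).trans (hU.trans inf_le_right))
      obtain ⟨k, hk, h4⟩ := Sylow_subJ (pHall_subl (h3.trans (cent_sub _)) le_top (sylowIn_top U))
        (Q := S ⊓ N[S ⊓ C1[y]]) inf_le_right (IsPGroup.sub S.isPGroup' inf_le_left)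
      have h5 : (S : Subgroup G) ⊓ N[S ⊓ C1[y]] ≤ C1[y] := h4.trans ((cj_mono k h3).trans
        ((mem_norm.1 (norms_cent le_rfl hk)).le.trans (cent_le_cent1 ⟨hy, cent1_self y⟩)))
      exact hyS (le_cent1_iff.1 ((nilpotent_sub_norm S.isPGroup'.isNilpotent inf_le_left (le_inf inf_le_left h5)).ge.trans
        inf_le_right))
    obtain ⟨n, h1, h2⟩ := S.conj_eq_normalizer_conj_of_mem_centralizer c g⁻¹ hz (by rwa [inv_inv])
    rw [inv_inv] at h2
    simpa [h2] using hn n⁻¹ (inv_mem h1)
  intro g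
  refine (QuotientGroup.eq.2 ?_).symm
  have := Subgroup.Normal.conj_mem inferInstance _ (inv_mem (le_oddCore hN (h g))) (c : G)⁻¹
  convert this using 1
  group

end Cfsg.Agent.S3184
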