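import Cfsg.Statements.S3195
import Cfsg.Agent.Invol.More

set_option autoImplicit false
open Cfsg

namespace Cfsg.Agent.S3195

open Cfsg.Agent.Invol in
theorem core {G : Type*} [Group G] {a b r s : G} (ha : a * a = 1) (hb : b * b = 1) (hab : Commute a b)
    (hr1 : r ≠ 1) (hro : Odd (orderOf r)) (hs1 : s ≠ 1) (hso : Odd (orderOf s))
    (har : a * r * a⁻¹ = r⁻¹) (hbr : Commute b r) (hbs : b * s * b⁻¹ = s⁻¹) (has : Commute a s)
    (h : Commute a ((r * s)⁻¹ * (a * b) * (r * s)) ∨ Commute b ((r * s)⁻¹ * (a * b) * (r * s)) ∨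
      Commute (a * b) ((r * s)⁻¹ * (a * b) * (r * s))) : False := by
  have hcr : a * b * r * (a * b)⁻¹ = r⁻¹ := inverts_mul_of_commute har hbr
  have hcs : a * b * s * (a * b)⁻¹ = s⁻¹ := inverts_commute_mul hbs has
  set c := a * b with hc
  have hac : Commute a c := (Commute.refl a).mul_right hab
  have hbc : Commute b c := hab.symm.mul_right (Commute.refl b)
  have e : (r * s)⁻¹ * c * (r * s) = c * (s * (r * r) * s) := by
    have h1 : r⁻¹ * c = c * r := by rw [← hcr]; group
    have h2 : s⁻¹ * c = c * s := by rw [← hcs]; group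
    rw [mul_inv_rev, mul_assoc s⁻¹, h1, ← mul_assoc s⁻¹, h2]; group
  rw [e] at h
  have cancel : ∀ x : G, Commute x c → Commute x (c * (s * (r * r) * s)) →
      x * (s * (r * r) * s) * x⁻¹ = s * (r * r) * s := by
    intro x h1 h2
    have := (h1.inv_right.mul_right h2).eq
    rw [inv_mul_cancel_left] at this
    rw [this, mul_inv_cancel_right]
  have split : ∀ x : G, x * (s * (r * r) * s) * x⁻¹ =
      (x * s * x⁻¹) * ((x * r * x⁻¹) * (x * r * x⁻¹)) * (x * s * x⁻¹) := fun x => by group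
  have hrr : Odd (orderOf (r * r)) := by rw [← pow_two]; exact odd_orderOf_pow hro 2
  have four : ∀ x : G, Odd (orderOf x) → x * x * (x * x) = 1 → x = 1 := fun x hx h =>
    eq_one_of_odd_of_pow_two_pow (n := 2) hx (by rw [← h]; simp [pow_succ, mul_assoc])
  rcases h with h | h | h
  · have := cancel a hac h
    rw [split, har, has.eq, mul_inv_cancel_right, mul_left_inj, mul_right_inj] at this
    apply hr1 (four r hro _)
    nth_rewrite 1 [← this]; group
  · have := cancel b hbc h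
    rw [split, hbs, hbr.eq, mul_inv_cancel_right] at this
    have h2 : r * r * (s * s) * (r * r)⁻¹ = (s * s)⁻¹ := by
      calc r * r * (s * s) * (r * r)⁻¹ = s⁻¹ * (s * (r * r) * s) * s * (r * r)⁻¹ := by group
        _ = _ := by rw [← this]; group
    exact hs1 (four s hso (mul_self_eq_one_of_odd_inverts h2 hrr))
  · have := cancel c (Commute.refl c) h
    rw [split, hcr, hcs] at this
    have h1 : (s * s) * (r * r) * (s * s) = (r * r)⁻¹ := by
      calc (s * s) * (r * r) * (s * s) = s * (s * (r * r) * s) * s := by group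
        _ = _ := by rw [← this]; group
    have h2 : (s * s) * (r * r)⁻¹ * (s * s) = r * r := by
      have := congrArg (fun x => a * x * a⁻¹) h1
      have e1 : a * ((s * s) * (r * r) * (s * s)) * a⁻¹ = (a * s * a⁻¹) * (a * s * a⁻¹) *
        ((a * r * a⁻¹) * (a * r * a⁻¹)) * ((a * s * a⁻¹) * (a * s * a⁻¹)) := by group
      have e2 : a * (r * r)⁻¹ * a⁻¹ = ((a * r * a⁻¹) * (a * r * a⁻¹))⁻¹ := by group
      rw [e1, e2, har, has.eq, mul_inv_cancel_right] at this
      simpa using this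
    set u := r * r
    set v := s * s
    have h3 : u * (v * v) * u⁻¹ = (v * v)⁻¹ := by
      have h4 : u = v⁻¹ * u⁻¹ * v⁻¹ := by rw [← h1]; group
      have h5 : u⁻¹ = v⁻¹ * u * v⁻¹ := by nth_rewrite 2 [← h2]; group
      calc u * (v * v) * u⁻¹ = v⁻¹ * (v * u * v) * (v * u⁻¹ * v) * v⁻¹ := by group
        _ = v⁻¹ * v⁻¹ := by rw [h1, h2]; group
        _ = _ := by group
    have h6 := mul_self_eq_one_of_odd_inverts h3 hrr
    have hv : Odd (orderOf v) := by rw [show v = s ^ 2 from (pow_two s).symm]; exact odd_orderOf_pow hso 2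
    exact hs1 (eq_one_of_odd_of_mul_self hso (four v hv h6))

/-- Let A be a Klein four-subgroup of a finite group G. If every G-conjugate of every involution of A commutes with some involution of A (its centralizer meets A nontrivially), then A meets the largest normal 2-subgroup O₂(G) nontrivially. -/
theorem result {G : Type*} [Group G] [Finite G]
    (A : Subgroup G) (hA : IsKleinFour ↥A)
    (h : ∀ a ∈ A, a ≠ 1 → ∀ g : G, A ⊓ Subgroup.centralizer ({g * a * g⁻¹} : Set G) ≠ ⊥) :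
    A ⊓ Cfsg.pCore 2 G ≠ ⊥ := by
  open Cfsg.Agent.Invol in
  intro hbot
  have step : ∀ x ∈ A, x ≠ 1 → ∃ r : G, r ≠ 1 ∧ Odd (orderOf r) ∧ x * r * x⁻¹ = r⁻¹ ∧
      ∃ y ∈ A, y ≠ 1 ∧ y ≠ x ∧ Commute y r := by
    intro x hx hx1
    have hx2 := mul_self_of_mem_four hA hx
    obtain ⟨r, h1, h2, h3⟩ := exists_odd_inverted (orderOf_two_iff.2 ⟨hx2, hx1⟩) (fun hm => hx1 (by
      rw [← Subgroup.mem_bot, ← hbot]; exact Subgroup.mem_inf.2 ⟨hx, hm⟩))
    obtain ⟨k, hk⟩ := exists_conj_of_inverts_odd h3 h2 1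
    obtain ⟨⟨y, hy⟩, hy1⟩ := Subgroup.ne_bot_iff_exists_ne_one.1 (h x hx hx1 (r ^ k))
    rw [hk, zpow_one] at hy
    obtain ⟨hyA, hyC⟩ := Subgroup.mem_inf.1 hy
    rw [mem_centralizer_singleton] at hyC
    have hyr : Commute y r := by
      have := (commute_of_mem_four hA hyA hx).inv_right.mul_right hyC
      simpa using this
    refine ⟨r, h1, h2, h3, y, hyA, fun h => hy1 (Subtype.ext h), ?_, hyr⟩
    rintro rfl
    exact h1 (eq_one_of_odd_of_inverts_of_commute h2 h3 hyr.symm)
  obtain ⟨a, b, -, -, -, ha1, -, -, hV⟩ := exists_of_isKleinFour hA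
  have haA : a ∈ A := (hV a).2 (by simp)
  obtain ⟨r, hr1, hro, har, y, hyA, hy1, hya, hyr⟩ := step a haA ha1
  obtain ⟨s, hs1, hso, hys, z, hzA, hz1, hzy, hzs⟩ := step y hyA hy1
  have hzr : z * r * z⁻¹ = r⁻¹ := by
    rcases (mem_four_iff hA haA hyA ha1 hy1 hya.symm z).1 hzA with h | h | h | h
    · exact absurd h hz1
    · rw [h]; exact har
    · exact absurd h hzy
    · rw [h]; exact inverts_mul_of_commute har hyr
  have hz2 := mul_self_of_mem_four hA hzA
  have hy2 := mul_self_of_mem_four hA hyA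
  have hzyc := commute_of_mem_four hA hzA hyA
  refine core hz2 hy2 hzyc hr1 hro hs1 hso hzr hyr hys hzs ?_
  obtain ⟨⟨w, hw⟩, hw1⟩ := Subgroup.ne_bot_iff_exists_ne_one.1 (h (z * y) (A.mul_mem hzA hyA)
    (ne_one_of (orderOf_mul_of_commute hz2 hy2 hzyc hzy)) (r * s)⁻¹)
  obtain ⟨hwA, hwC⟩ := Subgroup.mem_inf.1 hw
  rw [mem_centralizer_singleton, inv_inv] at hwC
  rcases (mem_four_iff hA hzA hyA hz1 hy1 hzy w).1 hwA with h | h | h | h
  · exact absurd (Subtype.ext h) hw1
  · exact Or.inl (h ▸ hwC)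
  · exact Or.inr (Or.inl (h ▸ hwC))
  · exact Or.inr (Or.inr (h ▸ hwC))

end Cfsg.Agent.S3195
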