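import Cfsg.Statements.S3196
import Cfsg.Agent.Invol.More
import Cfsg.Agent.PGrp.Basic
import Cfsg.Agent.Frob.Zipper

set_option autoImplicit false
open Cfsg

namespace Cfsg.Agent.S3196

open scoped commutatorElement

theorem main {G : Type*} [Group G] (S : Set G)
    (h1 : ∀ g ∈ S, ∀ i : ℤ, g ^ i ≠ 1 → g ^ i ∈ S ∧ ∃ j : ℤ, (g ^ i) ^ j = g)
    (h2 : ∀ g ∈ S, ∀ x : G, x * g * x⁻¹ ∈ S)
    (h3 : ∀ a ∈ S, ∀ b ∈ S, Commute a b → b ∉ Subgroup.zpowers a → ∀ i j : ℤ, a ^ i * b ^ j ≠ 1 → a ^ i * b ^ j ∈ S)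
    (h4 : ∀ a ∈ S, ∀ b ∈ S, Commute a b → b ∉ Subgroup.zpowers a → ∀ w ∈ S, ∃ i j : ℤ, a ^ i * b ^ j ≠ 1 ∧
      Commute (a ^ i * b ^ j) w)
    {a b : G} (ha : a ∈ S) (hb : b ∈ S) (hab : Commute a b) (hba : b ∉ Subgroup.zpowers a) :
    ∃ v ∈ S, ∀ w ∈ S, Commute v w := by
  by_contra hcon
  push Not at hcon
  have root : ∀ g ∈ S, ∀ i : ℤ, g ^ i ≠ 1 → ∀ w, Commute (g ^ i) w → Commute g w := fun g hg i hi w hw => by
    obtain ⟨j, hj⟩ := (h1 g hg i hi).2
    rw [← hj]; exact hw.zpow_left j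
  have nz : ∀ a b w : G, Commute a w → ¬ Commute b w → b ∉ Subgroup.zpowers a := by
    rintro a b w h h' ⟨k, rfl⟩
    exact h' (h.zpow_left k)
  have L : ∀ a ∈ S, ∀ b ∈ S, Commute a b → b ∉ Subgroup.zpowers a → ∀ w ∈ S, ¬ Commute a w →
      ∃ c ∈ S, Commute c w ∧ (∀ g, Commute a g → Commute b g → Commute c g) ∧
        (∀ g, Commute a g → Commute c g → Commute b g) := by
    intro a ha b hb hab hba w hw haw
    obtain ⟨i, j, hne, hc⟩ := h4 a ha b hb hab hba w hw
    refine ⟨_, h3 a ha b hb hab hba i j hne, hc, fun g h h' => (h.zpow_left i).mul_left (h'.zpow_left j),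
      fun g h h' => root b hb j (fun h0 => ?_) g ?_⟩
    · rw [h0, mul_one] at hne hc
      exact haw (root a ha i hne w hc)
    · simpa using (h.zpow_left i).inv_left.mul_left h'
  obtain ⟨w1, hw1, haw1⟩ := hcon a ha
  obtain ⟨y, hy, hyw1, hy1, -⟩ := L a ha b hb hab hba w1 hw1 haw1
  have hya : Commute y a := hy1 a (Commute.refl a) hab.symm
  obtain ⟨w, hw, hyw⟩ := hcon y hy
  obtain ⟨x, hx, hxw, hx1, hx2⟩ := L y hy a ha hya (nz y a w1 hyw1 haw1) w hw hyw
  obtain ⟨u, hu, huw, hu1, hu2⟩ := L y hy w1 hw1 hyw1 (nz y w1 a hya (fun h => haw1 h.symm)) w hw hyw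
  have hxy : Commute x y := hx1 y (Commute.refl y) hya.symm
  have huy : Commute u y := hu1 y (Commute.refl y) hyw1.symm
  have hxu : ¬ Commute x u := fun h => haw1 (hu2 a hya (hx2 u huy.symm h).symm).symm
  have hwu : w ∉ Subgroup.zpowers u := nz u w y huy (fun h => hyw h.symm)
  have huwS : u * w ∈ S := by
    have := h3 u hu w hw huw hwu 1 1 (by
      intro h; apply hwu
      rw [zpow_one, zpow_one, mul_eq_one_iff_inv_eq] at h
      rw [← h]; exact Subgroup.inv_mem _ (Subgroup.mem_zpowers u))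
    simpa using this
  obtain ⟨i, j, hne, hc⟩ := h4 x hx y hy hxy (nz x y w hxw hyw) _ huwS
  have hx'1 : x ^ i ≠ 1 := by
    intro h0
    rw [h0, one_mul] at hne hc
    apply hyw (root y hy j hne w _)
    simpa using (huy.symm.zpow_left j).inv_right.mul_right hc
  set x' := x ^ i with hx'
  set y' := y ^ j with hy'
  have hx'S : x' ∈ S := (h1 x hx i hx'1).1
  have hx'u : ¬ Commute x' u := fun h => hxu (root x hx i hx'1 u h)
  have c1 : Commute x' w := hxw.zpow_left i
  have c2 : Commute x' y' := (hxy.zpow_left i).zpow_right j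
  have c3 : Commute u y' := huy.zpow_right j
  have hz : ⁅x', u⁆ = ⁅w, y'⁆ := by
    have d1 : Commute x' ⁅w, y'⁆ := ((c1.mul_right c2).mul_right c1.inv_right).mul_right c2.inv_right
    have d2 : Commute u ⁅w, y'⁆ := ((huw.mul_right c3).mul_right huw.inv_right).mul_right c3.inv_right
    have e : x' * u = u * x' * ⁅w, y'⁆ := by
      have e1 : x' * u * (y' * w) = u * x' * (w * y') := by
        calc x' * u * (y' * w) = x' * (u * y') * w := by group
          _ = x' * y' * (u * w) := by rw [c3.eq]; group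
          _ = u * (w * x') * y' := by rw [hc.eq]; group
          _ = _ := by rw [← c1.eq]; group
      rw [commutatorElement_def]
      calc x' * u = x' * u * (y' * w) * (y' * w)⁻¹ := by group
        _ = _ := by rw [e1]; group
    rw [commutatorElement_def x' u, e, (d2.mul_left d1).eq]; group
  set z := ⁅x', u⁆ with hzdef
  have d1 : Commute z x' := by
    rw [hz]; exact (((c1.mul_right c2).mul_right c1.inv_right).mul_right c2.inv_right).symm
  have d2 : Commute z u := by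
    rw [hz]; exact (((huw.mul_right c3).mul_right huw.inv_right).mul_right c3.inv_right).symm
  have hz1 : z ≠ 1 := fun h => hx'u (commutatorElement_eq_one_iff_commute.1 h)
  have e : x' * u * x'⁻¹ = z * u := by rw [hzdef, commutatorElement_def]; group
  have hzS : z ∈ S := by
    have := h3 u hu _ (h2 u hu x') (by rw [e]; exact d2.symm.mul_right (Commute.refl u)) (by
      rintro ⟨k, hk⟩
      have hk' : z = u ^ (k - 1) := by
        simp only at hk
        rw [zpow_sub_one, hk, e]; group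
      exact hx'u (root u hu (k - 1) (hk' ▸ hz1) x' (hk' ▸ d1)).symm) (-1) 1
    have e2 : u ^ (-1 : ℤ) * (x' * u * x'⁻¹) ^ (1 : ℤ) = z := by
      rw [e, d2.eq]; group
    rw [e2] at this
    exact this hz1
  obtain ⟨g, hg, hzg⟩ := hcon z hzS
  obtain ⟨k, l, hne1, hc1⟩ := h4 z hzS x' hx'S d1 (nz z x' u d2 hx'u) g hg
  obtain ⟨m, n, hne2, hc2⟩ := h4 z hzS u hu d2 (nz z u x' d1 (fun h => hx'u h.symm)) g hg
  have hl : x' ^ l ≠ 1 := fun h0 => by
    rw [h0, mul_one] at hne1 hc1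
    exact hzg (root z hzS k hne1 g hc1)
  have hn : u ^ n ≠ 1 := fun h0 => by
    rw [h0, mul_one] at hne2 hc2
    exact hzg (root z hzS m hne2 g hc2)
  have e3 : ⁅x' ^ l, u ^ n⁆ = z ^ (n * l) := by
    have e4 : ⁅x', u ^ n⁆ = z ^ n := PGrp.commutator_zpow_right d2 n
    rw [PGrp.commutator_zpow_left (by rw [e4]; exact d1.zpow_left n), e4, zpow_mul]
  have e5 : ⁅z ^ k * x' ^ l, z ^ m * u ^ n⁆ = ⁅x' ^ l, u ^ n⁆ := by
    have a1 : Commute (z ^ k) (x' ^ l) := (d1.zpow_left k).zpow_right l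
    have a2 : Commute (z ^ k) (u ^ n) := (d2.zpow_left k).zpow_right n
    have a3 : Commute (z ^ m) (x' ^ l) := (d1.zpow_left m).zpow_right l
    have a4 : Commute (z ^ m) (u ^ n) := (d2.zpow_left m).zpow_right n
    have a5 : Commute (z ^ k) (z ^ m) := ((Commute.refl z).zpow_left k).zpow_right m
    generalize z ^ k = A at *
    generalize z ^ m = B at *
    generalize x' ^ l = X at *
    generalize u ^ n = U at *
    have b1 : A * X * (B * U) * (A * X)⁻¹ = B * (X * U * X⁻¹) := by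
      rw [a1.eq, mul_assoc X A, (a5.mul_right a2).eq, ← mul_assoc X, ← mul_assoc X, ← a3.eq]; group
    rw [commutatorElement_def, b1, commutatorElement_def,
      ((a3.mul_right a4).mul_right a3.inv_right).eq, a4.eq]
    group
  have hc3 : Commute (z ^ (n * l)) g := by
    rw [← e3, ← e5]
    exact ((hc1.mul_left hc2).mul_left hc1.inv_left).mul_left hc2.inv_left
  refine hzg (root z hzS _ (fun h0 => ?_) g hc3)
  rw [← e3, commutatorElement_eq_one_iff_commute] at h0
  exact hx'u (root u hu n hn x' (root x' hx'S l hl _ h0).symm).symm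

/-- Let p be a prime and K a set of subgroups of order p of a finite group G, closed under conjugation, such that at least two distinct members of K commute elementwise, and whenever two distinct members X, Y of K commute: every subgroup of order p of the group XY they generate belongs to K, and every member W of K has centralizer meeting XY nontrivially. Then some member V of K commutes elementwise with every member of K and lies in O_p(G); in particular G is not simple. -/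
theorem result {G : Type*} [Group G] [Finite G]
    {p : ℕ} (hp : p.Prime) (K : Set (Subgroup G)) (hK : ∀ X ∈ K, Nat.card ↥X = p)
    (hKc : ∀ X ∈ K, ∀ g : G, X.map (MulAut.conj g).toMonoidHom ∈ K)
    (hex : ∃ X ∈ K, ∃ Y ∈ K, X ≠ Y ∧ ∀ x ∈ X, ∀ y ∈ Y, x * y = y * x)
    (ha : ∀ X ∈ K, ∀ Y ∈ K, X ≠ Y → (∀ x ∈ X, ∀ y ∈ Y, x * y = y * x) →
      ∀ Z : Subgroup G, Z ≤ X ⊔ Y → Nat.card ↥Z = p → Z ∈ K)
    (hb : ∀ X ∈ K, ∀ Y ∈ K, X ≠ Y → (∀ x ∈ X, ∀ y ∈ Y, x * y = y * x) →
      ∀ W ∈ K, (X ⊔ Y) ⊓ Subgroup.centralizer (W : Set G) ≠ ⊥) :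
    (∃ V ∈ K, (∀ W ∈ K, ∀ v ∈ V, ∀ w ∈ W, v * w = w * v) ∧ V ≤ Cfsg.pCore p G) ∧ ¬ IsSimpleGroup G := by
  open Cfsg.Agent.Invol in
  have : Fact p.Prime := ⟨hp⟩
  have hgen : ∀ X : Subgroup G, Nat.card X = p → ∀ g ∈ X, g ≠ 1 → Subgroup.zpowers g = X := by
    intro X hX g hg hg1
    refine Subgroup.eq_of_le_of_card_ge ((Subgroup.zpowers_le).2 hg) ?_
    have h1 : Nat.card (Subgroup.zpowers g) ∣ p := hX ▸ Subgroup.card_dvd_of_le ((Subgroup.zpowers_le).2 hg)
    rcases (Nat.dvd_prime hp).1 h1 with h | h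
    · exact absurd (by simpa using h) hg1
    · rw [h, hX]
  have hex1 : ∀ X ∈ K, ∃ g ∈ X, g ≠ 1 := fun X hX => by
    have : X ≠ ⊥ := fun h => by
      have := hK X hX
      rw [h, Subgroup.card_bot] at this
      exact hp.one_lt.ne this
    obtain ⟨⟨g, hg⟩, h1⟩ := Subgroup.ne_bot_iff_exists_ne_one.1 this
    exact ⟨g, hg, fun h => h1 (Subtype.ext h)⟩
  have hpow : ∀ g : G, Subgroup.zpowers g ∈ K → g ^ p = 1 := fun g hg => by
    rw [← hK _ hg, Nat.card_zpowers, pow_orderOf_eq_one]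
  have hcomm : ∀ a b : G, Commute a b → ∀ x ∈ Subgroup.zpowers a, ∀ y ∈ Subgroup.zpowers b, x * y = y * x := by
    rintro a b h _ ⟨i, rfl⟩ _ ⟨j, rfl⟩
    exact (h.zpow_left i).zpow_right j
  have hne : ∀ a b : G, b ∉ Subgroup.zpowers a → Subgroup.zpowers a ≠ Subgroup.zpowers b :=
    fun a b h h' => h (h' ▸ Subgroup.mem_zpowers b)
  obtain ⟨X, hX, Y, hY, hXY, hc⟩ := hex
  obtain ⟨a, haX, ha1⟩ := hex1 X hX
  obtain ⟨b, hbY, hb1⟩ := hex1 Y hY
  have ea := hgen X (hK X hX) a haX ha1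
  have eb := hgen Y (hK Y hY) b hbY hb1
  obtain ⟨v, ⟨hv1, hv⟩, hvc⟩ := main {g : G | g ≠ 1 ∧ Subgroup.zpowers g ∈ K}
    (fun g hg i hi => by
      have e := hgen _ (hK _ hg.2) (g ^ i) (Subgroup.zpow_mem_zpowers g i) hi
      refine ⟨⟨hi, e ▸ hg.2⟩, ?_⟩
      have : g ∈ Subgroup.zpowers (g ^ i) := e ▸ Subgroup.mem_zpowers g
      exact this)
    (fun g hg x => ⟨by simpa using hg.1, by
      have := hKc _ hg.2 x
      rwa [MonoidHom.map_zpowers] at this⟩)
    (fun a ha' b hb' hab hba i j hne' => ⟨hne', ha _ ha'.2 _ hb'.2 (hne a b hba) (hcomm a b hab) _ (by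
        rw [Subgroup.zpowers_le]
        exact Subgroup.mul_mem_sup (Subgroup.zpow_mem_zpowers a i) (Subgroup.zpow_mem_zpowers b j)) (by
        refine PGrp.card_zpowers_of_pow_eq_one ?_ hne'
        rw [((hab.zpow_left i).zpow_right j).mul_pow, ← zpow_natCast, ← zpow_natCast, zpow_comm, zpow_comm b,
          zpow_natCast, zpow_natCast, hpow a ha'.2, hpow b hb'.2]; simp)⟩)
    (fun a ha' b hb' hab hba w hw => by
      obtain ⟨⟨c, hc⟩, hc1⟩ := Subgroup.ne_bot_iff_exists_ne_one.1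
        (hb _ ha'.2 _ hb'.2 (hne a b hba) (hcomm a b hab) _ hw.2)
      obtain ⟨hc2, hc3⟩ := Subgroup.mem_inf.1 hc
      obtain ⟨_, ⟨i, rfl⟩, j, rfl⟩ := (PGrp.mem_sup_zpowers (H := Subgroup.zpowers a) (x := b)
        (Subgroup.centralizer_le_normalizer _ (fun x hx => hcomm a b hab x hx b (Subgroup.mem_zpowers b)))).1 hc2
      exact ⟨i, j, fun h => hc1 (Subtype.ext h), (hc3 w (Subgroup.mem_zpowers w)).symm⟩)
    (a := a) (b := b) ⟨ha1, ea ▸ hX⟩ ⟨hb1, eb ▸ hY⟩ (hc a haX b hbY) (fun h => by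
      rw [ea] at h
      exact hXY ((hgen X (hK X hX) b h hb1).symm.trans eb))
  have hvO : v ∈ Cfsg.pCore p G := by
    refine Frob.mem_pCore_of_forall_conj fun g => ?_
    have hg : g * v * g⁻¹ ≠ 1 ∧ Subgroup.zpowers (g * v * g⁻¹) ∈ K := ⟨by simpa using hv1, by
      have := hKc _ hv g
      rwa [MonoidHom.map_zpowers] at this⟩
    rw [Set.insert_eq, Subgroup.closure_union, ← Subgroup.zpowers_eq_closure, ← Subgroup.zpowers_eq_closure]
    refine IsPGroup.to_sup_of_normal_left' (isPGroup_zpowers (n := 1) (by simpa using hpow v hv))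
      (isPGroup_zpowers (n := 1) (by rw [pow_one]; exact hpow _ hg.2)) ?_
    exact fun y hy => Subgroup.centralizer_le_normalizer _ fun x hx => hcomm _ _ (hvc _ hg) x hx y hy
  refine ⟨⟨_, hv, fun W hW x hx w hw => ?_, (Subgroup.zpowers_le).2 hvO⟩, fun hs => ?_⟩
  · obtain ⟨w0, hw0, hw1⟩ := hex1 W hW
    have e := hgen W (hK W hW) w0 hw0 hw1
    exact hcomm v w0 (hvc w0 ⟨hw1, e ▸ hW⟩) x hx w (e ▸ hw)
  · rcases hs.eq_bot_or_eq_top_of_normal (Cfsg.pCore p G) inferInstance with h | h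
    · rw [h] at hvO; exact hv1 hvO
    · have hG : IsPGroup p G := Solv.pCore_eq_top_iff.1 h
      have := hG.isNilpotent
      have hcm : IsMulCommutative G := by
        rcases hs.eq_bot_or_eq_top_of_normal (Subgroup.center G) inferInstance with h | h
        · exact absurd h (Group.IsNilpotent.center_ne_bot G)
        · exact ⟨⟨fun a b => ((Subgroup.mem_center_iff.1 (h ▸ Subgroup.mem_top b)) a)⟩⟩
      have top : ∀ X ∈ K, X = ⊤ := fun X hX => by
        refine (hs.eq_bot_or_eq_top_of_normal X ⟨fun n hn g => ?_⟩).resolve_left fun h => ?_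
        · rw [hcm.is_comm.comm g n]; simpa using hn
        · obtain ⟨g, hg, h1⟩ := hex1 X hX
          rw [h] at hg; exact h1 hg
      exact hXY ((top X hX).trans (top Y hY).symm)

end Cfsg.Agent.S3196
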