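import Cfsg.Statements.S3201
import Cfsg.Agent.PGrp.MaxClassP
import Cfsg.Agent.Invol.More
import Cfsg.Agent.Invol.Transfer
import Mathlib.Tactic.Group

set_option autoImplicit false
open Cfsg

namespace Cfsg.Agent.S3201
open scoped commutatorElement

open Subgroup BG PGrp

/-- Let S be a finite 2-group whose centre Z(S) has n ≥ 2 distinct maximal subgroups C₁, …, Cₙ with trivial intersection such that each quotient S/Cᵢ is a non-abelian group with exactly one involution (a generalized quaternion group). Then S is the internal direct product of an elementary abelian subgroup and a non-abelian subgroup with exactly one involution. -/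
theorem result {S : Type*} [Group S] [Finite S]
    (hS : IsPGroup 2 S) (n : ℕ) (hn : 2 ≤ n) (C : Fin n → Subgroup ↥(Subgroup.center S))
    (hCmax : ∀ i, IsCoatom (C i)) (hCinj : Function.Injective C) (hCint : ⨅ i, C i = ⊥)
    (hCq : ∀ i, ∃ (_ : ((C i).map (Subgroup.center S).subtype).Normal),
      ¬ IsMulCommutative (S ⧸ (C i).map (Subgroup.center S).subtype) ∧
      ∃! x : S ⧸ (C i).map (Subgroup.center S).subtype, orderOf x = 2) :
    ∃ E Q : Subgroup S, Cfsg.IsInternalDirectProduct E Q ⊤ ∧ Cfsg.IsElementaryAbelian 2 E ∧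
      ¬ IsMulCommutative ↥Q ∧ ∃! x : ↥Q, orderOf x = 2 := by
  have hZ : ∀ z ∈ center S, (∀ i, z ∈ (C i).map (center S).subtype) → z = 1 := fun z hz h =>
    congrArg Subtype.val (hCint.le (mem_iInf.2 fun i => by
      obtain ⟨w, hw, e⟩ := h i
      rwa [show (⟨z, hz⟩ : center S) = w from Subtype.ext e.symm]) : (⟨z, hz⟩ : center S) = 1)
  have hi : ∀ i, (C i).index = 2 := fun i => index_of_isCoatom (hS.to_subgroup _) (hCmax i)
  have hmul : ∀ i, ∀ u ∈ center S, ∀ v ∈ center S, u * v ∈ (C i).map (center S).subtype ↔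
      (u ∈ (C i).map (center S).subtype ↔ v ∈ (C i).map (center S).subtype) := fun i u hu v hv =>
    Invol.mul_mem_iff_of_relIndex_two ((relIndex_map_subtype _).trans (hi i)) hu hv
  have hsq : ∀ z ∈ center S, z * z = 1 := fun z hz => hZ _ (mul_mem hz hz) fun i => (hmul i z hz z hz).2 Iff.rfl
  -- elements outside `Z` with central square have the same square
  have k1 : ∀ i, ∀ y, y ∉ center S → y * y ∉ (C i).map (center S).subtype := fun i y hy h => by
    obtain ⟨_, -, hu⟩ := hCq i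
    obtain ⟨z, hz⟩ := SetLike.not_le_iff_exists.1 (hCmax i).1.lt_top.not_ge
    have hz' : (z : S) ∉ (C i).map (center S).subtype := fun ⟨w, hw, e⟩ => hz.2 (Subtype.ext e ▸ hw)
    have := hu.unique (y₁ := (z : S)) (y₂ := y)
      (Invol.orderOf_two_iff.2 ⟨congrArg _ (hsq z z.2), mt (QuotientGroup.eq_one_iff _).1 hz'⟩)
      (Invol.orderOf_two_iff.2 ⟨(QuotientGroup.eq_one_iff (y * y)).2 h,
        mt (QuotientGroup.eq_one_iff _).1 fun e => hy (map_subtype_le _ e)⟩)
    exact hy (by simpa using mul_mem z.2 (map_subtype_le _ (QuotientGroup.eq.1 this)))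
  have k2 : ∀ y w, y ∉ center S → w ∉ center S → y * y ∈ center S → w * w ∈ center S → y * y = w * w :=
    fun y w hy hw hy2 hw2 => by
      rw [← mul_one (y * y), ← hsq _ hw2, ← mul_assoc,
        hZ _ (mul_mem hy2 hw2) fun i => (hmul i _ hy2 _ hw2).2 (iff_of_false (k1 i y hy) (k1 i w hw)), one_mul]
  obtain ⟨_, h1, h2⟩ := hCq ⟨0, by omega⟩
  set N := (C ⟨0, by omega⟩).map (center S).subtype
  have hN : N ≤ center S := map_subtype_le _
  have sπ := QuotientGroup.mk'_surjective N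
  obtain ⟨a, x, m, h, e1, e2⟩ := exists_dqs_of_unique (hS.to_quotient N) h1 h2
  obtain ⟨a, rfl⟩ := sπ a
  obtain ⟨x, rfl⟩ := sπ x
  obtain ⟨m, rfl⟩ := Nat.exists_eq_add_of_le' h.two
  set π := QuotientGroup.mk' N
  have zc : ∀ y ∈ center S, π y ∈ center (S ⧸ N) := fun y hy => mem_center_iff.2 fun g => by
    obtain ⟨g, rfl⟩ := sπ g; rw [← map_mul, ← map_mul, mem_center_iff.1 hy]
  have cz : ∀ y, π y = π a ^ 2 ^ (m + 1) → y ∈ center S := fun y hy => by
    obtain ⟨z, hz⟩ := SetLike.not_le_iff_exists.1 (hCmax ⟨0, by omega⟩).1.lt_top.not_ge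
    have hz' : (z : S) ∉ N := fun ⟨w, hw, e⟩ => hz.2 (Subtype.ext e ▸ hw)
    have := h2.unique (y₁ := π z) (y₂ := π y)
      (Invol.orderOf_two_iff.2 ⟨congrArg _ (hsq z z.2), mt (QuotientGroup.eq_one_iff _).1 hz'⟩) (hy ▸ h.orderOf_z)
    simpa using mul_mem z.2 (hN (QuotientGroup.eq.1 this))
  have nx : ∀ y, π y ∉ zpowers (π a) → y ∉ center S := fun y hy hc =>
    h.not_commute hy (commute_of_mem_center (zc y hc) _)
  have hxa : π (a * x) ∉ zpowers (π a) := fun e => h.nmem ((mul_mem_cancel_left (mem_zpowers _)).1 (map_mul π a x ▸ e))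
  have x2 : x * x ∈ center S := cz _ (by rw [map_mul, ← sq, e1]; rfl)
  have r1 : x * x = a ^ 2 ^ (m + 1) := by
    rw [pow_succ 2, pow_mul, sq]
    refine k2 _ _ (nx x h.nmem) (fun e => ?_) x2 (cz _ (by rw [← sq, ← pow_mul, ← pow_succ, map_pow]))
    have := (h.commute_iff h.nmem (j := (2 ^ m : ℕ))).1 (by
      rw [zpow_natCast, ← map_pow]; exact (commute_of_mem_center (zc _ e) _).symm)
    exact absurd ((Nat.pow_dvd_pow_iff_le_right one_lt_two).1 (by exact_mod_cast this)) (by omega)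
  have r2 : x * a * x⁻¹ = a⁻¹ := by
    have := k2 _ _ (nx _ hxa) (nx x h.nmem) (cz _ (by
      rw [map_mul, map_mul, ← sq, ← zpow_one (π a), zpow_mul_sq (k := -1) (by simpa using e2), e1]; simp)) x2
    calc x * a * x⁻¹ = a⁻¹ * (a * x * (a * x)) * x⁻¹ * x⁻¹ := by group
      _ = a⁻¹ := by rw [this]; group
  have r3 : a ^ 2 ^ (m + 2) = 1 := by rw [pow_succ 2, pow_mul, ← r1, sq, hsq _ x2]
  have hn : x ∈ N[zpowers a] := mem_norm_of_cj_le (by rw [cj_zpowers, r2]; simp)
  have hQ : N ⊓ (zpowers a ⊔ zpowers x) = ⊥ := eq_bot_iff.2 fun g ⟨hg, hg'⟩ => by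
    obtain ⟨_, ⟨i, rfl⟩, j, rfl⟩ := (mem_sup_zpowers hn).1 hg'
    have e := (QuotientGroup.eq_one_iff _).2 hg
    change π _ = 1 at e
    simp only [map_mul, map_zpow] at e
    obtain ⟨j, rfl⟩ := dvd_of_zpow_mem Nat.prime_two h.nmem (sq_mem_of_index_two h.idx _)
      ((mul_mem_cancel_left (zpow_mem_zpowers _ i)).1 (e ▸ one_mem _))
    have e' : a ^ i * x ^ (((2 : ℕ) : ℤ) * j) = a ^ (i + (2 ^ (m + 1) : ℕ) * j) := by
      rw [zpow_mul, zpow_natCast, sq, r1, zpow_add, zpow_mul, zpow_natCast]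
    rw [← map_zpow, ← map_zpow, ← map_mul, e', map_zpow, ← orderOf_dvd_iff_zpow_eq_one, h.ord] at e
    obtain ⟨u, hu⟩ := e
    exact e'.trans (by rw [hu, zpow_mul, zpow_natCast, r3, one_zpow])
  have hs : N ⊔ (zpowers a ⊔ zpowers x) = ⊤ := eq_top_iff.2 fun g _ => by
    obtain ⟨i, e | e⟩ := h.cases (π g)
    · simpa using mul_mem_sup (mem_sup_left (zpow_mem_zpowers a i) : _ ∈ zpowers a ⊔ zpowers x)
        (QuotientGroup.eq.1 (e.symm : π (a ^ i) = π g)) |> (sup_comm N _).ge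
    · simpa [mul_assoc] using mul_mem_sup (mul_mem_sup (zpow_mem_zpowers a i) (mem_zpowers x))
        (QuotientGroup.eq.1 (e.symm : π (a ^ i * x) = π g)) |> (sup_comm N _).ge
  have bij : Function.Bijective (π.comp (zpowers a ⊔ zpowers x).subtype) := by
    refine ⟨(injective_iff_map_eq_one _).2 fun g hg => Subtype.ext (hQ.le ⟨(QuotientGroup.eq_one_iff _).1 hg, g.2⟩),
      fun g => ?_⟩
    obtain ⟨g, rfl⟩ := sπ g
    obtain ⟨u, hu, v, hv, rfl⟩ := (mem_sup_norml (norm_of_normal _ _)).1 (hs.ge (mem_top g))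
    exact ⟨⟨v, hv⟩, by simp [π, (QuotientGroup.eq_one_iff _).2 hu]⟩
  let E := MulEquiv.ofBijective _ bij
  refine ⟨N, _, ⟨le_top, le_top, fun u hu v _ => (mem_center_iff.1 (hN hu) v).symm, hQ, hs⟩,
    Invol.elemAb_two_iff.2 fun u hu => hsq u (hN hu), fun hc => h1 (isog_abelian ⟨E⟩ hc), ?_⟩
  obtain ⟨t, ht, hu⟩ := h2
  exact ⟨E.symm t, by simpa using ht, fun y hy => E.eq_symm_apply.2 (hu _ (by simpa using hy))⟩

end Cfsg.Agent.S3201
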