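import Cfsg.Statements.S3202
import Cfsg.Agent.PGrp.MaxClassP
import Mathlib.Tactic.Group

set_option autoImplicit false
open Cfsg

namespace Cfsg.Agent.S3202
open scoped commutatorElement

open Subgroup BG PGrp

/-- Let S be a finite 2-group of 2-rank exactly 2 and D a maximal subgroup of the centre of S such that S/D is a non-abelian group with exactly one involution (a generalized quaternion group). Then S has a nontrivial cyclic characteristic subgroup. -/
theorem result {S : Type*} [Group S]
    [Finite S] (hS : IsPGroup 2 S) (hr2 : Cfsg.PRankLE 2 2 S) (hr1 : ¬ Cfsg.PRankLE 2 1 S)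
    (D : Subgroup ↥(Subgroup.center S)) (hD : IsCoatom D)
    (hq : ∃ (_ : (D.map (Subgroup.center S).subtype).Normal),
      ¬ IsMulCommutative (S ⧸ D.map (Subgroup.center S).subtype) ∧
      ∃! x : S ⧸ D.map (Subgroup.center S).subtype, orderOf x = 2) :
    ∃ C : Subgroup S, C ≠ ⊥ ∧ IsCyclic ↥C ∧ C.Characteristic := by
  obtain ⟨_, h1, h2⟩ := hq
  set N := D.map (center S).subtype
  have sπ := QuotientGroup.mk'_surjective N
  obtain ⟨a, x, n, h, -⟩ := exists_dqs_of_unique (hS.to_quotient N) h1 h2
  obtain ⟨a, rfl⟩ := sπ a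
  have hA : (N ⊔ zpowers a).index = 2 := by
    rw [← h.idx, ← MonoidHom.map_zpowers, index_map, MonoidHom.range_eq_top_of_surjective _ sπ, index_top, mul_one,
      QuotientGroup.ker_mk', sup_comm]
  have := normal_of_index_eq_two hA
  obtain ⟨y, hy⟩ : ∃ y, y ∉ N ⊔ zpowers a := by
    by_contra! h; rw [(eq_top_iff' _).2 h] at hA; simp at hA
  refine ⟨commutator S, fun e => h1 ⟨⟨fun u v => ?_⟩⟩,
    commutator_eq_zpowers (map_subtype_le D) (sup_zpowers_eq_top hA hy) ▸ inferInstance, inferInstance⟩
  obtain ⟨u, rfl⟩ := sπ u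
  obtain ⟨v, rfl⟩ := sπ v
  exact (commutatorElement_eq_one_iff_commute.1 (e.le (commutator_mem_commutator (mem_top u) (mem_top v)))).map _

end Cfsg.Agent.S3202
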