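import Cfsg.Statements.S3206
import Cfsg.Agent.AB.WJ

set_option autoImplicit false
open Cfsg

namespace Cfsg.Agent.S3206

open Cfsg.Agent.AB Cfsg.Agent.BG Subgroup

/-- Let G be a non-abelian finite simple group with abelian Sylow 2-subgroups, and let t be an involution of G whose centralizer is a maximal subgroup of G and is the direct product of the subgroup generated by t with a subgroup E having a normal subgroup isomorphic to PSL(2, q), q odd and greater than 3, with trivial centralizer in E. Then every finite perfect group having a central 2-subgroup with quotient isomorphic to G has that central subgroup trivial (G has no nontrivial perfect central extension by a 2-group), and every automorphism of G of 2-power order that fixes every element of some Sylow 2-subgroup of G is inner. -/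
theorem result {G : Type*} [Group G] [Finite G] [IsSimpleGroup G]
    (hG : ¬ IsMulCommutative G) (hab : ∀ S : Sylow 2 G, IsMulCommutative ↥(S : Subgroup G))
    (t : G) (ht : orderOf t = 2) (hmax : IsCoatom (Subgroup.centralizer ({t} : Set G)))
    (E : Subgroup G) (hE : Cfsg.IsInternalDirectProduct (Subgroup.zpowers t) E (Subgroup.centralizer ({t} : Set G)))
    {F : Type*} [Field F] [Fintype F] (hFo : Odd (Fintype.card F)) (hF3 : 3 < Fintype.card F)
    (N : Subgroup ↥E) [N.Normal] (hN : Nonempty (↥N ≃* Matrix.ProjectiveSpecialLinearGroup (Fin 2) F))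
    (hNc : Subgroup.centralizer (N : Set ↥E) = ⊥) :
    (∀ (L : Type) (_ : Group L) (_ : Finite L) (Z : Subgroup L) (_ : Z.Normal), commutator L = ⊤ → Z ≤ Subgroup.center L →
        IsPGroup 2 ↥Z → Nonempty (L ⧸ Z ≃* G) → Z = ⊥) ∧
    (∀ (φ : G ≃* G) (k : ℕ), φ ^ (2 ^ k) = 1 → (∃ S : Sylow 2 G, ∀ s ∈ (S : Subgroup G), φ s = s) →
        ∃ g : G, ∀ x : G, φ x = g * x * g⁻¹) := by
  obtain ⟨e⟩ := hN
  obtain ⟨P⟩ : Nonempty (Sylow 2 G) := inferInstance
  rw [← Nat.card_eq_fintype_card] at hFo hF3
  obtain ⟨u, s, K, h⟩ := wj_of_sub (simple_perfect hG) (hab_of_sylow P (hab P)) ht hE hFo hF3 N e hNc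
  refine ⟨fun L _ _ Z _ hL hZ h2 ⟨f⟩ => ?_, fun φ k hk ⟨S, hS⟩ => aut_inner ?_ ?_ S (hab S) φ hk hS⟩
  · obtain ⟨T, hT⟩ := h2.exists_le_sylow
    let φ : L →* G := f.toMonoidHom.comp (QuotientGroup.mk' Z)
    have hφ : Function.Surjective φ := f.surjective.comp (QuotientGroup.mk'_surjective Z)
    have p := T.isPGroup'.map φ
    have ab : IsMulCommutative (T : Subgroup L) := abelian_of_cent (le_cent_iff.2 fun a ha b hb =>
      (h.cover φ hφ (fun x hx => hZ (by simpa [φ] using hx)) (h.sqP p (mem_map_of_mem φ ha))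
        (h.sqP p (mem_map_of_mem φ hb)) ((h.hab _ p).comm (mem_map_of_mem φ ha) (mem_map_of_mem φ hb))).eq)
    rw [eq_bot_iff, ← Transfer.abelian_hall_inf ab le_top (Transfer.sylow_coprime_relIndex T le_top)]
    exact fun x hx => ⟨⟨hT hx, (hL.ge (mem_top x) :)⟩, fun y _ => mem_center_iff.1 (hZ hx) y⟩
  · exact (IsSimpleGroup.eq_bot_or_eq_top_of_normal _ inferInstance).resolve_right fun r =>
      hG ⟨⟨fun a b => mem_center_iff.1 (r.ge (mem_top b)) a⟩⟩
  · refine (IsSimpleGroup.eq_bot_or_eq_top_of_normal _ inferInstance).resolve_right fun r => ?_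
    have := pnat_odd.1 (pcore_pgroup (π := ({2} : Set ℕ)ᶜ) (M := (⊤ : Subgroup G)))
    rw [← Op', Op'_top, r] at this
    exact (Nat.not_even_iff_odd.2 this) (even_iff_two_dvd.2 (ht ▸ orderOf_dvd_cardG (mem_top t)))

end Cfsg.Agent.S3206
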