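import Cfsg.Statements.S3208
import Cfsg.Agent.Transfer.SylowIn
import Cfsg.Agent.Invol.Dihedral
import Cfsg.Agent.Invol.StrongEmb
import Cfsg.Agent.Solv.Basic

set_option autoImplicit false
open Cfsg

namespace Cfsg.Agent.S3208

/-- Let j be an involution of a finite group G, H a subgroup of G, and T a Sylow 2-subgroup of H ∩ C_G(j) containing j such that ⟨j⟩ is a characteristic subgroup of T. Then T is a Sylow 2-subgroup of H. -/
theorem result {G : Type*} [Group G] [Finite G]
    (j : G) (hj : orderOf j = 2) (H T : Subgroup G) (hT : T ≤ H ⊓ Subgroup.centralizer ({j} : Set G)) (h2 : IsPGroup 2 ↥T)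
    (hSyl : ¬ 2 ∣ T.relIndex (H ⊓ Subgroup.centralizer ({j} : Set G))) (hjT : j ∈ T)
    (hchar : ((Subgroup.zpowers j).subgroupOf T).Characteristic) :
    ¬ 2 ∣ T.relIndex H := by
  open Cfsg.Agent.Transfer Cfsg.Agent.Invol in
  have hS : IsSylowIn 2 T (H ⊓ Subgroup.centralizer ({j} : Set G)) := ⟨hT, h2, hSyl⟩
  have hN : Subgroup.normalizer (T : Set G) ≤ Subgroup.centralizer ({j} : Set G) := by
    intro n hn
    have h1 := Solv.normalizer_le_normalizer_map_of_characteristic T ((Subgroup.zpowers j).subgroupOf T) hn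
    rw [Subgroup.subgroupOf_map_subtype, inf_eq_left.2 ((Subgroup.zpowers_le).2 hjT)] at h1
    have h3 := (Subgroup.mem_normalizer_iff.1 h1 j).1 (Subgroup.mem_zpowers j)
    rcases (mem_zpowers_invol (mul_self_of hj)).1 h3 with h | h
    · exact absurd (by simpa using h) (ne_one_of hj)
    · rw [mem_centralizer_singleton]
      show n * j = j * n
      rw [← h]; simp [h]
      calc n * j = (n * j * n⁻¹) * n := by group
        _ = j * n := by rw [h]
  refine (isSylowIn_of_maximal h2 (hT.trans inf_le_left) fun Q hQ hQH hTQ => ?_).not_dvd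
  by_contra hne
  have hlt : T < Q := lt_of_le_of_ne hTQ (Ne.symm hne)
  have h3 := lt_inf_normalizer_of_isPGroup hQ hlt
  have := hS.eq_of_le (hQ.to_le inf_le_left) (inf_le_inf hQH hN) h3.le
  exact h3.ne this.symm

end Cfsg.Agent.S3208
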