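import Cfsg.Statements.S3209
import Cfsg.Agent.Low.SL2C

set_option autoImplicit false
open Cfsg

namespace Cfsg.Agent.S3209

/-- Let L₁ ≅ SL₂(q₁) and L₂ ≅ SL₂(q₂), q₁ and q₂ odd, be elementwise-commuting subgroups of a finite group meeting in ⟨j⟩ for an involution j. Then L₁L₂ has exactly two conjugacy classes of involutions: the central involution j, and one further class (there is an involution x ≠ j in L₁L₂, and every involution of L₁L₂ other than j is conjugate to x by an element of L₁L₂). -/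
theorem result {G : Type*} [Group G] [Finite G]
    {F₁ : Type*} [Field F₁] [Fintype F₁] {F₂ : Type*} [Field F₂] [Fintype F₂]
    (hF₁ : Odd (Fintype.card F₁)) (hF₂ : Odd (Fintype.card F₂)) (L₁ L₂ : Subgroup G)
    (e₁ : ↥L₁ ≃* Matrix.SpecialLinearGroup (Fin 2) F₁) (e₂ : ↥L₂ ≃* Matrix.SpecialLinearGroup (Fin 2) F₂)
    (hc : ∀ x ∈ L₁, ∀ y ∈ L₂, x * y = y * x) (j : G) (hj : orderOf j = 2) (hm : L₁ ⊓ L₂ = Subgroup.zpowers j) :
    ∃ x ∈ L₁ ⊔ L₂, orderOf x = 2 ∧ x ≠ j ∧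
      ∀ y ∈ L₁ ⊔ L₂, orderOf y = 2 → y = j ∨ ∃ g ∈ L₁ ⊔ L₂, g * x * g⁻¹ = y := by
  have hj' : j ∈ L₁ ⊓ L₂ := hm ▸ Subgroup.mem_zpowers j
  have h₁ := Low.s2_of hF₁ e₁ hj hj'.1
  have h₂ := Low.s2_of hF₂ e₂ hj hj'.2
  have jj : j * j = 1 := by rw [← sq, ← hj, pow_orderOf_eq_one]
  have j1 : j ≠ 1 := by rintro rfl; simp at hj
  obtain ⟨a, ha, a2⟩ := h₁.ex
  obtain ⟨b, hb, b2⟩ := h₂.ex
  have sq : ∀ a ∈ L₁, ∀ b ∈ L₂, a * b * (a * b) = a * a * (b * b) := fun a ha b hb => by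
    rw [mul_assoc, ← mul_assoc b, ← hc a ha b hb]; group
  have nz : a * b ∉ Subgroup.zpowers j := fun h => by
    have : a ∈ L₁ ⊓ L₂ := ⟨ha, by simpa using L₂.mul_mem (hm ▸ h : a * b ∈ L₁ ⊓ L₂).2 (L₂.inv_mem hb)⟩
    rcases Low.mem_zpowers_two hj (hm ▸ this) with rfl | rfl
    · exact j1 (by simpa using a2.symm)
    · exact j1 (a2.symm.trans jj)
  refine ⟨a * b, Subgroup.mul_mem_sup ha hb, orderOf_eq_prime (by rw [pow_two, sq a ha b hb, a2, b2, jj])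
    fun h => nz (h ▸ one_mem _), fun h => nz (h ▸ Subgroup.mem_zpowers _), fun y hy y2 => ?_⟩
  obtain ⟨c, hc', d, hd, rfl⟩ := (Root.Comm.mem_sup hc).1 hy
  have e : c * c * (d * d) = 1 := by rw [← sq c hc' d hd, ← pow_two, ← y2, pow_orderOf_eq_one]
  have : c * c ∈ L₁ ⊓ L₂ := ⟨L₁.mul_mem hc' hc', eq_inv_of_mul_eq_one_left e ▸ L₂.inv_mem (L₂.mul_mem hd hd)⟩
  rcases Low.mem_zpowers_two hj (hm ▸ this) with h | h
  · rw [h, one_mul] at e
    refine .inl ((Low.mem_zpowers_two hj (mul_mem (h₁.sq1 c hc' h) (h₂.sq1 d hd e))).resolve_left ?_)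
    intro h; simp [h] at y2
  · rw [h, ← jj, mul_right_inj] at e
    obtain ⟨g, hg, e1⟩ := h₁.conj a ha c hc' a2 h
    obtain ⟨k, hk, e2⟩ := h₂.conj b hb d hd b2 e
    refine .inr ⟨g * k, Subgroup.mul_mem_sup hg hk, ?_⟩
    have c1 : k * a * k⁻¹ = a := by rw [← hc a ha k hk]; simp
    have c2 : g * d * g⁻¹ = d := by rw [hc g hg d hd]; simp
    rw [← e1, ← c2, ← e2, ← c1]
    nth_rewrite 1 [c1]
    group

end Cfsg.Agent.S3209
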