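import Cfsg.Statements.S3210
import Cfsg.Agent.Low.SL2C

set_option autoImplicit false
open Cfsg

namespace Cfsg.Agent.S3210

open Cfsg.Agent.Root Cfsg.Agent.Low
variable {G : Type*} [Group G]

theorem key {L₁ L₂ M N : Subgroup G} {j : G} (hj : orderOf j = 2) (h₁ : S2 L₁ j) (hc : Comm L₁ L₂)
    (hm : L₁ ⊓ L₂ = Subgroup.zpowers j) (hN : S2 N j) (hMN : Comm M N) (hM : M ≤ L₁ ⊔ L₂)
    (hN' : N ≤ L₁ ⊔ L₂) (hn : ∀ g ∈ L₁, ∀ x ∈ N, g * x * g⁻¹ ∈ N) : M ≤ L₂ ∨ N ≤ L₂ := by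
  have hj' : j ∈ L₁ ⊓ L₂ := hm ▸ Subgroup.mem_zpowers j
  by_contra hcon
  simp only [not_or, SetLike.not_le_iff_exists] at hcon
  obtain ⟨⟨x, hx, x2⟩, y, hy, y2⟩ := hcon
  obtain ⟨m, hm₁, m', hm₂, rfl⟩ := hc.mem_sup.1 (hM hx)
  obtain ⟨a, ha, b, hb, rfl⟩ := hc.mem_sup.1 (hN' hy)
  have h1 : N ≤ Subgroup.centralizer {m} := hN.gen _ fun z hz ho => by
    obtain ⟨c, hc₁, d, hd, rfl⟩ := hc.mem_sup.1 (hN' hz)
    have e := hMN _ hx _ hz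
    have e1 : (c * m)⁻¹ * (m * c) = d * m' * (m' * d)⁻¹ := by
      rw [mul_assoc m, ← mul_assoc m', ← hc c hc₁ m' hm₂, mul_assoc c d, ← mul_assoc d, ← hc m hm₁ d hd]
        at e
      rw [inv_mul_eq_iff_eq_mul, ← mul_assoc, eq_mul_inv_iff_mul_eq]
      simpa [mul_assoc] using e
    have e2 : (c * m)⁻¹ * (m * c) ∈ L₁ ⊓ L₂ := ⟨L₁.mul_mem (inv_mem (mul_mem hc₁ hm₁)) (mul_mem hm₁ hc₁),
      e1 ▸ L₂.mul_mem (mul_mem hd hm₂) (inv_mem (mul_mem hm₂ hd))⟩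
    rw [Subgroup.mem_centralizer_singleton_iff]
    rcases mem_zpowers_two hj (hm ▸ e2) with h | h
    · rw [inv_mul_eq_one] at h
      rw [mul_assoc, ← hc m hm₁ d hd, ← mul_assoc, h, mul_assoc]
    · exfalso
      rw [inv_mul_eq_iff_eq_mul] at h
      have cj : Commute (c * d) j := Commute.mul_left (hc c hc₁ j hj'.2) (hc j hj'.1 d hd).symm
      have e3 : m * (c * d) * m⁻¹ = c * d * j := by
        rw [← mul_assoc, h, mul_assoc (c * m), hc j hj'.1 d hd, mul_assoc c, ← mul_assoc m,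
          hc m hm₁ d hd, mul_assoc d, hc m hm₁ j hj'.2]
        group
      have e4 : (c * d * j) ^ orderOf (c * d) = 1 := by
        rw [← e3, conj_pow, pow_orderOf_eq_one]; simp
      rw [cj.mul_pow, pow_orderOf_eq_one, one_mul, ← orderOf_dvd_iff_pow_eq_one, hj] at e4
      exact (Nat.not_even_iff_odd.2 ho) (even_iff_two_dvd.2 e4)
  refine (h₁.cent a ha m hm₁ fun g hg => ?_).elim (fun h => y2 (mul_mem (hm ▸ h : a ∈ L₁ ⊓ L₂).2 hb))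
    fun h => x2 (mul_mem (hm ▸ h : m ∈ L₁ ⊓ L₂).2 hm₂)
  · have e : g * (a * b) * g⁻¹ = g * a * g⁻¹ * b := by
      rw [mul_assoc (g * a), hc _ (inv_mem hg) b hb]; group
    have := Subgroup.mem_centralizer_singleton_iff.1 (h1 (hn g hg _ hy))
    rw [e, mul_assoc, ← hc m hm₁ b hb, ← mul_assoc, ← mul_assoc, mul_left_inj] at this
    exact this

/-- Let G be a finite group with subgroups L₁ ≅ SL₂(q₁) and L₂ ≅ SL₂(q₂), q₁ and q₂ odd prime powers, which commute elementwise and meet in ⟨j⟩ for an involution j, and suppose L₁L₂ has index 2 in C_G(j). Then every element n of C_G(j) outside L₁L₂ either normalizes both L₁ and L₂, or conjugates L₁ onto L₂; in the second case q₁ = q₂ and there is an element n′ of C_G(j) outside L₁L₂ conjugating L₁ onto L₂ with n′² ∈ ⟨j⟩. -/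
theorem result {G : Type*} [Group G] [Finite G]
    {F₁ : Type*} [Field F₁] [Fintype F₁] {F₂ : Type*} [Field F₂] [Fintype F₂]
    (hF₁ : Odd (Fintype.card F₁)) (hF₂ : Odd (Fintype.card F₂)) (L₁ L₂ : Subgroup G)
    (e₁ : ↥L₁ ≃* Matrix.SpecialLinearGroup (Fin 2) F₁) (e₂ : ↥L₂ ≃* Matrix.SpecialLinearGroup (Fin 2) F₂)
    (hc : ∀ x ∈ L₁, ∀ y ∈ L₂, x * y = y * x) (j : G) (hj : orderOf j = 2) (hm : L₁ ⊓ L₂ = Subgroup.zpowers j)
    (hle : L₁ ⊔ L₂ ≤ Subgroup.centralizer ({j} : Set G)) (hi : (L₁ ⊔ L₂).relIndex (Subgroup.centralizer ({j} : Set G)) = 2) (n : G) (hn : n ∈ Subgroup.centralizer ({j} : Set G)) (hn' : n ∉ L₁ ⊔ L₂) :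
    (L₁.map (MulAut.conj n).toMonoidHom = L₁ ∧ L₂.map (MulAut.conj n).toMonoidHom = L₂) ∨
      (L₁.map (MulAut.conj n).toMonoidHom = L₂ ∧ Fintype.card F₁ = Fintype.card F₂ ∧
        ∃ n' ∈ Subgroup.centralizer ({j} : Set G), n' ∉ L₁ ⊔ L₂ ∧ L₁.map (MulAut.conj n').toMonoidHom = L₂ ∧ n' ^ 2 ∈ Subgroup.zpowers j) := by
  open Cfsg.Agent.Root Cfsg.Agent.Low in
  have hj' : j ∈ L₁ ⊓ L₂ := hm ▸ Subgroup.mem_zpowers j
  have h₁ := s2_of hF₁ e₁ hj hj'.1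
  have h₂ := s2_of hF₂ e₂ hj hj'.2
  have hc : Comm L₁ L₂ := hc
  have nj : n * j * n⁻¹ = j := by rw [Subgroup.mem_centralizer_singleton_iff.1 hn]; simp
  have hno : ((L₁ ⊔ L₂).subgroupOf (Subgroup.centralizer {j})).Normal := Subgroup.normal_of_index_eq_two hi
  have cj : ∀ x ∈ L₁ ⊔ L₂, ∀ g ∈ Subgroup.centralizer {j}, g * x * g⁻¹ ∈ L₁ ⊔ L₂ := fun x hx g hg =>
    hno.conj_mem ⟨x, hle hx⟩ hx ⟨g, hg⟩
  have k₁ : S2 (conjBy L₁ n) j := s2_of hF₁ ((conjByEquiv L₁ n).symm.trans e₁) hj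
    (nj ▸ conj_mem_conjBy n hj'.1)
  have l₁ : conjBy L₁ n ≤ L₁ ⊔ L₂ := conjBy_le_iff.2 fun a ha => cj a (Subgroup.mem_sup_left ha) n hn
  have l₂ : conjBy L₂ n ≤ L₁ ⊔ L₂ := conjBy_le_iff.2 fun a ha => cj a (Subgroup.mem_sup_right ha) n hn
  have nn : ∀ g ∈ L₁ ⊔ L₂, conjBy L₁ g = L₁ := fun g hg => by
    obtain ⟨a, ha, b, hb, rfl⟩ := hc.mem_sup.1 hg
    rw [← conjBy_conjBy, hc.conjBy_eq' hb, conjBy_of_mem ha]
  have hnn : ∀ g ∈ L₁ ⊔ L₂, ∀ x ∈ conjBy L₁ n, g * x * g⁻¹ ∈ conjBy L₁ n := fun g hg x hx => by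
    have := conj_mem_conjBy g hx
    rwa [conjBy_conjBy, show g * n = n * (n⁻¹ * g * n⁻¹⁻¹) by group, ← conjBy_conjBy,
      nn _ (cj g hg _ (inv_mem hn))] at this
  have c₁ : Nat.card (conjBy L₁ n) = Nat.card L₁ := (Nat.card_congr (conjByEquiv L₁ n).toEquiv).symm
  have c₂ : Nat.card (conjBy L₂ n) = Nat.card L₂ := (Nat.card_congr (conjByEquiv L₂ n).toEquiv).symm
  have big : ∀ {L : Subgroup G}, S2 L j → ¬ L ≤ L₁ ⊓ L₂ := fun h hl => by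
    obtain ⟨a, ha, a2⟩ := h.ex
    rcases mem_zpowers_two hj (hm ▸ hl ha) with rfl | rfl
    · rw [← a2] at hj; simp at hj
    · rw [mul_eq_left.1 a2] at hj; simp at hj
  have k₂ : S2 (conjBy L₂ n) j := s2_of hF₂ ((conjByEquiv L₂ n).symm.trans e₂) hj
    (nj ▸ conj_mem_conjBy n hj'.2)
  rcases key hj h₁ hc hm k₁ (hc.symm.conj n) l₂ l₁ fun g hg => hnn g (Subgroup.mem_sup_left hg)
    with a | a <;>
  rcases key hj h₂ hc.symm (inf_comm L₁ L₂ ▸ hm) k₁ (hc.symm.conj n) (sup_comm L₁ L₂ ▸ l₂)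
    (sup_comm L₁ L₂ ▸ l₁) fun g hg => hnn g (Subgroup.mem_sup_right hg) with b | b
  · exact absurd (le_inf b a) (big k₂)
  · exact .inl ⟨Subgroup.eq_of_le_of_card_ge b c₁.ge, Subgroup.eq_of_le_of_card_ge a c₂.ge⟩
  swap
  · exact absurd (le_inf b a) (big k₁)
  have d : Nat.card L₁ = Nat.card L₂ := le_antisymm (c₁ ▸ Subgroup.card_le_of_le a)
    (c₂ ▸ Subgroup.card_le_of_le b)
  have e : conjBy L₁ n = L₂ := Subgroup.eq_of_le_of_card_ge a (by rw [c₁, d])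
  refine .inr ⟨e, ?_, ?_⟩
  · rw [Nat.card_congr e₁.toEquiv, Nat.card_congr e₂.toEquiv, Classical.card_SL2, Classical.card_SL2,
      Nat.card_eq_fintype_card, Nat.card_eq_fintype_card] at d
    have mono : StrictMono fun q : ℕ => (q + 1) * q * (q + 2) := fun a b h => by
      simp only; gcongr
    obtain ⟨a, ha⟩ : ∃ a, Fintype.card F₁ = a + 1 := ⟨_, (Nat.succ_pred_eq_of_pos Fintype.card_pos).symm⟩
    obtain ⟨b, hb⟩ : ∃ a, Fintype.card F₂ = a + 1 := ⟨_, (Nat.succ_pred_eq_of_pos Fintype.card_pos).symm⟩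
    rw [ha, hb] at d ⊢
    exact congrArg (· + 1) (mono.injective (by simpa using d))
  have n2 : n * n ∈ L₁ ⊔ L₂ := Subgroup.mul_self_mem_of_index_two hi (⟨n, hn⟩ : Subgroup.centralizer {j})
  obtain ⟨x, hx, y, hy, e2⟩ := hc.mem_sup.1 n2
  refine ⟨n * x⁻¹, mul_mem hn (inv_mem (hle (Subgroup.mem_sup_left hx))), fun h => hn' (by
    simpa using mul_mem h (Subgroup.mem_sup_left hx)), (conjBy_mul_of_mem n (inv_mem hx)).trans e, ?_⟩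
  have x2 : n * x * n⁻¹ ∈ L₂ := e ▸ conj_mem_conjBy n hx
  have y1 : n * y * n⁻¹ ∈ L₁ := b (conj_mem_conjBy n hy)
  have e3 : (n * x⁻¹) ^ 2 = (n * x * n⁻¹)⁻¹ * y := by
    rw [show (n * x⁻¹) ^ 2 = (n * x * n⁻¹)⁻¹ * (n * n) * x⁻¹ by rw [sq]; group, ← e2, hc x hx y hy]
    group
  have e4 : (n * x * n⁻¹)⁻¹ * y = n * y * n⁻¹ * x⁻¹ := by
    rw [inv_mul_eq_iff_eq_mul, ← mul_assoc, eq_mul_inv_iff_mul_eq, ← hc x hx y hy,
      show n * x * n⁻¹ * (n * y * n⁻¹) = n * (x * y) * n⁻¹ by group, e2]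
    group
  rw [← hm, e3]
  exact ⟨e4 ▸ L₁.mul_mem y1 (inv_mem hx), L₂.mul_mem (inv_mem x2) hy⟩

end Cfsg.Agent.S3210
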