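import Cfsg.Statements.S3211
import Cfsg.Agent.Classical.SL2Torus
import Cfsg.Agent.Invol.ZS
import Cfsg.Agent.Loc.PGrp
import Cfsg.Agent.Invol.Dihedral

set_option autoImplicit false
open Cfsg

namespace Cfsg.Agent.S3211

section helpers
open Cfsg.Agent.Loc Subgroup
open scoped commutatorElement

variable {G : Type*} [Group G] {L L' : Subgroup G} {j x : G}

/-- the facts on `SL₂(q)`, `q` odd, that are used -/
structure Q1 (L : Subgroup G) (j : G) : Prop where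
  u : ∀ x ∈ L, x * x = 1 → x = 1 ∨ x = j
  ex : ∃ x ∈ L, x * x = j
  inv : ∀ x ∈ L, x * x = j → ∃ w ∈ L, w * x * w⁻¹ = x⁻¹
  sq : ∀ x ∈ L, x * x = j → ∀ w ∈ L, w * x * w⁻¹ = x⁻¹ → w * w = j

open _root_.Cfsg.Agent.Classical in
theorem q1 {F : Type*} [Field F] [Fintype F] (hF : Odd (Fintype.card F))
    (e : L ≃* Matrix.SpecialLinearGroup (Fin 2) F) (hj : orderOf j = 2) (hL : j ∈ L) : Q1 L j := by
  have h2 : (2 : F) ≠ 0 := Ring.two_ne_zero fun h => by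
    have := FiniteField.even_card_iff_char_two.1 h
    rw [Nat.odd_iff] at hF; omega
  have ej : e ⟨j, hL⟩ = -1 := (sl_eq_of_mul_self_eq_one h2 (by
    rw [← map_mul, ← map_one e]; exact congrArg e (Subtype.ext (Invol.mul_self_of hj)))).resolve_left
    fun h => Invol.ne_one_of hj (congrArg Subtype.val (e.map_eq_one_iff.1 h))
  have k : ∀ a b : L, e a * e b = -1 ↔ (a : G) * b = j := fun a b => by
    rw [← ej, ← map_mul, e.apply_eq_iff_eq, Subtype.ext_iff]; rfl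
  have d : ∀ g : Matrix.SpecialLinearGroup (Fin 2) F, g * g = -1 → disc g.1 ≠ 0 := fun g h => by
    rw [sl_disc, sl_trace_eq_zero_of_isScal_sq (sl_isScal_iff.2 (.inr h)) fun h' => by
      rcases sl_isScal_iff.1 h' with rfl | rfl <;> exact sl_neg_one_ne_one h2 (by simpa using h.symm)]
    rw [show (0 : F) ^ 2 - 4 = -(2 * 2) by ring]
    exact neg_ne_zero.2 (mul_ne_zero h2 h2)
  refine ⟨fun x hx h => ?_, ?_, fun x hx h => ?_, fun x hx h w hw h' => ?_⟩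
  · refine (sl_eq_of_mul_self_eq_one h2 (g := e ⟨x, hx⟩) (by
      rw [← map_mul, ← map_one e]; exact congrArg e (Subtype.ext h))).imp
      (fun h => congrArg Subtype.val (e.map_eq_one_iff.1 h)) fun h => congrArg Subtype.val (e.injective (h.trans ej.symm))
  · obtain ⟨x, hx⟩ := e.surjective ⟨!![0, 1; -1, 0], by simp [Matrix.det_fin_two]⟩
    exact ⟨x, x.2, (k x x).1 (sl_mul_self_eq_neg_one_of_trace (by rw [hx]; simp [Matrix.trace_fin_two]))⟩
  · obtain ⟨w, hw⟩ := sl_exists_inverter (d _ ((k ⟨x, hx⟩ ⟨x, hx⟩).2 h))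
    obtain ⟨w, rfl⟩ := e.surjective w
    rw [← map_inv, ← map_inv, ← map_mul, ← map_mul] at hw
    exact ⟨w, w.2, congrArg Subtype.val (e.injective hw)⟩
  · refine (k ⟨w, hw⟩ ⟨w, hw⟩).1 (sl_mul_self_eq_neg_one_of_trace (sl_trace_inverter (d _ ((k ⟨x, hx⟩ ⟨x, hx⟩).2 h)) ?_))
    rw [← map_inv, ← map_inv, ← map_mul, ← map_mul]
    exact congrArg e (Subtype.ext h')

end helpers

/-- Let G be a finite group with subgroups L₁ ≅ SL₂(q₁) and L₂ ≅ SL₂(q₂), q₁ and q₂ odd prime powers, which commute elementwise and meet in ⟨j⟩ for an involution j, and suppose L₁L₂ has index 2 in C_G(j). If some n ∈ C_G(j) with n² = j interchanges L₁ and L₂ under conjugation (so that C_G(j) = L₁L₂⟨n⟩), then G = C_G(j)O(G). -/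
theorem result {G : Type*} [Group G] [Finite G]
    {F₁ : Type*} [Field F₁] [Fintype F₁] {F₂ : Type*} [Field F₂] [Fintype F₂]
    (hF₁ : Odd (Fintype.card F₁)) (hF₂ : Odd (Fintype.card F₂)) (L₁ L₂ : Subgroup G)
    (e₁ : ↥L₁ ≃* Matrix.SpecialLinearGroup (Fin 2) F₁) (e₂ : ↥L₂ ≃* Matrix.SpecialLinearGroup (Fin 2) F₂)
    (hc : ∀ x ∈ L₁, ∀ y ∈ L₂, x * y = y * x) (j : G) (hj : orderOf j = 2) (hm : L₁ ⊓ L₂ = Subgroup.zpowers j)
    (hle : L₁ ⊔ L₂ ≤ Subgroup.centralizer ({j} : Set G)) (hi : (L₁ ⊔ L₂).relIndex (Subgroup.centralizer ({j} : Set G)) = 2) (n : G) (hn : n ∈ Subgroup.centralizer ({j} : Set G))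
    (hn2 : n ^ 2 = j) (hswap : L₁.map (MulAut.conj n).toMonoidHom = L₂) :
    Subgroup.centralizer ({j} : Set G) ⊔ Cfsg.oddCore G = ⊤ := by
  open Cfsg.Agent.Loc Subgroup in
  open scoped commutatorElement in
  have jm : j ∈ L₁ ⊓ L₂ := hm.ge (mem_zpowers j)
  have q₁ := q1 hF₁ e₁ hj jm.1
  have q₂ := q1 hF₂ e₂ hj jm.2
  have j2 := Invol.mul_self_of hj
  have j1 := Invol.ne_one_of hj
  have hz : ∀ x ∈ L₁, x ∈ L₂ → x = 1 ∨ x = j := fun x h1 h2 => (Invol.mem_zpowers_invol j2).1 (hm.le ⟨h1, h2⟩)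
  have cj1 : ∀ x ∈ L₁, Commute x j := fun x hx => hc x hx j jm.2
  have cj2 : ∀ x ∈ L₂, Commute x j := fun x hx => (hc j jm.1 x hx).symm
  have dec : ∀ x ∈ L₁ ⊔ L₂, ∃ a ∈ L₁, ∃ b ∈ L₂, a * b = x := fun x hx =>
    (mem_sup_of_le_normalizer_right (le_normalizer_of_le_centralizer fun a ha b hb => (hc a ha b hb).symm)).1 hx
  have s1 : ∀ x ∈ L₁, n * x * n⁻¹ ∈ L₂ := fun x hx => hswap ▸ conj_mem_cj hx
  have ss : ∀ x : G, Commute x j → n * (n * x * n⁻¹) * n⁻¹ = x := fun x h => by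
    calc _ = n ^ 2 * x * (n ^ 2)⁻¹ := by rw [pow_two]; group
      _ = x := by rw [hn2, ← h.eq, mul_inv_cancel_right]
  have s2 : ∀ x ∈ L₂, n * x * n⁻¹ ∈ L₁ := fun x hx => by
    obtain ⟨y, hy, rfl⟩ := mem_cj_iff_exists.1 (hswap.ge hx)
    rwa [ss y (cj1 y hy)]
  have nL : n ∉ L₁ ⊔ L₂ := fun h => by
    obtain ⟨x, hx, h2⟩ := q₁.ex
    have : L₁ ⊔ L₂ ≤ normalizer (L₁ : Set G) := sup_le le_normalizer
      (le_normalizer_of_le_centralizer fun a ha b hb => hc b hb a ha)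
    rw [cj_eq_of_mem_normalizer (this h)] at hswap
    rcases hz x hx (hswap ▸ hx) with rfl | rfl
    · exact j1 (by rw [← h2, one_mul])
    · exact j1 (h2.symm.trans j2)
  have A : ∀ z ∈ centralizer ({j} : Set G), z * z = 1 → z ∈ L₁ ⊔ L₂ := fun z hz' z2 => by
    by_contra h
    obtain ⟨a, ha, b, hb, e⟩ := dec (z * n⁻¹) ((mul_mem_iff_of_index_two hi (a := ⟨z, hz'⟩) (b := ⟨n⁻¹, inv_mem hn⟩)).2
      (iff_of_false h fun h => nL (inv_mem_iff.1 h)))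
    rw [eq_mul_inv_iff_mul_eq] at e
    have e1 : a * (n * b * n⁻¹) * (b * (n * a * n⁻¹) * j) = 1 := by
      rw [← z2, ← e, ← hn2]
      calc _ = a * ((n * b * n⁻¹) * (b * (n * a * n⁻¹))) * n ^ 2 := by group
        _ = _ := by rw [hc _ (s2 b hb) _ (mul_mem hb (s1 a ha)), pow_two]; group
    have m1 := mul_mem ha (s2 b hb)
    have e2 : Commute n (a * (n * b * n⁻¹)) ∧ Commute b (a * (n * b * n⁻¹)) ∧ a * (n * b * n⁻¹) * (a * (n * b * n⁻¹)) = 1 := by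
      rcases hz _ m1 (by
        rw [eq_inv_of_mul_eq_one_left e1]; exact inv_mem (mul_mem (mul_mem hb (s1 a ha)) jm.2)) with e | e <;> rw [e]
      · simp
      · exact ⟨mem_centralizer_singleton_iff.1 hn, cj2 b hb, j2⟩
    have e3 : b * (n * a * n⁻¹) = a * (n * b * n⁻¹) := by
      calc _ = b * (n * a * n⁻¹ * (n * (n * b * n⁻¹) * n⁻¹)) * b⁻¹ := by rw [ss b (cj2 b hb)]; group
        _ = b * (n * (a * (n * b * n⁻¹)) * n⁻¹) * b⁻¹ := by group
        _ = _ := by rw [e2.1.eq, mul_inv_cancel_right, e2.2.1.eq, mul_inv_cancel_right]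
    rw [e3, ← mul_assoc, e2.2.2, one_mul] at e1
    exact j1 e1
  have iso : IsIsolatedInvolution j := ⟨hj, fun g hg => by
    by_contra tj
    have ot : orderOf (g * j * g⁻¹) = 2 := by rw [← hj]; exact (MulAut.conj g).orderOf_eq j
    have t2 := Invol.mul_self_of ot
    have cC : Nat.card (centralizer ({g * j * g⁻¹} : Set G)) = Nat.card (centralizer ({j} : Set G)) := by
      rw [← cj_centralizer_singleton, card_cj]
    obtain ⟨x₁, h₁, x₂, h₂, e⟩ := dec _ (A _ (mem_centralizer_singleton_iff.2 hg.eq.symm) t2)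
    generalize g * j * g⁻¹ = t at *
    subst e
    have c12 : ∀ a ∈ L₁, ∀ b ∈ L₂, Commute a b := hc
    rw [(c12 _ h₁ _ h₂).symm.mul_mul_mul_comm] at t2
    obtain ⟨f₁, f₂⟩ : x₁ * x₁ = j ∧ x₂ * x₂ = j := by
      rcases hz _ (mul_mem h₁ h₁) (by rw [eq_inv_of_mul_eq_one_left t2]; exact inv_mem (mul_mem h₂ h₂)) with e | e
      · rw [e, one_mul] at t2
        rcases q₁.u _ h₁ e with rfl | rfl <;> rcases q₂.u _ h₂ t2 with rfl | rfl <;> simp_all
      · rw [e] at t2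
        exact ⟨e, by rw [eq_inv_of_mul_eq_one_right t2, Invol.inv_eq_of hj]⟩
    have xi : ∀ x : G, x * x = j → x⁻¹ = x * j := fun x h => inv_eq_of_mul_eq_one_right (by rw [← mul_assoc, h, j2])
    set P : ℕ → Prop := fun m => ∀ c : G, (c ∈ L₁ ∧ Commute c x₁) ∨ (c ∈ L₂ ∧ Commute c x₂) →
      (∃ k, c ^ 2 ^ k = 1) → c ^ 2 ^ m = 1 with hP
    have hex : ∃ m, P m := ⟨(Nat.card G).factorization 2, fun c _ ⟨k, hk⟩ => by
      obtain ⟨i, -, hi⟩ := (Nat.dvd_prime_pow Nat.prime_two).1 (orderOf_dvd_of_pow_eq_one hk)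
      refine orderOf_dvd_iff_pow_eq_one.1 (hi ▸ pow_dvd_pow 2 ?_)
      exact (Nat.prime_two.pow_dvd_iff_le_factorization Nat.card_pos.ne').1 (hi ▸ orderOf_dvd_natCard c)⟩
    classical
    have x4 : x₁ ^ 2 ^ 2 = 1 := by rw [show 2 ^ 2 = 2 * 2 from rfl, pow_mul, pow_two x₁, f₁, pow_two, j2]
    obtain ⟨m, hm1, hm0⟩ : ∃ m, P (m + 2) ∧ ¬ P (m + 1) := by
      have h0 := Nat.find_spec hex
      have h1 : ¬ Nat.find hex ≤ 1 := fun h => j1 (by
        have := h0 x₁ (.inl ⟨h₁, Commute.refl _⟩) ⟨2, x4⟩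
        rw [← f₁, ← pow_two]
        exact orderOf_dvd_iff_pow_eq_one.1 ((orderOf_dvd_of_pow_eq_one this).trans (pow_dvd_pow 2 h)))
      obtain ⟨m, e⟩ : ∃ m, Nat.find hex = m + 2 := ⟨Nat.find hex - 2, by omega⟩
      exact ⟨m, e ▸ h0, Nat.find_min hex (by omega)⟩
    have pw : ∀ c : G, (c ∈ L₁ ∧ Commute c x₁) ∨ (c ∈ L₂ ∧ Commute c x₂) → (∃ k, c ^ 2 ^ k = 1) →
        c ^ 2 ^ (m + 1) = 1 ∨ c ^ 2 ^ (m + 1) = j := fun c h1 h2 => by
      have := hm1 c h1 h2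
      rw [pow_succ 2 (m + 1), pow_mul, pow_two] at this
      exact h1.elim (fun h => q₁.u _ (pow_mem h.1 _) this) fun h => q₂.u _ (pow_mem h.1 _) this
    have D : ∀ w ∈ L₁ ⊔ L₂, Commute w (x₁ * x₂) → (∃ k, w ^ 2 ^ k = 1) →
        w ^ 2 ^ (m + 1) = 1 ∨ w ^ 2 ^ (m + 1) = j := fun w hw cw ⟨k, hk⟩ => by
      obtain ⟨a, ha, b, hb, rfl⟩ := dec w hw
      have m1 : a * x₁ * a⁻¹ ∈ L₁ := mul_mem (mul_mem ha h₁) (inv_mem ha)
      have m2 : b * x₂ * b⁻¹ ∈ L₂ := mul_mem (mul_mem hb h₂) (inv_mem hb)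
      have e : x₁⁻¹ * (a * x₁ * a⁻¹) * (b * x₂ * b⁻¹ * x₂⁻¹) = 1 := by
        calc _ = x₁⁻¹ * (a * x₁ * (a⁻¹ * (b * x₂ * b⁻¹))) * x₂⁻¹ := by group
          _ = x₁⁻¹ * (a * (x₁ * b) * x₂ * (a * b)⁻¹) * x₂⁻¹ := by rw [hc _ (inv_mem ha) _ m2]; group
          _ = x₁⁻¹ * (a * b * (x₁ * x₂) * (a * b)⁻¹) * x₂⁻¹ := by rw [hc _ h₁ _ hb]; group
          _ = 1 := by rw [cw.eq]; group
      have cab := c12 a ha b hb
      rcases hz _ (mul_mem (inv_mem h₁) m1) (by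
        rw [eq_inv_of_mul_eq_one_left e]; exact inv_mem (mul_mem m2 (inv_mem h₂))) with e1 | e1
      · rw [e1, one_mul, mul_inv_eq_one, mul_inv_eq_iff_eq_mul] at e
        rw [inv_mul_eq_one, eq_mul_inv_iff_mul_eq] at e1
        rw [cab.mul_pow] at hk ⊢
        have hk' : ∀ c : G, c ^ 2 ^ k ∈ L₁ → c ^ 2 ^ k ∈ L₂ → ∃ k, c ^ 2 ^ k = 1 := fun c m1 m2 => ⟨k + 1, by
          rw [pow_succ, pow_mul, pow_two]
          rcases hz _ m1 m2 with e | e <;> simp [e, j2]⟩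
        rcases pw a (.inl ⟨ha, e1.symm⟩) (hk' a (pow_mem ha _) (by
          rw [eq_inv_of_mul_eq_one_left hk]; exact inv_mem (pow_mem hb _))) with e2 | e2 <;>
        rcases pw b (.inr ⟨hb, e⟩) (hk' b (by
          rw [eq_inv_of_mul_eq_one_right hk]; exact inv_mem (pow_mem ha _)) (pow_mem hb _)) with e3 | e3 <;>
        simp [e2, e3, j2]
      · rw [e1, mul_eq_one_iff_inv_eq, eq_comm, Invol.inv_eq_of hj, mul_inv_eq_iff_eq_mul, ← (cj2 _ h₂).eq, ← xi _ f₂] at e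
        rw [inv_mul_eq_iff_eq_mul, ← xi _ f₁] at e1
        left
        rw [pow_succ', pow_mul, pow_two, cab.symm.mul_mul_mul_comm, q₁.sq _ h₁ f₁ a ha e1, q₂.sq _ h₂ f₂ b hb e, j2,
          one_pow]
    obtain ⟨y₁, k₁, i₁⟩ := q₁.inv _ h₁ f₁
    obtain ⟨y₂, k₂, i₂⟩ := q₂.inv _ h₂ f₂
    have inv2 : ∀ a ∈ L₁, ∀ b ∈ L₂, a * x₁ * a⁻¹ = x₁⁻¹ → b * x₂ * b⁻¹ = x₂⁻¹ → a * b * (a * b) = 1 ∧
        a * b ∈ centralizer ({j} : Set G) ⊓ centralizer {x₁ * x₂} := fun a ha b hb i₁ i₂ => ⟨by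
      rw [(c12 a ha b hb).symm.mul_mul_mul_comm, q₁.sq _ h₁ f₁ a ha i₁, q₂.sq _ h₂ f₂ b hb i₂, j2],
      hle (mul_mem_sup ha hb), mem_centralizer_singleton_iff.2 (by
        rw [mul_inv_eq_iff_eq_mul] at i₁ i₂
        rw [(c12 _ h₁ b hb).symm.mul_mul_mul_comm, i₁, i₂, xi _ f₁, xi _ f₂, (c12 a ha _ h₂).symm.mul_mul_mul_comm]
        calc x₁ * j * a * (x₂ * j * b) = x₁ * (j * a) * (x₂ * j) * b := by group
          _ = x₁ * a * (j * j) * (x₂ * b) := by rw [← (cj1 a ha).eq, (cj2 _ h₂).eq]; group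
          _ = _ := by rw [j2, mul_one])⟩
    obtain ⟨c, hc1, ⟨k, hk⟩, hc2⟩ : ∃ c : G, ((c ∈ L₁ ∧ Commute c x₁) ∨ (c ∈ L₂ ∧ Commute c x₂)) ∧
        (∃ k, c ^ 2 ^ k = 1) ∧ c ^ 2 ^ (m + 1) ≠ 1 := by
      simp only [hP] at hm0
      push Not at hm0
      exact hm0
    have hc3 := (pw c hc1 ⟨k, hk⟩).resolve_left hc2
    obtain ⟨r2, rK⟩ := inv2 y₁ k₁ y₂ k₂ i₁ i₂
    obtain ⟨r3, rK'⟩ : y₁ * y₂ * c * (y₁ * y₂ * c) = 1 ∧
        y₁ * y₂ * c ∈ centralizer ({j} : Set G) ⊓ centralizer {x₁ * x₂} := by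
      rcases hc1 with ⟨h, h'⟩ | ⟨h, h'⟩
      · rw [mul_assoc y₁, ← hc c h y₂ k₂, ← mul_assoc y₁]
        exact inv2 _ (mul_mem k₁ h) _ k₂ (by rw [mul_assoc y₁, h'.eq, ← i₁]; group) i₂
      · rw [mul_assoc y₁]
        exact inv2 _ k₁ _ (mul_mem k₂ h) i₁ (by rw [mul_assoc y₂, h'.eq, ← i₂]; group)
    set s := y₁ * y₂ with hs
    set K := centralizer ({j} : Set G) ⊓ centralizer {x₁ * x₂} with hK
    have cK : c ∈ K := by simpa using mul_mem (inv_mem rK) rK'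
    have p2 : IsPGroup 2 (zpowers s ⊔ zpowers c : Subgroup G) := IsPGroup.to_sup_of_normal_right'
      (isPGroup_zpowers_of_pow (k := 1) (by rw [pow_one, pow_two, r2])) (isPGroup_zpowers_of_pow hk)
      (zpowers_le.2 (mem_normalizer_of_cj_le (by
        rw [cj_zpowers, zpowers_le, Invol.inv_eq_of_mul_self r2, eq_inv_of_mul_eq_one_left (show s * c * s * c = 1 by
          rw [← r3]; group)]
        exact inv_mem (mem_zpowers c))))
    obtain ⟨T, hT, hle'⟩ := exists_sylIn_ge (sup_le (zpowers_le.2 rK) (zpowers_le.2 cK)) p2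
    have sT : s ∈ T := hle' (mem_sup_left (mem_zpowers s))
    have cT : c ∈ T := hle' (mem_sup_right (mem_zpowers c))
    have nT : centralizer {x₁ * x₂} ⊓ normalizer (T : Set G) ≤ K := fun h hh => ⟨by
      have mT : ∀ u ∈ T, u * u = 1 → h * u * h⁻¹ ∈ L₁ ⊔ L₂ := fun u hu u2 =>
        A _ (hT.le (conj_mem_of_mem_normalizer hh.2 hu)).1 (by
          calc _ = h * (u * u) * h⁻¹ := by group
            _ = 1 := by rw [u2]; group)
      have m1 : h * c * h⁻¹ ∈ L₁ ⊔ L₂ := by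
        have := mul_mem (inv_mem (mT s sT r2)) (mT _ (mul_mem sT cT) r3)
        convert this using 1; group
      have := D _ m1 (mem_centralizer_singleton_iff.1 (hT.le (conj_mem_of_mem_normalizer hh.2 cT)).2)
        ⟨k, by rw [conj_pow, hk]; group⟩
      rw [conj_pow, hc3, mul_inv_eq_one, mul_eq_left, mul_inv_eq_iff_eq_mul] at this
      exact mem_centralizer_singleton_iff.2 (this.resolve_left j1), hh.1⟩
    have hT1 : SylIn 2 T (centralizer {x₁ * x₂}) := sylIn_of_sylIn_normalizer (hT.mono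
      (le_inf (hT.le.trans inf_le_right) le_normalizer) nT)
    have hT2 : SylIn 2 T (centralizer {j}) := sylIn_of_card (hT.le.trans inf_le_left) (by rw [hT1.card_eq_pow, cC])
    have yt : y₁ * (x₁ * x₂) * y₁⁻¹ = x₁ * x₂ * j := by
      rw [mul_assoc y₁, mul_assoc x₁, ← hc _ (inv_mem k₁) _ h₂, ← mul_assoc, ← mul_assoc, i₁, xi _ f₁, mul_assoc,
        ← (cj2 _ h₂).eq, mul_assoc]
    have yj : y₁ ∈ centralizer ({j} : Set G) := hle (mem_sup_left k₁)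
    have yK : zpowers y₁ ≤ normalizer (K : Set G) := zpowers_le.2 (mem_normalizer_of_cj_le (by
      rw [hK, cj_inf, cj_eq_of_mem yj, cj_centralizer_singleton, yt]
      refine fun u hu => ⟨hu.1, mem_centralizer_singleton_iff.2 ?_⟩
      have := (show Commute u _ from mem_centralizer_singleton_iff.1 hu.2).mul_right
        (show Commute u j from mem_centralizer_singleton_iff.1 hu.1)
      rwa [mul_assoc, j2, mul_one] at this))
    obtain ⟨u, hu, h⟩ := (hT2.mono (K := K ⊔ zpowers y₁) (hT.le.trans le_sup_left)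
      (sup_le inf_le_left (zpowers_le.2 yj))).exists_le_conj le_sup_right (isPGroup_zpowers_of_pow (k := 2) (by
        rw [show 2 ^ 2 = 2 * 2 from rfl, pow_mul, pow_two y₁, q₁.sq _ h₁ f₁ _ k₁ i₁, pow_two, j2]))
    have := mem_centralizer_singleton_iff.1 (cj_le_of_mem_normalizer (sup_le le_normalizer yK hu) hT.le
      (h (mem_zpowers y₁))).2
    rw [this, mul_inv_cancel_right, left_eq_mul] at yt
    exact j1 yt⟩
  refine eq_top_iff.2 fun g _ => ?_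
  obtain ⟨o, ho, c, hc, rfl⟩ := Invol.Isolated.factor iso g
  exact mul_mem (mem_sup_right ho) (mem_sup_left (mem_centralizer_singleton_iff.2 hc))

end Cfsg.Agent.S3211
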