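import Cfsg.Statements.S3213
import Mathlib

set_option autoImplicit false
open Cfsg

namespace Cfsg.Agent.S3213

open Matrix

section Lin
variable {F V : Type*} [Field F] [AddCommGroup V] [Module F V] [FiniteDimensional F V]

theorem sq_zero (h3 : (3 : F) = 0) (hd : Module.finrank F V = 4) (B : V →ₗ[F] V →ₗ[F] F)
    (halt : ∀ v, B v v = 0) (hnd : ∀ v, (∀ w, B v w = 0) → v = 0)
    (g : Module.End F V) (hg : g ^ 3 = 1) (hinv : ∀ v w, B (g v) (g w) = B v w) :
    (g - 1) * (g - 1) = 0 := by
  set n : Module.End F V := g - 1 with hn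
  have hgn : g = n + 1 := by simp [hn]
  have h3' : (3 : Module.End F V) = 0 := by
    have : (3 : Module.End F V) = (3 : F) • (1 : Module.End F V) := by
      ext v
      have e : (3 : F) = 1 + 1 + 1 := by norm_num
      have e' : (3 : Module.End F V) = 1 + 1 + 1 := by norm_num
      rw [e, e']; simp [add_smul]
    rw [this, h3, zero_smul]
  have hn3 : n * n * n = 0 := by
    have e : g ^ 3 = n * n * n + 3 * (n * n) + 3 * n + 1 := by
      rw [hgn]; noncomm_ring
    rw [hg, h3'] at e
    simpa using e.symm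
  have h2 : (2 : F) ≠ 0 := by
    intro h2
    have : (1 : F) = 0 := by linear_combination h3 - h2
    exact one_ne_zero this
  have hskew : ∀ v w, B v w = - B w v := by
    intro v w
    have := halt (v + w)
    simp only [map_add, LinearMap.add_apply, halt] at this
    linear_combination this
  have hn3v : ∀ v, n (n (n v)) = 0 := fun v => by
    have := LinearMap.congr_fun hn3 v
    simpa using this
  have hgv : ∀ v, g v = n v + v := fun v => by rw [hgn]; simp
  -- B (n u) w + B u (n w) + B (n u) (n w) = 0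
  have key : ∀ u w, B (n u) w + B u (n w) + B (n u) (n w) = 0 := by
    intro u w
    have := hinv u w
    rw [hgv, hgv] at this
    simp only [map_add, LinearMap.add_apply] at this
    linear_combination this
  have hsym : ∀ u w, B (n (n u)) w = B u (n (n w)) := by
    intro u w
    have k1 := key (n u) w
    have k2 := key u (n w)
    have k3 := key (n (n u)) w
    have k4 := key u (n (n w))
    have k5 := key (n u) (n w)
    have k6 := key (n (n u)) (n w)
    simp only [hn3v, map_zero, LinearMap.zero_apply] at k3 k4 k6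
    linear_combination k1 - k2 - k3 + k4
  have hzero : ∀ u, B (n (n u)) u = 0 := by
    intro u
    have := hsym u u
    rw [hskew u] at this
    have h : 2 * B (n (n u)) u = 0 := by linear_combination this
    exact (mul_eq_zero.1 h).resolve_left h2
  by_contra hne
  obtain ⟨u, hu⟩ : ∃ u, n (n u) ≠ 0 := by
    by_contra hc
    push Not at hc
    exact hne (LinearMap.ext fun v => by simpa using hc v)
  obtain ⟨w, hw⟩ : ∃ w, B (n (n u)) w ≠ 0 := by
    by_contra hc
    push Not at hc
    exact hu (hnd _ hc)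
  have hw' : B (n (n w)) u ≠ 0 := by
    rw [hskew, ← hsym]; simpa using hw
  have hli : LinearIndependent F ![n (n u), n (n w)] := by
    rw [LinearIndependent.pair_iff]
    intro s t hst
    have e1 := congrArg (fun z => B z u) hst
    have e2 := congrArg (fun z => B z w) hst
    simp only [map_add, map_smul, LinearMap.add_apply, LinearMap.smul_apply, smul_eq_mul, hzero,
      map_zero, LinearMap.zero_apply, mul_zero, zero_add, add_zero] at e1 e2
    exact ⟨(mul_eq_zero.1 e2).resolve_right hw, (mul_eq_zero.1 e1).resolve_right hw'⟩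
  have hr2 : 2 ≤ Module.finrank F (LinearMap.range (n * n)) := by
    have hsp : Submodule.span F (Set.range ![n (n u), n (n w)]) ≤ LinearMap.range (n * n) := by
      rw [Submodule.span_le]
      rintro _ ⟨i, rfl⟩
      fin_cases i
      · exact ⟨u, rfl⟩
      · exact ⟨w, rfl⟩
    have := Submodule.finrank_mono hsp
    rwa [finrank_span_eq_card hli, Fintype.card_fin] at this
  have hk : LinearMap.range (n * n) ≤ LinearMap.ker n := by
    rintro _ ⟨v, rfl⟩
    exact hn3v v
  have hk2 := Submodule.finrank_mono hk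
  have hrn := LinearMap.finrank_range_add_finrank_ker n
  have hle : LinearMap.range (n * n) ≤ LinearMap.range n := by
    rintro _ ⟨v, rfl⟩
    exact ⟨n v, rfl⟩
  have heq : LinearMap.range (n * n) = LinearMap.range n :=
    Submodule.eq_of_le_of_finrank_le hle (by omega)
  have : n u ∈ LinearMap.range (n * n) := heq ▸ ⟨u, rfl⟩
  obtain ⟨v, hv⟩ := this
  apply hu
  rw [← hv]
  exact hn3v v

end Lin

theorem brute : ∀ a b c d : ZMod 5, a * d - b * c = 1 → (!![a, b; c, d] : Matrix (Fin 2) (Fin 2) (ZMod 5)) ^ 3 = 1 →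
    (!![a, b; c, d] : Matrix (Fin 2) (Fin 2) (ZMod 5)) ≠ 1 → ∃ t : ZMod 5,
      ((!![a, b; c, d] * (!![1, t; 0, 1] * !![a, b; c, d] * !![1, -t; 0, 1])) ^ 2) ^ 5 = (1 : Matrix (Fin 2) (Fin 2) (ZMod 5)) ∧
      (!![a, b; c, d] * (!![1, t; 0, 1] * !![a, b; c, d] * !![1, -t; 0, 1])) ^ 2 ≠ (1 : Matrix (Fin 2) (Fin 2) (ZMod 5)) := by
  decide +kernel

theorem ex_conj (x : Matrix.SpecialLinearGroup (Fin 2) (ZMod 5)) (h3 : x ^ 3 = 1) (h1 : x ≠ 1) :
    ∃ g : Matrix.SpecialLinearGroup (Fin 2) (ZMod 5), ((x * (g * x * g⁻¹)) ^ 2) ^ 5 = 1 ∧ (x * (g * x * g⁻¹)) ^ 2 ≠ 1 := by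
  have hx : (x : Matrix (Fin 2) (Fin 2) (ZMod 5)) = !![x 0 0, x 0 1; x 1 0, x 1 1] := by
    ext i j; fin_cases i <;> fin_cases j <;> rfl
  have hdet : x 0 0 * x 1 1 - x 0 1 * x 1 0 = 1 := by
    have := x.det_coe
    rwa [Matrix.det_fin_two] at this
  obtain ⟨t, ht1, ht2⟩ := brute _ _ _ _ hdet (by rw [← hx, ← Matrix.SpecialLinearGroup.coe_pow, h3]; rfl)
    (by rw [← hx]; intro h; exact h1 (Subtype.ext h))
  let g : Matrix.SpecialLinearGroup (Fin 2) (ZMod 5) := ⟨!![1, t; 0, 1], by simp [Matrix.det_fin_two]⟩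
  have hg : ((g⁻¹ : Matrix.SpecialLinearGroup (Fin 2) (ZMod 5)) : Matrix (Fin 2) (Fin 2) (ZMod 5)) = !![1, -t; 0, 1] := by
    rw [Matrix.SpecialLinearGroup.coe_inv]; simp [g, Matrix.adjugate_fin_two]
  rw [← hx] at ht1 ht2
  refine ⟨g, Subtype.ext ?_, fun h => ht2 ?_⟩
  · simp only [Matrix.SpecialLinearGroup.coe_pow, Matrix.SpecialLinearGroup.coe_mul, hg]
    exact ht1
  · have := congrArg Subtype.val h
    simp only [Matrix.SpecialLinearGroup.coe_pow, Matrix.SpecialLinearGroup.coe_mul, hg] at this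
    exact this


abbrev VV (F : Type*) := Fin 2 ⊕ Fin 2 → F

theorem main {F : Type*} [Field F] [Fintype F] (hF : Fintype.card F = 3)
    (φ : Matrix.SpecialLinearGroup (Fin 2) (ZMod 5) →* ↥(Matrix.symplecticGroup (Fin 2) F)) (hφ : Function.Injective φ)
    (x : Matrix.SpecialLinearGroup (Fin 2) (ZMod 5)) (hx3 : x ^ 3 = 1) (hx1 : x ≠ 1) :
    Module.finrank F ↥(LinearMap.ker (Matrix.toLin' ((φ x : Matrix (Fin 2 ⊕ Fin 2) (Fin 2 ⊕ Fin 2) F)) - LinearMap.id)) = 2 ∧
      ∀ v w : Fin 2 ⊕ Fin 2 → F, (φ x : Matrix (Fin 2 ⊕ Fin 2) (Fin 2 ⊕ Fin 2) F).mulVec v = v →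
        (φ x : Matrix (Fin 2 ⊕ Fin 2) (Fin 2 ⊕ Fin 2) F).mulVec w = w →
          dotProduct v ((Matrix.J (Fin 2) F).mulVec w) = 0 := by
  classical
  have h3 : (3 : F) = 0 := by
    have := FiniteField.cast_card_eq_zero F
    rw [hF] at this; exact_mod_cast this
  have hd : Module.finrank F (VV F) = 4 := by simp
  let B : VV F →ₗ[F] VV F →ₗ[F] F := Matrix.toLinearMap₂' F (Matrix.J (Fin 2) F)
  have hB : ∀ v w, B v w = v ⬝ᵥ (Matrix.J (Fin 2) F *ᵥ w) := fun v w =>
    Matrix.toLinearMap₂'_apply' _ v w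
  have halt : ∀ v, B v v = 0 := by
    intro v
    rw [hB]
    simp [Matrix.J, dotProduct, Matrix.mulVec, Fintype.sum_sum_type, Fin.sum_univ_two, Matrix.one_apply]
    ring
  have hnd : ∀ v, (∀ w, B v w = 0) → v = 0 := by
    intro v hv
    funext i
    rcases i with i | i
    · have := hv (Pi.single (Sum.inr i) 1)
      rw [hB] at this
      fin_cases i <;>
      simpa [Matrix.J, dotProduct, Matrix.mulVec, Fintype.sum_sum_type, Fin.sum_univ_two, Matrix.one_apply,
        Pi.single_apply] using this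
    · have := hv (Pi.single (Sum.inl i) 1)
      rw [hB] at this
      fin_cases i <;>
      simpa [Matrix.J, dotProduct, Matrix.mulVec, Fintype.sum_sum_type, Fin.sum_univ_two, Matrix.one_apply,
        Pi.single_apply] using this
  let ρ : Matrix.SpecialLinearGroup (Fin 2) (ZMod 5) →* Module.End F (VV F) :=
    (Matrix.toLinAlgEquiv' (R := F) (n := Fin 2 ⊕ Fin 2)).toMonoidHom.comp
      ((Matrix.symplecticGroup (Fin 2) F).subtype.comp φ)
  have hρ : ∀ y v, ρ y v = (φ y : Matrix (Fin 2 ⊕ Fin 2) (Fin 2 ⊕ Fin 2) F) *ᵥ v := fun y v => rfl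
  have hinv : ∀ y v w, B (ρ y v) (ρ y w) = B v w := by
    intro y v w
    have h := (SymplecticGroup.mem_iff'.1 (φ y).2)
    rw [hB, hB, hρ, hρ, Matrix.mulVec_mulVec]
    conv_rhs => rw [← h]
    rw [Matrix.mul_assoc, ← Matrix.mulVec_mulVec _ (φ y : Matrix (Fin 2 ⊕ Fin 2) (Fin 2 ⊕ Fin 2) F)ᵀ,
      Matrix.dotProduct_mulVec v, Matrix.vecMul_transpose]
  have hρx : Matrix.toLin' ((φ x : Matrix (Fin 2 ⊕ Fin 2) (Fin 2 ⊕ Fin 2) F)) - LinearMap.id = ρ x - 1 := rfl
  have hsq := sq_zero h3 hd B halt hnd (ρ x) (by rw [← map_pow, hx3, map_one]) (hinv x)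
  have hle : LinearMap.range (ρ x - 1) ≤ LinearMap.ker (ρ x - 1) := by
    rintro _ ⟨v, rfl⟩
    exact LinearMap.congr_fun hsq v
  have hrn := LinearMap.finrank_range_add_finrank_ker (ρ x - 1)
  have hm := Submodule.finrank_mono hle
  have hk : Module.finrank F (LinearMap.ker (ρ x - 1)) ≤ 2 := by
    by_contra hc
    push Not at hc
    obtain ⟨g, hg5, hg1⟩ := ex_conj x hx3 hx1
    set u := (x * (g * x * g⁻¹)) ^ 2 with hu
    let W := LinearMap.ker (ρ x - 1)
    let W' : Submodule F (VV F) := W.map (ρ g)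
    have hinj : Function.Injective (ρ g) := by
      intro a b hab
      have := congrArg (ρ g⁻¹) hab
      simpa [← Module.End.mul_apply, ← map_mul] using this
    have hW' : Module.finrank F W' = Module.finrank F W :=
      (Submodule.equivMapOfInjective _ hinj W).finrank_eq.symm
    have hs := Submodule.finrank_sup_add_finrank_inf_eq W W'
    have hs4 : Module.finrank F ↥(W ⊔ W') ≤ 4 := hd ▸ Submodule.finrank_le _
    let U := LinearMap.ker (ρ u - 1)
    have hU : W ⊓ W' ≤ U := by
      rintro v ⟨hv, ⟨w, hw, rfl⟩⟩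
      have hv' : ρ x (ρ g w) = ρ g w := by simpa [W, sub_eq_zero] using hv
      have hw' : ρ x w = w := by simpa [W, sub_eq_zero] using hw
      have e : ρ (g * x * g⁻¹) (ρ g w) = ρ g w := by
        rw [← Module.End.mul_apply, ← map_mul, inv_mul_cancel_right, map_mul, Module.End.mul_apply, hw']
      simp only [U, LinearMap.mem_ker, LinearMap.sub_apply, Module.End.one_apply, sub_eq_zero]
      rw [hu, sq, map_mul, map_mul ρ x, Module.End.mul_apply, Module.End.mul_apply, Module.End.mul_apply,
        e, hv', e, hv']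
    have hU2 := Submodule.finrank_mono hU
    have hUlt : Module.finrank F U < 4 := by
      rw [← hd]
      apply Submodule.finrank_lt
      intro hT
      apply hg1
      apply hφ
      rw [map_one]
      apply Subtype.ext
      have : ρ u = 1 := by
        have := LinearMap.ker_eq_top.1 hT
        exact sub_eq_zero.1 this
      exact (Matrix.toLinAlgEquiv' (R := F) (n := Fin 2 ⊕ Fin 2)).injective (this.trans (map_one _).symm)
    haveI : Fact (Nat.Prime 5) := ⟨by norm_num⟩
    have hP : IsPGroup 5 (Subgroup.zpowers u) := by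
      apply IsPGroup.of_card (n := 1)
      rw [Nat.card_zpowers, orderOf_eq_prime hg5 hg1]; rfl
    letI : MulAction (Subgroup.zpowers u) (VV F) :=
      MulAction.compHom _ (ρ.comp (Subgroup.zpowers u).subtype)
    have hmod := hP.card_modEq_card_fixedPoints (VV F)
    have hfix : MulAction.fixedPoints (Subgroup.zpowers u) (VV F) = (U : Set (VV F)) := by
      ext v
      simp only [MulAction.mem_fixedPoints, U, SetLike.mem_coe, LinearMap.mem_ker, LinearMap.sub_apply,
        Module.End.one_apply, sub_eq_zero]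
      constructor
      · intro h; exact h ⟨u, Subgroup.mem_zpowers u⟩
      · rintro h ⟨y, hy⟩
        change ρ y v = v
        obtain ⟨k, rfl⟩ := (mem_zpowers_iff_mem_range_orderOf.1 hy) |> Finset.mem_image.1
          |>.imp fun _ h => h.2
        induction k with
        | zero => simp
        | succ k ih =>
          rw [pow_succ, map_mul, Module.End.mul_apply, h]
          exact ih (Subgroup.pow_mem _ (Subgroup.mem_zpowers u) _)
    rw [hfix] at hmod
    have c1 : Nat.card (VV F) = 3 ^ 4 := by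
      rw [Module.natCard_eq_pow_finrank (K := F), hd, Nat.card_eq_fintype_card, hF]
    have c2 : Nat.card (U : Set (VV F)) = 3 ^ Module.finrank F U := by
      rw [← hF, ← Nat.card_eq_fintype_card, ← Module.natCard_eq_pow_finrank (K := F)]; rfl
    rw [c1, c2] at hmod
    have : 2 ≤ Module.finrank F U := by
      change 2 < Module.finrank F W at hc
      omega
    interval_cases (Module.finrank F U) <;> simp [Nat.ModEq] at hmod
  rw [hd] at hrn
  have hk2 : Module.finrank F (LinearMap.ker (ρ x - 1)) = 2 := by omega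
  refine ⟨hk2, fun v w hv hw => ?_⟩
  have heq : LinearMap.range (ρ x - 1) = LinearMap.ker (ρ x - 1) :=
    Submodule.eq_of_le_of_finrank_le hle (by omega)
  have hv' : v ∈ LinearMap.range (ρ x - 1) := by
    rw [heq]; simp only [LinearMap.mem_ker, LinearMap.sub_apply, Module.End.one_apply, sub_eq_zero]; exact hv
  obtain ⟨z, rfl⟩ := hv'
  rw [← hB]
  have := hinv x z w
  rw [hρ x w, hw] at this
  simp only [LinearMap.sub_apply, Module.End.one_apply, map_sub, this, sub_self]

/-- Let F be the field with 3 elements and K the field with 5 elements. For every injective homomorphism φ from SL₂(K) into the symplectic group Sp₄(F) (4 × 4 matrices g with g J gᵀ = J for the standard alternating matrix J) and every element x of order 3 of SL₂(K), the vectors of F⁴ fixed by φ(x) form a 2-dimensional subspace that is totally isotropic for the alternating form defined by J. -/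
theorem result {F : Type*} [Field F] [Fintype F] (hF : Fintype.card F = 3)
    {K : Type*} [Field K] [Fintype K] (hK : Fintype.card K = 5)
    (φ : Matrix.SpecialLinearGroup (Fin 2) K →* ↥(Matrix.symplecticGroup (Fin 2) F)) (hφ : Function.Injective φ)
    (x : Matrix.SpecialLinearGroup (Fin 2) K) (hx : orderOf x = 3) :
    Module.finrank F ↥(LinearMap.ker (Matrix.toLin' ((φ x : Matrix (Fin 2 ⊕ Fin 2) (Fin 2 ⊕ Fin 2) F)) - LinearMap.id)) = 2 ∧
      ∀ v w : Fin 2 ⊕ Fin 2 → F, (φ x : Matrix (Fin 2 ⊕ Fin 2) (Fin 2 ⊕ Fin 2) F).mulVec v = v →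
        (φ x : Matrix (Fin 2 ⊕ Fin 2) (Fin 2 ⊕ Fin 2) F).mulVec w = w →
          dotProduct v ((Matrix.J (Fin 2) F).mulVec w) = 0 := by
  haveI : Fact (Nat.Prime 5) := ⟨by norm_num⟩
  let e : ZMod 5 ≃+* K := FiniteField.ringEquivOfCardEq (by rw [hK, ZMod.card])
  let f := Matrix.SpecialLinearGroup.map (n := Fin 2) e.toRingHom
  let f' := Matrix.SpecialLinearGroup.map (n := Fin 2) e.symm.toRingHom
  have h1 : ∀ y, f (f' y) = y := fun y => by ext i j; simp [f, f']
  have h2 : ∀ y, f' (f y) = y := fun y => by ext i j; simp [f, f']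
  have := main hF (φ.comp f) (hφ.comp (Function.LeftInverse.injective h2)) (f' x)
    (by rw [← map_pow, ← hx, pow_orderOf_eq_one, map_one])
    (fun h => by
      have : x = 1 := by rw [← h1 x, h, map_one]
      rw [this, orderOf_one] at hx; omega)
  rw [MonoidHom.comp_apply, h1] at this
  exact this

end Cfsg.Agent.S3213
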