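import Cfsg.Statements.S3215
import Cfsg.Agent.CIT.Base
import Cfsg.Agent.Sig.Sf5
import Cfsg.Agent.FG.Compl
import Cfsg.Agent.BG.S3Gen

set_option autoImplicit false
open Cfsg

namespace Cfsg.Agent.S3215

open Subgroup Cfsg.Agent.BG Cfsg.Agent.CIT

theorem one {G : Type*} [Group G] [Finite G] {X : Subgroup G} (h : PiGrp {2}ᶜ X) {x : G} (hx : x ∈ X)
    (h2 : Two x) : x = 1 := by
  obtain ⟨k, hk⟩ := h2
  have := (pnat_coprime (π := {2}) (m := 2) ((pnat_prime Nat.prime_two).2 rfl) h).pow_left k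
  exact orderOf_eq_one_iff.1 (Nat.eq_one_of_dvd_coprimes this (orderOf_dvd_of_pow_eq_one hk)
    (X.orderOf_dvd_natCard hx))

/-- Let H be a finite solvable group with no nontrivial normal subgroup of odd order in which the centralizer of every involution has a normal 2-complement. Let X be a Hall 2'-subgroup of H (odd order, index a power of 2) and Y = O₂(H). Then no non-identity element of X commutes with a non-identity element of Y (so for X ≠ 1 the group XY is a Frobenius group with kernel Y), every Sylow subgroup of X is cyclic, XY is normal in H, and H/XY is a cyclic 2-group. -/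
theorem result {H : Type*} [Group H] [Finite H] (hsol : Group.IsSolvable H)
    (hO : Cfsg.oddCore H = ⊥)
    (hI : ∀ t : H, orderOf t = 2 → Cfsg.HasNormalPComplement 2 ↥(Subgroup.centralizer ({t} : Set H)))
    (X : Subgroup H) (hXodd : Odd (Nat.card X)) (hXidx : ∃ k : ℕ, X.index = 2 ^ k) :
    (∀ x ∈ X, x ≠ 1 → ∀ y ∈ Cfsg.pCore 2 H, y ≠ 1 → x * y ≠ y * x) ∧
      (∀ (p : ℕ) [Fact p.Prime] (P : Sylow p ↥X), IsCyclic ↥(P : Subgroup ↥X)) ∧
      (X ⊔ Cfsg.pCore 2 H).Normal ∧
      ∀ hN : (X ⊔ Cfsg.pCore 2 H).Normal, IsCyclic (H ⧸ (X ⊔ Cfsg.pCore 2 H)) ∧ IsPGroup 2 (H ⧸ (X ⊔ Cfsg.pCore 2 H)) := by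
  have cit : IsCIT H := fun t ht => by
    have h1 := FG.hasNormalPComplement_iff.1 (hI t ht)
    have h2 : Op' 2 C1[t] = ⊥ := by
      have := Sig.Op'_cent_le (p := 2) (K := ⊤) (P := zpowers t) (Sig.pLayerIn_eq_bot_of_isSolvable inferInstance)
        (IsPGroup.of_card (n := 1) (by rw [Nat.card_zpowers, ht]; rfl)) (norm_of_normal _ _)
      rwa [top_inf_eq, C_zpowers, Op'_top, show pPrimeCore 2 H = ⊥ from hO, le_bot_iff] at this
    have h3 := h1.idx
    rw [h2, relIndex_bot_left, compl_compl] at h3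
    exact PiNat.pg h3
  have hX : IsPiHallOf {2}ᶜ X ⊤ := pHall_top.2 ((Solv.isPiHall_compl_singleton_iff Nat.prime_two).2
    ⟨Nat.coprime_two_right.2 hXodd, hXidx⟩)
  set Y := pCore 2 H with hY
  have pY : IsPGroup 2 Y := Solv.isPGroup_pCore 2 H
  have h1 : ∀ x ∈ X, x ≠ 1 → ∀ y ∈ Y, y ≠ 1 → x * y ≠ y * x := fun x hx x1 y hy y1 e => by
    exact x1 (one hX.pi hx (cit.two (two_of_mem pY hy) y1 e))
  have cyc : ∀ (p : ℕ) [Fact p.Prime] (R : Subgroup H), R ≤ X → IsPGroup p R → IsCyclic R := fun p _ R hR hp => by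
    by_cases h0 : Y = ⊥
    · have : (⊤ : Subgroup H) = ⊥ := trivg_Fitting inferInstance (by
        rw [Fitting_eq_pcore (p := 2) (by rw [Op'_top]; exact hO), Op_top]; exact h0)
      rw [le_bot_iff.1 (this ▸ le_top : R ≤ ⊥)]; infer_instance
    exact odd_regular_pgroup_cyclic hp (hXodd.of_dvd_nat (card_dvd_of_le hR)) h0 (norm_of_normal _ _)
      fun x hx x1 => eq_bot_iff.2 fun y hy => by_contra fun y1 => h1 x (hR hx) x1 y hy.1 y1 (mem_cent1.1 hy.2).symm
  have hZ : IsZGroup X := Zgroup_of_Sylow fun p hp => by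
    haveI := Fact.mk hp
    obtain ⟨P, hP⟩ := Sylow_exists p X
    exact ⟨P, hP, cyc p P hP.le hP.pg⟩
  let f := QuotientGroup.mk' Y
  have hf : Function.Surjective f := QuotientGroup.mk'_surjective Y
  have hX' := pHall_map f hX
  rw [map_top_of_surjective f hf] at hX'
  have cit' := cit.map f hf (by rw [QuotientGroup.ker_mk']; exact pY)
  set F := fittingOf (⊤ : Subgroup (H ⧸ Y)) with hF
  have hFo : PiGrp {2}ᶜ F := by
    have := (Sylow_Fitting 2 (⊤ : Subgroup (H ⧸ Y))).idx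
    rwa [Op_top, Solv.pCore_quotient_pCore, relIndex_bot_left] at this
  have hFX : F ≤ X.map f := (pcore_max (Fitting_normal _) hFo).trans (pcore_sub_Hall hX')
  have hFc : IsCyclic F := nil_Zgroup_cyclic (ZgroupS hFX (IsZGroup.of_surjective (f.subgroupMap_surjective X)))
    (Fitting_nil _)
  have hC : C[F] ≤ F := (le_inf le_top le_rfl).trans (cent_sub_Fitting inferInstance)
  have hd : ⁅(⊤ : Subgroup (H ⧸ Y)), ⊤⁆ ≤ F := (der1_cent_cyclic hFc (Fitting_normal _).2).trans hC
  have hN : (X ⊔ Y).Normal := by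
    haveI : (X.map f).Normal := Subgroup.Normal.of_commutator_le _ (hd.trans hFX)
    have := (inferInstance : ((X.map f).comap f).Normal)
    rwa [comap_map_eq, QuotientGroup.ker_mk'] at this
  refine ⟨h1, fun p _ P => ?_, hN, fun _ => ?_⟩
  · have := cyc p _ (map_subtype_le P.1) (P.isPGroup'.map _)
    exact isCyclic_of_surjective _ (P.1.equivMapOfInjective _ X.subtype_injective).symm.surjective
  obtain ⟨T, hT⟩ := Sylow_exists 2 (⊤ : Subgroup (H ⧸ Y))
  have TF : T ⊓ F = ⊥ := coprime_TI (pnat_coprime hT.pi hFo)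
  have cT : IsCyclic T := by
    by_cases h0 : F = ⊥
    · rw [le_bot_iff.1 (trivg_Fitting inferInstance h0 ▸ le_top : T ≤ ⊥)]; infer_instance
    refine abelian_regular_cyclic (der1_eq_bot.1 (le_bot_iff.1 (TF ▸ le_inf (der_sub _)
      ((commutator_mono le_top le_top).trans hd)))) h0 (le_top.trans (Fitting_normal _).2) fun x hx x1 =>
      eq_bot_iff.2 fun y hy => ?_
    exact one hFo hy.1 (cit'.two (two_of_mem hT.pg hx) x1 (mem_cent1.1 hy.2))
  let g : H ⧸ Y →* H ⧸ (X ⊔ Y) := QuotientGroup.map _ _ (.id _) le_sup_right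
  have hg : T.map g = ⊤ := by
    have h2 : T ⊔ X.map f = ⊤ := sup_eq_of_coprime_idx le_top le_top (pnat_coprime' hT.idx (by
      simpa only [compl_compl] using hX'.idx))
    have h3 : (X.map f).map g = ⊥ := eq_bot_iff.2 (by
      rintro _ ⟨_, ⟨x, hx, rfl⟩, rfl⟩
      exact (QuotientGroup.eq_one_iff x).2 (mem_sup_left hx))
    have h4 : Function.Surjective g := fun y => by
      obtain ⟨x, rfl⟩ := QuotientGroup.mk_surjective y
      exact ⟨f x, rfl⟩
    rw [← map_top_of_surjective g h4, ← h2, Subgroup.map_sup, h3, sup_bot_eq]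
  have hs : Function.Surjective (g.comp T.subtype) := fun y => by
    obtain ⟨x, hx, rfl⟩ : y ∈ T.map g := hg ▸ mem_top y
    exact ⟨⟨x, hx⟩, rfl⟩
  exact ⟨isCyclic_of_surjective _ hs, hT.pg.of_surjective _ hs⟩

end Cfsg.Agent.S3215
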