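import Cfsg.Statements.S3225
import Cfsg.Agent.Invol.Transfer
import Cfsg.Agent.Invol.More

set_option autoImplicit false
open Cfsg

namespace Cfsg.Agent.S3225

/-- Let G be a finite group of even order with no subgroup of index 2, S a Sylow 2-subgroup of G and M a subgroup of index 2 in S such that, for some n ≥ 1, every element of S outside M has order greater than 2^(n−1). Then every element of S of order 2ⁿ is conjugate in G to an element of M. -/
theorem result {G : Type*} [Group G] [Finite G] (hev : Even (Nat.card G))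
    (hG : ∀ H : Subgroup G, H.index ≠ 2) (S : Sylow 2 G) (M : Subgroup G) (hMS : M ≤ (S : Subgroup G)) (hM : M.relIndex (S : Subgroup G) = 2)
    (n : ℕ) (hn : 1 ≤ n) (hord : ∀ y ∈ (S : Subgroup G), y ∉ M → 2 ^ (n - 1) < orderOf y)
    (x : G) (hx : x ∈ (S : Subgroup G)) (hxn : orderOf x = 2 ^ n) :
    ∃ g : G, g * x * g⁻¹ ∈ M := by
  open Cfsg.Agent.Invol in
  by_contra hcon
  push Not at hcon
  have hx2 : x ^ 2 ^ n = 1 := by rw [← hxn, pow_orderOf_eq_one]
  have hn' : (M.subgroupOf S).Normal := Subgroup.normal_of_index_eq_two hM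
  refine not_mem_commutator_of_control (p := 2) (S : Subgroup G) M hn' (fun a ha b hb => ?_)
    ((Nat.Prime.coprime_iff_not_dvd Nat.prime_two).2 S.not_dvd_index) x hx (by simpa using hcon 1) hx2
    (fun m a ha => ?_) (mem_commutator_of_no_index_two hG hx2)
  · have hS := (S : Subgroup G)
    rw [mul_mem_iff_of_relIndex_two hM (Subgroup.mul_mem _ (Subgroup.mul_mem _ ha hb) (Subgroup.inv_mem _ ha))
      (Subgroup.inv_mem _ hb), mul_mem_iff_of_relIndex_two hM (Subgroup.mul_mem _ ha hb) (Subgroup.inv_mem _ ha),
      mul_mem_iff_of_relIndex_two hM ha hb, inv_mem_iff, inv_mem_iff]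
    tauto
  · have hxm : x ^ m ∈ (S : Subgroup G) := Subgroup.pow_mem _ hx m
    rw [mul_mem_iff_of_relIndex_two hM ha (Subgroup.inv_mem _ hxm), inv_mem_iff]
    rcases Nat.even_or_odd m with ⟨k, rfl⟩ | hm
    · have ho : orderOf (x ^ (k + k)) ≤ 2 ^ (n - 1) := by
        refine orderOf_le_of_pow_eq_one (by positivity) ?_
        obtain ⟨n, rfl⟩ := Nat.exists_eq_add_of_le' hn
        rw [← pow_mul, show (k + k) * 2 ^ (n + 1 - 1) = 2 ^ (n + 1) * k by simp; ring, pow_mul, hx2, one_pow]
      refine iff_of_true ?_ ?_
      · by_contra h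
        have := hord _ ha h
        rw [orderOf_conj'] at this
        omega
      · by_contra h
        have := hord _ hxm h
        omega
    · have hc : Nat.Coprime m (orderOf x) := by
        rw [hxn]; exact Nat.Coprime.pow_right _ ((Nat.coprime_two_right).2 hm)
      obtain ⟨j, hj⟩ := exists_pow_eq_self_of_coprime hc
      have key : ∀ a : G, a * x ^ m * a⁻¹ ∉ M := fun a h => by
        apply hcon a
        have := M.pow_mem h j
        rwa [conj_pow, hj] at this
      exact iff_of_false (key a) (by simpa using key 1)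

end Cfsg.Agent.S3225
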