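import Cfsg.Statements.S3230
import Cfsg.Agent.U6R.Asm
import Cfsg.Agent.U6R.Non
-- import your own Cfsg.Agent.* helpers here

set_option autoImplicit false
open Cfsg

namespace Cfsg.Agent.S3230

/-- Let G be a finite group with an involution z, H = C_G(z), such that J = O₂(H) is extraspecial of order 2⁹ with C_H(J) ≤ J and H/J ≅ PSp₄(3). Then G ≅ U₆(2) or G = H·O(G). -/
theorem result {G : Type*} [Group G] [Finite G] (z : G) (hz : orderOf z = 2)
    {F : Type*} [Field F] [Fintype F] (hF : Fintype.card F = 3) {K : Type*} [Field K] [Fintype K] (hK : Fintype.card K = 4)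
    (hJ : Cfsg.IsExtraspecial 2 ↥(Cfsg.pCore 2 ↥(Subgroup.centralizer ({z} : Set G)))) (hJc : Nat.card ↥(Cfsg.pCore 2 ↥(Subgroup.centralizer ({z} : Set G))) = 2 ^ 9)
    (hCJ : Subgroup.centralizer ((Cfsg.pCore 2 ↥(Subgroup.centralizer ({z} : Set G))) : Set ↥(Subgroup.centralizer ({z} : Set G))) ≤ Cfsg.pCore 2 ↥(Subgroup.centralizer ({z} : Set G))) [hJn : (Cfsg.pCore 2 ↥(Subgroup.centralizer ({z} : Set G))).Normal]
    (e : (↥(Subgroup.centralizer ({z} : Set G)) ⧸ Cfsg.pCore 2 ↥(Subgroup.centralizer ({z} : Set G))) ≃* Cfsg.PSp 2 F) :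
    Nonempty (G ≃* Cfsg.PSU 6 K 2) ∨ Subgroup.centralizer ({z} : Set G) ⊔ Cfsg.oddCore G = ⊤ := by
  haveI : Fact (Fintype.card K = 2 ^ 2) := ⟨hK⟩
  obtain ⟨h, hQ⟩ := U6R.le_of hz hJ hJc hCJ
  obtain ⟨f⟩ := U6R.su_psp (F := K) hF
  exact U6R.rec1 h hQ ((e.trans f).toMonoidHom.comp (QuotientGroup.mk' _))
    ((e.trans f).surjective.comp QuotientGroup.mk_surjective)
    (fun a => by simp [Subgroup.mem_map_iff_mem (Subgroup.subtype_injective _), QuotientGroup.eq_one_iff])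
    fun hc V _ _ p φ β ν E u u' hb hu => U6R.nonnat E hc hb hu

end Cfsg.Agent.S3230
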