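import Cfsg.Statements.S3247
import Cfsg.Agent.S0631
import Cfsg.Agent.Sig.Local
import Cfsg.Agent.BG.Base6

set_option autoImplicit false
open Cfsg

namespace Cfsg.Agent.S3247

open Subgroup Cfsg.Agent.BG Cfsg.Agent.Sig

theorem loc {G : Type*} [Group G] [Finite G] {p : ℕ} [Fact p.Prime] {K T : Subgroup G}
    (hK : IsPConstrained p K) (hT : IsPGroup p T) (h1 : T ≤ K) (h2 : C[T] ≤ K) : IsPConstrained p N[T] := by
  have h3 := (S0631.result hK (T.subgroupOf K) (hT.comap_subtype)).2
  have e : centralizer (T.subgroupOf K : Set K) = (C[T]).subgroupOf K := by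
    ext x
    exact ⟨fun h y hy => congrArg Subtype.val (h ⟨y, h1 hy⟩ hy), fun h y hy => Subtype.ext (h y hy)⟩
  rw [e, isPConstrained_iff_pLayer, ← pLayerIn_eq_bot_iff', pLayerIn_subgroupOf h2, subgroupOf_eq_bot] at h3
  rw [isPConstrained_iff_pLayer, ← pLayerIn_eq_bot_iff', pLayerIn_normalizer_top hT]
  exact h3.eq_bot_of_le (pLayerIn_le.trans h2)

theorem cen {G : Type*} [Group G] [Finite G] {p : ℕ} [Fact p.Prime] {T : Subgroup G}
    (h : ∀ x : G, orderOf x = p → IsPConstrained p C1[x]) (hT : IsPGroup p T) (h1 : T ≠ ⊥) :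
    IsPConstrained p N[T] := by
  haveI := (T.nontrivial_iff_ne_bot).2 h1
  haveI := hT.center_nontrivial
  obtain ⟨k, hk0, hk⟩ := (hT.to_subgroup (center T)).nontrivial_iff_card.1 inferInstance
  obtain ⟨x, hx⟩ := exists_prime_orderOf_dvd_card' (G := center T) p (hk ▸ dvd_pow_self p hk0.ne')
  refine loc (h x (by rw [orderOf_coe, orderOf_coe, hx])) hT (fun y hy => mem_cent1.2 ?_)
    (centralizer_le (Set.singleton_subset_iff.2 x.1.2))
  exact (congrArg Subtype.val (mem_center_iff.1 x.2 ⟨y, hy⟩))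

/-- Let G be a finite group and p a prime; here a p-local subgroup means the normalizer of a nontrivial p-subgroup, other than G itself. If every p-local subgroup of G that is maximal among p-local subgroups is p-constrained, or if the centralizer of every element of order p of G is p-constrained, then every p-local subgroup of G is p-constrained. -/
theorem result {G : Type*} [Group G] [Finite G] (p : ℕ) [hp : Fact p.Prime]
    (h : (∀ M : Subgroup G, (∃ T : Subgroup G, IsPGroup p ↥T ∧ T ≠ ⊥ ∧ M = Subgroup.normalizer (T : Set G)) → M ≠ ⊤ →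
        (∀ M' : Subgroup G, (∃ T' : Subgroup G, IsPGroup p ↥T' ∧ T' ≠ ⊥ ∧ M' = Subgroup.normalizer (T' : Set G)) → M' ≠ ⊤ → M ≤ M' → M = M') →
        Cfsg.IsPConstrained p ↥M) ∨
      (∀ x : G, orderOf x = p → Cfsg.IsPConstrained p ↥(Subgroup.centralizer ({x} : Set G))))
    (T : Subgroup G) (hT : IsPGroup p ↥T) (hT1 : T ≠ ⊥) (hTG : Subgroup.normalizer (T : Set G) ≠ ⊤) :
    Cfsg.IsPConstrained p ↥(Subgroup.normalizer (T : Set G)) := by
  rcases h with h | h
  · obtain ⟨M, h1, ⟨h2, h3⟩, h4⟩ := Finite.exists_le_maximal (p := fun M : Subgroup G =>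
      (∃ T : Subgroup G, IsPGroup p T ∧ T ≠ ⊥ ∧ M = N[T]) ∧ M ≠ ⊤) ⟨⟨T, hT, hT1, rfl⟩, hTG⟩
    exact loc (h M h2 h3 fun M' a b c => c.antisymm (h4 ⟨a, b⟩ c)) hT (le_normalizer.trans h1)
      ((centralizer_le_normalizer _).trans h1)
  · exact cen h hT hT1

end Cfsg.Agent.S3247
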