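import Cfsg.Statements.S3265
import Cfsg.Agent.LocFus.C

set_option autoImplicit false
open Cfsg

namespace Cfsg.Agent.S3265

/-- Let n ≥ 5 and let X be a conjugacy class of involutions of the symmetric group of degree n. The graph on X joining two distinct involutions whose product has odd order is connected and has diameter exactly 2. -/
theorem result (n : ℕ) (hn : 5 ≤ n) (t : Equiv.Perm (Fin n)) (ht : orderOf t = 2) :
    (SimpleGraph.fromRel fun x y : {x : Equiv.Perm (Fin n) // IsConj t x} =>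
        Odd (orderOf (x.1 * y.1))).Connected ∧
      (SimpleGraph.fromRel fun x y : {x : Equiv.Perm (Fin n) // IsConj t x} =>
        Odd (orderOf (x.1 * y.1))).diam = 2 := by
  set G := SimpleGraph.fromRel fun x y : {x : Equiv.Perm (Fin n) // IsConj t x} =>
        Odd (orderOf (x.1 * y.1)) with hG
  have h5 : 5 ≤ Fintype.card (Fin n) := by simpa using hn
  have t2 : t * t = 1 := by rw [← pow_two, ← ht, pow_orderOf_eq_one]
  have inv : ∀ x : Equiv.Perm (Fin n), IsConj t x → ∀ q, x (x q) = q := by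
    intro x hx q
    obtain ⟨g, rfl⟩ := isConj_iff.1 hx
    have : ∀ r, t (t r) = r := fun r => by rw [← Equiv.Perm.mul_apply, t2]; rfl
    simp [this]
  have t1 : t ≠ 1 := by intro h; rw [h] at ht; simp at ht
  have one : ∀ u v : {x : Equiv.Perm (Fin n) // IsConj t x}, Odd (orderOf (u.1 * v.1)) →
      G.edist u v ≤ 1 := by
    intro u v h
    rw [SimpleGraph.edist_le_one_iff_adj_or_eq]
    by_cases e : u = v
    · exact Or.inr e
    · exact Or.inl ((SimpleGraph.fromRel_adj _ _ _).2 ⟨e, Or.inl h⟩)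
  have le2 : G.ediam ≤ 2 := by
    apply SimpleGraph.ediam_le_of_edist_le
    intro u v
    obtain ⟨z, hz, h1, h2⟩ := LocFus.main h5 (inv _ u.2) (inv _ v.2) (u.2.symm.trans v.2)
    calc G.edist u v ≤ G.edist u ⟨z, u.2.trans hz⟩ + G.edist ⟨z, u.2.trans hz⟩ v :=
          SimpleGraph.edist_triangle
      _ ≤ 1 + 1 := add_le_add (one _ _ h1) (one _ _ h2)
      _ = 2 := rfl
  have ge2 : 2 ≤ G.ediam := by
    obtain ⟨y, hy, h1, h2⟩ := LocFus.nonadj h5 (inv t (IsConj.refl t)) t1
    refine le_trans ?_ (SimpleGraph.edist_le_ediam (u := ⟨t, IsConj.refl t⟩) (v := ⟨y, hy⟩))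
    by_contra hh
    have : G.edist ⟨t, IsConj.refl t⟩ ⟨y, hy⟩ ≤ 1 := Order.le_of_lt_succ (not_le.1 hh)
    rw [SimpleGraph.edist_le_one_iff_adj_or_eq] at this
    rcases this with h | h
    · rcases ((SimpleGraph.fromRel_adj _ _ _).1 h).2 with h | h
      · exact h2 h
      · exact h2 (LocFus.odd_of_od fun q =>
          LocFus.od_swap (inv y hy) (inv t (IsConj.refl t)) (LocFus.od_of_odd h q))
    · exact h1 (congrArg Subtype.val h).symm
  have e : G.ediam = 2 := le_antisymm le2 ge2
  haveI : Nonempty {x : Equiv.Perm (Fin n) // IsConj t x} := ⟨⟨t, IsConj.refl t⟩⟩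
  refine ⟨SimpleGraph.connected_of_ediam_ne_top (by rw [e]; decide), ?_⟩
  rw [SimpleGraph.diam, e]; rfl

end Cfsg.Agent.S3265
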