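import Cfsg.Statements.S3266
import Cfsg.Agent.Classical.SL2Prod
import Cfsg.Agent.AB.PSL2

set_option autoImplicit false
open Cfsg

namespace Cfsg.Agent.S3266

open Matrix Subgroup Cfsg.Agent.Classical
open scoped MatrixGroups

section
variable {F : Type*} [Field F]

theorem sum_quad [Fintype F] [DecidableEq F] (hF : ringChar F ≠ 2) {u : F} (hu : u ^ 2 ≠ 4) :
    ∑ e : F, quadraticChar F (e ^ 2 + u * e + 1) = -1 := by
  have h2 : (2 : F) ≠ 0 := Ring.two_ne_zero hF
  have h1 : ∀ e : F, quadraticChar F (e ^ 2 + u * e + 1) + 1 =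
      ∑ t : F, if (e + t) ^ 2 = e ^ 2 + u * e + 1 then (1 : ℤ) else 0 := by
    intro e
    rw [← quadraticChar_card_sqrts hF, Finset.sum_boole]
    congr 1
    refine Finset.card_bij (fun w _ => w - e) ?_ ?_ ?_
    · intro w hw
      simpa using hw
    · intro a _ b _ h
      simpa using h
    · intro t ht
      exact ⟨e + t, by simpa using ht, by simp⟩
  have h3 : ∀ t : F, (∑ e : F, if (e + t) ^ 2 = e ^ 2 + u * e + 1 then (1 : ℤ) else 0) =
      if t = u / 2 then 0 else 1 := by
    intro t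
    split_ifs with h
    · refine Finset.sum_eq_zero fun e _ => if_neg fun h' => hu ?_
      rw [h] at h'
      field_simp at h'
      linear_combination h'
    · have h4 : 2 * t - u ≠ 0 := fun h' => h (by field_simp; linear_combination h')
      rw [Finset.sum_eq_single ((1 - t ^ 2) / (2 * t - u))]
      · rw [if_pos]
        linear_combination div_mul_cancel₀ (1 - t ^ 2) h4
      · intro e _ he
        refine if_neg fun h' => he ?_
        rw [eq_div_iff h4]
        linear_combination h'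
      · simp
  have h5 : ∑ e : F, (quadraticChar F (e ^ 2 + u * e + 1) + 1) = Fintype.card F - 1 := by
    simp only [h1]
    rw [Finset.sum_comm]
    simp only [h3]
    have : ∀ t : F, (if t = u / 2 then (0 : ℤ) else 1) = 1 - if t = u / 2 then 1 else 0 := by
      intro t; split_ifs <;> simp
    simp only [this, Finset.sum_sub_distrib]
    simp
  rw [Finset.sum_add_distrib] at h5
  simp only [Finset.sum_const, Finset.card_univ, nsmul_eq_mul, mul_one] at h5
  linarith

theorem exists_pair [Fintype F] (hF : ringChar F ≠ 2) (hq : 4 ≤ Fintype.card F) {u : F}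
    (hu : ∀ e : F, e ^ 2 + u * e + 1 ≠ 0) : ∃ e f : F, e ≠ 0 ∧ f ≠ 0 ∧ IsSquare (e * f) ∧
      ¬ IsSquare ((e ^ 2 + u * e + 1) * (f ^ 2 + u * f + 1)) := by
  classical
  have h2 : (2 : F) ≠ 0 := Ring.two_ne_zero hF
  have hu4 : u ^ 2 ≠ 4 := fun h => hu (-u / 2) (by field_simp; linear_combination -h)
  by_contra hc
  push Not at hc
  set χ := quadraticChar F with hχ
  have key : ∀ e f : F, e ≠ 0 → f ≠ 0 → χ e = χ f →
      χ (e ^ 2 + u * e + 1) = χ (f ^ 2 + u * f + 1) := by
    intro e f he hf h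
    have h1 : IsSquare (e * f) := by
      rw [← quadraticChar_one_iff_isSquare (mul_ne_zero he hf), map_mul, ← hχ, h, ← sq]
      exact quadraticChar_sq_one hf
    have h3 := (quadraticChar_one_iff_isSquare (mul_ne_zero (hu e) (hu f))).2 (hc e f he hf h1)
    rw [map_mul, ← hχ] at h3
    rcases quadraticChar_dichotomy (hu e) with a | a <;>
      rcases quadraticChar_dichotomy (hu f) with b | b <;> rw [← hχ] at a b <;>
      simp only [a, b] at h3 ⊢ <;> omega
  obtain ⟨n, hn⟩ := quadraticChar_exists_neg_one hF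
  rw [← hχ] at hn
  have hz : χ 0 = 0 := quadraticChar_zero
  have hn0 : n ≠ 0 := by rintro rfl; rw [hz] at hn; omega
  set a := χ (1 ^ 2 + u * 1 + 1) with ha
  set b := χ (n ^ 2 + u * n + 1) with hb
  have h4 : ∀ e : F, 2 * χ (e ^ 2 + u * e + 1) =
      (a + b) + (a - b) * χ e + if e = 0 then 2 - (a + b) else 0 := by
    intro e
    split_ifs with h
    · simp [h, hz]
    · rcases quadraticChar_dichotomy h with c | c <;> rw [← hχ] at c
      · rw [key e 1 h one_ne_zero (by simp [c]), c]; ring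
      · rw [key e n h hn0 (by rw [c, hn]), c]; ring
  have h5 := sum_quad hF hu4
  rw [← hχ] at h5
  have h6 : ∑ e : F, 2 * χ (e ^ 2 + u * e + 1) = -2 := by rw [← Finset.mul_sum, h5]; ring
  have h7 : ∑ e : F, χ e = 0 := quadraticChar_sum_zero hF
  rw [Finset.sum_congr rfl fun e _ => h4 e, Finset.sum_add_distrib, Finset.sum_add_distrib,
    ← Finset.mul_sum, h7] at h6
  simp only [Finset.sum_const, Finset.card_univ, nsmul_eq_mul, mul_zero, add_zero,
    Finset.sum_ite_eq', Finset.mem_univ, if_true] at h6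
  have hq' : (4 : ℤ) ≤ Fintype.card F := by exact_mod_cast hq
  rcases quadraticChar_dichotomy (hu 1) with c | c <;>
    rcases quadraticChar_dichotomy (hu n) with d | d <;> rw [← hχ, ← ha] at c <;>
    rw [← hχ, ← hb] at d <;> rw [c, d] at h6 <;> omega

theorem exists_z {x y : SL(2, F)} (hx : x.1.trace = 0) (hy : y.1.trace = 0) {s r T : F}
    (hu : 4 - (x * y).1.trace ^ 2 ≠ 0)
    (h : 4 - s ^ 2 - r ^ 2 - (x * y).1.trace ^ 2 - s * r * (x * y).1.trace = T ^ 2) :
    ∃ z : SL(2, F), z.1.trace = 0 ∧ (x * z).1.trace = s ∧ (z * y).1.trace = r := by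
  have dx := sl_det x
  have dy := sl_det y
  rw [det_fin_two] at dx dy
  rw [trace_fin_two] at hx hy
  have hx' : x.1 1 1 = -x.1 0 0 := by linear_combination hx
  have hy' : y.1 1 1 = -y.1 0 0 := by linear_combination hy
  have e : (x * y).1.trace = 2 * x.1 0 0 * y.1 0 0 + x.1 0 1 * y.1 1 0 + x.1 1 0 * y.1 0 1 := by
    rw [sl_coe_mul]
    simp only [trace_fin_two, Matrix.mul_apply, Fin.sum_univ_two, hx', hy']; ring
  set u := (x * y).1.trace with hu'
  set α := (-2 * s - u * r) / (4 - u ^ 2) with hα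
  set β := (-2 * r - u * s) / (4 - u ^ 2) with hβ
  set γ := T / (4 - u ^ 2) with hγ
  rw [hx'] at dx
  rw [hy'] at dy
  have h1 : α ^ 2 + β ^ 2 - α * β * u + γ ^ 2 * (4 - u ^ 2) = 1 := by
    rw [hα, hβ, hγ]; field_simp
    linear_combination (-(4 - u ^ 2)) * h
  have h2 : -2 * α + β * u = s := by rw [hα, hβ]; field_simp; ring
  have h3 : α * u - 2 * β = r := by rw [hα, hβ]; field_simp; ring
  clear_value α β γ
  refine ⟨⟨α • x.1 + β • y.1 + γ • (x.1 * y.1 - y.1 * x.1), ?_⟩, ?_, ?_, ?_⟩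
  · simp only [det_fin_two, Matrix.add_apply, Matrix.smul_apply, Matrix.sub_apply,
      Matrix.mul_apply, Fin.sum_univ_two, smul_eq_mul, hx', hy']
    rw [e] at h1
    linear_combination h1 + (α ^ 2 + 4 * γ ^ 2) * dx +
      (β ^ 2 + 4 * γ ^ 2 * (x.1 0 0 * -x.1 0 0 - x.1 0 1 * x.1 1 0)) * dy
  · simp only [trace_fin_two, Matrix.add_apply, Matrix.smul_apply, Matrix.sub_apply,
      Matrix.mul_apply, Fin.sum_univ_two, smul_eq_mul, hx', hy']
    ring
  · show (x.1 * (α • x.1 + β • y.1 + γ • (x.1 * y.1 - y.1 * x.1))).trace = s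
    simp only [trace_fin_two, Matrix.add_apply, Matrix.smul_apply, Matrix.sub_apply,
      Matrix.mul_apply, Fin.sum_univ_two, smul_eq_mul, hx', hy']
    rw [e] at h2
    linear_combination h2 + (-2 * α) * dx
  · show ((α • x.1 + β • y.1 + γ • (x.1 * y.1 - y.1 * x.1)) * y.1).trace = r
    simp only [trace_fin_two, Matrix.add_apply, Matrix.smul_apply, Matrix.sub_apply,
      Matrix.mul_apply, Fin.sum_univ_two, smul_eq_mul, hx', hy']
    rw [e] at h3
    linear_combination h3 + (-2 * β) * dy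

theorem ord2 {z : SL(2, F)} (h : z.1.trace = 0) (h1 : ¬ IsScal z.1) : orderOf (pslMk F z) = 2 := by
  haveI : Fact (Nat.Prime 2) := ⟨Nat.prime_two⟩
  refine orderOf_eq_prime ?_ (mt pslMk_eq_one_iff.1 h1)
  rw [sq, ← map_mul, sl_mul_self_eq_neg_one_of_trace h, pslMk_neg, map_one]

theorem nscal (h2 : (2 : F) ≠ 0) {z : SL(2, F)} (h : z.1.trace = 0) : disc z.1 ≠ 0 := by
  rw [sl_disc, h]
  intro h4
  exact h2 (pow_eq_zero_iff (n := 2) two_ne_zero |>.1 (by linear_combination -h4))

theorem lift2 {a : PSL(2, F)} (h : orderOf a = 2) :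
    ∃ x : SL(2, F), pslMk F x = a ∧ x.1.trace = 0 ∧ ¬ IsScal x.1 := by
  have h1 : a ≠ 1 := by rintro rfl; simp at h
  obtain ⟨x, rfl, hx⟩ := exists_lift_invol (by have := pow_orderOf_eq_one a; rwa [h, sq] at this) h1
  exact ⟨x, rfl, hx, mt pslMk_eq_one_iff.2 h1⟩

variable [Finite F]

theorem odd_unip (h2 : (2 : F) ≠ 0) {g : SL(2, F)} (h : disc g.1 = 0) :
    Odd (orderOf (pslMk F g)) := by
  obtain ⟨p, hp⟩ := CharP.exists F
  haveI : Fact p.Prime := ⟨CharP.char_is_prime F p⟩
  have hp2 : Odd p := (Fact.out : p.Prime).odd_of_ne_two (by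
    rintro rfl; exact h2 (CharP.cast_eq_zero F 2))
  refine Odd.of_dvd_nat hp2 (orderOf_dvd_of_pow_eq_one ?_)
  rcases sl_pow_eq_one_cases p g with h' | h' | h' | h'
  · rw [← map_pow, h', map_one]
  · rw [← pslMk_neg, ← map_pow, h', map_one]
  · exact absurd h h'.1
  · exact absurd h h'.1.disc_ne_zero

theorem odd_split (h3 : Nat.card F % 4 = 3) {g : SL(2, F)} (h : ¬ NoEig g.1) :
    Odd (orderOf (pslMk F g)) := by
  have ho : Odd (Nat.card F) := Nat.odd_iff.2 (by omega)
  by_cases hd : disc g.1 = 0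
  · exact odd_unip (two_ne_zero_iff_odd.2 ho) hd
  have := pslMk_pow_div_eq_one (sl_pow_eq_one_split hd h) (Nat.gcd_dvd_right _ _)
  rw [gcd_two_pred_of_odd ho] at this
  exact Odd.of_dvd_nat (Nat.odd_iff.2 (by omega)) (orderOf_dvd_of_pow_eq_one this)

theorem odd_even (h2 : (2 : F) = 0) {g : SL(2, F)} (h : g.1.trace ≠ 0) :
    Odd (orderOf (pslMk F g)) := by
  have he : Even (Nat.card F) := two_eq_zero_iff_even.1 h2
  have hd : disc g.1 ≠ 0 := by
    rw [sl_disc]
    intro h4
    exact h (pow_eq_zero_iff (n := 2) two_ne_zero |>.1 (by linear_combination h4 + 2 * h2))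
  by_cases h' : NoEig g.1
  · refine Odd.of_dvd_nat he.add_one (orderOf_dvd_of_pow_eq_one ?_)
    rw [← map_pow, sl_pow_eq_one_noEig h', map_one]
  · refine Odd.of_dvd_nat (Nat.Even.sub_odd Nat.card_pos he odd_one) (orderOf_dvd_of_pow_eq_one ?_)
    rw [← map_pow, sl_pow_eq_one_split hd h', map_one]

theorem mid (hq : 4 ≤ Nat.card F) {a b : PSL(2, F)} (ha : orderOf a = 2) (hb : orderOf b = 2)
    (h : ¬ Odd (orderOf (a * b))) :
    ∃ c, orderOf c = 2 ∧ Odd (orderOf (a * c)) ∧ Odd (orderOf (c * b)) := by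
  obtain ⟨x, rfl, hx, hx'⟩ := lift2 ha
  obtain ⟨y, rfl, hy, hy'⟩ := lift2 hb
  rw [← map_mul] at h
  by_cases h2 : (2 : F) = 0
  · have ht : (x * y).1.trace = 0 := by
      by_contra h'; exact h (odd_even h2 h')
    have hc := anticomm_of_trace hx hy ht
    have hc' : y.1 * x.1 = x.1 * y.1 := by
      rw [hc]; ext i j; simp only [Matrix.neg_apply]; linear_combination ((y.1 * x.1) i j) * h2
    obtain ⟨α, β, e⟩ := (commute_iff_lin hx').1 hc'
    have hβ : β ≠ 0 := by
      rintro rfl
      exact hy' (isScal_iff.2 ⟨α, by simpa using e⟩)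
    obtain ⟨z, hz, hz1⟩ := exists_SL_trace_mul (α := 0) (β := 1) hx'
      (Or.inr ⟨by rw [hx, h2], Or.inl zero_ne_one⟩)
    refine ⟨pslMk F z, ord2 hz fun hs => ?_, ?_, ?_⟩
    · rcases sl_isScal_iff.1 hs with rfl | rfl
      · rw [one_mul, hx] at hz1; exact zero_ne_one hz1
      · rw [neg_one_mul, sl_neg_coe, trace_neg, hx, neg_zero] at hz1; exact zero_ne_one hz1
    · rw [← map_mul]
      refine odd_even h2 ?_
      rw [sl_coe_mul, trace_mul_comm, ← sl_coe_mul, hz1]; exact one_ne_zero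
    · rw [← map_mul]
      refine odd_even h2 ?_
      rw [sl_coe_mul] at hz1
      rw [sl_coe_mul, e, mul_add, mul_smul_comm, mul_smul_comm, mul_one, trace_add, trace_smul,
        trace_smul, hz, hz1]
      simpa using hβ
  have hu : 4 - (x * y).1.trace ^ 2 ≠ 0 := fun h' => h (odd_unip h2 (by
    rw [sl_disc]; linear_combination -h'))
  haveI := Fintype.ofFinite F
  by_cases h3 : Nat.card F % 4 = 3
  · have hne : NoEig (x * y).1 := by by_contra h'; exact h (odd_split h3 h')
    have hF : ringChar F ≠ 2 := fun h' => h2 (by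
      have := ringChar.Nat.cast_ringChar (R := F); rw [h'] at this; exact_mod_cast this)
    set u := (x * y).1.trace with hu'
    have hne' : ∀ e : F, e ^ 2 + u * e + 1 ≠ 0 := fun e he => hne (-e) (by
      rw [sl_det, ← hu']; linear_combination he)
    obtain ⟨e, f, he, hf, ⟨c, hc⟩, hns⟩ := exists_pair hF (by rwa [← Nat.card_eq_fintype_card]) hne'
    have hc0 : c ≠ 0 := by rintro rfl; simp [he, hf] at hc
    have hm1 : ¬ IsSquare (-1 : F) := by
      rw [FiniteField.isSquare_neg_one_iff, ← Nat.card_eq_fintype_card]; simpa using h3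
    obtain ⟨T, hT⟩ : IsSquare (-((e ^ 2 + u * e + 1) * (f ^ 2 + u * f + 1))) := by
      classical
      rw [← quadraticChar_one_iff_isSquare (neg_ne_zero.2 (mul_ne_zero (hne' e) (hne' f))),
        ← neg_one_mul, map_mul, quadraticChar_neg_one_iff_not_isSquare.2 hm1,
        quadraticChar_neg_one_iff_not_isSquare.2 hns]
      norm_num
    have hf' : f = c * c / e := by rw [← hc]; field_simp
    obtain ⟨z, hz, h4, h5⟩ := exists_z hx hy (s := c + c⁻¹) (r := e / c + c / e) (T := T / c) hu (by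
      rw [div_pow, sq T, ← hT, hf']; field_simp; ring)
    refine ⟨pslMk F z, ord2 hz (not_isScal_of_disc (nscal h2 hz)), ?_, ?_⟩
    · rw [← map_mul]
      exact odd_split h3 (not_noEig_of_roots h4 (by rw [sl_det]; field_simp))
    · rw [← map_mul]
      exact odd_split h3 (not_noEig_of_roots h5 (by rw [sl_det]; field_simp))
  · obtain ⟨i, hi⟩ : IsSquare (-1 : F) := by
      rwa [FiniteField.isSquare_neg_one_iff, ← Nat.card_eq_fintype_card]
    obtain ⟨z, hz, h4, h5⟩ := exists_z hx hy (s := 2) (r := 2) (T := i * (2 + (x * y).1.trace)) hu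
      (by linear_combination (2 + (x * y).1.trace) ^ 2 * hi)
    refine ⟨pslMk F z, ord2 hz (not_isScal_of_disc (nscal h2 hz)), ?_, ?_⟩
    · rw [← map_mul]
      exact odd_unip h2 (by rw [sl_disc, h4]; ring)
    · rw [← map_mul]
      exact odd_unip h2 (by rw [sl_disc, h5]; ring)

theorem four (hq : 4 ≤ Nat.card F) {a : PSL(2, F)} (ha : orderOf a = 2) :
    ∃ b, orderOf b = 2 ∧ orderOf (b * a) = 2 := by
  obtain ⟨x, rfl, hx, hx'⟩ := lift2 ha
  by_cases h2 : (2 : F) = 0
  · obtain ⟨β, h0, h1⟩ : ∃ β : F, β ≠ 0 ∧ β ≠ 1 := by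
      by_contra hc
      push Not at hc
      have : (Set.univ : Set F) ⊆ {0, 1} := fun b _ => by
        by_cases h : b = 0
        · simp [h]
        · simp [hc b h]
      have h3 := Set.ncard_le_ncard this
      rw [Set.ncard_univ, Set.ncard_pair zero_ne_one] at h3
      omega
    have hd : ((1 + β) • (1 : M2 F) + β • x.1).det = 1 := by
      rw [det_lin, hx, sl_det]; linear_combination (β + β ^ 2) * h2
    have hxx : x.1 * x.1 = (-1 : F) • (1 : M2 F) := by
      rw [m2_mul_self, hx, sl_det]; simp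
    obtain ⟨y, hy⟩ : ∃ y : SL(2, F), y.1 = (1 + β) • (1 : M2 F) + β • x.1 := ⟨⟨_, hd⟩, rfl⟩
    refine ⟨pslMk F y, ord2 ?_ fun hs => ?_, ?_⟩
    · rw [hy, trace_lin, hx, h2]; ring
    · obtain ⟨c, hc⟩ := isScal_iff.1 hs
      rw [hy] at hc
      exact h0 (lin_inj hx' (a := 1 + β) (c := c) (d := 0) (by simpa using hc)).2
    · have e : (y * x).1 = (-β) • (1 : M2 F) + (1 + β) • x.1 := by
        rw [sl_coe_mul, hy, add_mul, smul_mul_assoc, smul_mul_assoc, hxx, one_mul, smul_smul,
          add_comm]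
        simp
      rw [← map_mul]
      refine ord2 ?_ fun hs => ?_
      · rw [e, trace_lin, hx, h2]; ring
      · obtain ⟨c, hc⟩ := isScal_iff.1 hs
        rw [e] at hc
        have := (lin_inj hx' (a := -β) (b := 1 + β) (c := c) (d := 0) (by simpa using hc)).2
        exact h1 (by linear_combination this - h2)
  · obtain ⟨y, hy, hy1⟩ := exists_SL_trace_mul (α := 0) (β := 0) hx' (Or.inl (nscal h2 hx))
    refine ⟨pslMk F y, ord2 hy (not_isScal_of_disc (nscal h2 hy)), ?_⟩
    rw [← map_mul]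
    exact ord2 hy1 (not_isScal_of_disc (nscal h2 hy1))

end

/-- Let F be a finite field with at least 4 elements and let X be a conjugacy class of involutions of PSL(2, F). The graph on X joining two distinct involutions whose product has odd order is connected and has diameter exactly 2. -/
theorem result {F : Type*} [Field F] [Fintype F] (hF : 4 ≤ Fintype.card F)
    (t : Matrix.ProjectiveSpecialLinearGroup (Fin 2) F) (ht : orderOf t = 2) :
    (SimpleGraph.fromRel fun x y : {x : Matrix.ProjectiveSpecialLinearGroup (Fin 2) F // IsConj t x} =>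
        Odd (orderOf (x.1 * y.1))).Connected ∧
      (SimpleGraph.fromRel fun x y : {x : Matrix.ProjectiveSpecialLinearGroup (Fin 2) F // IsConj t x} =>
        Odd (orderOf (x.1 * y.1))).diam = 2 := by
  have hq : 4 ≤ Nat.card F := by rwa [Nat.card_eq_fintype_card]
  set Γ := (SimpleGraph.fromRel fun x y :
    {x : Matrix.ProjectiveSpecialLinearGroup (Fin 2) F // IsConj t x} => Odd (orderOf (x.1 * y.1)))
  have ho : ∀ x : {x : Matrix.ProjectiveSpecialLinearGroup (Fin 2) F // IsConj t x},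
      orderOf x.1 = 2 := fun x => by
    obtain ⟨c, hc⟩ := isConj_iff.1 x.2
    rw [← hc]; exact ((MulAut.conj c).orderOf_eq t).trans ht
  have hadj : ∀ x y, Γ.Adj x y ↔ x ≠ y ∧ Odd (orderOf (x.1 * y.1)) := fun x y => by
    have : orderOf (y.1 * x.1) = orderOf (x.1 * y.1) := by
      have := (MulAut.conj y.1).orderOf_eq (x.1 * y.1)
      rwa [MulAut.conj_apply, ← mul_assoc, mul_inv_cancel_right] at this
    rw [SimpleGraph.fromRel_adj, this, or_self]
  have h2 : ∀ x y, x ≠ y → ¬ Γ.Adj x y → Γ.edist x y = 2 := by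
    intro x y hxy hn
    have hn' : ¬ Odd (orderOf (x.1 * y.1)) := fun h => hn ((hadj x y).2 ⟨hxy, h⟩)
    obtain ⟨c, hc, h1, h2⟩ := mid hq (ho x) (ho y) hn'
    refine SimpleGraph.edist_eq_two_iff.2 ⟨hxy, hn, ⟨c, AB.psl_cls ht hc⟩, ?_, ?_⟩
    · refine (hadj _ _).2 ⟨?_, h1⟩
      rintro rfl; exact hn' h2
    · refine ((hadj _ _).2 ⟨?_, h2⟩).symm
      rintro rfl; exact hn' h1
  have hle : Γ.ediam ≤ 2 := by
    refine SimpleGraph.ediam_le_of_edist_le fun x y => ?_
    by_cases h : Γ.Adj x y ∨ x = y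
    · exact (SimpleGraph.edist_le_one_iff_adj_or_eq.2 h).trans one_le_two
    · push Not at h
      exact (h2 x y h.2 h.1).le
  obtain ⟨b, hb, hbt⟩ := four hq ht
  have he : Γ.ediam = 2 := by
    refine le_antisymm hle ?_
    rw [← h2 ⟨b, AB.psl_cls ht hb⟩ ⟨t, IsConj.refl t⟩ ?_ ?_]
    · exact SimpleGraph.edist_le_ediam
    · intro h
      have : b = t := congrArg Subtype.val h
      have h3 := pow_orderOf_eq_one t
      rw [ht, sq] at h3
      rw [this, h3, orderOf_one] at hbt
      exact absurd hbt (by norm_num)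
    · intro h
      have := ((hadj _ _).1 h).2
      rw [hbt] at this
      exact absurd this (by norm_num)
  haveI : Nonempty {x : Matrix.ProjectiveSpecialLinearGroup (Fin 2) F // IsConj t x} :=
    ⟨⟨t, IsConj.refl t⟩⟩
  refine ⟨SimpleGraph.connected_of_ediam_ne_top (by rw [he]; exact ENat.natCast_ne_top 2), ?_⟩
  rw [SimpleGraph.diam, he]; rfl

end Cfsg.Agent.S3266
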