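import Cfsg.Statements.S3269
import Cfsg.Agent.S0215
import Cfsg.Agent.GW.DihCent
import Cfsg.Agent.Loc.Rk1
import Cfsg.Agent.Invol.Dihedral

set_option autoImplicit false
open Cfsg

namespace Cfsg.Agent.S3269

open BG Subgroup Invol

theorem conj_two {G : Type*} [Group G] {x : G} (h : orderOf x = 2) (g : G) : orderOf (g * x * g⁻¹) = 2 :=
  (MulEquiv.orderOf_eq (MulAut.conj g) x).trans h

theorem uniq {G : Type*} [Group G] [Finite G] {X : Subgroup G} {x y : G} (h : Loc.Rk1 2 X) (hx : x ∈ X) (hy : y ∈ X)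
    (h1 : orderOf x = 2) (h2 : orderOf y = 2) : y = x :=
  (GW.eq_of_cyclic inferInstance (mem_zpowers x) h1 (h x hx y hy (by rw [pow_two, mul_self_of h1])
    (by rw [pow_two, mul_self_of h2]) (ne_one_of h1)) (mul_self_of h2)).resolve_left (ne_one_of h2)

/-- Let G be a finite group whose Sylow 2-subgroup S is an internal direct product Q × R with Q generalized quaternion (of order at least 8) and R a subgroup all of whose involutions are central in R. Then G is not simple. In particular no finite simple group has a Sylow 2-subgroup that is a direct product of one or more generalized quaternion groups. -/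
theorem result {G : Type*} [Group G] [Finite G]
    (S : Sylow 2 G) (Q R : Subgroup G) (hQR : Cfsg.IsInternalDirectProduct Q R (S : Subgroup G))
    (n : ℕ) (hn : 1 ≤ n) (eQ : ↥Q ≃* QuaternionGroup (2 ^ n))
    (hR : ∀ r ∈ R, orderOf r = 2 → ∀ s ∈ R, r * s = s * r) :
    ¬ IsSimpleGroup G := by
  intro hs
  obtain ⟨hQ, hRS, hc, hI, hS⟩ := hQR
  have hQR : Q ≤ C[R] := fun a ha => mem_cent.2 fun b hb => (hc a ha b hb).symm
  have hQ2 := IsPGroup.sub S.isPGroup' hQ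
  have h1 := (Loc.rk1_of_quaternion hQ2 eQ).2
  have inv : ∀ X ≤ (S : Subgroup G), X ≠ ⊥ → ∃ y ∈ X, orderOf y = 2 := fun X hX h0 =>
    Cauchy Nat.prime_two (pgroup_pdiv (IsPGroup.sub S.isPGroup' hX) h0)
  obtain ⟨t, r, -, h2, h3, -, h4⟩ := exists_of_equiv_quaternion eQ
  have ht : t ∈ Q := (h4 t).2 ⟨0, .inr (by simp)⟩
  have hr : r ∈ Q := (h4 r).2 ⟨1, .inl (by simp)⟩
  have h5 : t * r * t⁻¹ * r⁻¹ ≠ 1 := fun e => by
    have : orderOf r ∣ 2 := by
      rw [h2, ← mul_inv_rev, inv_eq_one] at e; exact orderOf_dvd_of_pow_eq_one (by rwa [pow_two])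
    have := Nat.le_of_dvd two_pos this
    have : 2 ^ 1 ≤ 2 ^ n := Nat.pow_le_pow_right two_pos hn
    omega
  obtain ⟨z, hz, z2⟩ := inv Q hQ fun e => h5 (by rw [e, mem_bot] at ht; simp [ht])
  have hcen : ∀ x ∈ (S : Subgroup G), x * x = 1 → x ∈ C[(S : Subgroup G)] := fun x hx e => by
    rw [← hS] at hx ⊢
    obtain ⟨q, hq, ρ, hρ, rfl⟩ := (mem_sup_normr (cents_norm hQR)).1 hx
    have e1 : q * q = (ρ * ρ)⁻¹ := by
      rw [eq_inv_iff_mul_eq_one, ← e, mul_assoc, mul_assoc, ← mul_assoc q ρ, ← mul_assoc ρ q, hc q hq ρ hρ]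
    have e2 : q * q = 1 := mem_bot.1 (hI ▸ mem_inf.2 ⟨Q.mul_mem hq hq, e1 ▸ R.inv_mem (R.mul_mem hρ hρ)⟩)
    rw [e2, eq_comm, inv_eq_one] at e1
    rw [cent_sup]
    refine mul_mem (mem_inf.2 ⟨mem_cent.2 fun a ha => ?_, hQR hq⟩) (mem_inf.2 ⟨cents_symm hQR hρ, mem_cent.2 fun a ha => ?_⟩)
    · rcases eq_or_ne q 1 with rfl | h6
      · simp
      have h7 := orderOf_two_iff.2 ⟨e2, h6⟩
      rw [← mul_inv_eq_iff_eq_mul, uniq h1 hq (mul_mem (mul_mem ha hq) (inv_mem ha)) h7 (conj_two h7 a)]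
    · rcases eq_or_ne ρ 1 with rfl | h6
      · simp
      exact (hR ρ hρ (orderOf_two_iff.2 ⟨e1, h6⟩) a ha).symm
  have hQn : (S : Subgroup G) ≤ N[Q] := hS ▸ sup_le (normG Q) (cents_norm (cents_symm hQR))
  have hRn : (S : Subgroup G) ≤ N[R] := hS ▸ sup_le (cents_norm hQR) (normG R)
  have key : ∀ g ∈ N[(S : Subgroup G)], g * z * g⁻¹ ≠ z → g * z * g⁻¹ ∈ R := fun g hg hne => by_contra fun h6 => by
    have h7 : cj g Q ≤ S := cj_le_of_norm hg hQ
    have h8 : cj g Q ⊓ R = ⊥ := by_contra fun h0 => by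
      obtain ⟨y, hy, y2⟩ := inv _ (inf_le_left.trans h7) h0
      exact h6 (uniq (h1.conj g) (conj_mem_cj g hz) hy.1 (conj_two z2 g) y2 ▸ hy.2)
    have h9 : cj g Q ⊔ R = S := eq_of_card_le (sup_le h7 hRS) (by
      rw [card_sup_TI (.inl (h7.trans hRn)) h8, card_cj, ← card_sup_TI (.inl (hQ.trans hRn)) hI, hS])
    obtain ⟨a, ha, ρ, hρ, e⟩ := (mem_sup_normr (h7.trans hRn)).1 (h9.ge (hQ ht))
    have h10 : (S : Subgroup G) ≤ N[cj g Q] := by rw [N_cj, ← cj_of_norm hg]; exact cj_mono g hQn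
    have h11 : t * r * t⁻¹ * r⁻¹ ∈ cj g Q := by
      rw [e, show a * ρ * r * (a * ρ)⁻¹ * r⁻¹ = a * (ρ * r) * ρ⁻¹ * a⁻¹ * r⁻¹ by group, ← hc r hr ρ hρ,
        show a * (r * ρ) * ρ⁻¹ * a⁻¹ * r⁻¹ = a * (r * a⁻¹ * r⁻¹) by group]
      exact mul_mem ha (conj_mem_of_norm (h10 (hQ hr)) (inv_mem ha))
    obtain ⟨y, hy, y2⟩ := inv (Q ⊓ cj g Q) (inf_le_left.trans hQ) fun e => h5 (mem_bot.1 (e ▸ mem_inf.2
      ⟨mul_mem (mul_mem (mul_mem ht hr) (inv_mem ht)) (inv_mem hr), h11⟩))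
    exact hne ((uniq (h1.conj g) hy.2 (conj_mem_cj g hz) y2 (conj_two z2 g)).trans (uniq h1 hz hy.1 z2 y2))
  classical
  have := Fintype.ofFinite G
  letI : CommGroup Z[(S : Subgroup G)] := { mul_comm := (center_abelian (S : Subgroup G)).is_comm.comm }
  let T : Finset Z[(S : Subgroup G)] := Finset.univ.filter fun x => ∃ g ∈ N[(S : Subgroup G)], g * z * g⁻¹ = x
  let z' : Z[(S : Subgroup G)] := ⟨z, hQ hz, hcen z (hQ hz) (mul_self_of z2)⟩
  have hz' : z' ∈ T := by simpa [T] using ⟨1, one_mem _, by simp [z']⟩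
  obtain ⟨w, hw⟩ : ∃ w, w = ∏ x ∈ T, x := ⟨_, rfl⟩
  have w1 : w ≠ 1 := fun e => by
    rw [hw, ← Finset.mul_prod_erase T _ hz', mul_eq_one_iff_eq_inv] at e
    have : z' ∈ R.subgroupOf _ := e ▸ inv_mem (Subgroup.prod_mem _ fun x hx => by
      obtain ⟨h6, g, hg, h7⟩ : x ≠ z' ∧ ∃ g ∈ N[(S : Subgroup G)], g * z * g⁻¹ = x := by simpa [T] using hx
      exact mem_subgroupOf.2 (h7 ▸ key g hg fun e => h6 (Subtype.ext (h7.symm.trans e))))
    exact ne_one_of z2 (mem_bot.1 (hI ▸ mem_inf.2 ⟨hz, this⟩))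
  have w2 : w * w = 1 := by
    rw [hw, ← Finset.prod_mul_distrib]
    refine Finset.prod_eq_one fun x hx => Subtype.ext ?_
    obtain ⟨g, hg, h7⟩ : ∃ g ∈ N[(S : Subgroup G)], g * z * g⁻¹ = x := by simpa [T] using hx
    change (x : G) * x = 1
    exact h7 ▸ mul_self_of (conj_two z2 g)
  have hfix : ∀ g ∈ N[(S : Subgroup G)], g * w * g⁻¹ = w := fun g hg => by
    let φ := (Z[(S : Subgroup G)]).normalizerMonoidHom ⟨g, norms_center le_rfl hg⟩
    refine congrArg Subtype.val (show φ w = w from ?_)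
    rw [hw, map_prod]
    refine Finset.prod_equiv φ.toEquiv (fun x => ?_) fun _ _ => rfl
    simp only [T, Finset.mem_filter, Finset.mem_univ, true_and]
    exact ⟨fun ⟨k, hk, e⟩ => ⟨g * k, mul_mem hg hk, by change _ = g * x * g⁻¹; rw [← e]; group⟩,
      fun ⟨k, hk, e⟩ => ⟨g⁻¹ * k, mul_mem (inv_mem hg) hk, by
        rw [show g⁻¹ * k * z * (g⁻¹ * k)⁻¹ = g⁻¹ * (k * z * k⁻¹) * g by group, e]; change g⁻¹ * (g * x * g⁻¹) * g = _; group⟩⟩
  have w3 : orderOf (w : G) = 2 := orderOf_two_iff.2 ⟨congrArg Subtype.val w2, fun e => w1 (Subtype.ext e)⟩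
  obtain ⟨N, hN, ho, h⟩ := S0215.result S w w3 w.2.1 fun g hy => by
    obtain ⟨n, h6, h7⟩ := S.conj_eq_normalizer_conj_of_mem_centralizer w g⁻¹ w.2.2
      (by rw [inv_inv]; exact hcen _ hy (mul_self_of (conj_two w3 g)))
    rw [inv_inv] at h7
    simpa [h7] using hfix n⁻¹ (inv_mem h6)
  rcases hN.eq_bot_or_eq_top with rfl | rfl
  · have : (zpowers (w : G)).Normal := ⟨fun x ⟨i, e⟩ g => ⟨i, by
      have := mem_bot.1 (h g)
      rw [← e, ← conj_zpow, show g * w * g⁻¹ = w by rw [mul_inv_eq_one, mul_inv_eq_iff_eq_mul] at this; rw [← this]; group]⟩⟩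
    rcases this.eq_bot_or_eq_top with e | e
    · exact ne_one_of w3 (zpowers_eq_bot.1 e)
    · have : t * r = r * t := IsMulCommutative.comm (abelian_zpowers (w : G)) (e ▸ mem_top t) (e ▸ mem_top r)
      exact h5 (by rw [this]; group)
  · exact (Nat.not_even_iff_odd.2 (ho.of_dvd_nat (orderOf_dvd_cardG (mem_top (w : G))))) (by rw [w3]; exact even_two)

end Cfsg.Agent.S3269
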