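import Cfsg.Statements.S3276
import Cfsg.Agent.Invol.More

set_option autoImplicit false
open Cfsg

namespace Cfsg.Agent.S3276

/-- Let x and y be commuting, non-conjugate involutions of a finite group G, and suppose that for every involution u commuting with x, each conjugate of y that commutes with u also commutes with y. Then the normal closure of y is a proper, normal, elementary abelian 2-subgroup of G; and if y is the only involution of that normal closure commuting with x, it has order at most 4. -/
theorem result {G : Type*} [Group G] [Finite G] (x y : G) (hx : orderOf x = 2) (hy : orderOf y = 2)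
    (hxy : Commute x y) (hnc : ¬ IsConj x y)
    (hstar : ∀ u : G, orderOf u = 2 → Commute u x → ∀ g : G, Commute (g * y * g⁻¹) u → Commute (g * y * g⁻¹) y) :
    Subgroup.normalClosure ({y} : Set G) ≠ ⊤ ∧ Cfsg.IsElementaryAbelian 2 (Subgroup.normalClosure ({y} : Set G)) ∧
      ((∀ u ∈ Subgroup.normalClosure ({y} : Set G), orderOf u = 2 → Commute u x → u = y) →
        Nat.card ↥(Subgroup.normalClosure ({y} : Set G)) ≤ 4) := by
  open Cfsg.Agent.Invol in
  have hx2 := mul_self_of hx
  have hy2 := mul_self_of hy
  have h1 : ∀ g : G, Commute (g * y * g⁻¹) y := by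
    intro g
    have hy' : orderOf (g * y * g⁻¹) = 2 := by rw [orderOf_conj', hy]
    obtain ⟨k, hk, hk1, hk2⟩ := exists_commute_of_not_isConj hx2 (mul_self_of hy')
      (fun h => hnc (h.trans (isConj_iff.2 ⟨g, rfl⟩ : IsConj y _).symm))
    exact hstar _ hk hk1 g hk2.symm
  have h2 : ∀ a ∈ Group.conjugatesOfSet ({y} : Set G), ∀ b ∈ Group.conjugatesOfSet ({y} : Set G), Commute a b := by
    intro a ha b hb
    obtain ⟨y1, hy1, ha'⟩ := Group.mem_conjugatesOfSet_iff.1 ha
    obtain ⟨y2, hy2, hb'⟩ := Group.mem_conjugatesOfSet_iff.1 hb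
    rw [Set.mem_singleton_iff] at hy1 hy2
    rw [hy1] at ha'
    rw [hy2] at hb'
    obtain ⟨g, rfl⟩ := isConj_iff.1 ha'
    obtain ⟨h, rfl⟩ := isConj_iff.1 hb'
    have := (h1 (h⁻¹ * g)).conj h
    simpa [mul_assoc] using this
  set N := Subgroup.normalClosure ({y} : Set G) with hN
  have hc : ∀ a ∈ N, ∀ b ∈ N, Commute a b := by
    intro a ha b hb
    induction ha, hb using Subgroup.closure_induction₂ with
    | mem a b ha hb => exact h2 a ha b hb
    | one_left => exact Commute.one_left _
    | one_right => exact Commute.one_right _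
    | mul_left _ _ _ _ _ _ h h' => exact h.mul_left h'
    | mul_right _ _ _ _ _ _ h h' => exact h.mul_right h'
    | inv_left _ _ _ _ h => exact h.inv_left
    | inv_right _ _ _ _ h => exact h.inv_right
  have hsq : ∀ a ∈ N, a * a = 1 := by
    intro a ha
    induction ha using Subgroup.closure_induction with
    | mem a ha =>
      obtain ⟨y1, hy1, ha'⟩ := Group.mem_conjugatesOfSet_iff.1 ha
      rw [Set.mem_singleton_iff] at hy1
      rw [hy1] at ha'
      exact mul_self_of ((orderOf_of_isConj ha').symm.trans hy)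
    | one => simp
    | mul a b ha hb h h' =>
      rw [mul_assoc, ← mul_assoc b, ← (hc a ha b hb).eq, mul_assoc, h', mul_one, h]
    | inv a _ h => rw [← mul_inv_rev, h, inv_one]
  refine ⟨fun htop => ?_, elemAb_two_iff.2 hsq, fun hu' => ?_⟩
  · have hcomm : ∀ a b : G, Commute a b := fun a b => hc a (htop ▸ Subgroup.mem_top a) b (htop ▸ Subgroup.mem_top b)
    have : (Subgroup.zpowers y).Normal := ⟨fun n hn g => by rw [(hcomm g n).eq]; simpa using hn⟩
    have hle : N ≤ Subgroup.zpowers y := Subgroup.normalClosure_le_normal (by simp)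
    rcases (mem_zpowers_invol hy2).1 (hle (htop ▸ Subgroup.mem_top x)) with h | h
    · exact ne_one_of hx h
    · exact hnc (h ▸ IsConj.refl _)
  · have hxN : ∀ n ∈ N, x * n * x⁻¹ ∈ N := fun n hn => Subgroup.Normal.conj_mem inferInstance n hn x
    let φ : N →* G := MonoidHom.mk' (fun n => n * (x * n * x⁻¹)) (by
      rintro ⟨a, ha⟩ ⟨b, hb⟩
      have := (hc b hb _ (hxN a ha)).eq
      simp only [Subgroup.coe_mul]
      calc a * b * (x * (a * b) * x⁻¹) = a * (b * (x * a * x⁻¹)) * (x * b * x⁻¹) := by group
        _ = _ := by rw [this]; group)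
    have hφ : ∀ n : N, φ n = n * (x * n * x⁻¹) := fun _ => rfl
    have hz : ∀ u ∈ N, Commute u x → u ∈ Subgroup.zpowers y := by
      intro u hu hux
      by_cases h : u = 1
      · rw [h]; exact Subgroup.one_mem _
      · rw [hu' u hu (orderOf_two_iff.2 ⟨hsq u hu, h⟩) hux]; exact Subgroup.mem_zpowers y
    have hr : φ.range ≤ Subgroup.zpowers y := by
      rintro _ ⟨n, rfl⟩
      refine hz _ (N.mul_mem n.2 (hxN n n.2)) ?_
      have := (hc _ n.2 _ (hxN n n.2)).eq
      show φ n * x = x * φ n
      rw [hφ]
      conv_rhs => rw [this]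
      simp only [mul_assoc, inv_eq_of hx, mul_self_cancel hx2, hx2, mul_one]
    have hk : φ.ker.map N.subtype ≤ Subgroup.zpowers y := by
      rintro _ ⟨n, hn, rfl⟩
      refine hz _ n.2 ?_
      have h1 : (n : G) * (x * n * x⁻¹) = 1 := hn
      have h2 := hsq n n.2
      show (n : G) * x = x * n
      calc (n : G) * x = n * (n * (x * n * x⁻¹)) * x := by rw [h1, mul_one]
        _ = x * n := by rw [← mul_assoc (n : G) n, h2]; group
    have c1 := Subgroup.card_le_of_le hr
    have c2 := Subgroup.card_le_of_le hk
    rw [Subgroup.card_map_of_injective N.subtype_injective] at c2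
    rw [Nat.card_zpowers, hy] at c1 c2
    have := Subgroup.card_eq_card_quotient_mul_card_subgroup φ.ker
    rw [Nat.card_congr (QuotientGroup.quotientKerEquivRange φ).toEquiv] at this
    rw [this]
    exact Nat.mul_le_mul c1 c2

end Cfsg.Agent.S3276
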