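import Cfsg.Statements.S3279
import Cfsg.Agent.Invol.ZS
import Cfsg.Agent.Invol.QD
import Cfsg.Agent.Invol.StrongEmb
import Cfsg.Agent.Block.ZStar
import Mathlib.Tactic.Group

set_option autoImplicit false
open Cfsg

namespace Cfsg.Agent.S3279
open scoped commutatorElement

open Cfsg.Agent.Invol Subgroup

variable {G : Type*} [Group G] [Finite G]

theorem three_cases {x : G} (hx : orderOf x = 2)
    (h3 : Nat.card {u : ↥(Subgroup.centralizer ({x} : Set G)) // orderOf u = 2} ≤ 3) {z : G}
    (hz : orderOf z = 2) (hzx : Commute z x) (hne : z ≠ x) {u : G} (hu : orderOf u = 2)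
    (hux : Commute u x) : u = x ∨ u = z ∨ u = x * z := by
  classical
  by_contra hh
  push Not at hh
  have hxz : orderOf (x * z) = 2 :=
    orderOf_mul_of_commute (mul_self_of hx) (mul_self_of hz) hzx.symm hne.symm
  have e1 : x * z ≠ x := fun e => ne_one_of hz (by simpa using e)
  have e2 : x * z ≠ z := fun e => ne_one_of hx (by simpa using e)
  have h4 : ({u, x, z, x * z} : Finset G).card = 4 := by
    rw [Finset.card_insert_of_notMem (by simp [hh.1, hh.2.1, hh.2.2]),
      Finset.card_insert_of_notMem (by simp [hne.symm, e1.symm]),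
      Finset.card_insert_of_notMem (by simp [e2.symm]), Finset.card_singleton]
  have hall : ∀ v ∈ ({u, x, z, x * z} : Finset G), orderOf v = 2 ∧ Commute v x := by
    simp only [Finset.mem_insert, Finset.mem_singleton]
    rintro v (rfl | rfl | rfl | rfl)
    exacts [⟨hu, hux⟩, ⟨hx, Commute.refl _⟩, ⟨hz, hzx⟩, ⟨hxz, (Commute.refl _).mul_left hzx⟩]
  have := Nat.card_le_card_of_injective (fun v : ({u, x, z, x * z} : Finset G) =>
    (⟨⟨v.1, mem_centralizer_singleton.2 (hall v.1 v.2).2⟩, by
      rw [← Subgroup.orderOf_coe]; exact (hall v.1 v.2).1⟩ :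
      {u : ↥(Subgroup.centralizer ({x} : Set G)) // orderOf u = 2}))
    (fun a b hab => Subtype.ext (Subtype.mk.inj (Subtype.mk.inj hab)))
  rw [Nat.card_eq_finsetCard, h4] at this
  omega

theorem eq_of_central [IsSimpleGroup G] {z u : G} (hz : orderOf z = 2) (h : ∀ g, Commute g z)
    (hu : orderOf u = 2) : u = z := by
  have : (zpowers z).Normal := ⟨fun n hn g => by
    obtain ⟨k, rfl⟩ := hn
    rw [((h g).zpow_right k).eq, mul_inv_cancel_right]
    exact ⟨k, rfl⟩⟩
  rcases this.eq_bot_or_eq_top with e | e
  · exact absurd (zpowers_eq_bot.1 e) (ne_one_of hz)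
  · exact ((mem_zpowers_invol (mul_self_of hz)).1 (e ▸ mem_top u)).resolve_left (ne_one_of hu)

theorem eq_of_isolated [IsSimpleGroup G] {z u : G} (hz : IsIsolatedInvolution z)
    (hu : orderOf u = 2) : u = z := by
  refine eq_of_central hz.1 (fun g => ?_) hu
  have hO : pPrimeCore 2 G = ⊥ := by
    refine (Subgroup.Normal.eq_bot_or_eq_top inferInstance).resolve_right fun e => ?_
    exact odd_card_iff.1 (odd_oddCore (G := G)) z (e ▸ mem_top z) hz.1
  exact mem_center_iff.1 (Block.zstar_center hz hO) g

/-- Let G be a finite simple group and x an involution of G whose centralizer contains at most three involutions. Then C_G(x) contains a Sylow 2-subgroup of G, and all involutions of G are conjugate. -/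
theorem result {G : Type*} [Group G] [Finite G] [IsSimpleGroup G] (x : G) (hx : orderOf x = 2)
    (h3 : Nat.card {u : ↥(Subgroup.centralizer ({x} : Set G)) // orderOf u = 2} ≤ 3) :
    (∃ S : Sylow 2 G, (S : Subgroup G) ≤ Subgroup.centralizer ({x} : Set G)) ∧
      ∀ u v : G, orderOf u = 2 → orderOf v = 2 → IsConj u v := by
  have : Fact (Nat.Prime 2) := ⟨Nat.prime_two⟩
  have hS : ∃ S : Sylow 2 G, (S : Subgroup G) ≤ Subgroup.centralizer ({x} : Set G) := by
    obtain ⟨S, hS⟩ := (isPGroup_zpowers (p := 2) (n := 1)
      (x := x) (by simpa [pow_two] using mul_self_of hx)).exists_le_sylow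
    obtain ⟨z, hzS, hz, hc⟩ := exists_central_invol S.isPGroup' (fun e => ne_one_of hx (by
      have := hS (mem_zpowers x)
      rwa [e, mem_bot] at this))
    have hzx : Commute z x := (hc x (hS (mem_zpowers x))).symm
    have hcen : ∀ {v : G}, (∀ s ∈ (S : Subgroup G), Commute s v) → IsConj v x →
        ∃ S : Sylow 2 G, (S : Subgroup G) ≤ Subgroup.centralizer ({x} : Set G) := by
      intro v hv hvx
      obtain ⟨g, rfl⟩ := isConj_iff.1 hvx
      refine ⟨g • S, fun s hs => mem_centralizer_singleton.2 ?_⟩
      rw [Sylow.coe_subgroup_smul, mem_pointwise_smul_iff_inv_smul_mem] at hs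
      have := (hv _ hs).map (MulAut.conj g)
      simpa [mul_assoc] using this
    by_cases h1 : IsConj z x
    · exact hcen hc h1
    have hne : z ≠ x := fun e => h1 (e ▸ IsConj.refl _)
    by_cases h2 : IsConj x (x * z)
    · exfalso
      have key : ∀ y, IsConj z y → Commute y x → y = z := fun y hy hyx => by
        rcases three_cases hx h3 hz hzx hne (by rw [← orderOf_of_isConj hy, hz]) hyx with e | e | e
        · exact absurd (e ▸ hy) h1
        · exact e
        · exact absurd ((e ▸ hy).trans h2.symm) h1
      have key2 : ∀ y, IsConj z y → Commute y (x * z) → Commute y z := fun y hy hc' => by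
        obtain ⟨g, hg⟩ := isConj_iff.1 h2
        have e1 : g⁻¹ * z * g = z := key _ (isConj_iff.2 ⟨g⁻¹, by simp⟩) (by
          have := ((hzx.mul_right (Commute.refl z))).map (MulAut.conj g⁻¹)
          simpa [← hg, mul_assoc] using this)
        have e2 : g⁻¹ * y * g = z := key _ (hy.trans (isConj_iff.2 ⟨g⁻¹, by simp⟩)) (by
          have := hc'.map (MulAut.conj g⁻¹)
          simpa [← hg, mul_assoc] using this)
        have : y = z := by simpa using e2.trans e1.symm
        exact this ▸ Commute.refl _
      have hall : ∀ y, IsConj z y → Commute y z := fun y hy => by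
        have hy2 : orderOf y = 2 := by rw [← orderOf_of_isConj hy, hz]
        obtain ⟨k, a1, a2, a3⟩ := exists_commute_of_not_isConj (mul_self_of hx) (mul_self_of hy2)
          (fun e => h1 (hy.trans e.symm))
        rcases three_cases hx h3 hz hzx hne a1 a2 with e | e | e
        · exact key y hy (e ▸ a3.symm) ▸ Commute.refl _
        · exact e ▸ a3.symm
        · exact key2 y hy (e ▸ a3.symm)
      have hN : normalClosure ({z} : Set G) ≤ centralizer {z} := by
        rw [normalClosure, closure_le]
        intro y hy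
        obtain ⟨a, rfl, ha⟩ := Group.mem_conjugatesOfSet_iff.1 hy
        exact mem_centralizer_singleton.2 (hall y ha)
      rcases (normalClosure_normal (s := ({z} : Set G))).eq_bot_or_eq_top with e | e
      · exact ne_one_of hz (mem_bot.1 (e ▸ subset_normalClosure rfl))
      · exact hne (eq_of_central hz (fun g => mem_centralizer_singleton.1 (hN (e ▸ mem_top g)))
          hx).symm
    · refine ⟨S, ?_⟩
      by_contra hle
      obtain ⟨n, hn1, hn2, hn3⟩ := exists_mem_normalizer_of_lt S.isPGroup'
        (inf_lt_left.2 hle : (S : Subgroup G) ⊓ centralizer {x} < S)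
      have e1 := (mem_normalizer_iff.1 hn3 x).1
        ⟨hS (mem_zpowers x), mem_centralizer_singleton.2 (Commute.refl x)⟩
      rcases three_cases hx h3 hz hzx hne (by rw [orderOf_conj', hx])
        (mem_centralizer_singleton.1 e1.2) with e | e | e
      · exact hn2 ⟨hn1, mem_centralizer_singleton.2 (mul_inv_eq_iff_eq_mul.1 e)⟩
      · exact h1 (e ▸ isConj_conj n x).symm
      · exact h2 (e ▸ isConj_conj n x)
  refine ⟨hS, ?_⟩
  obtain ⟨S, hS⟩ := hS
  have hxS : x ∈ (S : Subgroup G) := mem_sylow_of_mem_normalizer (p := 2) (n := 1)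
    (by simpa [pow_two] using mul_self_of hx) S (centralizer_le_normalizer _ (by
      rw [mem_centralizer_iff]
      exact fun s hs => mem_centralizer_singleton.1 (hS hs)))
  suffices h : ∀ u, orderOf u = 2 → IsConj x u from fun u v hu hv => (h u hu).symm.trans (h v hv)
  intro u hu
  by_contra hxu
  obtain ⟨g, hg⟩ := exists_conj_invol_mem_sylow (mul_self_of hu) S
  have hv : orderOf (g * u * g⁻¹) = 2 := by rw [orderOf_conj', hu]
  have hxv : ¬ IsConj x (g * u * g⁻¹) := fun e => hxu (e.trans (isConj_conj g u).symm)
  generalize g * u * g⁻¹ = v at hg hv hxv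
  have hne : v ≠ x := fun e => hxv (e ▸ IsConj.refl _)
  have hall : ∀ w ∈ (S : Subgroup G), orderOf w = 2 → w = x ∨ w = v ∨ w = x * v := fun w hw h2 =>
    three_cases hx h3 hv (mem_centralizer_singleton.1 (hS hg)) hne h2
      (mem_centralizer_singleton.1 (hS hw))
  by_cases h1 : IsConj x (x * v)
  · refine hne (eq_of_isolated ((isolated_iff_sylow S hv hg).2 fun a ha => ?_) hx).symm
    rcases hall _ ha (by rw [orderOf_conj', hv]) with e | e | e
    · exact absurd (e ▸ isConj_conj a v).symm hxv
    · exact e
    · exact absurd (h1.trans (e ▸ isConj_conj a v).symm) hxv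
  · refine hne (eq_of_isolated ((isolated_iff_sylow S hx hxS).2 fun a ha => ?_) hv)
    rcases hall _ ha (by rw [orderOf_conj', hx]) with e | e | e
    · exact e
    · exact absurd (e ▸ isConj_conj a x) hxv
    · exact absurd (e ▸ isConj_conj a x) h1

end Cfsg.Agent.S3279
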