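import Cfsg.Statements.S3282
import Cfsg.Agent.GW.BSW3

set_option autoImplicit false
open Cfsg

namespace Cfsg.Agent.S3282

open Cfsg.Agent.BG Cfsg.Agent.Invol

/-- The abstract form of the Brauer–Suzuki–Wall Theorem. Let G be a finite group with an involution t and an abelian subgroup K of H = C_G(t) containing t, such that H = K⟨s⟩ for an involution s ∉ K with C_K(s) = ⟨t⟩ and s inverting every element of K, K ∩ K^g = 1 for every g outside H, and all involutions of G conjugate. Then G has a subgroup Q, of order q say, with |G| = q(q+1)(q−1)/2, C_G(x) = Q for every non-identity x ∈ Q, N_G(Q) = QD for an abelian subgroup D of order (q−1)/2 meeting Q trivially, and for every nontrivial subgroup X of D, N_G(X) = N_G(D) = D⟨u⟩ for some involution u ∉ D inverting D. -/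
theorem result {G : Type*} [Group G] [Finite G] (t : G) (ht : orderOf t = 2)
    (K : Subgroup G) (hKab : IsMulCommutative ↥K) (hKH : K ≤ Subgroup.centralizer ({t} : Set G)) (htK : t ∈ K)
    (s : G) (hs : orderOf s = 2) (hsH : s ∈ Subgroup.centralizer ({t} : Set G)) (hsK : s ∉ K)
    (hH : K ⊔ Subgroup.zpowers s = Subgroup.centralizer ({t} : Set G)) (hCK : K ⊓ Subgroup.centralizer ({s} : Set G) = Subgroup.zpowers t)
    (hinv : ∀ x ∈ K, s * x * s⁻¹ = x⁻¹)
    (hTI : ∀ g : G, g ∉ Subgroup.centralizer ({t} : Set G) → K ⊓ K.map (MulAut.conj g).toMonoidHom = ⊥)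
    (hconj : ∀ x y : G, orderOf x = 2 → orderOf y = 2 → IsConj x y) :
    ∃ Q D : Subgroup G, 2 * Nat.card G = Nat.card ↥Q * (Nat.card ↥Q + 1) * (Nat.card ↥Q - 1) ∧
      (∀ x ∈ Q, x ≠ 1 → Subgroup.centralizer ({x} : Set G) = Q) ∧
      IsMulCommutative ↥D ∧ 2 * Nat.card ↥D + 1 = Nat.card ↥Q ∧ Q ⊓ D = ⊥ ∧
      Subgroup.normalizer (Q : Set G) = Q ⊔ D ∧
      ∀ X : Subgroup G, X ≤ D → X ≠ ⊥ →
        Subgroup.normalizer (X : Set G) = Subgroup.normalizer (D : Set G) ∧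
        ∃ u : G, orderOf u = 2 ∧ u ∉ D ∧ (∀ d ∈ D, u * d * u⁻¹ = d⁻¹) ∧
          Subgroup.normalizer (D : Set G) = D ⊔ Subgroup.zpowers u := by
  obtain ⟨Q, D, h1, h2, h3, h4, h5, -, h6⟩ := (GW.bsw_of ht hKab htK hs hsK hH (fun x hx e =>
    (mem_zpowers_invol (mul_self_of ht)).1 (hCK ▸ ⟨hx, mem_cent1.2
      (commute_of_inverts_of_mul_self (hinv x hx) e)⟩)) hinv (fun g x hx h1 e => by_contra fun hg =>
    conj_ne_one.2 h1 (Subgroup.mem_bot.1 ((hTI g hg).le ⟨e, conj_mem_cj g hx⟩)))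
    fun x => hconj t x ht).exists_QD
  refine ⟨Q, D, h1, h2, h3, h4, h5.inf, h5.sup.symm, fun X hX h0 => ?_⟩
  have k : D ≠ ⊥ := fun e => h0 (le_bot_iff.1 (e ▸ hX))
  obtain ⟨u, a, b, c, d⟩ := h6 k
  exact ⟨by rw [d X hX h0, d D le_rfl k], u, a, b, c, d D le_rfl k⟩

end Cfsg.Agent.S3282
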