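import Cfsg.Statements.S3301
import Cfsg.Agent.S3299
import Cfsg.Agent.Invol.Dihedral

set_option autoImplicit false
open Cfsg

namespace Cfsg.Agent.S3301

open Subgroup Cfsg.Agent.Invol Cfsg.Agent.BG Cfsg.Agent.LES Cfsg.Agent.Small.Xs

theorem exists_K {B : Type*} [CommGroup B] [Finite B] {q : B} {k : ℕ} (hk : orderOf q = 2 ^ k) (h : q ^ 2 ≠ 1) :
    ∃ K : Subgroup B, K.index = 2 ∧ ∀ b, b ^ 2 = 1 → b ∈ K := by
  obtain ⟨l, m, hm, e⟩ := Nat.exists_eq_two_pow_mul_odd (Nat.card_pos (α := B)).ne'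
  let f : B →* B := powMonoidHom (2 * m)
  have hP : IsPGroup 2 f.range := fun ⟨_, b, rfl⟩ => ⟨l, Subtype.ext (show (b ^ (2 * m)) ^ 2 ^ l = 1 by
    rw [← pow_mul, show 2 * m * 2 ^ l = 2 ^ l * m * 2 by ring, pow_mul, ← e, pow_card_eq_one', one_pow])⟩
  obtain ⟨M, -, -, b⟩ := exists_two hP (N := ⊥) fun c => h (by
    have h1 : (q ^ 2) ^ m = 1 := by rw [← pow_mul]; exact c ⟨q, rfl⟩
    exact orderOf_eq_one_iff.1 (Nat.eq_one_of_dvd_coprimes ((Nat.coprime_two_left.2 hm).pow_left k)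
      (hk ▸ orderOf_pow_dvd 2) (orderOf_dvd_of_pow_eq_one h1)))
  exact ⟨M.comap f, by rw [index_comap, b], fun b hb => show b ^ (2 * m) ∈ M by
    rw [pow_mul, hb, one_pow]; exact one_mem _⟩

/-- Let G be a finite group with no nontrivial 2-group quotient (O^2(G) = G), z an involution of G with H = C_G(z), and suppose E = O_2(H) is extraspecial with C_G(E) ≤ E. Then the Sylow 2-subgroups of H/[H, H] are elementary abelian: every element of 2-power order of the abelianization of H has order at most 2. -/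
theorem result {G : Type*} [Group G] [Finite G] (hres : Cfsg.pResidual 2 G = ⊤) (z : G) (hz : orderOf z = 2)
    (E : Subgroup G) (hE : E = (Cfsg.pCore 2 ↥(Subgroup.centralizer ({z} : Set G))).map (Subgroup.centralizer ({z} : Set G)).subtype)
    (hext : Cfsg.IsExtraspecial 2 ↥E) (hcent : Subgroup.centralizer (E : Set G) ≤ E) :
    ∀ q : Abelianization ↥(Subgroup.centralizer ({z} : Set G)), (∃ k : ℕ, orderOf q = 2 ^ k) → q ^ 2 = 1 := by
  rintro q ⟨k, hk⟩
  by_contra hq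
  have h : LE E z := by subst hE; exact LE.of_core hz hext hcent
  obtain ⟨K, hK, hK2⟩ := exists_K hk hq
  let φ : C1[z] →* _ := Abelianization.of
  have hφ : Function.Surjective φ := QuotientGroup.mk_surjective
  have hi : ((K.comap φ).map C1[z].subtype).relIndex C1[z] = 2 := by
    rw [relIndex, ← comap_subtype, comap_map_eq_self_of_injective (subtype_injective _),
      index_comap_of_surjective _ hφ, hK]
  have k1 : ∀ g a, a ∈ C1[g * z * g⁻¹] → a * a = 1 → g⁻¹ * a * g ∈ (K.comap φ).map C1[z].subtype :=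
    fun g a ha a2 => ⟨⟨_, S3299.back ha⟩, hK2 _ (by
      rw [← map_pow, ← φ.map_one]
      exact congrArg φ (Subtype.ext (show (g⁻¹ * a * g) ^ 2 = 1 by
        rw [sq, show g⁻¹ * a * g * (g⁻¹ * a * g) = g⁻¹ * (a * a) * g by group, a2]; simp))), rfl⟩
  refine key h hres hi fun g hg M a b => ⟨fun hM u hu => ?_, fun N _ _ c d => k1 g z (c d) h.zz⟩
  have s2 : g * z * g⁻¹ * (g * z * g⁻¹) = 1 := by rw [conj_mul, h.zz]; simp
  have hs := inner h a b hM s2
  rcases h.sq u (a hu) with e | e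
  · exact k1 g u (hM hu) e
  have hz' := z_mem h.toES b
  obtain ⟨x, hx, y, hy, e'⟩ := nonab h.toES a hz' (by
    by_contra hc
    have h1 := card_mul_relIndex a
    rw [b] at h1
    have h4 : #M ≤ 4 := by nlinarith [cardG_pos M]
    have hsM : g * z * g⁻¹ ∈ M := by
      by_contra hn
      rcases h.cQ _ fun y hy => (two_cases b hs hn hy).elim (fun k => (mem_cent1.1 (hM k)).symm) fun k => by
        simpa only [mul_inv_cancel_left] using (Commute.refl _).mul_right (show Commute (g * z * g⁻¹) _ from (mem_cent1.1 (hM k)).symm)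
        with k | k
      exacts [h.z1 (by simpa using k), hg k]
    have k := isKleinFour_closure s2 h.zz (h.zc _ hs) (fun k => h.z1 (by simpa using k)) h.z1 hg
    have e2 := eq_of_le_of_card_ge ((closure_le M).2 (by rintro _ (rfl | rfl); exacts [hsM, hz']))
      (k.card_four ▸ h4)
    exact h.z1 (e ▸ congrArg Subtype.val (IsKleinFour.mul_self (⟨u, e2.ge hu⟩ : closure {g * z * g⁻¹, z}))))
  refine ⟨⟨_, S3299.back (hM hu)⟩, hK2 _ ?_, rfl⟩
  have : (⟨_, S3299.back (hM hu)⟩ : C1[z]) ^ 2 = (⟨_, S3299.back (hM hy)⟩ : C1[z])⁻¹ *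
      ((⟨_, S3299.back (hM hx)⟩ : C1[z])⁻¹ * ⟨_, S3299.back (hM hy)⟩ * ⟨_, S3299.back (hM hx)⟩) := Subtype.ext (by
    show (g⁻¹ * u * g) ^ 2 = (g⁻¹ * y * g)⁻¹ * ((g⁻¹ * x * g)⁻¹ * (g⁻¹ * y * g) * (g⁻¹ * x * g))
    rw [sq, show g⁻¹ * u * g * (g⁻¹ * u * g) = g⁻¹ * (u * u) * g by group, e, ← e']; group)
  rw [← map_pow, this]
  simp [mul_comm]

end Cfsg.Agent.S3301
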