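import Cfsg.Statements.S3309
import Cfsg.Agent.Loc.JC8
import Cfsg.Agent.BG.Base4

set_option autoImplicit false
open Cfsg

namespace Cfsg.Agent.S3309

open Subgroup Cfsg.Agent.BG

abbrev X := Multiplicative (ZMod 2) × DihedralGroup 4
def c0 : X := (Multiplicative.ofAdd 1, 1)
theorem f1 : (∀ y : X, y * c0 = c0 * y) ∧ c0 * c0 = 1 ∧ c0.1 ≠ 1 ∧ (∀ y : X, y * y ≠ c0) ∧
    (∀ y : X, y.1 = 1 ∨ (y * c0).1 = 1) ∧
    ∀ w : X, (∀ y : X, y * w = w * y) → w.1 = 1 → ∃ y, y * y = w := by decide +kernel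

/-- A finite group whose Sylow 2-subgroups are isomorphic to the direct product of a group of order 2 and the dihedral group of order 8 is not a non-abelian simple group. -/
theorem result {G : Type*} [Group G] [Finite G] (S : Sylow 2 G) (hS : Nonempty (↥(S : Subgroup G) ≃* Multiplicative (ZMod 2) × DihedralGroup 4))
    [IsSimpleGroup G] (hG : ¬ IsMulCommutative G) : False := by
  obtain ⟨e⟩ := hS
  let φ : S →* Multiplicative (ZMod 2) := (MonoidHom.fst _ _).comp e.toMonoidHom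
  obtain ⟨c, ec⟩ := e.surjective c0
  have hc : ∀ s : S, s * c = c * s := fun s => e.injective (by simp [ec, f1.1])
  have c2 : c * c = 1 := e.injective (by simp [ec, f1.2.1])
  obtain ⟨g, ⟨u, hu, h1⟩, h2⟩ := Loc.transfer_gen (U := φ.ker.map S.1.subtype) (s := c) (y := c) (R := S)
    (sylIn_iff.2 (sylowIn_top S)) (map_subtype_le _) (normal_map_subtype inferInstance).2 c.2 (fun s hs => by
      rcases f1.2.2.2.2.1 (e ⟨s, hs⟩) with h | h
      · exact mem_sup_left ⟨⟨s, hs⟩, h, rfl⟩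
      · have : s * c ∈ φ.ker.map S.1.subtype := ⟨⟨s, hs⟩ * c, show (e (_ * c)).1 = 1 by rwa [map_mul, ec], rfl⟩
        simpa using mul_mem (mem_sup_left this : _ ∈ _ ⊔ zpowers (c : G)) (inv_mem (mem_sup_right (mem_zpowers _))))
    (congrArg Subtype.val c2) c.2 (by
      rintro ⟨d, hd, h⟩
      obtain rfl : d = c := Subtype.ext h
      exact f1.2.2.1 (ec ▸ hd))
    (((IsSimpleGroup.eq_bot_or_eq_top_of_normal (commutator G) inferInstance).resolve_left fun h =>
      hG ((commutator_eq_bot_iff G).1 h)).ge trivial) S.isPGroup'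
    fun s hs => mem_cent1.2 (congrArg Subtype.val (hc ⟨s, hs⟩))
  have hn := mem_norm_of_cj_le h2
  obtain ⟨y, hy⟩ := f1.2.2.2.2.2 (e u) (fun y => by
    obtain ⟨y, rfl⟩ := e.surjective y
    rw [← map_mul, ← map_mul]
    refine congrArg e (Subtype.ext ?_)
    have : g⁻¹ * y * g * c = c * (g⁻¹ * y * g) := congrArg Subtype.val (hc ⟨_, conj_mem_of_norm' hn y.2⟩)
    simp only [coe_mul]
    rw [show (u : G) = g * c * g⁻¹ from h1]
    calc _ = g * (g⁻¹ * y * g * c) * g⁻¹ := by group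
      _ = _ := by rw [this]; group) hu
  obtain ⟨y, rfl⟩ := e.surjective y
  rw [← map_mul] at hy
  have h3 : (y : G) * y = g * c * g⁻¹ := (congrArg Subtype.val (e.injective hy)).trans h1
  refine f1.2.2.2.1 (e ⟨_, conj_mem_of_norm' hn y.2⟩) ?_
  rw [← map_mul, ← ec]
  refine congrArg e (Subtype.ext ?_)
  calc _ = g⁻¹ * (y * y) * g := by simp only [coe_mul]; group
    _ = _ := by rw [h3]; group

end Cfsg.Agent.S3309
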