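import Cfsg.Statements.S3315
import Cfsg.Agent.Low.U3Aut

set_option autoImplicit false
open Cfsg

namespace Cfsg.Agent.S3315

open Cfsg.Agent.Low.U3A

/-- Let S be a Sylow 2-subgroup of SU₃(2ⁿ), n ≥ 2 (realised over the field with 4ⁿ elements). If a finite 2-group R contains a subgroup S' of index 2 isomorphic to S, then the centre of S' is contained in the centre of R. -/
theorem result {R : Type*} [Group R] [Finite R]
    (hR : IsPGroup 2 R) (n : ℕ) (hn : 2 ≤ n) {F : Type*} [Field F] [Fintype F] (hF : Fintype.card F = 4 ^ n)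
    (P : Sylow 2 ↥(Cfsg.SU 3 F (2 ^ n))) (S' : Subgroup R) (hS : Nonempty (↥S' ≃* ↥(P : Subgroup ↥(Cfsg.SU 3 F (2 ^ n)))))
    (hidx : S'.index = 2) :
    (Subgroup.center ↥S').map S'.subtype ≤ Subgroup.center R := by
  haveI : Fact (Fintype.card F = (2 ^ n) ^ 2) := ⟨by rw [hF, ← pow_mul, mul_comm, pow_mul]; rfl⟩
  haveI : CharP F 2 := charP_of_card_eq_prime_pow (f := 2 * n) (by rw [hF, pow_mul]; rfl)
  obtain ⟨e₁⟩ := hS
  obtain ⟨e₂⟩ := sylow_equiv (by omega) P
  let e := e₁.trans e₂
  haveI := Subgroup.normal_of_index_eq_two hidx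
  rintro _ ⟨z, hz, rfl⟩
  rw [Subgroup.mem_center_iff]
  intro r
  let α : MulAut (UM F (2 ^ n)) := MulAut.congr e (MulAut.conjNormal r)
  have hα : α * α = MulAut.conj (e ⟨r * r, Subgroup.mul_self_mem_of_index_two hidx r⟩) := by
    rw [← map_mul, ← map_mul]
    refine MulEquiv.ext fun a => ?_
    obtain ⟨a, rfl⟩ := e.surjective a
    simp only [MulAut.congr_apply, MulEquiv.trans_apply, MulEquiv.symm_apply_apply, MulAut.conj_apply,
      ← map_inv, ← map_mul]
    rfl
  have := fix_center_of_sq (hα ▸ conj_mem_ker _) (mem_center_iff.1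
    ((MulEquivClass.apply_mem_center_iff e).2 hz))
  simp only [α, MulAut.congr_apply, MulEquiv.trans_apply, MulEquiv.symm_apply_apply] at this
  exact mul_inv_eq_iff_eq_mul.1 (congrArg Subtype.val (e.injective this))

end Cfsg.Agent.S3315
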