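import Cfsg.Statements.S3335
import Cfsg.Agent.Pres.Cox

set_option autoImplicit false
open Cfsg

namespace Cfsg.Agent.S3335

open Subgroup Equiv

theorem inv_mul_pow {G : Type*} [Group G] {a b : G} {k : ℕ} (h : (a * b) ^ k = 1) : (a⁻¹ * b⁻¹) ^ k = 1 := by
  have : a⁻¹ * b⁻¹ = (b * (a * b) * b⁻¹)⁻¹ := by group
  rw [this, inv_pow, conj_pow, h]; simp

theorem braid_of {G : Type*} [Group G] {a b : G} (ha : a * a = 1) (hb : b * b = 1) (h : (a * b) ^ 3 = 1) :
    b * a * b = a * b * a := by
  have ha' : a⁻¹ = a := inv_eq_of_mul_eq_one_right ha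
  have hb' : b⁻¹ = b := inv_eq_of_mul_eq_one_right hb
  have : (a * b * a) * (b * a * b) = 1 := by rw [← h, pow_succ, pow_two]; group
  rw [← inv_eq_of_mul_eq_one_right this, mul_inv_rev, mul_inv_rev, ha', hb', mul_assoc]

theorem comm_of {G : Type*} [Group G] {a b : G} (ha : a * a = 1) (hb : b * b = 1) (h : (a * b) ^ 2 = 1) :
    Commute a b := by
  have ha' : a⁻¹ = a := inv_eq_of_mul_eq_one_right ha
  have hb' : b⁻¹ = b := inv_eq_of_mul_eq_one_right hb
  rw [pow_two] at h
  have := inv_eq_of_mul_eq_one_right h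
  rw [mul_inv_rev, ha', hb'] at this
  exact this.symm

/-- the homomorphism from the group of order two -/
def two {H : Type*} [Group H] (t : H) (ht : t * t = 1) : ℤˣ →* H where
  toFun u := if u = 1 then 1 else t
  map_one' := by simp
  map_mul' u v := by
    rcases Int.units_eq_one_or u with rfl | rfl <;> rcases Int.units_eq_one_or v with rfl | rfl <;> simp [ht]

theorem two_neg {H : Type*} [Group H] (t : H) (ht : t * t = 1) : two t ht (-1) = t := by
  simp [two]

theorem main {G : Type*} [Group G] (n : ℕ) (hn : 3 ≤ n) (x : Fin (n - 2) → G) (hgen : Subgroup.closure (Set.range x) = ⊤)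
    (h1 : ∀ i : Fin (n - 2), i.val = 0 → x i ^ 3 = 1) (h2 : ∀ i : Fin (n - 2), 1 ≤ i.val → x i ^ 2 = 1)
    (h3 : ∀ i j : Fin (n - 2), j.val = i.val + 1 → (x i * x j) ^ 3 = 1)
    (h4 : ∀ i j : Fin (n - 2), i.val + 1 < j.val → (x i * x j) ^ 2 = 1)
    (θ : G →* G) (hθ : ∀ i, θ (x i) = (x i)⁻¹) (pt : ℕ → Fin n) (hpt : ∀ i, i < n → (pt i).val = i)
    (f : G →* Perm (Fin n))
    (hf : ∀ i, f (x i) = swap (pt 0) (pt 1) * swap (pt (i.val + 1)) (pt (i.val + 2))) :
    Nonempty (G ≃* alternatingGroup (Fin n)) := by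
  have hθθ : ∀ g, θ (θ g) = g := by
    have : θ.comp θ = MonoidHom.id G := MonoidHom.eq_of_eqOn_dense hgen (by
      rintro _ ⟨i, rfl⟩; simp [hθ])
    exact fun g => DFunLike.congr_fun this g
  let Θ : MulAut G := { toFun := θ, invFun := θ, left_inv := hθθ, right_inv := hθθ, map_mul' := θ.map_mul }
  have hΘ : Θ * Θ = 1 := by ext g; exact hθθ g
  let φ := two Θ hΘ
  set τ : Perm (Fin n) := swap (pt 0) (pt 1) with hτ
  have hττ : τ * τ = 1 := swap_mul_self _ _
  have hne : ∀ i j, i < n → j < n → i ≠ j → pt i ≠ pt j := by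
    intro i j hi hj hij h
    apply hij; rw [← hpt i hi, ← hpt j hj, h]
  have hcompat : f.comp θ = (MulAut.conj τ).toMonoidHom.comp f := MonoidHom.eq_of_eqOn_dense hgen (by
    rintro _ ⟨i, rfl⟩
    simp only [MonoidHom.coe_comp, Function.comp_apply, hθ, map_inv, hf, mul_inv_rev, swap_inv,
      MulEquiv.toMonoidHom_eq_coe, MonoidHom.coe_coe, MulAut.conj_apply, ← mul_assoc, hττ, one_mul])
  let π : G ⋊[φ] ℤˣ →* Perm (Fin n) := SemidirectProduct.lift f (two τ hττ) (by
    intro u
    rcases Int.units_eq_one_or u with rfl | rfl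
    · ext g; simp
    · rw [show φ (-1) = Θ from two_neg _ _, two_neg]; exact hcompat)
  let t : G ⋊[φ] ℤˣ := SemidirectProduct.inr (-1)
  have htt : t * t = 1 := by simp [t, ← map_mul]
  have htx : ∀ g, t * SemidirectProduct.inl g * t = SemidirectProduct.inl (θ g) := by
    intro g
    have := SemidirectProduct.inl_aut (φ := φ) (-1) g
    rw [show φ (-1) = Θ from two_neg _ _] at this
    rw [show (SemidirectProduct.inl (θ g) : G ⋊[φ] ℤˣ) = SemidirectProduct.inl (Θ g) from rfl, this]
    simp [t]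
  let s : ℕ → G ⋊[φ] ℤˣ := fun i => match i with
    | 0 => t
    | i + 1 => if h : i < n - 2 then t * SemidirectProduct.inl (x ⟨i, h⟩) else 1
  have hs1 : ∀ i (h : i < n - 2), s (i + 1) = t * SemidirectProduct.inl (x ⟨i, h⟩) := fun i h => dif_pos h
  have hs1' : ∀ i, ¬ i < n - 2 → s (i + 1) = 1 := fun i h => dif_neg h
  have hs0 : s 0 = t := rfl
  have hmul : ∀ a b : G, t * SemidirectProduct.inl a * (t * SemidirectProduct.inl b) = SemidirectProduct.inl (θ a * b) := by
    intro a b; rw [← mul_assoc, htx, map_mul]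
  have hsq : ∀ i, s i * s i = 1 := by
    rintro (_ | i)
    · exact htt
    · by_cases h : i < n - 2
      · rw [hs1 i h, hmul, hθ]; simp
      · rw [hs1' i h]; simp
  have hx2 : ∀ i : Fin (n - 2), 1 ≤ i.val → (x i)⁻¹ = x i := by
    intro i hi
    exact inv_eq_of_mul_eq_one_right (by rw [← pow_two, h2 i hi])
  have hc : ∀ i j, i + 1 < j → Commute (s i) (s j) := by
    intro i j hij
    obtain ⟨j, rfl⟩ : ∃ k, j = k + 1 := ⟨j - 1, by omega⟩
    by_cases hj : j < n - 2
    · refine comm_of (hsq i) (hsq (j + 1)) ?_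
      cases i with
      | zero => rw [hs0, hs1 j hj, ← mul_assoc, htt, one_mul, ← map_pow, h2 _ (by simp; omega), map_one]
      | succ i =>
        have hi : i < n - 2 := by omega
        rw [hs1 i hi, hs1 j hj, hmul, hθ, ← hx2 ⟨j, hj⟩ (by simp; omega), ← map_pow,
          inv_mul_pow (h4 _ _ (by simp; omega)), map_one]
    · rw [hs1' j hj]; exact Commute.one_right _
  have hb : ∀ i, i + 1 < n - 1 → s (i + 1) * s i * s (i + 1) = s i * s (i + 1) * s i := by
    intro i hi
    refine braid_of (hsq i) (hsq (i + 1)) ?_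
    have hj : i < n - 2 := by omega
    cases i with
    | zero => rw [hs0, hs1 0 hj, ← mul_assoc, htt, one_mul, ← map_pow, h1 _ rfl, map_one]
    | succ i =>
      have hi : i < n - 2 := by omega
      rw [hs1 i hi, hs1 _ hj, hmul, hθ, ← hx2 ⟨i + 1, hj⟩ (by simp), ← map_pow,
          inv_mul_pow (h3 _ _ (by simp)), map_one]
  have hπt : π t = τ := by simp [π, t, two_neg]
  have hπl : ∀ g, π (SemidirectProduct.inl g) = f g := by intro g; simp [π]
  have hπ : ∀ i, i < n - 1 → π (s i) = swap (pt i) (pt (i + 1)) := by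
    rintro (_ | i) hi
    · exact hπt
    · rw [hs1 i (by omega), map_mul, hπt, hπl, hf, ← mul_assoc, hττ, one_mul]
  have hinj := Cfsg.Agent.Pres.cox_inj (s := s) π pt (n - 1) (by
    intro i j hi hj h
    by_contra hij
    exact hne i j (by omega) (by omega) hij h) hsq hc hb hπ (n - 1) le_rfl
  have hsign : ∀ g, Perm.sign (f g) = 1 := by
    have : Perm.sign.comp f = 1 := MonoidHom.eq_of_eqOn_dense hgen (by
      rintro _ ⟨i, rfl⟩
      have := i.2
      simp only [MonoidHom.coe_comp, Function.comp_apply, hf, map_mul, hτ, MonoidHom.one_apply]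
      rw [Perm.sign_swap (hne _ _ (by omega) (by omega) (by omega)),
        Perm.sign_swap (hne _ _ (by omega) (by omega) (by omega))]
      simp)
    exact fun g => DFunLike.congr_fun this g
  let F : G →* alternatingGroup (Fin n) := f.codRestrict _ (fun g => Perm.mem_alternatingGroup.2 (hsign g))
  refine ⟨MulEquiv.ofBijective F ⟨?_, ?_⟩⟩
  · rw [injective_iff_map_eq_one]
    intro g hg
    have hg' : f g = 1 := congrArg Subtype.val hg
    have hmem : (⊤ : Subgroup G) ≤ (Subgroup.closure (s '' {i | i < n - 1})).comap SemidirectProduct.inl := by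
      rw [← hgen, closure_le]
      rintro _ ⟨i, rfl⟩
      have h5 : (SemidirectProduct.inl (x i) : G ⋊[φ] ℤˣ) = s 0 * s (i.val + 1) := by
        rw [hs0, hs1 _ i.2, ← mul_assoc, htt, one_mul]
      show SemidirectProduct.inl (x i) ∈ Subgroup.closure _
      rw [h5]
      have := i.2
      exact mul_mem (subset_closure ⟨0, by simp; omega, rfl⟩) (subset_closure ⟨i.val + 1, by simp; omega, rfl⟩)
    have := hinj _ (hmem (mem_top g)) (by rw [hπl, hg'])
    exact SemidirectProduct.inl_injective (this.trans (map_one _).symm)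
  · rintro ⟨σ, hσ⟩
    have hsurj : ∀ σ : Perm (Fin n), σ ∈ π.range := by
      obtain ⟨m, rfl⟩ : ∃ m, n = m + 1 := ⟨n - 1, by omega⟩
      intro σ
      have h5 : σ ∈ Submonoid.closure (Set.range fun i : Fin m ↦ swap i.castSucc i.succ) := by
        rw [Perm.mclosure_swap_castSucc_succ]; trivial
      refine Submonoid.closure_le (S := π.range.toSubmonoid) |>.2 ?_ h5
      rintro _ ⟨i, rfl⟩
      have := i.2
      refine ⟨s i, ?_⟩
      rw [hπ i (by omega)]
      congr 1
      · ext; rw [hpt _ (by omega)]; simp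
      · ext; rw [hpt _ (by omega)]; simp
    obtain ⟨j, hj⟩ := hsurj σ
    rw [← SemidirectProduct.inl_left_mul_inr_right j, map_mul, hπl] at hj
    rcases Int.units_eq_one_or j.right with h | h
    · rw [h, map_one, map_one, mul_one] at hj
      exact ⟨j.left, Subtype.ext hj⟩
    · exfalso
      rw [h] at hj
      have h5 := Perm.mem_alternatingGroup.1 hσ
      rw [← hj, map_mul, hsign, show π (SemidirectProduct.inr (-1)) = τ from hπt, hτ,
        Perm.sign_swap (hne _ _ (by omega) (by omega) (by omega))] at h5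
      simp at h5

/-- A presentation of the alternating group of degree n ≥ 3 on generators x_1, …, x_{n−2} (indexed here by 0, …, n−3): the first generator cubes to 1, every other generator squares to 1, the product of two consecutive generators has order dividing 3, and the product of two generators at distance at least 2 has order dividing 2. The group so presented is isomorphic to the alternating group of degree n. -/
theorem result (n : ℕ) (hn : 3 ≤ n) :
    Nonempty (PresentedGroup
      ({g : FreeGroup (Fin (n - 2)) | ∃ i : Fin (n - 2), i.val = 0 ∧ g = FreeGroup.of i ^ 3} ∪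
       {g | ∃ i : Fin (n - 2), 1 ≤ i.val ∧ g = FreeGroup.of i ^ 2} ∪
       {g | ∃ i j : Fin (n - 2), j.val = i.val + 1 ∧ g = (FreeGroup.of i * FreeGroup.of j) ^ 3} ∪
       {g | ∃ i j : Fin (n - 2), i.val + 1 < j.val ∧ g = (FreeGroup.of i * FreeGroup.of j) ^ 2})
      ≃* alternatingGroup (Fin n)) := by
  set R : Set (FreeGroup (Fin (n - 2))) := ({g : FreeGroup (Fin (n - 2)) | ∃ i : Fin (n - 2), i.val = 0 ∧ g = FreeGroup.of i ^ 3} ∪
       {g | ∃ i : Fin (n - 2), 1 ≤ i.val ∧ g = FreeGroup.of i ^ 2} ∪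
       {g | ∃ i j : Fin (n - 2), j.val = i.val + 1 ∧ g = (FreeGroup.of i * FreeGroup.of j) ^ 3} ∪
       {g | ∃ i j : Fin (n - 2), i.val + 1 < j.val ∧ g = (FreeGroup.of i * FreeGroup.of j) ^ 2}) with hR
  have hrel : ∀ r ∈ R, PresentedGroup.mk R r = 1 := fun r hr => PresentedGroup.one_of_mem hr
  let x : Fin (n - 2) → PresentedGroup R := PresentedGroup.of
  have h1 : ∀ i : Fin (n - 2), i.val = 0 → x i ^ 3 = 1 := fun i hi => by
    have := hrel _ (Or.inl (Or.inl (Or.inl ⟨i, hi, rfl⟩))); simpa [x, PresentedGroup.of] using this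
  have h2 : ∀ i : Fin (n - 2), 1 ≤ i.val → x i ^ 2 = 1 := fun i hi => by
    have := hrel _ (Or.inl (Or.inl (Or.inr ⟨i, hi, rfl⟩))); simpa [x, PresentedGroup.of] using this
  have h3 : ∀ i j : Fin (n - 2), j.val = i.val + 1 → (x i * x j) ^ 3 = 1 := fun i j hi => by
    have := hrel _ (Or.inl (Or.inr ⟨i, j, hi, rfl⟩)); simpa [x, PresentedGroup.of] using this
  have h4 : ∀ i j : Fin (n - 2), i.val + 1 < j.val → (x i * x j) ^ 2 = 1 := fun i j hi => by
    have := hrel _ (Or.inr ⟨i, j, hi, rfl⟩); simpa [x, PresentedGroup.of] using this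
  have hθ : ∀ r ∈ R, FreeGroup.lift (fun i => (x i)⁻¹) r = 1 := by
    rintro r (((⟨i, hi, rfl⟩ | ⟨i, hi, rfl⟩) | ⟨i, j, hi, rfl⟩) | ⟨i, j, hi, rfl⟩)
    · simp [h1 i hi]
    · simp [h2 i hi]
    · simpa using inv_mul_pow (h3 i j hi)
    · simpa using inv_mul_pow (h4 i j hi)
  let pt : ℕ → Fin n := fun i => if h : i < n then ⟨i, h⟩ else ⟨0, by omega⟩
  have hpt : ∀ i, i < n → (pt i).val = i := fun i hi => by simp [pt, hi]
  have hne : ∀ i j, i < n → j < n → i ≠ j → pt i ≠ pt j := by
    intro i j hi hj hij h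
    apply hij; rw [← hpt i hi, ← hpt j hj, h]
  have hcomm : ∀ a b c d, a < n → b < n → c < n → d < n → a ≠ c → a ≠ d → b ≠ c → b ≠ d →
      swap (pt a) (pt b) * swap (pt c) (pt d) = swap (pt c) (pt d) * swap (pt a) (pt b) := by
    intro a b c d ha hb hc hd h1 h2 h3 h4
    rw [Equiv.mul_swap_eq_swap_mul, swap_apply_of_ne_of_ne (hne _ _ hc ha h1.symm) (hne _ _ hc hb h3.symm),
      swap_apply_of_ne_of_ne (hne _ _ hd ha h2.symm) (hne _ _ hd hb h4.symm)]
  have hthree : ∀ a b c, a < n → b < n → c < n → a ≠ b → b ≠ c → a ≠ c →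
      (swap (pt a) (pt b) * swap (pt b) (pt c)) ^ 3 = 1 := by
    intro a b c ha hb hc h1 h2 h3
    rw [swap_comm (pt a)]
    have := (Perm.isThreeCycle_swap_mul_swap_same (hne _ _ hb ha h1.symm) (hne _ _ hb hc h2) (hne _ _ ha hc h3)).orderOf
    rw [← this, pow_orderOf_eq_one]
  have hf : ∀ r ∈ R, FreeGroup.lift (fun i : Fin (n - 2) =>
      swap (pt 0) (pt 1) * swap (pt (i.val + 1)) (pt (i.val + 2))) r = 1 := by
    have hpr : ∀ (i j : Fin (n - 2)), 1 ≤ j.val → swap (pt 0) (pt 1) * swap (pt (i.val + 1)) (pt (i.val + 2)) *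
        (swap (pt 0) (pt 1) * swap (pt (j.val + 1)) (pt (j.val + 2))) = swap (pt 0) (pt 1) *
        (swap (pt (i.val + 1)) (pt (i.val + 2)) * swap (pt (j.val + 1)) (pt (j.val + 2))) * (swap (pt 0) (pt 1))⁻¹ := by
      intro i j hj
      have := j.2
      rw [hcomm 0 1 (j.val + 1) (j.val + 2) (by omega) (by omega) (by omega) (by omega) (by omega) (by omega) (by omega) (by omega)]
      simp [mul_assoc]
    rintro r (((⟨i, hi, rfl⟩ | ⟨i, hi, rfl⟩) | ⟨i, j, hi, rfl⟩) | ⟨i, j, hi, rfl⟩)
    · simp only [map_pow, FreeGroup.lift_apply_of, hi]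
      exact hthree 0 1 2 (by omega) (by omega) (by omega) (by omega) (by omega) (by omega)
    · simp only [map_pow, FreeGroup.lift_apply_of]
      rw [pow_two, hpr i i hi]; simp
    · simp only [map_pow, map_mul, FreeGroup.lift_apply_of]
      have := j.2
      rw [hpr i j (by omega), conj_pow, hi, hthree _ _ _ (by omega) (by omega) (by omega) (by omega) (by omega) (by omega)]
      simp
    · simp only [map_pow, map_mul, FreeGroup.lift_apply_of]
      have := j.2
      rw [hpr i j (by omega), conj_pow, pow_two]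
      conv_lhs => enter [1, 2, 2]; rw [hcomm _ _ _ _ (by omega) (by omega) (by omega) (by omega) (by omega) (by omega) (by omega) (by omega)]
      simp [mul_assoc]
  exact main n hn x (PresentedGroup.closure_range_of R) h1 h2 h3 h4 (PresentedGroup.toGroup hθ)
    (fun i => by simp [x]) pt hpt (PresentedGroup.toGroup hf) (fun i => by simp [x])

end Cfsg.Agent.S3335
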