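import Cfsg.Statements.S3349
import Cfsg.Agent.PGrp.ES
import Mathlib.Tactic.Group

set_option autoImplicit false
open Cfsg

namespace Cfsg.Agent.S3349
open scoped commutatorElement

open PGrp

/-- Let Q be a finite extraspecial p-group and α an automorphism of Q fixing every element of some maximal abelian subgroup of Q. Then the order of α is a power of p. -/
theorem result {Q : Type*} [Group Q] [Finite Q]
    (p : ℕ) [Fact p.Prime] (hQ : Cfsg.IsExtraspecial p Q) (α : MulAut Q)
    (A : Subgroup Q) (hA : IsMulCommutative A) (hmax : ∀ B : Subgroup Q, A ≤ B → IsMulCommutative B → B = A)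
    (hfix : ∀ a ∈ A, α a = a) :
    ∃ k : ℕ, orderOf α = p ^ k := by
  obtain ⟨z, hz, hZ⟩ := exists_isES hQ
  have hC : ∀ x ∈ Subgroup.centralizer (A : Set Q), x ∈ A := fun x hx =>
    (hmax _ le_sup_left (isMulCommutative_sup_zpowers hx)).le (Subgroup.mem_sup_right (Subgroup.mem_zpowers x))
  have hZA : Subgroup.zpowers z ≤ A := fun x hx => hC x fun a _ => (hz.commute_of_mem hx a).symm
  have h1 : ∀ q : Q, q⁻¹ * α q ∈ A := fun q => hC _ fun a ha => by
    have h2 : q * a * q⁻¹ ∈ A := by
      have : q * a * q⁻¹ = ⁅q, a⁆ * a := by group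
      exact this ▸ A.mul_mem (hZA (hz.comm q a)) ha
    have := hfix _ h2
    rw [map_mul, map_mul, map_inv, hfix a ha] at this
    calc a * (q⁻¹ * α q) = q⁻¹ * (q * a * q⁻¹) * α q := by group
      _ = _ := by rw [← this]; group
  have h3 : ∀ (n : ℕ) (q : Q), (α ^ n) q = q * (q⁻¹ * α q) ^ n := fun n q => by
    induction n with
    | zero => simp
    | succ n ih => rw [pow_succ', MulAut.mul_apply, ih, map_mul, hfix _ (A.pow_mem (h1 q) n), pow_succ', ← mul_assoc, mul_inv_cancel_left]
  have : α ^ p ^ 2 = 1 := MulEquiv.ext fun q => by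
    rw [h3, sq, pow_mul, hz.pow_eq_one (hz.pow _), mul_one, MulAut.one_apply]
  obtain ⟨k, -, hk⟩ := (Nat.dvd_prime_pow Fact.out).1 (orderOf_dvd_of_pow_eq_one this)
  exact ⟨k, hk⟩

end Cfsg.Agent.S3349
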