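import Cfsg.Statements.S3366
import Cfsg.Agent.Mult.S43b
import Cfsg.Agent.Classical.SpSimple
import Cfsg.Agent.Solv.Core
import Cfsg.Agent.S0822

set_option autoImplicit false
open Cfsg

namespace Cfsg.Agent.S3366

open Cfsg.Agent.Mult Cfsg.Agent.Classical Matrix Subgroup

/-- `Sp₄(3)` -/
abbrev S4 := symplecticGroup (Fin 2) (ZMod 3)

/-- elements of `Sp₄(3)` -/
def mk4 (A B C D : Matrix (Fin 2) (Fin 2) (ZMod 3))
    (h : fromBlocks A B C D * J (Fin 2) (ZMod 3) * (fromBlocks A B C D)ᵀ = J (Fin 2) (ZMod 3)) : S4 :=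
  ⟨fromBlocks A B C D, h⟩

def ga : S4 := mk4 !![1, 1; 0, 1] !![0, 2; 2, 0] !![0, 0; 0, 0] !![1, 0; 2, 1] (by decide +kernel)
def gb : S4 := mk4 !![1, 2; 0, 1] !![0, 2; 2, 0] !![0, 0; 0, 0] !![1, 0; 1, 1] (by decide +kernel)
def gz : S4 := mk4 !![1, 0; 0, 1] !![2, 0; 0, 0] !![0, 0; 0, 0] !![1, 0; 0, 1] (by decide +kernel)
def gs : S4 := mk4 !![1, 0; 0, 0] !![0, 0; 0, 1] !![0, 0; 0, 2] !![1, 0; 0, 2] (by decide +kernel)
def gi : S4 := mk4 !![1, 0; 0, 0] !![0, 0; 0, 1] !![0, 0; 0, 2] !![1, 0; 0, 0] (by decide +kernel)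
def gj : S4 := mk4 !![1, 0; 0, 1] !![0, 0; 0, 1] !![0, 0; 0, 1] !![1, 0; 0, 2] (by decide +kernel)
def gw : S4 := mk4 !![2, 0; 0, 2] !![0, 0; 0, 0] !![0, 0; 0, 0] !![2, 0; 0, 2] (by decide +kernel)
def e1 : Fin 2 ⊕ Fin 2 → ZMod 3 := Sum.elim ![1, 0] ![0, 0]
def f1 : Fin 2 ⊕ Fin 2 → ZMod 3 := Sum.elim ![0, 0] ![1, 0]

theorem rel : R648 ga gb gz gs gi gj := by
  constructor <;> (try simp only [pow_succ, pow_zero, one_mul]) <;> apply Subtype.ext <;> decide +kernel

theorem gz_smul : ∀ v : Fin 2 ⊕ Fin 2 → ZMod 3, gz.1 *ᵥ v = v + (2 * v (.inr 0)) • e1 := by decide +kernel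
theorem gw_smul : ∀ v : Fin 2 ⊕ Fin 2 → ZMod 3, gw.1 *ᵥ v = (2 : ZMod 3) • v := by decide +kernel

theorem model : ∃ (c : PSp 2 (ZMod 3)) (S : Sylow 3 (PSp 2 (ZMod 3))), orderOf c = 3 ∧ c ∈ (S : Subgroup (PSp 2 (ZMod 3))) ∧
    c ∈ centralizer ((S : Subgroup (PSp 2 (ZMod 3))) : Set (PSp 2 (ZMod 3))) ∧
    Nonempty ((closure {ga, gs, gi} : Subgroup S4) ≃* centralizer ({c} : Set (PSp 2 (ZMod 3)))) := by
  have z1 : gz ≠ 1 := fun e => absurd (congrArg Subtype.val e) (by decide +kernel)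
  have z3 : gz ^ 3 = 1 := by
    simp only [pow_succ, pow_zero, one_mul]; apply Subtype.ext; decide +kernel
  obtain ⟨k, S, hS, kS, zS⟩ := rel.card z1
  set K : Subgroup S4 := closure {ga, gs, gi}
  have e0 : e1 ≠ 0 := by decide +kernel
  have e0' : ∀ g : S4, g • e1 ≠ 0 := fun g e => e0 (by rw [← inv_smul_smul g e1, e, sp_smul_def, mulVec_zero])
  have cG : Nat.card S4 = 51840 := by rw [card_sp]; simp [Finset.prod_range_succ]
  have hK : K = MulAction.stabilizer S4 e1 := by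
    refine eq_of_le_of_card_ge ?_ ?_
    · rw [closure_le]
      rintro _ (rfl | rfl | rfl) <;> rw [SetLike.mem_coe, MulAction.mem_stabilizer_iff, sp_smul_def] <;> decide +kernel
    · have h1 := (MulAction.stabilizer S4 e1).card_mul_index
      have h2 : MulAction.orbit S4 e1 = {0}ᶜ := by
        ext v
        constructor
        · rintro ⟨g, rfl⟩
          exact e0' g
        · intro hv
          exact sp_exists_smul_eq e0 hv
      rw [MulAction.index_stabilizer, h2, Set.ncard_compl, cG, Set.ncard_singleton,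
        show Nat.card (Fin 2 ⊕ Fin 2 → ZMod 3) = 81 by simp] at h1
      rw [k]
      omega
  have c2 : ∀ w ∈ center S4, w ^ 2 = 1 := fun w hw => by
    have := pow_card_eq_one' (x := (⟨w, hw⟩ : center S4))
    rw [card_center_sp (by norm_num)] at this
    simpa using congrArg Subtype.val this
  have wc : gw ∈ center S4 := mem_center_iff.2 fun g => sp_ext fun v => by
    rw [mul_smul, mul_smul, sp_smul_def gw, sp_smul_def gw, gw_smul, gw_smul, sp_smul_smul]
  let π := QuotientGroup.mk' (center S4)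
  have kπ : ∀ x, π x = 1 ↔ x ∈ center S4 := QuotientGroup.eq_one_iff
  have inj : ∀ x ∈ K, π x = 1 → x = 1 := fun x hx h => by
    rw [hK, MulAction.mem_stabilizer_iff] at hx
    refine sp_ext fun v => ?_
    by_cases hv : v = 0
    · simp [hv]
    obtain ⟨g, rfl⟩ := sp_exists_smul_eq e0 hv
    rw [← mul_smul, ← mem_center_iff.1 ((kπ x).1 h) g, mul_smul, hx, one_smul]
  have Kz : K ≤ centralizer {gz} := by
    rw [closure_le]
    rintro _ (rfl | rfl | rfl)
    exacts [mem_centralizer_singleton_iff.2 rel.ζa, mem_centralizer_singleton_iff.2 rel.ζs,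
      mem_centralizer_singleton_iff.2 rel.ζi]
  have hC : K.map π = centralizer {π gz} := by
    refine le_antisymm ?_ fun g hg => ?_
    · rintro _ ⟨x, hx, rfl⟩
      rw [mem_centralizer_singleton_iff, ← map_mul, ← map_mul, mem_centralizer_singleton_iff.1 (Kz hx)]
    obtain ⟨g, rfl⟩ := QuotientGroup.mk'_surjective _ g
    have h1 : gz⁻¹ * (g * gz * g⁻¹) ∈ center S4 := (kπ _).1 (by
      have : π g * π gz = π gz * π g := mem_centralizer_singleton_iff.1 hg
      simp only [map_mul, map_inv]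
      rw [this]; simp)
    have h2 : g * gz * g⁻¹ = gz * (gz⁻¹ * (g * gz * g⁻¹)) := by simp
    have h3 : (g * gz * g⁻¹) ^ 3 = 1 := by rw [conj_pow, z3]; simp
    rw [h2, (show Commute gz _ from mem_center_iff.1 h1 gz).mul_pow, z3, one_mul, pow_succ, c2 _ h1, one_mul] at h3
    rw [h3, mul_one, mul_inv_eq_iff_eq_mul] at h2
    have h4 := congrArg (fun t : S4 => t • f1) h2
    simp only [mul_smul, sp_smul_def gz, gz_smul, smul_add, add_right_inj, sp_smul_smul] at h4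
    have h5 := e0' g
    have h6 : ∀ (v : Fin 2 ⊕ Fin 2 → ZMod 3) (t : ZMod 3), v ≠ 0 →
        (2 : ZMod 3) • f1 (.inr 0) • v = (2 : ZMod 3) • t • e1 →
        v = e1 ∨ (2 : ZMod 3) • v = e1 := by decide +kernel
    rcases h6 _ _ h5 h4 with h | h
    · exact ⟨g, hK ▸ h, rfl⟩
    · refine ⟨gw * g, hK ▸ (show (gw * g) • e1 = e1 by rw [mul_smul, sp_smul_def gw, gw_smul, h]), ?_⟩
      rw [map_mul, (kπ gw).2 wc, one_mul]
  have ij : ∀ H ≤ K, Function.Bijective (π.subgroupMap H) := fun H hH =>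
    ⟨(injective_iff_map_eq_one (π.subgroupMap H)).2 fun x h => Subtype.ext (inj x (hH x.2) (congrArg Subtype.val h)),
      π.subgroupMap_surjective H⟩
  have cP : Nat.card (PSp 2 (ZMod 3)) = 25920 := by
    have := card_PSp_mul (F := ZMod 3) (m := 2) (by norm_num)
    simp [Finset.prod_range_succ] at this
    omega
  refine ⟨π gz, Sylow.ofCard (S.map π) ?_, orderOf_eq_prime (by rw [← map_pow, z3, map_one])
    (fun e => z1 (inj _ (hS zS) e)), mem_map_of_mem π zS, ?_,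
    ⟨(MulEquiv.ofBijective _ (ij K le_rfl)).trans (MulEquiv.subgroupCongr hC)⟩⟩
  · rw [← Nat.card_eq_of_bijective _ (ij S hS), kS, cP, show 25920 = 3 ^ 4 * 320 by norm_num,
      Nat.factorization_mul (by norm_num) (by norm_num), Nat.factorization_pow]
    simp [Nat.Prime.factorization_self Nat.prime_three, Nat.factorization_eq_zero_of_not_dvd]
  · rintro _ ⟨x, hx, rfl⟩
    rw [← map_mul, ← map_mul, mem_centralizer_singleton_iff.1 (Kz (hS hx))]

/-- Let X be a finite group with O₃(X) extraspecial of order 27 and exponent 3, X/O₃(X) isomorphic to SL(2,3), O₂(X) = 1, and a Sylow 3-subgroup of X containing an elementary abelian subgroup of order 27. Then X is isomorphic to the centralizer in PSp(4,3) of a 3-central element of order 3 (an element of order 3 in the centre of a Sylow 3-subgroup). -/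
theorem result {X : Type*} [Group X] [Finite X]
    (hR : Cfsg.IsExtraspecial 3 (Cfsg.pCore 3 X)) (hRcard : Nat.card (Cfsg.pCore 3 X) = 27)
    (hRexp : ∀ r ∈ Cfsg.pCore 3 X, r ^ 3 = 1)
    (e : X ⧸ Cfsg.pCore 3 X ≃* Matrix.SpecialLinearGroup (Fin 2) (ZMod 3))
    (hO2 : Cfsg.pCore 2 X = ⊥)
    (hE : ∃ E : Subgroup X, IsMulCommutative E ∧ (∀ a ∈ E, a ^ 3 = 1) ∧ Nat.card E = 27)
    (F : Type*) [Field F] [Fintype F] (hF : Fintype.card F = 3) :
    ∃ (c : Cfsg.PSp 2 F) (S : Sylow 3 (Cfsg.PSp 2 F)), orderOf c = 3 ∧ c ∈ (S : Subgroup (Cfsg.PSp 2 F)) ∧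
      c ∈ Subgroup.centralizer ((S : Subgroup (Cfsg.PSp 2 F)) : Set (Cfsg.PSp 2 F)) ∧
      Nonempty (X ≃* Subgroup.centralizer ({c} : Set (Cfsg.PSp 2 F))) := by
  haveI : Fact (Nat.Prime 3) := ⟨Nat.prime_three⟩
  haveI : Fact (Nat.Prime 2) := ⟨Nat.prime_two⟩
  obtain ⟨E, hE1, hE2, hE3⟩ := hE
  obtain ⟨hX, a, b, ζ, s, i, j, h, h1⟩ := exists_R648 (pCore 3 X) hR.1.2.2 hR.2 hRcard hRexp
    (e.toMonoidHom.comp (QuotientGroup.mk' _)) (e.surjective.comp (QuotientGroup.mk'_surjective _)) (fun x => by simp)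
    (fun z h1 h2 => by
      haveI : (zpowers z).Normal := ⟨fun x hx g => by
        rwa [mem_center_iff.1 (zpowers_le.2 (mem_center_iff.2 h2) hx) g, mul_inv_cancel_right]⟩
      have : zpowers z ≤ pCore 2 X := Solv.le_pCore (IsPGroup.iff_card.2 (by
        rw [Nat.card_zpowers]
        obtain ⟨k, -, hk⟩ := (Nat.dvd_prime_pow Nat.prime_two).1 (orderOf_dvd_of_pow_eq_one (show z ^ 2 ^ 1 = 1 by rw [pow_one, sq]; exact h1))
        exact ⟨k, hk⟩))
      exact mem_bot.1 (hO2 ▸ this (mem_zpowers z)))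
    E (fun a ha b hb => congrArg Subtype.val (hE1.is_comm.comm (⟨a, ha⟩ : E) ⟨b, hb⟩)) hE2 hE3
  obtain ⟨e1⟩ := h.equiv rel h1 fun e => absurd (congrArg Subtype.val e) (by decide +kernel)
  have ht : (closure {a, s, i} : Subgroup X) = ⊤ := eq_top_of_card_eq _ (by rw [(h.card h1).1, hX])
  obtain ⟨c, S, c1, c2, c3, ⟨e2⟩⟩ := model
  obtain ⟨φ⟩ := S0822.nonempty_psp_congr 2 (ZMod.ringEquivOfPrime F Nat.prime_three hF)
  refine ⟨φ c, S.mapSurjective (f := φ.toMonoidHom) φ.surjective, by rw [MulEquiv.orderOf_eq, c1], ⟨c, c2, rfl⟩, ?_,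
    ⟨((topEquiv.symm.trans (MulEquiv.subgroupCongr ht.symm)).trans e1).trans (e2.trans ((φ.subgroupMap _).trans
      (MulEquiv.subgroupCongr ?_)))⟩⟩
  · rintro _ ⟨x, hx, rfl⟩
    simpa using congrArg φ (c3 x hx)
  · ext x
    obtain ⟨x, rfl⟩ := φ.surjective x
    rw [mem_centralizer_singleton_iff, ← map_mul, ← map_mul, φ.injective.eq_iff, ← mem_centralizer_singleton_iff]
    exact mem_map_iff_mem (f := (φ : PSp 2 (ZMod 3) →* PSp 2 F)) φ.injective

end Cfsg.Agent.S3366
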