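import Cfsg.Statements.S3376
import Cfsg.Agent.S0065
import Mathlib

set_option autoImplicit false
open Cfsg

namespace Cfsg.Agent.S3376

open Subgroup Equiv

theorem ct3 {σ : Perm (Fin 9)} (h3 : orderOf σ = 3) (h : ∀ x, σ x ≠ x) : σ.cycleType = Multiset.replicate 3 3 := by
  obtain ⟨n, hn⟩ := Perm.cycleType_prime_order (σ := σ) (h3 ▸ Nat.prime_three)
  have := σ.sum_cycleType
  rw [hn, h3, show σ.support = Finset.univ from Finset.eq_univ_of_forall fun x => Perm.mem_support.2 (h x)] at this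
  simp at this
  rw [hn, h3, show n + 1 = 3 by omega]

/-- Let G be a group of order 162 = 3⁴·2 with Sylow 3-subgroup S and Sylow 2-subgroup T, having an elementary abelian normal subgroup J of order 27, such that Z = Z(S) has order 3, Z centralizes T, and C_S(T) ≠ S. Then G is isomorphic to the centralizer in Sym(9) of a product of three disjoint 3-cycles. -/
theorem result {G : Type*} [Group G] [Finite G] (hG : Nat.card G = 162)
    (S : Sylow 3 G) (T : Sylow 2 G) (J : Subgroup G) [hJn : J.Normal] (hJcomm : IsMulCommutative J)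
    (hJexp : ∀ a ∈ J, a ^ 3 = 1) (hJcard : Nat.card J = 27)
    (Z : Subgroup G) (hZ : Z = (S : Subgroup G) ⊓ Subgroup.centralizer ((S : Subgroup G) : Set G)) (hZcard : Nat.card Z = 3)
    (hZT : Z ≤ Subgroup.centralizer ((T : Subgroup G) : Set G))
    (hST : (S : Subgroup G) ⊓ Subgroup.centralizer ((T : Subgroup G) : Set G) ≠ S) :
    Nonempty (G ≃* Subgroup.centralizer ({Equiv.swap (0 : Fin 9) 1 * Equiv.swap 1 2 * Equiv.swap 3 4 * Equiv.swap 4 5 * Equiv.swap 6 7 * Equiv.swap 7 8} : Set (Equiv.Perm (Fin 9)))) := by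
  classical
  haveI : Fact (Nat.Prime 3) := ⟨Nat.prime_three⟩
  haveI : Fact (Nat.Prime 2) := ⟨Nat.prime_two⟩
  have cS : Nat.card S = 81 := by
    rw [S.card_eq_multiplicity, hG, show 162 = 2 * 3 ^ 4 from rfl, Nat.factorization_mul (by simp) (by simp),
      Nat.factorization_pow]
    simp [Nat.prime_three.factorization_self, Nat.factorization_eq_zero_of_not_dvd]
  have cT : Nat.card T = 2 := by
    rw [T.card_eq_multiplicity, hG, show 162 = 2 * 3 ^ 4 from rfl, Nat.factorization_mul (by simp) (by simp)]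
    simp [Nat.prime_two.factorization_self, Nat.factorization_eq_zero_of_not_dvd]
  have iS : (S : Subgroup G).index = 2 := by
    have := (S : Subgroup G).index_mul_card
    erw [cS, hG] at this
    omega
  haveI : (S : Subgroup G).Normal := normal_of_index_eq_two iS
  haveI := S.isPGroup'.isNilpotent
  have hN : ∀ N : Subgroup G, N.Normal → N ⊓ S ≠ ⊥ → Z ≤ N := fun N hn h => by
    obtain ⟨⟨y, hy, hc⟩, hne⟩ := ne_bot_iff_exists_ne_one.1 (S0065.result (N.subgroupOf S) fun e => h (by
      rwa [subgroupOf_eq_bot, disjoint_iff] at e))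
    have hyZ : (y : G) ∈ Z := hZ ▸ ⟨y.2, fun g hg => congrArg Subtype.val (mem_center_iff.1 hc ⟨g, hg⟩)⟩
    haveI : Fact (Nat.card Z).Prime := ⟨hZcard ▸ Nat.prime_three⟩
    have := zpowers_eq_top_of_prime_card (G := Z) rfl (g := ⟨y, hyZ⟩) fun e =>
      hne (Subtype.ext (Subtype.ext (show (y : G) = 1 from congrArg Subtype.val e)))
    intro w hw
    obtain ⟨k, hk⟩ : (⟨w, hw⟩ : Z) ∈ zpowers (⟨y, hyZ⟩ : Z) := this ▸ mem_top _
    rw [← show (y : G) ^ k = w from congrArg Subtype.val hk]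
    exact zpow_mem (show (y : G) ∈ N from hy) k
  have hJS : J ≤ S := (IsPGroup.of_card (n := 3) hJcard).le_sylow_of_normal S
  have hZJ : Z ≤ J := hN J hJn (by rw [inf_eq_left.2 hJS]; intro e; simp [e] at hJcard)
  obtain ⟨⟨z, hz⟩, hz1⟩ := ne_bot_iff_exists_ne_one.1 (show Z ≠ ⊥ by intro e; simp [e] at hZcard)
  obtain ⟨⟨t, ht⟩, ht1⟩ := ne_bot_iff_exists_ne_one.1 (T.ne_bot_of_dvd_card (by rw [hG]; norm_num))
  have z1 : z ≠ 1 := fun e => hz1 (Subtype.ext e)
  have t1 : t ≠ 1 := fun e => ht1 (Subtype.ext e)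
  have tt : t * t = 1 := by
    have := pow_card_eq_one' (x := (⟨t, ht⟩ : T))
    erw [cT, pow_two] at this
    exact congrArg Subtype.val this
  have ti : t⁻¹ = t := inv_eq_of_mul_eq_one_right tt
  have tS : t ∉ (S : Subgroup G) := fun h => by
    have := orderOf_dvd_natCard (⟨t, h⟩ : (S : Subgroup G))
    erw [orderOf_mk, orderOf_eq_prime (p := 2) (by rw [pow_two, tt]) t1, cS] at this
    omega
  have zt : t * z = z * t := hZT hz t ht
  have zc : ∀ g, g * z = z * g := fun g => by
    have hzS : ∀ g ∈ (S : Subgroup G), g * z = z * g := (hZ ▸ hz : z ∈ (S : Subgroup G) ⊓ centralizer _).2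
    by_cases hg : g ∈ (S : Subgroup G)
    · exact hzS g hg
    · have := hzS _ ((mul_mem_iff_of_index_two iS).2 (iff_of_false hg tS))
      rwa [mul_assoc, zt, ← mul_assoc, ← mul_assoc, mul_left_inj] at this
  letI : CommGroup J := { (inferInstance : Group J) with mul_comm := hJcomm.is_comm.comm }
  haveI : NeZero ((Monoid.exponent J : ℕ) : ℂ) := ⟨Nat.cast_ne_zero.2 Monoid.exponent_ne_zero_of_finite⟩
  obtain ⟨f, hf⟩ := CommGroup.exists_apply_ne_one_of_hasEnoughRootsOfUnity J ℂ (a := ⟨z, hZJ hz⟩)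
    fun e => z1 (congrArg Subtype.val e)
  let c : J →* J := (MulAut.conjNormal t : MulAut J).toMonoidHom
  let f' : J →* ℂˣ := f * f.comp c
  have f3 : ∀ j, f' j ^ 3 = 1 := fun j => by rw [← map_pow, show j ^ 3 = 1 from Subtype.ext (hJexp j j.2), map_one]
  have fz : f' ⟨z, hZJ hz⟩ ≠ 1 := fun e => hf (by
    have e1 : c ⟨z, hZJ hz⟩ = ⟨z, hZJ hz⟩ := Subtype.ext (by simp [c, zt])
    have e2 : f ⟨z, hZJ hz⟩ ^ 3 = 1 := by
      rw [← map_pow, show (⟨z, hZJ hz⟩ : J) ^ 3 = 1 from Subtype.ext (hJexp z (hZJ hz)), map_one]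
    simp only [f', MonoidHom.mul_apply, MonoidHom.comp_apply, e1] at e
    rwa [pow_three, e, mul_one] at e2)
  have fc : ∀ j, f' (c j) = f' j := fun j => by
    have : c (c j) = j := Subtype.ext (by simp [c, ti, mul_assoc, tt, ← mul_assoc t t])
    simp only [f', MonoidHom.mul_apply, MonoidHom.comp_apply, this, mul_comm]
  have cK : Nat.card f'.ker = 9 := by
    have h1 := f'.ker.index_mul_card
    rw [index_ker, hJcard] at h1
    have h2 : Nat.card f'.range ≤ 3 := (card_le_of_le (K := rootsOfUnity 3 ℂ) (by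
      rintro _ ⟨j, rfl⟩; exact f3 j)).trans (card_rootsOfUnity ℂ 3)
    have h3 : Nat.card f'.range ≠ 1 := fun e => fz (by
      rw [card_eq_one] at e
      exact mem_bot.1 (e ▸ ⟨_, rfl⟩))
    generalize Nat.card f'.range = a at *
    interval_cases a <;> omega
  let U := f'.ker.map J.subtype
  have hUt : ∀ u ∈ U, t * u * t ∈ U := by
    rintro _ ⟨j, hj, rfl⟩
    exact ⟨c j, (fc j).trans hj, by simp [c, ti]⟩
  have hUS : U ≤ S := (map_subtype_le _).trans hJS
  let H : Subgroup G :=
    { carrier := {g | g ∈ U ∨ g * t ∈ U}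
      one_mem' := Or.inl (one_mem _)
      mul_mem' := by
        rintro a b (h1 | h1) (h2 | h2)
        · exact Or.inl (mul_mem h1 h2)
        · exact Or.inr (by rw [mul_assoc]; exact mul_mem h1 h2)
        · exact Or.inr (by simpa [mul_assoc, ← mul_assoc t t, tt] using mul_mem h1 (hUt _ h2))
        · exact Or.inl (by simpa [mul_assoc, ← mul_assoc t t, tt] using mul_mem h1 (hUt _ h2))
      inv_mem' := by
        rintro a (h | h)
        · exact Or.inl (inv_mem h)
        · exact Or.inr (by simpa [mul_assoc, ← mul_assoc t t, tt, ti] using hUt _ (inv_mem h)) }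
  have hHS : ∀ g ∈ H, g ∈ (S : Subgroup G) → g ∈ U := fun g hg h => hg.resolve_right fun e =>
    tS ((mul_mem_cancel_left h).1 (hUS e))
  have zU : z ∉ U := by
    rintro ⟨j, hj, e⟩
    exact fz (by rw [show (⟨z, hZJ hz⟩ : J) = j from Subtype.ext e.symm]; exact hj)
  have zH : z ∉ H := fun h => zU (hHS z h (hJS (hZJ hz)))
  have iH : H.index = 9 := by
    have h1 : U.relIndex H = 2 := relIndex_eq_two_iff.2 ⟨t, Or.inr (by rw [tt]; exact one_mem _), fun b hb => by
      rcases hb with h | h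
      · exact Or.inr ⟨h, fun e => tS ((mul_mem_cancel_left (hUS h)).1 (hUS e))⟩
      · exact Or.inl ⟨h, fun e => tS ((mul_mem_cancel_left (hUS e)).1 (hUS h))⟩⟩
    have h2 := relIndex_mul_index (show U ≤ H from fun g hg => Or.inl hg)
    have h3 := U.index_mul_card
    rw [card_map_of_injective J.subtype_injective, cK, hG] at h3
    rw [h1] at h2
    omega
  have hcore : H.normalCore = ⊥ := by
    by_contra hne
    have h1 : H.normalCore ⊓ S = ⊥ := by
      by_contra h
      exact zH (H.normalCore_le (hN _ inferInstance h hz))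
    obtain ⟨⟨n, hn⟩, hn1⟩ := ne_bot_iff_exists_ne_one.1 hne
    have nS : n ∉ (S : Subgroup G) := fun h => hn1 (Subtype.ext (mem_bot.1 (h1 ▸ mem_inf.2 ⟨hn, h⟩)))
    have h2 : ∀ a ∈ H.normalCore, a ∈ (S : Subgroup G) → a = 1 := fun a ha h => mem_bot.1 (h1 ▸ mem_inf.2 ⟨ha, h⟩)
    have nn : n * n = 1 := h2 _ (mul_mem hn hn) ((mul_mem_iff_of_index_two iS).2 Iff.rfl)
    have nc : ∀ g, g * n * g⁻¹ = n := fun g => by
      have := h2 _ (mul_mem (Normal.conj_mem inferInstance n hn g) hn) ((mul_mem_iff_of_index_two iS).2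
        (iff_of_false (fun h => nS (by simpa [mul_assoc] using Normal.conj_mem inferInstance _ h g⁻¹)) nS))
      exact mul_right_cancel (this.trans nn.symm)
    haveI : (zpowers n).Normal := ⟨fun m ⟨k, hk⟩ g => ⟨k, by rw [← hk, ← conj_zpow, nc]⟩⟩
    have nT : n ∈ (T : Subgroup G) := (IsPGroup.of_card (n := 1) (by
      rw [Nat.card_zpowers, orderOf_eq_prime (by rw [pow_two, nn]) fun e => hn1 (Subtype.ext e)]; rfl)).le_sylow_of_normal T
        (mem_zpowers n)
    refine hST (inf_eq_left.2 fun g hg y hy => ?_)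
    obtain ⟨w, -, hw⟩ := (Nat.card_eq_two_iff' (1 : T)).1 cT
    by_cases h : y = 1
    · simp [h]
    · have : y = n := congrArg Subtype.val ((hw ⟨y, hy⟩ fun e => h (congrArg Subtype.val e)).trans
        (hw ⟨n, nT⟩ fun e => hn1 (Subtype.ext (show n = 1 from congrArg Subtype.val e))).symm)
      rw [this, eq_comm, ← mul_inv_eq_iff_eq_mul, nc]
  let e : G ⧸ H ≃ Fin 9 := Finite.equivFinOfCardEq iH
  let φ : G →* Perm (Fin 9) := e.permCongrHom.toMonoidHom.comp (MulAction.toPermHom G (G ⧸ H))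
  have hφ : Function.Injective φ := e.permCongrHom.injective.comp (by
    rw [← MonoidHom.ker_eq_bot_iff, ← normalCore_eq_ker, hcore])
  have h1 := ct3 (σ := φ z) (by
    rw [orderOf_injective φ hφ]; exact orderOf_eq_prime (hJexp z (hZJ hz)) z1) fun x hx => by
      obtain ⟨y, rfl⟩ := e.surjective x
      obtain ⟨g, rfl⟩ := QuotientGroup.mk_surjective y
      simp only [φ, MonoidHom.comp_apply, MulEquiv.coe_toMonoidHom, permCongrHom_coe, permCongr_apply, symm_apply_apply,
        EmbeddingLike.apply_eq_iff_eq, MulAction.toPermHom_apply, MulAction.toPerm_apply,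
        MulAction.Quotient.smul_mk, smul_eq_mul] at hx
      rw [eq_comm, QuotientGroup.eq, ← zc, inv_mul_cancel_left] at hx
      exact zH hx
  set τ : Perm (Fin 9) := swap (0 : Fin 9) 1 * swap 1 2 * swap 3 4 * swap 4 5 * swap 6 7 * swap 7 8 with hτ
  have h2 := ct3 (σ := τ) (orderOf_eq_prime (by rw [hτ]; decide) (by rw [hτ]; decide)) (by rw [hτ]; decide)
  obtain ⟨g, hg⟩ := isConj_iff.1 (Perm.isConj_of_cycleType_eq (h1.trans h2.symm))
  let ψ : G →* centralizer ({τ} : Set (Perm (Fin 9))) := ((MulAut.conj g).toMonoidHom.comp φ).codRestrict _ fun x => by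
    rw [mem_centralizer_singleton_iff, ← hg]
    simp only [MonoidHom.comp_apply, MulEquiv.coe_toMonoidHom, MulAut.conj_apply, conj_mul, ← map_mul, zc]
  refine ⟨MulEquiv.ofBijective ψ ((Nat.bijective_iff_injective_and_card ψ).2 ⟨fun a b h =>
    hφ ((MulAut.conj g).injective (congrArg Subtype.val h)), ?_⟩)⟩
  rw [hG, Perm.nat_card_centralizer, h2]
  decide

end Cfsg.Agent.S3376
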