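import Cfsg.Statements.S3385
import Cfsg.Agent.Loc.Sims3

set_option autoImplicit false
open Cfsg

namespace Cfsg.Agent.S3385

/-- Sims' Theorem on primitive groups with a suborbit of length 3. Let G be a finite group acting faithfully and primitively on a set Ω, and suppose the stabilizer of a point a has an orbit of length 3 on Ω. Then the stabilizer of a has order 2^k · 3 for some k ≤ 4. -/
theorem result {G : Type*} [Group G] [Finite G] {Ω : Type*} [MulAction G Ω] [FaithfulSMul G Ω]
    (hprim : MulAction.IsPreprimitive G Ω) (a b : Ω)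
    (h3 : Nat.card (MulAction.orbit (MulAction.stabilizer G a) b) = 3) :
    ∃ k : ℕ, k ≤ 4 ∧ Nat.card ↥(MulAction.stabilizer G a) = 2 ^ k * 3 := by
  open Cfsg.Agent.Loc Subgroup in
  open scoped commutatorElement in
  rcases prim3 hprim a b h3 with h | ⟨T, h, s⟩
  · exact ⟨0, by omega, h⟩
  rcases h.struct s with ⟨h, -⟩ | ⟨h, -⟩ | ⟨h, -⟩ | ⟨h, -⟩
  exacts [⟨1, by omega, h⟩, ⟨2, by omega, h⟩, ⟨3, by omega, h⟩, ⟨4, by omega, h⟩]

end Cfsg.Agent.S3385
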