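import Cfsg.Statements.S3389
import Cfsg.Agent.FG.Derange
import Cfsg.Agent.Frob.Basic
import Cfsg.Agent.Gen2.FixCount

set_option autoImplicit false
open Cfsg

namespace Cfsg.Agent.S3389

open Cfsg.Agent.FG Subgroup MulAction

/-- Let G be a finite group acting faithfully and transitively on a finite set Ω with fixity k ≥ 1: every non-identity element fixes at most k points and some non-identity element fixes exactly k points. Then |Z(G)| divides k; if k = 2 then |G| is even; and for every prime p > k dividing |G| and every point α, either p does not divide |G_α| or G_α contains a Sylow p-subgroup of G. -/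
theorem result {G : Type*} [Group G] [Finite G] {Ω : Type*} [Fintype Ω] [MulAction G Ω] [FaithfulSMul G Ω]
    (htr : MulAction.IsPretransitive G Ω) (k : ℕ) (hk : 1 ≤ k)
    (hfix : ∀ g : G, g ≠ 1 → Nat.card (MulAction.fixedBy Ω g) ≤ k) (hex : ∃ g : G, g ≠ 1 ∧ Nat.card (MulAction.fixedBy Ω g) = k) :
    Nat.card (Subgroup.center G) ∣ k ∧ (k = 2 → 2 ∣ Nat.card G) ∧
      ∀ (p : ℕ), p.Prime → k < p → p ∣ Nat.card G → ∀ α : Ω,
        ¬ p ∣ Nat.card (MulAction.stabilizer G α) ∨ ¬ p ∣ (MulAction.stabilizer G α).index := by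
  obtain ⟨g, g1, hg⟩ := hex
  haveI : IsPretransitive (⊤ : Subgroup G) Ω := ⟨fun a b => let ⟨k, hk⟩ := exists_smul_eq G a b; ⟨⟨k, mem_top k⟩, hk⟩⟩
  refine ⟨hg ▸ card_dvd_ncard _ (fun z hz x (hx : g • x = x) => show g • z • x = z • x by
    rw [← mul_smul, mem_center_iff.1 hz g, mul_smul, hx]) fun z hz x _ =>
      Perm.eq_one_of_commute this fun h _ => mem_center_iff.1 hz h, ?_, fun p hp hkp _ a => ?_⟩
  · classical
    rintro rfl
    by_contra h2
    obtain ⟨a, b, hab, e⟩ := Set.ncard_eq_two.1 hg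
    have h3 : ∀ x : G, x ≠ 1 → x • a = a → x • b = b → fixedBy Ω x = {a, b} := fun x hx ha hb =>
      (Set.eq_of_subset_of_ncard_le (t := fixedBy Ω x) (Set.pair_subset ha hb) ((hfix x hx).trans_eq (Set.ncard_pair hab).symm)).symm
    have hU : IsFrobeniusComplement (stabilizer G a ⊓ stabilizer G b) := Frob.isFrobeniusComplement_iff.2
      ⟨ne_bot_iff_exists_ne_one.2 ⟨⟨g, e.ge (.inl rfl), e.ge (.inr rfl)⟩, fun h => g1 (congrArg Subtype.val h)⟩,
        fun h => let ⟨k, hk⟩ := exists_smul_eq G a b; hab ((h.ge (mem_top k)).1.symm.trans hk), fun k x hx x1 h => by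
        have h4 : ∀ c, (k⁻¹ * x * k) • c = c → k • c = a ∨ k • c = b := fun c hc => (h3 x x1 hx.1 hx.2).le (by
          rwa [mul_smul, mul_smul, inv_smul_eq_iff] at hc)
        obtain h5 | h5 := h4 a h.1 <;> obtain h6 | h6 := h4 b h.2
        · exact absurd (smul_left_cancel k (h5.trans h6.symm)) hab
        · exact ⟨h5, h6⟩
        · obtain ⟨m, hm⟩ := Nat.not_even_iff_odd.1 fun h : Even (orderOf k) => h2 (h.two_dvd.trans (orderOf_dvd_natCard k))
          have : (k ^ 2) ^ (m + 1) ∈ stabilizer G a := pow_mem (by rw [mem_stabilizer_iff, sq, mul_smul, h5, h6]) _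
          rw [← pow_mul, mul_add_one, ← one_add_one_eq_two, ← add_assoc, pow_succ, one_add_one_eq_two, ← hm,
            pow_orderOf_eq_one, one_mul] at this
          exact absurd (this.symm.trans h5) hab
        · exact absurd (smul_left_cancel k (h5.trans h6.symm)) hab⟩
    haveI := Fintype.ofFinite G
    haveI : Nonempty Ω := ⟨a⟩
    have h4 := Frob.card_frobeniusKernel hU
    have h5 := Frob.two_mul_index_le hU.1
    generalize h6 : frobeniusKernel (stabilizer G a ⊓ stabilizer G b) = K at h4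
    have h7 := Finset.sum_filter_add_sum_filter_not Finset.univ (· ∈ K) (nfix Ω)
    have h8 := Finset.card_filter_add_card_filter_not (s := Finset.univ) (· ∈ K)
    have h9 : _ ≤ ∑ x with x ∉ K, nfix Ω x := Finset.card_nsmul_le_sum _ _ 2 fun x hx => by
      have hx := (Finset.mem_filter.1 hx).2
      rw [← h6, Frob.mem_frobeniusKernel] at hx
      obtain ⟨k, hk⟩ := not_forall.1 (not_or.1 hx).2
      have h : ∀ c : Ω, k⁻¹ * x * k ∈ stabilizer G c → x • k • c = k • c := fun c hc => by
        rwa [mem_stabilizer_iff, mul_smul, mul_smul, inv_smul_eq_iff] at hc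
      exact two_le_nfix (mt (smul_left_cancel k) hab) (h a (not_not.1 hk).1) (h b (not_not.1 hk).2)
    have h10 : nfix Ω (1 : G) ≤ ∑ x with x ∈ K, nfix Ω x := Finset.single_le_sum (f := nfix Ω) (fun _ _ => Nat.zero_le _)
      (Finset.mem_filter.2 ⟨Finset.mem_univ _, h6 ▸ Frob.mem_frobeniusKernel.2 (.inl rfl)⟩)
    have := Nat.card_pos (α := Ω)
    rw [nfix_one] at h10
    rw [Nat.card_eq_fintype_card, Fintype.card_subtype] at h4
    rw [sum_nfix_eq] at h7
    rw [Finset.card_univ, ← Nat.card_eq_fintype_card] at h8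
    rw [smul_eq_mul] at h9
    omega
  haveI := Fact.mk hp
  by_contra! h
  obtain ⟨x, hx⟩ := exists_prime_orderOf_dvd_card' p h.1
  have h1 := Gen2.card_modEq_ncard_fixedBy (Ω := Ω) (x := (x : G)) (p := p) (k := 1) (by
    rw [pow_one, ← hx, ← orderOf_coe, pow_orderOf_eq_one])
  rw [← index_stabilizer_of_transitive G a] at h1
  exact (Nat.le_of_dvd ((Set.ncard_pos (s := fixedBy Ω (x : G))).2 ⟨a, x.2⟩) ((h1.dvd_iff dvd_rfl).1 h.2)).not_gt
    ((hfix x fun e => hp.ne_one (by rw [← hx, ← orderOf_coe, e, orderOf_one])).trans_lt hkp)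

end Cfsg.Agent.S3389
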