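import Cfsg.Statements.S3391
import Cfsg.Agent.Sz.Part

set_option autoImplicit false
open Cfsg

namespace Cfsg.Agent.S3391

open MulAction

theorem card_le {G : Type*} [Group G] [Finite G] {Ω : Type*} [Finite Ω] [MulAction G Ω] {g : G}
    (hfix : Nat.card (fixedBy Ω g) ≤ 2) {α : Ω} (L : Subgroup G) (h : ∀ x ∈ L, g • x • α = x • α) :
    Nat.card L ≤ 2 * Nat.card ↥(L ⊓ stabilizer G α) := by
  have h1 : Nat.card (orbit L α) ≤ 2 := by
    refine le_trans (Nat.card_le_card_of_injective (Set.inclusion ?_) (Set.inclusion_injective _)) hfix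
    rintro _ ⟨x, rfl⟩
    exact h x x.2
  have h2 := (stabilizer L α).card_mul_index
  rw [index_stabilizer, ← Nat.card_coe_set_eq] at h2
  have h3 : Nat.card (stabilizer L α) = Nat.card ↥(L ⊓ stabilizer G α) := by
    rw [inf_comm, ← Subgroup.subgroupOf_map_subtype, Subgroup.card_subtype]
    rfl
  rw [← h2, h3, mul_comm]
  exact Nat.mul_le_mul_right _ h1

theorem sq_mem {G : Type*} [Group G] {Ω : Type*} [Finite Ω] [MulAction G Ω] {g : G}
    (hfix : Nat.card (fixedBy Ω g) ≤ 2) {α : Ω} (L : Subgroup G) (h : ∀ x ∈ L, g • x • α = x • α) {x : G}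
    (hx : x ∈ L) : x * x ∈ stabilizer G α := by
  by_contra hn
  have h1 : x • α ≠ α := fun e => hn (by rw [mem_stabilizer_iff, mul_smul, e, e])
  have h2 : (x * x) • α ≠ x • α := by rw [mul_smul]; simpa using h1
  have h3 : ({α, x • α, (x * x) • α} : Set Ω) ⊆ fixedBy Ω g := by
    rintro _ (rfl | rfl | rfl)
    · simpa using h 1 L.one_mem
    · exact h x hx
    · exact h _ (L.mul_mem hx hx)
  have h4 := Set.ncard_le_ncard h3
  rw [Set.ncard_eq_three.2 ⟨_, _, _, h1.symm, Ne.symm hn, h2.symm, rfl⟩, ← Nat.card_coe_set_eq] at h4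
  omega

theorem mem_of_odd {G : Type*} [Group G] {K L : Subgroup G} (h : ∀ x ∈ L, x * x ∈ K) {x : G} (hx : x ∈ L)
    (ho : Odd (orderOf x)) : x ∈ K := by
  obtain ⟨k, hk⟩ := ho
  have := h _ (L.pow_mem hx (k + 1))
  rwa [← pow_add, show k + 1 + (k + 1) = orderOf x + 1 by omega, pow_succ, pow_orderOf_eq_one, one_mul] at this

open Sz in
theorem aux (F : Type*) [Field F] [Finite F] [Tits F] {G : Type*} [Group G] [SzRep F G]
    {Ω : Type*} [Finite Ω] [MulAction G Ω] [FaithfulSMul G Ω] [IsPretransitive G Ω]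
    (hfix : ∀ g : G, g ≠ 1 → Nat.card (fixedBy Ω g) ≤ 2) (hex : ∃ g : G, g ≠ 1 ∧ Nat.card (fixedBy Ω g) = 2) :
    (Nat.card Ω = Nat.card F ^ 2 + 1 ∧ IsMultiplyPretransitive G Ω 2) ∨
    (Nat.card Ω = Nat.card F ^ 2 * (Nat.card F ^ 2 + 1) ∧ ∀ α : Ω, Nat.card (stabilizer G α) = Nat.card F - 1) := by
  haveI := finite_G F G
  obtain ⟨g, hg1, hg⟩ := hex
  obtain ⟨β, hβ⟩ : (fixedBy Ω g).Nonempty := by
    rw [← Set.nonempty_coe_sort]; exact (Nat.card_pos_iff.1 (by omega)).1
  by_cases hev : Even (Nat.card (stabilizer G β))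
  · left
    obtain ⟨t, ht⟩ := exists_prime_orderOf_dvd_card' 2 hev.two_dvd
    rw [← Subgroup.orderOf_coe] at ht
    obtain ⟨x, hx⟩ := exists_conj_of_involution F (t := (t : G)) (by rintro h; simp [h] at ht)
      (by rw [← sq, ← ht, pow_orderOf_eq_one])
    set α := x⁻¹ • β
    have hz : S G (0 : F) 1 • α = α := by rw [← hx, mul_smul, mul_smul, smul_inv_smul, t.2]
    have hz1 : S G (0 : F) 1 ≠ 1 := by simp [S_eq_one]
    have hZ : Z F G ≤ stabilizer G α := by
      rintro _ ⟨b, rfl⟩
      obtain ⟨a, rfl⟩ := mul_θ_surjective b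
      rw [← S_sq a 0]
      refine sq_mem (hfix _ hz1) (U F G) (fun u hu => ?_) (S_mem_U a 0)
      rw [← mul_smul, Z_comm (S_mem_Z 1) hu, mul_smul, hz]
    have hsq : ∀ x ∈ B F G, x * x ∈ stabilizer G α := by
      intro x hx
      refine sq_mem (hfix _ hz1) (B F G) (fun u hu => ?_) hx
      have := hZ (conj_mem_Z (inv_mem hu) (S_mem_Z 1))
      rwa [inv_inv, mem_stabilizer_iff, mul_smul, mul_smul, inv_smul_eq_iff] at this
    have hU : U F G ≤ stabilizer G α := by
      rintro _ ⟨a, b, rfl⟩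
      obtain ⟨l, hl0, hl1⟩ := Tits.big (F := F)
      have hl : Units.mk0 l hl0 ≠ 1 := fun h => hl1 (congrArg Units.val h)
      have h1 := mem_of_odd hsq (M_mem_B (Units.mk0 l hl0)) (odd_orderOf_M _)
      obtain ⟨c, d, h2⟩ := S_mul_M_conj (G := G) a b hl
      have h3 := mem_of_odd hsq ((B F G).mul_mem (S_mem_B a b) (M_mem_B (Units.mk0 l hl0))) (by
        have := orderOf_conj' (S G c d)⁻¹ (M G (Units.mk0 l hl0))
        rw [inv_inv] at this
        rw [h2, this]; exact odd_orderOf_M _)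
      exact (mul_mem_cancel_right h1).1 h3
    have hB : stabilizer G α = B F G := by
      apply le_antisymm
      · by_contra h
        have h := eq_top_of_U_le hU h
        apply hz1
        apply FaithfulSMul.eq_of_smul_eq_smul (α := Ω)
        intro γ
        obtain ⟨y, rfl⟩ := exists_smul_eq G α γ
        have h1 : ∀ y : G, y • α = α := fun y => show y ∈ stabilizer G α from h ▸ Subgroup.mem_top y
        rw [one_smul, ← mul_smul, h1, h1]
      · intro y hy
        obtain ⟨a, b, l, rfl⟩ := mem_B.1 hy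
        exact mul_mem (hU (S_mem_U a b)) (mem_of_odd hsq (M_mem_B l) (odd_orderOf_M _))
    refine ⟨by rw [← index_stabilizer_of_transitive G α, hB, index_B], ?_⟩
    have key : ∀ x y : G, x • α = y • α ↔ x • (Pt.inf : Pt F) = y • Pt.inf := by
      intro x y
      rw [← inv_smul_eq_iff, ← mul_smul, ← mem_stabilizer_iff, hB, mem_B', mul_smul, inv_smul_eq_iff]
    rw [is_two_pretransitive_iff]
    intro a b c d hab hcd
    obtain ⟨a, rfl⟩ := exists_smul_eq G α a
    obtain ⟨b, rfl⟩ := exists_smul_eq G α b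
    obtain ⟨c, rfl⟩ := exists_smul_eq G α c
    obtain ⟨d, rfl⟩ := exists_smul_eq G α d
    rw [ne_eq, key] at hab hcd
    obtain ⟨y, h1, h2⟩ := is_two_pretransitive_iff.1 (two_transitive (F := F) (G := G)) hab hcd
    exact ⟨y, by rwa [← mul_smul, key, mul_smul], by rwa [← mul_smul, key, mul_smul]⟩
  · right
    rw [Nat.not_even_iff_odd] at hev
    set K := stabilizer G β
    have hodd : ∀ k ∈ K, Odd (orderOf k) := fun k hk => hev.of_dvd_nat (K.orderOf_dvd_natCard hk)
    have hC : ∀ k ∈ K, k ≠ 1 → ∀ x ∈ Subgroup.centralizer {k}, Odd (orderOf x) → x ∈ K := by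
      intro k hk hk1 x hx ho
      refine mem_of_odd (fun y hy => sq_mem (hfix k hk1) _ (fun u hu => ?_) hy) hx ho
      rw [← mul_smul, ← Subgroup.mem_centralizer_singleton_iff.1 hu, mul_smul, hk]
    have hnf : ∀ k ∈ K, ¬ Fpf F k := by
      intro k hk hf
      have h1 : Subgroup.centralizer {k} ≤ K := fun x hx => hC k hk hf.ne_one x hx
        ((odd_card_sq_add_one F).of_dvd_nat (((Subgroup.centralizer {k}).orderOf_dvd_natCard hx).trans
          hf.card_centralizer_dvd))
      have h2 := card_le (hfix k hf.ne_one) (α := β) (Subgroup.normalizer (Subgroup.centralizer {k} : Set G)) (by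
        intro x hx
        have := h1 ((Subgroup.mem_normalizer_iff''.1 hx k).1 (Subgroup.mem_centralizer_singleton_iff.2 rfl))
        rwa [mem_stabilizer_iff, mul_smul, mul_smul, inv_smul_eq_iff] at this)
      have h3 := Subgroup.card_dvd_of_le
        (inf_le_left : Subgroup.normalizer (Subgroup.centralizer {k} : Set G) ⊓ K ≤ _)
      have h4 := hev.of_dvd_nat (Subgroup.card_dvd_of_le
        (inf_le_right : Subgroup.normalizer (Subgroup.centralizer {k} : Set G) ⊓ K ≤ _))
      rw [hf.card_normalizer] at h2 h3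
      have h5 := Nat.le_of_dvd Nat.card_pos ((Nat.Coprime.pow_right 2 (Nat.coprime_two_right.2 h4)).dvd_of_dvd_mul_left h3)
      have := hf.five_le
      change _ ≤ 2 * Nat.card ↥(_ ⊓ K) at h2
      omega
    have hH : ∀ k ∈ K, k ≠ 1 → ∃ x, k ∈ cj x (H F G) := by
      intro k hk hk1
      rcases elt_cases F k with ⟨x, hx⟩ | ⟨x, l, _, hx⟩ | h
      · have h1 := orderOf_dvd_of_pow_eq_one (pow_four_of_mem_U hx)
        rw [orderOf_conj'] at h1
        exact absurd (orderOf_eq_one_iff.1 (Nat.eq_one_of_dvd_coprimes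
          (Nat.Coprime.pow_right 2 (Nat.coprime_two_right.2 (hodd k hk))) dvd_rfl h1)) hk1
      · exact ⟨x, mem_cj.2 (hx ▸ M_mem_H l)⟩
      · exact absurd h (hnf k hk)
    have hK : Nat.card K = Nat.card F - 1 := by
      apply Nat.dvd_antisymm
      · have h1 := K.card_subgroup_dvd_card
        rw [card_G (F := F) (G := G)] at h1
        refine Nat.Coprime.dvd_of_dvd_mul_left ?_ h1
        apply Nat.coprime_of_dvd
        intro p hp h2 h3
        haveI := Fact.mk hp
        obtain ⟨k, hk⟩ := exists_prime_orderOf_dvd_card' p h2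
        rw [← Subgroup.orderOf_coe] at hk
        obtain ⟨x, hx⟩ := hH k k.2 (by rintro h; rw [h, orderOf_one] at hk; exact hp.one_lt.ne hk)
        have h4 := (cj x (H F G)).orderOf_dvd_natCard hx
        rw [card_cj, card_H, hk] at h4
        have h5 : Nat.Coprime (Nat.card F ^ 2 * (Nat.card F ^ 2 + 1)) (Nat.card F - 1) :=
          Nat.Coprime.mul_left (coprime_sq_sub_one F) (coprime_card_B F).coprime_mul_left_right
        exact hp.one_lt.ne' (Nat.eq_one_of_dvd_coprimes h5 h3 h4)
      · obtain ⟨x, hx⟩ := hH g hβ hg1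
        rw [← card_H (G := G), ← card_cj x]
        refine Subgroup.card_dvd_of_le fun y hy => hC g hβ hg1 y (by rwa [centralizer_cj_H hx hg1]) ?_
        have := (cj x (H F G)).orderOf_dvd_natCard hy
        rw [card_cj, card_H] at this
        exact (odd_card_sub_one F).of_dvd_nat this
    have h4 := four_le_card F
    have hΩ : Nat.card Ω = Nat.card F ^ 2 * (Nat.card F ^ 2 + 1) := by
      have := K.card_mul_index
      rw [index_stabilizer_of_transitive, hK, card_G (F := F) (G := G), mul_comm] at this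
      exact Nat.eq_of_mul_eq_mul_right (by omega) this
    refine ⟨hΩ, fun α => ?_⟩
    obtain ⟨x, rfl⟩ := exists_smul_eq G β α
    rw [← cj_stabilizer, card_cj, hK]

/-- Let q = 2^{2m+1} ≥ 8 and let G be isomorphic to the Suzuki group Sz(q). If G acts faithfully and transitively on a finite set Ω with fixity 2 (every non-identity element fixes at most two points, and some fixes exactly two), then either |Ω| = q² + 1 and the action is 2-transitive, or |Ω| = q²(q² + 1) and the point stabilizers have order q − 1. -/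
theorem result {G : Type*} [Group G] [Finite G] (F : Type) [Field F] [Fintype F] (m : ℕ) (hm : 1 ≤ m) (hF : Fintype.card F = 2 ^ (2 * m + 1))
    (e : G ≃* ↥(Cfsg.Lie.Sz F (2 ^ (m + 1)))) {Ω : Type*} [Fintype Ω] [MulAction G Ω] [FaithfulSMul G Ω] (htr : MulAction.IsPretransitive G Ω)
    (hfix : ∀ g : G, g ≠ 1 → Nat.card (MulAction.fixedBy Ω g) ≤ 2) (hex : ∃ g : G, g ≠ 1 ∧ Nat.card (MulAction.fixedBy Ω g) = 2) :
    (Fintype.card Ω = Fintype.card F ^ 2 + 1 ∧ MulAction.IsMultiplyPretransitive G Ω 2) ∨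
    (Fintype.card Ω = Fintype.card F ^ 2 * (Fintype.card F ^ 2 + 1) ∧ ∀ α : Ω, Nat.card (MulAction.stabilizer G α) = Fintype.card F - 1) := by
  let := Sz.titsOfCard hm hF
  let := Sz.lieRep (Sz.titsOfCard_θ hm hF)
  let : Sz.SzRep F G := Sz.repOfEquiv e
  simpa only [Nat.card_eq_fintype_card] using aux F hfix hex

end Cfsg.Agent.S3391
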