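import Cfsg.Statements.S3410
import Cfsg.Agent.ONan.Abel
import Cfsg.Agent.Loc.BpBal
import Cfsg.Agent.Sig.Quasi
import Cfsg.Agent.Classical.SLGen

set_option autoImplicit false
open Cfsg

namespace Cfsg.Agent.S3410

/-- Let a finite group G act faithfully and 2-transitively on a finite set X, and let N be an abelian normal subgroup of the stabilizer of a point x which is not semiregular on the remaining points (some non-identity element of N fixes a second point). Then the generalized Fitting subgroup of G is isomorphic to PSL_n(F) for some n ≥ 3 and some finite field F. -/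
theorem result {G X : Type*} [Group G] [Finite G] [Fintype X]
    [MulAction G X] [FaithfulSMul G X] (h2 : MulAction.IsMultiplyPretransitive G X 2) (x : X)
    (N : Subgroup G) (hNle : N ≤ MulAction.stabilizer G x)
    (hNnormal : ∀ g ∈ MulAction.stabilizer G x, ∀ n ∈ N, g * n * g⁻¹ ∈ N) (hNab : IsMulCommutative N)
    (hnsr : ∃ n ∈ N, n ≠ 1 ∧ ∃ y : X, y ≠ x ∧ n • y = y) :
    ∃ (F : Type) (_ : Field F) (_ : Fintype F) (n : ℕ), 3 ≤ n ∧
      Nonempty (↥(Cfsg.generalizedFittingSubgroup G) ≃* Matrix.ProjectiveSpecialLinearGroup (Fin n) F) := by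
  obtain ⟨L, F, _, _, n, hn, hL, hc, ⟨e⟩, -⟩ := ONan.core_ab (ONan.tr2_of h2)
    (fun g hg => eq_of_smul_eq_smul (α := X) fun x => by rw [hg, one_smul]) hNle hNnormal
    (fun a ha b hb => congrArg Subtype.val (hNab.is_comm.comm ⟨a, ha⟩ ⟨b, hb⟩)) hnsr
  have : IsSimpleGroup (Matrix.ProjectiveSpecialLinearGroup (Fin n) F) := Classical.isSimpleGroup_PSL (by simpa)
  have : IsSimpleGroup L := e.isSimpleGroup
  have q : IsQuasisimple L := Sig.qs_of_simple fun hc' => by
    obtain ⟨a, ha⟩ := exists_ne (1 : L)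
    have : a.1 ∈ Subgroup.centralizer (L : Set G) := fun b hb =>
      congrArg Subtype.val (hc'.is_comm.comm ⟨b, hb⟩ a)
    rw [hc] at this
    exact ha (Subtype.ext this)
  refine ⟨F, inferInstance, inferInstance, n, hn, ⟨?_⟩⟩
  rw [Loc.fstar_eq_of_cent q (hc ▸ bot_le)]
  exact e

end Cfsg.Agent.S3410
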