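import Cfsg.Statements.S3488
import Cfsg.Agent.FG.SpecL2

set_option autoImplicit false
open Cfsg

namespace Cfsg.Agent.S3488

open Cfsg.Agent.FG Matrix
open scoped MatrixGroups

/-- The affine group as a matrix group. -/
def emb (F : Type*) [Field F] : Aff SL(2, F) (Fin 2 → F) →* SL(3, F) where
  toFun x := ⟨!![x.c 0 0, x.c 0 1, x.v 0; x.c 1 0, x.c 1 1, x.v 1; 0, 0, 1], by
    simpa [det_fin_three] using (det_fin_two _).symm.trans x.c.2⟩
  map_one' := Subtype.ext (by ext i j; fin_cases i <;> fin_cases j <;> simp)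
  map_mul' x y := Subtype.ext <| by
    refine Eq.trans ?_ (mul_fin_three ..).symm
    ext i j
    fin_cases i <;> fin_cases j <;>
      simp [mul_apply, Fin.sum_univ_succ, Matrix.SpecialLinearGroup.smul_def, mulVec, dotProduct]
    all_goals ring

theorem emb_injective (F : Type*) [Field F] : Function.Injective (emb F) := fun x y h => by
  have := fun i j => congrFun (congrFun (congrArg Subtype.val h) i) j
  ext i j
  · fin_cases i
    exacts [this 0 2, this 1 2]
  fin_cases i <;> fin_cases j
  exacts [this 0 0, this 0 1, this 1 0, this 1 1]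

/-- Let F be the field with four elements. The affine group F² ⋊ SL(2,F), realised as the subgroup of SL(3,F) of matrices with last row (0, 0, 1), has exactly the same set of element orders as the alternating group of degree 6 (namely {1, 2, 3, 4, 5}); so the alternating group of degree 6 is not determined by its element orders. -/
theorem result {F : Type*} [Field F] [Fintype F] (hF : Fintype.card F = 4) :
    Set.range (orderOf : Subgroup.closure {M : Matrix.SpecialLinearGroup (Fin 3) F |
        (M : Matrix (Fin 3) (Fin 3) F) 2 0 = 0 ∧ (M : Matrix (Fin 3) (Fin 3) F) 2 1 = 0 ∧ (M : Matrix (Fin 3) (Fin 3) F) 2 2 = 1} → ℕ) =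
      Set.range (orderOf : alternatingGroup (Fin 6) → ℕ) := by
  haveI : CharP F 2 := charP_of_card_eq_prime_pow (f := 2) hF
  have : (emb F).range = {M : SL(3, F) | M.1 2 0 = 0 ∧ M.1 2 1 = 0 ∧ M.1 2 2 = 1} := Set.ext fun M =>
    ⟨by rintro ⟨x, rfl⟩; exact ⟨rfl, rfl, rfl⟩, fun ⟨h0, h1, h2⟩ => ⟨⟨![M 0 2, M 1 2], !![M 0 0, M 0 1; M 1 0, M 1 1], by
      simpa [h0, h1, h2] using (det_fin_three _).symm.trans M.2⟩, by
        ext i j
        fin_cases i <;> fin_cases j
        exacts [rfl, rfl, rfl, rfl, rfl, rfl, h0.symm, h1.symm, h2.symm]⟩⟩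
  rw [← this, Subgroup.closure_eq]
  refine ((spec_congr (MonoidHom.ofInjective (emb_injective F))).symm.trans spec_aff_SL2).trans (.trans ?_ spec_A6.symm)
  rw [Nat.card_eq_fintype_card, hF]

end Cfsg.Agent.S3488
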