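import Cfsg.Statements.S3496
import Cfsg.Agent.FG.ExtPrim

set_option autoImplicit false
open Cfsg

namespace Cfsg.Agent.S3496

open Subgroup MulAction Cfsg.Agent.FG Cfsg.Agent.Perm

/-- The soluble extremely primitive groups. Let a finite solvable group G act faithfully and primitively on a finite set Ω with p ^ d points (p prime), with non-trivial point stabilizers each acting primitively on every one of its orbits. Then there is a prime q such that every orbit of a point stabilizer G_α other than {α} has exactly q points, q divides p ^ d − 1 but no p ^ i − 1 with 0 < i < d, and G_α has a normal subgroup T of order q with G_α generated by T and one further element and the order of G_α dividing q·d (so G_α is cyclic of order q, or an extension of T by a cyclic group of order dividing d). -/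
theorem result {G : Type*} [Group G] [Finite G] {Ω : Type*} [Fintype Ω] [MulAction G Ω] [FaithfulSMul G Ω] [Group.IsSolvable G] (p d : ℕ) (hp : p.Prime) (hcard : Fintype.card Ω = p ^ d)
    (hprim : MulAction.IsPreprimitive G Ω) (hH : ∀ α : Ω, MulAction.stabilizer G α ≠ ⊥) (hep : ∀ (α : Ω) (ω : Ω), MulAction.IsPreprimitive (MulAction.stabilizer G α) (MulAction.orbit (MulAction.stabilizer G α) ω)) (α : Ω) :
    ∃ q : ℕ, q.Prime ∧ (∀ ω : Ω, ω ≠ α → Nat.card (MulAction.orbit (MulAction.stabilizer G α) ω) = q) ∧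
      q ∣ p ^ d - 1 ∧ (∀ i : ℕ, 0 < i → i < d → ¬ q ∣ p ^ i - 1) ∧
      ∃ T : Subgroup G, T ≤ MulAction.stabilizer G α ∧ MulAction.stabilizer G α ≤ Subgroup.normalizer (T : Set G) ∧ Nat.card T = q ∧
        (∃ h : G, MulAction.stabilizer G α = T ⊔ Subgroup.zpowers h) ∧ Nat.card (MulAction.stabilizer G α) ∣ q * d := by
  set H := MulAction.stabilizer G α with hHdef
  have hH0 : H ≠ ⊥ := hH α
  haveI : Nontrivial G := by
    obtain ⟨x, hx⟩ := (ne_bot_iff_exists_ne_one).1 hH0
    exact ⟨x, 1, fun h => hx (Subtype.ext h)⟩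
  obtain ⟨r, N, hr, hNn, hN0, hNc, hNr, hNp, -⟩ := Cfsg.Agent.Solv.exists_normal_elementary G
  have hNc' := mul_comm_of_isMulCommutative hNc
  have ht : IsPretransitive N Ω := isPretransitive_of_normal N hN0
  have hreg : ∀ u ∈ N, u • α = α → u = 1 := fun u hu h => eq_one_of_commute ht (fun h hh => hNc' h hh u hu) h
  have hNcard : Nat.card N = p ^ d := by rw [card_eq_of_regular ht α hreg, Nat.card_eq_fintype_card, hcard]
  obtain ⟨q, A, hq, hAn, hA0, hAH, hAc, hAq, hAP⟩ := Cfsg.Agent.Solv.exists_invariant_elementary_le H H le_normalizer hH0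
  have hAc' := mul_comm_of_isMulCommutative hAc
  obtain ⟨v, hv⟩ := (ne_bot_iff_exists_ne_one).1 hN0
  obtain ⟨K, _, _, τ, -, hτadd, hτinj, hτN, hτ⟩ := exists_field_of_conj N A hNc' hAc' (fun h _ x hx => hNn.conj_mem x hx h)
    (fun U hU h => ep_irred (hep α) hNc' ht hreg hA0 hAH hAn U hU h) v.2 (fun h => hv (Subtype.ext h))
  have hτ0 : τ 0 = 1 := by have := hτadd 0 0; rw [add_zero] at this; exact left_eq_mul.1 this
  have hτneg : ∀ x, τ (-x) = (τ x)⁻¹ := fun x => eq_inv_of_mul_eq_one_left (by rw [← hτadd, neg_add_cancel, hτ0])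
  have hK : Fintype.card K = p ^ d := by
    rw [← hNcard, ← Nat.card_eq_fintype_card]
    exact Nat.card_congr (Equiv.ofBijective (fun x => (⟨τ x, (hτN _).2 ⟨x, rfl⟩⟩ : N))
      ⟨fun x y h => hτinj (congrArg Subtype.val h), fun u => by
        obtain ⟨x, hx⟩ := (hτN u).1 u.2; exact ⟨x, Subtype.ext hx⟩⟩)
  choose χ hχ using fun a : A => hτ a (fun x hx => hNn.conj_mem x hx a) (fun h hh => hAc' h hh a a.2)
  have hχ1 : ∀ a : A, χ a = 1 → a = 1 := by
    intro a ha
    refine Subtype.ext (eq_one_of_commute ht (fun u hu => ?_) (hAH a.2))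
    obtain ⟨x, rfl⟩ := (hτN u).1 hu
    have := hχ a x
    rw [ha, one_mul, mul_inv_eq_iff_eq_mul] at this
    exact this.symm
  let χ' : A →* K :=
    { toFun := χ
      map_one' := by
        apply hτinj
        have h1 := hχ 1 1
        rw [mul_one] at h1
        rw [← h1]; simp
      map_mul' := fun a b => by
        apply hτinj
        have h1 := hχ (a * b) 1
        have h2 := hχ b 1
        rw [mul_one] at h1 h2
        rw [← h1, ← hχ a (χ b), ← h2]
        simp [mul_assoc] }
  have hχinj : Function.Injective χ' := (injective_iff_map_eq_one χ').2 hχ1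
  haveI hAcyc : IsCyclic A := isCyclic_of_injective_ringHom χ' hχinj
  obtain ⟨t, ht'⟩ := IsCyclic.exists_generator (α := A)
  have htq : t ^ q = 1 := Subtype.ext (hAq t t.2)
  haveI : Fact q.Prime := ⟨hq⟩
  have ht1 : t ≠ 1 := by
    rintro rfl
    apply hA0
    rw [eq_bot_iff]
    intro a ha
    obtain ⟨k, hk⟩ := ht' ⟨a, ha⟩
    simp only [one_zpow] at hk
    exact mem_bot.2 (congrArg Subtype.val hk).symm
  have hot : orderOf t = q := orderOf_eq_prime htq ht1
  have hAcard : Nat.card A = q := by rw [← hot]; exact (orderOf_eq_card_of_forall_mem_zpowers ht').symm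
  have hoa : orderOf (χ t) = q := by rw [← hot]; exact orderOf_injective χ' hχinj t
  have hirr : ∀ U : AddSubgroup K, (∀ x ∈ U, χ t * x ∈ U) → U = ⊥ ∨ U = ⊤ := by
    intro U hU
    let L : Subgroup G :=
      { carrier := τ '' U
        mul_mem' := by rintro _ _ ⟨x, hx, rfl⟩ ⟨y, hy, rfl⟩; exact ⟨x + y, U.add_mem hx hy, hτadd x y⟩
        one_mem' := ⟨0, U.zero_mem, hτ0⟩
        inv_mem' := by rintro _ ⟨x, hx, rfl⟩; exact ⟨-x, U.neg_mem hx, hτneg x⟩ }
    have hpow : ∀ (n : ℕ), ∀ x ∈ U, χ t ^ n * x ∈ U := by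
      intro n
      induction n with
      | zero => intro x hx; simpa using hx
      | succ n ih => intro x hx; rw [pow_succ', mul_assoc]; exact hU _ (ih x hx)
    rcases ep_irred (hep α) hNc' ht hreg hA0 hAH hAn L (by rintro _ ⟨x, _, rfl⟩; exact (hτN _).2 ⟨x, rfl⟩) (by
      rintro k hk _ ⟨x, hx, rfl⟩
      obtain ⟨n, hn⟩ := (mem_powers_iff_mem_zpowers).2 (ht' ⟨k, hk⟩)
      refine ⟨χ t ^ n * x, hpow n x hx, ?_⟩
      have := hχ (t ^ n) x
      rw [show χ t ^ n = χ (t ^ n) from (map_pow χ' t n).symm, ← this]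
      have h3 : ((t ^ n : A) : G) = k := congrArg Subtype.val hn
      rw [h3]) with h | h
    · left
      rw [eq_bot_iff]
      intro x hx
      have : τ x ∈ L := ⟨x, hx, rfl⟩
      rw [h, mem_bot, ← hτ0] at this
      exact hτinj this
    · right
      rw [eq_top_iff]
      intro x _
      obtain ⟨y, hy, e⟩ : τ x ∈ L := h ▸ (hτN _).2 ⟨x, rfl⟩
      exact hτinj e ▸ hy
  have hqd : q ∣ p ^ d - 1 := by
    have := ep_card_dvd (hep α) hA0 hAH hAn hAc'
    rwa [hAcard, Nat.card_eq_fintype_card, hcard] at this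
  -- the action of `H` on `A`
  let ψ : H →* MulAut A := A.normalizerMonoidHom.comp (inclusion hAn)
  have hψ : ∀ (h : H) (a : A), ((ψ h a : A) : G) = h * a * (h : G)⁻¹ := fun h a => rfl
  have hker : ∀ h : H, ψ h = 1 → (h : G) ∈ A := by
    intro h hh
    refine ep_mem_of_centralizes (hep α) hA0 hAH hAn hAc' h.2 fun k hk => ?_
    have := hψ h ⟨k, hk⟩
    rw [hh, MulAut.one_apply, eq_mul_inv_iff_mul_eq] at this
    exact this
  have hψd : ∀ h : H, ψ h ^ d = 1 := by
    intro h
    have hex : ∀ x, ∃ y, τ y = h * τ x * (h : G)⁻¹ := fun x => (hτN _).1 (hNn.conj_mem _ ((hτN _).2 ⟨x, rfl⟩) _)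
    choose φ hφ using hex
    let φ' : K →+ K := AddMonoidHom.mk' φ (fun x y => hτinj (by rw [hτadd, hφ, hφ, hφ, hτadd]; group))
    obtain ⟨i, hi⟩ := field_semi hp hK hirr φ' (fun h1 => by
      have := hφ 1
      rw [show φ 1 = 0 from h1, hτ0, eq_mul_inv_iff_mul_eq, one_mul, left_eq_mul, ← hτ0] at this
      exact one_ne_zero (hτinj this)) (b := χ (ψ h t)) (fun x => hτinj (by
        show τ (φ _) = τ (_ * φ x)
        rw [hφ, ← hχ, ← hχ, hφ, hψ]; group))
    have h1 : ψ h t = t ^ p ^ i := hχinj (by rw [map_pow]; exact hi)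
    have h2 : ∀ n : ℕ, (ψ h ^ n) t = t ^ (p ^ i) ^ n := by
      intro n
      induction n with
      | zero => simp
      | succ n ih => rw [pow_succ', MulAut.mul_apply, ih, map_pow, h1, ← pow_mul, ← pow_succ']
    have h3 : (ψ h ^ d) t = t := by
      rw [h2, ← pow_mul, mul_comm, pow_mul]
      have h4 : p ^ d ≡ 1 [MOD q] := ((Nat.modEq_iff_dvd' (Nat.one_le_pow _ _ hp.pos)).2 hqd).symm
      have h5 := h4.pow i
      rw [one_pow, ← hot] at h5
      rw [pow_eq_pow_iff_modEq.2 h5, pow_one]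
    ext a
    obtain ⟨k, rfl⟩ := ht' a
    simp only [map_zpow, h3, MulAut.one_apply]
  haveI : IsCyclic (MulAut A) := by
    haveI := ZMod.isCyclic_units_prime hq
    exact isCyclic_of_surjective _ (hAcard ▸ IsCyclic.mulAutMulEquiv A).symm.surjective
  obtain ⟨⟨_, h, rfl⟩, hh⟩ := IsCyclic.exists_generator (α := ψ.range)
  have hsup : H = A ⊔ zpowers (h : G) := by
    refine le_antisymm (fun g hg => ?_) (sup_le hAH (zpowers_le.2 h.2))
    obtain ⟨k, hk⟩ := hh ⟨_, ⟨g, hg⟩, rfl⟩
    have hk' : ψ h ^ k = ψ ⟨g, hg⟩ := congrArg Subtype.val hk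
    have := hker (⟨g, hg⟩ * (h ^ k)⁻¹) (by rw [map_mul, map_inv, map_zpow, hk', mul_inv_cancel])
    have h2 : g = (g * ((h : G) ^ k)⁻¹) * (h : G) ^ k := by group
    rw [h2]
    exact mul_mem (mem_sup_left this) (mem_sup_right (zpow_mem (mem_zpowers _) k))
  refine ⟨q, hq, fun ω hω => by rw [ep_card_orbit (hep α) hA0 hAH hAn hAc' hω, hAcard], hqd, ?_,
    A, hAH, hAn, hAcard, ⟨h, hsup⟩, ?_⟩
  · intro i hi hid hdvd
    refine absurd (field_le_of_pow hp hK hirr hi ?_) (not_le.2 hid)
    have h4 : p ^ i ≡ 1 [MOD q] := ((Nat.modEq_iff_dvd' (Nat.one_le_pow _ _ hp.pos)).2 hdvd).symm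
    rw [pow_eq_pow_of_modEq h4 (by rw [← hoa, pow_orderOf_eq_one]), pow_one]
  · rw [← ψ.ker.card_mul_index, index_ker]
    refine Nat.mul_dvd_mul ?_ ?_
    · rw [← hAcard, ← card_map_of_injective H.subtype_injective]
      refine card_dvd_of_le ?_
      rintro _ ⟨x, hx, rfl⟩
      exact hker x hx
    · rw [← orderOf_eq_card_of_forall_mem_zpowers hh, orderOf_dvd_iff_pow_eq_one]
      exact Subtype.ext (hψd h)

end Cfsg.Agent.S3496
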