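import Cfsg.Statements.S3497
import Cfsg.Agent.FG.ExtPrim
import Cfsg.Agent.BG.S1

set_option autoImplicit false
open Cfsg

namespace Cfsg.Agent.S3497

open Subgroup MulAction Cfsg.Agent.FG

theorem map_norm {G : Type*} [Group G] (H : Subgroup G) (A : Subgroup H) [hA : A.Normal] :
    H ≤ normalizer ((A.map H.subtype : Subgroup G) : Set G) := by
  have : ((A.map H.subtype).subgroupOf H).Normal := by
    rwa [subgroupOf, comap_map_eq_self_of_injective H.subtype_injective]
  exact (normal_subgroupOf_iff_le_normalizer (map_subtype_le A)).1 this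

/-- Restrictions on the point stabilizer of an extremely primitive group. Let a finite group G act faithfully and primitively on a finite set Ω with point stabilizers H = G_α whose order is neither 1 nor a prime, each acting primitively on every one of its orbits. Then H has trivial center, the Fitting subgroup F(H) is an elementary abelian p-group for some prime p, and if F(H) ≠ 1 has order p ^ e then p ^ e divides the number of points minus one and H / F(H) embeds in GL_e(p) (there is a homomorphism from H to GL_e(p) with kernel exactly F(H)). -/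
theorem result {G : Type*} [Group G] [Finite G] {Ω : Type*} [Fintype Ω] [MulAction G Ω] [FaithfulSMul G Ω] (hprim : MulAction.IsPreprimitive G Ω) (hep : ∀ (α : Ω) (ω : Ω), MulAction.IsPreprimitive (MulAction.stabilizer G α) (MulAction.orbit (MulAction.stabilizer G α) ω)) (α : Ω)
    (hH1 : MulAction.stabilizer G α ≠ ⊥) (hHp : ¬ (Nat.card (MulAction.stabilizer G α)).Prime) :
    Subgroup.center (MulAction.stabilizer G α) = ⊥ ∧
    IsMulCommutative (Cfsg.fittingSubgroup (MulAction.stabilizer G α)) ∧
    ∃ p e : ℕ, p.Prime ∧ Nat.card (Cfsg.fittingSubgroup (MulAction.stabilizer G α)) = p ^ e ∧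
      (∀ x ∈ Cfsg.fittingSubgroup (MulAction.stabilizer G α), x ^ p = 1) ∧
      (Cfsg.fittingSubgroup (MulAction.stabilizer G α) ≠ ⊥ →
        p ^ e ∣ Fintype.card Ω - 1 ∧
        ∃ φ : MulAction.stabilizer G α →* GL (Fin e) (ZMod p), φ.ker = Cfsg.fittingSubgroup (MulAction.stabilizer G α)) := by
  set H := MulAction.stabilizer G α with hH
  -- abelian normal subgroups are self-centralizing
  have key : ∀ A : Subgroup H, A.Normal → A ≠ ⊥ → (∀ x ∈ A, ∀ y ∈ A, x * y = y * x) →
      (∀ c : H, (∀ k ∈ A, k * c = c * k) → c ∈ A) ∧ Nat.card A ∣ Fintype.card Ω - 1 := by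
    intro A hA h0 hab
    have h0' : A.map H.subtype ≠ ⊥ := fun h => h0 ((map_eq_bot_iff_of_injective _ H.subtype_injective).1 h)
    have hab' : ∀ x ∈ A.map H.subtype, ∀ y ∈ A.map H.subtype, x * y = y * x := by
      rintro _ ⟨x, hx, rfl⟩ _ ⟨y, hy, rfl⟩
      exact congrArg Subtype.val (hab x hx y hy)
    refine ⟨fun c hc => ?_, ?_⟩
    · obtain ⟨k, hk, e⟩ := ep_mem_of_centralizes (hep α) h0' (map_subtype_le A) (map_norm H A) hab' c.2 (by
        rintro _ ⟨x, hx, rfl⟩
        exact congrArg Subtype.val (hc x hx))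
      exact (Subtype.ext e : k = c) ▸ hk
    · have := ep_card_dvd (hep α) h0' (map_subtype_le A) (map_norm H A) hab'
      rwa [card_map_of_injective H.subtype_injective, Nat.card_eq_fintype_card (α := Ω)] at this
  have hZ : center H = ⊥ := by
    by_contra hZ
    obtain ⟨r, hr, z, hz, hzr⟩ := Cfsg.Agent.Perm.exists_prime_orderOf hZ
    have hzz : zpowers z ≤ center H := zpowers_le.2 hz
    haveI : (zpowers z).Normal := ⟨fun x hx g => by
      rw [mem_center_iff.1 (hzz hx) g, mul_inv_cancel_right]; exact hx⟩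
    have h1 : zpowers z = ⊤ := by
      rw [eq_top_iff]
      intro c _
      refine (key _ this ?_ (fun x hx y _ => (mem_center_iff.1 (hzz hx) y).symm)).1 c
        (fun k hk => (mem_center_iff.1 (hzz hk) c).symm)
      rw [Ne, zpowers_eq_bot]; rintro rfl
      rw [orderOf_one] at hzr; exact hr.one_lt.ne hzr
    apply hHp
    rw [← card_top (G := H), ← h1, Nat.card_zpowers, hzr]; exact hr
  refine ⟨hZ, ?_⟩
  set F := Cfsg.fittingSubgroup H with hF
  by_cases hF0 : F = ⊥
  · refine ⟨by rw [hF0]; infer_instance, 2, 0, Nat.prime_two, by rw [hF0]; simp, ?_, fun h => absurd hF0 h⟩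
    intro x hx; rw [hF0, mem_bot] at hx; simp [hx]
  haveI : F.Normal := Cfsg.Agent.Solv.instNormalFitting H
  haveI : Group.IsNilpotent F := Cfsg.Agent.Solv.isNilpotent_fitting H
  haveI : Nontrivial F := (nontrivial_iff_ne_bot F).2 hF0
  have h2 : (center F).map F.subtype ≠ ⊥ := fun h =>
    Group.IsNilpotent.center_ne_bot (G := F) ((map_eq_bot_iff_of_injective _ F.subtype_injective).1 h)
  haveI : Group.IsSolvable ((center F).map F.subtype) :=
    solvable_of_surjective (MonoidHom.subgroupMap_surjective F.subtype (center F))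
  obtain ⟨p, A, hp, hAn, hA0, hAZ, hAc, hAp, hAP, -⟩ :=
    Cfsg.Agent.Solv.exists_normal_elementary_le ((center F).map F.subtype) h2
  obtain ⟨hk1, hk2⟩ := key A hAn hA0 (Cfsg.Agent.Perm.mul_comm_of_isMulCommutative hAc)
  have hAF : A = F := by
    refine le_antisymm (hAZ.trans (map_subtype_le _)) fun c hc => hk1 c fun k hk => ?_
    obtain ⟨k', hk', rfl⟩ := hAZ hk
    exact (congrArg Subtype.val (mem_center_iff.1 hk' ⟨c, hc⟩)).symm
  rw [← hAF]
  haveI : Fact p.Prime := ⟨hp⟩
  obtain ⟨e, he⟩ := IsPGroup.iff_card.1 hAP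
  refine ⟨hAc, p, e, hp, he, hAp, fun _ => ⟨he ▸ hk2, ?_⟩⟩
  letI : CommGroup A := { (inferInstance : Group A) with mul_comm := mul_comm' }
  obtain ⟨f, hf⟩ := Cfsg.Agent.BG.commGroup_GL (V := A) (fun v => Subtype.ext (hAp v v.2)) he
  refine ⟨f.comp (MulAut.conjNormal : H →* MulAut A), ?_⟩
  ext c
  rw [MonoidHom.mem_ker, MonoidHom.comp_apply, map_eq_one_iff f hf]
  constructor
  · intro h
    refine hk1 c fun k hk => ?_
    have := congrArg Subtype.val (DFunLike.congr_fun h ⟨k, hk⟩)
    simp only [MulAut.conjNormal_apply, MulAut.one_apply] at this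
    rw [mul_inv_eq_iff_eq_mul] at this
    exact this.symm
  · intro hc
    ext k
    simp only [MulAut.conjNormal_apply, MulAut.one_apply]
    rw [Cfsg.Agent.Perm.mul_comm_of_isMulCommutative hAc c hc k k.2, mul_inv_cancel_right]

end Cfsg.Agent.S3497
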