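import Cfsg.Statements.S3504

set_option autoImplicit false
open Cfsg

namespace Cfsg.Agent.S3504

open Equiv Equiv.Perm

theorem cyc {n : ℕ} {g : Perm (Fin n)} (hg : (orderOf g).Prime) (h : ∀ i, g i ≠ i) :
    ∃ k, g.cycleType = Multiset.replicate k (orderOf g) ∧ k * orderOf g = n := by
  obtain ⟨k, hk⟩ := cycleType_prime_order hg
  refine ⟨k + 1, hk, ?_⟩
  have := sum_cycleType g
  rw [hk, Multiset.sum_replicate, smul_eq_mul, show g.support = Finset.univ from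
    Finset.eq_univ_iff_forall.2 fun i => mem_support.2 (h i), Finset.card_univ, Fintype.card_fin] at this
  exact this

theorem ex {n p : ℕ} (hn : 0 < n) (hp : p.Prime) (hd : p ∣ n) :
    ∃ g : Perm (Fin n), orderOf g = p ∧ ∀ i, g i ≠ i := by
  obtain ⟨k, rfl⟩ := hd
  obtain ⟨g, hg⟩ := (exists_with_cycleType_iff (Fin (p * k)) (m := Multiset.replicate k p)).2
    ⟨by simp [mul_comm], fun a ha => by rw [Multiset.eq_of_mem_replicate ha]; exact hp.two_le⟩
  have hk : k ≠ 0 := by rintro rfl; simp at hn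
  refine ⟨g, ?_, fun i => mem_support.1 ?_⟩
  · rw [← lcm_cycleType, hg]
    refine Nat.dvd_antisymm (Multiset.lcm_dvd.2 fun b hb => by rw [Multiset.eq_of_mem_replicate hb]) ?_
    exact Multiset.dvd_lcm (Multiset.mem_replicate.2 ⟨hk, rfl⟩)
  · have := sum_cycleType g
    rw [hg, Multiset.sum_replicate, smul_eq_mul] at this
    rw [Finset.eq_univ_of_card g.support (by rw [← this]; simp [mul_comm])]
    exact Finset.mem_univ i

/-- For n ≥ 5, the fixed-point-free permutations of prime order in the symmetric group of degree n form a single conjugacy class if and only if n is a prime power. -/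
theorem result (n : ℕ) (hn : 5 ≤ n) :
    Nat.card {c : ConjClasses (Equiv.Perm (Fin n)) // ∃ g : Equiv.Perm (Fin n), ConjClasses.mk g = c ∧ (orderOf g).Prime ∧ ∀ i : Fin n, g i ≠ i} = 1 ↔ IsPrimePow n := by
  rw [isPrimePow_iff_unique_prime_dvd, Nat.card_eq_one_iff_unique]
  constructor
  · rintro ⟨hs, -⟩
    obtain ⟨p, hp, hd⟩ := Nat.exists_prime_and_dvd (n := n) (by omega)
    refine ⟨p, ⟨hp, hd⟩, fun q ⟨hq, hqd⟩ => ?_⟩
    obtain ⟨g, hg, hg'⟩ := ex (by omega) hp hd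
    obtain ⟨k, hk, hk'⟩ := ex (by omega) hq hqd
    have := hs.elim ⟨ConjClasses.mk g, g, rfl, hg ▸ hp, hg'⟩ ⟨ConjClasses.mk k, k, rfl, hk ▸ hq, hk'⟩
    have h2 := ConjClasses.mk_eq_mk_iff_isConj.1 (congrArg Subtype.val this)
    rw [← hg, ← hk, ← lcm_cycleType, ← lcm_cycleType, isConj_iff_cycleType_eq.1 h2]
  · rintro ⟨p, ⟨hp, hd⟩, hu⟩
    obtain ⟨g, hg, hg'⟩ := ex (by omega) hp hd
    refine ⟨⟨?_⟩, ⟨⟨ConjClasses.mk g, g, rfl, hg ▸ hp, hg'⟩⟩⟩
    rintro ⟨_, a, rfl, ha, ha'⟩ ⟨_, b, rfl, hb, hb'⟩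
    obtain ⟨k, hk, hk'⟩ := cyc ha ha'
    obtain ⟨l, hl, hl'⟩ := cyc hb hb'
    have h1 := hu _ ⟨ha, Dvd.intro_left k hk'⟩
    have h2 := hu _ ⟨hb, Dvd.intro_left l hl'⟩
    refine Subtype.ext (ConjClasses.mk_eq_mk_iff_isConj.2 (isConj_iff_cycleType_eq.2 ?_))
    rw [h1] at hk hk'
    rw [h2] at hl hl'
    rw [hk, hl, Nat.eq_of_mul_eq_mul_right hp.pos (hk'.trans hl'.symm)]

end Cfsg.Agent.S3504
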