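import Cfsg.Statements.S3508
import Cfsg.Agent.Perm.Affine

set_option autoImplicit false
open Cfsg

namespace Cfsg.Agent.S3508

open Subgroup MulAction Cfsg.Agent.Perm Cfsg.Agent.BG Polynomial

theorem geom {p : ℕ} [hp : Fact p.Prime] (k : ℕ) :
    ∑ i ∈ Finset.range (p ^ k), (X : (ZMod p)[X]) ^ i = (X - 1) ^ (p ^ k - 1) := by
  have h0 : (X - 1 : (ZMod p)[X]) ≠ 0 := by simpa using X_sub_C_ne_zero (1 : ZMod p)
  refine mul_right_cancel₀ h0 ?_
  rw [geom_sum_mul, ← pow_succ, Nat.sub_add_cancel (Nat.one_le_pow _ _ hp.out.pos), sub_pow_char_pow, one_pow]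

theorem powc {p : ℕ} [hp : Fact p.Prime] (k : ℕ) :
    (X : (ZMod p)[X]) ^ p ^ k - 1 = (X - 1) ^ p ^ k := by
  rw [sub_pow_char_pow, one_pow]

/-- Let a finite group G act faithfully on a set Ω with p ^ m points (p prime) and have an elementary abelian normal p-subgroup N acting regularly on Ω (so G is a group of affine transformations of an m-dimensional space over the field with p elements). If G contains an element of order p ^ r with r ≥ 1, then p ^ (r − 1) ≤ m. In particular an element of order p ^ m forces m ≤ 2, and m ≤ 1 when p is odd. -/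
theorem result {G : Type*} [Group G] [Finite G] {Ω : Type*} [Fintype Ω] [MulAction G Ω] [FaithfulSMul G Ω] (p m : ℕ) (hp : p.Prime) (hcard : Fintype.card Ω = p ^ m)
    (N : Subgroup G) [N.Normal] (hNc : IsMulCommutative N) (hNp : ∀ n ∈ N, n ^ p = 1)
    (hNtr : MulAction.IsPretransitive N Ω) (hNreg : ∀ ω : Ω, MulAction.stabilizer N ω = ⊥)
    (g : G) (r : ℕ) (hr : 1 ≤ r) (hg : orderOf g = p ^ r) :
    p ^ (r - 1) ≤ m ∧ (r = m → m ≤ 2 ∧ (2 < p → m ≤ 1)) := by
  haveI : Fact p.Prime := ⟨hp⟩
  have hmain : p ^ (r - 1) ≤ m := by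
    by_contra hlt
    push Not at hlt
    have hV : Abelem p N := ⟨hNc, hNp⟩
    haveI : Nonempty Ω := Fintype.card_pos_iff.1 (by rw [hcard]; exact pow_pos hp.pos _)
    obtain ⟨α⟩ := this
    have hreg := (stabilizer_eq_bot_iff N α).1 (hNreg α)
    have hN : Nat.card N = p ^ m := by rw [card_eq_of_regular hNtr α hreg, Nat.card_eq_fintype_card, hcard]
    have hfin := AbV.finrank_eq hV hN
    let ρ : G →* Module.End (ZMod p) (AbV hV) :=
      LinearEquiv.automorphismGroup.toLinearMapMonoidHom.comp ((linRep hV ⊤).comp topEquiv.symm.toMonoidHom)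
    have hρ : ∀ x v, (ρ x v).val = x * v.val * x⁻¹ := fun x v => rfl
    set A := ρ g with hA
    have hnil : (A - 1) ^ m = 0 := by
      have h1 : (A - 1) ^ p ^ r = 0 := by
        have := congrArg (aeval A) (powc (p := p) r)
        simp only [map_sub, map_pow, aeval_X, map_one] at this
        rw [← this, hA, ← map_pow, ← hg, pow_orderOf_eq_one, map_one, sub_self]
      have h2 := Module.End.ker_pow_le_ker_pow_finrank (A - 1) (p ^ r)
      rw [h1, hfin, LinearMap.ker_zero, top_le_iff, LinearMap.ker_eq_top] at h2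
      exact h2
    set s := p ^ (r - 1) with hs
    have hsum : ∑ i ∈ Finset.range s, A ^ i = 0 := by
      have := congrArg (aeval A) (geom (p := p) (r - 1))
      simp only [map_sum, map_sub, map_pow, aeval_X, map_one] at this
      rw [this]; exact pow_eq_zero_of_le (by omega) hnil
    have hAs : A ^ s = 1 := by
      have := geom_sum_mul A s
      rw [hsum, zero_mul] at this
      exact (sub_eq_zero.1 this.symm)
    obtain ⟨n, hn⟩ := hNtr.exists_smul_eq α (g • α)
    have hk : ∀ k : ℕ, g ^ k • α = ((∑ i ∈ Finset.range k, A ^ i) (AbV.mk hV n n.2)).val • α := by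
      intro k
      induction k with
      | zero => simp
      | succ k ih =>
        rw [pow_succ', mul_smul, ih, geom_sum_succ, LinearMap.add_apply, AbV.val_add, Module.End.mul_apply, hA, hρ,
          mul_smul, Module.End.one_apply, AbV.val_mk]
        rw [show (n : G) • α = g • α from hn, mul_smul, mul_smul, inv_smul_smul]
    have h1 : g ^ s = 1 := by
      refine eq_one_of_commute hNtr (a := α) (fun u hu => ?_) (by rw [hk, hsum]; simp)
      have := hρ (g ^ s) (AbV.mk hV u hu)
      rw [map_pow, ← hA, hAs, Module.End.one_apply, AbV.val_mk, eq_mul_inv_iff_mul_eq] at this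
      exact this
    have h2 := orderOf_dvd_of_pow_eq_one h1
    rw [hg, hs, Nat.pow_dvd_pow_iff_le_right hp.one_lt] at h2
    omega
  refine ⟨hmain, ?_⟩
  rintro rfl
  have h2 : r ≤ 2 := by
    by_contra h
    obtain ⟨k, rfl⟩ : ∃ k, r = k + 3 := ⟨r - 3, by omega⟩
    have h3 : 2 ^ (k + 2) ≤ p ^ (k + 2) := Nat.pow_le_pow_left hp.two_le _
    have h4 : k < 2 ^ k := Nat.lt_two_pow_self
    rw [show k + 3 - 1 = k + 2 from rfl] at hmain
    rw [pow_add] at h3
    omega
  refine ⟨h2, fun h => ?_⟩
  by_contra h3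
  obtain rfl : r = 2 := by omega
  simp at hmain; omega

end Cfsg.Agent.S3508
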