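import Cfsg.Statements.S3511
import Cfsg.Agent.FG.PrimeGraph

set_option autoImplicit false
open Cfsg

namespace Cfsg.Agent.S3511

open Cfsg.Agent.BG Cfsg.Agent.FG Subgroup UniqueFactorizationMonoid

/-- Let a finite group G act faithfully on a set Ω. If every element of G of square-free order has a regular cycle (an orbit of the cyclic group it generates with trivial stabilizer), then every element of G has a regular cycle. -/
theorem result {G : Type*} [Group G] [Finite G] {Ω : Type*} [MulAction G Ω] [FaithfulSMul G Ω]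
    (h : ∀ g : G, Squarefree (orderOf g) → ∃ ω : Ω, MulAction.stabilizer (Subgroup.zpowers g) ω = ⊥) (g : G) :
    ∃ ω : Ω, MulAction.stabilizer (Subgroup.zpowers g) ω = ⊥ := by
  obtain ⟨y, hy, ho⟩ := exists_orderOf_of_dvd (radical_dvd_self (a := orderOf g))
  obtain ⟨ω, hω⟩ := h y (ho.symm ▸ squarefree_radical)
  refine ⟨ω, by_contra fun h1 => ?_⟩
  obtain ⟨⟨⟨x, hx⟩, h2⟩, h3⟩ := ne_bot_iff_exists_ne_one.1 h1
  obtain ⟨p, hp, h4⟩ := Nat.exists_prime_and_dvd (mt orderOf_eq_one_iff.1 fun e : x = 1 => h3 (by subst e; rfl))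
  obtain ⟨z, hz, h5⟩ := exists_orderOf_of_dvd h4
  have h6 : z ∈ zpowers y := cardSg_cyclic inferInstance (zpowers_le_of_mem (zpowers_le_of_mem hx hz)) (zpowers_le_of_mem hy)
    (by
      rw [Nat.card_zpowers, Nat.card_zpowers, h5, ho]
      exact (dvd_radical_iff_of_irreducible hp (orderOf_pos g).ne').2 (h4.trans (orderOf_dvd_of_mem_zpowers hx))) (mem_zpowers z)
  have h8 : (⟨z, h6⟩ : zpowers y) ∈ MulAction.stabilizer _ ω := zpowers_le_of_mem (H := MulAction.stabilizer G ω) h2 hz
  exact ne_one_of_prime (h5 ▸ hp) (congrArg Subtype.val (hω.le h8))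

end Cfsg.Agent.S3511
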