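import Cfsg.Statements.S3514
import Cfsg.Agent.Gen2.SylowNum

set_option autoImplicit false
open Cfsg

namespace Cfsg.Agent.S3514

open Subgroup MulAction

theorem card_orb {G V : Type*} [Group G] [MulAction G V] (L : Subgroup G) (v : V) :
    Nat.card {u : V | ∃ h ∈ L, h • v = u} = (stabilizer G v).relIndex L := by
  have : (stabilizer G v).subgroupOf L = stabilizer L v := by ext; rfl
  rw [relIndex, this, index_stabilizer, Nat.card_coe_set_eq]
  congr 1
  ext u
  exact ⟨fun ⟨h, hh, e⟩ => ⟨⟨h, hh⟩, e⟩, fun ⟨h, e⟩ => ⟨h, h.2, e⟩⟩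

/-- Let p be a prime, V a finite vector space over the field with p elements, and H a group of linear transformations of V all of whose orbits on V have size coprime to p. (i) Every normal subgroup K of H has all its orbits on V of size coprime to p. (ii) If N is a group of linear transformations of V of order coprime to p that is normalized by H, then the group generated by N and H has all its orbits on V of size coprime to p. -/
theorem result (p : ℕ) [Fact p.Prime] {V : Type*} [AddCommGroup V] [Module (ZMod p) V] [Finite V]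
    (H : Subgroup (V ≃ₗ[ZMod p] V)) (hH : ∀ v : V, ¬ p ∣ Nat.card {u : V | ∃ h ∈ H, h v = u}) :
    (∀ K : Subgroup (V ≃ₗ[ZMod p] V), K ≤ H → H ≤ Subgroup.normalizer (K : Set (V ≃ₗ[ZMod p] V)) →
        ∀ v : V, ¬ p ∣ Nat.card {u : V | ∃ k ∈ K, k v = u}) ∧
    (∀ N : Subgroup (V ≃ₗ[ZMod p] V), ¬ p ∣ Nat.card N → H ≤ Subgroup.normalizer (N : Set (V ≃ₗ[ZMod p] V)) →
        ∀ v : V, ¬ p ∣ Nat.card {u : V | ∃ x ∈ N ⊔ H, x v = u}) := by
  haveI : Finite (V ≃ₗ[ZMod p] V) := Finite.of_injective (fun e : V ≃ₗ[ZMod p] V => (e : V → V)) DFunLike.coe_injective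
  have hc : ∀ (L : Subgroup (V ≃ₗ[ZMod p] V)) (v : V),
      Nat.card {u : V | ∃ h ∈ L, h v = u} = (stabilizer _ v).relIndex L := card_orb
  simp only [hc] at hH ⊢
  refine ⟨fun K hK hn v hd => hH v (hd.trans ?_), fun N hN hn v hd => ?_⟩
  · set S := stabilizer (V ≃ₗ[ZMod p] V) v
    rw [← Cfsg.Agent.Gen2.relIndex_sup_of_le (A := S ⊓ H) inf_le_left (inf_le_right.trans hn)]
    have h1 : K ⊔ S ⊓ H ≤ H := sup_le hK inf_le_right
    have h2 := relIndex_mul_relIndex (S ⊓ H) (K ⊔ S ⊓ H) H le_sup_right h1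
    rw [inf_relIndex_right] at h2
    rw [← h2, ← inf_relIndex_right S (K ⊔ S ⊓ H)]
    have h3 : S ⊓ (K ⊔ S ⊓ H) ≤ S ⊓ H := inf_le_inf_left _ h1
    have h4 : S ⊓ (K ⊔ S ⊓ H) = S ⊓ H := le_antisymm h3 (le_inf inf_le_left le_sup_right)
    rw [h4]; exact dvd_mul_right _ _
  · set S := stabilizer (V ≃ₗ[ZMod p] V) v
    have h2 := relIndex_mul_relIndex (S ⊓ H) H (N ⊔ H) inf_le_right le_sup_right
    rw [inf_relIndex_right, Cfsg.Agent.Gen2.relIndex_sup_of_le le_rfl hn] at h2
    have h3 := hd.trans (relIndex_dvd_of_le_left (N ⊔ H) (inf_le_left : S ⊓ H ≤ S))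
    rw [← h2] at h3
    rcases (Nat.Prime.dvd_mul Fact.out).1 h3 with h | h
    · exact hH v h
    · exact hN (h.trans (index_dvd_card _))

end Cfsg.Agent.S3514
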