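import Cfsg.Statements.S3515
import Cfsg.Agent.FG.AffCl

set_option autoImplicit false
open Cfsg

namespace Cfsg.Agent.S3515

theorem two_case (σ g : Equiv.Perm (Fin 2 → ZMod 2)) (h0 : σ 0 = g 0) (h1 : σ (Pi.single 0 1) = g (Pi.single 0 1))
    (h2 : σ (Pi.single 1 1) = g (Pi.single 1 1)) : σ = g := by
  have hall : ∀ x : Fin 2 → ZMod 2, x = 0 ∨ x = Pi.single 0 1 ∨ x = Pi.single 1 1 ∨ x = fun _ => 1 := by decide
  have h3 : σ (fun _ => 1) = g (fun _ => 1) := by
    rcases hall (σ.symm (g (fun _ => 1))) with h | h | h | h <;> rw [Equiv.symm_apply_eq] at h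
    · rw [h0] at h; exact absurd (g.injective h) (by decide)
    · rw [h1] at h; exact absurd (g.injective h) (by decide)
    · rw [h2] at h; exact absurd (g.injective h) (by decide)
    · exact h.symm
  ext1 x
  rcases hall x with rfl | rfl | rfl | rfl <;> assumption

/-- Every primitive affine permutation group of degree p² is 3-closed. Let p be a prime and G a group of permutations of the plane V = F_p² consisting of affine maps x ↦ Ax + b, containing all translations, and acting primitively on V. Then any permutation σ of V that agrees on every triple of points with some element of G (σ preserves every G-orbit on ordered triples) already lies in G. -/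
theorem result (p : ℕ) [Fact p.Prime] (G : Subgroup (Equiv.Perm (Fin 2 → ZMod p)))
    (haff : (G : Set (Equiv.Perm (Fin 2 → ZMod p))) ⊆ {τ : Equiv.Perm (Fin 2 → ZMod p) | ∃ (A : (Fin 2 → ZMod p) ≃ₗ[ZMod p] (Fin 2 → ZMod p)) (b : Fin 2 → ZMod p), ∀ x, τ x = A x + b})
    (htrans : ∀ b : Fin 2 → ZMod p, ∃ g ∈ G, ∀ x, g x = x + b) (hprim : MulAction.IsPreprimitive G (Fin 2 → ZMod p))
    (σ : Equiv.Perm (Fin 2 → ZMod p)) (hσ : (∀ t : Fin 3 → (Fin 2 → ZMod p), ∃ g ∈ G, ∀ i, σ (t i) = g (t i))) : σ ∈ G := by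
  obtain ⟨g, hg, ht⟩ := hσ ![0, Pi.single 0 1, Pi.single 1 1]
  have h0 := ht 0
  have h1 := ht 1
  have h2 := ht 2
  simp only [Matrix.cons_val_zero, Matrix.cons_val_one, Matrix.cons_val] at h0 h1 h2
  suffices h : σ = g from h ▸ hg
  by_cases hp : p = 2
  · subst hp
    exact two_case σ g h0 h1 h2
  · have h2' : (2 : ZMod p) ≠ 0 := by
      intro h
      have := (ZMod.natCast_eq_zero_iff 2 p).1 (by exact_mod_cast h)
      exact hp ((Nat.prime_dvd_prime_iff_eq Fact.out Nat.prime_two).1 this)
    obtain ⟨A, b, hA⟩ := Cfsg.Agent.FG.affine_of_three h2' σ fun t => by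
      obtain ⟨g, hg, ht⟩ := hσ t
      obtain ⟨A, b, hA⟩ := haff hg
      exact ⟨A, b, fun i => by rw [ht, hA]⟩
    obtain ⟨B, c, hB⟩ := haff hg
    rw [hA, hB] at h0 h1 h2
    have hbc : b = c := by simpa using h0
    subst hbc
    ext1 x
    have hx : x = x 0 • Pi.single 0 1 + x 1 • Pi.single 1 1 := by
      ext i; fin_cases i <;> simp
    rw [hA, hB, hx, map_add, map_add, map_smul, map_smul, map_smul, map_smul, add_right_cancel h1, add_right_cancel h2]

end Cfsg.Agent.S3515
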