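import Cfsg.Statements.S3517
import Cfsg.Agent.FG.AffCl

set_option autoImplicit false
open Cfsg

namespace Cfsg.Agent.S3517

/-- For d ≥ 3, the 3-closure of the affine group AGL_d(2) acting on F_2^d is the full symmetric group: every permutation of F_2^d agrees on every ordered triple of points with some affine map (AGL_d(2) is 3-transitive). -/
theorem result (d : ℕ) (hd : 3 ≤ d) (σ : Equiv.Perm (Fin d → ZMod 2)) (t : Fin 3 → (Fin d → ZMod 2)) :
    ∃ (A : (Fin d → ZMod 2) ≃ₗ[ZMod 2] (Fin d → ZMod 2)) (b : Fin d → ZMod 2), ∀ i, σ (t i) = A (t i) + b := by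
  let L : (Fin d → ZMod 2) → (Fin d → ZMod 2) → (ZMod 2 × ZMod 2 →ₗ[ZMod 2] (Fin d → ZMod 2)) := fun u v =>
    (LinearMap.toSpanSingleton _ _ u).coprod (LinearMap.toSpanSingleton _ _ v)
  have hneg : ∀ u : Fin d → ZMod 2, -u = u := fun u => funext fun i => CharTwo.neg_eq _
  obtain ⟨A, hA⟩ := Cfsg.Agent.FG.exists_equiv_of_ker_eq (L (t 1 - t 0) (t 2 - t 0))
    (L (σ (t 1) - σ (t 0)) (σ (t 2) - σ (t 0))) (by
      ext ⟨a, b⟩
      have h01 : ∀ a : ZMod 2, a = 0 ∨ a = 1 := by decide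
      have hadd : ∀ x y z : Fin d → ZMod 2, x - z + (y - z) = 0 ↔ x = y := by
        intro x y z
        rw [← hneg (y - z), ← sub_eq_add_neg, sub_eq_zero, sub_left_inj]
      rcases h01 a with rfl | rfl <;> rcases h01 b with rfl | rfl <;> simp [L, sub_eq_zero, hadd])
  refine ⟨A, σ (t 0) - A (t 0), fun i => ?_⟩
  have h1 := hA (1, 0)
  have h2 := hA (0, 1)
  simp only [L, LinearMap.coprod_apply, LinearMap.toSpanSingleton_apply, one_smul, zero_smul, add_zero,
    zero_add, map_sub] at h1 h2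
  fin_cases i
  · simp
  · show σ (t 1) = A (t 1) + _
    rw [sub_eq_iff_eq_add.1 h1.symm]; abel
  · show σ (t 2) = A (t 2) + _
    rw [sub_eq_iff_eq_add.1 h2.symm]; abel

end Cfsg.Agent.S3517
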