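import Cfsg.Statements.S3518
import Cfsg.Agent.Perm.PrimeDeg
import Cfsg.Agent.Perm.Basic

set_option autoImplicit false
open Cfsg

namespace Cfsg.Agent.S3518

theorem aff_ext {p : ℕ} {σ τ : Equiv.Perm (ZMod p)} (h1 : ∃ a b : ZMod p, ∀ x, σ x = a * x + b)
    (h2 : ∃ a b : ZMod p, ∀ x, τ x = a * x + b) (e0 : σ 0 = τ 0) (e1 : σ 1 = τ 1) : σ = τ := by
  obtain ⟨a, b, h1⟩ := h1
  obtain ⟨c, d, h2⟩ := h2
  rw [h1, h2] at e0 e1
  simp only [mul_zero, zero_add, mul_one] at e0 e1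
  subst e0
  ext x
  rw [h1, h2, add_right_cancel e1]

theorem aff_of_mem {p : ℕ} {σ : Equiv.Perm (ZMod p)} (h : σ ∈ Cfsg.affineGroup (ZMod p)) :
    ∃ a b : ZMod p, ∀ x, σ x = a * x + b := by
  obtain ⟨a, b, h⟩ := h; exact ⟨a, b, h⟩

/-- Closures of subgroups of the one-dimensional affine group. Let p be a prime and G a group of permutations of F_p lying in the affine group AGL₁(p) = {x ↦ ax + b, a ≠ 0} and containing all translations. (1) If G is a proper subgroup of AGL₁(p), then G is 2-closed: a permutation of F_p agreeing on every ordered pair of points with some element of G lies in G. (2) Every permutation of F_p agrees on every ordered pair with some element of AGL₁(p) (the 2-closure of AGL₁(p) is the symmetric group). (3) AGL₁(p) is 3-closed: a permutation agreeing on every ordered triple with some affine map is affine. -/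
theorem result (p : ℕ) [Fact p.Prime] (G : Subgroup (Equiv.Perm (ZMod p))) (hG : G ≤ Cfsg.affineGroup (ZMod p))
    (htrans : ∀ b : ZMod p, ∃ g ∈ G, ∀ x, g x = x + b) :
    (G ≠ Cfsg.affineGroup (ZMod p) → ∀ σ : Equiv.Perm (ZMod p), (∀ t : Fin 2 → ZMod p, ∃ g ∈ G, ∀ i, σ (t i) = g (t i)) → σ ∈ G) ∧
    (∀ σ : Equiv.Perm (ZMod p), (∀ t : Fin 2 → ZMod p, ∃ g ∈ Cfsg.affineGroup (ZMod p), ∀ i, σ (t i) = g (t i))) ∧
    (∀ σ : Equiv.Perm (ZMod p), (∀ t : Fin 3 → ZMod p, ∃ g ∈ Cfsg.affineGroup (ZMod p), ∀ i, σ (t i) = g (t i)) → σ ∈ Cfsg.affineGroup (ZMod p)) := by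
  refine ⟨fun hne σ hσ => ?_, fun σ t => ?_, fun σ hσ => ?_⟩
  · let H : Subgroup (Equiv.Perm (ZMod p)) :=
      { carrier := {σ | ∀ t : Fin 2 → ZMod p, ∃ g ∈ G, ∀ i, σ (t i) = g (t i)}
        one_mem' := fun t => ⟨1, G.one_mem, fun _ => rfl⟩
        mul_mem' := fun {σ τ} hσ hτ t => by
          obtain ⟨g, hg, h1⟩ := hτ t
          obtain ⟨k, hk, h2⟩ := hσ fun i => g (t i)
          exact ⟨k * g, G.mul_mem hk hg, fun i => by simp [h1, h2]⟩
        inv_mem' := fun {σ} hσ t => by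
          obtain ⟨g, hg, h1⟩ := hσ fun i => σ⁻¹ (t i)
          refine ⟨g⁻¹, G.inv_mem hg, fun i => ?_⟩
          have := h1 i
          rw [Equiv.Perm.eq_inv_iff_eq, ← this]; simp }
    have hGH : G ≤ H := fun g hg t => ⟨g, hg, fun _ => rfl⟩
    obtain ⟨c, hc, hc1⟩ := htrans 1
    haveI : MulAction.IsPretransitive H (ZMod p) := ⟨fun x y => by
      obtain ⟨g, hg, h⟩ := htrans (y - x)
      exact ⟨⟨g, hGH hg⟩, by show g x = y; rw [h]; ring⟩⟩
    rcases Cfsg.Agent.Perm.aff_or_two_trans (G := H) (c := ⟨c, hGH hc⟩) (e := Equiv.refl _) hc1 with h | h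
    · obtain ⟨g, hg, ht⟩ := hσ ![0, 1]
      have : σ = g := aff_ext (h ⟨σ, hσ⟩) (aff_of_mem (hG hg)) (ht 0) (ht 1)
      exact this ▸ hg
    · exfalso
      refine hne (le_antisymm hG fun τ hτ => ?_)
      obtain ⟨k, h0, h1⟩ := Cfsg.Agent.Perm.exists_smul_two h (zero_ne_one (α := ZMod p)) (τ.injective.ne zero_ne_one)
      obtain ⟨g, hg, ht⟩ := k.2 ![0, 1]
      have := aff_ext (aff_of_mem hτ) (aff_of_mem (hG hg)) (h0.symm.trans (ht 0)) (h1.symm.trans (ht 1))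
      exact this ▸ hg
  · by_cases h : t 1 = t 0
    · refine ⟨Equiv.addRight (σ (t 0) - t 0), ⟨1, σ (t 0) - t 0, by simp⟩, fun i => ?_⟩
      fin_cases i <;> simp [h]
    · have h1 : t 1 - t 0 ≠ 0 := sub_ne_zero.2 h
      have h2 : σ (t 1) - σ (t 0) ≠ 0 := sub_ne_zero.2 (σ.injective.ne h)
      let a : (ZMod p)ˣ := Units.mk0 _ (div_ne_zero h2 h1)
      refine ⟨a.mulLeft.trans (Equiv.addRight (σ (t 0) - a * t 0)), ⟨a, σ (t 0) - a * t 0, by simp⟩, fun i => ?_⟩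
      fin_cases i
      · simp
      · simp [a]; field_simp; ring
  · have h2 : σ 1 - σ 0 ≠ 0 := sub_ne_zero.2 (σ.injective.ne one_ne_zero)
    refine ⟨Units.mk0 _ h2, σ 0, fun x => ?_⟩
    obtain ⟨g, ⟨a, b, hg⟩, ht⟩ := hσ ![0, 1, x]
    have h0 := ht 0
    have h1 := ht 1
    have h3 := ht 2
    simp only [Matrix.cons_val_zero, Matrix.cons_val_one, Matrix.cons_val, hg] at h0 h1 h3
    rw [Units.val_mk0, h0, h1, h3]; ring

end Cfsg.Agent.S3518
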