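import Cfsg.Statements.S3521
import Cfsg.Agent.Loc.EPrim
import Cfsg.Agent.FG.ExtPrim
import Cfsg.Agent.BG.S3Gen

set_option autoImplicit false
open Cfsg

namespace Cfsg.Agent.S3521

/-- Let a finite group G that is not solvable act faithfully and primitively on a finite set with p ^ d points (p prime), with a non-trivial abelian normal subgroup acting regularly (affine type) and with non-trivial point stabilizers each acting primitively on every one of its orbits (an insoluble extremely primitive group of affine type). Then p = 2; and if moreover G is not 2-transitive, then a point stabilizer is almost simple (it has a non-abelian simple normal subgroup with trivial centralizer). -/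
theorem result {G : Type*} [Group G] [Finite G] {Ω : Type*} [Fintype Ω] [MulAction G Ω] [FaithfulSMul G Ω] (p d : ℕ) (hp : p.Prime) (hcard : Fintype.card Ω = p ^ d) (hsol : ¬ Group.IsSolvable G)
    (N : Subgroup G) [N.Normal] (hN : N ≠ ⊥) (hNc : IsMulCommutative N) (hNreg : ∀ ω : Ω, MulAction.stabilizer N ω = ⊥)
    (hprim : MulAction.IsPreprimitive G Ω) (hH : ∀ α : Ω, MulAction.stabilizer G α ≠ ⊥) (hep : ∀ (α : Ω) (ω : Ω), MulAction.IsPreprimitive (MulAction.stabilizer G α) (MulAction.orbit (MulAction.stabilizer G α) ω)) (α : Ω) :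
    p = 2 ∧ (¬ MulAction.IsMultiplyPretransitive G Ω 2 → ∃ T : Subgroup (MulAction.stabilizer G α), T.Normal ∧ IsSimpleGroup T ∧ ¬ IsMulCommutative T ∧ Subgroup.centralizer (T : Set (MulAction.stabilizer G α)) = ⊥) := by
  open Cfsg.Agent.Loc Subgroup in
  open scoped commutatorElement in
  open MulAction in
  set H := MulAction.stabilizer G α with hHdef
  have hNc' := Perm.mul_comm_of_isMulCommutative hNc
  have ht : IsPretransitive N Ω := Perm.isPretransitive_of_normal N hN
  have hreg : ∀ u ∈ N, u • α = α → u = 1 := (Perm.stabilizer_eq_bot_iff N α).1 (hNreg α)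
  have hcN : Nat.card N = p ^ d := by rw [Perm.card_eq_of_regular ht α hreg, Nat.card_eq_fintype_card, hcard]
  have nsol : ¬ Group.IsSolvable H := fun h => hsol (by
    have : Group.IsSolvable N := Group.isSolvable_of_comm fun a b => Subtype.ext (hNc' a a.2 b b.2)
    have : Group.IsSolvable (G ⧸ N) := Group.isSolvable_of_surjective
      (f := (QuotientGroup.mk' N).comp H.subtype) fun g => by
        obtain ⟨g, rfl⟩ := QuotientGroup.mk'_surjective N g
        obtain ⟨n, hn⟩ := ht.exists_smul_eq α (g • α)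
        refine ⟨⟨(n : G)⁻¹ * g, by rw [MulAction.mem_stabilizer_iff, mul_smul, inv_smul_eq_iff]; exact hn.symm⟩, ?_⟩
        simp [(QuotientGroup.eq_one_iff _).2 n.2]
    exact Group.isSolvable_of_ker_le_range N.subtype (QuotientGroup.mk' N) (by simp))
  let _ : CommGroup N := { (inferInstance : Group N) with mul_comm := fun a b => Subtype.ext (hNc' a a.2 b b.2) }
  let _ : MulDistribMulAction H N := MulDistribMulAction.compHom N ((MulAut.conjNormal (H := N)).comp H.subtype)
  have sm : ∀ (h : H) (v : N), ((h • v : N) : G) = h * v * (h : G)⁻¹ := fun h v => rfl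
  have st : ∀ (h : H) (v : N), h • v = v ↔ (h : G) • (v : G) • α = (v : G) • α := fun h v => by
    have e : (h : G) • (v : G) • α = ((h • v : N) : G) • α := by
      rw [sm, mul_smul, mul_smul, show (h : G)⁻¹ • α = α from H.inv_mem h.2]
    rw [e]
    refine ⟨fun e => by rw [e], fun e => Subtype.ext (inv_mul_eq_one.1 (hreg _ (v⁻¹ * h • v).2 ?_)).symm⟩
    rwa [mul_smul, inv_smul_eq_iff]
  have mv : ∀ v : N, v ≠ 1 → (v : G) • α ≠ α := fun v hv e => hv (Subtype.ext (hreg _ v.2 e))
  have hcf : ∀ v : N, v ≠ 1 → ∀ K : Subgroup H, K.Normal → K ≤ MulAction.stabilizer H v → K = ⊥ := fun v hv K hK h =>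
    eq_bot_iff.2 fun k hk => Subtype.ext (FG.ep_faithful (hep α) (mv v hv) k.2 (by
      rintro _ ⟨g, rfl⟩
      have := (st _ v).1 (h (hK.conj_mem k hk g⁻¹))
      rw [inv_inv, coe_mul, coe_mul, mul_smul, mul_smul, coe_inv, inv_smul_eq_iff] at this
      exact this))
  have nt : ∀ v : N, v ≠ 1 → Nontrivial (MulAction.orbit H ((v : G) • α)) := fun v hv => by
    by_contra hn
    rw [not_nontrivial_iff_subsingleton] at hn
    refine hH α (eq_bot_iff.2 fun h hh => congrArg Subtype.val (mem_bot.1 ((hcf v hv ⊤ inferInstance fun k _ =>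
      (st k v).2 ?_).le (mem_top (⟨h, hh⟩ : H)))))
    exact congrArg Subtype.val (Subsingleton.elim (⟨_, k, rfl⟩ : MulAction.orbit H ((v : G) • α))
      ⟨_, MulAction.mem_orbit_self _⟩)
  have hmax : ∀ v : N, v ≠ 1 → IsCoatom (MulAction.stabilizer H v) := fun v hv => by
    have := nt v hv
    have := hep α ((v : G) • α)
    convert IsPreprimitive.isCoatom_stabilizer_of_isPreprimitive H
      (⟨_, MulAction.mem_orbit_self _⟩ : MulAction.orbit H ((v : G) • α)) using 1
    ext h
    exact (st h v).trans ⟨fun e => Subtype.ext e, fun e => congrArg Subtype.val e⟩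
  have hirr : ∀ W : Subgroup N, (∀ h : H, ∀ w ∈ W, h • w ∈ W) → W = ⊥ ∨ W = ⊤ := fun W hW =>
    (FG.ep_irred (hep α) hNc' ht hreg (hH α) le_rfl le_normalizer (W.map N.subtype) (map_subtype_le _) (by
      rintro k hk _ ⟨w, hw, rfl⟩
      exact ⟨_, hW ⟨k, hk⟩ w hw, rfl⟩)).imp (map_eq_bot_iff_of_injective _ N.subtype_injective).1 fun e => by
        rwa [← map_subtype_inj, ← MonoidHom.range_eq_map, range_subtype]
  have : Nontrivial N := (nontrivial_iff_ne_bot N).2 hN
  obtain ⟨v0, hv0⟩ := exists_ne (1 : N)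
  obtain ⟨v, v1, v2⟩ : ∃ v : N, v ≠ 1 ∧ v * v = 1 := by
    by_contra! hn
    obtain ⟨t, ot⟩ := exists_prime_orderOf_dvd_card' (G := H) 2 (by
      by_contra h
      exact nsol (FTC.solvable_of_odd (Nat.odd_iff.2 (by omega))))
    obtain ⟨w, hw⟩ : ∃ w : N, t • w ≠ w := by
      by_contra! h
      exact Invol.ne_one_of ot (mem_bot.1 ((hcf v0 hv0 (MulAction.toPermHom H N).ker inferInstance fun y hy =>
        DFunLike.congr_fun (MonoidHom.mem_ker.1 hy) v0).le (MonoidHom.mem_ker.2 (Equiv.ext h))))
    have u1 : w⁻¹ * t • w ≠ 1 := fun e => hw (inv_mul_eq_one.1 e).symm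
    have u2 : t • (w⁻¹ * t • w) = (w⁻¹ * t • w)⁻¹ := by
      rw [smul_mul', smul_inv', ← mul_smul, Invol.mul_self_of ot, one_smul, mul_inv_rev, inv_inv]
    generalize w⁻¹ * t • w = u at u1 u2
    let K : Subgroup H :=
      { carrier := {h | h • u = u ∨ h • u = u⁻¹}
        mul_mem' := by rintro a b (ha | ha) (hb | hb) <;> simp [mul_smul, ha, hb]
        one_mem' := Or.inl (one_smul _ _)
        inv_mem' := by
          rintro a (ha | ha)
          · exact Or.inl (inv_smul_eq_iff.2 ha.symm)
          · exact Or.inr (inv_smul_eq_iff.2 (by rw [smul_inv', ha, inv_inv])) }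
    have hK : K = ⊤ := (hmax u u1).2 K (lt_of_le_of_ne (fun h hh => Or.inl hh) fun e =>
      hn u u1 (mul_eq_one_iff_eq_inv.2 ((MulAction.mem_stabilizer_iff.1 (e.ge (Or.inr u2))).symm.trans u2)))
    have hc := hcf u u1 (commutator H) inferInstance (commutator_le.2 fun a _ b _ => by
      have k : ∀ a : H, a • u = u ∨ a • u = u⁻¹ := fun a => hK.ge (mem_top a)
      rw [MulAction.mem_stabilizer_iff, commutatorElement_def, mul_smul, mul_smul, mul_smul, ← eq_inv_smul_iff,
        ← eq_inv_smul_iff]
      rcases k a⁻¹ with ha | ha <;> rcases k b⁻¹ with hb | hb <;> simp [ha, hb])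
    exact nsol (Group.isSolvable_of_comm fun a b => commutatorElement_eq_one_iff_mul_comm.1
      (mem_bot.1 (hc ▸ commutator_mem_commutator (mem_top a) (mem_top b))))
  refine ⟨((Nat.prime_dvd_prime_iff_eq Nat.prime_two hp).1 (Nat.prime_two.dvd_of_dvd_pow (hcN ▸
    Invol.orderOf_two_iff.2 ⟨v2, v1⟩ ▸ orderOf_dvd_natCard v))).symm, fun _ => ?_⟩
  have hexp : ∀ w : N, w * w = 1 := fun w => by
    rcases hirr (powMonoidHom 2).ker (fun h w hw => by
      rw [MonoidHom.mem_ker, powMonoidHom_apply] at hw ⊢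
      rw [← smul_pow', hw, smul_one]) with e | e
    · exact absurd (mem_bot.1 (e.le (show v ∈ _ from (pow_two v).trans v2))) v1
    · exact (pow_two w).symm.trans (e.ge (mem_top w))
  have := nt v v1
  have := hep α ((v : G) • α)
  have : FaithfulSMul H (MulAction.orbit H ((v : G) • α)) := ⟨fun {a b} e => inv_mul_eq_one.1 (Subtype.ext
    (FG.ep_faithful (hep α) (mv v v1) (a⁻¹ * b).2 fun x hx => by
      rw [coe_mul, mul_smul, coe_inv, inv_smul_eq_iff]; exact (congrArg Subtype.val (e ⟨x, hx⟩)).symm))⟩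
  rcases prim_tri (G := H) (Ω := MulAction.orbit H ((v : G) • α)) with ⟨A, r, -, nA, h0, ⟨hc, -⟩, -⟩ | h1 |
    ⟨hF, T, U, hT, hU, hne⟩
  · have a0 : A.map H.subtype ≠ ⊥ := fun e => h0 ((map_eq_bot_iff_of_injective _ H.subtype_injective).1 e)
    have an := normal_map_subtype nA
    have ac : IsMulCommutative (A.map H.subtype) := inferInstance
    have ac' := Perm.mul_comm_of_isMulCommutative ac
    have cyc := BG.abelian_regular_cyclic ac hN le_normalizer_of_normal fun x hx x1 => eq_bot_iff.2 fun u hu =>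
      by_contra fun u1 => x1 (FG.ep_eq_one (hep α) a0 (map_subtype_le A) an (mv ⟨u, hu.1⟩ fun e =>
        u1 (congrArg Subtype.val e)) (map_subtype_le A hx) (fun k hk => ac' k hk x hx) (by
          rw [← mul_smul, ← mem_centralizer_singleton_iff.1 hu.2, mul_smul,
            show x • α = α from map_subtype_le A hx]))
    have : Group.IsSolvable (MulAut (A.map H.subtype)) :=
      Group.isSolvable_of_isSolvable_injective (f := (IsCyclic.mulAutMulEquiv _).toMonoidHom) (MulEquiv.injective _)
    have : Group.IsSolvable (A.map H.subtype) := Group.isSolvable_of_comm fun a b => Subtype.ext (ac' a a.2 b b.2)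
    refine absurd (Group.isSolvable_of_ker_le_range (inclusion (map_subtype_le A))
      ((A.map H.subtype).normalizerMonoidHom.comp (inclusion an)) fun h hh => ⟨⟨h, ?_⟩, rfl⟩) nsol
    refine FG.ep_mem_of_centralizes (hep α) a0 (map_subtype_le A) an ac' h.2 fun k hk => ?_
    exact (mul_inv_eq_iff_eq_mul.1 (congrArg Subtype.val
      (DFunLike.congr_fun (MonoidHom.mem_ker.1 hh) ⟨k, hk⟩))).symm
  · exact h1
  · exact absurd (ep_one_comp hmax hcf hexp hirr hF hT hU) hne

end Cfsg.Agent.S3521
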