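import Cfsg.Statements.S3532
import Cfsg.Agent.FG.SpecL2

set_option autoImplicit false
open Cfsg

namespace Cfsg.Agent.S3532

open Cfsg.Agent.FG

/-- Let q ≥ 4 be a prime power and L = PSL(2,q). There is a finite solvable group with the same set of element orders as L × L (so L × L is not determined by its spectrum). -/
theorem result {F : Type*} [Field F] [Fintype F] (hF : 4 ≤ Fintype.card F) :
    ∃ (H : Type) (_ : Group H) (_ : Finite H), Group.IsSolvable H ∧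
      Set.range (orderOf : H → ℕ) = Set.range (orderOf : Matrix.ProjectiveSpecialLinearGroup (Fin 2) F × Matrix.ProjectiveSpecialLinearGroup (Fin 2) F → ℕ) := by
  obtain ⟨p, _, n, hp, hn⟩ := FiniteField.card' F
  haveI := Fact.mk hp
  have h0 : p ∣ Nat.card F := by rw [Nat.card_eq_fintype_card, hn]; exact dvd_pow_self p n.ne_zero
  have h1 : ∀ m, m ∣ Nat.card F - 1 ∨ m ∣ Nat.card F + 1 → m.Coprime p := fun m h => h.elim
    (fun h => (((Nat.coprime_self_sub_left Nat.card_pos).2 (by simp)).of_dvd h h0)) fun h => .of_dvd h h0 (by simp)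
  obtain ⟨A, _, _, sA, hA⟩ := exists_frob_spec hp (h1 _ (.inl (Nat.div_dvd_of_dvd (Nat.gcd_dvd_right 2 _))))
  obtain ⟨B, _, _, sB, hB⟩ := exists_frob_spec hp (h1 _ (.inr (Nat.div_dvd_of_dvd (show Nat.gcd 2 (Nat.card F - 1) ∣ Nat.card F + 1 by
    rw [show Nat.card F + 1 = 2 + (Nat.card F - 1) by have := Nat.card_pos (α := F); omega]
    exact dvd_add (Nat.gcd_dvd_left ..) (Nat.gcd_dvd_right ..)))))
  refine ⟨A × B, inferInstance, inferInstance, inferInstance, spec_prod.trans (.trans ?_ spec_prod.symm)⟩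
  rw [hA, hB, spec_PSL2 p]
  refine Set.Subset.antisymm (Set.image2_subset (fun _ => .imp_right .inl) fun _ => .imp_right .inr) ?_
  rintro _ ⟨x, hx | hx | hx, y, hy | hy | hy, rfl⟩
  exacts [⟨x, .inl hx, y, .inl hy, rfl⟩, ⟨y, .inr hy, x, .inl hx, Nat.lcm_comm ..⟩, ⟨x, .inl hx, y, .inr hy, rfl⟩,
    ⟨x, .inr hx, y, .inl hy, rfl⟩, ⟨_, .inr (Nat.lcm_dvd hx hy), 1, .inl (one_dvd _), Nat.lcm_one_right _⟩,
    ⟨x, .inr hx, y, .inr hy, rfl⟩, ⟨y, .inl hy, x, .inr hx, Nat.lcm_comm ..⟩, ⟨y, .inr hy, x, .inr hx, Nat.lcm_comm ..⟩,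
    ⟨1, .inl (one_dvd _), _, .inr (Nat.lcm_dvd hx hy), Nat.lcm_one_left _⟩]

end Cfsg.Agent.S3532
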