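import Cfsg.Statements.S3547
import Cfsg.Agent.FG.Derange

set_option autoImplicit false
open Cfsg

namespace Cfsg.Agent.S3547

open Cfsg.Agent.FG Subgroup

/-- Let G act faithfully and transitively on a finite set Ω, let D be the subgroup generated by the derangements, and let r_G and r_D be the numbers of orbits of G and of D on ordered pairs of points (the permutation ranks). Then r_D − 1 = (r_G − 1)·[G : D]. -/
theorem result {G Ω : Type*} [Group G] [Finite G] [MulAction G Ω] [FaithfulSMul G Ω] [Finite Ω]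
    (htrans : MulAction.IsPretransitive G Ω) :
    Nat.card (MulAction.orbitRel.Quotient ↥(Subgroup.closure {g : G | ∀ ω : Ω, g • ω ≠ ω}) (Ω × Ω)) - 1 =
      (Nat.card (MulAction.orbitRel.Quotient G (Ω × Ω)) - 1) * (Subgroup.closure {g : G | ∀ ω : Ω, g • ω ≠ ω}).index := by
  classical
  change norb (Der G Ω) (Ω × Ω) - 1 = (norb G (Ω × Ω) - 1) * (Der G Ω).index
  rcases isEmpty_or_nonempty Ω with h | h
  · simp [norb, MulAction.orbitRel.Quotient]
  haveI := Fintype.ofFinite G
  have h1 := Finset.sum_filter_add_sum_filter_not Finset.univ (· ∈ Der G Ω) (nfix (Ω × Ω))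
  have h2 : ∑ g with g ∉ Der G Ω, nfix (Ω × Ω) g = ∑ g with g ∉ Der G Ω, 1 := Finset.sum_congr rfl fun g hg => by
    rw [nfix_prod, not_not.1 (mt (Der_spec.2 g) (Finset.mem_filter.1 hg).2), one_pow]
  have h4 := Finset.card_filter_add_card_filter_not (s := Finset.univ) (· ∈ Der G Ω)
  have h5 : (Finset.univ.filter (· ∈ Der G Ω)).card = Nat.card (Der G Ω) := by
    rw [Nat.card_eq_fintype_card, Fintype.card_subtype]
  rw [sum_nfix_filter, sum_nfix, h2, ← Finset.card_eq_sum_ones] at h1
  rw [h5, Finset.card_univ, ← Nat.card_eq_fintype_card] at h4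
  obtain ⟨a, ha⟩ := Nat.exists_eq_add_one_of_ne_zero (norb_pos (G := Der G Ω) (Ω := Ω × Ω)).ne'
  obtain ⟨b, hb⟩ := Nat.exists_eq_add_one_of_ne_zero (norb_pos (G := G) (Ω := Ω × Ω)).ne'
  rw [ha, hb] at h1 ⊢
  rw [← card_mul_index (Der G Ω)] at h1 h4
  refine Nat.eq_of_mul_eq_mul_left (Nat.card_pos (α := Der G Ω)) ?_
  simp only [Nat.add_sub_cancel]
  nlinarith

end Cfsg.Agent.S3547
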