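import Cfsg.Statements.S3548
import Cfsg.Agent.FG.Derange
import Cfsg.Agent.Perm.Sharp2

set_option autoImplicit false
open Cfsg

namespace Cfsg.Agent.S3548

open Cfsg.Agent.FG Subgroup MulAction

/-- Let G act faithfully and transitively on a finite set with n ≥ 2 points and let D be the subgroup generated by the derangements. Then the index of D in G divides n − 1, and if it equals n − 1 then n is a prime power. -/
theorem result {G Ω : Type*} [Group G] [Finite G] [MulAction G Ω] [FaithfulSMul G Ω] [Finite Ω]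
    (htrans : MulAction.IsPretransitive G Ω) (hΩ : 2 ≤ Nat.card Ω) :
    (Subgroup.closure {g : G | ∀ ω : Ω, g • ω ≠ ω}).index ∣ Nat.card Ω - 1 ∧
    ((Subgroup.closure {g : G | ∀ ω : Ω, g • ω ≠ ω}).index = Nat.card Ω - 1 → IsPrimePow (Nat.card Ω)) := by
  haveI : Nontrivial Ω := Finite.one_lt_card_iff_nontrivial.1 hΩ
  refine ⟨Der_index_dvd_card, fun h => ?_⟩
  have h1 : ∀ a b : Ω, a ≠ b → orbit (stabilizer G a) b = {a}ᶜ ∧
      stabilizer (stabilizer G a) b = (Der G Ω).subgroupOf _ := fun a b hab => by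
    have h1 : stabilizer (stabilizer G a) b ≤ (Der G Ω).subgroupOf _ := fun g hg =>
      Der_spec.2 _ (two_le_nfix hab g.2 hg).ne'
    have h2 : orbit (stabilizer G a) b ⊆ {a}ᶜ := by
      rintro _ ⟨g, rfl⟩ e
      exact hab (smul_left_cancel (g : G) (g.2.trans e.symm))
    have h3 := Set.ncard_le_ncard h2
    have h4 := index_antitone h1
    rw [Set.ncard_compl, Set.ncard_singleton] at h3
    rw [← relIndex, relIndex_stabilizer Der_spec.1, h, index_stabilizer] at h4
    refine ⟨Set.eq_of_subset_of_ncard_le h2 (by rwa [Set.ncard_compl, Set.ncard_singleton]),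
      eq_of_le_of_card_ge h1 (Nat.le_of_mul_le_mul_right (c := Nat.card Ω - 1) ?_ (by omega))⟩
    conv_lhs => rw [← h, ← relIndex_stabilizer Der_spec.1 a, relIndex, card_mul_index, ← card_mul_index (stabilizer (stabilizer G a) b),
      index_stabilizer]
    gcongr
  obtain ⟨N, -, h2, h3, h4, -, p, hp, h5⟩ := Perm.sharp2_exists_kernel (G := G) (Ω := Ω)
    (is_two_pretransitive_iff.2 fun {a b c d} hab hcd => by
      obtain ⟨g, rfl⟩ := exists_smul_eq G a c
      obtain ⟨k, hk⟩ := (h1 (g • a) (g • b) (mt (smul_left_cancel g) hab)).1.ge hcd.symm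
      exact ⟨k * g, by rw [mul_smul]; exact k.2, by rw [mul_smul]; exact hk⟩)
    fun g x y hxy hx hy => eq_of_smul_eq_smul (α := Ω) fun z => (one_smul G z).symm ▸ by
      by_cases e : x = z
      · exact e ▸ hx
      exact (h1 x z e).2.ge ((h1 x y hxy).2.le (show (⟨g, hx⟩ : stabilizer G x) ∈ _ from hy))
  obtain ⟨a⟩ : Nonempty Ω := inferInstance
  haveI := (nontrivial_iff_ne_bot N).2 h2
  obtain ⟨j, hj, e⟩ := Perm.exists_card_eq_pow (N := N) hp fun x => Subtype.ext (h5 x x.2)
  exact ⟨p, j, hp.prime, hj, e.symm.trans (Perm.card_eq_of_regular h4 a fun u hu e => ((h3 u).1 hu).resolve_right fun h => h a e)⟩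

end Cfsg.Agent.S3548
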