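import Cfsg.Statements.S3549
import Cfsg.Agent.FG.Derange

set_option autoImplicit false
open Cfsg

namespace Cfsg.Agent.S3549

open Cfsg.Agent.FG Subgroup MulAction

/-- Let G act faithfully, transitively but imprimitively on a finite set with n points, and let D be the subgroup generated by the derangements. Then the index of D in G is at most √n − 1. -/
theorem result {G Ω : Type*} [Group G] [Finite G] [MulAction G Ω] [FaithfulSMul G Ω] [Finite Ω]
    (htrans : MulAction.IsPretransitive G Ω) (himp : ¬ MulAction.IsPreprimitive G Ω) :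
    ((Subgroup.closure {g : G | ∀ ω : Ω, g • ω ≠ ω}).index : ℝ) ≤ Real.sqrt (Nat.card Ω) - 1 := by
  obtain ⟨B, hB, h1⟩ : ∃ B : Set Ω, IsBlock G B ∧ ¬ IsTrivialBlock B := by
    by_contra! h
    exact himp ⟨h _⟩
  obtain ⟨⟨a, ha, b, hb, hab⟩, h2⟩ := (not_or.1 h1).imp_left Set.not_subsingleton_iff.1
  haveI : Nonempty Ω := ⟨a⟩
  have h3 := Der_index_dvd (G := G) (a := a) (B \ {a}) (fun h => h.2 rfl) fun g hg x hx =>
    ⟨hB.smul_eq_of_mem ha (hg.symm ▸ ha) ▸ Set.smul_mem_smul_set hx.1, fun e => hx.2 (smul_left_cancel g (e.trans hg.symm))⟩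
  obtain ⟨m, hm⟩ := hB.ncard_dvd_card ⟨a, ha⟩
  have h4 := Der_index_dvd_card (G := G) (Ω := Ω)
  have h5 : 1 < B.ncard := (Set.one_lt_ncard).2 ⟨a, ha, b, hb, hab⟩
  have h6 : B.ncard < Nat.card Ω := Set.ncard_univ Ω ▸ Set.ncard_lt_ncard (Set.ssubset_univ_iff.2 h2)
  rw [Set.ncard_sdiff_singleton_of_mem ha] at h3
  rw [hm] at h4 h6 ⊢
  generalize B.ncard = n, (Der G Ω).index = d at *
  have h7 : 1 < m := by nlinarith
  obtain ⟨n, rfl⟩ := Nat.exists_eq_add_of_lt h5
  obtain ⟨m, rfl⟩ := Nat.exists_eq_add_of_lt h7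
  have h8 : d ∣ 1 + m := (Nat.dvd_add_right (h3.mul_right (1 + m + 1))).1 (by
    convert h4 using 1
    exact (Nat.sub_eq_of_eq_add (by simp only [Nat.add_sub_cancel]; ring)).symm)
  have h9 := Nat.le_of_dvd (by omega) h3
  have h10 := Nat.le_of_dvd (by omega) h8
  refine le_sub_iff_add_le.2 (Real.le_sqrt_of_sq_le ?_)
  exact_mod_cast (sq (d + 1)).trans_le (Nat.mul_le_mul (by omega) (by omega))

end Cfsg.Agent.S3549
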