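import Cfsg.Statements.S3559
import Cfsg.Agent.Perm.BGroup

set_option autoImplicit false
open Cfsg

namespace Cfsg.Agent.S3559

open MulAction

/-- Let G act faithfully and transitively on a finite set whose number of points n ≥ 2 is not a prime power, and suppose G has a cyclic subgroup acting regularly (transitively with trivial point stabilizers). Then G is imprimitive or doubly transitive. -/
theorem result {G Ω : Type*} [Group G] [Finite G] [MulAction G Ω] [FaithfulSMul G Ω] [Finite Ω]
    (htrans : MulAction.IsPretransitive G Ω) (hn : 2 ≤ Nat.card Ω) (hnp : ¬ IsPrimePow (Nat.card Ω))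
    (C : Subgroup G) (hcyc : IsCyclic ↥C) (hC : MulAction.IsPretransitive ↥C Ω ∧ ∀ a : Ω, MulAction.stabilizer ↥C a = ⊥) :
    ¬ MulAction.IsPreprimitive G Ω ∨ MulAction.IsMultiplyPretransitive G Ω 2 := by
  by_contra h
  push Not at h
  obtain ⟨ω⟩ : Nonempty Ω := (Nat.card_pos_iff.1 (by omega)).1
  have hb : Function.Bijective fun c : C => (c : G) • ω := by
    refine ⟨fun a b e => ?_, fun x => hC.1.exists_smul_eq ω x⟩
    have : a⁻¹ * b ∈ stabilizer C ω := by
      rw [mem_stabilizer_iff, mul_smul, inv_smul_eq_iff]; exact e.symm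
    rwa [hC.2, Subgroup.mem_bot, inv_mul_eq_one] at this
  have hc := Nat.card_eq_of_bijective _ hb
  have hp := Nat.minFac_prime (n := Nat.card Ω) (by omega)
  exact (Perm.BGr.exists_normal C ω hb hp (hc ▸ Nat.minFac_dvd _) (fun e => hnp (by
    rw [← hc, e]; exact hp.isPrimePow)) h.2).1 h.1

end Cfsg.Agent.S3559
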