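import Cfsg.Statements.S3560

set_option autoImplicit false
open Cfsg

namespace Cfsg.Agent.S3560

open Equiv MulAction

/-- adjacency in the Hamming graph -/
def Adj {ι X : Type*} (x y : ι → X) : Prop := ∃ i, x i ≠ y i ∧ ∀ j, j ≠ i → x j = y j

/-- the wreath-type permutations -/
def wr {ι X : Type*} (s : Perm ι) (π : ι → Perm X) : Perm (ι → X) where
  toFun x l := π l (x (s l))
  invFun x l := (π (s.symm l)).symm (x (s.symm l))
  left_inv x := by funext l; simp
  right_inv x := by funext l; simp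

theorem wr_apply {ι X : Type*} (s : Perm ι) (π : ι → Perm X) (x : ι → X) (l : ι) :
    wr s π x l = π l (x (s l)) := rfl

theorem wr_adj {ι X : Type*} (s : Perm ι) (π : ι → Perm X) (x y : ι → X) :
    Adj (wr s π x) (wr s π y) ↔ Adj x y := by
  constructor
  · rintro ⟨i, h1, h2⟩
    refine ⟨s i, fun h => h1 (by simp [wr_apply, h]), fun j hj => ?_⟩
    have := h2 (s.symm j) (fun h => hj (by rw [← h]; simp))
    simpa [wr_apply] using this
  · rintro ⟨i, h1, h2⟩
    refine ⟨s.symm i, by simpa [wr_apply] using h1, fun j hj => ?_⟩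
    have := h2 (s j) (fun h => hj (by rw [← h]; simp))
    simp [wr_apply, this]

/-- the automorphism group of the Hamming graph, on a copy of the vertex set -/
def aut {ι X Ω : Type*} (φ : Ω ≃ (ι → X)) : Subgroup (Perm Ω) where
  carrier := {σ | ∀ x y, Adj (φ (σ x)) (φ (σ y)) ↔ Adj (φ x) (φ y)}
  one_mem' := fun _ _ => Iff.rfl
  mul_mem' := fun {a b} ha hb x y => (ha (b x) (b y)).trans (hb x y)
  inv_mem' := fun {a} ha x y => by
    have := ha (a⁻¹ x) (a⁻¹ y)
    simpa using this.symm

theorem wr_mem {ι X Ω : Type*} (φ : Ω ≃ (ι → X)) (s : Perm ι) (π : ι → Perm X) :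
    φ.symm.permCongr (wr s π) ∈ aut φ := fun x y => by
  simp [wr_adj]

theorem exists_perm2 {X : Type*} {a b c d : X} (h : a ≠ b) (h' : c ≠ d) : ∃ π : Perm X, π a = c ∧ π b = d := by
  classical
  refine ⟨swap (swap a c b) d * swap a c, ?_, by simp⟩
  simp only [Perm.mul_apply, swap_apply_left]
  apply swap_apply_of_ne_of_ne _ h'
  intro hc
  apply h
  have : swap a c c = swap a c (swap a c b) := congrArg _ hc
  simpa using this

theorem nb_trans {ι X : Type*} {y a b : ι → X} (ha : Adj y a) (hb : Adj y b) :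
    ∃ s π, wr s π y = y ∧ wr s π a = b := by
  classical
  obtain ⟨i, h1, h2⟩ := ha
  obtain ⟨j, h3, h4⟩ := hb
  obtain ⟨π0, e1, e2⟩ := exists_perm2 h1 h3
  refine ⟨swap i j, fun l => if l = j then π0 else swap (y (swap i j l)) (y l), ?_, ?_⟩
  · funext l
    rw [wr_apply]
    by_cases hl : l = j
    · subst hl; simpa using e1
    · simp [hl]
  · funext l
    rw [wr_apply]
    by_cases hl : l = j
    · subst hl; simpa using e2
    · have : swap i j l ≠ i := by
        intro h
        apply hl
        have : swap i j (swap i j l) = swap i j i := congrArg _ h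
        simpa using this
      rw [← h2 _ this, ← h4 l hl]
      simp [hl]

theorem conn {ι X : Type*} [Fintype ι] (B : Set (ι → X)) (hB : ∀ x ∈ B, ∀ y, Adj x y → y ∈ B) {x : ι → X} (hx : x ∈ B)
    (y : ι → X) : y ∈ B := by
  classical
  have : ∀ s : Finset ι, (fun i => if i ∈ s then y i else x i) ∈ B := by
    intro s
    induction s using Finset.induction_on with
    | empty => simpa using hx
    | insert i s hi ih =>
      by_cases h : x i = y i
      · convert ih using 2 with l
        by_cases hl : l = i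
        · subst hl; simp [hi, h]
        · simp [hl]
      · refine hB _ ih _ ⟨i, by simpa [hi] using h, fun l hl => by simp [hl]⟩
  simpa using this Finset.univ

theorem prim {ι X Ω : Type*} [Fintype ι] [Fintype X] (hX : 3 ≤ Fintype.card X) (φ : Ω ≃ (ι → X)) :
    IsPreprimitive (aut φ) Ω := by
  classical
  have htr : ∀ x y : Ω, ∃ g : aut φ, g • x = y := fun x y =>
    ⟨⟨_, wr_mem φ 1 (fun l => swap (φ x l) (φ y l))⟩, by
      show φ.symm (wr 1 (fun l => swap (φ x l) (φ y l)) (φ x)) = y
      rw [symm_apply_eq]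
      funext l
      simp [wr_apply]⟩
  haveI : IsPretransitive (aut φ) Ω := ⟨htr⟩
  refine ⟨fun {B} hB => ?_⟩
  by_cases hs : B.Subsingleton
  · exact Or.inl hs
  right
  rw [Set.not_subsingleton_iff] at hs
  obtain ⟨x, hx, y, hy, hxy⟩ := hs
  have hne : φ x ≠ φ y := fun h => hxy (φ.injective h)
  obtain ⟨i, hi⟩ := Function.ne_iff.mp hne
  obtain ⟨c, hc⟩ : ∃ c : X, c ∉ ({φ x i, φ y i} : Finset X) := by
    by_contra hh
    push Not at hh
    have : (Finset.univ : Finset X) ⊆ {φ x i, φ y i} := fun c _ => hh c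
    have h1 := Finset.card_le_card this
    have h2 := Finset.card_le_two (a := φ x i) (b := φ y i)
    rw [Finset.card_univ] at h1
    omega
  simp only [Finset.mem_insert, Finset.mem_singleton, not_or] at hc
  have hmove : ∀ (g : aut φ) (u v : Ω), u ∈ B → g • u ∈ B → v ∈ B → g • v ∈ B := fun g u v hu hgu hv => by
    rw [← hB.smul_eq_of_mem hu hgu]
    exact Set.smul_mem_smul_set hv
  let g : aut φ := ⟨_, wr_mem φ 1 (fun l => if l = i then swap (φ y i) c else 1)⟩
  have hg : ∀ u, φ (g • u) = wr 1 (fun l => if l = i then swap (φ y i) c else 1) (φ u) := fun u => by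
    show φ (φ.symm (wr _ _ (φ u))) = _
    rw [apply_symm_apply]
  have hgx : g • x = x := by
    apply φ.injective
    rw [hg]
    funext l
    rw [wr_apply]
    by_cases hl : l = i
    · subst hl
      simp [swap_apply_of_ne_of_ne hi (Ne.symm hc.1)]
    · simp [hl]
  have hy' : g • y ∈ B := hmove g x y hx (by rw [hgx]; exact hx) hy
  have hadj : Adj (φ y) (φ (g • y)) := by
    rw [hg]
    refine ⟨i, by simpa [wr_apply] using Ne.symm hc.2, fun l hl => by simp [wr_apply, hl]⟩
  have hnb : ∀ z, Adj (φ y) (φ z) → z ∈ B := fun z hz => by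
    obtain ⟨s, π, e1, e2⟩ := nb_trans hadj hz
    let k : aut φ := ⟨_, wr_mem φ s π⟩
    have hk : ∀ u, φ (k • u) = wr s π (φ u) := fun u => by
      show φ (φ.symm (wr _ _ (φ u))) = _
      rw [apply_symm_apply]
    have e3 : k • y = y := φ.injective (by rw [hk, e1])
    have e4 : k • (g • y) = z := φ.injective (by rw [hk, e2])
    rw [← e4]
    exact hmove k y _ hy (by rw [e3]; exact hy) hy'
  have hall : ∀ u ∈ B, ∀ z, Adj (φ u) (φ z) → z ∈ B := fun u hu z hz => by
    obtain ⟨k, hk⟩ := htr y u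
    have h1 : Adj (φ y) (φ (k⁻¹ • z)) := by
      have := k.2 y (k⁻¹ • z)
      rw [← this]
      show Adj (φ (k • y)) (φ (k • k⁻¹ • z))
      rwa [hk, smul_inv_smul]
    have := hmove k y _ hy (by rw [hk]; exact hu) (hnb _ h1)
    rwa [smul_inv_smul] at this
  refine Set.eq_univ_of_forall fun z => ?_
  have := conn (φ.symm ⁻¹' B) (fun a ha b hab => hall _ ha _ (by simpa using hab)) (x := φ x) (by simpa using hx) (φ z)
  simpa using this

theorem not2 {ι X Ω : Type*} [Fintype ι] [Fintype X] (hι : 2 ≤ Fintype.card ι) (hX : 3 ≤ Fintype.card X) (φ : Ω ≃ (ι → X)) :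
    ¬ IsMultiplyPretransitive (aut φ) Ω 2 := by
  classical
  intro h
  rw [is_two_pretransitive_iff] at h
  obtain ⟨i, j, hij⟩ := Fintype.exists_pair_of_one_lt_card (α := ι) (by omega)
  obtain ⟨a, b, hab⟩ := Fintype.exists_pair_of_one_lt_card (α := X) (by omega)
  have h1 : φ.symm (fun _ => a) ≠ φ.symm (fun l => if l = i then b else a) := fun h => by
    have := congrFun (φ.symm.injective h) i
    simp [hab] at this
  have h2 : φ.symm (fun _ => a) ≠ φ.symm (fun _ => b) := fun h => hab (congrFun (φ.symm.injective h) i)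
  obtain ⟨g, e1, e2⟩ := h h1 h2
  have := g.2 (φ.symm (fun _ => a)) (φ.symm (fun l => if l = i then b else a))
  have e1' : g.1 (φ.symm (fun _ => a)) = φ.symm (fun _ => a) := e1
  have e2' : g.1 (φ.symm (fun l => if l = i then b else a)) = φ.symm (fun _ => b) := e2
  rw [e1', e2'] at this
  simp only [apply_symm_apply] at this
  obtain ⟨l, -, hl⟩ := this.mpr ⟨i, by simpa using hab, fun l hl => by simp [hl]⟩
  by_cases hh : i = l
  · exact hab (hl j (fun h => hij (hh.trans h.symm)))
  · exact hab (hl i hh)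

/-- Let K be a finite group isomorphic to a direct product of r ≥ 2 groups all of the same order m ≥ 3. Then K is not a B-group: there is a primitive but not doubly transitive permutation group (on some finite set) containing a regular subgroup isomorphic to K. -/
theorem result {K : Type*} [Group K] [Finite K] {ι : Type*} [Fintype ι] (F : ι → Type*) [∀ i, Group (F i)]
    (hr : 2 ≤ Fintype.card ι) (m : ℕ) (hm : 3 ≤ m) (hcard : ∀ i, Nat.card (F i) = m) (e : K ≃* (∀ i, F i)) :
    ∃ (n : ℕ) (G R : Subgroup (Equiv.Perm (Fin n))), R ≤ G ∧ Nonempty (↥R ≃* K) ∧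
      MulAction.IsPretransitive ↥R (Fin n) ∧ (∀ a : Fin n, MulAction.stabilizer ↥R a = ⊥) ∧
      MulAction.IsPreprimitive ↥G (Fin n) ∧ ¬ MulAction.IsMultiplyPretransitive ↥G (Fin n) 2 := by
  classical
  haveI : ∀ i, Finite (F i) := fun i => Nat.finite_of_card_ne_zero (by rw [hcard]; omega)
  let ε : ∀ i, F i ≃ Fin m := fun i => (Finite.equivFinOfCardEq (hcard i))
  let ψ : Fin (Nat.card K) ≃ K := (Finite.equivFin K).symm
  let φ : Fin (Nat.card K) ≃ (ι → Fin m) := ψ.trans (e.toEquiv.trans (Equiv.piCongrRight ε))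
  let ρ : K →* Perm (Fin (Nat.card K)) := (ψ.symm.permCongrHom.toMonoidHom).comp (MulAction.toPermHom K K)
  have hρ : ∀ k x, ρ k x = ψ.symm (k * ψ x) := fun k x => rfl
  have hinj : Function.Injective ρ := by
    intro a b h
    have := congrArg (fun σ : Perm _ => ψ (σ (ψ.symm 1))) h
    simpa [hρ] using this
  refine ⟨Nat.card K, aut φ, ρ.range, ?_, ⟨(MonoidHom.ofInjective hinj).symm⟩, ⟨fun x y => ?_⟩, fun a => ?_,
    prim (by simpa using hm) φ, not2 hr (by simpa using hm) φ⟩
  · rintro _ ⟨k, rfl⟩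
    have : ρ k = φ.symm.permCongr (wr 1 (fun l => (ε l).permCongr (Equiv.mulLeft (e k l)))) := by
      ext x : 1
      rw [Equiv.permCongr_apply, Equiv.symm_symm, Equiv.eq_symm_apply]
      funext l
      simp [wr_apply, φ, hρ]
    rw [this]
    exact wr_mem _ _ _
  · refine ⟨⟨ρ (ψ y * (ψ x)⁻¹), _, rfl⟩, ?_⟩
    show ρ _ x = y
    rw [hρ]
    simp
  · rw [eq_bot_iff]
    rintro ⟨_, k, rfl⟩ h
    have h' : ρ k a = a := h
    rw [hρ, Equiv.symm_apply_eq] at h'
    have : k = 1 := by simpa using h'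
    subst this
    simp [Subgroup.mem_bot]

end Cfsg.Agent.S3560
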