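import Cfsg.Statements.S3572
import Cfsg.Agent.Neu.Dih2

set_option autoImplicit false
open Cfsg

namespace Cfsg.Agent.S3572

/-- A finite primitive permutation group containing a dihedral subgroup that acts regularly (transitively with trivial point stabilizers) is doubly transitive. -/
theorem result {G Ω : Type*} [Group G] [Finite G] [MulAction G Ω] [FaithfulSMul G Ω] [Finite Ω]
    (hprim : MulAction.IsPreprimitive G Ω) (D : Subgroup G) (m : ℕ) (hD : Nonempty (↥D ≃* DihedralGroup m))
    (hDreg : MulAction.IsPretransitive ↥D Ω ∧ ∀ a : Ω, MulAction.stabilizer ↥D a = ⊥) :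
    MulAction.IsMultiplyPretransitive G Ω 2 := by
  obtain ⟨e⟩ := hD
  have : NeZero m := ⟨by
    rintro rfl
    exact (Finite.of_equiv _ e.toEquiv).not_infinite inferInstance⟩
  rcases isEmpty_or_nonempty Ω with h | ⟨⟨ω⟩⟩
  · exact ⟨fun x => isEmptyElim (x 0)⟩
  refine Neu.dih_two_trans hprim D e ω ⟨fun a b h => ?_, fun x => hDreg.1.exists_smul_eq ω x⟩
  have : a⁻¹ * b ∈ MulAction.stabilizer D ω := by
    rw [MulAction.mem_stabilizer_iff, mul_smul, inv_smul_eq_iff]; exact h.symm
  rwa [hDreg.2, Subgroup.mem_bot, inv_mul_eq_one] at this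

end Cfsg.Agent.S3572
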