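import Cfsg.Statements.S3575
import Mathlib.Combinatorics.Enumerative.Bell
import Mathlib.GroupTheory.Perm.Cycle.PossibleTypes
import Mathlib.Data.Nat.Prime.Factorial
import Mathlib.Tactic

set_option autoImplicit false
open Cfsg

namespace Cfsg.Agent.S3575

open Equiv Equiv.Perm Finset

theorem supp_eq {α : Type*} [Fintype α] [DecidableEq α] {r : ℕ} [Fact r.Prime] {σ : Perm α}
    (h : σ ^ r = 1) : ∃ c, σ.cycleType = Multiset.replicate c r ∧ σ.support.card = c * r := by
  refine ⟨_, cycleType_of_pow_prime_eq_one h, ?_⟩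
  rw [← sum_cycleType]
  conv_lhs => rw [cycleType_of_pow_prime_eq_one h]
  simp

theorem exists_cyc (n : ℕ) {r : ℕ} [hr : Fact r.Prime] (c : ℕ) (h : c * r ≤ n) :
    ∃ σ : Perm (Fin n), σ ^ r = 1 ∧ σ.support.card = c * r := by
  obtain ⟨σ, hσ⟩ := (exists_with_cycleType_iff (Fin n) (m := Multiset.replicate c r)).mpr
    ⟨by simpa using h, fun a ha => Multiset.eq_of_mem_replicate ha ▸ hr.out.two_le⟩
  refine ⟨σ, pow_prime_eq_one_iff.mpr fun a ha => Multiset.eq_of_mem_replicate (hσ ▸ ha), ?_⟩
  rw [← sum_cycleType, hσ]; simp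

theorem distrib {ι : Type*} [DecidableEq ι] (A : ℕ) (S : Finset ι) : ∀ t ≤ S.card * A,
    ∃ u : ι → ℕ, (∀ y, u y ≤ A) ∧ (∀ y ∉ S, u y = 0) ∧ ∑ y ∈ S, u y = t := by
  induction S using Finset.induction_on with
  | empty => intro t ht; exact ⟨0, by simp, by simp, by simp at ht; simp [ht]⟩
  | insert a S ha ih =>
    intro t ht
    rw [card_insert_of_notMem ha, add_mul, one_mul] at ht
    obtain ⟨u, h1, h2, h3⟩ := ih (t - A) (by omega)
    refine ⟨Function.update u a (min t A), fun y => ?_, fun y hy => ?_, ?_⟩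
    · by_cases h : y = a
      · rw [h, Function.update_self]; exact min_le_right _ _
      · rw [Function.update_of_ne h]; exact h1 y
    · rw [mem_insert, not_or] at hy
      rw [Function.update_of_ne hy.1]; exact h2 y hy.2
    · rw [sum_insert ha, Function.update_self, sum_congr rfl fun y hy =>
        Function.update_of_ne (ne_of_mem_of_not_mem hy ha) _ _, h3]
      omega

theorem count {α : Type*} [Fintype α] [DecidableEq α] {a b : ℕ} (σ : Perm α) (f : α → Fin b)
    (hf : ∀ j, Nat.card {x // f x = j} = a) (π : Perm (Fin b)) (h : ∀ x, f (σ x) = π (f x)) :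
    σ.support.card = π.support.card * a +
      ∑ y ∈ π.supportᶜ, (σ.support.filter fun x => f x = y).card := by
  rw [card_eq_sum_card_fiberwise (f := f) (t := univ) (fun _ _ => mem_univ _),
    ← sum_add_sum_compl π.support]
  congr 1
  rw [← smul_eq_mul, ← sum_const]
  refine sum_congr rfl fun y hy => ?_
  rw [← hf y, Nat.card_eq_fintype_card, Fintype.card_subtype]
  congr 1
  ext x
  simp only [mem_filter, mem_univ, true_and, mem_support, and_iff_right_iff_imp]
  rintro rfl e
  exact mem_support.mp hy (by rw [← h, e])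

theorem fwd {α : Type*} [Fintype α] [DecidableEq α] {a b r c : ℕ} [hr : Fact r.Prime] (ha : 0 < a)
    (σ : Perm α) (hσ : σ ^ r = 1) (hc : σ.support.card = c * r) (f : α → Fin b)
    (hf : ∀ j, Nat.card {x // f x = j} = a) (π : Perm (Fin b)) (h : ∀ x, f (σ x) = π (f x)) :
    ∃ j, j * r ≤ b ∧ j * a ≤ c ∧ c ≤ j * a + (b - j * r) * (a / r) := by
  have hk : ∀ k x, f ((σ ^ k) x) = (π ^ k) (f x) := by
    intro k
    induction k with
    | zero => intro x; rfl
    | succ k ih => intro x; rw [pow_succ', pow_succ', Perm.mul_apply, Perm.mul_apply, h, ih]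
  have hπ : π ^ r = 1 := by
    ext y
    obtain ⟨⟨x, rfl⟩⟩ := (Nat.card_pos_iff.mp (hf y ▸ ha : 0 < Nat.card {x // f x = y})).1
    rw [← hk, hσ]; rfl
  obtain ⟨j, -, hj⟩ := supp_eq hπ
  have h1 := count σ f hf π h
  have h2 : ∑ y ∈ π.supportᶜ, (σ.support.filter fun x => f x = y).card ≤
      π.supportᶜ.card * (a / r * r) := by
    rw [← smul_eq_mul]
    refine sum_le_card_nsmul _ _ _ fun y hy => ?_
    have hy' : π y = y := by simpa using hy
    have hi : ∀ x, f (σ x) = y ↔ f x = y := fun x => by
      rw [h]; exact ⟨fun e => π.injective (e.trans hy'.symm), fun e => e ▸ e ▸ hy'⟩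
    obtain ⟨u, -, hu⟩ := supp_eq (σ := σ.subtypePerm (p := fun x => f x = y) hi) (r := r) (by
      rw [subtypePerm_pow]; ext x; simp [hσ])
    have h3 := (σ.subtypePerm (p := fun x => f x = y) hi).support.card_le_univ
    rw [← Nat.card_eq_fintype_card, hf, hu] at h3
    have h4 : (σ.support.filter fun x => f x = y).card = u * r := by
      rw [← hu, ← card_map (Function.Embedding.subtype _)]
      congr 1
      ext x
      simp only [mem_filter, mem_support, mem_map, Function.Embedding.coe_subtype, Subtype.exists,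
        exists_and_right, exists_eq_right, Ne, Subtype.ext_iff, subtypePerm_apply]
      exact ⟨fun h => ⟨h.2, h.1⟩, fun ⟨h, h'⟩ => ⟨h', h⟩⟩
    rw [h4]
    exact Nat.mul_le_mul_right _ ((Nat.le_div_iff_mul_le hr.out.pos).mpr h3)
  have h3 := π.support.card_le_univ
  rw [card_compl, Fintype.card_fin, hj] at h2
  rw [Fintype.card_fin, hj] at h3
  rw [hc, hj] at h1
  refine ⟨j, h3, Nat.le_of_mul_le_mul_right ?_ hr.out.pos, Nat.le_of_mul_le_mul_right ?_ hr.out.pos⟩
  · rw [h1, mul_right_comm]; exact Nat.le_add_right _ _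
  · rw [h1, add_mul, mul_right_comm j a r, mul_assoc (b - j * r)]; exact Nat.add_le_add_left h2 _

theorem bwd {a b r c j : ℕ} [hr : Fact r.Prime] (h1 : j * r ≤ b) (h2 : j * a ≤ c)
    (h3 : c ≤ j * a + (b - j * r) * (a / r)) (σ : Perm (Fin (a * b))) (hσ : σ ^ r = 1)
    (hc : σ.support.card = c * r) :
    ∃ f : Fin (a * b) → Fin b, (∀ j : Fin b, Nat.card {x : Fin (a * b) // f x = j} = a) ∧
      ∃ π : Equiv.Perm (Fin b), ∀ x : Fin (a * b), f (σ x) = π (f x) := by
  obtain ⟨π, hπ, cπ⟩ := exists_cyc b j h1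
  obtain ⟨u, u1, u2, u3⟩ := distrib (a / r) π.supportᶜ (c - j * a) (by
    rw [card_compl, Fintype.card_fin, cπ]; omega)
  choose τ hτ cτ using fun y => exists_cyc a (u y)
    ((Nat.le_div_iff_mul_le hr.out.pos).mp (u1 y))
  have t1 : ∀ y, π y ≠ y → τ y = 1 := fun y hy => by
    rw [← support_eq_empty_iff, ← card_eq_zero, cτ, u2 y (by simpa using hy), zero_mul]
  have t2 : ∀ y, τ (π y) = τ y := fun y => by
    by_cases hy : π y = y
    · rw [hy]
    · rw [t1 y hy, t1 _ fun e => hy (π.injective e)]
  let s : Perm (Fin b × Fin a) := prodShear π τ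
  have hk : ∀ k y x, (s ^ k) (y, x) = ((π ^ k) y, (τ y ^ k) x) := by
    intro k
    induction k with
    | zero => intro y x; rfl
    | succ k ih =>
      intro y x
      rw [pow_succ, pow_succ, pow_succ, Perm.mul_apply, Perm.mul_apply, Perm.mul_apply, ← t2 y]
      conv_rhs => enter [2, 2]; rw [t2 y]
      exact ih _ _
  have hs : s ^ r = 1 := Equiv.ext fun ⟨y, x⟩ => by rw [hk, hπ, hτ]; rfl
  have hf : ∀ y : Fin b, Nat.card {x : Fin b × Fin a // x.1 = y} = a := fun y => by
    rw [Nat.card_congr (Equiv.prodSubtypeFstEquivSubtypeProd (p := fun z => z = y))]; simp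
  have cs : s.support.card = c * r := by
    rw [count s Prod.fst hf π fun x => rfl, cπ, sum_congr rfl (g := fun y => u y * r), ← sum_mul,
      u3, mul_right_comm, ← add_mul]
    · congr 1; omega
    intro y hy
    have hy' : π y = y := by simpa using hy
    refine Eq.trans ?_ (cτ y)
    rw [← card_map (s := (τ y).support) ⟨Prod.mk y, Prod.mk_right_injective y⟩]
    congr 1
    ext ⟨z, x⟩
    simp only [mem_filter, mem_support, mem_map, Function.Embedding.coeFn_mk, Prod.mk.injEq, Ne]
    constructor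
    · rintro ⟨h, rfl⟩
      exact ⟨x, fun e => h (Prod.ext hy' e), rfl, rfl⟩
    · rintro ⟨x, h, rfl, rfl⟩
      exact ⟨fun e => h (congrArg Prod.snd e), rfl⟩
  obtain ⟨e⟩ : Nonempty (Fin b × Fin a ≃ Fin (a * b)) :=
    Fintype.card_eq.mp (by simp [mul_comm])
  have hs' : (e.permCongr s) ^ r = 1 := by
    rw [show e.permCongr s = e.permCongrHom s from rfl, ← map_pow, hs, map_one]
  have cs' : (e.permCongr s).support.card = c * r := by
    rw [← cs, ← card_map e.toEmbedding]
    congr 1
    ext x
    simp [← Equiv.eq_symm_apply]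
  obtain ⟨c1, a1, b1⟩ := supp_eq hs'
  obtain ⟨c2, a2, b2⟩ := supp_eq hσ
  have : c1 = c2 := Nat.eq_of_mul_eq_mul_right hr.out.pos (by rw [← b1, ← b2, hc, cs'])
  obtain ⟨g, rfl⟩ := isConj_iff.mp (isConj_iff_cycleType_eq.mpr (a1.trans (this ▸ a2.symm)))
  refine ⟨fun x => (e.symm (g⁻¹ x)).1, fun y => ?_, π, fun x => ?_⟩
  · exact (Nat.card_congr ((g⁻¹.trans e.symm).subtypeEquiv fun _ => Iff.rfl)).trans (hf y)
  · simp [s, prodShear]

/-- Let a, b ≥ 2 and consider the symmetric group of degree a·b acting on the partitions of an (a·b)-set into b parts of size a (encoded as maps onto a b-element set all of whose fibres have a elements; a permutation fixes such a partition when it permutes the fibres). Let r be a prime dividing the number (ab)!/((a!)^b·b!) of such partitions, and let ℓ and k be the remainders of a and b modulo r. Then every permutation of order r fixes some such partition if and only if r ≤ a and one of the following holds: ℓ = 0; or k = 0 and ℓ = 1; or ℓ and k are non-zero, k·ℓ < r,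 and either b < r or (k + r)·ℓ ≤ k·a + r. -/
theorem result (a b : ℕ) (ha : 2 ≤ a) (hb : 2 ≤ b) (r : ℕ) (hr : r.Prime)
    (hrd : r ∣ (a * b).factorial / (a.factorial ^ b * b.factorial)) :
    (∀ σ : Equiv.Perm (Fin (a * b)), orderOf σ = r →
        ∃ f : Fin (a * b) → Fin b, (∀ j : Fin b, Nat.card {x : Fin (a * b) // f x = j} = a) ∧
          ∃ π : Equiv.Perm (Fin b), ∀ x : Fin (a * b), f (σ x) = π (f x)) ↔
      (r ≤ a ∧ (a % r = 0 ∨ (b % r = 0 ∧ a % r = 1) ∨
        (a % r ≠ 0 ∧ b % r ≠ 0 ∧ (b % r) * (a % r) < r ∧ (b < r ∨ (b % r + r) * (a % r) ≤ (b % r) * a + r)))) := by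
  have : Fact r.Prime := ⟨hr⟩
  have h2 := hr.two_le
  have hrab : r ≤ a * b := by
    refine hr.dvd_factorial.mp (hrd.trans (Nat.div_dvd_of_dvd ?_))
    rw [mul_comm a b, ← Nat.uniformBell_mul_eq b (by omega : a ≠ 0), mul_assoc]
    exact dvd_mul_left _ _
  have key : (∀ σ : Equiv.Perm (Fin (a * b)), orderOf σ = r →
        ∃ f : Fin (a * b) → Fin b, (∀ j : Fin b, Nat.card {x : Fin (a * b) // f x = j} = a) ∧
          ∃ π : Equiv.Perm (Fin b), ∀ x : Fin (a * b), f (σ x) = π (f x)) ↔
      ∀ c, 1 ≤ c → c * r ≤ a * b →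
        ∃ j, j * r ≤ b ∧ j * a ≤ c ∧ c ≤ j * a + (b - j * r) * (a / r) := by
    constructor
    · intro h c h1 hc
      obtain ⟨σ, hσ, cσ⟩ := exists_cyc (a * b) c hc
      obtain ⟨f, hf, π, hπ⟩ := h σ (orderOf_eq_prime hσ fun e => by
        rw [e, support_one, card_empty] at cσ; nlinarith)
      exact fwd (by omega) σ hσ cσ f hf π hπ
    · intro h σ hσ
      have h3 : σ ^ r = 1 := hσ ▸ pow_orderOf_eq_one σ
      obtain ⟨c, -, hc⟩ := supp_eq h3
      obtain ⟨j, a1, a2, a3⟩ := h c (Nat.pos_of_ne_zero fun e => by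
        rw [e, zero_mul, card_eq_zero, support_eq_empty_iff] at hc
        rw [hc, orderOf_one] at hσ; omega) (by simpa [hc] using σ.support.card_le_univ)
      exact bwd a1 a2 a3 σ h3 hc
  rw [key]
  have ea := Nat.div_add_mod a r
  have eb := Nat.div_add_mod b r
  have la := Nat.mod_lt a hr.pos
  have lb := Nat.mod_lt b hr.pos
  generalize a / r = A at *
  generalize b / r = B at *
  generalize a % r = l at *
  generalize b % r = k at *
  -- the top of the `j`-th interval
  have top : ∀ j, j * r ≤ b → j * a + (b - j * r) * A = b * A + j * l := fun j hj => by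
    obtain ⟨t, ht⟩ := Nat.exists_eq_add_of_le hj
    rw [ht, Nat.add_sub_cancel_left, ← ea]; ring
  have hjB : ∀ j, j * r ≤ b ↔ j ≤ B := fun j =>
    ⟨fun h => by by_contra h'; nlinarith, fun h => by nlinarith⟩
  constructor
  · intro h
    have hA : 1 ≤ A := by
      obtain ⟨j, a1, a2, a3⟩ := h 1 le_rfl (by omega)
      by_contra hA
      obtain rfl : A = 0 := by omega
      rcases j with _ | j
      · omega
      · nlinarith
    have h3 : k * l < r := by
      by_contra h3
      obtain ⟨j, a1, a2, a3⟩ := h (b * A + B * l + 1) (by omega) (by subst ea eb; nlinarith)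
      rw [top j a1] at a3
      have := Nat.mul_le_mul_right l ((hjB j).mp a1)
      omega
    have h4 : b < r ∨ (k + r) * l ≤ k * a + r := by
      rcases B with _ | B
      · left; omega
      right
      by_contra h4
      have h5 : b * A + B * l + 1 < (B + 1) * a := by
        refine Nat.lt_of_mul_lt_mul_right (a := r) ?_
        subst ea eb; nlinarith
      obtain ⟨j, a1, a2, a3⟩ := h (b * A + B * l + 1) (by omega) (by
        have : (B + 1) * a * r ≤ a * b := by subst eb; nlinarith
        nlinarith)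
      rw [top j a1] at a3
      have h6 : j ≤ B := by by_contra h6; nlinarith
      have := Nat.mul_le_mul_right l h6
      omega
    refine ⟨by nlinarith, ?_⟩
    by_cases hl : l = 0
    · exact Or.inl hl
    by_cases hk : k = 0
    · refine Or.inr (Or.inl ⟨hk, ?_⟩)
      subst hk
      rcases h4 with h4 | h4
      · rcases B with _ | B
        · omega
        · nlinarith
      · by_contra h5
        have : 2 ≤ l := by omega
        nlinarith
    · exact Or.inr (Or.inr ⟨hl, hk, h3, h4⟩)
  · rintro ⟨hra, h⟩ c h1 hc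
    have h34 : k * l < r ∧ (B = 0 ∨ (k + r) * l ≤ k * a + r) := by
      rcases h with rfl | ⟨rfl, rfl⟩ | ⟨-, -, h3, h4⟩
      · exact ⟨by omega, Or.inr (by omega)⟩
      · exact ⟨by omega, Or.inr (by omega)⟩
      · refine ⟨h3, h4.imp_left fun h => ?_⟩
        by_contra h'
        have : 1 ≤ B := by omega
        nlinarith
    obtain ⟨h3, h4⟩ := h34
    by_cases hB : B * a ≤ c
    · refine ⟨B, (hjB B).mpr le_rfl, hB, ?_⟩
      rw [top B ((hjB B).mpr le_rfl)]
      refine Nat.le_of_lt_succ (Nat.lt_of_mul_lt_mul_right (a := r) ?_)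
      subst ea eb; simp only [Nat.succ_eq_add_one]; nlinarith
    · have e1 := Nat.div_add_mod c a
      have e2 := Nat.mod_lt c (show 0 < a by omega)
      generalize c / a = j at *
      generalize c % a = m at *
      have hj : j < B := by by_contra h'; nlinarith
      refine ⟨j, (hjB j).mpr hj.le, by nlinarith, ?_⟩
      have h5 := h4.resolve_left (by omega)
      have h6 : a ≤ (k + r) * A + 1 := by
        refine Nat.le_of_mul_le_mul_right ?_ hr.pos
        subst ea; nlinarith
      have h7 : k + r ≤ b - j * r := by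
        have : (j + 1) * r ≤ B * r := Nat.mul_le_mul_right r hj
        refine Nat.le_sub_of_add_le ?_
        nlinarith
      have := Nat.mul_le_mul_right A h7
      nlinarith

end Cfsg.Agent.S3575
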