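import Cfsg.Statements.S3589
import Cfsg.Agent.Classical.Spc2

set_option autoImplicit false
open Cfsg

namespace Cfsg.Agent.S3589

open Cfsg.Agent.Classical Cfsg.Agent.Classical.Spc Cfsg.Agent.Classical.Eig Cfsg.Agent.Geom Cfsg.Agent.Elu

/-- Let F be a finite field of characteristic 2 and let a, b ∈ F make the binary form z₁² + a z₁z₂ + b z₂² anisotropic. Then the symplectic group PSp(8,F) (= Sp(8,F)) and the full isometry group of the non-singular quadratic form x₁y₁ + x₂y₂ + x₃y₃ + (z₁² + a z₁z₂ + b z₂²) of minus type in dimension 8 have the same set of element orders. -/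
theorem result {F : Type*} [Field F] [Fintype F]
    [CharP F 2] (a b : F) (han : ∀ z₁ z₂ : F, z₁ ^ 2 + a * z₁ * z₂ + b * z₂ ^ 2 = 0 → z₁ = 0 ∧ z₂ = 0) :
    Set.range (orderOf : Cfsg.PSp 4 F → ℕ) = Set.range (orderOf : ↥(Cfsg.isometryGroup F (Cfsg.quadFormMinus 3 F a b)) → ℕ) := by
  have hn := quadMinus_nondeg F 3 (disc_ne_zero_of_anisotropic han)
  have hd : Module.finrank F ((Fin 3 ⊕ Fin 3) ⊕ Fin 2 → F) = 8 := by simp
  have h : ∀ g : isometryGroup F (quadMinus F 3 a b), orderOf g =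
      orderOf (isometryEquiv _ g).1.toLinearMap := fun g => orderOf_eq_orderOf_iff.2 fun k => by
    rw [coe_pow_eq_one, ← (isometryEquiv _).map_eq_one_iff, map_pow, Subtype.ext_iff]; rfl
  rw [← coe_quadMinus]
  refine Set.ext fun m => ⟨fun hm => ?_, fun ⟨g, hg⟩ => mem_of_nf ?_⟩
  · obtain ⟨f, h1, h2⟩ := iso_of_ng hn hd ⟨3, quadMinus_wittIndex F 3 han, hd⟩ (ng_of_mem hm)
    obtain ⟨g, rfl⟩ := h1.exists_isom hn
    have : Finite (isometryGroup F (quadMinus F 3 a b)) := inferInstance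
    exact spec_dvd ⟨(isometryEquiv _).symm g, by rw [h, MulEquiv.apply_symm_apply]⟩ h2
  · rw [← hg, h, ← hd]
    exact nf_of_iso hn (iso_coe.2 (isometryEquiv _ g).2) (absurd CharTwo.two_eq_zero)

end Cfsg.Agent.S3589
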