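import Cfsg.Statements.S3590
import Cfsg.Agent.Classical.Spc2

set_option autoImplicit false
open Cfsg

namespace Cfsg.Agent.S3590

open Cfsg.Agent.Classical Cfsg.Agent.Classical.Spc Cfsg.Agent.Classical.Eig Cfsg.Agent.Geom Cfsg.Agent.Elu

/-- Let F be a finite field of characteristic 2. Then PSp(8,F) is not determined by its set of element orders, not even up to finitely many groups: for every bound there is a finite group of larger order with exactly the same set of element orders as PSp(8,F). -/
theorem result {F : Type*} [Field F] [Fintype F]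
    [CharP F 2] (M : ℕ) :
    ∃ (H : Type) (_ : Group H) (_ : Fintype H), M < Fintype.card H ∧ Set.range (orderOf : H → ℕ) = Set.range (orderOf : Cfsg.PSp 4 F → ℕ) := by
  obtain ⟨U, hn, hd, ht⟩ := (orth_quad _).exists_ty_sub (quadPlus_nondeg F 5) (l := 4) le_rfl (by omega)
    (.inl (by rw [finrank_plus]; omega))
  set Q := (quadPlus F 5).comp U.subtype
  let ρ : commutator (OG Q) →* Module.End F (Fin (M + 1) → U) :=
    { toFun g := (g.1.1 : Module.End F U).compLeft _, map_one' := rfl, map_mul' _ _ := rfl }
  let φ := (MulAutMultiplicative (Fin (M + 1) → U)).symm.toMonoidHom.comp ((DistribMulAction.toAddAut _ _).comp ρ.toHomUnits)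
  have h1 : ∀ g k v i, Ns (ρ g) k v i = Ns (g.1.1 : Module.End F U) k (v i) := fun g k v i => by
    simp only [Ns, LinearMap.sum_apply, Finset.sum_apply, ← map_pow, ← coe_isom_pow]; rfl
  have h2 := fun m => mem_spec_ao (m := m) φ ρ (fun _ _ => rfl) (.refl _) fun g k =>
    ⟨fun h => LinearMap.ext fun v => (h1 g k (fun _ => v) 0).symm.trans (by simp [h]), fun h =>
      LinearMap.ext fun v => funext fun i => (h1 g k v i).trans (LinearMap.congr_fun h _)⟩
  have : Finite (U ≃ₗ[F] U) := .of_injective _ DFunLike.coe_injective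
  have : Finite (Multiplicative (Fin (M + 1) → U) ⋊[φ] commutator (OG Q)) :=
    .of_equiv _ SemidirectProduct.equivProd.symm
  let e := Finite.equivFin (Multiplicative (Fin (M + 1) → U) ⋊[φ] commutator (OG Q))
  let := e.symm.group
  refine ⟨Fin _, e.symm.group, inferInstance, ?_, ?_⟩
  · have : Nontrivial U := Module.nontrivial_of_finrank_pos (R := F) (by omega)
    rw [Fintype.card_fin, SemidirectProduct.card, Nat.card_congr Multiplicative.toAdd, Nat.card_fun, Nat.card_fin]
    exact (Nat.lt_of_succ_lt (Nat.lt_pow_self Finite.one_lt_card)).trans_le (Nat.le_mul_of_pos_right _ Nat.card_pos)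
  refine Set.ext fun m => (e.symm.exists_congr fun x => by
    rw [← e.symm.mulEquiv.orderOf_eq]; rfl).trans ⟨fun h => mem_of_nf (nf_of_ao_two (Q := Q) hn hd ((h2 m).1 h)), fun h => ?_⟩
  obtain ⟨N, h3, h4⟩ := ao_of_ng_two (Q := Q) hn hd ht (ng_of_mem h)
  exact spec_dvd ((h2 N).2 h4) h3

end Cfsg.Agent.S3590
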