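import Cfsg.Statements.S3599
import Cfsg.Agent.Ree.Aff

set_option autoImplicit false
open Cfsg

namespace Cfsg.Agent.S3599

section
open SemidirectProduct Subgroup

/-- A minimal Frobenius group with a kernel of exponent `p` and a complement of order `q`. -/
structure Fr (p q : ℕ) (G : Type) [Group G] : Prop where
  ord : ∀ g : G, g ^ p = 1 ∨ g ^ q = 1
  comm : ∀ g h : G, g ^ p = 1 → h ^ p = 1 → Commute g h
  exp : ∃ x : G, orderOf x = p
  exq : ∃ y : G, orderOf y = q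
  gen : ∀ H : Subgroup G, ∀ x ∈ H, ∀ y ∈ H, orderOf x = p → orderOf y = q → H = ⊤

variable {p q : ℕ} (hp : p.Prime) (hq : q.Prime) (hne : p ≠ q)
include hp hq hne

theorem ex0 : ∃ (G : Type) (_ : Group G) (_ : Finite G), (∀ g : G, g ^ p = 1 ∨ g ^ q = 1) ∧
    (∀ g h : G, g ^ p = 1 → h ^ p = 1 → Commute g h) ∧ (∃ x : G, orderOf x = p) ∧ ∃ y : G, orderOf y = q := by
  have := Fact.mk hp
  have := Fact.mk hq
  have h0 : q - 1 ≠ 0 := Nat.sub_ne_zero_of_lt hq.one_lt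
  let K := GaloisField p (q - 1)
  obtain ⟨u, hu⟩ := exists_prime_orderOf_dvd_card' (G := Kˣ) q (by
    rw [Nat.card_units, GaloisField.card p _ h0]
    refine (Nat.modEq_iff_dvd' (Nat.one_le_pow _ _ hp.pos)).1 ?_
    rw [← Nat.totient_prime hq]
    exact (Nat.ModEq.pow_totient ((Nat.coprime_primes hp hq).2 hne)).symm)
  let φ : zpowers u →* MulAut (Multiplicative K) := (MulAutMultiplicative K).symm.toMonoidHom.comp
    ((DistribMulAction.toAddAut Kˣ K).comp (zpowers u).subtype)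
  have h1 : ∀ g : zpowers u, g ^ q = 1 := fun g =>
    orderOf_dvd_iff_pow_eq_one.1 ((orderOf_dvd_natCard g).trans ((Nat.card_zpowers u).trans hu).dvd)
  have h2 : ∀ v : Multiplicative K, v ^ p = 1 := fun v => by ext; simp
  refine ⟨Multiplicative K ⋊[φ] zpowers u, inferInstance, .of_equiv _ equivProd.symm, fun g => ?_, fun g h e e' => ?_,
    ⟨inl (.ofAdd 1), (orderOf_injective _ inl_injective _).trans (orderOf_eq_prime (h2 _) (by simp))⟩,
    inr ⟨u, mem_zpowers u⟩, by rw [orderOf_injective _ inr_injective, orderOf_mk, hu]⟩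
  · by_cases h : g.right = 1
    · exact .inl (by simpa using Ree.pow_eq_one_of_exp (n := 1) (by rw [h, pow_one]) h2)
    refine .inr (Ree.pow_eq_one_of_fpf (h1 _) fun v hv => by_contra fun h0 => h ?_)
    exact Subtype.ext (Units.ext ((mul_eq_right₀ (a := g.right.1.1) (b := v.toAdd) h0).1 hv))
  · have h3 : ∀ g : Multiplicative K ⋊[φ] zpowers u, g ^ p = 1 → g = inl g.left := fun g e => by
      have : g.right ^ p = 1 := (map_pow rightHom g p).symm.trans (by rw [e, map_one])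
      rw [← inl_left_mul_inr_right g, orderOf_eq_one_iff.1 (Nat.eq_one_of_dvd_coprimes ((Nat.coprime_primes hp hq).2 hne)
        (orderOf_dvd_of_pow_eq_one this) (orderOf_dvd_of_pow_eq_one (h1 _)))]
      simp
    rw [h3 g e, h3 h e']
    exact (Commute.all _ _).map inl

theorem exF : ∃ (G : Type) (_ : Group G) (_ : Finite G), Fr p q G := by
  obtain ⟨G, _, _, h1, h2, ⟨x, hx⟩, y, hy⟩ := ex0 hp hq hne
  obtain ⟨H, ⟨⟨x, hx, ox⟩, y, hy, oy⟩, hm⟩ := exists_minimal_of_wellFoundedLT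
    (fun H : Subgroup G => (∃ x ∈ H, orderOf x = p) ∧ ∃ y ∈ H, orderOf y = q) ⟨⊤, ⟨x, trivial, hx⟩, y, trivial, hy⟩
  refine ⟨H, inferInstance, inferInstance, fun g => (h1 g).imp Subtype.ext Subtype.ext, fun g h e e' => Subtype.ext
    (h2 g h (congrArg Subtype.val e) (congrArg Subtype.val e')), ⟨⟨x, hx⟩, by rwa [orderOf_mk]⟩,
    ⟨⟨y, hy⟩, by rwa [orderOf_mk]⟩, fun L a ha b hb oa ob => eq_top_iff.2 fun g _ => ?_⟩
  obtain ⟨g', h3, e⟩ := hm (y := L.map H.subtype) ⟨⟨a, mem_map_of_mem _ ha, by rwa [orderOf_coe]⟩, b, mem_map_of_mem _ hb,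
    by rwa [orderOf_coe]⟩ (map_subtype_le L) g.2
  exact Subtype.ext e ▸ h3

variable {G : Type} [Group G] (h : Fr p q G)
include h

theorem Fr.nc {x y : G} (hx : orderOf x = p) (hy : orderOf y = q) : ¬ Commute x y := fun c => by
  have := c.orderOf_mul_eq_mul_orderOf_of_coprime (by rw [hx, hy]; exact (Nat.coprime_primes hp hq).2 hne)
  rw [hx, hy] at this
  rcases h.ord (x * y) with e | e
  · have := Nat.le_of_dvd hp.pos (this ▸ orderOf_dvd_of_pow_eq_one e); nlinarith [hp.two_le, hq.two_le]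
  · have := Nat.le_of_dvd hq.pos (this ▸ orderOf_dvd_of_pow_eq_one e); nlinarith [hp.two_le, hq.two_le]

theorem Fr.cm {x y : G} (hx : orderOf x = p) (hy : orderOf y = q) : orderOf (y⁻¹ * x * y * x⁻¹) = p := by
  have := Fact.mk hp
  have h1 : x ^ p = 1 := hx ▸ pow_orderOf_eq_one x
  have h2 : (y⁻¹ * x * y) ^ p = 1 := by
    have := conj_pow (a := y⁻¹) (b := x) (i := p)
    rwa [inv_inv, h1, mul_one, inv_mul_cancel] at this
  have h3 : x⁻¹ ^ p = 1 := by rw [inv_pow, h1, inv_one]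
  refine orderOf_eq_prime (by rw [(h.comm _ _ h2 h3).mul_pow, h2, h3, mul_one]) fun e => h.nc hp hq hne hx hy ?_
  rw [mul_inv_eq_one, mul_assoc, inv_mul_eq_iff_eq_mul] at e
  exact e

theorem Fr.nq : ∃ y y' : G, y ^ q = 1 ∧ y' ^ q = 1 ∧ ¬ Commute y y' := by
  obtain ⟨x, hx⟩ := h.exp
  obtain ⟨y, hy⟩ := h.exq
  have h1 : y ^ q = 1 := hy ▸ pow_orderOf_eq_one y
  refine ⟨y, x * y * x⁻¹, h1, by rw [conj_pow, h1, mul_one, mul_inv_cancel], fun c => h.nc hp hq hne (h.cm hp hq hne hx hy) hy ?_⟩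
  rw [mul_assoc, mul_assoc, ← mul_assoc x]
  exact ((Commute.refl y).inv_right.mul_right c).symm

theorem Fr.nrm {N : Subgroup G} (hN : N.Normal) (h0 : N ≠ ⊥) {x : G} (hx : x ^ p = 1) : x ∈ N := by
  have := Fact.mk hp
  have := Fact.mk hq
  obtain ⟨⟨n, hn⟩, h1⟩ := ne_bot_iff_exists_ne_one.1 h0
  replace h1 : n ≠ 1 := fun e => h1 (Subtype.ext e)
  obtain ⟨a, ha⟩ := h.exp
  obtain ⟨y, hy⟩ := h.exq
  rcases h.ord n with e | e
  · have h2 := h.gen (N ⊔ zpowers y) n (mem_sup_left hn) y (mem_sup_right (mem_zpowers y)) (orderOf_eq_prime e h1) hy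
    obtain ⟨m, hm, _, ⟨i, rfl⟩, rfl⟩ := mem_sup_of_normal_left.1 (h2.ge (mem_top x))
    rw [← QuotientGroup.eq_one_iff, ← orderOf_eq_one_iff]
    refine Nat.eq_one_of_dvd_coprimes ((Nat.coprime_primes hp hq).2 hne) (orderOf_dvd_of_pow_eq_one ?_)
      (orderOf_dvd_of_pow_eq_one ?_)
    · rw [← QuotientGroup.mk_pow, hx, QuotientGroup.mk_one]
    · rw [QuotientGroup.mk_mul, (QuotientGroup.eq_one_iff m).2 hm, one_mul, ← QuotientGroup.mk_pow, ← zpow_natCast,
        ← zpow_mul, mul_comm, zpow_mul, zpow_natCast, ← hy, pow_orderOf_eq_one, one_zpow, QuotientGroup.mk_one]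
  · have o := orderOf_eq_prime e h1
    refine (h.gen N _ ?_ n hn (h.cm hp hq hne ha o) o).ge (mem_top x)
    rw [mul_assoc, mul_assoc, ← mul_assoc a]
    exact mul_mem (inv_mem hn) (hN.conj_mem n hn a)

end

/-- A finite group is critical with respect to a set Ω of natural numbers when its set of element orders is Ω while no proper section H/N (H a subgroup, N normal in H, (H, N) ≠ (whole group, 1)) has Ω as its set of element orders. Let s ≥ 1 and let p(j,0), p(j,1) (j < s) be 2s pairwise distinct primes, and let Ω be the set of all products c(0)·…·c(s−1) with each c(j) ∈ {1, p(j,0), p(j,1)}. Then there are 2^s pairwise non-isomorphic finite groups critical with respect to Ω. -/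
theorem result (s : ℕ) (hs : 1 ≤ s) (p : Fin s → Fin 2 → ℕ)
    (hp : ∀ j i, (p j i).Prime) (hinj : ∀ j i j' i', p j i = p j' i' → j = j' ∧ i = i') :
    ∃ (G : Fin (2 ^ s) → Type) (_ : ∀ a, Group (G a)) (_ : ∀ a, Fintype (G a)),
      (∀ a b, a ≠ b → ¬ Nonempty (G a ≃* G b)) ∧
      ∀ a, Set.range (orderOf : (G a) → ℕ) = {m : ℕ | ∃ c : Fin s → ℕ, (∀ j, c j = 1 ∨ c j = p j 0 ∨ c j = p j 1) ∧ m = ∏ j, c j} ∧
      ∀ (H : Subgroup (G a)) (N : Subgroup ↥H) [N.Normal], (H ≠ ⊤ ∨ N ≠ ⊥) → Set.range (orderOf : (↥H ⧸ N) → ℕ) ≠ {m : ℕ | ∃ c : Fin s → ℕ, (∀ j, c j = 1 ∨ c j = p j 0 ∨ c j = p j 1) ∧ m = ∏ j, c j} := by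
  classical
  have hne : ∀ {j i j' i'}, j ≠ j' ∨ i ≠ i' → (p j i).Coprime (p j' i') := fun h =>
    (Nat.coprime_primes (hp _ _) (hp _ _)).2 fun e => h.elim (· (hinj _ _ _ _ e).1) (· (hinj _ _ _ _ e).2)
  have s1 : ∀ i : Fin 2, i ≠ i + 1 := by decide
  have s2 : ∀ i k : Fin 2, k = i ∨ k = i + 1 := by decide
  have n1 := fun j i (e : p j i = p j (i + 1)) => s1 i (hinj _ _ _ _ e).2
  choose F gF fF hF using fun j i => exF (hp j i) (hp j (i + 1)) (n1 j i)
  have sg : ∀ (ε : Fin s → Fin 2) (g : ∀ j, F j (ε j)) j i, g ^ p j i = 1 → g = Pi.mulSingle j (g j) := fun ε g j i e => by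
    funext k
    obtain rfl | hk := eq_or_ne k j
    · simp
    rw [Pi.mulSingle_eq_of_ne hk, ← orderOf_eq_one_iff]
    have h1 := orderOf_dvd_of_pow_eq_one (congrFun e k)
    exact ((hF k _).ord (g k)).elim (fun h => Nat.eq_one_of_dvd_coprimes (hne (.inl hk)) (orderOf_dvd_of_pow_eq_one h) h1)
      fun h => Nat.eq_one_of_dvd_coprimes (hne (.inl hk)) (orderOf_dvd_of_pow_eq_one h) h1
  have oc : ∀ j i (g : F j i), orderOf g = 1 ∨ orderOf g = p j 0 ∨ orderOf g = p j 1 := fun j i g => by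
    have : ∀ k, g ^ p j k = 1 → orderOf g = 1 ∨ orderOf g = p j 0 ∨ orderOf g = p j 1 := fun k e =>
      ((Nat.dvd_prime (hp j k)).1 (orderOf_dvd_of_pow_eq_one e)).imp_right fun e => by fin_cases k <;> simp [e]
    exact ((hF j i).ord g).elim (this _) (this _)
  have ex : ∀ j i k, ∃ g : F j i, orderOf g = p j k := fun j i k => by
    rcases s2 i k with rfl | rfl
    exacts [(hF j _).exp, (hF j _).exq]
  have op : ∀ (ε : Fin s → Fin 2) (g : ∀ j, F j (ε j)), orderOf g = ∏ j, orderOf (g j) := fun ε g =>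
    (Pi.orderOf g).trans (Finset.lcm_eq_prod fun j _ k _ h => by
      rcases oc _ _ (g j) with e | e | e <;> rcases oc _ _ (g k) with e' | e' | e' <;>
        simp only [Function.onFun, e, e', Nat.coprime_one_left_iff, Nat.coprime_one_right_iff] <;> exact hne (.inl h))
  refine ⟨fun a => ∀ j, F j (finFunctionFinEquiv.symm a j), inferInstance, fun a => Fintype.ofFinite _,
    fun a b hab ⟨e⟩ => ?_, fun a => ?_⟩
  · obtain ⟨j, hj⟩ := Function.ne_iff.1 (finFunctionFinEquiv.symm.injective.ne hab)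
    obtain ⟨y, y', h1, h2, h3⟩ := (hF j (finFunctionFinEquiv.symm b j)).nq (hp _ _) (hp _ _) (n1 _ _)
    rw [← (s2 _ _).resolve_left hj] at h1 h2
    have h4 : ∀ y, y ^ p j (finFunctionFinEquiv.symm a j) = 1 →
        e.symm (Pi.mulSingle j y) ^ p j (finFunctionFinEquiv.symm a j) = 1 := fun y h => by
      rw [← map_pow, ← Pi.mulSingle_pow, h, Pi.mulSingle_one, map_one]
    have h5 := (((hF j _).comm _ _ (congrFun (h4 y h1) j) (congrFun (h4 y' h2) j)).map
      (MonoidHom.mulSingle (fun j => F j (finFunctionFinEquiv.symm a j)) j))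
    rw [MonoidHom.mulSingle_apply, MonoidHom.mulSingle_apply, ← sg _ _ _ _ (h4 y h1), ← sg _ _ _ _ (h4 y' h2)] at h5
    simpa using h3 (by simpa using (h5.map e).map (Pi.evalMonoidHom _ j))
  let ε := finFunctionFinEquiv.symm a
  refine ⟨Set.ext fun m => ⟨?_, ?_⟩, fun H N _ h0 hS => ?_⟩
  · rintro ⟨g, rfl⟩
    exact ⟨_, fun j => oc _ _ (g j), op ε g⟩
  · rintro ⟨c, hc, rfl⟩
    have : ∀ j, ∃ g : F j (ε j), orderOf g = c j := fun j => by
      rcases hc j with e | e | e <;> rw [e]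
      exacts [⟨1, orderOf_one⟩, ex .., ex ..]
    choose g hg using this
    exact ⟨g, (op ε g).trans (Finset.prod_congr rfl fun j _ => hg j)⟩
  have hu : ∀ j i, ∃ u : H ⧸ N, orderOf u = p j i := fun j i => hS.ge ⟨Pi.mulSingle j (p j i), fun k => by
    obtain rfl | hk := eq_or_ne k j
    · fin_cases i <;> simp
    · simp [hk], by simp⟩
  have el : ∀ (L : Subgroup (∀ j, F j (ε j))) j i, p j i ∣ Nat.card L →
      ∃ x ∈ L.comap (MonoidHom.mulSingle _ j), orderOf x = p j i := fun L j i h => by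
    have := Fact.mk (hp j i)
    obtain ⟨g, hg⟩ := exists_prime_orderOf_dvd_card' _ h
    rw [← Subgroup.orderOf_coe] at hg
    have e := sg ε g j i (hg ▸ pow_orderOf_eq_one _)
    refine ⟨g.1 j, show Pi.mulSingle j (g.1 j) ∈ L from e ▸ g.2, ?_⟩
    rw [← hg, ← orderOf_injective (MonoidHom.mulSingle (fun j => F j (ε j)) j) fun _ _ e => Pi.mulSingle_injective j e]
    exact congrArg _ e.symm
  have hH : H = ⊤ := eq_top_iff.2 fun g _ => Subgroup.pi_mem_of_mulSingle_mem g fun j => by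
    have := fun i => let ⟨u, hu⟩ := hu j i; el H j i (hu ▸ (orderOf_dvd_natCard u).trans (Subgroup.card_quotient_dvd_card N))
    obtain ⟨x, hx, ox⟩ := this (ε j)
    obtain ⟨y, hy, oy⟩ := this (ε j + 1)
    exact ((hF j _).gen _ x hx y hy ox oy).ge (Subgroup.mem_top (g j))
  subst hH
  obtain ⟨⟨n, hn⟩, h1⟩ := Subgroup.ne_bot_iff_exists_ne_one.1 (h0.resolve_left fun h => h rfl)
  obtain ⟨r, hr, h2⟩ := Nat.exists_prime_and_dvd (orderOf_eq_one_iff.not.2 h1)
  have h3 : r ∣ Nat.card (N.map (Subgroup.subtype ⊤)) :=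
    (h2.trans (orderOf_dvd_natCard _)).trans (Subgroup.card_map_of_injective (Subgroup.subtype_injective _)).symm.dvd
  rw [← Subgroup.orderOf_coe, ← Subgroup.orderOf_coe, op] at h2
  obtain ⟨j, -, h4⟩ := (hr.prime.dvd_finsetProd_iff _).1 h2
  obtain ⟨i, rfl⟩ : ∃ i, r = p j i := by
    rcases oc _ _ (n.1 j) with e | e | e <;> rw [e] at h4
    exacts [absurd (Nat.dvd_one.1 h4) hr.ne_one, ⟨0, (Nat.prime_dvd_prime_iff_eq hr (hp _ _)).1 h4⟩,
      ⟨1, (Nat.prime_dvd_prime_iff_eq hr (hp _ _)).1 h4⟩]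
  obtain ⟨x, hx, ox⟩ := el _ j i h3
  have hN : (N.map (Subgroup.subtype ⊤)).Normal := Subgroup.Normal.map inferInstance _ fun g => ⟨⟨g, trivial⟩, rfl⟩
  obtain ⟨u, hu⟩ := hu j (ε j)
  obtain ⟨g, rfl⟩ := QuotientGroup.mk_surjective u
  let m := ∏ x ∈ Finset.univ.erase (j, ε j), p x.1 x.2
  have h5 : (g.1 ^ m) ^ p j (ε j) = 1 := by
    rw [← pow_mul, Finset.prod_erase_mul _ (fun x : Fin s × Fin 2 => p x.1 x.2) (Finset.mem_univ _)]
    funext k
    refine orderOf_dvd_iff_pow_eq_one.1 ?_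
    rcases oc _ _ (g.1 k) with e | e | e <;> rw [e]
    exacts [one_dvd _, Finset.dvd_prod_of_mem _ (Finset.mem_univ (k, 0)), Finset.dvd_prod_of_mem _ (Finset.mem_univ (k, 1))]
  obtain ⟨g', h6, h7⟩ := (hF j _).nrm (hp _ _) (hp _ _) (n1 _ _) (hN.comap (MonoidHom.mulSingle (fun j => F j (ε j)) j)) (fun e => by
    rw [e, Subgroup.mem_bot] at hx; rw [hx, orderOf_one] at ox; exact hr.ne_one ox.symm) (congrFun h5 j)
  have h8 : p j (ε j) ∣ m := hu ▸ orderOf_dvd_of_pow_eq_one (by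
    rw [← QuotientGroup.mk_pow, QuotientGroup.eq_one_iff, show g ^ m = g' from
      Subtype.ext ((sg ε _ j _ h5).trans h7.symm)]; exact h6)
  obtain ⟨x, h9, h10⟩ := ((hp _ _).prime.dvd_finsetProd_iff _).1 h8
  have := hinj _ _ _ _ ((Nat.prime_dvd_prime_iff_eq (hp _ _) (hp _ _)).1 h10)
  exact Finset.ne_of_mem_erase h9 (Prod.ext this.1.symm this.2.symm)

end Cfsg.Agent.S3599
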