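import Cfsg.Statements.S3619
import Cfsg.Agent.FG.Marg

set_option autoImplicit false
open Cfsg

namespace Cfsg.Agent.S3619

open Cfsg.Agent.FG MulAction

/-- Let G act faithfully on a finite set in such a way that every non-trivial normal subgroup of G is transitive (G is quasiprimitive). Let Γ be a subset with more than one point and not the whole set, such that the pointwise stabilizer of the complement of Γ acts transitively on Γ (a Jordan set). If that pointwise stabilizer acts primitively on Γ, then G is k-fold transitive where k is one more than the number of points outside Γ (the Jordan set is a trivial one). -/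
theorem result {G Ω : Type*} [Group G] [Finite G] [MulAction G Ω] [FaithfulSMul G Ω] [Finite Ω]
    (hqp : ∀ N : Subgroup G, N.Normal → N ≠ ⊥ → MulAction.IsPretransitive ↥N Ω)
    (Γ : Set Ω) (hΓ1 : 1 < Γ.ncard) (hΓ2 : Γ.ncard < Nat.card Ω)
    (hJ : MulAction.IsPretransitive ↥(fixingSubgroup G Γᶜ) ↥(SubMulAction.ofFixingSubgroup G Γᶜ))
    (hJp : MulAction.IsPreprimitive ↥(fixingSubgroup G Γᶜ) ↥(SubMulAction.ofFixingSubgroup G Γᶜ)) :
    MulAction.IsMultiplyPretransitive G Ω (Nat.card Ω - Γ.ncard + 1) := by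
  classical
  haveI := Fintype.ofFinite Ω
  have hc : (Γ.toFinsetᶜ).card = Fintype.card Ω - Γ.ncard := by rw [Finset.card_compl, Set.ncard_eq_toFinset_card']
  have hJ' : JC G Γ.toFinsetᶜ := fun x hx y hy => by
    obtain ⟨g, hg⟩ := hJ.exists_smul_eq ⟨x, by simpa [SubMulAction.mem_ofFixingSubgroup_iff] using hx⟩
      ⟨y, by simpa [SubMulAction.mem_ofFixingSubgroup_iff] using hy⟩
    exact ⟨g, fun z hz => (mem_fixingSubgroup_iff _).1 g.2 z (by simpa using hz), congrArg Subtype.val hg⟩
  have hn := Nat.card_eq_fintype_card (α := Ω)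
  have hp : IsPreprimitive G Ω := by
    by_contra hnp
    obtain ⟨K, f, -, -, hf, -, hfib, hsat, hlast⟩ := exists_quot hqp hnp hJ' (Finset.card_pos.1 (by omega)) (by omega)
    obtain ⟨γ, hγ⟩ := Set.nonempty_of_ncard_ne_zero (s := Γ) (by omega)
    have hγ' : γ ∉ Γ.toFinsetᶜ := by simpa using hγ
    have hB : IsBlock (fixingSubgroup G Γᶜ) {w : SubMulAction.ofFixingSubgroup G Γᶜ | f w = f γ} := by
      rw [isBlock_iff_smul_eq_of_mem]
      intro g a ha hga
      have h1 : (g : G) • f γ = f γ := by
        have : f ((g : G) • (a : Ω)) = f γ := hga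
        rwa [hf, show f a = f γ from ha] at this
      ext w
      rw [Set.mem_smul_set_iff_inv_smul_mem]
      show f ((g : G)⁻¹ • (w : Ω)) = f γ ↔ f w = f γ
      rw [hf, inv_smul_eq_iff, h1]
    rcases IsPreprimitive.isTrivialBlock_of_isBlock hB with h | h
    · obtain ⟨y, hy, e⟩ := hfib γ
      have := h (x := ⟨y, by simpa [SubMulAction.mem_ofFixingSubgroup_iff] using hsat γ hγ' y e⟩) e
        (y := ⟨γ, by simpa [SubMulAction.mem_ofFixingSubgroup_iff] using hγ⟩) rfl
      exact hy (congrArg Subtype.val this)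
    · obtain ⟨y, hy, e⟩ := hlast γ hγ'
      exact e (h ▸ Set.mem_univ _ : (⟨y, by simpa [SubMulAction.mem_ofFixingSubgroup_iff] using hy⟩ :
        SubMulAction.ofFixingSubgroup G Γᶜ) ∈ {w : SubMulAction.ofFixingSubgroup G Γᶜ | f w = f γ})
  have h1 : Γᶜ.ncard = Nat.card Ω - Γ.ncard := by
    have := Set.ncard_add_ncard_compl Γ; omega
  have := hp.isMultiplyPreprimitive (s := Γᶜ) (n := Nat.card Ω - Γ.ncard - 1) (by omega) (by omega) hJp
  rw [show Nat.card Ω - Γ.ncard - 1 + 2 = Nat.card Ω - Γ.ncard + 1 by omega] at this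
  exact this.isMultiplyPretransitive

end Cfsg.Agent.S3619
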