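import Cfsg.Statements.S3626
import Cfsg.Agent.Ree.Aff
import Cfsg.Agent.Ree.Inst

set_option autoImplicit false
open Cfsg

namespace Cfsg.Agent.S3626

theorem aux {G F : Type*} [Group G] [Group F] {P : ℕ → Prop} {a b : ℕ}
    (hG : ∀ d, (∃ g : G, orderOf g = d) ↔ P d ∨ d ∣ a ∨ d ∣ b) (hF : ∀ d, (∃ g : F, orderOf g = d) ↔ P d) :
    Set.range (orderOf : G × G × F → ℕ) = Set.range (orderOf : G × G × G → ℕ) := by
  ext d
  constructor
  · rintro ⟨⟨x, y, z⟩, rfl⟩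
    obtain ⟨w, hw⟩ := (hG _).2 (.inl ((hF _).1 ⟨z, rfl⟩))
    exact ⟨(x, y, w), by simp [Prod.orderOf, hw]⟩
  · rintro ⟨⟨x, y, z⟩, rfl⟩
    have key : ∀ x y z : G, P (orderOf z) → Nat.lcm (orderOf x) (Nat.lcm (orderOf y) (orderOf z)) ∈
        Set.range (orderOf : G × G × F → ℕ) := fun x y z h => by
      obtain ⟨w, hw⟩ := (hF _).2 h
      exact ⟨(x, y, w), by simp [Prod.orderOf, hw]⟩
    have key' : ∀ x y z : G, (orderOf y ∣ a ∧ orderOf z ∣ a ∨ orderOf y ∣ b ∧ orderOf z ∣ b) →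
        Nat.lcm (orderOf x) (Nat.lcm (orderOf y) (orderOf z)) ∈ Set.range (orderOf : G × G × F → ℕ) := fun x y z h => by
      obtain ⟨w, hw⟩ := (hG _).2 (.inr (h.imp (fun h => Nat.lcm_dvd h.1 h.2) fun h => Nat.lcm_dvd h.1 h.2))
      exact ⟨(x, w, 1), by simp [Prod.orderOf, hw]⟩
    have lc : ∀ a b c : ℕ, Nat.lcm a (Nat.lcm b c) = Nat.lcm b (Nat.lcm a c) := fun a b c => by
      rw [← Nat.lcm_assoc, ← Nat.lcm_assoc, Nat.lcm_comm a]
    have e1 := lc (orderOf x) (orderOf y) (orderOf z)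
    have e2 : Nat.lcm (orderOf x) (Nat.lcm (orderOf y) (orderOf z)) = Nat.lcm (orderOf z) (Nat.lcm (orderOf x) (orderOf y)) := by
      rw [← Nat.lcm_assoc, Nat.lcm_comm]
    have e3 := e2.trans (lc ..)
    have e4 := e2.trans (congrArg _ (Nat.lcm_comm ..))
    simp only [Prod.orderOf]
    rcases (hG _).1 ⟨z, rfl⟩ with hz | hz
    · exact key x y z hz
    rcases (hG _).1 ⟨y, rfl⟩ with hy | hy
    · exact e3 ▸ key x z y hy
    rcases (hG _).1 ⟨x, rfl⟩ with hx | hx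
    · exact e4 ▸ key z y x hx
    by_cases h1 : orderOf y ∣ a ∧ orderOf z ∣ a ∨ orderOf y ∣ b ∧ orderOf z ∣ b
    · exact key' x y z h1
    by_cases h2 : orderOf x ∣ a ∧ orderOf z ∣ a ∨ orderOf x ∣ b ∧ orderOf z ∣ b
    · exact e1 ▸ key' y x z h2
    · exact e2 ▸ key' z x y (by tauto)

/-- Let R be the small Ree group over the field with q = 3^(2m+1) ≥ 27 elements. Then there are finite groups of arbitrarily large order with exactly the same set of element orders as R × R × R. -/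
theorem result {K : Type*} [Field K] [Fintype K] {m : ℕ} (hm : 1 ≤ m) (hK : Fintype.card K = 3 ^ (2 * m + 1)) (N : ℕ) :
    ∃ (H : Type) (_ : Group H) (_ : Fintype H), N < Fintype.card H ∧
      Set.range (orderOf : H → ℕ) = Set.range (orderOf : ↥(Cfsg.Lie.twistedG2 K (3 ^ m)) × ↥(Cfsg.Lie.twistedG2 K (3 ^ m)) × ↥(Cfsg.Lie.twistedG2 K (3 ^ m)) → ℕ) := by
  obtain ⟨R, h, -⟩ := Ree.exists_RC (K := K) (m := m) (by rw [Nat.card_eq_fintype_card, hK])
  have := R.finite_G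
  obtain ⟨F, _, _, h1, -, hF⟩ := R.exists_aff (hm.trans h.ge) N
  obtain ⟨H, _, _, ⟨e⟩⟩ := Schur.exists_copy.{0} (Lie.twistedG2 K (3 ^ m) × Lie.twistedG2 K (3 ^ m) × F)
  refine ⟨H, inferInstance, Fintype.ofFinite H, ?_, ?_⟩
  · rw [Fintype.card_eq_nat_card, Nat.card_congr e.toEquiv]
    exact h1.trans_le (Nat.card_le_card_of_injective (fun x => (1, 1, x)) fun x y h => by simpa using h)
  · rw [← aux (fun d => (R.exists_orderOf_iff (hm.trans h.ge) d).trans (by rw [or_assoc, or_assoc, or_assoc])) hF,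
      ← e.surjective.range_comp]
    congr 1
    exact funext fun x => (e.orderOf_eq x).symm

end Cfsg.Agent.S3626
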