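import Cfsg.Statements.S3639
import Cfsg.Agent.Sz.Part

set_option autoImplicit false
open Cfsg

namespace Cfsg.Agent.S3639

section
open Sz Matrix

variable {F : Type*} [Field F] [Finite F] [Tits F] {G : Type*} [Group G] [SzRep F G]

theorem eq_one_of_odd {x g : G} (hg : g ∈ cj x (U F G)) (ho : Odd (orderOf g)) : g = 1 := by
  have h1 := orderOf_dvd_of_pow_eq_one (pow_four_of_mem_U (mem_cj.1 hg))
  rw [orderOf_conj'] at h1
  exact orderOf_eq_one_iff.1 (Nat.eq_one_of_dvd_coprimes
    (Nat.Coprime.pow_right 2 (Nat.coprime_two_right.2 ho)) dvd_rfl h1)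

theorem fpf_vec {g : G} (h1 : g ≠ 1) (ho : Odd (orderOf g)) {w : Fin 4 → F} (hw : rho F g *ᵥ w = w) : w = 0 := by
  rcases elt_cases F g with ⟨x, hx⟩ | ⟨x, l, hl, hx⟩ | hg
  · exact absurd (eq_one_of_odd (mem_cj.2 hx) ho) h1
  · have h2 : Mmat (l : F) *ᵥ (rho F x⁻¹ *ᵥ w) = rho F x⁻¹ *ᵥ w := by
      rw [← rho_M (G := G), ← hx, mulVec_mulVec, ← map_mul, mul_inv_cancel_right, map_mul, ← mulVec_mulVec, hw]
    have h3 : rho F x⁻¹ *ᵥ w = 0 := by
      generalize rho F x⁻¹ *ᵥ w = v at h2
      have e1 : (l : F) ≠ 1 := fun h => hl (Units.ext h)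
      have e2 : (l : F) * Tits.θ (l : F) ≠ 1 := fun h => e1 (mul_θ_eq_one h)
      have key : ∀ {c y : F}, c ≠ 1 → c * y = y → y = 0 := fun {c y} hc h => by
        by_contra hy; exact hc (mul_right_cancel₀ hy (by rw [h, one_mul]))
      ext i
      have := congrFun h2 i
      fin_cases i
      · exact key e2 (by simpa [Mmat, mulVec, dotProduct, Fin.sum_univ_four] using this)
      · exact key e1 (by simpa [Mmat, mulVec, dotProduct, Fin.sum_univ_four] using this)
      · exact key (c := (l : F)⁻¹) (by simpa using e1) (by simpa [Mmat, mulVec, dotProduct, Fin.sum_univ_four] using this)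
      · exact key (c := ((l : F) * Tits.θ (l : F))⁻¹) (by rwa [ne_eq, inv_eq_one])
          (by simpa [Mmat, mulVec, dotProduct, Fin.sum_univ_four] using this)
    exact (isSz (F := F) x⁻¹).mulVec_injective (by rw [h3, mulVec_zero])
  · rcases hg.irreducible (LinearMap.ker (Matrix.toLin' (rho F g - 1))) (fun v hv => by
      simp only [LinearMap.mem_ker, toLin'_apply, sub_mulVec, one_mulVec, sub_eq_zero] at hv ⊢
      rw [hv, hv]) with h | h
    · have : w ∈ LinearMap.ker (Matrix.toLin' (rho F g - 1)) := by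
        simp only [LinearMap.mem_ker, toLin'_apply, sub_mulVec, one_mulVec, hw, sub_self]
      rwa [h] at this
    · rw [LinearMap.ker_eq_top, LinearEquiv.map_eq_zero_iff, sub_eq_zero] at h
      exact absurd (rho_inj (h.trans (map_one _).symm)) h1

variable (F G) in
/-- The action on a sum of copies of the natural module. -/
noncomputable def act (n : ℕ) : G →* MulAut (Multiplicative (Matrix (Fin 4) (Fin n) F)) where
  toFun g :=
    { toFun := fun v => Multiplicative.ofAdd (rho F g * v.toAdd)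
      invFun := fun v => Multiplicative.ofAdd (rho F g⁻¹ * v.toAdd)
      left_inv := fun v => by simp [← Matrix.mul_assoc, ← map_mul]
      right_inv := fun v => by simp [← Matrix.mul_assoc, ← map_mul]
      map_mul' := fun v w => by simp [Matrix.mul_add] }
  map_one' := by ext v; simp
  map_mul' g h := by ext v; simp [Matrix.mul_assoc]

theorem act_fix {n : ℕ} {g : G} (h1 : g ≠ 1) (ho : Odd (orderOf g)) {v : Multiplicative (Matrix (Fin 4) (Fin n) F)}
    (h : act F G n g v = v) : v = 1 := by
  have h : rho F g * v.toAdd = v.toAdd := congrArg Multiplicative.toAdd h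
  show v.toAdd = 0
  ext i j
  have := fpf_vec h1 ho (w := fun i => v.toAdd i j) (by ext i; exact congrFun (congrFun h i) j)
  exact congrFun this i

theorem sq_ker {n : ℕ} {y : Multiplicative (Matrix (Fin 4) (Fin n) F) ⋊[act F G n] G} (h : y.right = 1) :
    y ^ 2 = 1 := by
  rw [← SemidirectProduct.inl_left_mul_inr_right y, h, map_one, mul_one, ← map_pow, sq]
  have : y.left * y.left = 1 := by
    show y.left.toAdd + y.left.toAdd = 0
    ext i j; exact CharTwo.add_self_eq_zero _
  rw [this, map_one]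

theorem no_even {n s : ℕ} (hs : s.Prime) (h2 : 2 ≠ s) (y : Multiplicative (Matrix (Fin 4) (Fin n) F) ⋊[act F G n] G) :
    orderOf y ≠ 2 * s := by
  intro hy
  have hso := hs.odd_of_ne_two h2.symm
  have hx : orderOf (y ^ 2) = s := by rw [orderOf_pow' _ two_ne_zero, hy]; simp
  have hz : orderOf (y ^ s) = 2 := by rw [orderOf_pow' _ hs.ne_zero, hy]; simp [hs.pos]
  have h1 : (y ^ 2).right ≠ 1 := fun h => by
    have := orderOf_dvd_of_pow_eq_one (sq_ker h)
    rw [hx] at this
    exact h2 ((Nat.prime_dvd_prime_iff_eq hs Nat.prime_two).1 this).symm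
  have h3 : Odd (orderOf (y ^ 2).right) :=
    hso.of_dvd_nat (hx ▸ orderOf_map_dvd SemidirectProduct.rightHom (y ^ 2))
  have hc : y ^ 2 * y ^ s = y ^ s * y ^ 2 := pow_mul_comm y 2 s ▸ (Commute.pow_pow_self y 2 s).eq
  have h4 : (y ^ s).right = 1 := by
    by_contra h
    have h5 := orderOf_map_dvd SemidirectProduct.rightHom (y ^ s)
    rw [hz, Nat.dvd_prime Nat.prime_two, orderOf_eq_one_iff] at h5
    obtain ⟨x, hx⟩ := exists_cj_U_of_even (F := F) (g := (y ^ s).right) (by
      rw [show orderOf (y ^ s).right = 2 from h5.resolve_left h]; exact even_two)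
    exact h1 (eq_one_of_odd ((isPart_U.conj x).mem_of_commute hx h (congrArg SemidirectProduct.right hc)) h3)
  have h5 := congrArg SemidirectProduct.left hc
  rw [SemidirectProduct.mul_left, SemidirectProduct.mul_left, h4, map_one, MulAut.one_apply, mul_comm,
    mul_left_inj] at h5
  have h6 : y ^ s = 1 := SemidirectProduct.ext (act_fix h1 h3 h5) h4
  rw [h6, orderOf_one] at hz
  exact absurd hz (by norm_num)

variable (F G) in
include F in
theorem aux (N : ℕ) : ∃ (H : Type) (_ : Group H) (_ : Fintype H), N < Fintype.card H ∧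
    ((∀ r : ℕ, r.Prime → (r ∣ Nat.card G ↔ r ∣ Nat.card H)) ∧
      (∀ r s : ℕ, r.Prime → s.Prime → r ≠ s → ((∃ x : G, orderOf x = r * s) ↔ (∃ y : H, orderOf y = r * s)))) := by
  haveI := finite_G F G
  let H := Multiplicative (Matrix (Fin 4) (Fin N) F) ⋊[act F G N] G
  haveI : Finite H := Finite.of_equiv _ SemidirectProduct.equivProd.symm
  have hH : Nat.card H = Nat.card F ^ (4 * N) * Nat.card G := by
    rw [SemidirectProduct.card, Nat.card_congr Multiplicative.toAdd, ← Nat.card_congr Matrix.of]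
    simp [Nat.card_fun, ← pow_mul, mul_comm]
  let e : Shrink.{0} H ≃* H := Shrink.mulEquiv
  have h4 := four_le_card F
  refine ⟨Shrink.{0} H, inferInstance, Fintype.ofFinite _, ?_, fun r hr => ?_, fun r s hr hs hrs => ?_⟩
  · rw [← @Nat.card_eq_fintype_card _ (Fintype.ofFinite _), Nat.card_congr e.toEquiv, hH]
    calc N < Nat.card F ^ N := Nat.lt_pow_self (by omega)
      _ ≤ Nat.card F ^ (4 * N) := Nat.pow_le_pow_right (by omega) (by omega)
      _ ≤ _ := Nat.le_mul_of_pos_right _ Nat.card_pos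
  · rw [Nat.card_congr e.toEquiv, hH, hr.dvd_mul]
    refine ⟨Or.inr, fun h => h.elim (fun h => ?_) id⟩
    rw [card_G (F := F) (G := G), mul_assoc, sq, mul_assoc]
    exact (hr.dvd_of_dvd_pow h).mul_right _
  · constructor
    · rintro ⟨x, hx⟩
      exact ⟨e.symm (SemidirectProduct.inr x), by
        rw [MulEquiv.orderOf_eq, orderOf_injective _ SemidirectProduct.inr_injective, hx]⟩
    · rintro ⟨y, hy⟩
      rw [← e.orderOf_eq] at hy
      generalize e y = z at hy
      have h1 : 2 ≠ r := by rintro rfl; exact no_even hs hrs z hy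
      have h2 : 2 ≠ s := by rintro rfl; exact no_even hr h1 z (by rw [hy, mul_comm])
      refine ⟨z.right, Nat.dvd_antisymm (hy ▸ orderOf_map_dvd SemidirectProduct.rightHom z) ?_⟩
      have h3 := sq_ker (y := z ^ orderOf z.right)
        ((map_pow SemidirectProduct.rightHom z _).trans (pow_orderOf_eq_one _))
      rw [← pow_mul, ← orderOf_dvd_iff_pow_eq_one, hy] at h3
      exact (Nat.coprime_two_right.2 ((hr.odd_of_ne_two h1.symm).mul (hs.odd_of_ne_two h2.symm))).dvd_of_dvd_mul_right h3

end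

/-- Let S be the Suzuki group over the field with q = 2^(2m+1) ≥ 8 elements. Then there are finite groups of arbitrarily large order with the same prime graph as S. -/
theorem result {F : Type*} [Field F] [Fintype F] {m : ℕ} (hm : 1 ≤ m) (hF : Fintype.card F = 2 ^ (2 * m + 1)) (N : ℕ) :
    ∃ (H : Type) (_ : Group H) (_ : Fintype H), N < Fintype.card H ∧ ((∀ r : ℕ, r.Prime → (r ∣ Nat.card ↥(Cfsg.Lie.Sz F (2 ^ (m + 1))) ↔ r ∣ Nat.card H)) ∧
      (∀ r s : ℕ, r.Prime → s.Prime → r ≠ s → ((∃ x : ↥(Cfsg.Lie.Sz F (2 ^ (m + 1))), orderOf x = r * s) ↔ (∃ y : H, orderOf y = r * s)))) := by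
  let := Sz.titsOfCard hm hF
  let := Sz.lieRep (Sz.titsOfCard_θ hm hF)
  exact aux F _ N

end Cfsg.Agent.S3639
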