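import Cfsg.Statements.S3660
import Cfsg.Agent.FG.SpecL2

set_option autoImplicit false
open Cfsg

namespace Cfsg.Agent.S3660

open Cfsg.Agent.FG

/-- The prime graph of a finite group has the prime divisors of its order as vertices, two distinct primes p, q being joined when the group has an element of order pq; two groups have the same prime graph when they have the same prime divisors and the same joined pairs. Let F be a finite field of characteristic 2 with at least 4 elements. Then there are finite groups of arbitrarily large order with the same prime graph as PSL(2,F); in particular PSL(2,F) is not determined by its prime graph. -/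
theorem result {F : Type*} [Field F] [Fintype F] [CharP F 2] (hF : 4 ≤ Fintype.card F) (N : ℕ) :
    ∃ (H : Type) (_ : Group H) (_ : Finite H), N < Nat.card H ∧
      ((∀ p : ℕ, p.Prime → (p ∣ Nat.card (Matrix.ProjectiveSpecialLinearGroup (Fin 2) F) ↔ p ∣ Nat.card H)) ∧
      (∀ p q : ℕ, p.Prime → q.Prime → p ≠ q → ((∃ g : (Matrix.ProjectiveSpecialLinearGroup (Fin 2) F), orderOf g = p * q) ↔ (∃ g : H, orderOf g = p * q)))) := by
  obtain ⟨H, _, _, h1, h2⟩ := exists_big_SL2 (F := F) N
  refine ⟨H, inferInstance, inferInstance, by simpa, fun p hp => ?_, fun p q hp hq h => ?_⟩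
  · rw [prime_dvd_card_iff hp, prime_dvd_card_iff hp, h2, spec_PSL2_even]
    exact or_congr_left ⟨fun h => h.trans ⟨2, rfl⟩, hp.dvd_of_dvd_pow (m := 2) (n := 2)⟩
  refine (Set.ext_iff.1 spec_PSL2_even _).trans (.trans ?_ (Set.ext_iff.1 h2 _).symm)
  exact or_congr_left (iff_of_false (not_mul_dvd_pow (k := 1) hp hq h Nat.prime_two) (not_mul_dvd_pow (k := 2) hp hq h Nat.prime_two))

end Cfsg.Agent.S3660
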