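import Cfsg.Statements.S3662
import Cfsg.Agent.FG.AffRep
import Cfsg.Agent.Known.G24Eq
import Cfsg.Agent.Comp.PG

set_option autoImplicit false
open Cfsg

namespace Cfsg.Agent.S3662

set_option maxRecDepth 100000
set_option exponentiation.threshold 100000

open Cfsg.Agent.FG Cfsg.Agent.Known Cfsg.Agent.Comp Cfsg.Agent.Spor Matrix

/-- the natural module over the field with two elements -/
def As : List (List ℕ) := [[0x100000001,0x1000000010,0x10000000100,0x100000001000,0x10000,0x100000,0x1000000,0x10000000,0x100000000,0x1000000000,0x10000000000,0x100000000000],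
  [0x100000110001,0x110000010010,0x101011000100,0x111101001000,0x1100010000,0x100100000,0x110001000000,0x10010000000,0x100000000,0x1000000000,0x10000000000,0x100000000000],
  [0x101000110001,0x111100010010,0x1011000100,0x1101001000,0x1100010000,0x100100000,0x110001000000,0x10010000000,0x100000000,0x1000000000,0x10000000000,0x100000000000],
  [0x10100010001,0x101000100010,0x101000100,0x1010001000,0x100010000,0x1000100000,0x10001000000,0x100010000000,0x100000000,0x1000000000,0x10000000000,0x100000000000],
  [0x10000010001,0x100000100010,0x10101000100,0x101010001000,0x100010000,0x1000100000,0x10001000000,0x100010000000,0x100000000,0x1000000000,0x10000000000,0x100000000000],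
  [0x100110001,0x1000010010,0x11000000100,0x101100001000,0x10000,0x100000,0x110001000000,0x10010000000,0x100000000,0x1000000000,0x10000000000,0x100000000000],
  [0x110000000010,0x10000000011,0x10001100,0x11000100,0x1000110000,0x1100010000,0x10000000,0x11000000,0x1000000000,0x1100000000,0x110000000000,0x10000000000],
  [0x110000000011,0x10000000001,0x10001000,0x11001100,0x1000100000,0x1100110000,0x11000000,0x1000000,0x1100000000,0x100000000,0x100000000000,0x110000000000],
  [0x101000100010,0x111100110011,0x1010001000,0x1111001100,0x100010000,0x1000100000,0x10001000000,0x100010000000,0x1100000000,0x100000000,0x110000000000,0x10000000000],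
  [0x100000010011,0x110000100001,0x101001001100,0x111110000100,0x1000010000,0x1100100000,0x100001000000,0x110010000000,0x1000000000,0x1100000000,0x100000000000,0x110000000000],
  [0x100101001,0x1000111110,0x100001000,0x1000001100,0x110010110000,0x10011010000,0x110010000000,0x10011000000,0x11100000000,0x100100000000,0x10000000000,0x100000000000],
  [0x11110101,0x1011010,0x10100001100,0x101000000100,0x10100000,0x11110000,0x100011000000,0x110001000000,0x101000000000,0x111100000000,0x10000000000,0x100000000000],
  [0x101111101111,0x110101110101,0x111111001000,0x10101001100,0x111110111110,0x10111010111,0x100011000000,0x110001000000,0x111011001100,0x11101000100,0x110010000000,0x10011000000],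
  [0x1,0x10,0x100,0x1000,0x10110,0x101011,0x1001101,0x10000110,0x101110000,0x1010010000,0x10010010000,0x100011100000],
  [0x110100000010,0x11000000011,0x10011110011,0x100001010001,0x1111101111,0x101110101,0x1111010000,0x101100000,0x111000101,0x1001001010,0x111111000101,0x10101001010],
  [0x110100000011,0x11000000001,0x10011110111,0x100001011001,0x1111111111,0x101010101,0x1110010000,0x111100000,0x11000101,0x1001010,0x101111000101,0x110101001010],
  [0x11100100111,0x100100111001,0x110101010101,0x11010101010,0x111110100,0x1001011000,0x100110101100,0x111011110100,0x10001111100,0x100010010100,0x100100000000,0x111000000000],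
  [0x11100100110,0x100100111011,0x110101010001,0x11010100010,0x111100100,0x1001111000,0x100111101100,0x111001110100,0x10101111100,0x101010010100,0x110100000000,0x11000000000]]

theorem okA : okM 4 15 2 12 As = true := by decide +kernel

theorem ordW (r : List ℕ) (hr : ∀ x ∈ r, x < 14) : orderOf (W G24T.y r) = orderOf (ev G24P.g r) := by
  rw [← orderOf_inv (ev G24P.g r)]
  congr 1
  induction r with
  | nil => simp [W]
  | cons x r ih =>
    have h : ∀ i < 14, nthL [0] G24T.wds i = [i] := by decide +kernel
    rw [ev_cons, _root_.mul_inv_rev, ← ih fun y hy => hr y (List.mem_cons_of_mem _ hy), W, List.map_cons, List.prod_cons,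
      G24T.y, h x (hr x List.mem_cons_self), ev_cons, ev_nil, one_mul, W]

theorem n7 : MM 4 2 12 As 15 = MM 4 2 12 As 14 + 1 := by decide +kernel
theorem n13 : MM 4 2 12 As 17 = MM 4 2 12 As 16 + 1 := by decide +kernel

theorem par : Par (1364 + 1) 11 2047 := ⟨by decide, by decide⟩

theorem o6 : orderOf (W G24T.y [0, 6]) = 6 := orderOf_W G24T.mdl par _ (by decide) (by decide +kernel)
theorem o10 : orderOf (W G24T.y [6, 12]) = 10 := orderOf_W G24T.mdl par _ (by decide) (by decide +kernel)
theorem o7 : orderOf (W G24T.y [0, 6, 13]) = 7 := orderOf_W G24T.mdl par _ (by decide) (by decide +kernel)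
theorem o13 : orderOf (W G24T.y [6, 10, 13]) = 13 := orderOf_W G24T.mdl par _ (by decide) (by decide +kernel)

open scoped G24T in
theorem big (N : ℕ) : ∃ (H : Type) (_ : Group H) (_ : Finite H), N < Nat.card H ∧
      ((∀ p : ℕ, p.Prime → (p ∣ Nat.card G24P.G ↔ p ∣ Nat.card H)) ∧
      (∀ p q : ℕ, p.Prime → q.Prime → p ≠ q → ((∃ g : G24P.G, orderOf g = p * q) ↔ (∃ g : H, orderOf g = p * q)))) := by
  obtain ⟨ψ, hψ⟩ := exists_hom_of_lifts G24P.lifts okA G24P.hl (by decide +kernel) (by decide +kernel)
  letI := matAct ψ
  refine exists_big_graph (V := Fin 12 → ZMod 2) Nat.prime_two (fun w => by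
    ext i; exact (two_nsmul (w i)).trans (CharTwo.add_self_eq_zero _)) (by rw [G24P.card]; decide) (fun q hq h2 => ?_) N
  by_cases hd : q ∣ 2 ^ 12 * (3 ^ 3 * (5 ^ 2 * (7 * 13)))
  swap
  · exact .inr fun c hc => absurd (hc ▸ orderOf_dvd_natCard c) (by rw [G24P.card]; exact hd)
  have pr : ∀ {p : ℕ}, p.Prime → q ∣ p → q = p := fun hp => (Nat.prime_dvd_prime_iff_eq hq hp).1
  simp only [hq.dvd_mul] at hd
  rcases hd with h | h | h | h | h
  · exact absurd (pr Nat.prime_two (hq.dvd_of_dvd_pow h)) h2
  · obtain rfl := pr Nat.prime_three (hq.dvd_of_dvd_pow h); exact .inl ⟨_, o6⟩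
  · obtain rfl := pr Nat.prime_five (hq.dvd_of_dvd_pow h); exact .inl ⟨_, o10⟩
  · obtain rfl := pr (by norm_num) h
    refine .inr (fpf_of_sylow hq (by rw [G24P.card]; decide) ((ordW _ (by decide)).symm.trans o7) fun w hw => ?_)
    exact fpf_of_chk okA (r := [0, 6, 13]) (c := 14) (d := 15) (by decide +kernel) n7 w
      (by rw [← hψ _ (by decide)]; exact hw)
  · obtain rfl := pr (by norm_num) h
    refine .inr (fpf_of_sylow hq (by rw [G24P.card]; decide) ((ordW _ (by decide)).symm.trans o13) fun w hw => ?_)
    exact fpf_of_chk okA (r := [6, 10, 13]) (c := 16) (d := 17) (by decide +kernel) n13 w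
      (by rw [← hψ _ (by decide)]; exact hw)

/-- The prime graph of a finite group has the prime divisors of its order as vertices, two distinct primes p, q being joined when the group has an element of order pq; two groups have the same prime graph when they have the same prime divisors and the same joined pairs. Let F be the field with 4 elements and L the Chevalley group of type G₂ over F. There are finite groups of arbitrarily large order with the same prime graph as L. -/
theorem result {F : Type*} [Field F] [Fintype F] (hF : Fintype.card F = 4) (N : ℕ) :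
    ∃ (H : Type) (_ : Group H) (_ : Finite H), N < Nat.card H ∧
      ((∀ p : ℕ, p.Prime → (p ∣ Nat.card ↥(Cfsg.Lie.chevG2.group F) ↔ p ∣ Nat.card H)) ∧
      (∀ p q : ℕ, p.Prime → q.Prime → p ≠ q → ((∃ g : ↥(Cfsg.Lie.chevG2.group F), orderOf g = p * q) ↔ (∃ g : H, orderOf g = p * q)))) := by
  obtain ⟨e⟩ := G24T.equiv hF
  obtain ⟨H, _, _, h1, h2, h3⟩ := big N
  refine ⟨H, inferInstance, inferInstance, h1, fun p hp => ?_, fun p q hp hq hpq => ?_⟩
  · rw [Nat.card_congr e.toEquiv]; exact h2 p hp
  · rw [← h3 p q hp hq hpq]
    change p * q ∈ Spec _ ↔ p * q ∈ Spec _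
    rw [spec_congr e]

end Cfsg.Agent.S3662
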