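import Cfsg.Statements.S3663
import Cfsg.Agent.FG.AffRep
import Cfsg.Agent.Small.U34T
import Cfsg.Agent.Comp.PG

set_option autoImplicit false
open Cfsg

namespace Cfsg.Agent.S3663

set_option maxRecDepth 100000
set_option exponentiation.threshold 100000

open Cfsg.Agent.FG Cfsg.Agent.Known Cfsg.Agent.Comp Cfsg.Agent.Spor Cfsg.Agent.Small Matrix

/-- a twelve dimensional module over the field with five elements -/
def Bs : List (List ℕ) := [[0x30102000102010400030001,0x40002030004010400020304,0x30401020101000400020402,0x30003040301030303030104,0x20100030202030404040102,0x10301010001020202010404,0x4040003030003020300,0x10004010400030001010002,0x300040103010300040400,0x30002020002010100020103,0x203020404030400020304,0x20000020203020400010102],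
  [0x30403010201040300020101,0x40001010104000300010100,0x10404010200010400040001,0x204020200000202020000,0x201040002000100040302,0x40304040303000200000200,0x40003020300020200040300,0x40204020400030000030304,0x20202030404000304010000,0x10102010201030202030302,0x40004040203040303030102,0x40303030101020101000303],
  [0x1040400010002040001,0x4040403000003000102,0x2000404000003000004,0x40000010402040001000403,0x20004000103010002040002,0x10000010300000000000400,0x40004000402010004020404,0x30000010303000003040402,0x40003000102000000000002,0x20002020000030101040201,0x20404000403020404030303,0x10104030103020002020202],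
  [0x20202020204040402000300,0x10101030304040200000002,0x20202000303030402040201,0x10101010403040201040004,0x10102000002030304020004,0x30303010303040203030203,0x10101030104000302000003,0x10101020104040302010403,0x20202000000020002010003,0x30303020104030204000102,0x404000202040402030001,0x10101020002010302010300],
  [0x201000003000401040102,0x40304000103020102010302,0x101000001040400020001,0x203040301010301000303,0x203030003010403040103,0x30303000103000301040200,0x304010404020202020204,0x10401030204030202020403,0x20102040301040102010202,0x10204040100040302020003,0x10403020002000404040201,0x204030303000302010004],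
  [0x20002020202030103040202,0x10204010101030001020301,0x40303040400030400030204,0x10403000200040200020101,0x30101000003000302040202,0x10101000101010304,0x20404010103010201000401,0x30001010103000400040402,0x40001030203010403040204,0x20102040104030401020102,0x40002010400020403040403,0x403010200020304010100],
  [0x30400040101040104040302,0x40100010202020300010000,0x40403040101000401030200,0x20404000201040401000403,0x20100010404010301010202,0x30104000400030203000300,0x30200010202000400010000,0x30003000203020201000300,0x30100020200020003030301,0x20001030300000404030300,0x40201000003010404000004,0x103010101010304010201],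
  [0x30301040000020002020402,0x302030103040204000403,0x30401000200000402030100,0x20203000403020100020104,0x40203030003040003020001,0x10103030103010000040202,0x10303010402020003040101,0x1020001000003010002,0x20402040002000402020401,0x10201020202010003000201,0x10303040402000304000204,0x40104040303000301040400],
  [0x30301040000020002020403,0x302030103040204000003,0x30401000200000402040100,0x20203000403020101020104,0x40203030003040103020001,0x10103030103020000040202,0x10303010403020003040101,0x1020101000003010002,0x20402000002000402020401,0x10202020202010003000201,0x10403040402000304000204,0x104040303000301040400]]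

theorem okB : okM 8 255 5 12 Bs = true := by decide +kernel

theorem ordW (r : List ℕ) (hr : ∀ x ∈ r, x < 7) : orderOf (W U34T.y r) = orderOf (ev U34P.g r) := by
  rw [← orderOf_inv (ev U34P.g r)]
  congr 1
  induction r with
  | nil => simp [W]
  | cons x r ih =>
    have h : ∀ i < 7, nthL [0] U34T.wds i = [i] := by decide +kernel
    rw [ev_cons, _root_.mul_inv_rev, ← ih fun y hy => hr y (List.mem_cons_of_mem _ hy), W, List.map_cons, List.prod_cons,
      U34T.y, h x (hr x List.mem_cons_self), ev_cons, ev_nil, one_mul, W]

theorem n13 : MM 8 5 12 Bs 8 = MM 8 5 12 Bs 7 + 1 := by decide +kernel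

theorem par : Par (64 + 1) 7 127 := ⟨by decide, by decide⟩

theorem o10 : orderOf (W U34T.y [2, 4]) = 10 := orderOf_W U34T.mdl par _ (by decide) (by decide +kernel)
theorem o15 : orderOf (W U34T.y [2]) = 15 := orderOf_W U34T.mdl par _ (by decide) (by decide +kernel)
theorem o13 : orderOf (W U34T.y [4, 6]) = 13 := orderOf_W U34T.mdl par _ (by decide) (by decide +kernel)

open scoped U34T in
theorem big (N : ℕ) : ∃ (H : Type) (_ : Group H) (_ : Finite H), N < Nat.card H ∧
      ((∀ p : ℕ, p.Prime → (p ∣ Nat.card U34P.G ↔ p ∣ Nat.card H)) ∧
      (∀ p q : ℕ, p.Prime → q.Prime → p ≠ q → ((∃ g : U34P.G, orderOf g = p * q) ↔ (∃ g : H, orderOf g = p * q)))) := by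
  obtain ⟨ψ, hψ⟩ := exists_hom_of_lifts U34P.lifts okB U34P.hl (by decide +kernel) (by decide +kernel)
  letI := matAct ψ
  haveI : Fact (Nat.Prime 5) := ⟨Nat.prime_five⟩
  refine exists_big_graph (V := Fin 12 → ZMod 5) Nat.prime_five (fun w => by
    ext i; rw [Pi.smul_apply, nsmul_eq_mul, ZMod.natCast_self, zero_mul]; rfl) (by rw [U34P.card]; decide)
    (fun q hq h2 => ?_) N
  by_cases hd : q ∣ 2 ^ 6 * (3 * (5 ^ 2 * 13))
  swap
  · exact .inr fun c hc => absurd (hc ▸ orderOf_dvd_natCard c) (by rw [U34P.card]; exact hd)
  have pr : ∀ {p : ℕ}, p.Prime → q ∣ p → q = p := fun hp => (Nat.prime_dvd_prime_iff_eq hq hp).1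
  simp only [hq.dvd_mul] at hd
  rcases hd with h | h | h | h
  · obtain rfl := pr Nat.prime_two (hq.dvd_of_dvd_pow h); exact .inl ⟨_, o10⟩
  · obtain rfl := pr Nat.prime_three h; exact .inl ⟨_, o15⟩
  · exact absurd (pr Nat.prime_five (hq.dvd_of_dvd_pow h)) h2
  · obtain rfl := pr (by norm_num) h
    refine .inr (fpf_of_sylow hq (by rw [U34P.card]; decide) ((ordW _ (by decide)).symm.trans o13) fun w hw => ?_)
    exact fpf_of_chk okB (r := [4, 6]) (c := 7) (d := 8) (by decide +kernel) n13 w
      (by rw [← hψ _ (by decide)]; exact hw)

/-- The prime graph of a finite group has the prime divisors of its order as vertices, two distinct primes p, q being joined when the group has an element of order pq; two groups have the same prime graph when they have the same prime divisors and the same joined pairs. Let F be the field with 16 elements and L = PSU(3,4) realised over F. There are finite groups of arbitrarily large order with the same prime graph as L. -/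
theorem result {F : Type*} [Field F] [Fintype F] (hF : Fintype.card F = 16) (N : ℕ) :
    ∃ (H : Type) (_ : Group H) (_ : Finite H), N < Nat.card H ∧
      ((∀ p : ℕ, p.Prime → (p ∣ Nat.card (Cfsg.PSU 3 F 4) ↔ p ∣ Nat.card H)) ∧
      (∀ p q : ℕ, p.Prime → q.Prime → p ≠ q → ((∃ g : (Cfsg.PSU 3 F 4), orderOf g = p * q) ↔ (∃ g : H, orderOf g = p * q)))) := by
  obtain ⟨e⟩ := Small.U34T.equiv hF
  obtain ⟨H, _, _, h1, h2, h3⟩ := big N
  refine ⟨H, inferInstance, inferInstance, h1, fun p hp => ?_, fun p q hp hq hpq => ?_⟩
  · rw [Nat.card_congr e.toEquiv]; exact h2 p hp
  · rw [← h3 p q hp hq hpq]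
    change p * q ∈ Spec _ ↔ p * q ∈ Spec _
    rw [spec_congr e]

end Cfsg.Agent.S3663
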