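import Cfsg.Statements.S3678
import Cfsg.Agent.FG.SpecL2

set_option autoImplicit false
open Cfsg

namespace Cfsg.Agent.S3678

open Cfsg.Agent.FG

/-- The prime graph of a finite group has the prime divisors of its order as vertices, two distinct primes p, q being joined when the group has an element of order pq; two groups have the same prime graph when they have the same prime divisors and the same joined pairs. Let F be the field with 7 elements. There are finite groups of arbitrarily large order with the same prime graph as PSL(2,F) (the graph on {2, 3, 7} with no edges, which is also the prime graph of PSL(2,8)). -/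
theorem result {F : Type*} [Field F] [Fintype F] (hF : Fintype.card F = 7) (N : ℕ) :
    ∃ (H : Type) (_ : Group H) (_ : Finite H), N < Nat.card H ∧
      ((∀ p : ℕ, p.Prime → (p ∣ Nat.card (Matrix.ProjectiveSpecialLinearGroup (Fin 2) F) ↔ p ∣ Nat.card H)) ∧
      (∀ p q : ℕ, p.Prime → q.Prime → p ≠ q → ((∃ g : (Matrix.ProjectiveSpecialLinearGroup (Fin 2) F), orderOf g = p * q) ↔ (∃ g : H, orderOf g = p * q)))) := by
  obtain ⟨H, _, _, h1, h2⟩ := exists_big_SL2 (F := GaloisField 2 3) N
  haveI := Fact.mk Nat.prime_seven
  haveI : CharP F 7 := charP_of_card_eq_prime_pow (f := 1) hF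
  have h3 := spec_PSL2 (F := F) 7
  rw [GaloisField.card _ _ three_ne_zero] at h2
  rw [Nat.card_eq_fintype_card, hF] at h3
  refine ⟨H, inferInstance, inferInstance, by simpa, fun p hp => ?_, fun p q hp hq h => ?_⟩
  · rw [prime_dvd_card_iff hp, prime_dvd_card_iff hp, h2, h3]
    have : p ∣ 9 ↔ p ∣ 3 := ⟨hp.dvd_of_dvd_pow (m := 3) (n := 2), fun h => h.trans ⟨3, rfl⟩⟩
    simp only [Set.mem_union, Set.mem_ofPred_eq]
    norm_num
    tauto
  refine (Set.ext_iff.1 h3 _).trans (.trans (iff_of_false ?_ ?_) (Set.ext_iff.1 h2 _).symm)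
  · rintro (e | e | e)
    exacts [not_mul_dvd_pow (k := 1) hp hq h Nat.prime_seven e, not_mul_dvd_pow (k := 1) hp hq h Nat.prime_three e,
      not_mul_dvd_pow (k := 2) hp hq h Nat.prime_two e]
  · rintro (e | e | e)
    exacts [not_mul_dvd_pow (k := 2) hp hq h Nat.prime_two e, not_mul_dvd_pow (k := 1) hp hq h Nat.prime_seven e,
      not_mul_dvd_pow (k := 2) hp hq h Nat.prime_three e]

end Cfsg.Agent.S3678
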