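import Cfsg.Statements.S3681
import Cfsg.Agent.FG.Marg

set_option autoImplicit false
open Cfsg

namespace Cfsg.Agent.S3681

open Cfsg.Agent.FG MulAction Finset

/-- Bochert's bound for primitive groups. Let a finite group G act faithfully and primitively on a finite set Ω with n elements, and suppose the image of G in the symmetric group of Ω does not contain the alternating group of Ω. Then |G| · ⌊(n + 1)/2⌋! ≤ n!, that is, the index of G in the symmetric group is at least ⌊(n + 1)/2⌋!. -/
theorem result {G Ω : Type*} [Group G] [Finite G] [MulAction G Ω] [FaithfulSMul G Ω] [Fintype Ω] [DecidableEq Ω]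
    (hprim : MulAction.IsPreprimitive G Ω) (hA : ¬ alternatingGroup Ω ≤ (MulAction.toPermHom G Ω).range) :
    Nat.card G * Nat.factorial ((Fintype.card Ω + 1) / 2) ≤ Nat.factorial (Fintype.card Ω) := by
  classical
  obtain ⟨B, hB, hmin⟩ := exists_min_image (univ.filter fun B : Finset Ω => ∀ g : G, (∀ z ∈ B, g • z = z) → g = 1) card
    ⟨univ, mem_filter.2 ⟨mem_univ _, fun g hg => FaithfulSMul.eq_of_smul_eq_smul (α := Ω) fun z => by
      rw [hg z (mem_univ z), one_smul]⟩⟩
  replace hB := (mem_filter.1 hB).2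
  have hlt : ∀ C : Finset Ω, #C < #B → ∃ g : G, (∀ z ∈ C, g • z = z) ∧ g ≠ 1 := by
    intro C hC
    by_contra h
    push Not at h
    exact absurd (hmin C (mem_filter.2 ⟨mem_univ _, h⟩)) (not_le.2 hC)
  have h2 : 2 * #B ≤ Fintype.card Ω := by
    by_contra h
    obtain ⟨x, hx, hx1⟩ := hlt Bᶜ (by rw [card_compl]; omega)
    obtain ⟨γ, hγ⟩ := Cfsg.Agent.Perm.exists_smul_ne (α := Ω) hx1
    have hγB : γ ∈ B := by by_contra e; exact hγ (hx γ (mem_compl.2 e))
    obtain ⟨y, hy, hy1⟩ := hlt (B.erase γ) (card_erase_lt_of_mem hγB)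
    refine hA (alt_le_of_three hγ (y := y) (fun e => hy1 (hB y fun z hz => ?_)) fun z hz => ?_)
    · by_cases e' : z = γ
      · rw [e', e]
      · exact hy z (mem_erase.2 ⟨e', hz⟩)
    · by_cases e : z ∈ B
      · exact Or.inr (hy z (mem_erase.2 ⟨hz, e⟩))
      · exact Or.inl (hx z (mem_compl.2 e))
  have h3 : Nat.card G ≤ (Fintype.card Ω).descFactorial #B := by
    have := Nat.card_le_card_of_injective (fun g : G => (⟨fun z : B => g • (z : Ω),
      (MulAction.injective g).comp Subtype.val_injective⟩ : B ↪ Ω)) (fun g k e => by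
        rw [← inv_mul_eq_one]
        refine hB _ fun z hz => ?_
        rw [mul_smul, inv_smul_eq_iff]
        exact (DFunLike.congr_fun e ⟨z, hz⟩).symm)
    rwa [Nat.card_eq_fintype_card (α := B ↪ Ω), Fintype.card_embedding_eq, Fintype.card_coe] at this
  rw [← Nat.factorial_mul_descFactorial (n := Fintype.card Ω) (k := #B) (by omega), mul_comm]
  exact Nat.mul_le_mul (Nat.factorial_le (by omega)) h3

end Cfsg.Agent.S3681
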