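import Cfsg.Statements.S3682
import Cfsg.Agent.FG.Sims

set_option autoImplicit false
open Cfsg

namespace Cfsg.Agent.S3682

open Cfsg.Agent.BG Cfsg.Agent.FG Cfsg.Agent.Sig Subgroup MulAction

/-- Wielandt's bound toward the Sims conjecture. Let a finite group G act faithfully and primitively on a set Ω, let a and b be points, and suppose the orbit of b under the stabilizer of a has length d ≥ 2. Then there are a prime p and a normal p-subgroup P of the stabilizer of a, all of whose elements fix b, such that the index of P in the stabilizer of a divides d! · ((d - 1)!)^d. -/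
theorem result {G Ω : Type*} [Group G] [Finite G] [MulAction G Ω] [FaithfulSMul G Ω] [Finite Ω]
    (hprim : MulAction.IsPreprimitive G Ω) (a b : Ω) (d : ℕ) (hd : Nat.card (MulAction.orbit (MulAction.stabilizer G a) b) = d) (h2 : 2 ≤ d) :
    ∃ p : ℕ, p.Prime ∧ ∃ P : Subgroup (MulAction.stabilizer G a), P.Normal ∧ IsPGroup p P ∧ (∀ g : P, ((g : MulAction.stabilizer G a) : G) • b = b) ∧
      P.index ∣ Nat.factorial d * (Nat.factorial (d - 1)) ^ d := by
  have h3 : (stabilizer G b).relIndex (stabilizer G a) = d := (index_stabilizer _ b).trans hd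
  have hab : a ≠ b := by rintro rfl; rw [relIndex_self] at h3; omega
  have hr := orbital_mk (G := G) hab
  generalize e : (fun x y => ∃ g : G, g • a = x ∧ g • b = y) = r at hr
  have h : r a b := e ▸ ⟨1, one_smul .., one_smul ..⟩
  obtain ⟨p, hp, h4⟩ := hr.exists_isPGroup a b
  refine ⟨p, hp, (pcIn p (OKer G r a)).subgroupOf _, normal_subgroupOf_of_le_normalizer (le_normalizer_pcIn (hr.norm_OKer a)),
    isPGroup_pcIn.of_injective (subgroupOfEquivOfLe (pcIn_le.trans OKer_le)).toMonoidHom (MulEquiv.injective _),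
    fun g => OKer_le' h (pcIn_le g.2), h4.elim (fun h4 => ?_) fun h4 => ?_⟩
  · exact (relIndex_dvd_of_le_left _ (le_pcIn OKer2_le (OKer_le.trans (hr.norm_OKer2 a)) h4)).trans (hr.relIndex_dvd h h3)
  refine (relIndex_dvd_of_le_left _ (le_pcIn_of_subnIn (hr.flip.subn_OKer2 h) h4)).trans
    (Dvd.dvd.trans (dvd_of_eq ?_) (hr.flip.relIndex_dvd h ((relIndex_stabilizer_comm a b).trans h3)))
  refine Nat.eq_of_mul_eq_mul_left (cardG_pos (OKer2 G (flip r) b)) ?_
  rw [card_mul_relIndex (OKer2_le.trans OKer_le), card_mul_relIndex (OKer2_le.trans (OKer_le' (r := flip r) h)),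
    card_stabilizer_eq a b]

end Cfsg.Agent.S3682
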