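import Cfsg.Statements.S3683
import Cfsg.Agent.FG.Sims

set_option autoImplicit false
open Cfsg

namespace Cfsg.Agent.S3683

open Subgroup MulAction

/-- Let a finite group G act faithfully and primitively on a set Ω, and suppose the stabilizer of a point a fixes a second point b ≠ a (a suborbit of length 1 other than {a}). Then the stabilizer of a is trivial and G is cyclic of prime order. -/
theorem result {G Ω : Type*} [Group G] [Finite G] [MulAction G Ω] [FaithfulSMul G Ω] [Finite Ω]
    (hprim : MulAction.IsPreprimitive G Ω) (a b : Ω) (hab : a ≠ b) (hfix : ∀ g : G, g • a = a → g • b = b) :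
    MulAction.stabilizer G a = ⊥ ∧ IsCyclic G ∧ (Nat.card G).Prime := by
  haveI : Nontrivial Ω := ⟨a, b, hab⟩
  have h1 := IsPreprimitive.isCoatom_stabilizer_of_isPreprimitive G a
  have h3 := FG.stabilizer_eq_bot_of_le (G := G) hab hfix
  rw [h3] at h1
  have hall : ∀ H : Subgroup G, H = ⊥ ∨ H = ⊤ := fun H => (h1.le_iff.1 bot_le).symm
  haveI : Nontrivial G := Subgroup.nontrivial_iff.1 ⟨⊥, ⊤, h1.1⟩
  obtain ⟨x, hx⟩ := exists_ne (1 : G)
  haveI hc : IsCyclic G := isCyclic_iff_exists_zpowers_eq_top.2 ⟨x, (hall _).resolve_left (by simpa using hx)⟩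
  exact ⟨h3, hc, Group.is_simple_iff_prime_card.1 ⟨fun H _ => hall H⟩⟩

end Cfsg.Agent.S3683
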