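import Cfsg.Statements.S3684
import Cfsg.Agent.FG.Sims
import Cfsg.Agent.Invol.Dihedral
import Cfsg.Agent.FG.PrimeGraph

set_option autoImplicit false
open Cfsg

namespace Cfsg.Agent.S3684

open Cfsg.Agent.BG Cfsg.Agent.FG Subgroup MulAction

/-- Let a finite group G act faithfully and primitively on a set Ω, and suppose the stabilizer of a point a has an orbit of length 2. Then the stabilizer of a has order 2 and G is isomorphic to the dihedral group of order 2p for some prime p. -/
theorem result {G Ω : Type*} [Group G] [Finite G] [MulAction G Ω] [FaithfulSMul G Ω] [Finite Ω]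
    (hprim : MulAction.IsPreprimitive G Ω) (a b : Ω) (h2 : Nat.card (MulAction.orbit (MulAction.stabilizer G a) b) = 2) :
    Nat.card (MulAction.stabilizer G a) = 2 ∧ ∃ p : ℕ, p.Prime ∧ Nonempty (G ≃* DihedralGroup p) := by
  have h3 : (stabilizer G b).relIndex (stabilizer G a) = 2 := (index_stabilizer _ b).trans h2
  have h0 : ¬ stabilizer G a ≤ stabilizer G b := fun h => by simp [relIndex_eq_one.2 h] at h3
  have hab : a ≠ b := by rintro rfl; exact h0 le_rfl
  haveI : Nontrivial Ω := ⟨a, b, hab⟩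
  have h4 : ∀ {A B : Subgroup G}, B.relIndex A = 2 → A ≤ N[A ⊓ B] := fun h =>
    (normal_subgroupOf_iff_le_normalizer_inf.1 (normal_of_index_eq_two h)).trans_eq (by rw [inf_comm])
  have h5 := eq_bot_of_norm hab inf_le_left (h4 h3) (inf_comm (stabilizer G b) _ ▸ h4 ((relIndex_stabilizer_comm a b).trans h3))
  have h6 : #(stabilizer G a) = 2 := by rw [← card_inf_mul_relIndex (stabilizer G b), inf_comm, h5, card_bot, h3]
  have h7 : ∀ c : Ω, ∃ s : G, orderOf s = 2 ∧ zpowers s = stabilizer G c := fun c => by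
    have := (card_stabilizer_eq c a).trans h6
    obtain ⟨s, hs⟩ := cyclicP.1 (prime_cyclic (this ▸ Nat.prime_two))
    exact ⟨s, by rw [← Nat.card_zpowers, hs, this], hs⟩
  obtain ⟨s, hs, ea⟩ := h7 a
  obtain ⟨t, ht, eb⟩ := h7 b
  have ss : s * s = 1 := by rw [← sq, ← hs, pow_orderOf_eq_one]
  have tt : t * t = 1 := by rw [← sq, ← ht, pow_orderOf_eq_one]
  have h8 : s * (s * t) * s⁻¹ = (s * t)⁻¹ := by
    rw [← mul_assoc, ss, one_mul, mul_inv_rev, inv_eq_of_mul_eq_one_left tt]
  have h9 : closure {s, s * t} = ⊤ := ((IsPreprimitive.isCoatom_stabilizer_of_isPreprimitive G b).le_iff.1 (eb ▸ zpowers_le_of_mem (by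
    simpa [← mul_assoc, ss] using Subgroup.mul_mem _ (subset_closure (k := {s, s * t}) (.inl rfl)) (subset_closure (.inr rfl))))).resolve_right
      fun e => h0 (ea ▸ zpowers_le_of_mem (e.le (subset_closure (.inl rfl))))
  have h10 : ∀ x ∈ zpowers (s * t), (zpowers x).Normal := fun x hx => normal_top_iff.1 (sub_cyclic_normal inferInstance
    (zpowers_le_of_mem hx) ⟨le_top, h9 ▸ (closure_le _).2 (Set.pair_subset (mem_norm.2 (by rw [cj_zpowers, h8, zpowers_inv]))
      (le_normalizer (mem_zpowers _)))⟩)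
  have h11 : ∀ x ∈ zpowers (s * t), x • a = a → x = 1 := fun x hx h => zpowers_eq_bot.1
    (eq_bot_of_norm hab (zpowers_le_of_mem h) (haveI := h10 x hx; le_normalizer_of_normal) (haveI := h10 x hx; le_normalizer_of_normal))
  obtain ⟨e⟩ := Invol.closure_equiv_dihedral ss h8 fun h => ne_one_of_prime (hs ▸ Nat.prime_two) (h11 s h (ea.le (mem_zpowers s)))
  have h12 : ∀ x ∈ zpowers (s * t), x ≠ 1 → orderOf x = Nat.card Ω := fun x hx x1 => haveI := h10 x hx
    (Nat.card_zpowers x).symm.trans (Perm.card_eq_of_regular (Perm.isPretransitive_of_normal _ (mt zpowers_eq_bot.1 x1)) a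
      fun y hy => h11 y (zpowers_le_of_mem hx hy))
  have h13 : s * t ≠ 1 := fun h => h0 (by rw [← ea, ← eb, mul_left_cancel (ss.trans h.symm)])
  obtain ⟨p, hp, x, hx, rfl⟩ := Perm.exists_prime_orderOf (mt zpowers_eq_bot.1 h13)
  exact ⟨h6, _, (h12 x hx (ne_one_of_prime hp)).trans (h12 _ (mem_zpowers _) h13).symm ▸ hp, ⟨(topEquiv.symm.trans
    (MulEquiv.subgroupCongr h9.symm)).trans e⟩⟩

end Cfsg.Agent.S3684
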