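import Cfsg.Statements.S3687
import Cfsg.Agent.Perm.KnappB

set_option autoImplicit false
open Cfsg

namespace Cfsg.Agent.S3687

open Cfsg.Agent.Knapp Cfsg.Agent.FG Subgroup MulAction

/-- Let a finite group G act faithfully and primitively on a set Ω, let a and b be points such that the orbit Δ of b under the stabilizer H of a has d ≥ 6 elements, and suppose that the permutation group induced by H on Δ contains the alternating group of Δ (the image of H in the symmetric group of Δ has index at most 2) while H does not act faithfully on Δ. Then either H induces exactly the alternating group of Δ and H is isomorphic to the direct product of the alternating groups of degrees d and d - 1; or H induces the full symmetric group of Δ and H is isomorphic to one of: the direct product of the symmetric groups of degrees d and d - 1, the direct product of the symmetric group of degree d with the alternating group of degree d - 1, or the subgroup of the direct product of the symmetric groups of degrees d and d - 1 consisting of the pairs of permutations with equal signs. -/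
theorem result {G Ω : Type*} [Group G] [Finite G] [MulAction G Ω] [FaithfulSMul G Ω] [Finite Ω]
    (hprim : MulAction.IsPreprimitive G Ω) (a b : Ω) (d : ℕ) (hd : Nat.card (MulAction.orbit (MulAction.stabilizer G a) b) = d) (h6 : 6 ≤ d)
    (halt : (MulAction.toPermHom (MulAction.stabilizer G a) (MulAction.orbit (MulAction.stabilizer G a) b)).range.index ≤ 2)
    (hunf : ¬ Function.Injective (MulAction.toPermHom (MulAction.stabilizer G a) (MulAction.orbit (MulAction.stabilizer G a) b))) :
    ((MulAction.toPermHom (MulAction.stabilizer G a) (MulAction.orbit (MulAction.stabilizer G a) b)).range.index = 2 ∧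
      Nonempty (MulAction.stabilizer G a ≃* alternatingGroup (Fin d) × alternatingGroup (Fin (d - 1)))) ∨
    ((MulAction.toPermHom (MulAction.stabilizer G a) (MulAction.orbit (MulAction.stabilizer G a) b)).range = ⊤ ∧
      (Nonempty (MulAction.stabilizer G a ≃* Equiv.Perm (Fin d) × Equiv.Perm (Fin (d - 1))) ∨
       Nonempty (MulAction.stabilizer G a ≃* Equiv.Perm (Fin d) × alternatingGroup (Fin (d - 1))) ∨
       Nonempty (MulAction.stabilizer G a ≃* ((Equiv.Perm.sign.comp (MonoidHom.fst (Equiv.Perm (Fin d)) (Equiv.Perm (Fin (d - 1))))) *
         (Equiv.Perm.sign.comp (MonoidHom.snd (Equiv.Perm (Fin d)) (Equiv.Perm (Fin (d - 1)))))).ker))) := by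
  classical
  have h3 : (stabilizer G b).relIndex (stabilizer G a) = d := (index_stabilizer _ b).trans hd
  have hab : a ≠ b := by rintro rfl; rw [relIndex_self] at h3; omega
  have hr := orbital_mk (G := G) hab
  generalize e : (fun x y => ∃ g : G, g • a = x ∧ g • b = y) = r at hr
  have h : r a b := e ▸ ⟨1, one_smul .., one_smul ..⟩
  have hD : Deg r d := fun x => by
    obtain ⟨g, rfl⟩ := exists_smul_eq G a x
    rw [hr.ncard_eq (hr.smul g h), stabilizer_smul_eq_stabilizer_map_conj, stabilizer_smul_eq_stabilizer_map_conj,
      relIndex_map_map_of_injective _ _ (MulAut.conj g).injective, h3]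
  set φ := toPermHom (stabilizer G a) (orbit (stabilizer G a) b) with hφ
  have hk : φ.ker = (OKer G r a).subgroupOf (stabilizer G a) := by
    ext g
    rw [MonoidHom.mem_ker, mem_subgroupOf, mem_OKer, Equiv.ext_iff]
    exact ⟨fun hg => ⟨g.2, fun c hc => congrArg Subtype.val (hg ⟨c, (hr.orbit_eq h).ge hc⟩)⟩,
      fun hg c => Subtype.ext (hg.2 c ((hr.orbit_eq h).le c.2))⟩
  have hc : (OKer G r a).relIndex (stabilizer G a) * φ.range.index = d.factorial := by
    rw [relIndex, ← hk, index_ker, card_mul_index, Nat.card_perm, hd]
  have hp := d.factorial_pos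
  have hb : ∀ x, Big d (OKer G r x) (stabilizer G x) := fun x => by
    rw [Big, relIndex_OKer hr x a, ← hc, mul_comm]
    exact Nat.mul_le_mul_right _ halt
  have h0 : ∀ x, OKer G r x ≠ ⊥ := fun x e => hunf (by
    rw [← MonoidHom.ker_eq_bot_iff, hk, card_eq_one.1 ((card_OKer hr a x).trans (card_eq_one.2 e)), bot_subgroupOf])
  refine (main hr hD h6 hb h0 a).imp (And.imp_left fun e => ?_) (And.imp_left fun e => ?_)
  · rw [← e, mul_comm 2] at hc
    exact Nat.eq_of_mul_eq_mul_left (by omega) hc
  · rw [e] at hc
    exact index_eq_one.1 (Nat.eq_of_mul_eq_mul_left hp (hc.trans (mul_one _).symm))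

end Cfsg.Agent.S3687
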