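import Cfsg.Statements.S3688
import Cfsg.Agent.FG.Sims

set_option autoImplicit false
open Cfsg

namespace Cfsg.Agent.S3688

open Cfsg.Agent.FG Cfsg.Agent.Sig Subgroup MulAction

/-- Let a finite group G act faithfully and primitively on a set Ω, let a and b be points such that the orbit of b under the stabilizer H of a has length d ≥ 2, and suppose that H is not strongly constrained: for no prime p does the generalized Fitting subgroup of H coincide with the largest normal p-subgroup of H. Then the order of H divides d! · ((d - 1)!)^d. -/
theorem result {G Ω : Type*} [Group G] [Finite G] [MulAction G Ω] [FaithfulSMul G Ω] [Finite Ω]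
    (hprim : MulAction.IsPreprimitive G Ω) (a b : Ω) (d : ℕ) (hd : Nat.card (MulAction.orbit (MulAction.stabilizer G a) b) = d) (h2 : 2 ≤ d)
    (hnc : ∀ p : ℕ, p.Prime → Cfsg.generalizedFittingSubgroup (MulAction.stabilizer G a) ≠ Cfsg.pCore p (MulAction.stabilizer G a)) :
    Nat.card (MulAction.stabilizer G a) ∣ Nat.factorial d * (Nat.factorial (d - 1)) ^ d := by
  have h3 : (stabilizer G b).relIndex (stabilizer G a) = d := (index_stabilizer _ b).trans hd
  have hab : a ≠ b := by rintro rfl; rw [relIndex_self] at h3; omega
  exact ((orbital_mk hab).card_dvd_or ⟨1, one_smul .., one_smul ..⟩ h3).resolve_right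
    fun ⟨_, p, hp, h⟩ => hnc p hp (fstarIn_eq_pcIn_iff_sub.1 h)

end Cfsg.Agent.S3688
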