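import Cfsg.Statements.S3693
import Cfsg.Agent.FG.Sims
import Cfsg.Agent.BG.Base4

set_option autoImplicit false
open Cfsg

namespace Cfsg.Agent.S3693

open Cfsg.Agent.BG Cfsg.Agent.FG Cfsg.Agent.Sig Subgroup MulAction

/-- Let a finite group G act faithfully and primitively on a set Ω, let a and b be points such that the orbit Δ of b under the stabilizer H of a has length d ≥ 2, and consider the permutation group induced on Δ by the elements of H fixing b. If that induced group has trivial Fitting subgroup (no non-trivial nilpotent normal subgroup), then the two-point stabilizer of a and b has trivial Fitting subgroup and the order of H divides d! · ((d - 1)!)^d. -/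
theorem result {G Ω : Type*} [Group G] [Finite G] [MulAction G Ω] [FaithfulSMul G Ω] [Finite Ω]
    (hprim : MulAction.IsPreprimitive G Ω) (a b : Ω) (d : ℕ) (hd : Nat.card (MulAction.orbit (MulAction.stabilizer G a) b) = d) (h2 : 2 ≤ d)
    (hF : Cfsg.fittingSubgroup ↥(((MulAction.stabilizer G b).subgroupOf (MulAction.stabilizer G a)).map (MulAction.toPermHom (MulAction.stabilizer G a) (MulAction.orbit (MulAction.stabilizer G a) b))) = ⊥) :
    Cfsg.fittingSubgroup ↥(MulAction.stabilizer G a ⊓ MulAction.stabilizer G b) = ⊥ ∧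
      Nat.card (MulAction.stabilizer G a) ∣ Nat.factorial d * (Nat.factorial (d - 1)) ^ d := by
  have h3 : (stabilizer G b).relIndex (stabilizer G a) = d := (index_stabilizer _ b).trans hd
  have hab : a ≠ b := by rintro rfl; rw [relIndex_self] at h3; omega
  have hr := orbital_mk (G := G) hab
  generalize e : (fun x y => ∃ g : G, g • a = x ∧ g • b = y) = r at hr
  have h : r a b := e ▸ ⟨1, one_smul .., one_smul ..⟩
  have h4 : fitIn (stabilizer G a ⊓ stabilizer G b) ≤ OKer G r a := fun g hg => mem_OKer.2 ⟨(fitIn_le hg).1, fun c hc => by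
    have h4 := map_fitIn_le (K := (stabilizer G b).subgroupOf (stabilizer G a))
      (toPermHom (stabilizer G a) (orbit (stabilizer G a) b)) (mem_map_of_mem _ (x := ⟨g, (fitIn_le hg).1⟩) (by
        rwa [← inf_subgroupOf_left, fitIn_subgroupOf inf_le_left]))
    rw [fitIn, hF, Subgroup.map_bot, mem_bot] at h4
    exact congrArg Subtype.val (Equiv.ext_iff.1 h4 ⟨c, (hr.orbit_eq h).ge hc⟩)⟩
  have h5 : SubnIn (OKer G r a) (stabilizer G a ⊓ stabilizer G b) :=
    (hr.subn_OKer a).restrict (le_inf OKer_le (OKer_le' h)) inf_le_left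
  have h6 : fitIn (stabilizer G a ⊓ stabilizer G b) = ⊥ := le_bot_iff.1 (fitIn_le_iff.2 fun p hp => by
    haveI := Fact.mk hp
    have h6 : pcIn p (OKer G r a) = pcIn p (stabilizer G a ⊓ stabilizer G b) :=
      (pcIn_eq_inf h5).trans (inf_eq_left.2 (pcIn_le_fitIn.trans h4))
    rw [← h6]
    by_contra h7
    have h8 := norm_le_stabilizer (mt Eq.le h7) (pcIn_le.trans OKer_le) (le_normalizer_pcIn (hr.norm_OKer a))
    have h9 := pcIn_mono (p := p) (hr.subn_OKer a)
    have h10 : pcIn p (stabilizer G b) ≤ pcIn p (OKer G r a) := by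
      have h10 : IsPGroup p (pcIn p (OKer G r a) ⊔ pcIn p (stabilizer G b) : Subgroup G) :=
        isPGroup_pcIn.to_sup_of_normal_right' isPGroup_pcIn (le_normalizer_pcIn (pcIn_le.trans ((OKer_le' h).trans le_normalizer)))
      refine le_sup_right.trans (nilpotent_sub_norm h10.isNilpotent le_sup_left ((inf_le_inf_left _ h8).trans
        (le_of_le_of_eq (le_pcIn (le_inf inf_le_right (inf_le_left.trans (sup_le (pcIn_le.trans (OKer_le' h)) pcIn_le)))
          (normsI (normsY (h6 ▸ le_normalizer_pcIn le_normalizer) (le_normalizer_pcIn (inf_le_right.trans le_normalizer)))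
            (inf_le_left.trans le_normalizer)) h10.to_inf_left) h6.symm))).ge
    exact h7 (h9.trans ((functor_eq (fun g _ => cj_pcIn g) (h10.trans h9)).symm.trans
      (functor_eq_bot (fun _ => pcIn_le) (fun g _ => cj_pcIn g) hab.symm (h10.trans h9))).le))
  refine ⟨(Subgroup.map_eq_bot_iff_of_injective _ (subtype_injective _)).1 h6,
    (hr.card_dvd_or h h3).resolve_right fun ⟨h7, p, hp, h8⟩ => h7 (fstarIn_eq_bot_iff.1 ?_)⟩
  haveI := Fact.mk hp
  have h9 : SubnIn (OKer2 G r a) (stabilizer G a) := .of_normal (OKer2_le.trans OKer_le) (hr.norm_OKer2 a)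
  refine eq_bot_mono ((le_pcIn_of_subnIn (subnIn_fstarIn.trans (h9.restrict (OKer2_le.trans h5.le) inf_le_left))
    (isPGroup_pcIn.to_le ((fstarIn_mono h9).trans h8.le))).trans pcIn_le_fitIn) h6

end Cfsg.Agent.S3693
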