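import Cfsg.Statements.S3696

set_option autoImplicit false
open Cfsg

namespace Cfsg.Agent.S3696

open Subgroup

theorem amgm {ι : Type*} (s : Finset ι) (n : ι → ℕ) : (∏ i ∈ s, n i) * s.card ^ s.card ≤ (∑ i ∈ s, n i) ^ s.card := by
  rcases s.eq_empty_or_nonempty with rfl | hs
  · simp
  have hc : (0 : ℝ) < s.card := by exact_mod_cast hs.card_pos
  have h := Real.geom_mean_le_arith_mean s (fun _ => 1) (fun i => (n i : ℝ)) (fun _ _ => zero_le_one) (by simpa using hs)
    (fun _ _ => Nat.cast_nonneg _)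
  simp only [Real.rpow_one, Finset.sum_const, nsmul_eq_mul, mul_one, one_mul] at h
  have h0 : (0 : ℝ) ≤ ∏ i ∈ s, (n i : ℝ) := Finset.prod_nonneg fun _ _ => Nat.cast_nonneg _
  have h2 := pow_le_pow_left₀ (Real.rpow_nonneg h0 _) h s.card
  rw [Real.rpow_inv_natCast_pow h0 hs.card_pos.ne', div_pow, le_div_iff₀ (pow_pos hc _)] at h2
  exact_mod_cast h2

theorem sum_le_prod {ι : Type*} (s : Finset ι) (n : ι → ℕ) (h : ∀ i, 1 < n i) : ∑ i ∈ s, n i ≤ ∏ i ∈ s, n i := by
  classical
  induction s using Finset.induction_on with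
  | empty => simp
  | insert i s hi ih =>
    rw [Finset.sum_insert hi, Finset.prod_insert hi]
    rcases s.eq_empty_or_nonempty with rfl | ⟨j, hj⟩
    · simp
    have h1 := (h j).trans_le (Finset.single_le_sum (f := n) (fun _ _ => Nat.zero_le _) hj)
    have h2 := h i
    nlinarith

theorem card_mz (n : ℕ) : Nat.card (Multiplicative (ZMod n)) = n :=
  (Nat.card_congr Multiplicative.toAdd).trans (Nat.card_zmod n)

theorem step {A C : Type*} [Group A] [Finite A] [Group C] [IsCyclic C] {p : ℕ} (hp : p.Prime) (f : A →* C) (W : Subgroup A)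
    (hW : ∀ w ∈ W, w ^ p = 1) (h : ¬ W ≤ f.ker) : Nat.card (W ⊓ f.ker : Subgroup A) * p = Nat.card W := by
  have h1 : f.ker.relIndex W = p := by
    rw [relIndex_ker]
    haveI : Finite (W.map f) := Finite.of_surjective _ (f.subgroupMap_surjective W)
    have h2 : Monoid.exponent (W.map f) ∣ p := Monoid.exponent_dvd_of_forall_pow_eq_one (by
      rintro ⟨_, w, hw, rfl⟩
      exact Subtype.ext (by simp [← map_pow, hW w hw]))
    rw [IsCyclic.exponent_eq_card] at h2
    refine ((Nat.dvd_prime hp).mp h2).resolve_left fun h3 => h ?_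
    rwa [card_eq_one, Subgroup.map_eq_bot_iff] at h3
  rw [← h1, ← (f.ker.subgroupOf W).card_mul_index, relIndex]
  congr 1
  rw [← inf_subgroupOf_left]
  exact (Nat.card_congr (subgroupOfEquivOfLe inf_le_left).toEquiv).symm

theorem greedy {A I : Type*} [Group A] [Finite A] {C : I → Type*} [∀ i, Group (C i)] [∀ i, IsCyclic (C i)] {p : ℕ} (hp : p.Prime)
    (f : ∀ i, A →* C i) (hf : ∀ a, (∀ i, f i a = 1) → a = 1) (k : ℕ) : ∀ W : Subgroup A, (∀ w ∈ W, w ^ p = 1) →
    Nat.card W = p ^ k → ∃ J : Finset I, J.card = k ∧ (∀ i ∈ J, ¬ W ≤ (f i).ker) ∧ ∀ a ∈ W, (∀ i ∈ J, f i a = 1) → a = 1 := by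
  classical
  induction k with
  | zero =>
    intro W _ hc
    rw [pow_zero, card_eq_one] at hc
    exact ⟨∅, rfl, by simp, fun a ha _ => by rwa [hc, mem_bot] at ha⟩
  | succ k ih =>
    intro W hW hc
    obtain ⟨i, hi⟩ : ∃ i, ¬ W ≤ (f i).ker := by
      by_contra hh
      push Not at hh
      have : W = ⊥ := (eq_bot_iff_forall _).mpr fun a ha => hf a fun i => hh i ha
      rw [this, Subgroup.card_bot] at hc
      exact (Nat.one_lt_pow (Nat.succ_ne_zero k) hp.one_lt).ne hc
    have h1 := step hp (f i) W hW hi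
    rw [hc, pow_succ] at h1
    obtain ⟨J, h2, h3, h4⟩ := ih (W ⊓ (f i).ker) (fun w hw => hW w hw.1) (Nat.eq_of_mul_eq_mul_right hp.pos h1)
    have hiJ : i ∉ J := fun h => h3 i h inf_le_right
    refine ⟨insert i J, by rw [Finset.card_insert_of_notMem hiJ, h2], fun j hj => ?_, fun a ha h => ?_⟩
    · rcases Finset.mem_insert.mp hj with rfl | hj
      · exact hi
      · exact fun h => h3 j hj (inf_le_left.trans h)
    · exact h4 a ⟨ha, h i (Finset.mem_insert_self _ _)⟩ fun j hj => h j (Finset.mem_insert_of_mem hj)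

theorem main {A I : Type*} [CommGroup A] [Finite A] [Fintype I] (n : I → ℕ) (hn : ∀ i, 1 < n i) {p : ℕ} (hp : p.Prime)
    (hA : IsPGroup p A) (f : ∀ i, A →* Multiplicative (ZMod (n i))) (hf : ∀ a, (∀ i, f i a = 1) → a = 1) (k : ℕ)
    (hk : Nat.card {x : A // x ^ p = 1} = p ^ k) : Nat.card A * k ^ k ≤ (∑ i, n i) ^ k := by
  obtain ⟨J, h1, -, h2⟩ := greedy hp f hf k (powMonoidHom p : A →* A).ker (fun w hw => hw) hk
  haveI : ∀ i, NeZero (n i) := fun i => ⟨by have := hn i; omega⟩
  let g : A →* (∀ j : J, Multiplicative (ZMod (n j))) := Pi.monoidHom fun j => f j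
  have hg : Function.Injective g := by
    rw [← MonoidHom.ker_eq_bot_iff]
    by_contra hne
    haveI := Fact.mk hp
    haveI := (nontrivial_iff_ne_bot _).mpr hne
    obtain ⟨m, hm, hc⟩ := (hA.to_subgroup g.ker).nontrivial_iff_card.mp inferInstance
    obtain ⟨x, hx⟩ := exists_prime_orderOf_dvd_card' (G := g.ker) p (hc ▸ dvd_pow_self p hm.ne')
    have : (x : A) = 1 := h2 x (by
      show (x : A) ^ p = 1
      rw [← hx, ← Subgroup.orderOf_coe, pow_orderOf_eq_one]) fun i hi => congrFun x.2 ⟨i, hi⟩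
    rw [← Subgroup.orderOf_coe, this, orderOf_one] at hx
    exact hp.one_lt.ne hx
  have h3 := Nat.card_le_card_of_injective g hg
  rw [Nat.card_pi] at h3
  simp only [card_mz] at h3
  rw [Finset.prod_coe_sort J n] at h3
  have h4 := amgm J n
  rw [h1] at h4
  exact (Nat.mul_le_mul_right _ h3).trans (h4.trans (Nat.pow_le_pow_left (Finset.sum_le_sum_of_subset J.subset_univ) _))

/-- Let p be a prime, Ω a finite set with n ≥ p elements, and A an abelian p-subgroup of the symmetric group on Ω whose elements of order dividing p number p^k (so k is the rank of A). Then |A| · k^k ≤ n^k, that is, |A| ≤ (n/k)^k. -/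
theorem result {Ω : Type*} [Fintype Ω] [DecidableEq Ω]
    (p : ℕ) (hp : p.Prime) (hn : p ≤ Fintype.card Ω) (A : Subgroup (Equiv.Perm Ω)) (hA : IsPGroup p A) (hab : IsMulCommutative A)
    (k : ℕ) (hk : Nat.card {x : A // x ^ p = 1} = p ^ k) :
    Nat.card A * k ^ k ≤ Fintype.card Ω ^ k := by
  classical
  letI : CommGroup A := { (inferInstance : Group A) with mul_comm := hab.is_comm.comm }
  let O := Quotient (MulAction.orbitRel A Ω)
  haveI : Fintype O := Fintype.ofFinite _
  have h1 := fun ω : O => CommGroup.equiv_prod_multiplicative_zmod_of_finite (A ⧸ MulAction.stabilizer A ω.out)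
  choose ι hι n hn he using h1
  let e := fun ω => (he ω).some
  refine (main (I := Σ ω, ι ω) (fun i => n i.1 i.2) (fun i => hn i.1 i.2) hp hA
    (fun i => (Pi.evalMonoidHom _ i.2).comp ((e i.1).toMonoidHom.comp (QuotientGroup.mk' _))) (fun a ha => ?_) k hk).trans
    (Nat.pow_le_pow_left ?_ _)
  · have h2 : ∀ ω : O, a • ω.out = ω.out := fun ω => by
      have : e ω (QuotientGroup.mk' _ a) = 1 := funext fun j => ha ⟨ω, j⟩
      rw [map_eq_one_iff _ (e ω).injective] at this
      exact (QuotientGroup.eq_one_iff _).mp this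
    refine Subtype.ext (Equiv.ext fun x => ?_)
    obtain ⟨g, hg⟩ : x ∈ MulAction.orbit A (Quotient.mk'' x : O).out := (Quotient.exact (Quotient.out_eq' (Quotient.mk'' x : O)).symm :)
    show a • x = x
    rw [← hg]
    show a • g • _ = g • _
    rw [← mul_smul, mul_comm, mul_smul, h2]
  · rw [← Nat.card_eq_fintype_card, Nat.card_congr (MulAction.selfEquivSigmaOrbitsQuotientStabilizer A Ω), Nat.card_sigma,
      Fintype.sum_sigma]
    refine Finset.sum_le_sum fun ω _ => ?_
    rw [Nat.card_congr (e ω).toEquiv, Nat.card_pi]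
    simp only [card_mz]
    exact sum_le_prod _ _ (hn ω)

end Cfsg.Agent.S3696
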