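import Cfsg.Statements.S3701
import Cfsg.Agent.Hig.E27
import Cfsg.Agent.Invol.StrongEmb
-- import your own Cfsg.Agent.* helpers here

set_option autoImplicit false
open Cfsg

namespace Cfsg.Agent.S3701

open Cfsg.Agent.Hig Subgroup Equiv

def p0 (x : K3) : Perm (Fin 9) := (swap 0 1 * swap 1 2) ^ x.1.val * (swap 3 4 * swap 4 5) ^ x.2.1.val *
  (swap 6 7 * swap 7 8) ^ x.2.2.val

def w0 (i : K3) : Perm (Fin 9) := (swap 0 1 * swap 3 4) ^ (if i.2.1 = 1 then 0 else 1) *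
  (swap 0 1 * swap 6 7) ^ (if i.2.2 = 1 then 0 else 1)

theorem p0_add : ∀ x y, p0 (x + y) = p0 x * p0 y := by decide +kernel

theorem p0_inj : ∀ x y, p0 x = p0 y → x = y := by decide +kernel

theorem w0_conj : ∀ i ∈ E3, ∀ x, w0 i * p0 x * (w0 i)⁻¹ = p0 (e3 i x) := by decide +kernel

theorem gen_mul : ∀ g ∈ [swap (0 : Fin 9) 1 * swap 1 2, swap 3 4 * swap 4 5, swap 6 7 * swap 7 8,
    swap 0 1 * swap 3 4, swap 0 1 * swap 6 7], ∀ i ∈ E3,
      (∃ j ∈ E3, ∃ y, g * w0 i = w0 j * p0 y) ∧ ∃ j ∈ E3, ∃ y, g⁻¹ * w0 i = w0 j * p0 y := by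
  decide +kernel

theorem e3_one : ∀ i ∈ E3, (∀ x, e3 i x = x) → w0 i = 1 := by decide +kernel

set_option synthInstance.maxSize 2000 in
theorem misc : (∃ i ∈ E3, ∃ x, 1 = w0 i * p0 x) ∧ (∀ x : K3, x + x + x = 0) ∧
    (∀ i ∈ E3, ∀ j ∈ E3, (∀ x, e3 i x = e3 j x) → i = j) ∧ 108 = E3.card * Fintype.card K3 := by
  decide +kernel

theorem e3_sq : ∀ i ∈ E3, ∀ x, e3 i (e3 i x) = x := by decide +kernel


/-- Let H₀ ≤ Sym(9) be generated by the 3-cycles (1 2 3), (4 5 6), (7 8 9) and the involutions (1 2)(4 5), (1 2)(7 8) (a group of order 108, elementary abelian of order 27 extended by a four-group). Let G be a finite group with a subgroup H ≅ H₀, and T ≤ H of order 27 (a Sylow 3-subgroup of H) with N_G(T) = H and C_G(t) ≤ H for every t ≠ 1 in T. Then G = H. -/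
theorem result {G : Type*} [Group G] [Finite G] (H : Subgroup G)
    (hH : Nonempty (↥H ≃* ↥(Subgroup.closure ({Equiv.swap (0 : Fin 9) 1 * Equiv.swap 1 2, Equiv.swap (3 : Fin 9) 4 * Equiv.swap 4 5, Equiv.swap (6 : Fin 9) 7 * Equiv.swap 7 8,
        Equiv.swap (0 : Fin 9) 1 * Equiv.swap 3 4, Equiv.swap (0 : Fin 9) 1 * Equiv.swap 6 7} : Set (Equiv.Perm (Fin 9))))))
    (T : Subgroup G) (hTH : T ≤ H) (hT : Nat.card T = 27) (hN : Subgroup.normalizer (T : Set G) = H)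
    (hC : ∀ t ∈ T, t ≠ 1 → Subgroup.centralizer ({t} : Set G) ≤ H) : H = ⊤ := by
  obtain ⟨f⟩ := hH
  have := Fact.mk Nat.prime_three
  set X := closure ({swap (0 : Fin 9) 1 * swap 1 2, swap (3 : Fin 9) 4 * swap 4 5,
    swap (6 : Fin 9) 7 * swap 7 8, swap (0 : Fin 9) 1 * swap 3 4, swap (0 : Fin 9) 1 * swap 6 7} :
      Set (Perm (Fin 9))) with hX
  have mp : ∀ x, p0 x ∈ X := fun x => mul_mem (mul_mem (pow_mem (subset_closure (by simp)) _)
    (pow_mem (subset_closure (by simp)) _)) (pow_mem (subset_closure (by simp)) _)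
  have mw : ∀ x, w0 x ∈ X := fun x => mul_mem (pow_mem (subset_closure (by simp)) _)
    (pow_mem (subset_closure (by simp)) _)
  have f0 : ∀ g ∈ X, ∃ i ∈ E3, ∃ x, g = w0 i * p0 x := fun g hg => by
    induction hg using closure_induction_left with
    | one => exact misc.1
    | mul_left g hg _ _ ih =>
      obtain ⟨i, hi, x, rfl⟩ := ih
      obtain ⟨j, hj, y, e⟩ := (gen_mul g (by simpa using hg) i hi).1
      exact ⟨j, hj, y + x, by rw [p0_add, ← mul_assoc, e, mul_assoc]⟩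
    | inv_mul_cancel g hg _ _ ih =>
      obtain ⟨i, hi, x, rfl⟩ := ih
      obtain ⟨j, hj, y, e⟩ := (gen_mul g (by simpa using hg) i hi).2
      exact ⟨j, hj, y + x, by rw [p0_add, ← mul_assoc, e, mul_assoc]⟩
  let F : X →* G := H.subtype.comp f.symm.toMonoidHom
  have hF : Function.Injective F := H.subtype_injective.comp f.symm.injective
  obtain ⟨φ, hφ⟩ : ∃ φ : K3 → G, ∀ x, φ x = F ⟨p0 x, mp x⟩ := ⟨_, fun _ => rfl⟩
  have add : ∀ x y, φ (x + y) = φ x * φ y := fun x y => by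
    rw [hφ, hφ, hφ, ← map_mul]; exact congrArg F (Subtype.ext (p0_add x y))
  have inj : Function.Injective φ := fun x y c => by
    rw [hφ, hφ] at c; exact p0_inj _ _ (congrArg Subtype.val (hF c))
  have cj : ∀ i ∈ E3, ∀ x, F ⟨w0 i, mw i⟩ * φ x * (F ⟨w0 i, mw i⟩)⁻¹ = φ (e3 i x) := fun i hi x => by
    rw [hφ, hφ, ← map_inv, ← map_mul, ← map_mul]; exact congrArg F (Subtype.ext (w0_conj i hi x))
  have form : ∀ g ∈ H, ∃ i ∈ E3, (∀ x, g * φ x * g⁻¹ = φ (e3 i x)) ∧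
      ((∀ x, e3 i x = x) → ∃ k, φ k = g) := fun g hg => by
    obtain ⟨i, hi, y, c⟩ := f0 _ (f ⟨g, hg⟩).2
    have : g = F ⟨w0 i, mw i⟩ * φ y := by
      rw [hφ, ← map_mul, show (⟨w0 i, mw i⟩ * ⟨p0 y, mp y⟩ : X) = f ⟨g, hg⟩ from Subtype.ext c.symm]
      simp [F]
    refine ⟨i, hi, fun x => ?_, fun c => ⟨y, ?_⟩⟩
    · rw [this, mul_assoc (F _), ← add, add_comm, add, ← cj i hi]; group
    · rw [this, show (⟨w0 i, mw i⟩ : X) = 1 from Subtype.ext (e3_one i hi c), map_one, one_mul]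
  have cen : ∀ g ∈ H, (∀ x, Commute g (φ x)) → ∃ k, φ k = g := fun g hg c => by
    obtain ⟨i, -, h1, h2⟩ := form g hg
    exact h2 fun x => inj (by rw [← h1, (c x).eq, mul_inv_cancel_right])
  have odd : ∀ g ∈ H, ∀ k, g ^ 3 ^ k = 1 → ∃ k, φ k = g := fun g hg k c => cen g hg fun x => by
    obtain ⟨i, hi, h1, -⟩ := form g hg
    have : Commute (g * g) (φ x) := mul_inv_eq_iff_eq_mul.1 (by
      rw [show g * g * φ x * (g * g)⁻¹ = g * (g * φ x * g⁻¹) * g⁻¹ by group, h1, h1, e3_sq i hi])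
    obtain ⟨m, hm⟩ : Odd (3 ^ k) := Odd.pow (by decide)
    have h2 := this.pow_left (m + 1)
    rwa [← sq, ← pow_mul, show 2 * (m + 1) = 3 ^ k + 1 by omega, pow_succ, c, one_mul] at h2
  have hT3 : IsPGroup 3 T := IsPGroup.of_card (n := 3) hT
  have m1 : ∀ g ∈ T, ∃ k, φ k = g := fun g hg => by
    obtain ⟨k, hk⟩ := hT3 ⟨g, hg⟩
    exact odd g (hTH hg) k (congrArg Subtype.val hk)
  have mem : ∀ g, g ∈ T ↔ ∃ k, φ k = g := fun g => ⟨m1 g, by
    rintro ⟨k, rfl⟩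
    choose u hu using fun t : T => m1 t t.2
    obtain ⟨t, rfl⟩ := ((Nat.bijective_iff_injective_and_card u).2 ⟨fun a b c =>
      Subtype.ext (by rw [← hu, c, hu]), by simp [hT]⟩).2 k
    exact hu t ▸ t.2⟩
  obtain ⟨P, hP⟩ := hT3.exists_le_sylow
  obtain rfl : T = P := hP.eq_or_lt.resolve_right fun c => by
    obtain ⟨r, h1, h2, h3⟩ := Invol.exists_mem_normalizer_of_lt P.isPGroup' c
    obtain ⟨k, hk⟩ := P.isPGroup' ⟨r, h1⟩
    exact h2 ((mem r).2 (odd r (hN ▸ h3) k (congrArg Subtype.val hk)))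
  have h : SMod e3 E3 φ := .of_sylow (fun g hg => (mem g).2 (cen g (hN ▸ centralizer_le_normalizer _ hg)
    fun x => (hg _ ((mem _).2 ⟨x, rfl⟩)).symm)) (hN ▸ hC) add inj misc.2.1 mem
    (fun g hg => (form g (hN ▸ hg)).imp fun i c => ⟨c.1, c.2.1⟩) (fun i hi => ⟨_, cj i hi⟩)
    misc.2.2.1
  exact hN ▸ h.normalizer_eq_top ((card_e27 h).trans misc.2.2.2) mem

end Cfsg.Agent.S3701
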