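import Cfsg.Statements.S3703
import Cfsg.Agent.Gen.ThompsonNil
import Cfsg.Agent.Solv.CoprimeSylow
import Cfsg.Agent.Solv.Frattini
import Cfsg.Agent.Frob.Basic

set_option autoImplicit false
open Cfsg

namespace Cfsg.Agent.S3703

open Subgroup Pointwise

theorem norm_id {Q V : Type*} [Group Q] [Finite Q] [CommGroup V] [Finite V] (F H : Subgroup Q) [F.Normal]
    (hH : IsFrobeniusComplement H) (hker : frobeniusKernel H = F) (hc : IsComplement' F H) (φ : Q →* Monoid.End V)
    (hcop : (Nat.card V).Coprime (Nat.card F)) [Fintype H] (hn : ∀ v, ∏ x : H, φ x v = 1) {f : Q} (hf : f ∈ F) (v : V) :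
    φ f v = v := by
  classical
  haveI := Fintype.ofFinite Q
  have hm : ∀ a b w, φ (a * b) w = φ a (φ b w) := fun a b w => by rw [map_mul]; rfl
  have e1 : ∏ q : Q, φ q v = 1 := by
    have hb : Function.Bijective (fun x : F × H => (x.1 : Q) * x.2) := hc
    rw [← Fintype.prod_bijective _ hb (fun x : F × H => φ (x.1 * x.2) v) (fun q => φ q v) (fun _ => rfl),
      Fintype.prod_prod_type]
    refine Finset.prod_eq_one fun a _ => ?_
    simp only [hm]
    rw [← map_prod, hn, map_one]
  have e2 : ∏ x : F × H, φ (x.1 * x.2 * (x.1 : Q)⁻¹) v = 1 := by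
    rw [Fintype.prod_prod_type]
    refine Finset.prod_eq_one fun a _ => ?_
    simp only [hm]
    rw [← map_prod, hn, map_one]
  rw [← Finset.prod_filter_mul_prod_filter_not _ (fun x : F × H => x.2 = 1)] at e2
  rw [← Finset.prod_filter_mul_prod_filter_not _ (fun q : Q => q ∈ F)] at e1
  have hd : ∀ x ∈ F, x ∈ H → x = 1 := fun x h1 h2 => by
    have := hc.disjoint
    rw [disjoint_def] at this
    exact this h1 h2
  have e3 : ∏ x ∈ Finset.univ.filter (fun x : F × H => ¬ x.2 = 1), φ (x.1 * x.2 * (x.1 : Q)⁻¹) v =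
      ∏ q ∈ Finset.univ.filter (fun q : Q => ¬ q ∈ F), φ q v := by
    refine Finset.prod_bij (fun x _ => x.1 * x.2 * (x.1 : Q)⁻¹) ?_ ?_ ?_ (fun _ _ => rfl)
    · rintro ⟨a, x⟩ hx
      simp only [Finset.mem_filter, Finset.mem_univ, true_and] at hx ⊢
      intro h
      apply hx
      have : (x : Q) ∈ F := by
        have := F.mul_mem (F.mul_mem (F.inv_mem a.2) h) a.2
        simpa [mul_assoc] using this
      exact Subtype.ext (hd _ this x.2)
    · rintro ⟨a, x⟩ hx ⟨b, y⟩ - h
      simp only [Finset.mem_filter, Finset.mem_univ, true_and] at hx h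
      have h1 : ((a : Q)⁻¹ * b) ∈ H := by
        by_contra hh
        have h2 := hH.2.2 _ hh
        have : (x : Q) ∈ H ⊓ MulAut.conj ((a : Q)⁻¹ * b) • H := by
          refine ⟨x.2, ?_⟩
          refine ⟨y, y.2, ?_⟩
          show (a : Q)⁻¹ * b * y * ((a : Q)⁻¹ * b)⁻¹ = x
          calc (a : Q)⁻¹ * b * y * ((a : Q)⁻¹ * b)⁻¹ = (a : Q)⁻¹ * (b * y * (b : Q)⁻¹) * a := by group
            _ = x := by rw [← h]; group
        rw [h2, mem_bot] at this
        exact hx (Subtype.ext this)
      have h3 := hd _ (F.mul_mem (F.inv_mem a.2) b.2) h1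
      have h4 : a = b := Subtype.ext (by rwa [inv_mul_eq_one] at h3)
      subst h4
      have : x = y := Subtype.ext (by simpa using h)
      rw [this]
    · intro q hq
      simp only [Finset.mem_filter, Finset.mem_univ, true_and] at hq
      have h1 : q ∉ frobeniusKernel H := by rw [hker]; exact hq
      rw [Frob.mem_frobeniusKernel, not_or] at h1
      obtain ⟨h1, h2⟩ := h1
      push Not at h2
      obtain ⟨g, hg⟩ := h2
      obtain ⟨⟨a, y⟩, e⟩ := hc.2 g
      have e' : (a : Q) * y = g := e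
      refine ⟨(⟨a, a.2⟩, ⟨y * (g⁻¹ * q * g) * (y : Q)⁻¹, H.mul_mem (H.mul_mem y.2 hg) (H.inv_mem y.2)⟩), ?_, ?_⟩
      · simp only [Finset.mem_filter, Finset.mem_univ, true_and]
        intro h
        apply h1
        have h' : (y : Q) * (g⁻¹ * q * g) * (y : Q)⁻¹ = 1 := congrArg Subtype.val h
        calc q = g * ((y : Q)⁻¹ * (y * (g⁻¹ * q * g) * (y : Q)⁻¹) * y) * g⁻¹ := by group
          _ = 1 := by rw [h']; group
      · show (a : Q) * (y * (g⁻¹ * q * g) * (y : Q)⁻¹) * (a : Q)⁻¹ = q
        rw [← e']; group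
  have e4 : ∏ x ∈ Finset.univ.filter (fun x : F × H => x.2 = 1), φ (x.1 * x.2 * (x.1 : Q)⁻¹) v = v ^ Nat.card F := by
    rw [Finset.prod_congr rfl (g := fun _ => v), Finset.prod_const]
    · congr 1
      rw [Nat.card_eq_fintype_card, ← Finset.card_univ]
      refine Finset.card_bij (fun x _ => x.1) (fun _ _ => Finset.mem_univ _) ?_ ?_
      · rintro ⟨a, x⟩ hx ⟨b, y⟩ hy h
        simp only [Finset.mem_filter, Finset.mem_univ, true_and] at hx hy h
        rw [hx, hy, h]
      · exact fun a _ => ⟨(a, 1), by simp, rfl⟩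
    · rintro ⟨a, x⟩ hx
      simp only [Finset.mem_filter, Finset.mem_univ, true_and] at hx
      simp [hx]
  rw [e3, e4, ← e1, mul_left_inj] at e2
  have e5 : φ f (v ^ Nat.card F) = v ^ Nat.card F := by
    rw [e2, map_prod]
    refine Finset.prod_bij (fun q _ => f * q) ?_ ?_ ?_ (fun _ _ => (hm _ _ _).symm)
    · intro q hq
      simp only [Finset.mem_filter, Finset.mem_univ, true_and] at hq ⊢
      exact F.mul_mem hf hq
    · intro a _ b _ h
      exact mul_left_cancel h
    · intro q hq
      simp only [Finset.mem_filter, Finset.mem_univ, true_and] at hq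
      exact ⟨f⁻¹ * q, by simpa using F.mul_mem (F.inv_mem hf) hq, by simp⟩
  rw [map_pow] at e5
  exact (powCoprime hcop).injective e5

/-- conjugation action on the abelianization -/
def act {G : Type*} [Group G] (P : Subgroup G) : normalizer (P : Set G) →* Monoid.End (Abelianization P) where
  toFun l := Abelianization.map (P.normalizerMonoidHom l).toMonoidHom
  map_one' := by
    rw [map_one]
    exact Abelianization.map_id
  map_mul' a b := by
    rw [map_mul]
    exact (Abelianization.map_comp (P.normalizerMonoidHom b).toMonoidHom (P.normalizerMonoidHom a).toMonoidHom).symm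

theorem act_of {G : Type*} [Group G] (P : Subgroup G) (l : normalizer (P : Set G)) (x y : P) (h : (y : G) = l * x * (l : G)⁻¹) :
    act P l (Abelianization.of x) = Abelianization.of y := by
  show Abelianization.map _ _ = _
  rw [Abelianization.map_of]
  congr 1
  exact Subtype.ext h.symm

theorem pow_form {G : Type*} [Group G] (P : Subgroup G) (h : normalizer (P : Set G)) (x : P) (k : ℕ) :
    ∃ w : P, ((x : G) * h) ^ k = w * (h : G) ^ k ∧
      Abelianization.of w = ∏ i ∈ Finset.range k, act P (h ^ i) (Abelianization.of x) := by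
  induction k with
  | zero => exact ⟨1, by simp, by simp⟩
  | succ k ih =>
    obtain ⟨w, h1, h2⟩ := ih
    have hm : ((h ^ k : normalizer (P : Set G)) : G) * x * ((h ^ k : normalizer (P : Set G)) : G)⁻¹ ∈ P :=
      (mem_normalizer_iff.mp (h ^ k).2 x).mp x.2
    refine ⟨w * ⟨_, hm⟩, ?_, ?_⟩
    · rw [pow_succ, h1]
      simp only [coe_mul, SubmonoidClass.coe_pow]
      group
    · rw [map_mul, h2, Finset.prod_range_succ, act_of P (h ^ k) x ⟨_, hm⟩ rfl]

/-- Let N be a normal subgroup of the finite group G such that G/N is a Frobenius group with kernel F and cyclic complement H, where the order of F is coprime to that of N and F is not contained in the image of C_G(N) in G/N. Then G has an element of order p·#H for some prime p dividing the order of N. (A standard tool in recognising groups by their element orders.) -/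
theorem result {G : Type*} [Group G] [Finite G] (N : Subgroup G) [N.Normal]
    (Fb Hb : Subgroup (G ⧸ N)) [Fb.Normal] (hHb : Cfsg.IsFrobeniusComplement Hb) (hker : Cfsg.frobeniusKernel Hb = (Fb : Set (G ⧸ N)))
    (hcyc : IsCyclic Hb) (hcop : (Nat.card Fb).Coprime (Nat.card N))
    (hnot : ¬ Fb ≤ (Subgroup.centralizer (N : Set G)).map (QuotientGroup.mk' N)) :
    ∃ p : ℕ, p.Prime ∧ p ∣ Nat.card N ∧ ∃ g : G, orderOf g = p * Nat.card Hb := by
  classical
  by_contra hcon
  push Not at hcon
  apply hnot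
  obtain ⟨F', hF', -, hcomp, -, hnil⟩ := Gen.exists_Frob_of_isFrobeniusComplement hHb
  have : F' = Fb := SetLike.coe_injective (hF'.trans hker)
  subst this
  obtain ⟨hb, hhb⟩ : ∃ hb : G ⧸ N, zpowers hb = Hb := by
    obtain ⟨g, hg⟩ := hcyc.exists_generator
    refine ⟨g, le_antisymm (by simp) fun x hx => ?_⟩
    obtain ⟨k, hk⟩ := hg ⟨x, hx⟩
    exact ⟨k, congrArg Subtype.val hk⟩
  have hn : orderOf hb = Nat.card Hb := by rw [← hhb, Nat.card_zpowers]
  set π := QuotientGroup.mk' N with hπ
  have hπN : ∀ x, π x = 1 ↔ x ∈ N := fun x => QuotientGroup.eq_one_iff x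
  have hpow : ∀ g, π g = hb → g ^ orderOf hb = 1 := fun g hg => by
    by_contra hne
    have h1 : g ^ orderOf hb ∈ N := by rw [← hπN, map_pow, hg, pow_orderOf_eq_one]
    have h2 : orderOf hb ∣ orderOf g := by rw [← hg]; exact orderOf_map_dvd π g
    obtain ⟨k, hk⟩ := h2
    have h0 : 0 < orderOf hb := orderOf_pos hb
    have h3 : orderOf (g ^ orderOf hb) = k := by
      rw [orderOf_pow' _ h0.ne', hk, Nat.gcd_mul_right_left, Nat.mul_div_cancel_left _ h0]
    have hk1 : k ≠ 1 := fun h => hne (orderOf_eq_one_iff.mp (h3.trans h))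
    obtain ⟨p, hp, j, hj⟩ := Nat.exists_prime_and_dvd hk1
    have hk0 : 0 < k := by rw [← h3]; exact orderOf_pos _
    have hj0 : 0 < j := Nat.pos_of_mul_pos_left (hj ▸ hk0)
    refine hcon p hp (Dvd.dvd.trans ⟨j, hj⟩ (h3 ▸ orderOf_dvd_natCard N h1)) (g ^ j) ?_
    rw [orderOf_pow' _ hj0.ne', hk, hj, ← mul_assoc, Nat.gcd_mul_left_left, Nat.mul_div_cancel _ hj0, hn, mul_comm]
  have hNS : N ≤ F'.comap π := fun x hx => by rw [mem_comap, (hπN x).mpr hx]; exact F'.one_mem
  have hNn : ∀ K : Subgroup G, K ≤ normalizer (N : Set G) := fun K => by rw [normalizer_eq_top]; exact le_top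
  have hri : N.relIndex (F'.comap π) = Nat.card F' := by
    have h1 := relIndex_ker (K := F'.comap π) π
    rw [QuotientGroup.ker_mk', map_comap_eq_self_of_surjective (QuotientGroup.mk'_surjective N)] at h1
    exact h1
  obtain ⟨A, hAS, hsup, hinf, hcA⟩ := Solv.exists_complement_in hNS (hNn _) (by rw [hri]; exact hcop.symm)
  rw [hri] at hcA
  have hAF : A.map π = F' := by
    have := congrArg (Subgroup.map π) hsup
    rw [Subgroup.map_sup, map_comap_eq_self_of_surjective (QuotientGroup.mk'_surjective N)] at this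
    rw [← this]
    have h0 : N.map π = ⊥ := by rw [Subgroup.map_eq_bot_iff, QuotientGroup.ker_mk']
    rw [h0, bot_sup_eq]
  have hd : ∀ x ∈ A, x ∈ N → x = 1 := fun x h1 h2 => by
    have : x ∈ N ⊓ A := ⟨h2, h1⟩
    rwa [hinf, mem_bot] at this
  have hsol : Group.IsSolvable A := by
    haveI := hnil
    let f : A →* F' := (π.domRestrict A).codRestrict F' (fun x => hAS x.2)
    refine solvable_of_solvable_injective (f := f) ?_
    rw [injective_iff_map_eq_one]
    intro x hx
    exact Subtype.ext (hd _ x.2 ((hπN _).mp (congrArg Subtype.val hx)))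
  have hcAN : (Nat.card A).Coprime (Nat.card N) := by rw [hcA]; exact hcop
  rw [← hAF]
  refine map_mono (le_centralizer_iff.mp ?_)
  refine Solv.le_of_forall_invariant_sylIn (hNn A) hcAN (Or.inl hsol) fun q _ P hP hAP => ?_
  obtain ⟨h0, hh0⟩ := QuotientGroup.mk'_surjective N hb
  have hS0 : MulAut.conj h0 • F'.comap π = F'.comap π := Solv.conj_smul_eq_self_iff.mpr (by rw [normalizer_eq_top]; trivial)
  have hN0 : MulAut.conj h0 • N = N := Solv.conj_smul_eq_self_iff.mpr (by rw [normalizer_eq_top]; trivial)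
  have hc0 : Nat.card (MulAut.conj h0 • A : Subgroup G) = Nat.card A := Nat.card_congr (Subgroup.equivSMul _ A).toEquiv.symm
  obtain ⟨n, hnN, hnA⟩ := Solv.exists_conj_smul_eq (hNn A) (B := MulAut.conj h0 • A)
    (by rw [hsup, ← hS0, ← hsup, smul_sup, hN0]) hcAN.symm (by rw [hc0]; exact hcAN.symm) (Or.inr hsol)
  have h1A : n⁻¹ * h0 ∈ normalizer (A : Set G) := by
    rw [← Solv.conj_smul_eq_self_iff, map_mul, mul_smul, ← hnA, ← mul_smul, ← map_mul, inv_mul_cancel, map_one, one_smul]
  have hP1 := hP.conj_of_mem_normalizer (hNn ⊤ (mem_top (n⁻¹ * h0)))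
  obtain ⟨c, hc, hcP⟩ := Solv.exists_centralizer_conj_sylIn (hNn A) hcAN (Or.inl hsol) hP1 hP (by
    show A ≤ normalizer ((MulAut.conj (n⁻¹ * h0) • P : Subgroup G) : Set G)
    rw [Solv.normalizer_conj_smul, ← Solv.conj_smul_eq_self_iff.mpr h1A]
    exact (pointwise_smul_le_pointwise_smul_iff).mpr hAP) hAP
  set h := c * (n⁻¹ * h0) with hh
  have hhA : h ∈ normalizer (A : Set G) := mul_mem (centralizer_le_normalizer _ hc.2) h1A
  have hhP : h ∈ normalizer (P : Set G) := by
    rw [← Solv.conj_smul_eq_self_iff, map_mul, mul_smul]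
    exact hcP
  have hhπ : π h = hb := by
    rw [hh, map_mul, map_mul, (hπN c).mpr hc.1, (hπN _).mpr (N.inv_mem hnN), one_mul, one_mul, hh0]
  let L : Subgroup G := zpowers h ⊔ A
  have hLP : L ≤ normalizer (P : Set G) := sup_le (by simpa using hhP) hAP
  have hbij : Function.Bijective (π.domRestrict L) := by
    constructor
    · rw [injective_iff_map_eq_one]
      rintro ⟨x, hx⟩ h1
      have hx' : x ∈ (↑(zpowers h ⊔ A) : Set G) := hx
      rw [coe_mul_of_left_le_normalizer_right _ _ (by simpa using hhA)] at hx'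
      obtain ⟨_, ⟨k, rfl⟩, a, ha, rfl⟩ := hx'
      have h2 : π (h ^ k * a) = 1 := h1
      rw [map_mul, map_zpow, hhπ, mul_eq_one_iff_eq_inv] at h2
      have h3 : hb ^ k = 1 := by
        have := hcomp.disjoint
        rw [disjoint_def] at this
        exact this (by rw [h2]; exact F'.inv_mem (hAS ha)) (by rw [← hhb]; exact zpow_mem_zpowers _ _)
      have h4 : h ^ k = 1 := by
        obtain ⟨j, rfl⟩ := orderOf_dvd_iff_zpow_eq_one.mpr h3
        rw [zpow_mul, zpow_natCast, hpow h hhπ, one_zpow]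
      apply Subtype.ext
      show h ^ k * a = 1
      rw [h3, eq_comm, inv_eq_one, hπN] at h2
      rw [h4, hd a ha h2, one_mul]
    · rw [← MonoidHom.range_eq_top, MonoidHom.domRestrict_range, Subgroup.map_sup, hAF, MonoidHom.map_zpowers, hhπ, hhb, sup_comm,
        hcomp.sup_eq_top]
  let s : (G ⧸ N) ≃* L := (MulEquiv.ofBijective _ hbij).symm
  have hs : ∀ x : L, s (π x) = x := fun x => (MulEquiv.ofBijective _ hbij).symm_apply_apply x
  let φ : (G ⧸ N) →* Monoid.End (Abelianization P) := (act P).comp ((inclusion hLP).comp s.toMonoidHom)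
  have hφ : ∀ (x : G) (hx : x ∈ L), φ (π x) = act P ⟨x, hLP hx⟩ := fun x hx => by
    show act P (inclusion hLP (s (π (⟨x, hx⟩ : L)))) = _
    rw [hs]; rfl
  have hcV : (Nat.card (Abelianization P)).Coprime (Nat.card F') :=
    Nat.Coprime.coprime_dvd_left ((card_dvd_of_surjective (Abelianization.of (G := P))
      (fun x => QuotientGroup.mk_surjective x)).trans (card_dvd_of_le hP.le)) hcop.symm
  haveI : Fintype Hb := Fintype.ofFinite _
  have hnorm : ∀ v, ∏ x : Hb, φ x v = 1 := fun v => by
    obtain ⟨x, rfl⟩ : ∃ x, Abelianization.of x = v := QuotientGroup.mk_surjective v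
    obtain ⟨w, h1, h2⟩ := pow_form P ⟨h, hhP⟩ x (orderOf hb)
    rw [hpow _ (by rw [map_mul, (hπN _).mpr (hP.le x.2), one_mul]; exact hhπ), hpow _ hhπ, mul_one] at h1
    have : w = 1 := Subtype.ext h1.symm
    rw [this, map_one, Finset.prod_range] at h2
    rw [h2]
    subst hhb
    refine (Fintype.prod_equiv (finEquivZPowers (isOfFinOrder_of_finite hb)) _ _ fun i => ?_).symm
    rw [finEquivZPowers_apply]
    show _ = φ (hb ^ (i : ℕ)) _
    have e : hb ^ (i : ℕ) = π (h ^ (i : ℕ)) := by rw [map_pow, hhπ]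
    rw [e, hφ _ (L.pow_mem (mem_sup_left (mem_zpowers h)) _)]
    rfl
  refine le_centralizer_iff.mp (Solv.le_centralizer_of_commutator_le_frattini hAP
    (hcAN.coprime_dvd_right ((card_subgroup_dvd_card _).trans (card_dvd_of_le hP.le))) ?_)
  refine le_trans ?_ (Solv.commutator_le_map_frattini hP.2)
  rw [commutator_comm, commutator_le]
  intro a ha x hx
  have h1 := norm_id F' Hb hHb hker hcomp φ hcV hnorm (hAS ha) (Abelianization.of ⟨x, hx⟩)
  have hm : a * x * a⁻¹ ∈ P := (mem_normalizer_iff.mp (hAP ha) x).mp hx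
  rw [hφ a (mem_sup_right ha), act_of P _ ⟨x, hx⟩ ⟨_, hm⟩ rfl, ← mul_inv_eq_one, ← map_inv, ← map_mul, ← MonoidHom.mem_ker,
    Abelianization.ker_of] at h1
  rw [← map_subtype_commutator]
  exact ⟨_, h1, rfl⟩

end Cfsg.Agent.S3703
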