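import Cfsg.Statements.S3708
import Cfsg.Agent.Pres.Phan5

set_option autoImplicit false
open Cfsg

namespace Cfsg.Agent.S3708

/-- Phan's recognition of unitary groups. Let F be a finite field with q² elements, q > 4, and n ≥ 2. Let G be a group generated by subgroups U_0, …, U_{n−1}, each isomorphic to the special unitary group SU(2, q²) (determinant-one isometries of the standard Hermitian form in two variables over F), and let D_i ≤ U_i be cyclic subgroups of order q + 1. Suppose that U_i and U_j commute elementwise whenever the indices differ by at least 2, that the subgroup generated by U_i and U_{i+1} is isomorphic to SU(3, q²) for each i, and that D_i and D_j commute elementwise for all i, j. Then G is a homomorphic image of SU(n+1, q²). (Generation of G by the U_i is part of the hypothesis; G is not assumed finite.) -/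
theorem result {G : Type*} [Group G] (n : ℕ) (hn : 2 ≤ n)
    (F : Type*) [Field F] [Fintype F] (q : ℕ) (hq : 4 < q) (hF : Fintype.card F = q ^ 2)
    (U : Fin n → Subgroup G) (e : ∀ i, ↥(Cfsg.SU 2 F q) ≃* ↥(U i)) (hgen : ⨆ i, U i = ⊤)
    (D : Fin n → Subgroup G) (hD : ∀ i, D i ≤ U i ∧ IsCyclic ↥(D i) ∧ Nat.card ↥(D i) = q + 1)
    (h1 : ∀ i j : Fin n, (i : ℕ) + 2 ≤ j → ∀ x ∈ U i, ∀ y ∈ U j, x * y = y * x)
    (h2 : ∀ i j : Fin n, (i : ℕ) + 1 = j → Nonempty (↥(U i ⊔ U j) ≃* ↥(Cfsg.SU 3 F q)))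
    (h3 : ∀ i j : Fin n, i ≠ j → ∀ x ∈ D i, ∀ y ∈ D j, x * y = y * x) :
    ∃ f : ↥(Cfsg.SU (n + 1) F q) →* G, Function.Surjective f := by
  haveI : Fact (Fintype.card F = q ^ 2) := ⟨hF⟩
  have k : ∀ i, ∃ d ∈ D i, d ≠ 1 ∧ d ^ (q + 1) = 1 := fun i => by
    have : Finite (D i) := Nat.finite_of_card_ne_zero (by rw [(hD i).2.2]; omega)
    have : Nontrivial (D i) := Finite.one_lt_card_iff_nontrivial.1 (by rw [(hD i).2.2]; omega)
    obtain ⟨d, hd⟩ := exists_ne (1 : D i)
    exact ⟨d, d.2, fun e => hd (Subtype.ext e), by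
      rw [← (hD i).2.2]; exact congrArg Subtype.val (pow_card_eq_one' (x := d))⟩
  choose d d0 d1 d2 using k
  obtain ⟨f, hf⟩ := Pres.phan_fin (by omega) hn U e h1 fun i j h => by
    obtain ⟨ψ⟩ := h2 i j h
    let φ := (U i ⊔ U j).subtype.comp ψ.symm.toMonoidHom
    have hφ : Function.Injective φ := (U i ⊔ U j).subtype_injective.comp ψ.symm.injective
    have r : φ.range = U i ⊔ U j := by
      rw [MonoidHom.range_comp, MonoidHom.range_eq_top.2 ψ.symm.surjective, ← MonoidHom.range_eq_map,
        Subgroup.range_subtype]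
    have a : U i ≤ φ.range := r ▸ le_sup_left
    have b : U j ≤ φ.range := r ▸ le_sup_right
    have k : ∀ l, U l ≤ φ.range → (Cfsg.SU 2 F q ≃* (U l).comap φ) := fun l h => (e l).trans
      ((MulEquiv.subgroupCongr (Subgroup.map_comap_eq_self h).symm).trans
        (((U l).comap φ).equivMapOfInjective φ hφ).symm)
    obtain ⟨x, hx⟩ := a ((hD i).1 (d0 i))
    obtain ⟨y, hy⟩ := b ((hD j).1 (d0 j))
    obtain ⟨g, g1, g2⟩ := Pres.std_pair (d := x) (x := y) (by omega) (k i a) (k j b)
      (by rw [Subgroup.comap_sup_eq_of_le_range _ a b, ← r]; exact top_unique fun x _ => ⟨x, rfl⟩)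
      (show φ x ∈ U i from hx ▸ (hD i).1 (d0 i)) (show φ y ∈ U j from hy ▸ (hD j).1 (d0 j))
      (fun e => d1 i (by rw [← hx, e, map_one])) (fun e => d1 j (by rw [← hy, e, map_one]))
      (hφ (by rw [map_pow, hx, d2, map_one])) (hφ (by rw [map_pow, hy, d2, map_one]))
      (hφ (by rw [map_mul, map_mul, hx, hy]; exact h3 i j (by rintro rfl; omega) _ (d0 i) _ (d0 j)))
    exact ⟨φ.comp g, by rw [← Subgroup.map_map, g1, Subgroup.map_comap_eq_self a],
      by rw [← Subgroup.map_map, g2, Subgroup.map_comap_eq_self b]⟩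
  exact ⟨f, MonoidHom.range_eq_top.1 (top_unique (hgen.ge.trans (iSup_le hf)))⟩

end Cfsg.Agent.S3708
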