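import Cfsg.Statements.S3709
import Cfsg.Agent.Pres.Phan4

set_option autoImplicit false
open Cfsg

namespace Cfsg.Agent.S3709

/-- Recognition of unitary groups from a weak Phan system. Let F be a finite field with q² elements, q > 3, and n ≥ 3. Let G be a group with subgroups U_0, …, U_{n−1}, each isomorphic to SU(2, q²), and, for each pair of consecutive indices, a subgroup V_{i,i+1} in which U_i and U_{i+1} form a standard pair (some isomorphism from SU(3, q²), or from its central quotient PSU(3, q²), onto V_{i,i+1} carries the two block-diagonal SU(2, q²) subgroups, or their images, onto U_i and U_{i+1}). Suppose that U_i and U_j commute elementwise whenever the indices differ by at least 2, and that G is generated by the U_i together with the V_{i,i+1}. Then G is a homomorphic image of SU(n+1, q²). (G is not assumed finite.) -/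
theorem result {G : Type*} [Group G] (n : ℕ) (hn : 3 ≤ n)
    (F : Type*) [Field F] [Fintype F] (q : ℕ) (hq : 3 < q) (hF : Fintype.card F = q ^ 2)
    (U : Fin n → Subgroup G) (e : ∀ i, ↥(Cfsg.SU 2 F q) ≃* ↥(U i))
    (V : Fin n → Fin n → Subgroup G)
    (h1 : ∀ i j : Fin n, (i : ℕ) + 2 ≤ j → ∀ x ∈ U i, ∀ y ∈ U j, x * y = y * x)
    (h2 : ∀ i j : Fin n, (i : ℕ) + 1 = j → Cfsg.IsStandardUnitaryPair (V i j) (U i) (U j) F q)
    (hgen : (⨆ i, U i) ⊔ (⨆ (i : Fin n) (j : Fin n) (_ : (i : ℕ) + 1 = j), V i j) = ⊤) :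
    ∃ f : ↥(Cfsg.SU (n + 1) F q) →* G, Function.Surjective f := by
  haveI : Fact (Fintype.card F = q ^ 2) := ⟨hF⟩
  have key : ∀ i j : Fin n, (i : ℕ) + 1 = j → ∃ φ : Cfsg.SU 3 F q →* G, (Cfsg.suBlock 3 F q {0, 1}).map φ = U i ∧
      (Cfsg.suBlock 3 F q {1, 2}).map φ = U j ∧ V i j ≤ φ.range := fun i j h => by
    rcases h2 i j h with ⟨ψ, a, b⟩ | ⟨ψ, a, b⟩
    · exact ⟨_, a, b, fun x hx => ⟨ψ.symm ⟨x, hx⟩, by simp⟩⟩
    refine ⟨_, a, b, fun x hx => ?_⟩
    obtain ⟨y, hy⟩ := QuotientGroup.mk'_surjective _ (ψ.symm ⟨x, hx⟩)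
    exact ⟨y, by simp only [MonoidHom.comp_apply, hy]; simp⟩
  simp only [Pres.suBlock_eq] at key
  obtain ⟨f, hf⟩ := Pres.phan_fin hq (by omega) U e h1 fun i j h => (key i j h).imp fun _ h => ⟨h.1, h.2.1⟩
  refine ⟨f, MonoidHom.range_eq_top.1 (top_unique (hgen.ge.trans (sup_le (iSup_le hf) ?_)))⟩
  refine iSup_le fun i => iSup_le fun j => iSup_le fun h => ?_
  obtain ⟨φ, a, b, c⟩ := key i j h
  rw [MonoidHom.range_eq_map, ← Pres.sup_b (by omega), Subgroup.map_sup, a, b] at c
  exact c.trans (sup_le (hf i) (hf j))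

end Cfsg.Agent.S3709
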