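import Cfsg.Statements.S3713
import Cfsg.Agent.Pres.SpA3

set_option autoImplicit false
open Cfsg

namespace Cfsg.Agent.S3713

/-- A presentation of the symplectic group as the universal completion of an amalgam of small subgroups. Let F be a field with more than two elements, n ≥ 2, and Sp the group of 2n × 2n matrices over F preserving the standard alternating form, acting on column vectors; write e_k, f_k for the standard basis vectors of the two halves (a hyperbolic basis). For each k let S_k be the subgroup of Sp fixing e_l and f_l for all l ≠ k (a copy of SL(2, F) on the plane of e_k, f_k), and for each i with i + 1 < n let M_i be the subgroup fixing every e_l and fixing f_l for all l other than i, i+1 (an abelian group isomorphic to the additive group of F³). Then Sp is the universal completion of the amalgam formed by the S_k, the M_i and the subgroups generated by two of them: for every group H and homomorphisms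 σ_k : S_k → H, μ_i : M_i → H such that for each pair of these subgroups some homomorphism on the subgroup they generate restricts to the given ones, there is exactly one homomorphism Sp → H restricting to every σ_k and μ_i. -/
theorem result
    (F : Type*) [Field F] (hF : ∃ a : F, a ≠ 0 ∧ a ≠ 1) (n : ℕ) (hn : 2 ≤ n)
    (S M : Fin n → Subgroup ↥(Matrix.symplecticGroup (Fin n) F))
    (hS : ∀ j : Fin n, S j = Subgroup.closure {A : ↥(Matrix.symplecticGroup (Fin n) F) | ∀ k : Fin n, k ≠ j →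
      ((A : ↥(Matrix.symplecticGroup (Fin n) F)) : Matrix (Fin n ⊕ Fin n) (Fin n ⊕ Fin n) F).mulVec (Pi.single (Sum.inl k) (1 : F)) = (Pi.single (Sum.inl k) (1 : F)) ∧ ((A : ↥(Matrix.symplecticGroup (Fin n) F)) : Matrix (Fin n ⊕ Fin n) (Fin n ⊕ Fin n) F).mulVec (Pi.single (Sum.inr k) (1 : F)) = (Pi.single (Sum.inr k) (1 : F))})
    (hM : ∀ i : Fin n, (i : ℕ) + 1 < n → M i = Subgroup.closure {A : ↥(Matrix.symplecticGroup (Fin n) F) |
      (∀ k : Fin n, ((A : ↥(Matrix.symplecticGroup (Fin n) F)) : Matrix (Fin n ⊕ Fin n) (Fin n ⊕ Fin n) F).mulVec (Pi.single (Sum.inl k) (1 : F)) = (Pi.single (Sum.inl k) (1 : F))) ∧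
        ∀ k : Fin n, (k : ℕ) ≠ i → (k : ℕ) ≠ (i : ℕ) + 1 → ((A : ↥(Matrix.symplecticGroup (Fin n) F)) : Matrix (Fin n ⊕ Fin n) (Fin n ⊕ Fin n) F).mulVec (Pi.single (Sum.inr k) (1 : F)) = (Pi.single (Sum.inr k) (1 : F))})
    {H : Type*} [Group H] (σ : ∀ j : Fin n, ↥(S j) →* H) (μ : ∀ i : Fin n, ↥(M i) →* H)
    (hSS : ∀ j l : Fin n, j ≠ l → ∃ Ψ : ↥(S j ⊔ S l) →* H,
      (∀ (g : ↥(Matrix.symplecticGroup (Fin n) F)) (hg : g ∈ S j), Ψ ⟨g, Subgroup.mem_sup_left hg⟩ = σ j ⟨g, hg⟩) ∧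
        (∀ (g : ↥(Matrix.symplecticGroup (Fin n) F)) (hg : g ∈ S l), Ψ ⟨g, Subgroup.mem_sup_right hg⟩ = σ l ⟨g, hg⟩))
    (hMM : ∀ i i' : Fin n, i ≠ i' → (i : ℕ) + 1 < n → (i' : ℕ) + 1 < n → ∃ Ψ : ↥(M i ⊔ M i') →* H,
      (∀ (g : ↥(Matrix.symplecticGroup (Fin n) F)) (hg : g ∈ M i), Ψ ⟨g, Subgroup.mem_sup_left hg⟩ = μ i ⟨g, hg⟩) ∧
        (∀ (g : ↥(Matrix.symplecticGroup (Fin n) F)) (hg : g ∈ M i'), Ψ ⟨g, Subgroup.mem_sup_right hg⟩ = μ i' ⟨g, hg⟩))
    (hMS : ∀ i j : Fin n, (i : ℕ) + 1 < n → ∃ Ψ : ↥(M i ⊔ S j) →* H,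
      (∀ (g : ↥(Matrix.symplecticGroup (Fin n) F)) (hg : g ∈ M i), Ψ ⟨g, Subgroup.mem_sup_left hg⟩ = μ i ⟨g, hg⟩) ∧
        (∀ (g : ↥(Matrix.symplecticGroup (Fin n) F)) (hg : g ∈ S j), Ψ ⟨g, Subgroup.mem_sup_right hg⟩ = σ j ⟨g, hg⟩)) :
    ∃! Φ : ↥(Matrix.symplecticGroup (Fin n) F) →* H,
      (∀ (j : Fin n) (g : ↥(Matrix.symplecticGroup (Fin n) F)) (hg : g ∈ S j), Φ g = σ j ⟨g, hg⟩) ∧
        (∀ (i : Fin n), (i : ℕ) + 1 < n → ∀ (g : ↥(Matrix.symplecticGroup (Fin n) F)) (hg : g ∈ M i), Φ g = μ i ⟨g, hg⟩) := by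
  obtain ⟨n, rfl⟩ : ∃ k, n = k + 1 := ⟨n - 1, by omega⟩
  have e1 : ∀ j, S j = Pres.SFx (Pres.pl (Pi.single (.inl j) 1) (Pi.single (.inr j) 1)) := fun j => by
    rw [hS, ← Subgroup.closure_eq (Pres.SFx _)]
    congr 1
    ext A
    refine ⟨fun h v => (Pres.mem_pl_single (by simp)).2 fun c h1 h2 => ?_, fun h k hk => ⟨Pres.SFx.fix h (Pres.pl_o ?_ ?_),
      Pres.SFx.fix h (Pres.pl_o ?_ ?_)⟩⟩
    · rcases c with c | c
      exacts [(Pres.fix_coord v).2 (h c (by simpa using h1)).2, (Pres.fix_coord v).1 (h c (by simpa using h2)).1]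
    all_goals simp [Classical.sympForm_single_inl, Classical.sympForm_single_inr, hk]
  have e2 : ∀ i j : Fin (n + 1), i.val + 1 = j → M i = Pres.SFx (Pres.pl (Pi.single (.inl i) 1) (Pi.single (.inl j) 1)) :=
    fun i j h => by
      rw [hM i (by omega), ← Subgroup.closure_eq (Pres.SFx _)]
      congr 1
      ext A
      refine ⟨fun h' v => (Pres.mem_pl_single (by simp; omega)).2 fun c h1 h2 => ?_, fun h' => ⟨fun k =>
        Pres.SFx.fix h' (Pres.pl_o ?_ ?_), fun k h1 h2 => Pres.SFx.fix h' (Pres.pl_o ?_ ?_)⟩⟩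
      · rcases c with c | c
        exacts [(Pres.fix_coord v).2 (h'.2 c (by simp at h1; omega) (by simp at h2; omega)),
          (Pres.fix_coord v).1 (h'.1 c)]
      all_goals simp [Classical.sympForm_single_inl, Classical.sympForm_single_inr, Pi.single_apply]
      all_goals omega
  obtain ⟨h1, h2⟩ := Pres.sp_amal hF (fun j => Pres.gr (σ j)) (fun i => Pres.gr (μ i)) (fun k => Pres.sov_gr (e1 k) _)
    (fun i j h => Pres.sov_gr (e2 i j h) _) (fun k => Pres.gr_gr _) (fun j l h => Pres.gr_sup (hSS j l h))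
    (fun i j h a b => Pres.gr_sup (hMM i j h (by omega) (by omega))) fun i j h => Pres.gr_sup (hMS i j (by omega))
  have h3 : ∀ g, ∃ j, (g, j) ∈ ⨆ k, Pres.gr (σ k) ⊔ ⨆ (_ : k.val < n), Pres.gr (μ k) := fun g => by
    obtain ⟨s, hs, rfl⟩ := h1.st g fun _ => trivial
    exact ⟨s.2, hs⟩
  obtain ⟨Φ, h⟩ := Pres.exists_hom_of_sub _ h3 fun j hj => congrArg Prod.snd (h2 _ hj rfl)
  refine ⟨Φ, ⟨fun j g hg => h _ _ (Subgroup.mem_iSup_of_mem j (Subgroup.mem_sup_left ⟨⟨g, hg⟩, rfl⟩)), fun i hi g hg =>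
    h _ _ (Subgroup.mem_iSup_of_mem i (Subgroup.mem_sup_right (Subgroup.mem_iSup_of_mem (by omega) ⟨⟨g, hg⟩, rfl⟩)))⟩,
    fun Φ' h' => MonoidHom.ext fun g => ?_⟩
  obtain ⟨j, hj⟩ := h3 g
  rw [h g j hj]
  exact (iSup_le fun k => sup_le (by rintro _ ⟨a, rfl⟩; exact h'.1 k a a.2) (iSup_le fun hk => by
    rintro _ ⟨a, rfl⟩; exact h'.2 k (by omega) a a.2) : _ ≤ (Φ'.comp (.fst _ H)).eqLocus (.snd _ H)) hj

end Cfsg.Agent.S3713
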