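import Cfsg.Statements.S3716
import Cfsg.Agent.Hig.D8
-- import your own Cfsg.Agent.* helpers here

set_option autoImplicit false
open Cfsg

namespace Cfsg.Agent.S3716

open Cfsg.Agent.Hig Subgroup

/-- Let G be a finite group with an elementary abelian Sylow 3-subgroup M of order 9 which is self-centralizing (C_G(M) = M), let N = N_G(M), and suppose C_G(g) ≤ N for every nonidentity g ∈ M. If the Sylow 2-subgroups of N are dihedral of order 8, then G is not simple. -/
theorem result {G : Type*} [Group G] [Finite G] (M : Sylow 3 G) (hM9 : Nat.card ↥(M : Subgroup G) = 9)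
    (hMel : ∀ m ∈ (M : Subgroup G), m ^ 3 = 1)
    (hCM : Subgroup.centralizer ((M : Subgroup G) : Set G) = (M : Subgroup G))
    (N : Subgroup G) (hN : N = Subgroup.normalizer ((M : Subgroup G) : Set G))
    (hCg : ∀ g ∈ (M : Subgroup G), g ≠ 1 → Subgroup.centralizer ({g} : Set G) ≤ N)
    (hS : ∀ S : Sylow 2 ↥N, Nonempty (↥(S : Subgroup ↥N) ≃* DihedralGroup 4)) :
    ¬ IsSimpleGroup G := by
  intro _
  subst hN
  have := Fact.mk Nat.prime_two
  have := Fact.mk Nat.prime_three
  obtain ⟨P⟩ : Nonempty (Sylow 2 (normalizer ((M : Subgroup G) : Set G))) := inferInstance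
  obtain ⟨f⟩ := hS P
  let F : DihedralGroup 4 →* G := ((Subgroup.subtype _).comp (Subgroup.subtype _)).comp f.symm.toMonoidHom
  have hF : Function.Injective F :=
    (Subtype.val_injective.comp Subtype.val_injective).comp f.symm.injective
  have m : ∀ x, F x ∈ normalizer ((M : Subgroup G) : Set G) := fun x => (f.symm x).1.2
  have o : ∀ {x}, x = 1 → F x ∈ (M : Subgroup G) := fun c => by rw [c, map_one]; exact one_mem _
  refine (d8_model M ⟨⟨⟨fun a b => Subtype.ext (hCM.ge b.2 a a.2)⟩⟩, hMel⟩ hM9 hCM.le hCg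
    (fun h72 => ?_) (m (.r 1)) (m (.sr 0)) (map_mul F _ _ ▸ o (by decide))
    (by simp only [← map_mul]; exact o (by decide)) (map_pow F _ _ ▸ o (by decide)) fun c => by
      have := hMel _ c
      simp only [← map_mul, ← map_inv, ← map_pow, map_eq_one_iff F hF] at this
      revert this; decide).elim fun φ h => d8_false h.1
  have h8 : Nat.card P = 8 := by rw [Nat.card_congr f.toEquiv, DihedralGroup.nat_card]
  have h1 := card_mul_index (P : Subgroup (normalizer ((M : Subgroup G) : Set G)))
  have h2 := Nat.eq_prime_pow_of_unique_prime_dvd (n := (P : Subgroup (normalizer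
    ((M : Subgroup G) : Set G))).index) (p := 3) index_ne_zero_of_finite fun {q} hq hd => by
      have := Fact.mk hq
      obtain ⟨g, hg⟩ := exists_prime_orderOf_dvd_card' q (hd.trans (index_dvd_card _))
      have h3 : q ∣ 2 ^ 3 * 3 ^ 2 := hg ▸ orderOf_dvd_of_pow_eq_one (Subtype.ext (h72 g g.2))
      rcases (Nat.Prime.dvd_mul hq).1 h3 with c | c
      · obtain rfl := (Nat.prime_dvd_prime_iff_eq hq Nat.prime_two).1 (hq.dvd_of_dvd_pow c)
        exact absurd hd P.not_dvd_index
      · exact (Nat.prime_dvd_prime_iff_eq hq Nat.prime_three).1 (hq.dvd_of_dvd_pow c)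
  have h3 : 9 ∣ Nat.card (normalizer ((M : Subgroup G) : Set G)) :=
    hM9 ▸ card_dvd_of_le le_normalizer
  have h4 : ¬ 27 ∣ Nat.card (normalizer ((M : Subgroup G) : Set G)) := fun c => by
    have := c.trans (card_subgroup_dvd_card _)
    rw [← card_mul_index (M : Subgroup G), hM9] at this
    exact M.not_dvd_index (Nat.dvd_of_mul_dvd_mul_left (by omega : 0 < 9) this)
  rw [← h1, h2, show Nat.card (P : Subgroup (normalizer ((M : Subgroup G) : Set G))) = 8 from h8]
    at h3 h4 ⊢
  generalize List.length _ = k at *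
  rcases k with _ | _ | _ | k
  · omega
  · omega
  · rfl
  · exact absurd ⟨8 * 3 ^ k, by ring⟩ h4

end Cfsg.Agent.S3716
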