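import Cfsg.Statements.S3802
import Cfsg.Agent.BG.Base6
import Cfsg.Agent.SolvStr.Subnormal

set_option autoImplicit false
open Cfsg

namespace Cfsg.Agent.S3802

open Cfsg.Agent.BG

/-- Let G be a finite group, M a maximal subgroup of G and N a subnormal subgroup of G contained in M. Then N is contained in every conjugate of M, that is, N lies in the core of M in G. -/
theorem result {G : Type*} [Group G] [Finite G] (M N : Subgroup G) (hM : IsCoatom M) (hN : N.IsSubnormal) (hNM : N ≤ M) :
    N ≤ Subgroup.normalCore M := by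
  -- `L`: the join of the subnormal subgroups of `G` inside `M`
  let S : Set (Subgroup G) := {X | X.IsSubnormal ∧ X ≤ M}
  have hL : (sSup S).IsSubnormal := SolvStr.isSubnormal_sSup fun A hA => hA.1
  have hLM : sSup S ≤ M := sSup_le fun A hA => hA.2
  have hML : M ≤ N[sSup S] := norms_sSup_of_perm fun g hg A hA =>
    ⟨hA.1.map (MulAut.conj g).surjective, cj_le_of_mem hg hA.2⟩
  have hNL : N ≤ sSup S := le_sSup ⟨hN, hNM⟩
  suffices h : (sSup S).Normal from hNL.trans (Subgroup.normal_le_normalCore.2 hLM)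
  by_contra hn
  have hNe : N[sSup S] = M := by
    by_contra hne
    have := hM.2 _ (lt_of_le_of_ne hML (Ne.symm hne))
    exact hn (NormalIn.normal ⟨le_top, this.ge⟩)
  rcases (Subgroup.IsSubnormal.iff_eq_top_or_exists.1 hL) with e | ⟨K, hlt, hK, hnorm⟩
  · exact hM.1 (top_le_iff.1 (e ▸ hLM))
  · have hKM : K ≤ M := hNe ▸ (normal_of_subgroupOf hlt.le hnorm).2
    exact absurd hlt (not_lt_of_ge (le_sSup ⟨hK, hKM⟩))

end Cfsg.Agent.S3802
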