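import Cfsg.Statements.S3803
import Cfsg.Agent.FTC.HSub
import Cfsg.Agent.BG.Base6
import Cfsg.Agent.Invol.Transfer

set_option autoImplicit false
open Cfsg

namespace Cfsg.Agent.S3803

open Subgroup BG

theorem key {X : Type*} [Group X] [Finite X] {K A : Subgroup X} (hK : IsPGroup 2 K) (hA : Odd #A) (n : A ≤ N[K])
    (h : ∀ B, MaxSub B K → A ≤ N[B]) : A ≤ C[K] := by
  obtain ⟨k, hk⟩ := hK.exists_card_eq
  refine coprime_cent_Phi n (hk ▸ (Nat.coprime_two_left.2 hA).pow_left k)
    (le_Phi_iff.2 ⟨commg_subl n, fun B hB => commutator_le.2 fun s hs a ha => ?_⟩)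
  rw [commutatorElement_def, mul_assoc, mul_assoc, ← mul_assoc a,
    Invol.mul_mem_iff_of_relIndex_two (p_maximal_index hK hB) hs
    (conj_mem_of_norm (n ha) (inv_mem hs)), conj_mem_iff_of_norm (h B hB ha), inv_mem_iff]

/-- Let P be a 2-subgroup and A a subgroup of odd order of a finite group, with A normalizing P. Let D ≤ P with 1 < |D| < |P|. If every subgroup of P of order |D|, and also every subgroup of P of order 4 in case |D| = 2, is normalized by A, then A centralizes P. -/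
theorem result {X : Type*} [Group X] [Finite X] (P A D : Subgroup X) (hP : IsPGroup 2 P) (hA : Odd (Nat.card A))
    (hAP : A ≤ Subgroup.normalizer (P : Set X)) (hDP : D ≤ P) (hD1 : 1 < Nat.card D) (hD2 : Nat.card D < Nat.card P)
    (hinv : ∀ E : Subgroup X, E ≤ P → (Nat.card E = Nat.card D ∨ (Nat.card D = 2 ∧ Nat.card E = 4)) → A ≤ Subgroup.normalizer (E : Set X)) :
    A ≤ Subgroup.centralizer (P : Set X) := by
  have cyc : ∀ K ≤ P, IsCyclic K → A ≤ N[K] → A ≤ C[K] := fun K l c n =>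
    key (hP.to_le l) hA n fun B hB => norms_sub_cyclic c hB.lt.le n
  refine cents_symm (FTC.le_centralizer_of_pow_four hP hAP (Nat.coprime_two_right.2 hA) fun x hx x4 => ?_)
  rw [← zpowers_le, centsC]
  have l := zpowers_le.2 hx
  have o : #(zpowers x) ∣ 2 ^ 2 := by rw [Nat.card_zpowers]; exact orderOf_dvd_of_pow_eq_one x4
  obtain ⟨d, hd⟩ := (hP.to_le hDP).exists_card_eq
  obtain ⟨n, hn⟩ := hP.exists_card_eq
  by_cases h : #(zpowers x) ≤ 2 ^ d
  swap
  · obtain ⟨i, hi, e⟩ := (Nat.dvd_prime_pow Nat.prime_two).1 o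
    rw [hd, Nat.one_lt_two_pow_iff] at hD1
    rw [e, Nat.pow_le_pow_iff_right one_lt_two] at h
    obtain rfl : d = 1 := by omega
    obtain rfl : i = 2 := by omega
    exact cyc _ l inferInstance (hinv _ l (.inr ⟨hd, e⟩))
  obtain ⟨E, h1, h2, h3⟩ := FTC.exists_between hP l h (hd ▸ hD2.le)
  obtain ⟨F, h4, h5, h6⟩ := FTC.exists_between hP h2 (e := d + 1) (by rw [h3]; exact Nat.pow_le_pow_right two_pos d.le_succ)
    (by rw [hd, hn, Nat.pow_lt_pow_iff_right one_lt_two] at hD2; rw [hn]; exact Nat.pow_le_pow_right two_pos hD2)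
  have hF := hP.to_le h5
  have k : ∀ B, MaxSub B F → A ≤ N[B] := fun B hB => hinv B (hB.lt.le.trans h5) (.inl (by
    have := card_mul_relIndex hB.lt.le
    rw [p_maximal_index hF hB, h6, pow_succ] at this
    omega))
  have m : MaxSub E F := p_index_maximal h4 (by
    have := card_mul_relIndex h4
    rw [h3, h6, pow_succ, Nat.mul_right_inj (by positivity)] at this
    exact this ▸ Nat.prime_two)
  obtain ⟨y, hy, yE⟩ := SetLike.exists_of_lt m.lt
  refine le_trans ?_ (centS h1)
  rcases (zpowers_le.2 hy).eq_or_lt with e | e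
  · exact cyc E h2 (cyclicS h4 (e ▸ inferInstance)) (k E m)
  obtain ⟨B, h7, hB⟩ := maxSub_exists e
  exact (key hF hA (m.sup_eq hB.lt.le (fun r => yE (r (h7 (mem_zpowers y)))) ▸ normsY (k E m) (k B hB)) k).trans (centS h4)

end Cfsg.Agent.S3803
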