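import Cfsg.Statements.S3818
import Cfsg.Agent.Isa.K7

set_option autoImplicit false
open Cfsg

namespace Cfsg.Agent.S3818



/-- Let G be a finite solvable group and P a subgroup of G of prime order p > 3 whose conjugates generate G. Let V be a faithful irreducible representation of G over a field of positive characteristic, finite-dimensional. Then the subspace of V fixed by P has dimension less than half the dimension of V. -/
theorem result {G : Type*} [Group G] [Finite G] [Group.IsSolvable G]
    {p : ℕ} [Fact p.Prime] (hp : 3 < p) (P : Subgroup G) (hP : Nat.card P = p) (hgen : Subgroup.normalClosure (P : Set G) = ⊤)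
    {k : Type*} [Field k] (ℓ : ℕ) [Fact ℓ.Prime] [CharP k ℓ]
    {V : Type*} [AddCommGroup V] [Module k V] [FiniteDimensional k V]
    (ρ : Representation k G V) [ρ.IsIrreducible] (hfaith : Function.Injective ρ) :
    2 * Module.finrank k ↥(⨅ g : ↥P, LinearMap.ker (ρ (g : G) - LinearMap.id)) < Module.finrank k V := by
  have : Fact (Nat.card P).Prime := ⟨hP ▸ Fact.out⟩
  obtain ⟨x, hx⟩ := (Subgroup.isCyclic_iff_exists_zpowers_eq_top P).1 (isCyclic_of_prime_card rfl)
  subst hx
  have h1 := Cfsg.Agent.Isa.Fl.flavell hp (x := x)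
      (by rw [← Nat.card_zpowers, hP]) (top_le_iff.1 (hgen.ge.trans (Subgroup.normalClosure_le_normal
        (Subgroup.zpowers_le.2 (Subgroup.subset_normalClosure rfl))))) ℓ ρ hfaith
  refine lt_of_le_of_lt (Nat.mul_le_mul_left 2 (Submodule.finrank_mono ?_)) h1
  exact iInf_le_of_le ⟨x, Subgroup.mem_zpowers x⟩ le_rfl

end Cfsg.Agent.S3818
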