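import Cfsg.Statements.S3819
import Cfsg.Agent.BG.Base6
import Cfsg.Agent.Loc.Syl

set_option autoImplicit false
open Cfsg

namespace Cfsg.Agent.S3819

/-- Let G be a finite group with Sylow p-subgroup P and H = O_{p'}(G), and suppose G = PH and the commutator subgroup [H, P] is solvable. Let q be a prime and z an element of q-power order of C_H(P). Then (O_{q'}(C_H(z)) ∩ O_{q'}(C_H(P))) · [O_{q'}(C_H(z)), P] ≤ O_{q'}(H). -/
theorem result {G : Type*} [Group G] [Finite G] {p : ℕ} [Fact p.Prime]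
    (P : Sylow p G) (hPH : Cfsg.pPrimeCore p G ⊔ (P : Subgroup G) = ⊤)
    (hsol : Group.IsSolvable ↥⁅Cfsg.pPrimeCore p G, (P : Subgroup G)⁆)
    {q : ℕ} [Fact q.Prime] (z : G) (hzH : z ∈ Cfsg.pPrimeCore p G) (hzP : z ∈ Subgroup.centralizer ((P : Subgroup G) : Set G))
    (hz : ∃ k : ℕ, orderOf z = q ^ k) :
    ((Cfsg.pPrimeCore q ↥(Cfsg.pPrimeCore p G ⊓ Subgroup.centralizer ({z} : Set G))).map
        (Cfsg.pPrimeCore p G ⊓ Subgroup.centralizer ({z} : Set G)).subtype ⊓
      (Cfsg.pPrimeCore q ↥(Cfsg.pPrimeCore p G ⊓ Subgroup.centralizer ((P : Subgroup G) : Set G))).map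
        (Cfsg.pPrimeCore p G ⊓ Subgroup.centralizer ((P : Subgroup G) : Set G)).subtype) ⊔
    ⁅(Cfsg.pPrimeCore q ↥(Cfsg.pPrimeCore p G ⊓ Subgroup.centralizer ({z} : Set G))).map
        (Cfsg.pPrimeCore p G ⊓ Subgroup.centralizer ({z} : Set G)).subtype, (P : Subgroup G)⁆ ≤
    (Cfsg.pPrimeCore q ↥(Cfsg.pPrimeCore p G)).map (Cfsg.pPrimeCore p G).subtype := by
  open Cfsg.Agent.BG Subgroup in
  open scoped commutatorElement in
  simp only [← Op'_eq]
  obtain ⟨k, hk⟩ := hz
  have gz : IsPGroup q (zpowers z) := Loc.isPGroup_zpowers_of_orderOf hk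
  rw [← C_zpowers]
  set H := pPrimeCore p G
  set K := ⁅H, (P : Subgroup G)⁆
  set X := Op' q (H ⊓ C[zpowers z])
  have nK : K ⊴ ⊤ := hPH ▸ commg_normal _ _
  have nH : H ⊴ ⊤ := normal_top _
  have KH : K ≤ H := commg_subl (le_top.trans nH.norm)
  have nN := nH.pcore {q}ᶜ
  have key : ∀ d ∈ X, ∃ Y, d ∈ Y ∧ K ≤ N[Y] ∧ K ⊓ Y ≤ Op' q H := fun d hd => by
    have h1 := pcore_sub _ _ hd
    have l1 : K ⊔ (zpowers d ⊔ zpowers z) ≤ H := sup_le KH (sup_le (zpowers_le.2 h1.1) (zpowers_le.2 hzH))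
    have n := pcore_normal {q}ᶜ (K ⊔ (zpowers d ⊔ zpowers z))
    refine ⟨_, p'core_cent_pgroup (le_sup_right.trans le_sup_right) gz (solvableY (Or.inr (le_top.trans nK.norm))
      hsol (abelian_sol (abelianY (abelian_zpowers _) (abelian_zpowers _) (zpowers_le.2 h1.2))))
      (pcore_setI _ (inf_le_inf_right _ l1) ⟨hd, mem_sup_right (mem_sup_left (mem_zpowers d)), h1.2⟩),
      le_sup_left.trans n.norm, ?_⟩
    rw [inf_comm, pcore_setI_normal _ (nK.subl le_sup_left le_top)]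
    exact pcoreS_normal _ (nK.subl KH le_top)
  refine sup_le ?_ fun d hd => ?_
  · have := nN.normal
    have := nK.normal
    set f := QuotientGroup.mk' (Op' q H)
    have : (K.map f).Normal := Normal.map ‹_› f (QuotientGroup.mk'_surjective _)
    set M := Op' q (H ⊓ C[P]) ⊓ C[K.map f].comap f
    have c : ⁅M ⊔ Op' q H, K⁆ ≤ Op' q H := comm_sup_le (norm_of_normal _ _) (norm_of_normal _ _) (commutator_le.2
      fun m hm k hk => (QuotientGroup.eq_one_iff _).1 (show f _ = 1 by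
        rw [map_commutatorElement, commutatorElement_eq_one_iff_mul_comm]
        exact (hm.2 _ (mem_map_of_mem f hk)).symm)) (commg_subl (norm_of_normal _ _))
    refine (le_inf inf_le_right fun d hd _ ⟨k, hk, e⟩ => ?ga).trans ((le_sup_left : M ≤ M ⊔ Op' q H).trans (pcore_max
      ⟨sup_le (inf_le_left.trans ((pcore_sub _ _).trans inf_le_left)) (pcore_sub _ _), ?gb⟩
      (pgroupY (Or.inl (norm_of_normal _ _)) (pgroupS inf_le_left (pcore_pgroup _ _)) (pcore_pgroup _ _))))
    case ga =>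
      obtain ⟨Y, y1, y2, y3⟩ := key d hd.1
      rw [← e, ← commutatorElement_eq_one_iff_mul_comm, ← map_commutatorElement]
      exact (QuotientGroup.eq_one_iff _).2 (y3 ⟨commg_subl (norm_of_normal _ ⊤) (commutator_mem_commutator hk (mem_top d)),
        commg_subr y2 (commutator_mem_commutator hk y1)⟩)
    case gb =>
      have e := coprime_cent_prod' (A := P) (K := H) (le_top.trans nH.norm) (pnat_coprime' (pgroupS (Op'_top p).ge
        (pcore_pgroup _ _)) (IsPGroup.pi P.2)) (Or.inl (pgroup_sol P.2))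
      have h1 : K ≤ N[M ⊔ Op' q H] := norm_of_commg_subl (c.trans le_sup_right)
      have h2 : H ⊓ C[P] ≤ N[M] := normsI (pcore_normal _ _).norm (norm_of_normal _ _)
      exact e.ge.trans (sup_le h1 (normsY h2 (norm_of_normal _ _)))
  · obtain ⟨Y, y1, -, y3⟩ := key d (commg_subl (norms_pcore _ (normsI (le_top.trans nH.norm)
      (normsG (cents_symm (zpowers_le.2 hzP))))) hd)
    exact y3 ⟨commSg _ ((pcore_sub _ _).trans inf_le_left) hd, y1⟩

end Cfsg.Agent.S3819
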