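import Cfsg.Statements.S3821
import Cfsg.Agent.BG.Base6

set_option autoImplicit false
open Cfsg

namespace Cfsg.Agent.S3821

open Cfsg.Agent.BG

theorem pron_iff {G : Type*} [Group G] (H : Subgroup G) :
    IsPronormal H ↔ ∀ g : G, ∃ x ∈ H ⊔ cj g H, cj g H = cj x H := Iff.rfl

/-- Let A be a normal subgroup of the finite group G and H a subgroup of A. Then H is pronormal in G (H and gHg⁻¹ conjugate inside ⟨H, gHg⁻¹⟩ for every g ∈ G) if and only if H is pronormal in A and G = A · N_G(H). -/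
theorem result {G : Type*} [Group G] [Finite G] (A H : Subgroup G) [A.Normal] (hHA : H ≤ A) :
    Cfsg.IsPronormal H ↔ (Cfsg.IsPronormal (H.subgroupOf A) ∧ A ⊔ Subgroup.normalizer (H : Set G) = ⊤) := by
  rw [pron_iff, pron_iff]
  have hAn : A ⊴ ⊤ := normal_top A
  constructor
  · intro h
    refine ⟨fun g => ?_, ?_⟩
    · obtain ⟨x, hx, e⟩ := h g
      have hle : H ⊔ cj (g : G) H ≤ A := sup_le hHA (cj_le_of_mem g.2 hHA)
      have hm : ∀ y : A, (cj y (H.subgroupOf A)).map A.subtype = cj (y : G) H := fun y => by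
        rw [map_cj, Subgroup.map_subgroupOf_eq_of_le hHA]; rfl
      refine ⟨⟨x, hle hx⟩, ?_, Subgroup.map_injective A.subtype_injective (by rw [hm, hm]; exact e)⟩
      rw [← Subgroup.mem_map_iff_mem A.subtype_injective, Subgroup.map_sup, hm,
        Subgroup.map_subgroupOf_eq_of_le hHA]
      exact hx
    · refine top_le_iff.1 fun g _ => ?_
      obtain ⟨x, hx, e⟩ := h g
      have hle : H ⊔ cj g H ≤ A := sup_le hHA (cj_le_of_norm (hAn.2 trivial) hHA)
      have : x⁻¹ * g ∈ N[H] := by rw [mem_norm, cj_mul, e, cj_inv_cj]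
      have e2 : g = x * (x⁻¹ * g) := by group
      rw [e2]
      exact mul_mem_sup' (hle hx) this
  · rintro ⟨h, hs⟩ g
    obtain ⟨a, ha, n, hn, rfl⟩ := (mem_sup_norml (A := A) (B := N[H]) (le_top.trans hAn.2)).1
      (hs ▸ trivial : g ∈ A ⊔ N[H])
    rw [cj_mul, cj_of_norm hn]
    obtain ⟨x, hx, e⟩ := h ⟨a, ha⟩
    have hm : ∀ y : A, (cj y (H.subgroupOf A)).map A.subtype = cj (y : G) H := fun y => by
      rw [map_cj, Subgroup.map_subgroupOf_eq_of_le hHA]; rfl
    refine ⟨x, ?_, ?_⟩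
    · have := Subgroup.mem_map_of_mem A.subtype hx
      rwa [Subgroup.map_sup, hm, Subgroup.map_subgroupOf_eq_of_le hHA] at this
    · have := congrArg (Subgroup.map A.subtype) e
      rwa [hm, hm] at this

end Cfsg.Agent.S3821
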