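import Cfsg.Statements.S3825
import Cfsg.Agent.Gen.Pairing
import Cfsg.Agent.Gen.Invol

set_option autoImplicit false
open Cfsg

namespace Cfsg.Agent.S3825

open Cfsg.Agent.BG
open scoped commutatorElement

/-- Let U be a subgroup of a finite group H and w an involution of H normalizing U and commuting with exactly two elements of U, the identity and y. If V is a non-cyclic elementary abelian 2-subgroup of U containing y which is normal in U and invariant under w, then V is a Sylow 2-subgroup of U, V has order 4, and U/V is abelian. -/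
theorem result {H : Type*} [Group H] [Finite H] (U : Subgroup H) (w : H) (hw : orderOf w = 2)
    (hwU : w ∈ Subgroup.normalizer (U : Set H)) (y : H) (hy : y ≠ 1) (hyU : y ∈ U)
    (hfix : ∀ u ∈ U, w * u * w⁻¹ = u ↔ (u = 1 ∨ u = y))
    (V : Subgroup H) (hVU : V ≤ U) (hVn : (V.subgroupOf U).Normal) (hVw : ∀ v ∈ V, w * v * w⁻¹ ∈ V)
    (hVe : Cfsg.IsElementaryAbelian 2 V) (hVc : ¬ IsCyclic ↥V) (hyV : y ∈ V) :
    ¬ 2 ∣ V.relIndex U ∧ Nat.card ↥V = 4 ∧ ⁅U, U⁆ ≤ V := by
  have hVU' : V ⊴ U := normal_of_subgroupOf hVU hVn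
  have hww : w * w = 1 := by rw [← sq, ← hw, pow_orderOf_eq_one]
  have hwi : w⁻¹ = w := inv_eq_of_mul_eq_one_right hww
  have hwV : w ∈ N[V] := mem_norm_of_cj_le fun x hx => by
    obtain ⟨a, ha, rfl⟩ := mem_cj'.1 hx; exact hVw a ha
  have hsq : ∀ v ∈ V, v⁻¹ = v := fun v hv => inv_eq_of_mul_eq_one_right (by rw [← sq]; exact hVe.pow hv)
  have hyy : y * y = 1 := by rw [← sq]; exact hVe.pow hyV
  have hz : ∀ x, x ∈ Subgroup.zpowers y ↔ x = 1 ∨ x = y := fun x => by
    constructor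
    · intro hx
      have h1 : Subgroup.zpowers y ≤ U ⊓ C1[w] := by
        simp only [Subgroup.zpowers_le, Subgroup.mem_inf]
        exact ⟨hyU, mem_cent1.2 (mul_inv_eq_iff_eq_mul.1 ((hfix y hyU).2 (Or.inr rfl))).symm⟩
      exact (hfix x (h1 hx).1).1 (mul_inv_eq_iff_eq_mul.2 (mem_cent1.1 (h1 hx).2).symm)
    · rintro (rfl | rfl); exacts [one_mem _, Subgroup.mem_zpowers _]
  have hcz : #(Subgroup.zpowers y) = 2 := by rw [Nat.card_zpowers]; exact abelem_order_p hVe hyV hy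
  have hC : V ⊓ C1[w] = Subgroup.zpowers y := by
    ext x
    rw [hz, Subgroup.mem_inf, mem_cent1]
    constructor
    · rintro ⟨h1, h2⟩; exact (hfix x (hVU h1)).1 (mul_inv_eq_iff_eq_mul.2 h2.symm)
    · intro h
      have hx : x ∈ V := by rcases h with rfl | rfl; exacts [one_mem _, hyV]
      exact ⟨hx, (mul_inv_eq_iff_eq_mul.1 ((hfix x (hVU hx)).2 h)).symm⟩
  have hfixc : ∀ u, w * (w * u * w⁻¹ * u⁻¹) * w⁻¹ = (w * u * w⁻¹ * u⁻¹)⁻¹ := fun u => by
    calc _ = (w * w) * u * w⁻¹ * u⁻¹ * w⁻¹ := by group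
      _ = _ := by rw [hww, hwi]; simp [hwi, mul_assoc]
  have hR : ⁅V, Subgroup.zpowers w⁆ ≤ Subgroup.zpowers y := by
    rw [← Gen.commWith_range hVe.abelian w hwV]
    rintro _ ⟨v, rfl⟩
    have hm : ⁅w, (v : H)⁆ ∈ V := mul_mem (hVw _ v.2) (inv_mem v.2)
    exact (hz _).2 ((hfix _ (hVU hm)).1 ((hfixc v).trans (hsq _ hm)))
  have hcard := Gen.card_comm_cyclic hVe.abelian w hwV
  rw [hC, hcz] at hcard
  have hR' : ⁅V, Subgroup.zpowers w⁆ = Subgroup.zpowers y := by
    refine prime_nt_eq (hcz ▸ Nat.prime_two) hR fun e => hVc ?_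
    rw [e, Subgroup.card_bot] at hcard
    exact prime_cyclic (hcard ▸ Nat.prime_two)
  rw [hR', hcz] at hcard
  obtain ⟨t, ht⟩ : y ∈ (Gen.commWith hVe.abelian w hwV).range := by
    rw [Gen.commWith_range, hR']; exact Subgroup.mem_zpowers y
  change w * t * w⁻¹ * (t : H)⁻¹ = y at ht
  have hq : (U /ᵍ V) ⊓ C1[coset V w] = ⊥ := by
    refine le_bot_iff.1 fun z ⟨hz1, hz2⟩ => ?_
    obtain ⟨u, hu, hun, rfl⟩ := mem_quotient_iff.1 hz1
    have hm : w * u * w⁻¹ * u⁻¹ ∈ V := by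
      rw [← coset_eq_one (mul_mem (mul_mem (mul_mem hwV hun) (inv_mem hwV)) (inv_mem hun))]
      change coset V ⁅w, u⁆ = 1
      rw [coset_comm hwV hun, commutatorElement_eq_one_iff_mul_comm]
      exact (mem_cent1.1 hz2).symm
    refine coset_id ?_
    have hin : ∀ x ∈ U, w * x * w⁻¹ = x → x ∈ V := fun x hx e => by
      rcases (hfix x hx).1 e with rfl | rfl; exacts [one_mem _, hyV]
    rcases (hfix _ (hVU hm)).1 ((hfixc u).trans (hsq _ hm)) with e | e
    · exact hin u hu (mul_inv_eq_one.1 e)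
    · refine (Subgroup.mul_mem_cancel_left _ t.2).1 (hin _ (mul_mem (hVU t.2) hu) ?_)
      have e1 : w * t * w⁻¹ = y * t := by rw [← ht]; group
      have e2 : w * u * w⁻¹ = y * u := by rw [← e]; group
      calc w * (t * u) * w⁻¹ = (w * t * w⁻¹) * (w * u * w⁻¹) := by group
        _ = (y * t * y) * u := by rw [e1, e2]; group
        _ = _ := by rw [BG.IsMulCommutative.comm hVe.abelian hyV t.2, mul_assoc (t : H), hyy, mul_one]
  have hn : coset V w ∈ N[U /ᵍ V] := by
    have : Subgroup.zpowers w ≤ N[U] := by simpa using hwU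
    have := quotient_norms V this
    rw [quotient_zpowers hwV] at this
    simpa using this
  obtain ⟨h1, h2, -⟩ := Gen.fpf_invol hn (by rw [← coset_mul hwV hwV, hww, coset_one]; exact one_mem _) hq
  rw [card_quotient hVU'.2] at h2
  exact ⟨h2.not_two_dvd_nat, hcard.symm, der1_min hVU'.2 h1⟩

end Cfsg.Agent.S3825
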