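import Cfsg.Statements.S3835
import Cfsg.Agent.PLocal.QdR2
import Cfsg.Agent.PLocal.Func
import Mathlib.GroupTheory.IndexNormal
import Cfsg.Agent.Classical.SLGen

set_option autoImplicit false
open Cfsg

namespace Cfsg.Agent.S3835

open Subgroup PLocal Matrix
open scoped commutatorElement

lemma abel {p n : ℕ} [Fact p.Prime] (hn : n < p ^ 2) (Q : Subgroup (alternatingGroup (Fin n)))
    (hQ : IsPGroup p Q) : IsMulCommutative Q := by
  refine ⟨⟨fun a b => ?_⟩⟩
  rw [← commutatorElement_eq_one_iff_mul_comm]
  apply Subtype.ext; apply Subtype.ext; ext1 x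
  let S := MulAction.stabilizer Q x
  obtain ⟨k, hk⟩ := hQ.index S
  have h1 : S.index ≤ n := by
    rw [MulAction.index_stabilizer]
    simpa using Set.ncard_le_card (MulAction.orbit Q x)
  have hp := (Fact.out : p.Prime)
  have hk2 : k < 2 := (Nat.pow_lt_pow_iff_right hp.one_lt).mp (by omega)
  have : ⁅a, b⁆ ∈ S := by
    interval_cases k
    · rw [(index_eq_one (H := S)).mp (by simpa using hk)]; trivial
    · rw [pow_one] at hk
      haveI : S.Normal := by
        obtain ⟨m, hm⟩ := IsPGroup.iff_card.mp hQ
        have hm0 : m ≠ 0 := by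
          rintro rfl
          have := S.index_dvd_card
          rw [hk, hm, pow_zero] at this
          exact hp.one_lt.ne' (Nat.dvd_one.mp this)
        exact normal_of_index_eq_minFac_card (by rw [hk, hm, hp.pow_minFac hm0])
      haveI : IsCyclic (Q ⧸ S) := isCyclic_of_prime_card (p := p) hk
      rw [← QuotientGroup.eq_one_iff]
      show QuotientGroup.mk' S ⁅a, b⁆ = 1
      rw [map_commutatorElement, commutatorElement_eq_one_iff_mul_comm]
      exact IsCyclic.isMulCommutative.is_comm.comm _ _
  exact this

/-- Let p be an odd prime and n a natural number. The alternating group of degree n has a subgroup isomorphic to Qd(p) (the natural semidirect product of an elementary abelian group of order p² by SL₂(p)) if and only if n ≥ p²; and if n < p² then Qd(p) is not even involved in it. -/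
theorem result {p : ℕ} [Fact p.Prime] (hp : p ≠ 2) (n : ℕ) : ((∃ H : Subgroup (alternatingGroup (Fin n)), Nonempty (↥H ≃* ↥(Cfsg.qd p))) ↔ p ^ 2 ≤ n) ∧ (n < p ^ 2 → ¬ Cfsg.Involves ↥(Cfsg.qd p) ↥(alternatingGroup (Fin n))) := by
  have h2 : n < p ^ 2 → ¬ Cfsg.Involves ↥(Cfsg.qd p) ↥(alternatingGroup (Fin n)) := by
    intro hn h
    have h1 := (involves_iff_top.mp h).abelian (fun Q _ hQ => abel hn Q hQ) _ qdS_pgroup
    have h3 := h1.is_comm.comm (heisE p (1, 0, 0)) (heisE p (0, 1, 0))
    rw [heisE_mul, heisE_mul] at h3
    simpa using (heisE p).injective h3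
  refine ⟨⟨?_, fun hn => ?_⟩, h2⟩
  · rintro ⟨H, ⟨e⟩⟩
    by_contra hn
    exact h2 (by omega) (involves_iff_top.mpr ⟨H, le_top, e.toMonoidHom, e.surjective⟩)
  · let act : qd p → (Fin 2 → ZMod p) → (Fin 2 → ZMod p) :=
      fun x v i => (x.1.1 *ᵥ ![v 0, v 1, 1]) i.castSucc
    have hact : ∀ y g v, act (qdE y g) v = y + g.1 *ᵥ v := by
      intro y g v
      ext i
      have : (qdE y g).1.1 = _ := coe_qdM y g
      fin_cases i <;> simp [act, this, mulVec, dotProduct, Fin.sum_univ_succ] <;> ring
    letI : MulAction (qd p) (Fin 2 → ZMod p) :=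
      { smul := act
        one_smul := fun v => by
          show act 1 v = v
          rw [← qdE_one, hact]; simp
        mul_smul := fun x x' v => by
          obtain ⟨y, g, rfl⟩ := qdE_surj x
          obtain ⟨y', g', rfl⟩ := qdE_surj x'
          show act _ v = act _ (act _ v)
          rw [qdE_mul, hact, hact, hact]
          rw [mulVec_add, mulVec_mulVec, add_assoc]; rfl }
    let φ := MulAction.toPermHom (qd p) (Fin 2 → ZMod p)
    have hφ : Function.Injective φ := by
      rw [injective_iff_map_eq_one]
      intro x hx
      obtain ⟨y, g, rfl⟩ := qdE_surj x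
      have h1 : ∀ v, y + g.1 *ᵥ v = v := fun v => by
        rw [← hact]; exact congrArg (fun σ : Equiv.Perm _ => σ v) hx
      have h3 : y = 0 := by simpa using h1 0
      rw [← qdE_one, qdE_inj]
      refine ⟨h3, Subtype.ext (Matrix.ext_of_mulVec_single fun i => ?_)⟩
      have := h1 (Pi.single i 1)
      rw [h3, zero_add] at this
      rw [this]; exact (one_mulVec _).symm
    obtain ⟨ι⟩ : Nonempty ((Fin 2 → ZMod p) ↪ Fin n) :=
      Function.Embedding.nonempty_of_card_le (by simpa using hn)
    let ψ := (Equiv.Perm.viaEmbeddingHom ι).comp φ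
    have hψ : Function.Injective ψ := (Equiv.Perm.viaEmbeddingHom_injective ι).comp hφ
    have hs : ∀ x : qd p, x ^ p = 1 → Equiv.Perm.sign (ψ x) = 1 := by
      intro x hx
      have h1 : Equiv.Perm.sign (ψ x) ^ p = 1 := by rw [← map_pow, ← map_pow, hx]; simp
      rcases Int.units_eq_one_or (Equiv.Perm.sign (ψ x)) with h | h
      · exact h
      · rw [h, ((Fact.out : p.Prime).odd_of_ne_two hp).neg_one_pow] at h1
        exact absurd h1 (by decide)
    let s : SL2 (ZMod p) →* qd p :=
      { toFun := fun g => qdE 0 g
        map_one' := qdE_one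
        map_mul' := fun g g' => by rw [qdE_mul]; simp }
    have hall : ∀ x, ψ x ∈ alternatingGroup (Fin n) := by
      intro x
      obtain ⟨y, g, rfl⟩ := qdE_surj x
      have e : qdE y g = qdE y 1 * s g := by
        show _ = _ * qdE 0 g
        rw [qdE_mul]; simp
      rw [e, map_mul]
      refine mul_mem (hs _ ?_) ?_
      · have : ∀ m : ℕ, qdE y 1 ^ m = qdE (m • y) 1 := by
          intro m
          induction m with
          | zero => simp [qdE_one]
          | succ m ih => rw [pow_succ, ih, qdE_mul, succ_nsmul]; simp
        rw [this, ← qdE_one, ← Nat.cast_smul_eq_nsmul (ZMod p)]; simp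
      · clear e
        induction g using Classical.SL_transvection_induction with
        | h1 => simp
        | htransvec i j h c =>
          apply hs
          have : ∀ m : ℕ, SpecialLinearGroup.transvection h c ^ m =
              SpecialLinearGroup.transvection h (m * c) := by
            intro m
            induction m with
            | zero => simp
            | succ m ih => rw [pow_succ, ih, ← SpecialLinearGroup.transvection_add]; congr 1; push_cast; ring
          rw [← map_pow, this]; simp
        | hmul A B hA hB => rw [map_mul, map_mul]; exact mul_mem hA hB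
    exact ⟨_, ⟨(MonoidHom.ofInjective (f := ψ.codRestrict _ hall)
      (fun a b h => hψ (congrArg Subtype.val h))).symm⟩⟩

end Cfsg.Agent.S3835
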