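import Cfsg.Statements.S3836
import Cfsg.Agent.BG.Base6

set_option autoImplicit false
open Cfsg

namespace Cfsg.Agent.S3836

open Cfsg.Agent.BG
open scoped commutatorElement

/-- Let G be a finite group that is p-stable in the normalizer form: for every p-subgroup Q and every x ∈ N_G(Q) with [Q, x, x] = 1, the image of x in N_G(Q)/C_G(Q) lies in O_p(N_G(Q)/C_G(Q)). Then every subgroup of G is p-stable in the same sense. -/
theorem result {G : Type*} [Group G] [Finite G] {p : ℕ} [Fact p.Prime] (hst : Cfsg.IsNormalizerPStable p G) (H : Subgroup G) : Cfsg.IsNormalizerPStable p ↥H := by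
  intro P hP g hg hq
  have hi := H.subtype_injective
  have hg' : (g : G) ∈ N[P.map H.subtype] := by
    have : Subgroup.zpowers g ≤ N[P] := by simpa using hg
    have := norms_map H.subtype this
    rw [MonoidHom.map_zpowers] at this
    simpa using this
  have h1 := hst (P.map H.subtype) (hP.map _) g hg' (by
    have := congrArg (Subgroup.map H.subtype) hq
    rwa [Subgroup.map_commutator, Subgroup.map_commutator, MonoidHom.map_zpowers, Subgroup.map_bot] at this)
  let φ : N[P] →* N[P.map H.subtype] :=
    (H.subtype.comp N[P].subtype).codRestrict _ fun x =>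
      norms_map H.subtype (le_refl N[P]) (Subgroup.mem_map_of_mem _ x.2)
  have hk : ∀ x : N[P], x ∈ C[P].subgroupOf N[P] ↔ φ x ∈ C[P.map H.subtype].subgroupOf N[P.map H.subtype] := by
    intro x
    rw [Subgroup.mem_subgroupOf, Subgroup.mem_subgroupOf, mem_cent, mem_cent]
    constructor
    · rintro h _ ⟨a, ha, rfl⟩
      exact congrArg Subtype.val (h a ha)
    · intro h a ha
      exact Subtype.ext (h a ⟨a, ha, rfl⟩)
  let ψ := QuotientGroup.map (C[P].subgroupOf N[P])
    (C[P.map H.subtype].subgroupOf N[P.map H.subtype]) φ fun x hx => (hk x).1 hx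
  have hψ : Function.Injective ψ := by
    rw [injective_iff_map_eq_one]
    intro y hy
    obtain ⟨x, rfl⟩ := QuotientGroup.mk_surjective y
    rw [QuotientGroup.eq_one_iff]
    exact (hk x).2 ((QuotientGroup.eq_one_iff _).1 hy)
  have h2 : (pCore p _).comap ψ ≤ pCore p _ := by
    rw [← Op_top (G := N[P] ⧸ _)]
    refine pcore_max (normal_top_iff.2 ?_) (BG.IsPGroup.pi ?_)
    · rw [← Op_top]; exact (pcore_normal _ _).normal.comap ψ
    · rw [← Op_top]; exact (Op_pgroup p _).comap_of_injective ψ hψ
  exact h2 h1

end Cfsg.Agent.S3836
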