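import Cfsg.Statements.S3838
import Cfsg.Agent.FTC.Tate
import Cfsg.Agent.Transfer.Alperin

set_option autoImplicit false
open Cfsg

namespace Cfsg.Agent.S3838

open Subgroup
open scoped Pointwise commutatorElement

theorem tate_in {G : Type*} [Group G] [Finite G] {p : ℕ} [Fact p.Prime] {T H : Subgroup G}
    (hT : Transfer.IsSylowIn p T H)
    (h : ∀ x ∈ T, ∀ g ∈ H, g * x * g⁻¹ ∈ T → x⁻¹ * (g * x * g⁻¹) ∈ (frattini T).map T.subtype) :
    HasNormalPComplement p H := by
  refine FTC.hasNormalPComplement_of_fusion_frattini hT.toSylow fun x hx g hg => ?_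
  obtain ⟨y, hy, e⟩ := h x hx g g.2 hg
  let f := (subgroupOfEquivOfLe hT.le).symm
  exact ⟨f y, frattini_le_comap_frattini_of_surjective (φ := f.toMonoidHom) f.surjective hy, Subtype.ext e⟩

/-- Let G be a finite group with Sylow p-subgroup P such that N_G(P) has a normal p-complement. Then N_G(Q) has a normal p-complement for every subgroup Q with [P, P] ≤ Q ≤ Φ(P). -/
theorem result {G : Type*} [Group G] [Finite G] {p : ℕ} [Fact p.Prime] (P : Sylow p G) (hN : Cfsg.HasNormalPComplement p ↥(Subgroup.normalizer ((P : Subgroup G) : Set G))) (Q : Subgroup G) (h1 : (commutator ↥(P : Subgroup G)).map (P : Subgroup G).subtype ≤ Q) (h2 : Q ≤ (frattini ↥(P : Subgroup G)).map (P : Subgroup G).subtype) : Cfsg.HasNormalPComplement p ↥(Subgroup.normalizer (Q : Set G)) := by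
  rw [map_subtype_commutator] at h1
  have hQP : Q ≤ P := h2.trans (map_subtype_le _)
  have hPQ : (P : Subgroup G) ≤ normalizer (Q : Set G) :=
    le_normalizer_iff_commutator_le_left.2 ((commutator_mono hQP le_rfl).trans h1)
  refine tate_in (Transfer.isSylowIn_of_sylow_le P hPQ) fun x hx g hg hy => h2 ?_
  set y := g * x * g⁻¹ with hydef
  let K : Subgroup G :=
    { carrier := {h | h ∈ normalizer (Q : Set G) ∧ h * y * h⁻¹ * y⁻¹ ∈ Q}
      mul_mem' := fun {a b} ha hb => ⟨mul_mem ha.1 hb.1, by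
        convert mul_mem ((mem_normalizer_iff.1 ha.1 _).1 hb.2) ha.2 using 1; group⟩
      one_mem' := ⟨one_mem _, by simp⟩
      inv_mem' := fun {a} ha => ⟨inv_mem ha.1, by
        convert (mem_normalizer_iff.1 (inv_mem ha.1) _).1 (inv_mem ha.2) using 1; group⟩ }
  obtain ⟨k, hk, hn⟩ := Transfer.exists_mul_normalizer_of_le P (H := K) (g := g)
    (fun a ha => ⟨hPQ ha, h1 (commutator_mem_commutator ha hy)⟩)
    (Transfer.conj_smul_le_iff.2 fun a ha => ⟨mul_mem (mul_mem hg (hPQ ha)) (inv_mem hg), by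
      convert (mem_normalizer_iff.1 hg _).1 (h1 (commutator_mem_commutator ha hx)) using 1
      rw [hydef, commutatorElement_def]; group⟩)
  obtain ⟨z, hz, hz'⟩ := Transfer.exists_sylow_conj_eq_of_hasNormalPComplement hN (P.subtype le_normalizer) ⟨_, hn⟩
  have h3 : k * g * x * (k * g)⁻¹ = z * x * (z : G)⁻¹ := congrArg Subtype.val
    (hz' ⟨x, le_normalizer hx⟩ hx ((mem_normalizer_iff.1 hn x).1 hx))
  have h4 : (z : G) * x * (z : G)⁻¹ * x⁻¹ ∈ Q := h1 (commutator_mem_commutator hz hx)
  have h5 := (mem_normalizer_iff.1 (hPQ (inv_mem hx)) _).1 (mul_mem (inv_mem hk.2) h4)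
  convert h5 using 1
  rw [← h3, hydef]; group

end Cfsg.Agent.S3838
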