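import Cfsg.Statements.S3839
import Cfsg.Agent.FTC.HSub

set_option autoImplicit false
open Cfsg

namespace Cfsg.Agent.S3839

open Subgroup
open scoped Pointwise commutatorElement

theorem mul_pow_mem {G : Type*} [Group G] {K : Subgroup G} {k a : G} (hk : k ∈ K) (ha : a ∈ normalizer (K : Set G))
    (n : ℕ) : (k * a) ^ n * (a ^ n)⁻¹ ∈ K := by
  induction n with
  | zero => simp
  | succ n ih =>
    convert mul_mem hk ((mem_normalizer_iff.1 ha _).1 ih) using 1
    rw [pow_succ', pow_succ']; group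

theorem mem_of_mul {G : Type*} [Group G] {p n : ℕ} {K : Subgroup G} {k a : G} (hk : k ∈ K)
    (ha : a ∈ normalizer (K : Set G)) (hn : a ^ p ^ n ∈ K) (hc : (orderOf (k * a)).Coprime p) : k * a ∈ K := by
  have h1 := mul_mem (mul_pow_mem hk ha (p ^ n)) hn
  rw [inv_mul_cancel_right] at h1
  obtain ⟨m, hm⟩ := exists_pow_eq_self_of_coprime (hc.pow_right n).symm
  exact hm ▸ pow_mem h1 m

/-- A Frobenius normal p-complement criterion relative to a strongly closed subgroup. Let G be a finite group, S a Sylow p-subgroup and D a subgroup of S strongly closed in S with respect to G. Then G has a normal p-complement if and only if N_G(U) has a normal p-complement for every subgroup U of D with C_D(U) ≤ U. -/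
theorem result {G : Type*} [Group G] [Finite G] {p : ℕ} [Fact p.Prime] (S : Sylow p G) (D : Subgroup G) (hD : Cfsg.IsStronglyClosed D (S : Subgroup G)) : Cfsg.HasNormalPComplement p G ↔ ∀ U : Subgroup G, U ≤ D → D ⊓ Subgroup.centralizer (U : Set G) ≤ U → Cfsg.HasNormalPComplement p ↥(Subgroup.normalizer (U : Set G)) := by
  refine ⟨fun h U _ _ => Transfer.hasNormalPComplement_subgroup h _, fun h => ?_⟩
  suffices ∀ Q : Subgroup G, IsPGroup p Q → ∀ g ∈ normalizer (Q : Set G), (orderOf g).Coprime p →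
      g ∈ centralizer (Q : Set G) from Transfer.hasNormalPComplement_of_forall_isPGroup fun Q hQ _ => this Q hQ
  intro Q0
  induction Q0 using Transfer.subgroup_induction_gt with
  | _ Q0 ih =>
  intro hQ0
  obtain ⟨w, hw⟩ := Transfer.exists_fullyNormalized_conj S hQ0
  rw [← Transfer.card_conj_smul w Q0] at ih
  suffices ∀ g ∈ normalizer ((MulAut.conj w • Q0 : Subgroup G) : Set G), (orderOf g).Coprime p →
      g ∈ centralizer ((MulAut.conj w • Q0 : Subgroup G) : Set G) by
    intro g hg hc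
    rw [← Transfer.conj_smul_normalizer, ← Transfer.conj_smul_centralizer] at this
    exact Transfer.conj_mem_conj_smul.1 (this _ (Transfer.conj_mem_conj_smul.2 hg)
      (by rwa [← MulAut.conj_apply, MulEquiv.orderOf_eq]))
  generalize MulAut.conj w • Q0 = Q at hw ih
  have hQ : IsPGroup p Q := S.isPGroup'.to_le hw.1
  have hNU := FTC.le_normalizer_inf_of_sc hD hw.1
  set U := D ⊓ Q with hU
  intro g hg hc
  by_cases hX : D ⊓ centralizer (U : Set G) ≤ U
  · exact Transfer.mem_centralizer_of_hasNormalPComplement_normalizer hQ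
      (Transfer.hasNormalPComplement_of_le (h U inf_le_left hX) hNU) hg hc
  have hSD : (S : Subgroup G) ≤ normalizer (D : Set G) := by
    have := FTC.le_normalizer_inf_of_sc hD le_rfl
    rw [inf_eq_left.2 hD.1] at this
    exact le_normalizer.trans this
  set X := D ⊓ centralizer (U : Set G) with hXdef
  have hXS : X ≤ S := inf_le_left.trans hD.1
  have hQX : Q ≤ normalizer (X : Set G) :=
    Solv.le_normalizer_inf (hw.1.trans hSD) (Solv.le_normalizer_centralizer (le_normalizer.trans hNU))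
  have hlt : Q < X ⊔ Q := lt_of_le_of_ne le_sup_right fun e => hX (le_inf inf_le_left (le_sup_left.trans e.ge))
  obtain ⟨x0, hx0, hx0'⟩ := SetLike.exists_of_lt
    (Transfer.lt_inf_normalizer_of_isPGroup (S.isPGroup'.to_le (sup_le hXS hw.1)) hlt)
  obtain ⟨x, hx, a, ha, rfl⟩ := (Solv.mem_sup_left_of_le_normalizer hQX).1 hx0.1
  have hxN : x ∈ normalizer (Q : Set G) := by
    simpa using (normalizer (Q : Set G)).mul_mem hx0.2 (inv_mem (le_normalizer ha))
  have hxQ : x ∉ Q := fun e => hx0' (mul_mem e ha)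
  let K : Subgroup G :=
    { carrier := {h | h ∈ normalizer (Q : Set G) ∧ h ∈ centralizer (U : Set G) ∧ ∀ q ∈ Q, q * h * q⁻¹ * h⁻¹ ∈ U}
      mul_mem' := fun {a b} ha hb => ⟨mul_mem ha.1 hb.1, mul_mem ha.2.1 hb.2.1, fun q hq => by
        convert mul_mem (ha.2.2 q hq) ((mem_normalizer_iff.1 (hNU ha.1) _).1 (hb.2.2 q hq)) using 1; group⟩
      one_mem' := ⟨one_mem _, one_mem _, by simp⟩
      inv_mem' := fun {a} ha => ⟨inv_mem ha.1, inv_mem ha.2.1, fun q hq => by
        convert (mem_normalizer_iff.1 (hNU (inv_mem ha.1)) _).1 (inv_mem (ha.2.2 q hq)) using 1; group⟩ }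
  have hKN : K ≤ normalizer (Q : Set G) := fun _ h => h.1
  have hNK : normalizer (Q : Set G) ≤ normalizer (K : Set G) := fun n hn =>
    Transfer.mem_normalizer_of_conj_smul_le (Transfer.conj_smul_le_iff.2 fun k hk =>
      ⟨mul_mem (mul_mem hn hk.1) (inv_mem hn),
        (mem_normalizer_iff.1 (Solv.normalizer_le_normalizer_centralizer _ (hNU hn)) _).1 hk.2.1, fun q hq => by
        convert (mem_normalizer_iff.1 (hNU hn) _).1 (hk.2.2 _ ((mem_normalizer_iff.1 (inv_mem hn) _).1 hq)) using 1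
        group⟩)
  have hL := hw.2.inf_of_le_normalizer (sup_le hKN le_normalizer) (Solv.le_normalizer_sup hNK le_rfl)
  set T := ((S : Subgroup G) ⊓ normalizer (Q : Set G)) ⊓ (K ⊔ Q) with hT
  have hQT : Q ≤ T := le_inf (le_inf hw.1 le_normalizer) le_sup_right
  have hxT : x ∈ T := ⟨⟨hXS hx, hxN⟩, mem_sup_left ⟨hxN, hx.2, fun q hq =>
    ⟨D.mul_mem ((mem_normalizer_iff.1 (hSD (hw.1 hq)) _).1 hx.1) (D.inv_mem hx.1), by
      have := mul_mem hq ((mem_normalizer_iff.1 hxN _).1 (inv_mem hq))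
      rwa [← mul_assoc, ← mul_assoc] at this⟩⟩⟩
  have hlt' : Q < T := lt_of_le_of_ne hQT fun e => hxQ (e ▸ hxT)
  have hNL := Solv.le_normalizer_sup hNK (le_refl (normalizer (Q : Set G)))
  obtain ⟨l, hl, n, hn, rfl⟩ := hL.frattini (hNL hg)
  have hnQ : n ∈ normalizer (Q : Set G) := by
    simpa using mul_mem (inv_mem (sup_le hKN le_normalizer hl)) hg
  obtain ⟨j, hj⟩ := Transfer.exists_coprime_orderOf_pow (p := p) n (orderOf_pos n).ne'
  have h1 : n ^ p ^ j ∈ centralizer (Q : Set G) :=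
    centralizer_le hQT (ih T (Transfer.card_lt_of_lt hlt') hL.isPGroup _ (pow_mem hn _) hj)
  have h2 : l * n ∈ K ⊔ Q := mem_of_mul hl (hNL hnQ) (mem_sup_left ⟨pow_mem hnQ _, centralizer_le inf_le_right h1,
    fun q hq => by rw [h1 q hq]; simp⟩) hc
  obtain ⟨k, hk, b, hb, e⟩ := (Solv.mem_sup_left_of_le_normalizer (le_normalizer.trans hNK)).1 h2
  rw [← e] at hc ⊢
  obtain ⟨m, hm⟩ := hQ ⟨b, hb⟩
  have h3 : k * b ∈ K := mem_of_mul hk (hNK (le_normalizer hb)) (n := m)
    (by rw [show b ^ p ^ m = 1 from congrArg Subtype.val hm]; exact one_mem _) hc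
  have h4 := zpowers_le_of_mem h3
  obtain ⟨i, hi⟩ := (hQ.to_le (inf_le_right : U ≤ Q)).exists_card_eq
  exact le_centralizer_iff.1 (Solv.le_centralizer_of_commutator_le (A := zpowers (k * b)) (N := U)
    (by rw [hi, Nat.card_zpowers]; exact hc.pow_right i) (le_centralizer_iff.1 fun z hz => (h4 hz).2.1)
    (commutator_le.2 fun q hq z hz => (h4 hz).2.2 q hq)) (mem_zpowers _)

end Cfsg.Agent.S3839
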