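import Cfsg.Statements.S3857
import Cfsg.Agent.FG.PrimeGraph

set_option autoImplicit false
open Cfsg

namespace Cfsg.Agent.S3857

open Cfsg.Agent.BG Cfsg.Agent.FG Subgroup

/-- A finite solvable group whose prime graph (prime divisors of the order, two distinct primes joined when there is an element of order their product) is disconnected is a Frobenius group or a 2-Frobenius group (it has normal subgroups H < K with K a Frobenius group with kernel H and G/H a Frobenius group with kernel K/H). -/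
theorem result {G : Type*} [Group G] [Finite G] (hsol : Group.IsSolvable G)
    (hdisc : (∃ A : Set ℕ, (∃ a ∈ A, a.Prime ∧ a ∣ Nat.card G) ∧ (∃ b ∉ A, b.Prime ∧ b ∣ Nat.card G) ∧
      ∀ a ∈ A, ∀ b ∉ A, a.Prime → b.Prime → a ∣ Nat.card G → b ∣ Nat.card G → ¬ ∃ g : G, orderOf g = a * b)) :
    (∃ C : Subgroup G, Cfsg.IsFrobeniusComplement C) ∨
    (∃ (H K : Subgroup G) (_ : H.Normal), K.Normal ∧ H < K ∧
      (∃ C : Subgroup ↥K, Cfsg.IsFrobeniusComplement C ∧ Cfsg.frobeniusKernel C = (H.subgroupOf K : Set ↥K)) ∧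
      (∃ C : Subgroup (G ⧸ H), Cfsg.IsFrobeniusComplement C ∧ Cfsg.frobeniusKernel C = (K.map (QuotientGroup.mk' H) : Set (G ⧸ H)))) := by
  obtain ⟨A, ⟨a, h1, ha, h2⟩, ⟨b, h3, hb, h4⟩, h5⟩ := hdisc
  have h6 : FG.Sep A (⊤ : Subgroup G) := sep_of_orderOf fun a b ha hb e1 e2 e3 e4 g _ e =>
    h5 a e1 b e2 ha hb (card_top (G := G) ▸ e3) (card_top (G := G) ▸ e4) ⟨g, e⟩
  rw [← card_top] at h2 h4
  obtain ⟨π, h7, h8, h9⟩ : ∃ π, FG.Sep π (⊤ : Subgroup G) ∧ PiGrp π (fittingOf (⊤ : Subgroup G)) ∧ ¬ PiGrp π (⊤ : Subgroup G) :=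
    (h6.of_nil le_top (Fitting_nil ⊤)).elim (fun h => ⟨A, h6, h, fun h => h3 (h b hb h4)⟩)
      fun h => ⟨Aᶜ, h6.compl, h, fun h => h a ha h2 h1⟩
  obtain ⟨B, h, -⟩ | ⟨B, C, h, -⟩ := h7.frob_or_twoFrob (solvable_of _) h8 h9
  · exact .inl ⟨B, (isFC_of_frob h).1⟩
  · haveI := h.sd.normal.normal
    exact .inr ⟨_, _, this, twoFrob_iff.2 ⟨B, C, h, rfl⟩⟩

end Cfsg.Agent.S3857
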