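import Cfsg.Statements.S3859
import Cfsg.Agent.BG.Base6

set_option autoImplicit false
open Cfsg

namespace Cfsg.Agent.S3859

open Cfsg.Agent.BG

theorem norm_ne_top {G : Type*} [Group G] [Finite G] (T : Subgroup G) [T.Normal] (hT : IsSimpleGroup T)
    (hna : ¬ IsMulCommutative T) {r : ℕ} [Fact r.Prime] (R : Sylow r G) (hR0 : (R : Subgroup G) ⊓ T ≠ ⊥) :
    N[(T ⊓ (R : Subgroup G) : Subgroup G)] ≠ ⊤ := by
  intro h
  have h1 : T ⊓ (R : Subgroup G) ⊴ T := ⟨inf_le_left, h ▸ le_top⟩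
  rcases hT.eq_bot_or_eq_top_of_normal _ h1.subgroupOf with e | e
  · apply hR0
    rw [inf_comm, ← card_eq_one_iff, ← card_subgroupOf (M := T) inf_le_left, e, Subgroup.card_bot]
  · have hTR : T ≤ R := (Subgroup.subgroupOf_eq_top.1 e).trans inf_le_right
    have hp : IsPGroup r T := BG.IsPGroup.sub R.isPGroup' hTR
    haveI := hp.isNilpotent
    exact hna ⟨⟨IsSimpleGroup.comm_iff_isSolvable.2 inferInstance⟩⟩

/-- Let G be a finite group with a normal non-abelian simple subgroup T whose centralizer is trivial (G almost simple with socle T), r a prime and R a Sylow r-subgroup of G meeting T nontrivially. If R lies in exactly one maximal subgroup of G, then G/T is an r-group. -/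
theorem result {G : Type*} [Group G] [Finite G] (T : Subgroup G) [T.Normal] (hT : IsSimpleGroup T) (hna : ¬ IsMulCommutative T)
    (hC : Subgroup.centralizer (T : Set G) = ⊥) {r : ℕ} [Fact r.Prime] (R : Sylow r G) (hR0 : (R : Subgroup G) ⊓ T ≠ ⊥)
    (huniq : ∃! M : Subgroup G, IsCoatom M ∧ (R : Subgroup G) ≤ M) : IsPGroup r (G ⧸ T) := by
  obtain ⟨M, ⟨hM, hRM⟩, hu⟩ := huniq
  have hle : ∀ X : Subgroup G, X ≠ ⊤ → (R : Subgroup G) ≤ X → X ≤ M := fun X hX hRX => by
    obtain ⟨L, hL, hXL⟩ := (eq_top_or_exists_le_coatom X).resolve_left hX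
    exact hu L ⟨hL, hRX.trans hXL⟩ ▸ hXL
  have hTn : T ⊴ ⊤ := normal_top T
  have hTR : T ⊔ (R : Subgroup G) = ⊤ := by
    by_contra hne
    have h1 := hle _ hne le_sup_right
    have h2 := hle _ (norm_ne_top T hT hna R hR0) (normsI (le_top.trans hTn.2) (normG _))
    have h3 := Frattini_arg hTn (Sylow_setI_normal hTn (sylowIn_top R))
    exact hM.1 (top_le_iff.1 (h3 ▸ sup_le (le_sup_left.trans h1) (inf_le_right.trans h2)))
  refine R.isPGroup'.of_surjective ((QuotientGroup.mk' T).comp (R : Subgroup G).subtype) ?_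
  intro y
  obtain ⟨g, rfl⟩ := QuotientGroup.mk'_surjective T y
  obtain ⟨t, ht, x, hx, rfl⟩ := (mem_sup_norml (le_top.trans hTn.2)).1 (hTR ▸ trivial : g ∈ T ⊔ R)
  refine ⟨⟨x, hx⟩, ?_⟩
  simp [(QuotientGroup.eq_one_iff t).2 ht]

end Cfsg.Agent.S3859
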