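import Cfsg.Statements.S3858
import Cfsg.Agent.S3859

set_option autoImplicit false
open Cfsg

namespace Cfsg.Agent.S3858

open Cfsg.Agent.BG

/-- Let G be a finite group with a normal non-abelian simple subgroup T whose centralizer is trivial (G almost simple with socle T), r a prime and R a Sylow r-subgroup of G meeting T nontrivially. Then R lies in exactly one maximal subgroup of G if and only if G has exactly one conjugacy class of maximal subgroups whose index is prime to r. -/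
theorem result {G : Type*} [Group G] [Finite G] (T : Subgroup G) [T.Normal] (hT : IsSimpleGroup T) (hna : ¬ IsMulCommutative T)
    (hC : Subgroup.centralizer (T : Set G) = ⊥) {r : ℕ} [Fact r.Prime] (R : Sylow r G) (hR0 : (R : Subgroup G) ⊓ T ≠ ⊥) :
    (∃! M : Subgroup G, IsCoatom M ∧ (R : Subgroup G) ≤ M) ↔
      ((∃ M : Subgroup G, IsCoatom M ∧ ¬ r ∣ M.index) ∧
        ∀ M₁ M₂ : Subgroup G, IsCoatom M₁ → ¬ r ∣ M₁.index → IsCoatom M₂ → ¬ r ∣ M₂.index → ∃ g : G, M₂ = M₁.map (MulAut.conj g).toMonoidHom) := by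
  have hS := sylowIn_top R
  have hidx : ∀ M : Subgroup G, (R : Subgroup G) ≤ M → ¬ r ∣ M.index := fun M h hd =>
    R.not_dvd_index (hd.trans (Subgroup.index_dvd_of_le h))
  have hcj : ∀ M : Subgroup G, ¬ r ∣ M.index → ∃ g, (R : Subgroup G) ≤ cj g M := fun M h => by
    obtain ⟨P, hP⟩ := Sylow_exists r M
    have hP' : SylowIn r P ⊤ := pHall_trans_idx hP le_top
      ((p'natE Fact.out).2 (by rwa [Subgroup.relIndex_top_right]))
    obtain ⟨g, -, e⟩ := Sylow_trans hP' hS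
    exact ⟨g, e ▸ cj_mono g hP.le⟩
  constructor
  · rintro ⟨M, ⟨hM, hRM⟩, hu⟩
    refine ⟨⟨M, hM, hidx M hRM⟩, fun M₁ M₂ h1 h1' h2 h2' => ?_⟩
    obtain ⟨g, hg⟩ := hcj M₁ h1'
    obtain ⟨k, hk⟩ := hcj M₂ h2'
    refine ⟨k⁻¹ * g, ?_⟩
    change M₂ = cj _ M₁
    rw [cj_mul, hu _ ⟨isCoatom_cj g h1, hg⟩, ← hu _ ⟨isCoatom_cj k h2, hk⟩, cj_inv_cj]
  · rintro ⟨⟨M, hM, hMi⟩, hu⟩
    change ∀ M₁ M₂ : Subgroup G, IsCoatom M₁ → ¬ r ∣ M₁.index → IsCoatom M₂ → ¬ r ∣ M₂.index →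
      ∃ g : G, M₂ = cj g M₁ at hu
    obtain ⟨g, hg⟩ := hcj M hMi
    have hTn : T ⊴ ⊤ := normal_top T
    obtain ⟨L, hL, hNL⟩ := (eq_top_or_exists_le_coatom _).resolve_left
      (S3859.norm_ne_top T hT hna R hR0)
    have hRL : N[(R : Subgroup G)] ≤ L := (normsI (le_top.trans hTn.2) le_rfl).trans hNL
    have key : ∀ M₁ M₂ : Subgroup G, IsCoatom M₁ → N[(R : Subgroup G)] ≤ M₁ → IsCoatom M₂ →
        (R : Subgroup G) ≤ M₂ → M₂ = M₁ := fun M₁ M₂ h1 h1' h2 h2' => by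
      obtain ⟨k, rfl⟩ := hu M₁ M₂ h1 (hidx _ ((normG _).trans h1')) h2 (hidx _ h2')
      obtain ⟨m, hm, e⟩ := Sylow_trans (pHall_subl ((normG _).trans h1') le_top hS)
        (pHall_subl (le_cj_iff.1 h2') le_top (pHallJsub (Subgroup.mem_top k⁻¹) hS))
      have : k * m ∈ N[(R : Subgroup G)] := by rw [mem_norm, cj_mul, ← e, cj_cj_inv]
      exact cj_of_mem ((Subgroup.mul_mem_cancel_right _ hm).1 (h1' this))
    exact ⟨L, ⟨hL, (normG _).trans hRL⟩, fun M₂ h => key L M₂ hL hRL h.1 h.2⟩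

end Cfsg.Agent.S3858
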