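import Cfsg.Statements.S3861
import Cfsg.Agent.S0199
import Cfsg.Agent.Loc.PGrp
import Cfsg.Agent.Loc.Res

set_option autoImplicit false
open Cfsg

namespace Cfsg.Agent.S3861

open Subgroup Cfsg.Agent.Loc in
theorem quot {G : Type*} [Group G] [Finite G] (h : ∀ x : G, x ≠ 1 → Odd (orderOf x) → ¬ IsConj x x⁻¹)
    (N : Subgroup G) [N.Normal] (hN : IsPGroup 2 N) (x : G ⧸ N) (h1 : x ≠ 1) (h2 : Odd (orderOf x)) :
    ¬ IsConj x x⁻¹ := by
  intro h3
  obtain ⟨g, hg⟩ := isConj_iff.1 h3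
  obtain ⟨q, hq, hd⟩ := Nat.exists_prime_and_dvd (n := orderOf x) (by rwa [Ne, orderOf_eq_one_iff])
  haveI := Fact.mk hq
  have hq2 : q ≠ 2 := by rintro rfl; exact (Nat.not_even_iff_odd.2 h2) (even_iff_two_dvd.2 hd)
  have e1 : orderOf (x ^ (orderOf x / q)) = q := orderOf_pow_orderOf_div (orderOf_pos x).ne' hd
  have e2 : g * x ^ (orderOf x / q) * g⁻¹ = (x ^ (orderOf x / q))⁻¹ := by rw [← conj_pow, hg, inv_pow]
  generalize x ^ (orderOf x / q) = y at e1 e2
  have hy : IsPGroup q (zpowers y) := isPGroup_zpowers_of_orderOf (k := 1) (by rw [e1, pow_one])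
  obtain ⟨T, hT⟩ := exists_sylIn q ((zpowers y).comap (QuotientGroup.mk' N))
  have hT' := hT.map (QuotientGroup.mk' N)
  rw [map_comap_eq_self_of_surjective (QuotientGroup.mk'_surjective N)] at hT'
  obtain ⟨z, hz, rfl⟩ : y ∈ T.map (QuotientGroup.mk' N) := by rw [hT'.eq_of_isPGroup hy]; exact mem_zpowers y
  obtain ⟨g, rfl⟩ := QuotientGroup.mk'_surjective N g
  obtain ⟨k, hk, n, hn, rfl⟩ := hT.frattini' (g := g) (by
    rw [mem_normalizer_iff_cj, ← comap_cj, cj_zpowers, e2, zpowers_inv])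
  obtain ⟨i, hi⟩ := hn
  have e3 : QuotientGroup.mk' N (k * z * k⁻¹ * z) = 1 := by
    simp only [map_mul, map_inv] at e2 ⊢
    rw [← hi] at e2
    have hc : Commute (QuotientGroup.mk' N z ^ i) (QuotientGroup.mk' N z) := Commute.zpow_left rfl i
    rw [mul_inv_rev, mul_assoc _ (_ ^ i), hc.eq] at e2
    rw [← eq_inv_iff_mul_eq_one, ← e2]
    group
  have e4 : k * z * k⁻¹ * z ∈ T ⊓ N := ⟨T.mul_mem (conj_mem_of_mem_normalizer hk hz) hz,
    (QuotientGroup.eq_one_iff _).1 e3⟩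
  rw [disjoint_iff.1 (IsPGroup.disjoint_of_ne q 2 hq2 T N hT.pg hN), mem_bot] at e4
  obtain ⟨j, hj⟩ := exists_orderOf_of_isPGroup hT.pg hz
  refine h z (fun e => hq.one_lt.ne' (by rw [← e1, e, map_one, orderOf_one])) (hj ▸ (hq.odd_of_ne_two hq2).pow)
    (isConj_iff.2 ⟨k, eq_inv_of_mul_eq_one_left e4⟩)

open Subgroup Cfsg.Agent.Loc in
theorem mem_pCore {G : Type*} [Group G] [Finite G] (h : ∀ x : G, x ≠ 1 → Odd (orderOf x) → ¬ IsConj x x⁻¹)
    {t : G} (ht : t * t = 1) : t ∈ pCore 2 G := by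
  suffices hh : ∀ g, IsPGroup 2 (zpowers t ⊔ cj g (zpowers t) : Subgroup G) by
    obtain ⟨N, h1, h2, h3⟩ := S0199.result (p := 2) (zpowers t)
      (isPGroup_zpowers_of_pow (k := 1) (by rw [pow_one, pow_two, ht])) hh
    exact le_pCore h1 h2 (h3 (mem_zpowers t))
  intro g
  have hu : (g * t * g⁻¹) * (g * t * g⁻¹) = 1 := by
    calc (g * t * g⁻¹) * (g * t * g⁻¹) = g * (t * t) * g⁻¹ := by group
      _ = 1 := by rw [ht]; group
  rw [cj_zpowers]
  generalize g * t * g⁻¹ = u at hu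
  have ti : t⁻¹ = t := inv_eq_of_mul_eq_one_right ht
  have ui : u⁻¹ = u := inv_eq_of_mul_eq_one_right hu
  have e : t * (t * u) * t⁻¹ = (t * u)⁻¹ := by rw [← mul_assoc, ht, one_mul, mul_inv_rev, ui]
  obtain ⟨k, m, hm, hk⟩ := Nat.exists_eq_two_pow_mul_odd (orderOf_pos (t * u)).ne'
  have e1 : (t * u) ^ 2 ^ k = 1 := by
    by_contra hne
    refine h _ hne ?_ (isConj_iff.2 ⟨t, by rw [← conj_pow, e, inv_pow]⟩)
    rw [orderOf_pow_of_dvd (by positivity) (hk ▸ dvd_mul_right _ _), hk, Nat.mul_div_cancel_left _ (by positivity)]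
    exact hm
  have h1 : IsPGroup 2 (zpowers t ⊔ zpowers (t * u) : Subgroup G) :=
    IsPGroup.to_sup_of_normal_right' (isPGroup_zpowers_of_pow (k := 1) (by rw [pow_one, pow_two, ht]))
      (isPGroup_zpowers_of_pow e1) (zpowers_le.2 (by rw [mem_normalizer_iff_cj, cj_zpowers, e, zpowers_inv]))
  refine h1.to_le (sup_le le_sup_left (zpowers_le.2 ?_))
  have := mul_mem (mem_sup_left (mem_zpowers t)) (mem_sup_right (S := zpowers t) (mem_zpowers (t * u)))
  rwa [← mul_assoc, ht, one_mul] at this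

/-- A finite group G has no non-identity element of odd order that is conjugate to its inverse if and only if the Sylow 2-subgroups of G are normal. -/
theorem result {G : Type*} [Group G] [Finite G] (P : Sylow 2 G) : (∀ x : G, x ≠ 1 → Odd (orderOf x) → ¬ IsConj x x⁻¹) ↔ (P : Subgroup G).Normal := by
  open Subgroup Cfsg.Agent.Loc in
  constructor
  · intro h
    have h1 : P.1.map (QuotientGroup.mk' (pCore 2 G)) = ⊥ := by
      by_contra hne
      obtain ⟨t, -, h1, h2⟩ := exists_pow_eq_one_of_isPGroup (P.2.map _) hne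
      have := mem_pCore (quot h _ (isPGroup_pCore 2 G)) (t := t) (by rw [← pow_two, h2])
      rw [pCore_quotient_pCore, mem_bot] at this
      exact h1 this
    rw [Subgroup.map_eq_bot_iff, QuotientGroup.ker_mk'] at h1
    rw [le_antisymm h1 (pCore_le_sylow P)]
    exact pCore_normal' 2 G
  · intro hP x h1 h2 h3
    obtain ⟨g, hg⟩ := isConj_iff.1 h3
    have ho : Odd (P : Subgroup G).index := Nat.odd_iff.2 (Nat.two_dvd_ne_zero.1 P.not_dvd_index)
    obtain ⟨k, hk⟩ := ho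
    have e1 : ∀ n : ℕ, g ^ (2 * n + 1) * x * (g ^ (2 * n + 1))⁻¹ = x⁻¹ := fun n => by
      induction n with
      | zero => simpa using hg
      | succ n ih =>
        calc g ^ (2 * (n + 1) + 1) * x * (g ^ (2 * (n + 1) + 1))⁻¹
            = g * (g * (g ^ (2 * n + 1) * x * (g ^ (2 * n + 1))⁻¹) * g⁻¹) * g⁻¹ := by group
          _ = x⁻¹ := by rw [ih, ← conj_inv, hg, inv_inv, hg]
    have e2 : g ^ (2 * k + 1) ∈ (P : Subgroup G) := hk ▸ (P : Subgroup G).pow_index_mem g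
    have e3 : x ^ 2 ∈ (P : Subgroup G) := by
      have := mul_mem (hP.conj_mem _ e2 x) (inv_mem e2)
      rw [mul_assoc x, mul_assoc x, ← conj_inv, e1, inv_inv] at this
      rwa [pow_two]
    obtain ⟨j, hj⟩ := exists_pow_of_isPGroup P.2 e3
    rw [← pow_mul, ← pow_succ'] at hj
    exact h1 (Transfer.eq_one_of_pow_eq_one_of_coprime hj (Nat.coprime_two_right.2 h2))

end Cfsg.Agent.S3861
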