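import Cfsg.Statements.S3862
import Cfsg.Agent.Gen2.MinInv

set_option autoImplicit false
open Cfsg

namespace Cfsg.Agent.S3862

/-- If every 2-element of the finite group G that is conjugate to its inverse lies in the centre of G, then G has a normal 2-complement. -/
theorem result {G : Type*} [Group G] [Finite G] (h : ∀ x : G, (∃ j : ℕ, orderOf x = 2 ^ j) → IsConj x x⁻¹ → x ∈ Subgroup.center G) : Cfsg.HasNormalPComplement 2 G := by
  exact Gen2.npc_of_real fun x g hx hr _ =>
    Subgroup.mem_center_iff.1 (h x (Gen2.pElt_iff.2 ⟨2, hx⟩) hr) g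

end Cfsg.Agent.S3862
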