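import Cfsg.Statements.S3863
import Cfsg.Agent.BG.Base6

set_option autoImplicit false
open Cfsg

namespace Cfsg.Agent.S3863

open Cfsg.Agent.BG

theorem exists_two {G : Type*} [Group G] [Finite G] (x : G) (hx : IsConj x x⁻¹) :
    ∃ t : G, (∃ j : ℕ, orderOf t = 2 ^ j) ∧ t * x * t⁻¹ = x⁻¹ := by
  obtain ⟨g, hg⟩ := isConj_iff.1 hx
  obtain ⟨j, m, hm, e⟩ := Nat.exists_eq_two_pow_mul_odd (orderOf_pos g).ne'
  refine ⟨g ^ m, ⟨j, ?_⟩, ?_⟩
  · rw [orderOf_pow' _ hm.pos.ne', e, Nat.gcd_mul_left_left, Nat.mul_div_cancel _ hm.pos]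
  · obtain ⟨k, rfl⟩ := hm
    have h2 : g * g * x * (g * g)⁻¹ = x := by
      have : g * g * x * (g * g)⁻¹ = g * (g * x * g⁻¹) * g⁻¹ := by group
      rw [this, hg, ← conj_inv, hg, inv_inv]
    have h3 : Commute ((g * g) ^ k) x := (show Commute (g * g) x from mul_inv_eq_iff_eq_mul.1 h2).pow_left k
    rw [pow_succ', pow_mul, sq, ← hg]
    calc g * (g * g) ^ k * x * (g * (g * g) ^ k)⁻¹ = g * ((g * g) ^ k * x) * ((g * g) ^ k)⁻¹ * g⁻¹ := by group
      _ = _ := by rw [h3.eq]; group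

/-- Let x be an element of the finite group G that is conjugate to its inverse. Then some 2-element conjugates x to its inverse; if the conjugacy class of x has odd size then x ^ 2 = 1; and x lies in, and is conjugate to its inverse inside, every normal subgroup of odd index. -/
theorem result {G : Type*} [Group G] [Finite G] (x : G) (hx : IsConj x x⁻¹) : (∃ t : G, (∃ j : ℕ, orderOf t = 2 ^ j) ∧ t * x * t⁻¹ = x⁻¹) ∧ (Odd (Subgroup.centralizer ({x} : Set G)).index → x ^ 2 = 1) ∧ ∀ (N : Subgroup G) [N.Normal], Odd N.index → ∃ hxN : x ∈ N, IsConj (⟨x, hxN⟩ : N) (⟨x, hxN⟩ : N)⁻¹ := by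
  obtain ⟨t, ⟨j, hj⟩, ht⟩ := exists_two x hx
  have htp : PiGrp {2} (Subgroup.zpowers t) := p_elt_zpowers.2 (by
    change PiNat _ _; rw [hj]; exact pnat_pow_self Nat.prime_two j)
  refine ⟨⟨t, ⟨j, hj⟩, ht⟩, fun ho => ?_, fun N _ hN => ?_⟩
  · have hn : t ∈ N[C1[x]] := by
      rw [mem_norm, ← C1_conj, ht, ← C_zpowers, Subgroup.zpowers_inv, C_zpowers]
    have hn' : Subgroup.zpowers t ≤ N[C1[x]] := by simpa using hn
    have h1 : C1[x].relIndex (Subgroup.zpowers t) = 1 := by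
      refine pnat_1 (π := {2}) (htp.of_dvd (Dvd.intro_left _ (card_inf_mul_relIndex _ _))) ?_
      rw [← relIndex_sup_normr hn']
      exact (pnat_odd.2 ho).of_dvd (Subgroup.relIndex_dvd_index_of_le le_sup_right)
    have h2 : t * x = x * t := mem_cent1.1 (Subgroup.relIndex_eq_one.1 h1 (Subgroup.mem_zpowers t))
    rw [h2, mul_inv_cancel_right] at ht
    rw [sq]; nth_rewrite 1 [ht]; exact inv_mul_cancel x
  · have ho : ∀ y : G ⧸ N, Odd (orderOf y) := fun y => hN.of_dvd_nat (orderOf_dvd_natCard y)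
    have htN : t ∈ N := by
      rw [← QuotientGroup.eq_one_iff]
      refine p_elt_eq_one (π := {2}) ?_ (pnat_odd.2 (ho _))
      exact (p_elt_zpowers.1 htp).of_dvd (orderOf_map_dvd (QuotientGroup.mk' N) t)
    have hxN : x ∈ N := by
      rw [← QuotientGroup.eq_one_iff]
      refine p_elt_eq_one (π := {2}) ?_ (pnat_odd.2 (ho _))
      have := congrArg (QuotientGroup.mk (s := N)) ht
      simp only [QuotientGroup.mk_mul, QuotientGroup.mk_inv, (QuotientGroup.eq_one_iff t).2 htN,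
        one_mul, inv_one, mul_one] at this
      refine (pnat_pow_self Nat.prime_two 1).of_dvd (orderOf_dvd_of_pow_eq_one ?_)
      rw [pow_one, sq]; nth_rewrite 1 [this]; exact inv_mul_cancel _
    exact ⟨hxN, isConj_iff.2 ⟨⟨t, htN⟩, Subtype.ext ht⟩⟩

end Cfsg.Agent.S3863
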