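import Cfsg.Statements.S3867
import Cfsg.Agent.BG.Base6
import Cfsg.Agent.Gen2.SylowNum

set_option autoImplicit false
open Cfsg

namespace Cfsg.Agent.S3867

open Cfsg.Agent.BG

/-- Let M and N be nontrivial normal subgroups of the finite group G with M ⊓ N trivial, and let p be a prime. Writing n(X) for the number of Sylow p-subgroups of a group X, one has n(G) · n(G/MN) = n(G/M) · n(G/N). -/
theorem result {G : Type*} [Group G] [Finite G] (p : ℕ) [Fact p.Prime] (M N : Subgroup G) [M.Normal] [N.Normal] (hM : M ≠ ⊥) (hN : N ≠ ⊥) (hMN : M ⊓ N = ⊥) : Nat.card (Sylow p G) * Nat.card (Sylow p (G ⧸ (M ⊔ N))) = Nat.card (Sylow p (G ⧸ M)) * Nat.card (Sylow p (G ⧸ N)) := by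
  obtain ⟨P⟩ : Nonempty (Sylow p G) := inferInstance
  have hMn : M ⊴ ⊤ := normal_top M
  have hNn : N ⊴ ⊤ := normal_top N
  have hP := sylowIn_top P
  set H := N[(P : Subgroup G)] with hH
  have hPMN : ((P : Subgroup G) ⊔ M) ⊓ (P ⊔ N) ≤ P := by
    rw [inf_comm, group_modl (Or.inl (le_top.trans hMn.2)) le_sup_left]
    refine sup_le le_rfl ?_
    have hp : PiGrp {p} (((P : Subgroup G) ⊔ N) ⊓ M) := by
      have h1 : #((((P : Subgroup G) ⊔ N) ⊓ M : Subgroup G) /ᵍ N) = #(((P : Subgroup G) ⊔ N) ⊓ M : Subgroup G) :=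
        card_quotient_TI (le_top.trans hNn.2) (le_bot_iff.1 (hMN ▸ le_inf (inf_le_right.trans inf_le_right) inf_le_left))
      change PiNat _ _
      rw [← h1]
      refine pgroupS (quotientS N inf_le_left) ?_
      rw [quotientYidr (le_top.trans hNn.2)]
      exact quotient_pgroup N hP.pi
    exact sub_Hall_of_norm hP le_top hp
      (Or.inr (normsI (normsG le_sup_left) (le_top.trans hMn.2)))
  have hsplit : H ⊓ (M ⊔ N) = (H ⊓ M) ⊔ (H ⊓ N) := by
    refine le_antisymm ?_ (sup_le (inf_le_inf_left _ le_sup_left) (inf_le_inf_left _ le_sup_right))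
    rintro g ⟨hg, hg'⟩
    obtain ⟨m, hm, n, hn, rfl⟩ := (mem_sup_norml (le_top.trans hMn.2)).1 hg'
    have hnH : n ∈ H := by
      refine mem_norm_of_cj_le (le_trans (le_inf ?_ ?_) hPMN)
      · have : n = m⁻¹ * (m * n) := by group
        rw [this, cj_mul, cj_of_norm hg]
        exact cj_le_of_mem (Subgroup.mem_sup_right (inv_mem hm)) le_sup_left
      · exact cj_le_of_mem (Subgroup.mem_sup_right hn) le_sup_left
    exact mul_mem_sup' ⟨(Subgroup.mul_mem_cancel_right _ hnH).1 hg, hm⟩ ⟨hnH, hn⟩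
  have h1 : #(H ⊓ (M ⊔ N) : Subgroup G) = #(H ⊓ M : Subgroup G) * #(H ⊓ N : Subgroup G) := by
    rw [hsplit]
    exact card_sup_TI (Or.inl (normsI (normsG inf_le_left) (le_top.trans hNn.2)))
      (le_bot_iff.1 (hMN ▸ inf_le_inf inf_le_right inf_le_right))
  have h2 : #(M ⊔ N : Subgroup G) = #M * #N := card_sup_TI (Or.inl (le_top.trans hNn.2)) hMN
  have h3 : H.relIndex (M ⊔ N) = H.relIndex M * H.relIndex N := by
    have e1 := card_inf_mul_relIndex H (M ⊔ N)
    have e2 := card_inf_mul_relIndex H M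
    have e3 := card_inf_mul_relIndex H N
    rw [h1, h2, ← e2, ← e3] at e1
    have hpos := Nat.mul_pos (cardG_pos (H ⊓ M)) (cardG_pos (H ⊓ N))
    refine Nat.eq_of_mul_eq_mul_left hpos ?_
    rw [e1]; ring
  have e1 := Gen2.card_sylow_eq_mul P (M ⊔ N)
  have e2 := Gen2.card_sylow_eq_mul P M
  have e3 := Gen2.card_sylow_eq_mul P N
  rw [← hH] at e1 e2 e3
  have hpos := Nat.mul_pos (relIndex_pos H M) (relIndex_pos H N)
  refine Nat.eq_of_mul_eq_mul_right hpos ?_
  calc _ = Nat.card (Sylow p G) * (Nat.card (Sylow p (G ⧸ (M ⊔ N))) * H.relIndex (M ⊔ N)) := by rw [h3]; ring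
    _ = Nat.card (Sylow p G) * Nat.card (Sylow p G) := by rw [← e1]
    _ = _ := by nth_rewrite 1 [e2]; rw [e3]; ring

end Cfsg.Agent.S3867
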