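import Cfsg.Statements.S3878
import Cfsg.Agent.FG.HallSym4

set_option autoImplicit false
open Cfsg

namespace Cfsg.Agent.S3878

open Cfsg.Agent.FG.HS

/-- For a set of primes π the following are equivalent: every finite group has a Hall π-subgroup; in every finite group the maximal π-subgroups are pairwise conjugate; π contains at most one prime or contains every prime. -/
theorem result (π : Set ℕ) :
    ((∀ (G : Type) [Group G] [Finite G], Cfsg.IsEPiGroup π G) ↔
      ((∀ p q : ℕ, p.Prime → q.Prime → p ∈ π → q ∈ π → p = q) ∨ ∀ p : ℕ, p.Prime → p ∈ π)) ∧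
    ((∀ (G : Type) [Group G] [Finite G], Cfsg.IsDPiGroup π G) ↔
      ((∀ p q : ℕ, p.Prime → q.Prime → p ∈ π → q ∈ π → p = q) ∨ ∀ p : ℕ, p.Prime → p ∈ π)) := by
  have h1 : ((∀ p q : ℕ, p.Prime → q.Prime → p ∈ π → q ∈ π → p = q) ∨ ∀ p : ℕ, p.Prime → p ∈ π) →
      ∀ (G : Type) [Group G] [Finite G], Cfsg.IsDPiGroup π G := fun h G _ _ =>
    D_of_triv (h.imp (fun h r s a b c d _ _ => h r s a b c d) fun h r a _ => h r a)
  have h2 : (∀ (G : Type) [Group G] [Finite G], Cfsg.IsEPiGroup π G) →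
      ((∀ p q : ℕ, p.Prime → q.Prime → p ∈ π → q ∈ π → p = q) ∨ ∀ p : ℕ, p.Prime → p ∈ π) := by
    intro h
    by_contra hc
    push Not at hc
    obtain ⟨⟨r, s, k1, k2, k3, k4, k5⟩, t, k6, k7⟩ := hc
    obtain ⟨H, hH⟩ := h (Equiv.Perm (Fin (2 * (r + s + t + 5))))
    obtain ⟨Δ, -, -, e⟩ := sym_struct hH (by
      rw [Fintype.card_fin]
      rcases lt_or_gt_of_ne k5 with h | h
      · exact ⟨r, s, t, k1, k2, k6, h, k3, k4, k7, by omega, by omega⟩
      · exact ⟨s, r, t, k2, k1, k6, h, k4, k3, k7, by omega, by omega⟩)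
    rw [Fintype.card_fin] at e
    rcases e with e | e
    · have := e.1.eq_one_or_self_of_dvd 2 (dvd_mul_right _ _)
      omega
    · omega
  exact ⟨⟨h2, fun h G _ _ => E_of_D (h1 h G)⟩, ⟨fun h => h2 fun G _ _ => E_of_D (h G), h1⟩⟩

end Cfsg.Agent.S3878
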