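import Cfsg.Statements.S3880
import Cfsg.Agent.Gen.Metacyc

set_option autoImplicit false
open Cfsg

namespace Cfsg.Agent.S3880

open Cfsg.Agent.BG

/-- Let p be an odd prime and G a finite metacyclic p-group (G has a cyclic normal subgroup with cyclic quotient). Then a subgroup L of G is abelian if and only if |L| ≤ |G : G'|, and L is a maximal abelian subgroup of G if and only if |L| = |G : G'|. -/
theorem result {G : Type*} [Group G] [Finite G] {p : ℕ} [Fact p.Prime] (hp : p ≠ 2) (hG : IsPGroup p G) (hmc : Cfsg.IsMetacyclic G) (L : Subgroup G) :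
    (IsMulCommutative ↥L ↔ Nat.card ↥L ≤ (commutator G).index) ∧
      (Maximal (fun K : Subgroup G => IsMulCommutative ↥K) L ↔ Nat.card ↥L = (commutator G).index) := by
  obtain ⟨D⟩ := Gen.exists_metaData hp hG hmc
  refine ⟨D.abelian_iff_le L, ⟨fun h => ?_, fun h => ⟨(D.abelian_iff_le L).2 h.le, fun K hK hle => ?_⟩⟩⟩
  · have h1 := (D.abelian_iff_le L).1 h.1
    by_contra hne
    have hlt := lt_of_le_of_ne h1 hne
    obtain ⟨r, hr⟩ := IsPGroup.iff_card.1 (hG.to_subgroup L)
    obtain ⟨s, hs⟩ := hG.index (commutator G)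
    have hp1 : 1 < p := (Fact.out : p.Prime).one_lt
    rw [hr, hs, Nat.pow_lt_pow_iff_right hp1] at hlt
    obtain ⟨K, hK, hLK⟩ := Sylow.exists_subgroup_card_pow_succ (n := r) (H := L)
      ((pow_dvd_pow p hlt).trans (hs ▸ Subgroup.index_dvd_card _)) hr
    have := card_le_card (h.2 ((D.abelian_iff_le K).2 (by rw [hK, hs]; exact Nat.pow_le_pow_right hp1.le hlt)) hLK)
    rw [hK, hr, Nat.pow_le_pow_iff_right hp1] at this
    omega
  · exact (eq_of_card_le hle (h ▸ (D.abelian_iff_le K).1 hK)).ge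

end Cfsg.Agent.S3880
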