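import Cfsg.Statements.S3881
import Cfsg.Agent.Gen.Metacyc

set_option autoImplicit false
open Cfsg

namespace Cfsg.Agent.S3881

open Cfsg.Agent.BG

/-- Let p be an odd prime and G a finite metacyclic p-group (G has a cyclic normal subgroup with cyclic quotient). Suppose G is non-abelian with |G'| = p^n. Then for 1 ≤ i ≤ n the number of elements of G whose conjugacy class has exactly p^i elements is |Z(G)| · (p^(2i) − p^(2i−2)). -/
theorem result {G : Type*} [Group G] [Finite G] {p : ℕ} [Fact p.Prime] (hp : p ≠ 2) (hG : IsPGroup p G) (hmc : Cfsg.IsMetacyclic G) (n : ℕ) (hn : n ≠ 0) (hGn : Nat.card ↥(commutator G) = p ^ n) (i : ℕ) (hi : 1 ≤ i) (hin : i ≤ n) :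
    Nat.card {g : G // (Subgroup.centralizer ({g} : Set G)).index = p ^ i} =
      Nat.card ↥(Subgroup.center G) * (p ^ (2 * i) - p ^ (2 * i - 2)) := by
  obtain ⟨D⟩ := Gen.exists_metaData hp hG hmc
  have hp1 : 1 < p := (Fact.out : p.Prime).one_lt
  obtain rfl : n = D.n := Nat.pow_right_injective hp1 (hGn.symm.trans D.card_commutator)
  have hsub : (D.pre (D.Vk (i - 1)) : Set G) ⊆ D.pre (D.Vk i) := fun g hg =>
    (D.index_cent1_le g _).1 (((D.index_cent1_le g _).2 hg).trans (Nat.pow_le_pow_right hp1.le (by omega)))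
  have e : {g : G | C1[g].index = p ^ i} = (D.pre (D.Vk i) : Set G) \ D.pre (D.Vk (i - 1)) := by
    ext g
    rw [Set.mem_sdiff, SetLike.mem_coe, SetLike.mem_coe, ← D.index_cent1_le, ← D.index_cent1_le,
      Set.mem_ofPred_eq]
    obtain ⟨k, hk⟩ := hG.index C1[g]
    rw [hk, Nat.pow_le_pow_iff_right hp1, Nat.pow_le_pow_iff_right hp1, Nat.pow_right_inj hp1]
    omega
  change Nat.card {g : G | C1[g].index = p ^ i} = _
  rw [e, Nat.card_coe_set_eq, Set.ncard_sdiff hsub, ← Nat.card_coe_set_eq, ← Nat.card_coe_set_eq]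
  change #(D.pre _) - #(D.pre _) = _
  rw [D.card_pre, D.card_pre, D.card_Vk hin, D.card_Vk (by omega), Nat.mul_sub 2, mul_one, Nat.mul_sub]

end Cfsg.Agent.S3881
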