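import Cfsg.Statements.S3883
import Cfsg.Agent.Gen.Metacyc

set_option autoImplicit false
open Cfsg

namespace Cfsg.Agent.S3883

open Cfsg.Agent.BG

/-- Let p be an odd prime and G a finite metacyclic p-group (G has a cyclic normal subgroup with cyclic quotient). Suppose G is non-abelian. Then an element g of G lies outside the Frattini subgroup if and only if its centralizer C_G(g) is abelian. -/
theorem result {G : Type*} [Group G] [Finite G] {p : ℕ} [Fact p.Prime] (hp : p ≠ 2) (hG : IsPGroup p G) (hmc : Cfsg.IsMetacyclic G) (hna : ¬ IsMulCommutative G) (g : G) :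
    g ∉ frattini G ↔ IsMulCommutative ↥(Subgroup.centralizer ({g} : Set G)) := by
  obtain ⟨D⟩ := Gen.exists_metaData hp hG hmc
  have hp1 : 1 < p := (Fact.out : p.Prime).one_lt
  have hn : 1 ≤ D.n := by
    by_contra h
    have h0 : D.n = 0 := by omega
    have := D.card_commutator
    rw [h0, pow_zero, card_eq_one_iff, ← der_top, der1_eq_bot] at this
    exact hna (isog_abelian (isog_symm isog_top) this)
  have hT : IsPGroup p (⊤ : Subgroup G) := hG.to_subgroup _
  have hΦ : frattini G = D.pre (D.Vk (D.n - 1)) := by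
    rw [← Phi_top]
    refine le_antisymm ((Phi_min hT).2 ⟨?_, fun x _ => ?_⟩) ?_
    · rw [der_top, D.commutator_eq, Subgroup.zpowers_le, ← D.mho_eq hn]
      obtain ⟨k, hk⟩ := (Nat.modEq_iff_dvd' (Gen.one_le_of_modEq D.hρ)).1 D.hρ.symm
      exact Subgroup.subset_closure ⟨D.a ^ k, by rw [Gen.MetaData.c, hk, pow_one, ← pow_mul, mul_comm]⟩
    · rw [← D.mho_eq hn]; exact Subgroup.subset_closure ⟨x, by rw [pow_one]⟩
    · rw [← D.mho_eq hn, Subgroup.closure_le]
      rintro _ ⟨y, rfl⟩
      rw [pow_one]; exact pow_mem_Phi hT trivial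
  obtain ⟨k, hk⟩ := hG.index C1[g]
  rw [hΦ, ← D.index_cent1_le, ← der1_eq_bot, ← card_eq_one_iff, D.card_der _ hk, hk,
    Nat.pow_le_pow_iff_right hp1, Nat.pow_eq_one, or_iff_right hp1.ne']
  omega

end Cfsg.Agent.S3883
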