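import Cfsg.Statements.S3885
import Cfsg.Agent.Gen.Metacyc

set_option autoImplicit false
open Cfsg

namespace Cfsg.Agent.S3885

open Cfsg.Agent.BG

/-- Let p be an odd prime and G a finite metacyclic p-group (G has a cyclic normal subgroup with cyclic quotient). Then every abelian subgroup K of G containing the center of G is the center of its own centralizer: K = Z(C_G(K)). -/
theorem result {G : Type*} [Group G] [Finite G] {p : ℕ} [Fact p.Prime] (hp : p ≠ 2) (hG : IsPGroup p G) (hmc : Cfsg.IsMetacyclic G) (K : Subgroup G) (hK : IsMulCommutative ↥K) (hZ : Subgroup.center G ≤ K) :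
    K = Subgroup.centralizer (K : Set G) ⊓ Subgroup.centralizer (Subgroup.centralizer (K : Set G) : Set G) := by
  obtain ⟨D⟩ := Gen.exists_metaData hp hG hmc
  have h1 := D.card_mul_card_cent hZ
  have h2 := D.card_mul_card_cent (R := C[K]) (Subgroup.center_le_centralizer _)
  rw [← h1, mul_comm] at h2
  have h3 : K = C[C[K]] := eq_of_card_le (cents_symm le_rfl)
    (Nat.eq_of_mul_eq_mul_right (cardG_pos _) h2).le
  rw [← h3]
  exact (inf_eq_right.2 (abelian_iff.1 hK)).symm

end Cfsg.Agent.S3885
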