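import Cfsg.Statements.S3886
import Cfsg.Agent.Gen.Metacyc
import Cfsg.Agent.S3879
import Cfsg.Agent.S3880

set_option autoImplicit false
open Cfsg

namespace Cfsg.Agent.S3886

open Cfsg.Agent.BG
open scoped commutatorElement

/-- Let p be an odd prime and G a finite metacyclic p-group (G has a cyclic normal subgroup with cyclic quotient). Then the largest value of |R| · |Z(R)| over subgroups R of G is |G : G'|², and the subgroups attaining it (the centrally large subgroups) are exactly the non-abelian subgroups together with the maximal abelian subgroups of G. -/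
theorem result {G : Type*} [Group G] [Finite G] {p : ℕ} [Fact p.Prime] (hp : p ≠ 2) (hG : IsPGroup p G) (hmc : Cfsg.IsMetacyclic G) : Cfsg.maxCentralProduct G = (commutator G).index ^ 2 ∧
    ∀ R : Subgroup G, Cfsg.IsCentrallyLarge R ↔ (¬ IsMulCommutative ↥R ∨ Maximal (fun K : Subgroup G => IsMulCommutative ↥K) R) := by
  obtain ⟨D⟩ := Gen.exists_metaData hp hG hmc
  have hp1 : 1 < p := (Fact.out : p.Prime).one_lt
  have hna : ∀ R : Subgroup G, ¬ IsMulCommutative R →
      #R * #(Subgroup.center R) = (commutator G).index ^ 2 := fun R hR => by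
    have h1 := S3879.result hp (hG.to_subgroup R) (BG4.metacyclic_top.1 (BG4.metacyclic_isog isog_top
      (BG4.metacyclic_sub le_top (BG4.metacyclic_top.2 hmc))))
    obtain ⟨r, hr⟩ := hG.index R
    have h2 := D.card_der R hr
    have h3 : r ≤ D.n := by
      by_contra h
      rw [Nat.sub_eq_zero_of_le (le_of_not_ge h), pow_zero, card_eq_one_iff, der1_eq_bot] at h2
      exact hR h2
    rw [← card_map_subtype (commutator R), Subgroup.map_subtype_commutator, h2] at h1
    have h4 := (Subgroup.center R).card_mul_index
    have h5 := R.card_mul_index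
    have h6 := (commutator G).card_mul_index
    rw [D.card_commutator, ← h5, hr, ← Nat.sub_add_cancel h3, pow_add, mul_right_comm] at h6
    have h7 := Nat.eq_of_mul_eq_mul_right (pow_pos (by omega) _) h6
    rw [h1] at h4
    refine Nat.eq_of_mul_eq_mul_right (pow_pos (pow_pos (show 0 < p by omega) (D.n - r)) 2) ?_
    rw [mul_assoc, h4, ← mul_pow, mul_comm (Subgroup.index _), h7, sq]
  have hab : ∀ R : Subgroup G, IsMulCommutative R → #R * #(Subgroup.center R) = #R ^ 2 := fun R hR => by
    rw [← card_map_subtype (Subgroup.center R), map_subtype_center, center_eq_of_abelian hR, sq]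
  have hmax : maxCentralProduct G = (commutator G).index ^ 2 := by
    refine IsGreatest.csSup_eq ⟨?_, ?_⟩
    · obtain ⟨R, -, hR⟩ := Finite.exists_le_maximal (p := fun K : Subgroup G => IsMulCommutative K) abelian_bot
      exact ⟨R, by rw [hab R hR.1, (S3880.result hp hG hmc R).2.1 hR]⟩
    · rintro _ ⟨R, rfl⟩
      by_cases hR : IsMulCommutative R
      · rw [hab R hR]; exact Nat.pow_le_pow_left ((D.abelian_iff_le R).1 hR) 2
      · exact (hna R hR).le
  refine ⟨hmax, fun R => ?_⟩
  rw [IsCentrallyLarge, hmax]
  by_cases hR : IsMulCommutative R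
  · rw [hab R hR, Nat.pow_left_inj two_ne_zero, (S3880.result hp hG hmc R).2]
    simp [hR]
  · simp [hR, hna R hR]

end Cfsg.Agent.S3886
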