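import Cfsg.Statements.S3887
import Cfsg.Agent.Gen.Metacyc

set_option autoImplicit false
open Cfsg

namespace Cfsg.Agent.S3887

open Cfsg.Agent.BG

/-- Let p be an odd prime and G a finite metacyclic p-group (G has a cyclic normal subgroup with cyclic quotient). Then a subgroup R of G maximizes |R| · |C_G(R)| over all subgroups of G if and only if R contains the center of G. -/
theorem result {G : Type*} [Group G] [Finite G] {p : ℕ} [Fact p.Prime] (hp : p ≠ 2) (hG : IsPGroup p G) (hmc : Cfsg.IsMetacyclic G) (R : Subgroup G) : Cfsg.IsCentralizerLarge R ↔ Subgroup.center G ≤ R := by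
  obtain ⟨D⟩ := Gen.exists_metaData hp hG hmc
  have hc : ∀ R : Subgroup G, C[R ⊔ Subgroup.center G] = C[R] := fun R => by
    rw [cent_sup, inf_eq_left]
    exact cents_symm (Subgroup.center_le_centralizer _)
  have key : ∀ R : Subgroup G, #(R ⊔ Subgroup.center G : Subgroup G) * #C[R] =
      #(Subgroup.center G) * Nat.card G := fun R => hc R ▸ D.card_mul_card_cent le_sup_right
  have hmax : maxCentralizerProduct G = #(Subgroup.center G) * Nat.card G := by
    refine IsGreatest.csSup_eq ⟨⟨⊤, D.card_mul_card_cent le_top⟩, ?_⟩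
    rintro _ ⟨R, rfl⟩
    rw [← key R]
    exact Nat.mul_le_mul_right _ (card_le_card le_sup_left)
  rw [IsCentralizerLarge, hmax]
  refine ⟨fun h => ?_, D.card_mul_card_cent⟩
  rw [← key R] at h
  exact (eq_of_card_le le_sup_left (Nat.eq_of_mul_eq_mul_right (cardG_pos _) h).ge) ▸ le_sup_right

end Cfsg.Agent.S3887
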