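import Cfsg.Statements.S3898
import Cfsg.Agent.Gen.ClassCount

set_option autoImplicit false
open Cfsg

namespace Cfsg.Agent.S3898

open Subgroup Gen

theorem comm_of_lt {G : Type*} [Group G] [Finite G] {r : ℕ} [hr : Fact r.Prime] (hr2 : r ≠ 2) (R : Sylow r G)
    (h : Nat.card R < 2 * kc (· = r) G) : IsMulCommutative R := by
  by_contra hc
  have h1 := two_mul_kc_le_card R le_rfl inf_le_left
    (inf_le_left : (R : Subgroup G) ⊓ centralizer (R : Subgroup G) ≤ R) ?_ ?_
  · omega
  · have h2 : Nat.card ((R : Subgroup G) ⊓ centralizer (R : Subgroup G) : Subgroup G) = Nat.card (center R) := by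
      rw [← card_map_of_injective (R : Subgroup G).subtype_injective]
      congr 2
      ext x
      constructor
      · rintro ⟨h1, h2⟩
        exact ⟨⟨x, h1⟩, mem_center_iff.2 fun g => Subtype.ext (h2 g g.2), rfl⟩
      · rintro ⟨x, hx, rfl⟩
        exact ⟨x.2, fun g hg => congrArg Subtype.val (mem_center_iff.1 hx ⟨g, hg⟩)⟩
    rw [h2, ← (center R).card_mul_index, mul_comm]
    apply Nat.mul_le_mul_left
    by_contra h3
    have h4 : IsCyclic (R ⧸ center R) := by
      have h5 : 0 < (center R).index := Nat.pos_of_ne_zero index_ne_zero_of_finite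
      obtain h6 | h6 | h6 : (center R).index = 1 ∨ (center R).index = 2 ∨ (center R).index = 3 := by omega
      · have : Subsingleton (R ⧸ center R) := (Nat.card_eq_one_iff_unique.1 h6).1
        exact isCyclic_of_subsingleton
      · exact isCyclic_of_prime_card (p := 2) h6
      · exact isCyclic_of_prime_card (p := 3) h6
    exact hc (MonoidHom.isMulCommutative_of_isCyclic_of_ker_le_center (QuotientGroup.mk' (center R)) (by simp))
  · intro y hy hy'
    by_contra h2
    push Not at h2
    refine hy' ⟨hy, fun x hx => h2 x (le_normalizer hx) ?_⟩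
    obtain ⟨k, hk⟩ := IsPGroup.iff_orderOf.1 R.2 ⟨x, hx⟩
    rw [orderOf_mk] at hk
    exact hk ▸ (hr.out.odd_of_ne_two hr2).pow

/-- Let π be a finite set of primes containing 2 and G a finite group. Write k_π(G) for the number of conjugacy classes of G consisting of π-elements (elements all of whose order's prime divisors lie in π) and |G|_π for the π-part of the order of G. If k_π(G) > |G|_π/2, then G has a normal π-complement (a normal subgroup of order prime to π whose index is a π-number) and an abelian Hall subgroup for the set of odd primes in π. -/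
theorem result {G : Type*} [Group G] [Finite G] (π : Finset ℕ) (hπ : ∀ r ∈ π, r.Prime) (h2 : 2 ∈ π)
    (hk : π.prod (fun r => r ^ (Nat.card G).factorization r) < 2 * Nat.card {c : ConjClasses G // ∀ x ∈ c.carrier, ∀ r : ℕ, r.Prime → r ∣ orderOf x → r ∈ π}) :
    (∃ N : Subgroup G, N.Normal ∧ (∀ r : ℕ, r.Prime → r ∣ Nat.card ↥N → r ∉ π) ∧ ∀ r : ℕ, r.Prime → r ∣ N.index → r ∈ π) ∧ ∃ H : Subgroup G, Cfsg.IsPiHall ((↑π : Set ℕ) \ {2}) H ∧ IsMulCommutative ↥H := by
  rw [← one_mul (π.prod _)] at hk
  obtain ⟨S⟩ := (inferInstance : Nonempty (Sylow 2 G))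
  have h1 := hasNormalPComplement_two_of_lt_kc S (by simpa using lt_kc_of_lt_kc hπ h2 S hk)
  have hK := Transfer.hasNormalPComplement_iff_not_dvd_card_pResidual.1 h1
  set K := pResidual 2 G
  obtain ⟨k, hKi⟩ : ∃ k, K.index = 2 ^ k := IsPGroup.iff_card.1 Transfer.isPGroup_quotient_pResidual
  obtain ⟨N, H, h3, h4, h5, h6, h7⟩ := exists_normal_compl_abelian (G := K) (fun q => q ∈ π ∧ q ≠ 2)
    fun r hr hrπ => by
      obtain ⟨R⟩ := (inferInstance : Nonempty (Sylow r G))
      have h7 := lt_kc_of_lt_kc hπ hrπ.1 R hk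
      rw [one_mul] at h7
      have h8 := comm_of_lt hrπ.2 R h7
      have h9 : ∀ x ∈ (R : Subgroup G), x ∈ K := fun x hx => by
        obtain ⟨k, hk⟩ := IsPGroup.iff_orderOf.1 R.2 ⟨x, hx⟩
        rw [orderOf_mk] at hk
        exact Transfer.mem_pResidual_of_coprime
          (hk ▸ Nat.Coprime.pow_left k ((Nat.coprime_primes hr.out Nat.prime_two).2 hrπ.2))
      refine ⟨?_, R.subtype h9, ?_⟩
      · refine Transfer.hasNormalPComplement_of_fullyNormalized (R.subtype h9) ?_
        suffices h : normalizer ((R.subtype h9 : Subgroup K) : Set K) ≤ centralizer (R.subtype h9 : Subgroup K) from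
          fun D _ hD => (Transfer.hasNormalPComplement_iff_normalizer_centralizer _).1
            (Transfer.hasNormalPComplement_of_normalizer_le_centralizer _ h) D hD.1
        intro x hx
        obtain ⟨a, b, rfl, ha, hb, e1, e2⟩ := exists_pi_decomp (· = r) x
        refine mul_mem ?_ ?_
        · obtain ⟨j, hj⟩ := (isPi_eq_iff hr.out (orderOf_pos a).ne').1 e1
          have e3 : zpowers a ≤ R.subtype h9 := by
            rw [← (R.subtype h9).3 (IsPGroup.to_sup_of_normal_left' (R.subtype h9).2
              (IsPGroup.of_card ((Nat.card_zpowers a).trans hj)) (zpowers_le.2 (zpowers_le.2 hx ha))) le_sup_left]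
            exact le_sup_right
          exact fun y hy => Subtype.ext (setLike_mul_comm (s := (R : Subgroup G)) hy (e3 (mem_zpowers a)))
        · by_contra e3
          have e4 := two_mul_kc_le_card_of_odd R le_rfl inf_le_left (x := b) ?_ (fun e => e3 fun y hy =>
            Subtype.ext (e y hy)) ?_ ?_
          · omega
          · have e5 := zpowers_le.2 hx hb
            exact mem_normalizer_fintype fun y hy => (mem_normalizer_iff.1 e5 ⟨y, h9 y hy⟩).1 hy
          · exact Nat.odd_iff.2 (Nat.two_dvd_ne_zero.1 fun h => hK (h.trans (K.orderOf_dvd_natCard b.2)))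
          · rw [orderOf_coe]; exact (isPi_ne_iff hr.out).1 e2
      · exact ⟨⟨fun x y => Subtype.ext (Subtype.ext (setLike_mul_comm (s := (R : Subgroup G)) x.2 y.2))⟩⟩
  refine ⟨⟨N.map K.subtype, inferInstance, fun q hq hd hqπ => ?_, fun q hq hd => ?_⟩, H.map K.subtype,
    ⟨fun q hq hd => ?_, fun q hq hqπ hd => ?_⟩, inferInstance⟩
  · rw [card_map_of_injective K.subtype_injective] at hd
    refine h4 q hq hd ⟨hqπ, ?_⟩
    rintro rfl
    exact hK (hd.trans (card_subgroup_dvd_card N))
  · rw [index_map_subtype, h6.symm.index_eq_card, hKi, hq.dvd_mul] at hd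
    rcases hd with hd | hd
    · exact (h5 q hq hd).1
    · rwa [(Nat.prime_dvd_prime_iff_eq hq Nat.prime_two).1 (hq.dvd_of_dvd_pow hd)]
  · rw [card_map_of_injective K.subtype_injective] at hd
    exact h5 q hq hd
  · rw [index_map_subtype, h6.index_eq_card, hKi, hq.dvd_mul] at hd
    rcases hd with hd | hd
    · exact h4 q hq hd hqπ
    · exact hqπ.2 ((Nat.prime_dvd_prime_iff_eq hq Nat.prime_two).1 (hq.dvd_of_dvd_pow hd))

end Cfsg.Agent.S3898
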