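import Cfsg.Statements.S3899
import Cfsg.Agent.Gen.ClassCount

set_option autoImplicit false
open Cfsg

namespace Cfsg.Agent.S3899

/-- Let π be a finite non-empty set of odd primes with smallest member p and G a finite group. Write k_π(G) for the number of conjugacy classes of G consisting of π-elements (elements all of whose order's prime divisors lie in π) and |G|_π for the π-part of the order of G. If k_π(G) > (p + 1)|G|_π/(2p), then G has a normal π-complement (a normal subgroup of order prime to π whose index is a π-number) and an abelian Hall π-subgroup. -/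
theorem result {G : Type*} [Group G] [Finite G] (π : Finset ℕ) (hπ : ∀ r ∈ π, r.Prime) (h2 : 2 ∉ π) (p : ℕ) (hp : p ∈ π)
    (hmin : ∀ r ∈ π, p ≤ r) (hk : (p + 1) * π.prod (fun r => r ^ (Nat.card G).factorization r) < 2 * p * Nat.card {c : ConjClasses G // ∀ x ∈ c.carrier, ∀ r : ℕ, r.Prime → r ∣ orderOf x → r ∈ π}) :
    (∃ N : Subgroup G, N.Normal ∧ (∀ r : ℕ, r.Prime → r ∣ Nat.card ↥N → r ∉ π) ∧ ∀ r : ℕ, r.Prime → r ∣ N.index → r ∈ π) ∧ ∃ H : Subgroup G, Cfsg.IsPiHall (↑π : Set ℕ) H ∧ IsMulCommutative ↥H := by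
  obtain ⟨N, H, h1, h3, h4, h5, h6⟩ := Gen.exists_normal_compl_abelian (G := G) (· ∈ π) fun r _ hr => by
    obtain ⟨R⟩ := (inferInstance : Nonempty (Sylow r G))
    have h7 := Gen.lt_kc_of_lt_kc hπ hr R hk
    have h8 := hmin r hr
    have h9 := (hπ p hp).pos
    have h10 := Gen.kc_le_card_sylow R
    have h1 := Gen.normalizer_le_centralizer_of_lt_kc R (by
      obtain ⟨d, rfl⟩ := Nat.exists_eq_add_of_le h8
      have h11 : Nat.card R ≤ 2 * Gen.kc (· = p + d) G := by
        by_contra h12
        nlinarith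
      nlinarith)
    exact ⟨Transfer.hasNormalPComplement_of_normalizer_le_centralizer R h1,
      R, Subgroup.le_centralizer_iff_isMulCommutative.1 (Subgroup.le_normalizer.trans h1)⟩
  refine ⟨⟨N, inferInstance, h3, h5.symm.index_eq_card ▸ h4⟩, H, ⟨h4, fun q hq hqπ hd => ?_⟩, h6⟩
  exact h3 q hq (h5.index_eq_card ▸ hd) hqπ

end Cfsg.Agent.S3899
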