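import Cfsg.Statements.S3900
import Cfsg.Agent.AltSec.Basic
import Cfsg.Agent.Invol.OddAut
import Cfsg.Agent.Invol.Isolated
import Cfsg.Agent.Block.ZStar
import Cfsg.Agent.FTC.Aniso
import Cfsg.Agent.Solv.Fitting

set_option autoImplicit false
open Cfsg

namespace Cfsg.Agent.S3900

open Subgroup Cfsg.Agent.Solv
open scoped commutatorElement

universe u
section
variable {G H : Type*} [Group G] [Group H]

/-- left-normed commutator values with entries in `S` -/
def Vs (S : Subgroup G) : ℕ → Set G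
  | 0 => S
  | k + 1 => {x | ∃ v ∈ Vs S k, ∃ b ∈ S, x = ⁅v, b⁆}

def it (a b : G) : ℕ → G
  | 0 => a
  | n + 1 => ⁅it a b n, b⁆

theorem Vs_le {S : Subgroup G} : ∀ {k : ℕ} {x : G}, x ∈ Vs S k → x ∈ S.lowerCentralSeries k
  | 0, _, h => h
  | _ + 1, _, ⟨_, hv, _, hb, e⟩ => e ▸ commutator_mem_commutator (Vs_le hv) hb

theorem Vs_mem {S : Subgroup G} : ∀ {k : ℕ} {x : G}, x ∈ Vs S k → x ∈ S
  | 0, _, h => h
  | _ + 1, _, ⟨_, hv, _, hb, e⟩ => by
    rw [e, commutatorElement_def]
    exact mul_mem (mul_mem (mul_mem (Vs_mem hv) hb) (inv_mem (Vs_mem hv))) (inv_mem hb)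

theorem Vs_succ {S : Subgroup G} : ∀ {k : ℕ} {x : G}, x ∈ Vs S (k + 1) → x ∈ Vs S k
  | 0, _, h => Vs_mem h
  | _ + 1, _, ⟨v, hv, b, hb, e⟩ => ⟨v, Vs_succ hv, b, hb, e⟩

theorem Vs_map (φ : G →* H) {S : Subgroup G} {T : Subgroup H} (hT : S.map φ ≤ T) :
    ∀ {k : ℕ} {x : G}, x ∈ Vs S k → φ x ∈ Vs T k
  | 0, _, h => hT (mem_map_of_mem φ h)
  | _ + 1, _, ⟨v, hv, b, hb, e⟩ =>
    ⟨φ v, Vs_map φ hT hv, φ b, hT (mem_map_of_mem φ hb), by rw [e, map_commutatorElement]⟩

theorem Vs_lift (φ : G →* H) {S : Subgroup G} :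
    ∀ {k : ℕ} {y : H}, y ∈ Vs (S.map φ) k → ∃ x ∈ Vs S k, φ x = y
  | 0, _, h => h
  | _ + 1, _, ⟨_, hv, _, ⟨b, hb, eb⟩, e⟩ => by
    obtain ⟨v, h1, rfl⟩ := Vs_lift φ hv
    exact ⟨⁅v, b⁆, ⟨v, h1, b, hb, rfl⟩, by rw [e, map_commutatorElement, eb]⟩

theorem lcs_le : ∀ (k : ℕ) (N : Subgroup G) [N.Normal], Vs (⊤ : Subgroup G) k ⊆ N →
    (⊤ : Subgroup G).lowerCentralSeries k ≤ N
  | 0, _, _, h => fun _ hx => h hx
  | k + 1, N, _, h => by
    have := lcs_le k ((center (G ⧸ N)).comap (QuotientGroup.mk' N)) fun v hv => by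
      refine mem_center_iff.2 fun b => ?_
      obtain ⟨b, rfl⟩ := QuotientGroup.mk'_surjective N b
      have := (QuotientGroup.eq_one_iff (N := N) _).2 (h ⟨v, hv, b, trivial, rfl⟩)
      rw [← QuotientGroup.mk'_apply, map_commutatorElement, commutatorElement_eq_one_iff_mul_comm] at this
      exact this.symm
    rw [Subgroup.lowerCentralSeries_succ, commutator_le]
    intro v hv b _
    rw [← QuotientGroup.eq_one_iff, ← QuotientGroup.mk'_apply, map_commutatorElement,
      commutatorElement_eq_one_iff_mul_comm]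
    exact (mem_center_iff.1 (this hv) _).symm

theorem it_Vs (a b : G) : ∀ n, it a b n ∈ Vs (⊤ : Subgroup G) n
  | 0 => trivial
  | n + 1 => ⟨_, it_Vs a b n, b, trivial, rfl⟩

theorem it_mem {N : Subgroup G} {a b : G} (ha : a ∈ N) (hb : b ∈ normalizer (N : Set G)) : ∀ n, it a b n ∈ N
  | 0 => ha
  | n + 1 => by
    have := it_mem ha hb n
    rw [it, commutatorElement_def, mul_assoc, mul_assoc, ← mul_assoc b]
    exact mul_mem this ((mem_normalizer_iff.1 hb _).1 (inv_mem this))

theorem map_it (φ : G →* H) (a b : G) : ∀ n, φ (it a b n) = it (φ a) (φ b) n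
  | 0 => rfl
  | n + 1 => by rw [it, it, map_commutatorElement, map_it φ a b n]

theorem engel2 {a b : G} (hc : (orderOf ⁅a, b⁆).Coprime (orderOf b)) (h : ⁅⁅a, b⁆, b⁆ = 1) : ⁅a, b⁆ = 1 := by
  have c : Commute ⁅a, b⁆ b := commutatorElement_eq_one_iff_commute.1 h
  have e : ⁅a, b⁆ * b = a * b * a⁻¹ := by rw [commutatorElement_def]; group
  have : (⁅a, b⁆ * b) ^ orderOf b = 1 := by rw [e, conj_pow, pow_orderOf_eq_one]; group
  rw [c.mul_pow, pow_orderOf_eq_one, mul_one] at this
  exact orderOf_eq_one_iff.1 (hc.eq_one_of_dvd (orderOf_dvd_of_pow_eq_one this))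

theorem engel {N : Subgroup G} {a b : G} (ha : a ∈ N) (hb : b ∈ normalizer (N : Set G))
    (hc : (Nat.card N).Coprime (orderOf b)) : ∀ n, it a b n = 1 → ⁅a, b⁆ = 1
  | 0, h => by rw [show a = 1 from h]; simp
  | 1, h => h
  | n + 2, h => engel ha hb hc (n + 1)
      (engel2 (hc.coprime_dvd_left (orderOf_dvd_natCard N (it_mem ha hb (n + 1)))) h)

/-- the values centralise every subgroup of coprime order they normalise -/
def Hyp (k : ℕ) (G : Type*) [Group G] : Prop :=
  ∀ x ∈ Vs (⊤ : Subgroup G) k, ∀ N : Subgroup G, x ∈ normalizer (N : Set G) →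
    (Nat.card N).Coprime (orderOf x) → ∀ a ∈ N, Commute a x

theorem Hyp.sub {k : ℕ} (h : Hyp k G) (S : Subgroup G) : Hyp k S := fun x hx N hN hc a ha => by
  have := h x (Vs_map S.subtype le_top hx) (N.map S.subtype) (le_normalizer_map _ (mem_map_of_mem _ hN))
    (by rwa [card_map_of_injective S.subtype_injective, orderOf_coe]) a (mem_map_of_mem _ ha)
  exact Subtype.ext this.eq

theorem cop_of_mem {p : ℕ} [Fact p.Prime] {P : Subgroup G} (hP : IsPGroup p P) {x : G} (hx : x ∈ P) {n : ℕ}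
    (h : n.Coprime p) : n.Coprime (orderOf x) := by
  obtain ⟨m, e⟩ := hP ⟨x, hx⟩
  have : orderOf x ∣ p ^ m := orderOf_dvd_of_pow_eq_one (congrArg Subtype.val e)
  exact (h.pow_right m).coprime_dvd_right this

variable [Finite G]

/-- if the values of `p`-power order, `p ≠ r`, die in a quotient, its lower central term is an `r`-group -/
theorem lcs_pgroup {k r : ℕ} [Fact r.Prime] (φ : G →* H) (hφ : Function.Surjective φ)
    (h : ∀ (p : ℕ) [Fact p.Prime], p ≠ r → ∀ P : Subgroup G, IsPGroup p P → ∀ x ∈ P, x ∈ Vs (⊤ : Subgroup G) k → φ x = 1) :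
    IsPGroup r ((⊤ : Subgroup H).lowerCentralSeries k) := by
  haveI := Finite.of_surjective φ hφ
  obtain ⟨n, hn⟩ : ∃ n, Nat.card ((⊤ : Subgroup H).lowerCentralSeries k) = r ^ n := by
    refine ⟨_, Nat.eq_prime_pow_of_unique_prime_dvd Nat.card_pos.ne' fun {p} hp hd => ?_⟩
    by_contra hpr
    haveI := Fact.mk hp
    obtain ⟨P, N, hN, hc⟩ : HasNormalPComplement p H := by
      refine Transfer.hasNormalPComplement_of_forall_isPGroup fun Q hQ _ g hg hc => ?_
      obtain ⟨P, hP, rfl, hl⟩ := AltSec.exists_lift φ hQ (by rw [MonoidHom.range_eq_top.2 hφ]; exact le_top)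
      obtain ⟨g, rfl⟩ := hφ g
      obtain ⟨n, hn, e⟩ := hl g hg
      rintro _ ⟨a, ha, rfl⟩
      have := h p hpr P hP _ (it_mem ha hn k) (it_Vs a n k)
      rw [map_it, e] at this
      exact commutatorElement_eq_one_iff_mul_comm.1
        (engel (mem_map_of_mem φ ha) hg (coprime_card_of_isPGroup hQ hc) k this)
    have h1 : (⊤ : Subgroup H).lowerCentralSeries k ≤ N := by
      refine lcs_le k N fun v hv => ?_
      obtain ⟨P', hP', e, -⟩ := AltSec.exists_lift φ P.2 (by rw [MonoidHom.range_eq_top.2 hφ]; exact le_top)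
      have ht : (P'.map ((QuotientGroup.mk' N).comp φ)) = ⊤ := by
        rw [← map_map, e, eq_top_iff]
        rintro y -
        obtain ⟨y, rfl⟩ := QuotientGroup.mk'_surjective N y
        obtain ⟨⟨a, b⟩, rfl⟩ := hc.2 y
        exact ⟨b, b.2, by simp [(QuotientGroup.eq_one_iff _).2 a.2]⟩
      have := Vs_map (QuotientGroup.mk' N) (T := ⊤) le_top hv
      rw [← ht] at this
      obtain ⟨x, hx, e⟩ := Vs_lift _ this
      have h2 := h p hpr P' hP' x (Vs_mem hx) (Vs_map (MonoidHom.id G) le_top hx)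
      rw [MonoidHom.comp_apply, h2, map_one] at e
      exact (QuotientGroup.eq_one_iff _).1 e.symm
    have h2 := hd.trans (card_dvd_of_le h1)
    rw [← hc.index_eq_card] at h2
    exact P.not_dvd_index h2
  exact IsPGroup.of_card hn

theorem Hyp.nil {k : ℕ} [Group.IsSolvable G] (h : Hyp k G) :
    Group.IsNilpotent ((⊤ : Subgroup G).lowerCentralSeries k) := by
  have key (r : ℕ) [Fact r.Prime] :
      IsPGroup r (((⊤ : Subgroup G).lowerCentralSeries k).map (QuotientGroup.mk' (pPrimeCore r G))) := by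
    set π := QuotientGroup.mk' (pPrimeCore r G)
    have hπ : Function.Surjective π := QuotientGroup.mk'_surjective _
    rw [map_lowerCentralSeries, map_top_of_surjective _ hπ]
    obtain ⟨R, hR, e, hl⟩ := AltSec.exists_lift π (isPGroup_pCore r _) (by rw [MonoidHom.range_eq_top.2 hπ]; exact le_top)
    refine lcs_pgroup (π.comp (normalizer (R : Set G)).subtype) (fun y => ?_) fun p _ hpr P hP x hx hv => ?_
    · obtain ⟨y, rfl⟩ := hπ y
      obtain ⟨n, hn, e⟩ := hl y (by rw [normalizer_eq_top]; trivial)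
      exact ⟨⟨n, hn⟩, e⟩
    have hrp : r.Coprime p := (Nat.coprime_primes Fact.out Fact.out).2 hpr.symm
    have hc : r.Coprime (orderOf (x : G)) := by rw [orderOf_coe]; exact cop_of_mem hP hx hrp
    have h1 := h x (Vs_map (normalizer (R : Set G)).subtype le_top hv) R x.2 (coprime_card_of_isPGroup hR hc.symm)
    have h2 : π x ∈ pCore r (G ⧸ pPrimeCore r G) := by
      refine centralizer_pCore_le (pPrimeCore_quotient_pPrimeCore r G) ?_
      rw [← e]
      rintro _ ⟨a, ha, rfl⟩
      rw [← map_mul, ← map_mul, (h1 a ha).eq]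
    have h3 := cop_of_mem (isPGroup_pCore r _) h2 hc.symm
    exact orderOf_eq_one_iff.1 (Nat.Coprime.eq_one_of_dvd h3.symm (orderOf_map_dvd π _))
  set K := (⊤ : Subgroup G).lowerCentralSeries k
  refine isNilpotent_of_forall_sylow_normal fun p _ P => ?_
  let D : Subgroup K := ⨅ r : {r : Nat.Primes // (r : ℕ) ≠ p}, (pPrimeCore r.1 G).subgroupOf K
  haveI : D.Normal := normal_iInf_normal fun _ => inferInstance
  have hD : IsPGroup p D := by
    refine IsPGroup.of_card (n := _) (Nat.eq_prime_pow_of_unique_prime_dvd Nat.card_pos.ne' fun {r} hr hd => ?_)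
    by_contra hrp
    haveI := Fact.mk hr
    refine not_dvd_card_pPrimeCore r G ((hd.trans (card_dvd_of_le (iInf_le _ ⟨⟨r, hr⟩, hrp⟩))).trans ?_)
    exact card_comap_dvd_of_injective _ _ K.subtype_injective
  have hle : (P : Subgroup K) ≤ D := le_iInf fun r x hx => by
    haveI := Fact.mk r.1.2
    have hrp : (r.1 : ℕ).Coprime p := (Nat.coprime_primes Fact.out Fact.out).2 r.2
    have hc := cop_of_mem P.2 hx hrp
    rw [← orderOf_coe] at hc
    have h3 := cop_of_mem (key r.1) (mem_map_of_mem _ x.2) hc.symm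
    have h4 := orderOf_eq_one_iff.1 (Nat.Coprime.eq_one_of_dvd h3.symm (orderOf_map_dvd _ _))
    exact (QuotientGroup.eq_one_iff (x : G)).1 h4
  rw [← P.is_maximal' hD hle]
  infer_instance

/-- a simple group of even order has an elementary abelian `2`-subgroup with a non-trivial odd automizer -/
theorem exists_elem [IsSimpleGroup G] (hs : ¬ Group.IsSolvable G) : ∃ (E : Subgroup G) (e y : G),
    (∀ u ∈ E, u * u = 1) ∧ e ∈ E ∧ y ∈ normalizer (E : Set G) ∧ (orderOf y).Coprime 2 ∧ ⁅e, y⁆ ≠ 1 := by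
  by_contra hn
  push Not at hn
  obtain ⟨S⟩ : Nonempty (Sylow 2 G) := inferInstance
  have h2 : 2 ∣ Nat.card G := by
    by_contra h
    exact hs (FTC.solvable_of_odd (Nat.odd_iff.2 (by omega)))
  haveI : Nontrivial S := (nontrivial_iff_ne_bot _).2 (S.ne_bot_of_dvd_card h2)
  haveI := S.2.center_nontrivial
  obtain ⟨z0, hz0⟩ := exists_prime_orderOf_dvd_card' (G := center S) 2
    (((S.2.to_subgroup (center S)).card_eq_or_dvd).resolve_left Finite.one_lt_card.ne')
  set z : G := z0.1.1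
  have hz : orderOf z = 2 := by rw [orderOf_coe, orderOf_coe, hz0]
  have hc : ∀ s ∈ (S : Subgroup G), s * z = z * s := fun s hs =>
    congrArg Subtype.val (mem_center_iff.1 z0.2 ⟨s, hs⟩)
  have hi : IsIsolatedInvolution z := by
    refine (Invol.isolated_iff_sylow S hz z0.1.2).2 fun g hg => ?_
    refine Invol.alperin_odd S (fun a b => a = z → b = z) (fun a b c h1 h2 h => h2 (h1 h)) ?_ ?_ z0.1.2 hg rfl
    · rintro s hs _ - rfl
      rw [hc s hs]; group
    rintro D hD - y hy hy2 _ hzD rfl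
    let E : Subgroup G :=
      { carrier := {u | u ∈ D ∧ (∀ d ∈ D, d * u = u * d) ∧ u * u = 1}
        one_mem' := ⟨one_mem _, by simp, by simp⟩
        mul_mem' := fun {a b} ha hb => ⟨mul_mem ha.1 hb.1, fun d hd => by
          rw [← mul_assoc, ha.2.1 d hd, mul_assoc, hb.2.1 d hd, mul_assoc], by
          rw [mul_assoc, ← mul_assoc b, ha.2.1 b hb.1, mul_assoc, hb.2.2, mul_one, ha.2.2]⟩
        inv_mem' := fun {a} ha => by rwa [inv_eq_of_mul_eq_one_right ha.2.2] }
    have hzz : z * z = 1 := by rw [← pow_two, ← hz, pow_orderOf_eq_one]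
    have := hn E z y (fun u hu => hu.2.2) ⟨hzD, fun d hd => hc d (hD hd), hzz⟩
      (mem_normalizer_fintype fun u hu => ⟨(mem_normalizer_iff.1 hy u).1 hu.1, fun d hd => by
        have := hu.2.1 _ ((mem_normalizer_iff''.1 hy d).1 hd)
        calc d * (y * u * y⁻¹) = y * (y⁻¹ * d * y * u) * y⁻¹ := by group
          _ = _ := by rw [this]; group,
        by calc y * u * y⁻¹ * (y * u * y⁻¹) = y * (u * u) * y⁻¹ := by group
          _ = 1 := by rw [hu.2.2]; group⟩) hy2
    rw [← commutatorElement_eq_one_iff_mul_comm.1 this]; group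
  have hO : pPrimeCore 2 G = ⊥ := (IsSimpleGroup.eq_bot_or_eq_top_of_normal _ inferInstance).resolve_right fun h =>
    not_dvd_card_pPrimeCore 2 G (by rwa [h, card_top])
  have := Block.zstar_center hi hO
  rcases IsSimpleGroup.eq_bot_or_eq_top_of_normal (center G) inferInstance with h | h
  · rw [h, mem_bot] at this
    rw [this, orderOf_one] at hz; omega
  · exact hs (Group.isSolvable_of_comm fun a b => mem_center_iff.1 (h ▸ mem_top b) a)
end

theorem Hyp.sol {k : ℕ} : ∀ (n : ℕ) (G : Type u) [Group G] [Finite G], Nat.card G = n → Hyp k G →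
    Group.IsSolvable G := by
  intro n
  induction n using Nat.strong_induction_on with
  | _ n ih =>
  intro G _ _ hn h
  by_contra hs
  have hp (S : Subgroup G) (hS : S ≠ ⊤) : Group.IsSolvable S :=
    ih _ (hn ▸ card_lt_of_ne_top hS) S rfl (h.sub S)
  haveI : Nontrivial G := by
    by_contra h0
    haveI := not_nontrivial_iff_subsingleton.1 h0
    exact hs inferInstance
  obtain ⟨M, -, ⟨hM, hM1⟩, hmax⟩ := Finite.exists_le_maximal (α := Subgroup G) (p := fun M => M.Normal ∧ M ≠ ⊤)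
    (a := ⊥) ⟨inferInstance, bot_ne_top⟩
  set π := QuotientGroup.mk' M
  have hπ : Function.Surjective π := QuotientGroup.mk'_surjective _
  have hker : π.ker = M := QuotientGroup.ker_mk' M
  haveI := hp M hM1
  have hs' : ¬ Group.IsSolvable (G ⧸ M) := fun _ =>
    hs (Group.isSolvable_of_ker_le_range M.subtype π (by rw [hker, range_subtype]))
  haveI : IsSimpleGroup (G ⧸ M) := by
    haveI : Nontrivial (G ⧸ M) := QuotientGroup.nontrivial_iff.2 hM1
    refine ⟨fun N hN => ?_⟩
    by_cases e : N.comap π = ⊤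
    · right; rw [← map_comap_eq_self_of_surjective hπ N, e, map_top_of_surjective _ hπ]
    · left
      have := hmax ⟨inferInstance, e⟩ (hker.ge.trans (ker_le_comap π N))
      rw [← map_comap_eq_self_of_surjective hπ N, Subgroup.map_eq_bot_iff, hker]
      exact this
  have hfr (S : Subgroup G) (hS : S.map π = ⊤) : S = ⊤ := by
    by_contra e
    haveI := hp S e
    refine hs' (Group.isSolvable_of_surjective (f := π.comp S.subtype) fun y => ?_)
    obtain ⟨x, hx, rfl⟩ : y ∈ S.map π := hS ▸ mem_top y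
    exact ⟨⟨x, hx⟩, rfl⟩
  have hr : ∀ V : Subgroup (G ⧸ M), V ≤ π.range := fun V => by rw [MonoidHom.range_eq_top.2 hπ]; exact le_top
  obtain ⟨E, e, y, hE, he, hy, hy2, hey⟩ := exists_elem hs'
  have hE2 : IsPGroup 2 E := fun u => ⟨1, Subtype.ext (by simpa [pow_two] using hE u u.2)⟩
  obtain ⟨P, hP, rfl, hl⟩ := AltSec.exists_lift π hE2 (hr _)
  obtain ⟨e, he', rfl⟩ := he
  obtain ⟨y, rfl⟩ := hπ y
  obtain ⟨y, hy', ey⟩ := hl y hy
  rw [← ey] at hy hy2 hey
  set t := it e y k
  have htP : t ∈ P := it_mem he' hy' k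
  have ht1 : π t ≠ 1 := fun h1 => hey (engel (mem_map_of_mem π he') hy (coprime_card_of_isPGroup hE2 hy2) k
    (by rw [← map_it]; exact h1))
  have htt : π t * π t = 1 := hE _ (mem_map_of_mem π htP)
  have ht2 : orderOf (π t) = 2 := orderOf_eq_prime (by rw [pow_two, htt]) ht1
  have hO2 : pCore 2 (G ⧸ M) = ⊥ := (IsSimpleGroup.eq_bot_or_eq_top_of_normal _ inferInstance).resolve_right fun h =>
    hs' (by haveI := (pCore_eq_top_iff.1 h).isNilpotent; infer_instance)
  obtain ⟨r, hr1, hr2, hr3⟩ := Invol.exists_prime_inverted ht2 (by rw [hO2, mem_bot]; exact ht1)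
  have hc2 : (orderOf r).Coprime 2 := Nat.coprime_two_right.2 hr2
  -- `O₂(G)` is central
  have hZ : centralizer (pCore 2 G : Set G) = ⊤ := by
    haveI := Fact.mk hr1
    have hR : IsPGroup (orderOf r) (zpowers r) := IsPGroup.of_card (n := 1) (by rw [Nat.card_zpowers, pow_one])
    obtain ⟨R, hR', eR, hl⟩ := AltSec.exists_lift π hR (hr _)
    obtain ⟨m, hm, em⟩ := hl t (mem_normalizer_fintype fun u hu => by
      obtain ⟨j, rfl⟩ := mem_zpowers_iff.1 hu
      rw [Invol.conj_zpow_of_inverts hr3]; exact inv_mem hu)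
    obtain ⟨a, ha, ea⟩ : r ∈ R.map π := eR ▸ mem_zpowers r
    have hx := it_mem ha hm k
    have h1 := h _ (it_Vs a m k) (pCore 2 G) (by rw [normalizer_eq_top]; trivial)
      (cop_of_mem hR' hx (coprime_card_of_isPGroup (isPGroup_pCore 2 G) hc2))
    have h2 : ∀ j, it r (π t) j = r ^ 2 ^ j := fun j => by
      induction j with
      | zero => simp [it]
      | succ j ih =>
        rw [it, ih, commutatorElement_def, mul_assoc, mul_assoc, ← mul_assoc (π t), ← inv_pow, ← conj_pow,
          ← conj_inv, hr3, inv_inv, ← pow_add, pow_succ, mul_two]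
    refine hfr _ ((IsSimpleGroup.eq_bot_or_eq_top_of_normal _ (Normal.map inferInstance π hπ)).resolve_left fun h0 => ?_)
    have h3 : π (it a m k) ∈ (centralizer (pCore 2 G : Set G)).map π := mem_map_of_mem π fun b hb => (h1 b hb).eq
    rw [h0, mem_bot, map_it, ea, em, h2] at h3
    exact hr1.one_lt.ne' ((hc2.pow_right k).eq_one_of_dvd (orderOf_dvd_of_pow_eq_one h3))
  have htc : ∀ g, g * (t * t) = t * t * g := fun g => by
    have hM2 : t * t ∈ M := by rw [← hker, MonoidHom.mem_ker, map_mul, htt]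
    obtain ⟨T, hT⟩ := ((hP.comap_subtype (K := M))).exists_le_sylow
    haveI : ((T : Subgroup M).map M.subtype).Normal := normalizer_eq_top_iff.1 (hfr _ (by
      have := congrArg (Subgroup.map π) (Sylow.normalizer_sup_eq_top T)
      rwa [Subgroup.map_sup, (Subgroup.map_eq_bot_iff M).2 hker.ge, sup_bot_eq, map_top_of_surjective _ hπ] at this))
    have : t * t ∈ pCore 2 G := le_pCore (T.2.map M.subtype) ⟨⟨_, hM2⟩, hT (mul_mem htP htP), rfl⟩
    exact ((hZ ▸ mem_top g : g ∈ centralizer (pCore 2 G : Set G)) _ this).symm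
  obtain ⟨g, rfl⟩ := hπ r
  set w := ⁅t, g⁆
  have hw : t * w * t⁻¹ = w⁻¹ := by
    have := htc g
    calc t * w * t⁻¹ = t * t * g * t⁻¹ * g⁻¹ * t⁻¹ := by simp only [w, commutatorElement_def]; group
      _ = w⁻¹ := by rw [← this]; simp only [w, commutatorElement_def]; group
  obtain ⟨j, m, hm, em⟩ := Nat.exists_eq_two_pow_mul_odd (orderOf_pos w).ne'
  have ho : orderOf (w ^ 2 ^ j) ∣ m := orderOf_dvd_of_pow_eq_one (by rw [← pow_mul, ← em, pow_orderOf_eq_one])
  have hw' := Invol.conj_pow_of_inverts hw (2 ^ j)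
  have h1 := h t (it_Vs e y k) (zpowers (w ^ 2 ^ j)) (mem_normalizer_fintype fun u hu => by
      obtain ⟨i, rfl⟩ := mem_zpowers_iff.1 hu
      rw [Invol.conj_zpow_of_inverts hw']; exact inv_mem hu)
    (cop_of_mem hP htP (by rw [Nat.card_zpowers]; exact (Nat.coprime_two_right.2 hm).coprime_dvd_left ho))
    _ (mem_zpowers _)
  have h2 : w ^ (2 ^ j * 2) = 1 := by
    rw [pow_mul, pow_two, ← eq_inv_iff_mul_eq_one, ← hw', ← h1.eq, mul_inv_cancel_right]
  have h3 : π w = (π g ^ 2)⁻¹ := by rw [map_commutatorElement, commutatorElement_def, hr3]; group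
  have h4 := congrArg π h2
  rw [map_pow, h3, map_one, inv_pow, inv_eq_one, ← pow_mul, ← pow_succ, ← pow_succ'] at h4
  exact hr1.one_lt.ne' ((hc2.pow_right _).eq_one_of_dvd (orderOf_dvd_of_pow_eq_one h4))

theorem Vs_iff {G : Type*} [Group G] : ∀ (k : ℕ) (x : G), x ∈ Vs (⊤ : Subgroup G) k ↔
    ∃ (a : G) (l : List G), l.length = k ∧ x = l.foldl (fun a b => a * b * a⁻¹ * b⁻¹) a
  | 0, x => ⟨fun _ => ⟨x, [], rfl, rfl⟩, fun _ => trivial⟩
  | k + 1, x => by
    constructor
    · rintro ⟨v, hv, b, -, rfl⟩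
      obtain ⟨a, l, h1, rfl⟩ := (Vs_iff k v).1 hv
      exact ⟨a, l ++ [b], by simp [h1], by simp [commutatorElement_def]⟩
    · rintro ⟨a, l, h1, rfl⟩
      rcases List.eq_nil_or_concat l with rfl | ⟨l, b, rfl⟩
      · simp at h1
      · exact ⟨_, (Vs_iff k _).2 ⟨a, l, by simpa using h1, rfl⟩, b, trivial, by simp [commutatorElement_def]⟩

theorem Vs_iff' {G : Type*} [Group G] (k : ℕ) (x : G) : (∃ f : Fin (k + 1) → G,
    x = ((List.ofFn f).tail).foldl (fun a b => a * b * a⁻¹ * b⁻¹) (f 0)) ↔ x ∈ Vs (⊤ : Subgroup G) k := by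
  rw [Vs_iff]
  constructor
  · rintro ⟨f, rfl⟩
    exact ⟨_, _, by simp, rfl⟩
  · rintro ⟨a, l, rfl, rfl⟩
    exact ⟨Fin.cons a l.get, by simp [List.ofFn_succ]⟩

/-- A criterion of Baumslag–Wiegold type for a term of the lower central series. Let G be a finite group and k ≥ 0; call an element a left-normed commutator value of length k + 1 when it has the form [[…[x₀, x₁], …], x_k] with k + 1 entries (for k = 0, any element), where [a, b] = aba⁻¹b⁻¹. Then the (k+1)-st term γ_{k+1}(G) of the lower central series (γ₁(G) = G) is nilpotent if and only if for every two such values x, y of coprime orders, either every prime dividing o(x)·o(y) divides o(xy), or o(x)·o(y) ≤ o(xy). -/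
theorem result {G : Type*} [Group G] [Finite G] (k : ℕ) :
    Group.IsNilpotent ↥((⊤ : Subgroup G).lowerCentralSeries k) ↔
      ∀ x y : G, (∃ f : Fin (k + 1) → G, x = ((List.ofFn f).tail).foldl (fun a b => a * b * a⁻¹ * b⁻¹) (f 0)) → (∃ f : Fin (k + 1) → G, y = ((List.ofFn f).tail).foldl (fun a b => a * b * a⁻¹ * b⁻¹) (f 0)) → (orderOf x).Coprime (orderOf y) →
        (∀ r : ℕ, r.Prime → r ∣ orderOf x * orderOf y → r ∣ orderOf (x * y)) ∨ orderOf x * orderOf y ≤ orderOf (x * y) := by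
  simp only [Vs_iff']
  constructor
  · intro h x y hx hy hc
    have := Solv.le_centralizer_of_coprime_of_isNilpotent (Subgroup.zpowers_le.2 (Vs_le hx)) (Subgroup.zpowers_le.2 (Vs_le hy))
      (by rwa [Nat.card_zpowers, Nat.card_zpowers]) (Subgroup.mem_zpowers x) y (Subgroup.mem_zpowers y)
    exact Or.inr (Commute.orderOf_mul_eq_mul_orderOf_of_coprime this.symm hc).ge
  · intro h
    have hh : Hyp k G := fun x hx N hN hc a ha => by
      refine commutatorElement_eq_one_iff_commute.1 (engel ha hN hc (k + 1) ?_)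
      have hc' := hc.coprime_dvd_left (Subgroup.orderOf_dvd_natCard N (it_mem ha hN (k + 1)))
      have e : orderOf (it a x (k + 1) * x) = orderOf x := by
        rw [it, commutatorElement_def, inv_mul_cancel_right]
        exact (MulAut.conj (it a x k)).orderOf_eq x
      rw [← orderOf_eq_one_iff]
      rcases h _ x (Vs_succ (it_Vs a x (k + 1))) hx hc' with h1 | h1
      · by_contra h0
        obtain ⟨r, hr, hd⟩ := Nat.exists_prime_and_dvd h0
        exact hr.one_lt.ne' (Nat.eq_one_of_dvd_coprimes hc' hd (e ▸ h1 r hr (hd.mul_right _)))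
      · rw [e] at h1
        have := orderOf_pos (it a x (k + 1))
        have := orderOf_pos x
        nlinarith
    haveI := Hyp.sol _ G rfl hh
    exact hh.nil

end Cfsg.Agent.S3900
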