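import Cfsg.Statements.S3904
import Cfsg.Agent.FG.MaxCent

set_option autoImplicit false
open Cfsg

namespace Cfsg.Agent.S3904

open Subgroup FG.MaxCent
open scoped Pointwise Cfsg.Agent.Loc

/-- Let G be a non-abelian finite group in which the centralizer of every non-central element is a maximal subgroup. Then G/Z(G) is either an elementary abelian p-group for some prime p, or a minimal non-abelian group (non-abelian with all proper subgroups abelian) of order p^a · q for distinct primes p, q with a normal Sylow p-subgroup. -/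
theorem result {G : Type*} [Group G] [Finite G] (hna : ¬ IsMulCommutative G)
    (h : ∀ x : G, x ∉ Subgroup.center G → IsCoatom (Subgroup.centralizer ({x} : Set G))) :
    (∃ p : ℕ, p.Prime ∧ Cfsg.IsElementaryAbelian p (⊤ : Subgroup (G ⧸ Subgroup.center G))) ∨
    (¬ IsMulCommutative (G ⧸ Subgroup.center G) ∧ (∀ H : Subgroup (G ⧸ Subgroup.center G), H ≠ ⊤ → IsMulCommutative ↥H) ∧
      ∃ p q a : ℕ, p.Prime ∧ q.Prime ∧ p ≠ q ∧ Nat.card (G ⧸ Subgroup.center G) = p ^ a * q ∧
        ∀ P : Subgroup (G ⧸ Subgroup.center G), Nat.card ↥P = p ^ a → P.Normal) := by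
  let f := QuotientGroup.mk' (center G)
  have hf : Function.Surjective f := QuotientGroup.mk'_surjective _
  have hZ : ∀ x, x ∈ center G ↔ x ∈ (⊤ : Subgroup G) ∧ ∀ n ∈ (⊤ : Subgroup G), n * x = x * n :=
    fun x => by simp [mem_center_iff]
  have hk : ∀ x : G, f x = 1 ↔ x ∈ center G := fun x => QuotientGroup.eq_one_iff x
  have hc : ∀ x y : G, x * y * x⁻¹ * y⁻¹ ∈ center G ↔ f x * f y = f y * f x := fun x y => by
    rw [← mul_inv_eq_iff_eq_mul, ← mul_inv_eq_one, ← map_inv, ← map_inv, ← map_mul, ← map_mul,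
      ← map_mul, hk]
  rcases main ⊤ _ hZ (fun x _ h1 => h x h1) with ⟨p, hp, h1, h2⟩ |
    ⟨E, p, r, y, hp, hr, hE, hZE, -, hEZ, hab, hEp, -, hyE, hyr, hNE, fpf⟩
  · refine Or.inl ⟨p, hp, ⟨⟨fun a b => Subtype.ext ?_⟩⟩, fun a _ => ?_⟩
    · obtain ⟨a, -⟩ := a
      obtain ⟨b, -⟩ := b
      obtain ⟨a, rfl⟩ := hf a
      obtain ⟨b, rfl⟩ := hf b
      exact (hc a b).1 (h1 a trivial b trivial)
    · obtain ⟨a, rfl⟩ := hf a
      rw [← map_pow, hk]; exact h2 a trivial
  right
  have hm : ∀ x : G, f x ∈ E.map f ↔ x ∈ E := fun x => by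
    refine ⟨?_, fun h => mem_map_of_mem f h⟩
    rintro ⟨e, he, hex⟩
    have : f (e⁻¹ * x) = 1 := by rw [map_mul, map_inv, hex, inv_mul_cancel]
    exact (mul_mem_cancel_left (inv_mem he)).1 (hZE ((hk _).1 this))
  haveI : (E.map f).Normal := Normal.map inferInstance f hf
  have fpf' : ∀ n, n ∉ E.map f → ∀ e ∈ E.map f, e * n = n * e → e = 1 := fun n hn e he h1 => by
    obtain ⟨n, rfl⟩ := hf n
    obtain ⟨e, rfl⟩ := hf e
    exact (hk e).2 (fpf n trivial (fun h2 => hn ((hm n).2 h2)) e ((hm e).1 he) ((hc e n).2 h1))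
  have hK0 : E.map f ≠ ⊥ := fun h0 => hEZ fun e he => (hk e).1 (mem_bot.1 (h0 ▸ (hm e).2 he))
  have hyK : f y ∉ E.map f := fun h1 => hyE ((hm _).1 h1)
  obtain ⟨a, b, c, d⟩ := frob (K := E.map f) (y := f y) hr hK0 hyK
    (by rw [← map_pow, hk]; exact hyr)
    (by rw [← MonoidHom.map_zpowers, ← Subgroup.map_sup, top_le_iff.1 hNE,
      map_top_of_surjective _ hf]) fpf'
  have hKp : ∀ x ∈ E.map f, x ^ p = 1 := by
    rintro _ ⟨a, ha, rfl⟩
    rw [← map_pow, hk]; exact hEp a ha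
  have hKc : IsMulCommutative (E.map f) := ⟨⟨fun a b => Subtype.ext (by
    obtain ⟨_, a, ha, rfl⟩ := a
    obtain ⟨_, b, hb, rfl⟩ := b
    show f a * f b = f b * f a
    rw [← map_mul, ← map_mul, hab a ha b hb])⟩⟩
  have hQ : IsCoatom (zpowers (f y)) := by
    refine ⟨a.2.1, fun L hL => ?_⟩
    have h1 := h y fun h1 => hyE (hZE h1)
    have hy1 : f y ≠ 1 := fun h2 => hyK (h2 ▸ one_mem _)
    have h3 : ∀ g ∈ centralizer ({y} : Set G), f g ∈ zpowers (f y) := fun g hg =>
      Frob.mem_of_commute a (mem_zpowers _) hy1 (by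
        rw [← map_mul, ← map_mul, mem_centralizer_singleton_iff.1 hg])
    rw [← map_comap_eq_self_of_surjective hf L, h1.2 (L.comap f) (lt_of_le_of_ne
      (fun g hg => hL.le (h3 g hg)) fun h2 => hL.not_ge fun x hx => ?_), map_top_of_surjective _ hf]
    obtain ⟨x, rfl⟩ := hf x
    exact h3 x (h2 ▸ hx)
  haveI := Fact.mk hp
  haveI := Fact.mk hr
  have hKP : IsPGroup p (E.map f) := Solv.isPGroup_of_pow_eq_one hKp
  obtain ⟨n, hn⟩ := IsPGroup.iff_card.1 hKP
  have hi : (E.map f).index = r := by rw [d.symm.index_eq_card, b]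
  have hpr : p ≠ r := by
    rintro rfl
    have h1 := Frob.coprime_card_index a
    rw [b, d.index_eq_card] at h1
    exact hp.one_lt.ne' (h1.eq_one_of_dvd (Solv.dvd_card_of_isPGroup hKP hK0))
  have hle : ∀ L : Subgroup (G ⧸ center G), ¬ r ∣ Nat.card L → L ≤ E.map f := fun L hL x hx => by
    rw [← QuotientGroup.eq_one_iff, ← orderOf_eq_one_iff]
    have h1 : orderOf (x : (G ⧸ center G) ⧸ E.map f) ∣ r := hi ▸ orderOf_dvd_natCard _
    have h2 : orderOf (x : (G ⧸ center G) ⧸ E.map f) ∣ Nat.card L :=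
      (orderOf_map_dvd (QuotientGroup.mk' (E.map f)) x).trans (orderOf_dvd_natCard L hx)
    exact ((Nat.dvd_prime hr).1 h1).resolve_right fun h3 => hL (h3 ▸ h2)
  refine ⟨fun h1 => hK0 (eq_bot_iff.2 fun e he => fpf' _ hyK e he (h1.is_comm.comm _ _)),
    fun L hL => ?_, p, r, n, hp, hr, hpr, by rw [← d.card_mul_card, hn, b], fun P hP => ?_⟩
  · by_cases h1 : r ∣ Nat.card L
    · obtain ⟨l, hl, hlo⟩ := Loc.exists_orderOf_eq_of_dvd_card (p := r) (N := L) h1
      have h2 : l ∉ frobeniusKernel (zpowers (f y)) := fun h2 => by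
        rw [← c] at h2
        have := orderOf_dvd_of_pow_eq_one (hKp l h2)
        rw [hlo] at this
        exact hpr ((Nat.prime_dvd_prime_iff_eq hr hp).1 this).symm
      rw [Frob.mem_frobeniusKernel] at h2
      push Not at h2
      obtain ⟨h2, g, hg⟩ := h2
      have h3 : zpowers (g⁻¹ * l * g) = zpowers (f y) := eq_of_le_of_card_ge (zpowers_le.2 hg) (by
        rw [b, Nat.card_zpowers, ← hlo]
        exact ((MulAut.conj g⁻¹).orderOf_eq l).symm.le.trans (by simp))
      have h4 : zpowers (f y) ≤ cj g⁻¹ L := by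
        rw [← h3, zpowers_le, Loc.mem_cj]; simpa [mul_assoc] using hl
      rcases (hQ.le_iff).1 h4 with h5 | h5
      · exact absurd (Loc.cj_eq_top_iff.1 h5) hL
      · rw [Loc.cj_eq_iff.1 h5]
        exact Loc.isMulCommutative_cj _ inferInstance
    · exact ⟨⟨fun a b => Subtype.ext (congrArg Subtype.val
        (hKc.is_comm.comm ⟨a, hle L h1 a.2⟩ ⟨b, hle L h1 b.2⟩) :)⟩⟩
  · have h1 := hle P (by
      rw [hP]; exact fun h1 => hpr ((Nat.prime_dvd_prime_iff_eq hr hp).1 (hr.dvd_of_dvd_pow h1)).symm)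
    rw [eq_of_le_of_card_ge h1 (by rw [hn, hP])]
    infer_instance

end Cfsg.Agent.S3904
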