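import Cfsg.Statements.S3905
import Cfsg.Agent.FG.MaxCent

set_option autoImplicit false
open Cfsg

namespace Cfsg.Agent.S3905

open Subgroup FG.MaxCent

/-- Let N be a normal subgroup of the finite group G such that for every element x of N outside the center of N the centralizer C_G(x) is a maximal subgroup of G. Then N/Z(N) is either an elementary abelian p-group for some prime p, or a Frobenius group whose kernel is an elementary abelian normal subgroup and whose complement has prime order. -/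
theorem result {G : Type*} [Group G] [Finite G] (N : Subgroup G) [N.Normal]
    (h : ∀ x : G, x ∈ N → x ∉ Subgroup.centralizer (N : Set G) → IsCoatom (Subgroup.centralizer ({x} : Set G))) :
    (∃ p : ℕ, p.Prime ∧ Cfsg.IsElementaryAbelian p (⊤ : Subgroup (↥N ⧸ Subgroup.center ↥N))) ∨
    (∃ (Q K : Subgroup (↥N ⧸ Subgroup.center ↥N)) (p : ℕ), p.Prime ∧ Cfsg.IsFrobeniusComplement Q ∧ (Nat.card ↥Q).Prime ∧
      K.Normal ∧ (K : Set (↥N ⧸ Subgroup.center ↥N)) = Cfsg.frobeniusKernel Q ∧ Cfsg.IsElementaryAbelian p K) := by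
  let f := QuotientGroup.mk' (center N)
  have hf : Function.Surjective f := QuotientGroup.mk'_surjective _
  have hZ : ∀ x, x ∈ N ⊓ centralizer (N : Set G) ↔ x ∈ N ∧ ∀ n ∈ N, n * x = x * n := fun x => Iff.rfl
  have hk : ∀ x : N, f x = 1 ↔ (x : G) ∈ N ⊓ centralizer (N : Set G) := fun x => by
    rw [hZ]
    refine (QuotientGroup.eq_one_iff x).trans (mem_center_iff.trans ?_)
    exact ⟨fun h => ⟨x.2, fun n hn => congrArg Subtype.val (h ⟨n, hn⟩)⟩,
      fun h n => Subtype.ext (h.2 n n.2)⟩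
  have hc : ∀ x y : N, (x : G) * y * (x : G)⁻¹ * (y : G)⁻¹ ∈ N ⊓ centralizer (N : Set G) ↔
      f x * f y = f y * f x := fun x y => by
    rw [← mul_inv_eq_iff_eq_mul, ← mul_inv_eq_one, ← map_inv, ← map_inv, ← map_mul, ← map_mul,
      ← map_mul, hk]; rfl
  rcases main N _ hZ (fun x hx h1 => h x hx fun h2 => h1 ⟨hx, h2⟩) with ⟨p, hp, h1, h2⟩ |
    ⟨E, p, r, y, hp, hr, hE, hZE, hEN, hEZ, hab, hEp, hy, hyE, hyr, hNE, fpf⟩
  · refine Or.inl ⟨p, hp, ⟨⟨fun a b => Subtype.ext ?_⟩⟩, fun a _ => ?_⟩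
    · obtain ⟨a, -⟩ := a
      obtain ⟨b, -⟩ := b
      obtain ⟨a, rfl⟩ := hf a
      obtain ⟨b, rfl⟩ := hf b
      exact (hc a b).1 (h1 a a.2 b b.2)
    · obtain ⟨a, rfl⟩ := hf a
      rw [← map_pow, hk]; exact h2 a a.2
  · have hm : ∀ x : N, f x ∈ (E.subgroupOf N).map f ↔ (x : G) ∈ E := fun x => by
      refine ⟨?_, fun h => mem_map_of_mem f h⟩
      rintro ⟨e, he, hex⟩
      have : f (e⁻¹ * x) = 1 := by rw [map_mul, map_inv, hex, inv_mul_cancel]
      exact (mul_mem_cancel_left (inv_mem (show (e : G) ∈ E from he))).1 (hZE ((hk _).1 this))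
    haveI : ((E.subgroupOf N).map f).Normal := Normal.map inferInstance f hf
    obtain ⟨a, b, c, -⟩ := frob (K := (E.subgroupOf N).map f) (y := f ⟨y, hy⟩) hr
      (fun h0 => hEZ fun e he => (hk ⟨e, hEN he⟩).1 (mem_bot.1 (h0 ▸ (hm ⟨e, hEN he⟩).2 he)))
      (fun h1 => hyE ((hm _).1 h1)) (by rw [← map_pow, hk]; exact hyr)
      (eq_top_iff.2 fun x _ => by
        obtain ⟨x, rfl⟩ := hf x
        obtain ⟨_, ⟨j, rfl⟩, e, he, hx⟩ := (mem_sup_of_normal_right).1 (hNE x.2)
        have : x = ⟨y, hy⟩ ^ j * ⟨e, hEN he⟩ := Subtype.ext hx.symm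
        rw [this, map_mul, map_zpow]
        exact mul_mem (mem_sup_left (zpow_mem (mem_zpowers _) j)) (mem_sup_right ((hm _).2 he)))
      (fun n hn e he h1 => by
        obtain ⟨n, rfl⟩ := hf n
        obtain ⟨e, rfl⟩ := hf e
        exact (hk e).2 (fpf n n.2 (fun h2 => hn ((hm n).2 h2)) e ((hm e).1 he) ((hc e n).2 h1)))
    refine Or.inr ⟨_, _, p, hp, a, b.symm ▸ hr, inferInstance, c, ⟨⟨fun a b => Subtype.ext ?_⟩⟩, ?_⟩
    · obtain ⟨_, a, ha, rfl⟩ := a
      obtain ⟨_, b, hb, rfl⟩ := b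
      show f a * f b = f b * f a
      rw [← map_mul, ← map_mul]
      exact congrArg f (Subtype.ext (hab a ha b hb))
    · rintro _ ⟨a, ha, rfl⟩
      rw [← map_pow, hk]; exact hEp a ha

end Cfsg.Agent.S3905
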