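import Cfsg.Statements.S3909
import Cfsg.Agent.Loc.Rk1
import Cfsg.Agent.PGrp.Basic

set_option autoImplicit false
open Cfsg

namespace Cfsg.Agent.S3909

open Subgroup Cfsg.Agent.Loc in
theorem mem_of {G : Type*} [Group G] [Finite G] (hB : ∀ A B : Subgroup G, IsMulCommutative ↥A → IsMulCommutative ↥B → Nat.card ↥A = Nat.card ↥B → ∃ g : G, B = A.map (MulAut.conj g).toMonoidHom) (M : Subgroup G) [M.Normal] (a : G) (h : ∃ m ∈ M, orderOf m = orderOf a) : a ∈ M := by
  obtain ⟨m, hm, e⟩ := h
  obtain ⟨g, hg⟩ := hB (zpowers m) (zpowers a) inferInstance inferInstance (by simp [e])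
  have : cj g (zpowers m) ≤ M := (cj_mono g (zpowers_le.2 hm)).trans (cj_eq_of_normal g M).le
  exact this (hg ▸ mem_zpowers a)

/-- Let G be a finite group in which any two abelian subgroups of the same order are conjugate. Let M be a normal subgroup of G. If M contains an element of the same order as a ∈ G, then a ∈ M; and if M is elementary abelian of order p^t with p prime and t ≥ 2, then M is the unique Sylow p-subgroup of G. -/
theorem result {G : Type*} [Group G] [Finite G] (hB : ∀ A B : Subgroup G, IsMulCommutative ↥A → IsMulCommutative ↥B → Nat.card ↥A = Nat.card ↥B → ∃ g : G, B = A.map (MulAut.conj g).toMonoidHom) (M : Subgroup G) [M.Normal] :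
    (∀ a : G, (∃ m ∈ M, orderOf m = orderOf a) → a ∈ M) ∧
    ∀ (p t : ℕ) [Fact p.Prime], 2 ≤ t → Nat.card ↥M = p ^ t → Cfsg.IsElementaryAbelian p M → ∀ P : Sylow p G, (P : Subgroup G) = M := by
  open Subgroup Cfsg.Agent.Loc in
  refine ⟨mem_of hB M, fun p t hp ht hM hE P => ?_⟩
  have hMp := isPGroup_of_isElementaryAbelian hE
  refine le_antisymm (fun x hx => ?_) ((le_pCore ‹_› hMp).trans (pCore_le_sylow P))
  obtain ⟨k, hk⟩ := exists_orderOf_of_isPGroup P.2 hx
  obtain ⟨E, hE2⟩ := Sylow.exists_subgroup_card_pow_prime_of_le_card hp.out hMp (n := 2)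
    (by rw [hM]; exact Nat.pow_le_pow_right hp.out.pos ht)
  rcases k with _ | _ | k
  · rw [pow_zero, orderOf_eq_one_iff] at hk; rw [hk]; exact one_mem _
  · obtain ⟨m, hm, e⟩ := exists_orderOf_eq_of_dvd_card (p := p) (N := M) (by rw [hM]; exact dvd_pow_self _ (by omega))
    exact mem_of hB M x ⟨m, hm, by rw [e, hk, zero_add, pow_one]⟩
  · exfalso
    have h1 : orderOf (x ^ p ^ k) = p ^ 2 := by
      rw [orderOf_pow_of_dvd (pow_ne_zero _ hp.out.ne_zero) (by rw [hk]; exact pow_dvd_pow _ (by omega)), hk,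
        show k + 1 + 1 = k + 2 by omega, pow_add, Nat.mul_div_cancel_left _ (pow_pos hp.out.pos k)]
    obtain ⟨g, hg⟩ := hB (E.map M.subtype) (zpowers (x ^ p ^ k))
      (isElementaryAbelian_of_le hE (map_subtype_le _)).1 inferInstance (by rw [card_map_subtype, hE2, Nat.card_zpowers, h1])
    have h2 : cj g (E.map M.subtype) ≤ M := (cj_mono g (map_subtype_le _)).trans (cj_eq_of_normal g M).le
    have h3 := orderOf_dvd_of_pow_eq_one (hE.2 _ (h2 (hg ▸ mem_zpowers (x ^ p ^ k))))
    rw [h1] at h3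
    have := Nat.le_of_dvd hp.out.pos h3
    have h4 := hp.out.one_lt
    nlinarith

end Cfsg.Agent.S3909
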