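import Cfsg.Statements.S3910
import Cfsg.Agent.Loc.Rk1
import Cfsg.Agent.PGrp.Basic
import Cfsg.Agent.Transfer.Hall
import Mathlib.GroupTheory.SpecificGroups.ZGroup

set_option autoImplicit false
open Cfsg

namespace Cfsg.Agent.S3910

open Subgroup Cfsg.Agent.Loc in
theorem pgrp {G : Type*} [Group G] [Finite G] {p : ℕ} [hp : Fact p.Prime] (hG : IsPGroup p G) (hB : ∀ A B : Subgroup G, IsMulCommutative ↥A → IsMulCommutative ↥B → Nat.card ↥A = Nat.card ↥B → ∃ g : G, B = A.map (MulAut.conj g).toMonoidHom) : IsCyclic G := by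
  haveI := hG.isNilpotent
  obtain ⟨A, hA, hc, -, hC⟩ := PGrp.exists_selfCentralizing_normal_abelian (⊥ : Subgroup G)
  have key : ∀ B : Subgroup G, IsMulCommutative B → Nat.card B ≤ Nat.card A → B ≤ A ∧ B.Normal ∧
      ∀ B' : Subgroup G, IsMulCommutative B' → Nat.card B' = Nat.card B → B' = B := by
    intro B hb hle
    obtain ⟨k, hk⟩ := IsPGroup.iff_card.1 (hG.to_subgroup B)
    obtain ⟨L, h1, h2, h3⟩ := PGrp.exists_normal_card_eq hG (N := A) k (hk ▸ hle)
    have hL : IsMulCommutative L := ⟨⟨fun a b => Subtype.ext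
      (congrArg (Subtype.val : A → G) (hc.is_comm.comm (⟨a, h2 a.2⟩ : A) ⟨b, h2 b.2⟩))⟩⟩
    have h4 : ∀ B' : Subgroup G, IsMulCommutative B' → Nat.card B' = p ^ k → B' = L := fun B' k1 k2 => by
      obtain ⟨g, hg⟩ := hB L B' hL k1 (h3.trans k2.symm)
      exact hg.trans (cj_eq_of_normal g L)
    rw [h4 B hb hk]
    exact ⟨h2, h1, fun B' k1 k2 => h4 B' k1 (k2.trans h3)⟩
  have hT : A = ⊤ := by
    rw [eq_top_iff]
    intro x _
    rcases le_total (Nat.card (zpowers x)) (Nat.card A) with h | h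
    · exact (key _ inferInstance h).1 (mem_zpowers x)
    · obtain ⟨k, hk⟩ := IsPGroup.iff_card.1 (hG.to_subgroup A)
      obtain ⟨E, hE⟩ := Sylow.exists_subgroup_card_pow_prime_of_le_card hp.out (hG.to_subgroup (zpowers x)) (hk ▸ h)
      have h2 := (key A hc le_rfl).2.2 (E.map (zpowers x).subtype) inferInstance (by rw [card_map_subtype, hE, hk])
      rw [← hC]
      intro a ha
      obtain ⟨n, hn⟩ := map_subtype_le _ (h2 ▸ ha : a ∈ E.map (zpowers x).subtype)
      rw [← hn]
      exact (Commute.zpow_left rfl n).eq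
  subst hT
  haveI : IsMulCommutative G := ⟨⟨fun a b => congrArg Subtype.val (hc.is_comm.comm (⟨a, trivial⟩ : (⊤ : Subgroup G)) ⟨b, trivial⟩)⟩⟩
  exact PGrp.isCyclic_of_unique hG fun H K h1 h2 =>
    (key K inferInstance (card_le_of_le le_top)).2.2 H inferInstance (h1.trans h2.symm)

/-- A finite nilpotent group in which any two abelian subgroups of the same order are conjugate is cyclic. -/
theorem result {G : Type*} [Group G] [Finite G] (hB : ∀ A B : Subgroup G, IsMulCommutative ↥A → IsMulCommutative ↥B → Nat.card ↥A = Nat.card ↥B → ∃ g : G, B = A.map (MulAut.conj g).toMonoidHom) (hnil : Group.IsNilpotent G) : IsCyclic G := by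
  open Subgroup Cfsg.Agent.Loc in
  haveI : IsZGroup G := ⟨fun p hp P => by
    haveI := Fact.mk hp
    refine pgrp P.2 fun A B hA hB' hc => ?_
    obtain ⟨g, hg⟩ := hB (A.map (P : Subgroup G).subtype) (B.map (P : Subgroup G).subtype) inferInstance
      inferInstance (by rw [card_map_subtype, card_map_subtype, hc])
    haveI : Group.IsNilpotent (⊤ : Subgroup G) := inferInstance
    obtain ⟨t, ht, c, hc, rfl⟩ := Transfer.IsSylowIn.exists_mul_centralizer_of_isNilpotent (p := p)
      (T := (P : Subgroup G)) (H := ⊤) ⟨le_top, P.2, by simpa using P.not_dvd_index⟩ (mem_top g)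
    refine ⟨⟨t, ht⟩, map_injective (P : Subgroup G).subtype_injective ?_⟩
    rw [hg, ← cj_map_subtype, ← cj_cj, cj_eq_of_mem_centralizer (centralizer_anti (map_subtype_le _) hc.1)]⟩
  infer_instance

end Cfsg.Agent.S3910
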