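import Cfsg.Statements.S3917
import Cfsg.Agent.Loc.Rk1
import Cfsg.Agent.PGrp.Basic
import Mathlib.GroupTheory.SpecificGroups.ZGroup

set_option autoImplicit false
open Cfsg

namespace Cfsg.Agent.S3917

/-- Say that a group has self-centralizing non-cyclic subgroups when every non-cyclic subgroup H satisfies C_G(H) ≤ H. A finite abelian group with self-centralizing non-cyclic subgroups is cyclic or elementary abelian of order p² for a prime p. -/
theorem result {G : Type*} [CommGroup G] [Finite G] (hX : (∀ H : Subgroup G, ¬ IsCyclic ↥H → Subgroup.centralizer (H : Set G) ≤ H)) :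
    IsCyclic G ∨ ∃ p : ℕ, p.Prime ∧ Nat.card G = p ^ 2 ∧ Monoid.exponent G = p := by
  open Subgroup Cfsg.Agent.Loc in
  by_contra hne
  push Not at hne
  refine hne.1 ?_
  haveI : IsZGroup G := ⟨fun p hp P => by
    haveI := Fact.mk hp
    refine PGrp.isCyclic_of_unique P.2 fun H K h1 h2 => ?_
    by_contra hHK
    obtain ⟨x, hx, ex⟩ := exists_orderOf_eq_of_dvd_card (p := p) (N := H) h1.symm.dvd
    obtain ⟨y, hy, ey⟩ := exists_orderOf_eq_of_dvd_card (p := p) (N := K) h2.symm.dvd
    have e1 : zpowers x = H := eq_of_le_of_card_ge (zpowers_le.2 hx) (by rw [Nat.card_zpowers, ex, h1])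
    have e2 : zpowers y = K := eq_of_le_of_card_ge (zpowers_le.2 hy) (by rw [Nat.card_zpowers, ey, h2])
    have ex' : orderOf (x : G) = p := (orderOf_coe x).trans ex
    have ey' : orderOf (y : G) = p := (orderOf_coe y).trans ey
    have hxp : (x : G) ^ p = 1 := orderOf_dvd_iff_pow_eq_one.1 ex'.dvd
    have hyp : (y : G) ^ p = 1 := orderOf_dvd_iff_pow_eq_one.1 ey'.dvd
    have hx1 : (x : G) ≠ 1 := fun e => hp.one_lt.ne' (ex'.symm.trans (by rw [e, orderOf_one]))
    have hyx : (y : G) ∉ zpowers (x : G) := by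
      rintro ⟨n, hn⟩
      have : y ∈ zpowers x := ⟨n, Subtype.ext hn⟩
      exact hHK (eq_of_le_of_card_ge (e1 ▸ e2 ▸ zpowers_le.2 this) (by rw [h1, h2])).symm
    have h3 := hX _ (not_isCyclic_sup hxp hyp hx1 hyx)
    have h4 : zpowers (x : G) ⊔ zpowers (y : G) = ⊤ := eq_top_iff.2 fun g _ => h3 fun a _ => mul_comm _ _
    have h5 := PGrp.card_sup_zpowers hp (H := zpowers (x : G)) (x := y) (by rw [normalizer_eq_top]; trivial) hyx
      (by rw [hyp]; exact one_mem _)
    rw [h4, card_top, Nat.card_zpowers, ex'] at h5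
    refine hne.2 p hp (by rw [h5, pow_two]) (Nat.dvd_antisymm
      (Monoid.exponent_dvd_of_forall_pow_eq_one fun g => ?_) ?_)
    · obtain ⟨a, ⟨i, rfl⟩, b, ⟨j, rfl⟩, rfl⟩ := mem_sup.1 (h4 ▸ mem_top g)
      simp only [mul_pow]
      rw [← zpow_natCast, ← zpow_natCast, ← zpow_mul, ← zpow_mul, mul_comm i, mul_comm j, zpow_mul, zpow_mul,
        zpow_natCast, zpow_natCast, hxp, hyp]
      simp
    · exact ex'.symm.dvd.trans (Monoid.order_dvd_exponent _)⟩
  infer_instance

end Cfsg.Agent.S3917
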