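import Cfsg.Statements.S3918
import Cfsg.Agent.Loc.Rk1
import Cfsg.Agent.PGrp.Basic
import Cfsg.Agent.Transfer.POdd

set_option autoImplicit false
open Cfsg

namespace Cfsg.Agent.S3918

/-- Say that a group has self-centralizing non-cyclic subgroups when every non-cyclic subgroup H satisfies C_G(H) ≤ H. For an odd prime p, a finite non-abelian p-group has self-centralizing non-cyclic subgroups if and only if it has order p³. -/
theorem result {G : Type*} [Group G] [Finite G] {p : ℕ} [Fact p.Prime] (hp : p ≠ 2) (hG : IsPGroup p G) (hna : ¬ IsMulCommutative G) :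
    (∀ H : Subgroup G, ¬ IsCyclic ↥H → Subgroup.centralizer (H : Set G) ≤ H) ↔ Nat.card G = p ^ 3 := by
  open Subgroup Cfsg.Agent.Loc in
  have hp' : p.Prime := Fact.out
  constructor
  · intro h
    obtain ⟨A, hA, hE, hc⟩ := Transfer.exists_normal_elementary_sq hp hG fun hc => hna inferInstance
    have h1 := Transfer.card_le_of_selfCentralizing hG A hc (h A fun hcy => by
      have := Transfer.card_le_of_isCyclic_of_pow_eq_one hp'.ne_zero hcy hE.2
      have h4 := hp'.one_lt
      nlinarith)
    obtain ⟨k, hk⟩ := IsPGroup.iff_card.1 hG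
    have h2 : ¬ Nat.card G ≤ p ^ 2 := fun h => hna (Transfer.isMulCommutative_of_card_le_sq hG h)
    rw [hk, Nat.pow_le_pow_iff_right hp'.one_lt] at h1 h2
    rw [hk, show k = 3 by simp at h1; omega]
  · intro h H hH
    by_contra hne
    obtain ⟨k, hk⟩ := IsPGroup.iff_card.1 (hG.to_subgroup H)
    have h2 : k ≤ 3 := by
      have := card_subgroup_dvd_card H
      rwa [hk, h, Nat.pow_dvd_pow_iff_le_right hp'.one_lt] at this
    have h3 : 2 ≤ k := by
      by_contra h3
      rcases (show k = 0 ∨ k = 1 by omega) with rfl | rfl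
      · rw [eq_bot_of_card_eq H hk] at hH; exact hH inferInstance
      · exact hH (isCyclic_of_prime_card (by rw [hk, pow_one]))
    rcases (show k = 2 ∨ k = 3 by omega) with rfl | rfl
    · have hi : H.index = p := by
        have := H.card_mul_index
        rw [hk, h, pow_succ p 2] at this
        exact Nat.eq_of_mul_eq_mul_left (pow_pos hp'.pos 2) this
      have hc := Transfer.isMulCommutative_of_card_le_sq (hG.to_subgroup H) hk.le
      obtain ⟨x, hx, hxH⟩ := SetLike.not_le_iff_exists.1 hne
      have := PGrp.isMulCommutative_sup_zpowers hx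
      rw [PGrp.sup_zpowers_eq_top hi hxH] at this
      exact hna ⟨⟨fun a b => congrArg Subtype.val (this.is_comm.comm (⟨a, trivial⟩ : (⊤ : Subgroup G)) ⟨b, trivial⟩)⟩⟩
    · exact hne (by rw [eq_top_of_card_eq H (hk.trans h.symm)]; exact le_top)

end Cfsg.Agent.S3918
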