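import Cfsg.Statements.S3919
import Cfsg.Agent.PGrp.MaxClass

set_option autoImplicit false
open Cfsg

namespace Cfsg.Agent.S3919

open Cfsg.Agent.PGrp Subgroup

/-- Say that a group has self-centralizing non-cyclic subgroups when every non-cyclic subgroup H satisfies C_G(H) ≤ H. A finite non-abelian 2-group G of order 2^n has self-centralizing non-cyclic subgroups if and only if G has nilpotency class n − 1 (that is, G is dihedral, semidihedral or generalized quaternion). -/
theorem result {G : Type*} [Group G] [Finite G] (hna : ¬ IsMulCommutative G) (n : ℕ) (hG : Nat.card G = 2 ^ n) :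
    (∀ H : Subgroup G, ¬ IsCyclic ↥H → Subgroup.centralizer (H : Set G) ≤ H) ↔ (⊤ : Subgroup G).lowerCentralSeries (n - 2) ≠ ⊥ := by
  have hp : IsPGroup 2 G := IsPGroup.of_card hG
  constructor
  · intro hH
    have hMC : IsMC G := by
      by_cases huniq : ∀ H K : Subgroup G, Nat.card H = 2 → Nat.card K = 2 → H = K
      · rcases isCyclic_or_quaternion hp huniq with h | ⟨-, m, hm, ⟨e⟩⟩
        · exact absurd IsCyclic.isMulCommutative hna
        · exact isMC_of_quaternion e hm
      have hne : ¬ (⊤ : Subgroup G) ≤ ⊥ := fun e => hna ⟨⟨fun a b => by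
        rw [mem_bot.1 (e (mem_top a)), one_mul, mul_one]⟩⟩
      obtain ⟨z, -, hz1, hz2, hzc⟩ := exists_central_mod_pow hp hne
      rw [mem_bot] at hz1 hz2
      have hzc' : z ∈ center G := mem_center_iff.2 fun g =>
        (commutatorElement_eq_one_iff_commute.1 (mem_bot.1 (hzc g))).symm.eq
      obtain ⟨t, ht2, ht⟩ : ∃ t : G, t ^ 2 = 1 ∧ t ∉ zpowers z := by
        by_contra hcon
        push Not at hcon
        have key : ∀ H : Subgroup G, Nat.card H = 2 → H = zpowers z := fun H hH =>
          eq_of_le_of_card_ge (fun g hg => hcon g (by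
            have := pow_card_eq_one' (x := (⟨g, hg⟩ : H))
            rw [hH] at this
            exact congrArg Subtype.val this)) (by rw [hH, card_zpowers_of_pow_eq_one hz2 hz1])
        exact huniq fun H K h1 h2 => (key H h1).trans (key K h2).symm
      have hN : t ∈ normalizer (zpowers z : Set G) :=
        centralizer_le_normalizer _ fun g hg => (commute_of_mem_center (zpowers_le.2 hzc' hg) t).eq
      have hc := card_sup_zpowers Nat.prime_two hN ht (by rw [ht2]; exact one_mem _)
      rw [card_zpowers_of_pow_eq_one hz2 hz1] at hc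
      have hnc : ¬ IsCyclic (zpowers z ⊔ zpowers t : Subgroup G) := fun hcyc => by
        obtain ⟨⟨g, hg⟩, hgen⟩ := IsCyclic.exists_ofOrder_eq_natCard (α := (zpowers z ⊔ zpowers t : Subgroup G))
        rw [hc, ← orderOf_coe] at hgen
        obtain ⟨_, ⟨i, rfl⟩, j, rfl⟩ := (mem_sup_zpowers hN).1 hg
        have : (z ^ i * t ^ j) ^ 2 = 1 := by
          rw [((commute_of_mem_center hzc' t).zpow_zpow i j).mul_pow, ← zpow_natCast, ← zpow_natCast,
            ← zpow_mul, ← zpow_mul, mul_comm i, mul_comm j, zpow_mul, zpow_mul, zpow_natCast,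
            zpow_natCast, hz2, ht2]; simp
        have := Nat.le_of_dvd two_pos (orderOf_dvd_of_pow_eq_one this)
        simp only at hgen
        omega
      refine isMC_of_card_centralizer hp hna t (le_trans (card_le_of_le (le_trans ?_ (hH _ hnc))) hc.le)
      intro g hg b hb
      obtain ⟨_, ⟨i, rfl⟩, j, rfl⟩ := (mem_sup_zpowers hN).1 hb
      exact (((commute_of_mem_center hzc' g).zpow_left i).mul_left
        (Commute.zpow_left (mem_centralizer_singleton_iff.1 hg).symm j)).eq
    obtain ⟨a, x, k, h⟩ := hMC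
    have hk := h.card
    rw [hG, Nat.pow_right_inj one_lt_two] at hk
    rw [show n - 2 = k - 1 by omega]
    exact h.lcs_ne_bot
  · intro h H hH
    have hn : 3 ≤ n := by
      by_contra hlt
      have h4 : Nat.card G ≤ 4 := hG ▸ Nat.pow_le_pow_right (show 0 < 2 by omega) (show n ≤ 2 by omega)
      obtain ⟨a, x, k, h⟩ := isMC_of_card_centralizer hp hna 1 ((card_le_card_group _).trans h4)
      have := Nat.pow_le_pow_right (show 0 < 2 by omega) (show 3 ≤ k + 1 by have := h.two_le; omega)
      rw [← h.card] at this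
      omega
    obtain ⟨m, rfl⟩ := Nat.exists_eq_add_of_le' hn
    obtain ⟨a, x, k, h⟩ := isMC_of_lcs hG h
    obtain ⟨y, hyH, hy⟩ : ∃ y ∈ H, y ∉ zpowers a := by
      by_contra hcon
      push Not at hcon
      exact hH (isCyclic_of_le hcon)
    obtain ⟨w, hwH, hw⟩ : ∃ w ∈ H, w ∉ zpowers y := by
      by_contra hcon
      push Not at hcon
      exact hH (isCyclic_of_le hcon)
    have hz : a ^ 2 ^ (k - 1) ∈ H := by
      by_cases hwa : w ∈ zpowers a
      · exact h.z_mem_of_ne_one hwa hwH fun e => hw (e ▸ one_mem _)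
      · refine h.z_mem_of_ne_one (y := y⁻¹ * w) ?_ (mul_mem (inv_mem hyH) hwH) fun e => hw ?_
        · rw [mul_mem_iff_of_index_two h.idx, inv_mem_iff]; simp [hy, hwa]
        · rw [inv_mul_eq_one] at e; rw [e]; exact mem_zpowers _
    intro g hg
    rcases h.commute_cases hy (hg y hyH) with e | e | e | e <;> rw [e]
    exacts [one_mem _, hz, hyH, mul_mem hyH hz]

end Cfsg.Agent.S3919
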