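import Cfsg.Statements.S3920

set_option autoImplicit false
open Cfsg

namespace Cfsg.Agent.S3920

open DihedralGroup in
theorem exists_sr {n : ℕ} [NeZero n] {H : Subgroup (DihedralGroup n)} (hH : ¬ IsCyclic H) :
    (∃ i, sr i ∈ H) ∧ ∃ j, j ≠ 0 ∧ r j ∈ H := by
  have h1 : ∃ i, sr i ∈ H := by
    by_contra h
    push Not at h
    refine hH (Subgroup.isCyclic_of_le (H' := Subgroup.zpowers (r 1)) fun x hx => ?_)
    rcases x with i | i
    · exact ⟨i.val, by simp⟩
    · exact absurd hx (h i)
  refine ⟨h1, ?_⟩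
  obtain ⟨i, hi⟩ := h1
  by_contra h
  push Not at h
  refine hH (Subgroup.isCyclic_of_le (H' := Subgroup.zpowers (sr i)) fun x hx => ?_)
  rcases x with j | j
  · by_cases hj : j = 0
    · subst hj; exact Subgroup.one_mem _
    · exact absurd hx (h j hj)
  · have := H.mul_mem hi hx
    rw [sr_mul_sr] at this
    by_cases hj : j - i = 0
    · rw [sub_eq_zero.1 hj]; exact Subgroup.mem_zpowers _
    · exact absurd this (h _ hj)

/-- Say that a group has self-centralizing non-cyclic subgroups when every non-cyclic subgroup H satisfies C_G(H) ≤ H. For n ≥ 3, the dihedral group of order 2n has self-centralizing non-cyclic subgroups if and only if n is odd or a power of 2. -/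
theorem result (n : ℕ) (hn : 3 ≤ n) : (∀ H : Subgroup (DihedralGroup n), ¬ IsCyclic ↥H → Subgroup.centralizer (H : Set (DihedralGroup n)) ≤ H) ↔ (Odd n ∨ ∃ k : ℕ, n = 2 ^ k) := by
  open DihedralGroup in
  haveI : NeZero n := ⟨by omega⟩
  constructor
  · intro h
    by_contra hne
    push Not at hne
    obtain ⟨p, hp, hd, hp2⟩ : ∃ p, p.Prime ∧ p ∣ n ∧ p ≠ 2 := by
      by_contra h2
      push Not at h2
      exact hne.2 _ (Nat.eq_prime_pow_of_unique_prime_dvd (by omega) fun hp hd => h2 _ hp hd)
    obtain ⟨m, hm⟩ := Nat.not_odd_iff_even.1 hne.1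
    obtain ⟨c, hc⟩ := hd
    have hc0 : 0 < c := Nat.pos_of_ne_zero (by rintro rfl; omega)
    let H : Subgroup (DihedralGroup n) :=
      { carrier := {x | ∃ i, (p : ZMod n) * i = 0 ∧ (x = r i ∨ x = sr i)}
        one_mem' := ⟨0, by simp, Or.inl rfl⟩
        mul_mem' := by
          rintro _ _ ⟨i, hi, rfl | rfl⟩ ⟨j, hj, rfl | rfl⟩
          · exact ⟨i + j, by rw [mul_add, hi, hj, add_zero], Or.inl rfl⟩
          · exact ⟨j - i, by rw [mul_sub, hi, hj, sub_zero], Or.inr rfl⟩
          · exact ⟨i + j, by rw [mul_add, hi, hj, add_zero], Or.inr rfl⟩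
          · exact ⟨j - i, by rw [mul_sub, hi, hj, sub_zero], Or.inl rfl⟩
        inv_mem' := by
          rintro _ ⟨i, hi, rfl | rfl⟩
          · exact ⟨-i, by rw [mul_neg, hi, neg_zero], Or.inl rfl⟩
          · exact ⟨i, hi, Or.inr rfl⟩ }
    have hmm : (m : ZMod n) + m = 0 := by rw [← Nat.cast_add, ← hm, ZMod.natCast_self]
    have h1 : ¬ IsCyclic H := fun hcy => by
      have := congrArg Subtype.val (hcy.commGroup.mul_comm
        (⟨r c, c, by rw [← Nat.cast_mul, ← hc, ZMod.natCast_self], Or.inl rfl⟩ : H) ⟨sr 0, 0, by simp, Or.inr rfl⟩)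
      change r (c : ZMod n) * sr 0 = sr 0 * r c at this
      rw [r_mul_sr, sr_mul_r, sr.injEq, zero_sub, zero_add, neg_eq_iff_add_eq_zero, ← Nat.cast_add,
        ZMod.natCast_eq_zero_iff] at this
      have h3 := Nat.le_of_dvd (by omega) this
      have h4 := hp.two_le
      have h5 : 3 ≤ p := by omega
      nlinarith
    have h2 : r (m : ZMod n) ∈ H := h H h1 fun x _ => by
      rcases x with i | i
      · simp [add_comm]
      · rw [sr_mul_r, r_mul_sr, sub_eq_add_neg, neg_eq_iff_add_eq_zero.2 hmm]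
    obtain ⟨i, hi, e | e⟩ := h2
    · rw [r.injEq] at e
      obtain ⟨k, hk⟩ := hp.odd_of_ne_two hp2
      rw [← e, hk] at hi
      push_cast at hi
      have h3 : (m : ZMod n) = 0 := by linear_combination hi - k * hmm
      rw [ZMod.natCast_eq_zero_iff] at h3
      have := Nat.le_of_dvd (by omega) h3
      omega
    · cases e
  · intro h H hH x hx
    obtain ⟨⟨i, hi⟩, j, hj0, hj⟩ := exists_sr hH
    have key : ∀ a : ZMod n, a + a = 0 → r a ∈ H := by
      intro a ha
      by_cases ha0 : a = 0
      · subst ha0; exact H.one_mem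
      have h1 : n ∣ a.val + a.val := by rw [← ZMod.natCast_eq_zero_iff]; simpa using ha
      have h2 := ZMod.val_lt a
      have h3 : a.val ≠ 0 := by rwa [Ne, ZMod.val_eq_zero]
      obtain ⟨d, hd⟩ := h1
      have h4 : d = 1 := by
        rcases d with _ | _ | d
        · omega
        · rfl
        · nlinarith
      rw [h4, mul_one] at hd
      rcases h with h | ⟨k, hk⟩
      · exact absurd ⟨_, hd.symm⟩ (Nat.not_even_iff_odd.2 h)
      · obtain ⟨l, hl, hl'⟩ := (Nat.dvd_prime_pow Nat.prime_two).1 ((Nat.gcd_dvd_right j.val n).trans hk.dvd)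
        have h5 : l < k := lt_of_le_of_ne hl fun e => hj0 (by
          rw [← ZMod.natCast_zmod_val j, ZMod.natCast_eq_zero_iff]
          exact Nat.gcd_eq_right_iff_dvd.1 (by rw [hl', e, ← hk]))
        have h6 : 2 ^ l ∣ a.val := by
          obtain ⟨k, rfl⟩ : ∃ k', k = k' + 1 := ⟨k - 1, by omega⟩
          rw [show a.val = 2 ^ k by rw [pow_succ] at hk; omega]
          exact pow_dvd_pow _ (by omega)
        obtain ⟨e, he⟩ := h6
        have h7 := Nat.gcd_eq_gcd_ab j.val n
        have h8 : a = j * ((Nat.gcdA j.val n * e : ℤ) : ZMod n) := by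
          have := congrArg (Int.cast : ℤ → ZMod n) h7
          rw [hl'] at this
          rw [← ZMod.natCast_zmod_val a, he]
          push_cast at this ⊢
          rw [this]
          simp [mul_assoc]
        have := H.zpow_mem hj (Nat.gcdA j.val n * e)
        rwa [r_zpow, ← h8] at this
    have h1 := hx _ hi
    rcases x with a | a
    · rw [sr_mul_r, r_mul_sr, sr.injEq] at h1
      exact key a (by linear_combination h1)
    · rw [sr_mul_sr, sr_mul_sr, r.injEq] at h1
      have := H.mul_mem hi (key (a - i) (by linear_combination h1))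
      rwa [sr_mul_r, add_sub_cancel] at this

end Cfsg.Agent.S3920
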