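import Cfsg.Statements.S3927
import Cfsg.Agent.FG.Flavell

set_option autoImplicit false
open Cfsg

namespace Cfsg.Agent.S3927

open Subgroup FG.Flav SolvStr
open scoped Pointwise

universe u

theorem id1 {H : Type*} [Group H] (x y a : H) (h : y * a = a * y) :
    x * y * (a * (x * y) * a⁻¹)⁻¹ = x * (a * x * a⁻¹)⁻¹ :=
  calc x * y * (a * (x * y) * a⁻¹)⁻¹ = x * (y * a) * y⁻¹ * x⁻¹ * a⁻¹ := by group
    _ = _ := by rw [h]; group

theorem id2 {H : Type*} [Group H] (x a : H) : x * (a * x * a⁻¹)⁻¹ = x * a * x⁻¹ * a⁻¹ := by group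

theorem key (k : ℕ) (n : ℕ) : ∀ (Γ : Type u) [Group Γ] [Finite Γ], Nat.card Γ = n → ∀ a : Γ,
    (∀ N : Subgroup Γ, N.Normal → a ∈ N → N = ⊤) → ∀ W : Subgroup Γ, a ∈ W →
    (∀ c, (fun c : Γ => c * (a * c * a⁻¹)⁻¹)^[k] c ∈ W) → W = ⊤ := by
  induction n using Nat.strong_induction_on with
  | _ n ih =>
  intro Γ _ _ hn a ha W haW hW
  by_contra hne
  obtain ⟨M, hM, hle⟩ := (eq_top_or_exists_le_coatom _).resolve_left hne
  have hu := gt (zpowers a) (fun N hN h => ha N hN (h (mem_zpowers a))) W hne (fun H hH hc => by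
    have haH : a ∈ H := hc.1 (mem_zpowers a)
    have hlt : Nat.card H < n := by
      rw [← hn]
      refine lt_of_le_of_ne (card_le_card_group _) fun h => hH (eq_top_of_card_eq _ h)
    have := ih _ hlt H rfl ⟨a, haH⟩ (fun N hN h => by
      have h1 := (contra_iff hc.1).1 hc
      rw [eq_top_iff, ← h1]
      refine normalClosure_le_normal fun y hy => ?_
      obtain ⟨j, hj⟩ := mem_zpowers_iff.1 (mem_subgroupOf.1 hy)
      have : y = (⟨a, haH⟩ : H) ^ j := Subtype.ext (by simp [hj])
      rw [this]
      exact N.zpow_mem h j) (W.subgroupOf H) haW (fun c => by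
        have h1 : ∀ j (c : H), (((fun c : H => c * ((⟨a, haH⟩ : H) * c * (⟨a, haH⟩ : H)⁻¹)⁻¹)^[j]
            c : H) : Γ) = (fun c : Γ => c * (a * c * a⁻¹)⁻¹)^[j] c := by
          intro j
          induction j with
          | zero => intro c; rfl
          | succ j ihj => intro c; rw [Function.iterate_succ_apply, Function.iterate_succ_apply, ihj]; rfl
        rw [mem_subgroupOf, h1]
        exact hW c)
    exact subgroupOf_eq_top.1 this)
  have haM : a ∈ M := hle haW
  have step : ∀ u : Γ, u * (a * u * a⁻¹)⁻¹ ∈ M → u ∈ M := fun u h => by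
    have h1 : a ∈ MulAut.conj u⁻¹ • M := by
      rw [Solv.mem_conj_smul]
      have := M.mul_mem h haM
      have h2 := M.mul_mem (M.mul_mem (M.inv_mem haM) haM) this
      convert h2 using 1; group
    have h2 := hu _ M (isCoatom_conj_smul hM u⁻¹) hM (zpowers_le.2 h1) (zpowers_le.2 haM)
    have h3 := inv_mem_iff.1 (Solv.conj_smul_eq_self_iff.1 h2)
    rcases (hM.le_iff).1 (le_normalizer (H := M)) with h4 | h4
    · exact absurd (ha M (normalizer_eq_top_iff.1 h4) haM) hM.1
    · rwa [h4] at h3
  have all : ∀ j (c : Γ), (fun c : Γ => c * (a * c * a⁻¹)⁻¹)^[j] c ∈ M → c ∈ M := by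
    intro j
    induction j with
    | zero => intro c h; exact h
    | succ j ihj => intro c h; rw [Function.iterate_succ_apply] at h; exact step c (ihj _ h)
  exact hM.1 (eq_top_iff.2 fun c _ => all k c (hle (hW c)))

/-- Let G be a finite group and α an automorphism of G with [G, α] = G, that is, the elements g·α(g)⁻¹ generate G. Then for every k ≥ 1 the iterated commutators [g, α, …, α] with k entries α — the values of the k-th iterate of the map c ↦ c·α(c)⁻¹ — also generate G. -/
theorem result {G : Type*} [Group G] [Finite G] (α : MulAut G) (hG : Subgroup.closure (Set.range (fun c : G => c * (α c)⁻¹)) = ⊤) (k : ℕ) (hk : 1 ≤ k) :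
    Subgroup.closure (Set.range ((fun c : G => c * (α c)⁻¹)^[k])) = ⊤ := by
  obtain ⟨k, rfl⟩ : ∃ j, k = j + 1 := ⟨k - 1, by omega⟩
  set E := closure (Set.range ((fun c : G => c * (α c)⁻¹)^[k + 1])) with hE
  have hcomm : ∀ (β : MulAut G), Commute β α → ∀ j (c : G),
      β ((fun c : G => c * (α c)⁻¹)^[j] c) = (fun c : G => c * (α c)⁻¹)^[j] (β c) := by
    intro β hβ j
    induction j with
    | zero => intro c; rfl
    | succ j ih =>
      intro c
      rw [Function.iterate_succ_apply, Function.iterate_succ_apply, ih, map_mul, map_inv]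
      have : β (α c) = α (β c) := by
        rw [← MulAut.mul_apply, hβ.eq, MulAut.mul_apply]
      rw [this]
  have hinv : ∀ β : zpowers α, ∀ x ∈ E, (β : MulAut G) x ∈ E := by
    intro β x hx
    have hβ : Commute (β : MulAut G) α := by
      obtain ⟨j, hj⟩ := mem_zpowers_iff.1 β.2
      rw [← hj]; exact (Commute.refl α).zpow_left j
    have : E ≤ E.comap (β : MulAut G).toMonoidHom := by
      rw [hE, closure_le]
      rintro _ ⟨c, rfl⟩
      exact subset_closure ⟨_, (hcomm _ hβ _ c).symm⟩
    exact this hx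
  let Γ := G ⋊[(zpowers α).subtype] zpowers α
  haveI : Finite Γ := Finite.of_equiv _ SemidirectProduct.equivProd.symm
  let a : Γ := SemidirectProduct.inr ⟨α, mem_zpowers α⟩
  let W : Subgroup Γ :=
    { carrier := {γ | γ.left ∈ E}
      one_mem' := E.one_mem
      mul_mem' := fun {x y} hx hy => E.mul_mem hx (hinv x.right _ hy)
      inv_mem' := fun {x} hx => hinv x.right⁻¹ _ (E.inv_mem hx) }
  have hf : ∀ c : Γ, c * (a * c * a⁻¹)⁻¹ =
      SemidirectProduct.inl (c.left * (α c.left)⁻¹) := by
    intro c
    have hc : Commute c.right (⟨α, mem_zpowers α⟩ : zpowers α) := by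
      obtain ⟨j, hj⟩ := mem_zpowers_iff.1 c.right.2
      have : c.right = (⟨α, mem_zpowers α⟩ : zpowers α) ^ j := Subtype.ext (by simp [hj])
      rw [this]; exact (Commute.refl _).zpow_left j
    have h1 : c = SemidirectProduct.inl c.left * SemidirectProduct.inr c.right :=
      (SemidirectProduct.inl_left_mul_inr_right c).symm
    have h2 : (SemidirectProduct.inr c.right : Γ) * a = a * SemidirectProduct.inr c.right := by
      simp only [a, ← map_mul, hc.eq]
    have h3 : (SemidirectProduct.inl (α c.left) : Γ) = a * SemidirectProduct.inl c.left * a⁻¹ := by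
      have := SemidirectProduct.inl_aut (φ := (zpowers α).subtype) ⟨α, mem_zpowers α⟩ c.left
      rw [map_inv] at this
      exact this
    rw [map_mul, map_inv, h3]
    have h4 := id1 (H := Γ) (SemidirectProduct.inl c.left) _ a h2
    rw [← h1] at h4
    exact h4
  have hit : ∀ j (g : G), (fun c : Γ => c * (a * c * a⁻¹)⁻¹)^[j] (SemidirectProduct.inl g) =
      SemidirectProduct.inl ((fun c : G => c * (α c)⁻¹)^[j] g) := by
    intro j
    induction j with
    | zero => intro g; rfl
    | succ j ih =>
      intro g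
      rw [Function.iterate_succ_apply, Function.iterate_succ_apply, hf, ih]; rfl
  have hW := key (k + 1) _ Γ rfl a (fun N hN h => by
    have h1 : ∀ g : G, (SemidirectProduct.inl g : Γ) ∈ N := by
      intro g
      have : (⊤ : Subgroup G) ≤ N.comap SemidirectProduct.inl := by
        rw [← hG, closure_le]
        rintro _ ⟨c, rfl⟩
        have h2 := hf (SemidirectProduct.inl c)
        show SemidirectProduct.inl (c * (α c)⁻¹) ∈ N
        rw [show (SemidirectProduct.inl (c * (α c)⁻¹) : Γ) = _ from h2.symm]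
        have := N.mul_mem (hN.conj_mem a h (SemidirectProduct.inl c)) (N.inv_mem h)
        rwa [← id2 (H := Γ)] at this
      exact this (mem_top g)
    rw [eq_top_iff]
    intro c _
    rw [← SemidirectProduct.inl_left_mul_inr_right c]
    refine N.mul_mem (h1 _) ?_
    obtain ⟨j, hj⟩ := mem_zpowers_iff.1 c.right.2
    have : c.right = (⟨α, mem_zpowers α⟩ : zpowers α) ^ j := Subtype.ext (by simp [hj])
    rw [this, map_zpow]
    exact N.zpow_mem h j) W E.one_mem (fun c => by
      rw [Function.iterate_succ_apply, hf, hit]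
      exact subset_closure ⟨c.left, rfl⟩)
  rw [eq_top_iff]
  intro g _
  have : (SemidirectProduct.inl g : Γ) ∈ W := by rw [hW]; trivial
  exact this

end Cfsg.Agent.S3927
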