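import Cfsg.Statements.S3928
import Cfsg.Agent.S3927

set_option autoImplicit false
open Cfsg

namespace Cfsg.Agent.S3928

open Subgroup
open scoped IsMulCommutative

local notation:10000 n " !" => Nat.factorial n

theorem lemA {G : Type*} [Group G] [Finite G] {d e N : ℕ} (hd : Group.rank G ≤ d) (he : 0 < e)
    (hg : closure {x : G | x ^ e = 1} = ⊤) (hN : (center G).index ≤ N) :
    Nat.card G ≤ N * (N * e) ^ (N * d) := by
  have h0 : 0 < (center G).index := Nat.pos_of_ne_zero index_ne_zero_of_finite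
  have h1 : ∀ g : G, (MonoidHom.transferCenterPow G g) ^ e = 1 := by
    intro g
    have : (⊤ : Subgroup G) ≤ ((powMonoidHom e).comp (MonoidHom.transferCenterPow G)).ker := by
      rw [← hg, closure_le]
      intro x hx
      show (MonoidHom.transferCenterPow G x) ^ e = 1
      rw [← map_pow, hx, map_one]
    exact this (mem_top g)
  have h2 : Monoid.exponent (center G) ∣ (center G).index * e := by
    refine Monoid.exponent_dvd_of_forall_pow_eq_one fun z => Subtype.ext ?_
    have := congrArg Subtype.val (h1 z)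
    rw [SubgroupClass.coe_pow, MonoidHom.transferCenterPow_apply] at this
    rw [SubgroupClass.coe_pow, pow_mul]
    exact this
  have h3 := card_dvd_exponent_pow_rank' (center G) (n := (center G).index * e)
    (fun z => Monoid.exponent_dvd_iff_forall_pow_eq_one.1 h2 z)
  have h4 : Group.rank (center G) ≤ N * d :=
    (rank_le_index_mul_rank (center G)).trans (Nat.mul_le_mul hN hd)
  rw [← (center G).index_mul_card]
  refine Nat.mul_le_mul hN ((Nat.le_of_dvd (by positivity) h3).trans ?_)
  exact (Nat.pow_le_pow_left (Nat.mul_le_mul_right _ hN) _).trans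
    (Nat.pow_le_pow_right (Nat.mul_pos (h0.trans_le hN) he) h4)

/-- intersection of the kernels of all actions on `n` points. -/
def L (G : Type*) [Group G] (n : ℕ) : Subgroup G := ⨅ f0 : G →* Equiv.Perm (Fin n), f0.ker

instance L_normal (G : Type*) [Group G] (n : ℕ) : (L G n).Normal :=
  normal_iInf_normal fun f0 => f0.normal_ker

theorem L_le {G : Type*} [Group G] [Finite G] {n : ℕ} (H : Subgroup G) (h : H.index ≤ n) :
    L G n ≤ H := by
  classical
  letI := Fintype.ofFinite (G ⧸ H)
  obtain ⟨ι⟩ : Nonempty ((G ⧸ H) ↪ Fin n) := Function.Embedding.nonempty_of_card_le (by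
    rw [Fintype.card_fin, ← Nat.card_eq_fintype_card]; exact h)
  refine (iInf_le _ ((Equiv.Perm.viaEmbeddingHom ι).comp (MulAction.toPermHom G (G ⧸ H)))).trans ?_
  rw [MonoidHom.ker_comp_of_injective _ _ (Equiv.Perm.viaEmbeddingHom_injective ι),
    ← normalCore_eq_ker]
  exact normalCore_le H

theorem L_index {G : Type*} [Group G] [Finite G] {d : ℕ} (hd : Group.rank G ≤ d) (n : ℕ) :
    (L G n).index ≤ n ! ^ (n ! ^ d) := by
  classical
  obtain ⟨S, hS, hSt⟩ := Group.rank_spec G
  haveI : Finite (G →* Equiv.Perm (Fin n)) := DFunLike.finite _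
  letI := Fintype.ofFinite (G →* Equiv.Perm (Fin n))
  have hc : Nat.card (Equiv.Perm (Fin n)) = n ! := by rw [Nat.card_perm]; simp
  have h1 : Fintype.card (G →* Equiv.Perm (Fin n)) ≤ n ! ^ d := by
    have := Nat.card_le_card_of_injective (fun (f0 : G →* Equiv.Perm (Fin n)) (s : S) => f0 s)
      (fun f0 f1 h => MonoidHom.eq_of_eqOn_dense hSt fun x hx => congrFun h ⟨x, hx⟩)
    rw [Nat.card_fun, hc, Nat.card_eq_fintype_card, Nat.card_eq_fintype_card, Fintype.card_coe,
      hS] at this
    exact this.trans (Nat.pow_le_pow_right (Nat.factorial_pos n) hd)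
  refine (index_iInf_le _).trans ((Finset.prod_le_pow_card _ _ n ! fun f0 _ => ?_).trans ?_)
  · rw [index_ker, ← hc]; exact card_le_card_group _
  · exact Nat.pow_le_pow_right (Nat.factorial_pos n) h1

theorem inv_count {G : Type*} [Group G] [Finite G] (α : G →* G) (hα : ∀ x, α (α x) = x)
    (H : Subgroup G) (hH : ∀ x ∈ H, α x ∈ H) {c : ℕ} (hc : Nat.card {x : G // α x = x} ≤ c) :
    Nat.card H ≤ c * Nat.card {x : G // x ∈ H ∧ α x = x⁻¹} := by
  classical
  letI := Fintype.ofFinite G
  have := Finset.card_le_mul_card_image_of_maps_to (s := Finset.univ.filter (· ∈ H))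
    (t := Finset.univ.filter fun x => x ∈ H ∧ α x = x⁻¹) (f := fun x => x⁻¹ * α x)
    (fun x hx => by
      simp only [Finset.mem_filter, Finset.mem_univ, true_and] at hx ⊢
      exact ⟨H.mul_mem (H.inv_mem hx) (hH x hx), by simp [hα]⟩) c (fun b _ => by
      refine le_trans ?_ hc
      rcases Finset.eq_empty_or_nonempty ((Finset.univ.filter (· ∈ H)).filter
        fun x => x⁻¹ * α x = b) with h | ⟨y, hy⟩
      · rw [h]; simp
      · rw [Nat.card_eq_fintype_card, Fintype.card_subtype]
        refine Finset.card_le_card_of_injOn (fun x => x * y⁻¹) (fun x hx => ?_)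
          (fun x _ x' _ h => mul_right_cancel h)
        simp only [Finset.coe_filter, Finset.mem_filter, Finset.mem_univ, true_and,
          Set.mem_setOf_eq] at hx hy ⊢
        have h1 : α x = x * b := by rw [← hx.2]; group
        have h2 : α y = y * b := by rw [← hy.2]; group
        rw [map_mul, map_inv, h1, h2]; group)
  rwa [Nat.card_eq_fintype_card, Nat.card_eq_fintype_card, Fintype.card_subtype,
    Fintype.card_subtype]

theorem bf {G : Type*} [Group G] [Finite G] (α : G →* G) (hα : ∀ x, α (α x) = x)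
    {c : ℕ} (hc : Nat.card {x : G // α x = x} ≤ c) :
    Nat.card G ≤ 2 * c ^ 2 * Nat.card {u : G // (centralizer {u}).index ≤ 2 * c ^ 2} := by
  classical
  letI := Fintype.ofFinite G
  have h1 := inv_count α hα ⊤ (fun _ _ => trivial) hc
  rw [card_top] at h1
  set I := Finset.univ.filter fun x : G => x ∈ (⊤ : Subgroup G) ∧ α x = x⁻¹ with hI
  rw [Nat.card_eq_fintype_card (α := {x : G // _}), Fintype.card_subtype, ← hI] at h1
  have h2 : (I ×ˢ I).card ≤ ∑ u : G, Nat.card (centralizer {u}) := by
    rw [Finset.card_eq_sum_card_fiberwise (f := fun p : G × G => p.1 * p.2) (t := Finset.univ)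
      (fun _ _ => Finset.mem_univ _)]
    refine Finset.sum_le_sum fun u _ => ?_
    rcases Finset.eq_empty_or_nonempty ((I ×ˢ I).filter fun p : G × G => p.1 * p.2 = u) with
      h | ⟨y, hy⟩
    · rw [h]; simp
    have key : ∀ p ∈ (I ×ˢ I).filter fun p : G × G => p.1 * p.2 = u,
        α u = p.1⁻¹ * u⁻¹ * p.1 ∧ p.2 = p.1⁻¹ * u := by
      intro p hp
      simp only [hI, Finset.mem_filter, Finset.mem_product, Finset.mem_univ, true_and,
        mem_top] at hp
      rw [← hp.2, map_mul, hp.1.1, hp.1.2]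
      constructor <;> group
    rw [Nat.card_eq_fintype_card, Fintype.card_subtype]
    refine Finset.card_le_card_of_injOn (fun p => p.1 * y.1⁻¹) (fun p hp => ?_)
      (fun p hp q hq h => ?_)
    · simp only [Finset.coe_filter, Finset.mem_univ, true_and, Set.mem_setOf_eq,
        mem_centralizer_singleton_iff]
      have h3 := (key p hp).1.symm.trans (key y hy).1
      calc p.1 * y.1⁻¹ * u = p.1 * (y.1⁻¹ * u⁻¹ * y.1)⁻¹ * y.1⁻¹ := by group
        _ = _ := by rw [← h3]; group
    · have h3 : p.1 = q.1 := mul_right_cancel h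
      exact Prod.ext h3 (by rw [(key p hp).2, (key q hq).2, h3])
  rw [Finset.card_product] at h2
  set X := Finset.univ.filter fun u : G => (centralizer {u}).index ≤ 2 * c ^ 2 with hX
  rw [Nat.card_eq_fintype_card (α := {x : G // _}), Fintype.card_subtype, ← hX]
  have h3 : 2 * c ^ 2 * ∑ u : G, Nat.card (centralizer {u}) ≤
      2 * c ^ 2 * (X.card * Nat.card G) + Nat.card G * Nat.card G := by
    rw [← Finset.sum_filter_add_sum_filter_not Finset.univ
      fun u : G => (centralizer {u}).index ≤ 2 * c ^ 2, mul_add]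
    refine add_le_add (Nat.mul_le_mul_left _ ?_) ?_
    · exact Finset.sum_le_card_nsmul _ _ _ fun u _ => card_le_card_group _
    · rw [Finset.mul_sum]
      refine (Finset.sum_le_card_nsmul _ _ (Nat.card G) fun u hu => ?_).trans ?_
      · rw [← (centralizer {u}).index_mul_card]
        exact Nat.mul_le_mul_right _ (not_le.1 (Finset.mem_filter.1 hu).2).le
      · rw [smul_eq_mul, Nat.card_eq_fintype_card]
        exact Nat.mul_le_mul_right _ (Finset.card_le_univ _)
  have h0 : 0 < Nat.card G := Nat.card_pos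
  have h4 : Nat.card G * Nat.card G ≤ c ^ 2 * (I.card * I.card) := by
    have := Nat.mul_le_mul h1 h1
    nlinarith
  have h5 := Nat.mul_le_mul_left (2 * c ^ 2) h2
  refine Nat.le_of_mul_le_mul_right ?_ h0
  nlinarith

theorem idx_le {G : Type*} [Group G] [Finite G] (H : Subgroup G) {k : ℕ}
    (h : Nat.card G ≤ k * Nat.card H) : H.index ≤ k := by
  rw [← H.index_mul_card] at h
  exact Nat.le_of_mul_le_mul_right h Nat.card_pos

/-- the bound of `lemB`. -/
def bd (d c : ℕ) : ℕ :=
  (c * (2 * c ^ 2)! ^ ((2 * c ^ 2)! ^ d))! ^ ((c * (2 * c ^ 2)! ^ ((2 * c ^ 2)! ^ d))! ^ d)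

theorem lemB {G : Type*} [Group G] [Finite G] (α : G →* G) (hα : ∀ x, α (α x) = x)
    {c d : ℕ} (hc : Nat.card {x : G // α x = x} ≤ c) (hd : Group.rank G ≤ d)
    (hG : closure (Set.range fun c : G => c * (α c)⁻¹) = ⊤) : (center G).index ≤ bd d c := by
  set n := 2 * c ^ 2 with hn
  let K := closure {u : G | (centralizer {u}).index ≤ n}
  have hK : K.index ≤ n := idx_le K ((bf α hα hc).trans (Nat.mul_le_mul_left _
    (Nat.card_le_card_of_injective (fun u : {u : G // (centralizer {u}).index ≤ n} =>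
      (⟨u, subset_closure u.2⟩ : K)) fun u v h => Subtype.ext (by simpa using h))))
  have hab : ∀ x ∈ L G n, ∀ y ∈ L G n, x * y = y * x := by
    intro x hx y hy
    have : K ≤ centralizer {x} := by
      rw [closure_le]
      intro u hu
      exact mem_centralizer_singleton_iff.2 (mem_centralizer_singleton_iff.1 (L_le _ hu hx)).symm
    exact (mem_centralizer_singleton_iff.1 (this (L_le K hK hy))).symm
  let B : Subgroup G :=
    { carrier := {x | x ∈ L G n ∧ α x = x⁻¹}
      one_mem' := ⟨one_mem _, by simp⟩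
      mul_mem' := fun {x y} hx hy => ⟨mul_mem hx.1 hy.1, by
        rw [map_mul, hx.2, hy.2, hab x hx.1 y hy.1, mul_inv_rev]⟩
      inv_mem' := fun {x} hx => ⟨inv_mem hx.1, by rw [map_inv, hx.2]⟩ }
  have hB : B.index ≤ c * n ! ^ (n ! ^ d) := idx_le B (by
    have h1 := inv_count α hα (L G n) (fun x hx => mem_iInf.2 fun f0 =>
      mem_iInf.1 hx (f0.comp α)) hc
    rw [← (L G n).index_mul_card, mul_comm c, mul_assoc]
    exact Nat.mul_le_mul (L_index hd n) h1)
  refine le_trans (index_antitone (H := L G (c * n ! ^ (n ! ^ d))) fun l hl => ?_) (L_index hd _)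
  have : (⊤ : Subgroup G) ≤ centralizer {l} := by
    rw [← hG, closure_le]
    rintro _ ⟨g, rfl⟩
    have h1 := (L_le B hB hl).2
    have h2 := (L_le B hB ((L_normal G _).conj_mem l hl g⁻¹)).2
    rw [map_mul, map_mul, map_inv, map_inv, map_inv, h1] at h2
    refine mem_centralizer_singleton_iff.2 ?_
    calc g * (α g)⁻¹ * l = g * ((α g)⁻¹ * l⁻¹ * (α g)⁻¹⁻¹)⁻¹ * (α g)⁻¹ := by group
      _ = _ := by rw [h2]; group
  exact mem_center_iff.2 fun g => mem_centralizer_singleton_iff.1 (this (mem_top g))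

/-- There is a function f such that for every non-trivial finite group G and every automorphism α of G of order 2 with [G, α] = G (the elements g·α(g)⁻¹ generate G), the order of G is at most f(m), where m is the number of elements of odd order inverted by α. -/
theorem result : ∃ f : ℕ → ℕ, ∀ (G : Type) [Group G] [Finite G] [Nontrivial G] (α : MulAut G), orderOf α = 2 →
    Subgroup.closure (Set.range (fun c : G => c * (α c)⁻¹)) = ⊤ →
      Nat.card G ≤ f (Nat.card {g : G // Odd (orderOf g) ∧ α g = g⁻¹}) := by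
  refine ⟨fun m => (bd m (m ^ m) * (bd m (m ^ m) * m !) ^ (bd m (m ^ m) * m)) *
    ((bd m (m ^ m) * (bd m (m ^ m) * m !) ^ (bd m (m ^ m) * m)) * m !) ^
      ((bd m (m ^ m) * (bd m (m ^ m) * m !) ^ (bd m (m ^ m) * m)) * m), ?_⟩
  intro G _ _ _ α hα hG
  classical
  letI := Fintype.ofFinite G
  set m := Nat.card {g : G // Odd (orderOf g) ∧ α g = g⁻¹} with hm
  have hα2 : ∀ x, α (α x) = x := fun x => by
    rw [← MulAut.mul_apply, ← sq, ← hα, pow_orderOf_eq_one]; rfl
  have hJ : closure {g : G | Odd (orderOf g) ∧ α g = g⁻¹} = ⊤ := by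
    rw [eq_top_iff, ← S3927.result α hG (Nat.card G + 1) (by omega)]
    refine closure_mono ?_
    rintro _ ⟨c, rfl⟩
    have h1 : ∀ j (u : G), α u = u⁻¹ → (fun c : G => c * (α c)⁻¹)^[j] u = u ^ 2 ^ j := by
      intro j
      induction j with
      | zero => intro u _; simp
      | succ j ih =>
        intro u hu
        rw [Function.iterate_succ_apply, ih _ (by simp [hu]), hu, inv_inv, ← sq, ← pow_mul,
          ← _root_.pow_succ']
    have h2 : α (c * (α c)⁻¹) = (c * (α c)⁻¹)⁻¹ := by simp [hα2]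
    rw [Function.iterate_succ_apply, h1 _ _ h2]
    refine ⟨?_, by rw [map_pow, h2, inv_pow]⟩
    obtain ⟨a, b, hb, hab⟩ := Nat.exists_eq_two_pow_mul_odd (orderOf_pos (c * (α c)⁻¹)).ne'
    have ha : a ≤ Nat.card G := by
      have h3 : orderOf (c * (α c)⁻¹) ≤ Nat.card G := orderOf_le_card
      have h4 : 2 ^ a ≤ 2 ^ a * b := Nat.le_mul_of_pos_right _ hb.pos
      have := Nat.lt_two_pow_self (n := a)
      omega
    refine Odd.of_dvd_nat hb (orderOf_dvd_of_pow_eq_one ?_)
    rw [← pow_mul, ← orderOf_dvd_iff_pow_eq_one, hab]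
    exact Nat.mul_dvd_mul_right (pow_dvd_pow 2 ha) b
  have hd : Group.rank G ≤ m := by
    rw [hm, Nat.card_eq_fintype_card, Fintype.card_subtype]
    exact Group.rank_le (by rw [← hJ]; congr 1; ext; simp)
  have he : closure {x : G | x ^ m ! = 1} = ⊤ := by
    rw [eq_top_iff, ← hJ]
    refine closure_mono fun x hx => ?_
    show x ^ m ! = 1
    rw [← orderOf_dvd_iff_pow_eq_one]
    refine Nat.dvd_factorial (orderOf_pos x) ?_
    rw [← Nat.card_zpowers]
    refine Nat.card_le_card_of_injective (fun y : zpowers x => (⟨y, ?_⟩ :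
      {g : G // Odd (orderOf g) ∧ α g = g⁻¹})) fun u v h => Subtype.ext (by simpa using h)
    refine ⟨Odd.of_dvd_nat hx.1 (orderOf_dvd_of_mem_zpowers y.2), ?_⟩
    obtain ⟨j, hj⟩ := mem_zpowers_iff.1 y.2
    rw [← hj, map_zpow, hx.2, inv_zpow]
  have hZ : center G ≤ (center G).comap α.toMonoidHom := fun z hz => mem_center_iff.2 fun g => by
    show g * α z = α z * g
    rw [← hα2 g, ← map_mul, ← map_mul, mem_center_iff.1 hz]
  let β := QuotientGroup.map (center G) (center G) α.toMonoidHom hZ
  have hβ : ∀ g : G, β (g : G ⧸ center G) = (α g : G ⧸ center G) := fun g => rfl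
  have hdq : Group.rank (G ⧸ center G) ≤ m :=
    (Group.rank_le_of_surjective _ (QuotientGroup.mk'_surjective _)).trans hd
  have hcl : ∀ (S : Set G) (T : Set (G ⧸ center G)), closure S = ⊤ → (∀ x ∈ S, (x : G ⧸ _) ∈ T) →
      closure T = ⊤ := fun S T h1 h2 => by
    rw [eq_top_iff, ← map_top_of_surjective _ (QuotientGroup.mk'_surjective (center G)), ← h1,
      MonoidHom.map_closure]
    refine closure_mono ?_
    rintro _ ⟨x, hx, rfl⟩
    exact h2 x hx
  have hfix : Nat.card {x : G ⧸ center G // β x = x} ≤ m ^ m := by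
    rw [hm, ← Nat.card_fun]
    have hz : ∀ x : {x : G ⧸ center G // β x = x}, (x.1.out)⁻¹ * α x.1.out ∈ center G := fun x => by
      rw [← QuotientGroup.eq, ← hβ, QuotientGroup.out_eq', x.2]
    refine Nat.card_le_card_of_injective (fun x (j : {g : G // Odd (orderOf g) ∧ α g = g⁻¹}) =>
      (⟨x.1.out * j * x.1.out⁻¹, ?_⟩ : {g : G // Odd (orderOf g) ∧ α g = g⁻¹})) fun x y h => ?_
    · refine ⟨?_, ?_⟩
      · rw [show orderOf (x.1.out * j * x.1.out⁻¹) = orderOf (j : G) from
          (MulAut.conj x.1.out).orderOf_eq j]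
        exact j.2.1
      · have h1 := mem_center_iff.1 (hz x) (j : G)⁻¹
        rw [map_mul, map_mul, map_inv, j.2.2]
        calc α x.1.out * (j : G)⁻¹ * (α x.1.out)⁻¹
            = x.1.out * (x.1.out⁻¹ * α x.1.out * (j : G)⁻¹) * (α x.1.out)⁻¹ := by group
          _ = _ := by rw [← h1]; group
    · have : (⊤ : Subgroup G) ≤ centralizer {x.1.out⁻¹ * y.1.out} := by
        rw [← hJ, closure_le]
        intro j hj
        have h1 : x.1.out * j * x.1.out⁻¹ = y.1.out * j * y.1.out⁻¹ :=
          congrArg Subtype.val (congrFun h ⟨j, hj⟩)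
        refine mem_centralizer_singleton_iff.2 ?_
        calc j * (x.1.out⁻¹ * y.1.out) = x.1.out⁻¹ * (x.1.out * j * x.1.out⁻¹) * y.1.out := by group
          _ = _ := by rw [h1]; group
      refine Subtype.ext ?_
      rw [← QuotientGroup.out_eq' x.1, ← QuotientGroup.out_eq' y.1, QuotientGroup.eq]
      exact mem_center_iff.2 fun g => mem_centralizer_singleton_iff.1 (this (mem_top g))
  have h1 := lemB β (fun x => by
    induction x using QuotientGroup.induction_on with
    | H g => rw [hβ, hβ, hα2]) hfix hdq (hcl _ _ hG (by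
      rintro _ ⟨c, rfl⟩
      exact ⟨c, rfl⟩))
  have h2 := lemA hdq (Nat.factorial_pos m) (hcl _ _ he fun x hx => by
    show (x : G ⧸ center G) ^ m ! = 1
    rw [← QuotientGroup.mk_pow, hx, QuotientGroup.mk_one]) h1
  exact lemA hd (Nat.factorial_pos m) he h2

end Cfsg.Agent.S3928
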