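import Cfsg.Statements.S3937
import Cfsg.Agent.Frob.Zipper
import Cfsg.Agent.Solv.Fitting

set_option autoImplicit false
open Cfsg

namespace Cfsg.Agent.S3937

open Subgroup Cfsg.Agent.SolvStr

universe u

theorem foldl_eq {G : Type*} [Group G] (g : G) (n : ℕ) (x : G) :
    (List.replicate n g).foldl (fun a b => a * b * a⁻¹ * b⁻¹) x = (fun a => a * g * a⁻¹ * g⁻¹)^[n] x := by
  induction n generalizing x with
  | zero => rfl
  | succ n ih => rw [List.replicate_succ, List.foldl_cons, ih, Function.iterate_succ_apply]

theorem subn (n : ℕ) : ∀ (G : Type u) [Group G] [Finite G], Nat.card G = n → ∀ g : G,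
    (∀ x : G, ∃ k : ℕ, (fun a => a * g * a⁻¹ * g⁻¹)^[k] x = 1) → (zpowers g).IsSubnormal := by
  induction n using Nat.strong_induction_on with
  | _ n ih =>
  intro G _ _ hn g hg
  by_contra hns
  have hsub : ∀ H : Subgroup G, zpowers g ≤ H → H ≠ ⊤ → SubnIn (zpowers g) H := by
    intro H hH hne
    have hgH : g ∈ H := hH (mem_zpowers g)
    have hlt : Nat.card H < n := by
      rw [← hn]
      exact Cfsg.Agent.Solv.card_lt_of_ne_top hne
    have := ih _ hlt H rfl ⟨g, hgH⟩ (by
      intro x
      obtain ⟨k, hk⟩ := hg x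
      refine ⟨k, Subtype.ext ?_⟩
      have : ∀ (k : ℕ) (x : H), (((fun a => a * (⟨g, hgH⟩ : H) * a⁻¹ * (⟨g, hgH⟩ : H)⁻¹)^[k] x : H) : G) =
          (fun a => a * g * a⁻¹ * g⁻¹)^[k] (x : G) := by
        intro k
        induction k with
        | zero => intro x; rfl
        | succ k ih => intro x; rw [Function.iterate_succ_apply, Function.iterate_succ_apply, ih]; rfl
      rw [this, hk]; rfl)
    have h2 := SubnIn.map_subtype_iff.2 this
    rwa [MonoidHom.map_zpowers] at h2
  have hA : zpowers g ≠ ⊤ := by
    intro h; apply hns; rw [h]; exact IsSubnormal.top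
  obtain ⟨M, hM, hAM⟩ := (eq_top_or_exists_le_coatom (zpowers g)).resolve_left hA
  have hgM : g ∈ M := hAM (mem_zpowers g)
  -- any y with y g y⁻¹ ∈ M normalizes M
  have hkey : ∀ y : G, y * g * y⁻¹ ∈ M → y ∈ normalizer (M : Set G) := by
    intro y hy
    have hK : IsCoatom (M.comap (MulAut.conj y).toMonoidHom) := by
      have := (OrderIso.isCoatom_iff (MulAut.conj y).comapSubgroup M).2 hM
      exact this
    have hAK : zpowers g ≤ M.comap (MulAut.conj y).toMonoidHom := by
      rw [zpowers_le]; exact hy
    have := Cfsg.Agent.Frob.zipper _ hsub hns hM hK hAM hAK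
    rw [mem_normalizer_iff]
    intro h
    conv_lhs => rw [this]
    rfl
  by_cases hN : normalizer (M : Set G) = ⊤
  · haveI : M.Normal := normalizer_eq_top_iff.1 hN
    exact hns ((hsub M hAM hM.1).trans_isSubnormal (Normal.isSubnormal this))
  · have hNM : normalizer (M : Set G) = M := by
      by_contra h
      exact hN (hM.2 _ (lt_of_le_of_ne le_normalizer (Ne.symm h)))
    have hall : ∀ (k : ℕ) (x : G), (fun a => a * g * a⁻¹ * g⁻¹)^[k] x ∈ M → x ∈ M := by
      intro k
      induction k with
      | zero => intro x h; exact h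
      | succ k ih =>
        intro x h
        rw [Function.iterate_succ_apply] at h
        have h1 := ih _ h
        have h2 : x * g * x⁻¹ ∈ M := by
          have := M.mul_mem h1 hgM
          simpa using this
        rw [← hNM]; exact hkey x h2
    apply hM.1
    rw [eq_top_iff]
    intro x _
    obtain ⟨k, hk⟩ := hg x
    exact hall k x (hk ▸ M.one_mem)

/-- Baer's characterization of the Fitting subgroup: in a finite group G, an element g lies in the Fitting subgroup if and only if g is a left Engel element, that is, for every x there is n with [x, g, g, …, g] = 1 (n entries g, [a, b] = aba⁻¹b⁻¹). -/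
theorem result {G : Type*} [Group G] [Finite G] (g : G) :
    g ∈ Cfsg.fittingSubgroup G ↔ ∀ x : G, ∃ n : ℕ, (List.replicate n g).foldl (fun a b => a * b * a⁻¹ * b⁻¹) x = 1 := by
  simp only [foldl_eq]
  constructor
  · intro hg x
    obtain ⟨n, hn⟩ := (isNilpotent_iff_lowerCentralSeries (Cfsg.fittingSubgroup G)).1 inferInstance
    refine ⟨n + 1, ?_⟩
    have : ∀ k : ℕ, (fun a => a * g * a⁻¹ * g⁻¹)^[k + 1] x ∈ (Cfsg.fittingSubgroup G).lowerCentralSeries k := by
      intro k
      induction k with
      | zero =>
        exact (Cfsg.fittingSubgroup G).mul_mem ((Cfsg.Agent.Solv.instNormalFitting G).conj_mem g hg x)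
          ((Cfsg.fittingSubgroup G).inv_mem hg)
      | succ k ih =>
        rw [Function.iterate_succ_apply', Subgroup.lowerCentralSeries_succ]
        exact commutator_mem_commutator ih hg
    have h := this n
    rw [hn] at h
    exact mem_bot.1 h
  · intro h
    have hs := subn _ G rfl g h
    haveI : Group.IsNilpotent (zpowers g) := Cfsg.Agent.Solv.isNilpotent_of_isMulCommutative _
    exact Cfsg.Agent.Solv.le_fitting_of_isSubnormal hs (mem_zpowers g)

end Cfsg.Agent.S3937
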