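import Cfsg.Statements.S3939
import Cfsg.Agent.Transfer.Residual
import Cfsg.Agent.Solv.Fitting
import Cfsg.Agent.Loc.PGrp

set_option autoImplicit false
open Cfsg

namespace Cfsg.Agent.S3939

open Subgroup

universe u

theorem lcs_bot {G : Type*} [Group G] (S : Subgroup G) (n : ℕ) : ∀ k, S.lowerCentralSeries k ≤ Subgroup.upperCentralSeries G n →
    S.lowerCentralSeries (k + n) = ⊥ := by
  induction n with
  | zero => intro k h; simpa using h
  | succ n ih =>
    intro k h
    have := ih (k + 1) (by
      rw [Subgroup.lowerCentralSeries_succ]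
      exact (commutator_mono h le_top).trans (Subgroup.commutator_upperCentralSeries_top_le G n))
    rwa [show k + (n + 1) = k + 1 + n by ring]

theorem fwd (n : ℕ) : ∀ (G : Type u) [Group G] [Finite G], Nat.card G = n → ∀ g : G,
    (∀ x : G, Group.IsNilpotent ↥(Subgroup.closure ({x, g} : Set G))) → ∃ k, g ∈ Subgroup.upperCentralSeries G k := by
  induction n using Nat.strong_induction_on with
  | _ n ih =>
  intro G _ _ hn g hg
  by_cases h1 : g = 1
  · exact ⟨0, by simp [h1]⟩
  have ho : orderOf g ≠ 1 := by simpa using h1
  obtain ⟨p, hp, hd⟩ := Nat.exists_prime_and_dvd ho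
  haveI : Fact p.Prime := ⟨hp⟩
  set h := g ^ (orderOf g / p) with hh
  have hoh : orderOf h = p := orderOf_pow_orderOf_div (orderOf_pos g).ne' hd
  set C := centralizer ((Cfsg.pResidual p G : Subgroup G) : Set G) with hC
  have hhC : h ∈ C := by
    rw [hC, Cfsg.pResidual, centralizer_closure, mem_centralizer_iff]
    intro x hx
    haveI := hg x
    have := Cfsg.Agent.Solv.le_centralizer_of_coprime_of_isNilpotent (H := closure ({x, g} : Set G))
      (A := zpowers h) (B := zpowers x)
      (by rw [zpowers_le]; exact pow_mem (subset_closure (by simp)) _)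
      (by rw [zpowers_le]; exact subset_closure (by simp))
      (by rw [Nat.card_zpowers, Nat.card_zpowers, hoh]; exact Nat.Coprime.symm hx)
    exact this (mem_zpowers h) x (mem_zpowers x)
  obtain ⟨P⟩ : Nonempty (Sylow p G) := inferInstance
  haveI : C.Normal := inferInstance
  have hne := Cfsg.Agent.Loc.inf_centralizer_ne_bot_of_dvd (N := C) P.isPGroup'
    (by rw [normalizer_eq_top_iff.2 this]; exact le_top) (hoh ▸ C.orderOf_dvd_natCard hhC)
  have hZ : center G ≠ ⊥ := by
    intro hZ
    apply hne
    rw [eq_bot_iff, ← hZ]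
    intro z hz
    have h2 : (⊤ : Subgroup G) ≤ centralizer {z} := by
      rw [← Cfsg.Agent.Transfer.pResidual_sup_sylow P]
      refine sup_le ?_ ?_
      · intro y hy; rw [mem_centralizer_singleton_iff]; exact (mem_inf.1 hz).1 y hy
      · intro y hy; rw [mem_centralizer_singleton_iff]; exact (mem_inf.1 hz).2 y hy
    rw [mem_center_iff]
    intro y
    exact mem_centralizer_singleton_iff.1 (h2 (mem_top y))
  have hlt : Nat.card (G ⧸ center G) < n := by
    rw [← hn]; exact Cfsg.Agent.Solv.card_quotient_lt hZ
  obtain ⟨k, hk⟩ := ih _ hlt (G ⧸ center G) rfl (QuotientGroup.mk' _ g) (by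
    intro x
    obtain ⟨y, rfl⟩ := QuotientGroup.mk'_surjective _ x
    haveI := hg y
    have : closure ({QuotientGroup.mk' (center G) y, QuotientGroup.mk' (center G) g} : Set _) =
        (closure ({y, g} : Set G)).map (QuotientGroup.mk' (center G)) := by
      rw [MonoidHom.map_closure, Set.image_pair]
    rw [this]
    exact Group.nilpotent_of_surjective _ (MonoidHom.subgroupMap_surjective _ _))
  refine ⟨k + 1, ?_⟩
  rw [← Subgroup.comap_upperCentralSeries_quotient_center]
  exact hk

/-- In a finite group G the set of elements g such that the subgroup generated by g and x is nilpotent for every x ∈ G is exactly the hypercenter of G (the last term of the upper central series). -/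
theorem result {G : Type*} [Group G] [Finite G] (g : G) :
    (∀ x : G, Group.IsNilpotent ↥(Subgroup.closure ({x, g} : Set G))) ↔ g ∈ ⨆ n : ℕ, Subgroup.upperCentralSeries G n := by
  constructor
  · intro h
    obtain ⟨k, hk⟩ := fwd _ G rfl g h
    exact mem_iSup_of_mem k hk
  · intro h x
    obtain ⟨n, hn⟩ := (mem_iSup_of_directed (Subgroup.upperCentralSeries_mono G).directed_le).1 h
    refine Subgroup.isNilpotent_of_lowerCentralSeries_eq_bot (lcs_bot _ n 1 ?_)
    rw [Subgroup.lowerCentralSeries_succ, Subgroup.lowerCentralSeries_zero, commutator_le]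
    set Z := Subgroup.upperCentralSeries G n
    have hle : closure ({x, g} : Set G) ≤ (zpowers (QuotientGroup.mk' Z x)).comap (QuotientGroup.mk' Z) := by
      rw [closure_le]
      rintro y (rfl | rfl)
      · exact mem_zpowers _
      · show QuotientGroup.mk' Z y ∈ zpowers _
        rw [show QuotientGroup.mk' Z y = 1 from (QuotientGroup.eq_one_iff y).2 hn]
        exact one_mem _
    intro a ha b hb
    obtain ⟨i, hi⟩ := hle ha
    obtain ⟨j, hj⟩ := hle hb
    rw [← QuotientGroup.eq_one_iff]
    show QuotientGroup.mk' Z _ = 1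
    rw [map_commutatorElement, ← hi, ← hj, commutatorElement_eq_one_iff_commute]
    exact Commute.zpow_zpow_self _ _ _

end Cfsg.Agent.S3939
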