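import Cfsg.Statements.S3941

set_option autoImplicit false
open Cfsg

namespace Cfsg.Agent.S3941

open Subgroup

noncomputable def emb (m : ℕ) : alternatingGroup (Fin m) →* alternatingGroup (Fin (m + 1)) :=
  ((Equiv.Perm.extendDomainHom (finSuccAboveEquiv (Fin.last m))).comp (alternatingGroup (Fin m)).subtype).codRestrict _
    (by
      intro x
      rw [Equiv.Perm.mem_alternatingGroup]
      simp only [MonoidHom.comp_apply, Equiv.Perm.extendDomainHom_apply, Equiv.Perm.sign_extendDomain]
      exact x.2)

theorem emb_inj (m : ℕ) : Function.Injective (emb m) := by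
  intro x y h
  have := congrArg Subtype.val h
  exact Subtype.ext (Equiv.Perm.extendDomainHom_injective _ this)

def xa : alternatingGroup (Fin 4) := ⟨Equiv.swap 0 1 * Equiv.swap 1 2, by
  rw [Equiv.Perm.mem_alternatingGroup]; decide⟩
def ya : alternatingGroup (Fin 4) := ⟨Equiv.swap 1 2 * Equiv.swap 2 3, by
  rw [Equiv.Perm.mem_alternatingGroup]; decide⟩
theorem xa3 : xa ^ 3 = 1 := by apply Subtype.ext; decide
theorem ya3 : ya ^ 3 = 1 := by apply Subtype.ext; decide
theorem xy2 : (xa * ya) ^ 2 = 1 := by apply Subtype.ext; decide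
theorem xy1 : xa * ya ≠ 1 := by intro h; have := congrArg Subtype.val h; revert this; decide

/-- Let n ≥ 5 and p an odd prime with p ≤ n, and suppose that every proper subgroup of the alternating group of degree n whose order is divisible by p has a normal Sylow p-subgroup. Then n = p. -/
theorem result (n p : ℕ) (hn : 5 ≤ n) [Fact p.Prime] (hp : p ≠ 2) (hpn : p ≤ n)
    (h : ∀ H : Subgroup ↥(alternatingGroup (Fin n)), H ≠ ⊤ → p ∣ Nat.card ↥H → Cfsg.IsPClosed p ↥H) : n = p := by
  by_contra hne
  obtain ⟨m, rfl⟩ : ∃ m, n = m + 1 := ⟨n - 1, by omega⟩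
  have hpp : p.Prime := Fact.out
  haveI : Nontrivial (Fin m) := Fin.nontrivial_iff_two_le.2 (by omega)
  have hc1 : 2 * Nat.card (alternatingGroup (Fin m)) = m.factorial := by
    rw [two_mul_nat_card_alternatingGroup, Nat.card_perm, Nat.card_fin]
  have hc2 : 2 * Nat.card (alternatingGroup (Fin (m + 1))) = (m + 1).factorial := by
    haveI : Nontrivial (Fin (m + 1)) := Fin.nontrivial_iff_two_le.2 (by omega)
    rw [two_mul_nat_card_alternatingGroup, Nat.card_perm, Nat.card_fin]
  let e := MonoidHom.ofInjective (emb_inj m)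
  have hce : Nat.card (emb m).range = Nat.card (alternatingGroup (Fin m)) := (Nat.card_congr e.toEquiv).symm
  have hd : p ∣ Nat.card (alternatingGroup (Fin m)) := by
    have : p ∣ 2 * Nat.card (alternatingGroup (Fin m)) := by
      rw [hc1]; exact (hpp.dvd_factorial).2 (by omega)
    exact (Nat.Coprime.dvd_of_dvd_mul_left ((Nat.coprime_primes hpp Nat.prime_two).2 hp) this)
  have hcl := h (emb m).range (by
    intro ht
    rw [ht, card_top] at hce
    rw [hce, hc1, Nat.factorial_succ] at hc2
    have := Nat.factorial_pos m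
    nlinarith) (hce ▸ hd)
  obtain ⟨Q⟩ : Nonempty (Sylow p (alternatingGroup (Fin m))) := inferInstance
  have hQ : (Q : Subgroup (alternatingGroup (Fin m))).Normal := by
    have h1 := hcl (Q.mapSurjective (f := e.toMonoidHom) e.surjective)
    have h2 := h1.comap e.toMonoidHom
    have h3 : ((Q.mapSurjective (f := e.toMonoidHom) e.surjective : Sylow p _) : Subgroup _) = (Q : Subgroup _).map e.toMonoidHom := rfl
    rwa [h3, comap_map_eq_self_of_injective (f := e.toMonoidHom) e.injective] at h2
  by_cases h5 : 5 ≤ m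
  · haveI := alternatingGroup.isSimpleGroup (α := Fin m) (by simpa using h5)
    rcases hQ.eq_bot_or_eq_top with h1 | h1
    · exact Q.ne_bot_of_dvd_card hd h1
    · obtain ⟨k, hk⟩ := IsPGroup.iff_card.1 Q.isPGroup'
      rw [h1, card_top] at hk
      have h4 : 4 ∣ m.factorial := Nat.dvd_factorial (by norm_num) (by omega)
      rw [← hc1, hk] at h4
      have h2 : 2 ∣ p ^ k := by omega
      exact hp ((Nat.prime_dvd_prime_iff_eq Nat.prime_two hpp).1 (Nat.prime_two.dvd_of_dvd_pow h2)).symm
  · obtain rfl : m = 4 := by omega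
    obtain rfl : p = 3 := by
      have h2 := hpp.two_le
      have : p ≤ 4 := by omega
      interval_cases p
      · exact absurd rfl hp
      · rfl
      · exact absurd hpp (by norm_num)
    haveI := Sylow.unique_of_normal Q hQ
    have hmem : ∀ x : alternatingGroup (Fin 4), x ^ 3 = 1 → x ∈ (Q : Subgroup (alternatingGroup (Fin 4))) := by
      intro x hx
      have hx' : IsPGroup 3 (zpowers x) := by
        rintro ⟨_, i, rfl⟩
        refine ⟨1, Subtype.ext ?_⟩
        simp only [pow_one, SubgroupClass.coe_pow, OneMemClass.coe_one]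
        rw [← zpow_natCast, ← zpow_mul, mul_comm, zpow_mul, zpow_natCast, hx, one_zpow]
      obtain ⟨R, hR⟩ := hx'.exists_le_sylow
      rw [Subsingleton.elim Q R]; exact hR (mem_zpowers x)
    obtain ⟨k, hk⟩ := Q.isPGroup' ⟨_, Subgroup.mul_mem _ (hmem _ xa3) (hmem _ ya3)⟩
    have hk' : (xa * ya) ^ 3 ^ k = 1 := congrArg Subtype.val hk
    have h2 : orderOf (xa * ya) = 2 := orderOf_eq_prime xy2 xy1
    rw [← orderOf_dvd_iff_pow_eq_one, h2] at hk'
    exact absurd (Nat.prime_two.dvd_of_dvd_pow hk') (by norm_num)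

end Cfsg.Agent.S3941
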