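import Cfsg.Statements.S3946
import Cfsg.Agent.Gen2.Kegel
import Cfsg.Agent.Transfer.Hol

set_option autoImplicit false
open Cfsg

namespace Cfsg.Agent.S3946

open Subgroup Cfsg.Agent.BG Cfsg.Agent.Gen2 Cfsg.Agent.Transfer SemidirectProduct

/-- Call an automorphism α of order n of a group G splitting when x · α(x) · α²(x) ⋯ α^(n−1)(x) = 1 for every x ∈ G. A finite group admitting a splitting automorphism of prime order is nilpotent (this contains the case of a fixed-point-free automorphism of prime order). -/
theorem result {G : Type*} [Group G] [Finite G] (α : MulAut G) (hp : (orderOf α).Prime)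
    (hsplit : ∀ x : G, (((List.range (orderOf α)).map (fun i : ℕ => (α ^ i) x)).prod = 1)) : Group.IsNilpotent G := by
  have pw : ∀ (g : G) (n : ℕ), (inl g * inr α : Hol G) ^ n =
      inl (((List.range n).map (fun i : ℕ => (α ^ i) g)).prod) * inr (α ^ n) := fun g n => by
    induction n with
    | zero => simp
    | succ n ih =>
      rw [pow_succ, ih, List.range_succ, List.map_append, List.prod_append, map_mul, pow_succ,
        map_mul, List.map_singleton, List.prod_singleton,
        show (inl ((α ^ n) g) : Hol G) = inr (α ^ n) * inl g * (inr (α ^ n))⁻¹ from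
          (inr_mul_inl_mul_inv (MonoidHom.id _) _ _).symm]
      simp only [mul_assoc, inv_mul_cancel_left]
  refine isog_nil (isog_symm (isog_trans isog_top
    (isog_map_inj (inl_injective (φ := MonoidHom.id (MulAut G))) ⊤))) (kegel hp (x := inr α)
      (sdR_le_normalizer_top _ ⊤ (mem_map_of_mem _ trivial)) ?_)
  rintro _ ⟨g, -, rfl⟩
  rw [pw, hsplit, pow_orderOf_eq_one, map_one, map_one, one_mul]

end Cfsg.Agent.S3946
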