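import Cfsg.Statements.S3949

set_option autoImplicit false
open Cfsg

namespace Cfsg.Agent.S3949

/-- Let G be a finite group and α an automorphism of G of order 2 such that the elements g·α(g)⁻¹ generate G. Let j be a positive integer such that 2^j divides the order of no element inverted by α. Then the set of values of the j-th iterate of the map c ↦ c·α(c)⁻¹ is exactly the set of elements of odd order inverted by α. -/
theorem result {G : Type*} [Group G] [Finite G] (α : MulAut G) (hα : orderOf α = 2) (hG : Subgroup.closure (Set.range (fun c : G => c * (α c)⁻¹)) = ⊤)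
    (j : ℕ) (hj : ∀ g : G, α g = g⁻¹ → ¬ 2 ^ j ∣ orderOf g) :
    Set.range ((fun c : G => c * (α c)⁻¹)^[j]) = {g : G | Odd (orderOf g) ∧ α g = g⁻¹} := by
  have hαα : ∀ c, α (α c) = c := by
    intro c
    have : α ^ 2 = 1 := hα ▸ pow_orderOf_eq_one α
    have h2 := congrArg (fun β : MulAut G => β c) this
    simpa [pow_two] using h2
  have hinv : ∀ c : G, α (c * (α c)⁻¹) = (c * (α c)⁻¹)⁻¹ := by
    intro c; simp [hαα]
  have hit : ∀ (k : ℕ) (g : G), α g = g⁻¹ → (fun c : G => c * (α c)⁻¹)^[k] g = g ^ 2 ^ k := by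
    intro k
    induction k with
    | zero => intro g _; simp
    | succ k ih =>
      intro g hg
      rw [Function.iterate_succ_apply', ih g hg]
      simp only [map_pow, hg, inv_pow, inv_inv]
      rw [← pow_add, pow_succ]; congr 1; ring
  obtain ⟨k, rfl⟩ : ∃ k, j = k + 1 := by
    cases j with
    | zero => exact absurd (by simp) (hj 1 (by simp))
    | succ k => exact ⟨k, rfl⟩
  ext g
  constructor
  · rintro ⟨c, rfl⟩
    rw [Function.iterate_succ_apply, hit k _ (hinv c)]
    set h := c * (α c)⁻¹ with hh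
    refine ⟨?_, by rw [map_pow, hinv c, inv_pow]⟩
    have h1 := hj h (hinv c)
    obtain ⟨a, m, hm, ham⟩ := Nat.exists_eq_two_pow_mul_odd (orderOf_pos h).ne'
    have hak : a ≤ k := by
      by_contra hlt
      apply h1
      rw [ham]
      exact (pow_dvd_pow 2 (by omega)).trans (dvd_mul_right _ _)
    have : orderOf (h ^ 2 ^ k) ∣ m := by
      rw [orderOf_dvd_iff_pow_eq_one, ← pow_mul, ← orderOf_dvd_iff_pow_eq_one, ham]
      exact Nat.mul_dvd_mul_right (pow_dvd_pow 2 hak) m
    exact hm.of_dvd_nat this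
  · rintro ⟨ho, hg⟩
    have hc : (2 ^ (k + 1)).Coprime (orderOf g) := Nat.Coprime.pow_left _ (Nat.coprime_two_left.2 ho)
    obtain ⟨m, hm⟩ := exists_pow_eq_self_of_coprime hc
    refine ⟨g ^ m, ?_⟩
    rw [hit _ _ (by rw [map_pow, hg, inv_pow]), ← pow_mul, mul_comm, pow_mul, hm]

end Cfsg.Agent.S3949
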