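import Cfsg.Statements.S3982
import Cfsg.Agent.FG.Basic
import Cfsg.Agent.Gen.Invol
import Cfsg.Agent.Invol.Dihedral

set_option autoImplicit false
open Cfsg

namespace Cfsg.Agent.S3982

open Cfsg.Agent.BG Cfsg.Agent.FG Subgroup

/-- Let p be an odd prime and G a finite group of even order divisible by p in which the centralizer of every non-identity p-element has odd order. If some nontrivial p-subgroup of G has a normalizer of even order, then the normalizer of every Sylow p-subgroup of G has even order. -/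
theorem result {G : Type*} [Group G] [Finite G] (p : ℕ) [Fact p.Prime] (hp2 : p ≠ 2) (hpG : p ∣ Nat.card G) (h2G : 2 ∣ Nat.card G) (hC : ∀ g : G, g ≠ 1 → (∃ k : ℕ, orderOf g = p ^ k) → Odd (Nat.card ↥(Subgroup.centralizer ({g} : Set G)))) (Q : Subgroup G) (hQ : IsPGroup p ↥Q) (hQ1 : Q ≠ ⊥) (hev : Even (Nat.card ↥(Subgroup.normalizer (Q : Set G)))) (P : Sylow p G) : Even (Nat.card ↥(Subgroup.normalizer ((P : Subgroup G) : Set G))) := by
  have hp : p.Prime := Fact.out
  obtain ⟨t, ht, ht2⟩ := Invol.exists_invol_mem_of_even hev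
  obtain ⟨R, hQR, ⟨hR, htR⟩, hmax⟩ := maxgroup_exists (P := fun R : Subgroup G => IsPGroup p R ∧ t ∈ N[R]) ⟨hQ, ht⟩
  have hR1 : R ≠ ⊥ := fun e => hQ1 (le_bot_iff.1 (e ▸ hQR))
  have hodd : ∀ x : G, x ≠ 1 → PiElt {p} x → ∀ s ∈ C1[x], orderOf s ≠ 2 := fun x hx1 hx =>
    Invol.odd_card_iff.1 (hC x hx1 (exists_pow_of_piElt hx))
  -- `t` inverts every `t`-invariant `p`-subgroup, which is therefore abelian
  have hinv : ∀ K : Subgroup G, IsPGroup p K → ∀ s, orderOf s = 2 → s ∈ N[K] →
      IsMulCommutative K ∧ ∀ k ∈ K, s * k * s⁻¹ = k⁻¹ := fun K hK s hs hn => by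
    have := Gen.fpf_invol hn (by rw [Invol.mul_self_of hs]; exact one_mem _) (by
      rw [eq_bot_iff]; rintro x ⟨hx, hx'⟩
      by_contra h1
      exact hodd x h1 (mem_p_elt (IsPGroup.pi hK) hx) s (mem_cent1_comm.1 hx') hs)
    exact ⟨this.1, this.2.2⟩
  have hS : SylowIn p R ⊤ := by
    refine Sylow_subnorm ?_
    rw [top_inf_eq]
    -- `C(R)` has odd order, so `t` normalizes a Sylow `p`-subgroup of `C(R)`
    obtain ⟨x, hx, hx1⟩ := trivgPn.1 hR1
    have hCo : Odd #C[R] := oddSg (cent_le_cent1 hx) (hC x hx1 (exists_pow_of_piElt (mem_p_elt (IsPGroup.pi hR) hx)))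
    have hco : (#C[R]).Coprime #(zpowers t) := by rw [Nat.card_zpowers, ht2]; exact hCo.coprime_two_right
    have hRC := IsMulCommutative.cent (hinv R hR t ht2 htR).1
    obtain ⟨T, hT, htT, hRT⟩ := coprime_Sylow_subset (norms_cent (zpowers_le.2 htR)) hco
      (Or.inl (abelian_sol (abelian_zpowers t))) hRC hR (zpowers_le.2 htR)
    have eT : T = R := hmax T ⟨hT.pg, htT (mem_zpowers t)⟩ hRT
    subst eT
    have hF : C[T] ⊔ (N[T] ⊓ N[zpowers t]) = N[T] := Frattini_gen (cent_sub T) fun g hg => by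
      have hs2 : orderOf (g * t * g⁻¹) = 2 := by rw [orderOf_conj', ht2]
      have hs : g * t * g⁻¹ ∈ N[T] := mul_mem (mul_mem hg htR) (inv_mem hg)
      have h1 : g * t * g⁻¹ * t ∈ C[T] := mem_cent.2 fun a ha =>
        (Invol.commute_mul_of_inverts ((hinv T hR _ hs2 hs).2 a ha) ((hinv T hR t ht2 htR).2 a ha)).eq.symm
      refine SchurZassenhaus_trans (norms_cent (zpowers_le.2 htR)) ?_ hco (by rwa [card_cj])
        (Or.inr (abelian_sol (abelian_zpowers t)))
      rw [cj_zpowers]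
      refine le_antisymm (sup_le le_sup_left (zpowers_le.2 ?_)) (sup_le le_sup_left (zpowers_le.2 ?_))
      · have := mul_mem (inv_mem (mem_sup_right (mem_zpowers (g * t * g⁻¹)))) (mem_sup_left (T := zpowers (g * t * g⁻¹)) h1)
        rwa [inv_mul_cancel_left] at this
      · simpa using mul_mem_sup' h1 (inv_mem (mem_zpowers t))
    refine pHall_trans_idx hT (cent_sub T) ?_
    rw [← hF, relIndex_sup_norml (inf_le_left.trans (cent_norm T))]
    refine PiNat.of_dvd (n := #(N[T] ⊓ N[zpowers t] : Subgroup G)) ?_ (relIndex_dvd_card _ _)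
    rw [p'natE hp]
    intro hd
    obtain ⟨u, hu, hup⟩ := Cauchy hp hd
    refine hodd u (by rintro rfl; simp [eq_comm, hp.ne_one] at hup) (piElt_of_pow (k := 1) (by simpa)) t ?_ ht2
    rcases (Invol.mem_zpowers_invol (Invol.mul_self_of ht2)).1 (conj_mem_of_norm hu.2 (mem_zpowers t)) with e | e
    · exact absurd (by simpa using e) (Invol.ne_one_of ht2)
    · exact mem_cent1.2 (mul_inv_eq_iff_eq_mul.1 e).symm
  obtain ⟨g, -, e⟩ := Sylow_trans hS (sylowIn_top P)
  rw [e, N_cj, card_cj]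
  exact Invol.even_card_of_invol htR ht2

end Cfsg.Agent.S3982
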