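import Cfsg.Statements.S3984
import Cfsg.Agent.FG.Basic

set_option autoImplicit false
open scoped Pointwise
open Cfsg

namespace Cfsg.Agent.S3984

open Cfsg.Agent.BG Cfsg.Agent.FG Subgroup

/-- Let P be a Sylow p-subgroup of the finite group G that meets each conjugate g P g⁻¹ with g outside N_G(P) trivially, and let N be a normal subgroup of G of order prime to p. Then every Sylow p-subgroup Q of G ⧸ N meets each conjugate x Q x⁻¹ with x outside its normalizer trivially. -/
theorem result {G : Type*} [Group G] [Finite G] (p : ℕ) [Fact p.Prime] (P : Sylow p G) (hTI : ∀ g : G, g ∉ Subgroup.normalizer ((P : Subgroup G) : Set G) → (P : Subgroup G) ⊓ (MulAut.conj g • (P : Subgroup G)) = ⊥) (N : Subgroup G) [N.Normal] (hN : (Nat.card ↥N).Coprime p) (Q : Sylow p (G ⧸ N)) : ∀ x : G ⧸ N, x ∉ Subgroup.normalizer ((Q : Subgroup (G ⧸ N)) : Set (G ⧸ N)) → (Q : Subgroup (G ⧸ N)) ⊓ (MulAut.conj x • (Q : Subgroup (G ⧸ N))) = ⊥ := by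
  refine (tiSyl_iff Q).2 fun A B hAB => ?_
  have hs := QuotientGroup.mk'_surjective N
  obtain ⟨A', rfl⟩ := Sylow.mapSurjective_surjective hs p A
  obtain ⟨B', rfl⟩ := Sylow.mapSurjective_surjective hs p B
  rw [eq_bot_iff]
  rintro _ ⟨⟨x, hx, rfl⟩, ⟨y, hy, e⟩⟩
  by_contra h1
  have hy1 : y ≠ 1 := by rintro rfl; exact h1 (by rw [← e]; simp)
  have hco : ∀ z : G, ∀ S : Sylow p G, z ∈ (S : Subgroup G) → (#N).Coprime #(zpowers z) := fun z S hz => by
    obtain ⟨k, hk⟩ := IsPGroup.iff_card.1 (IsPGroup.sub S.2 (zpowers_le.2 hz))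
    rw [hk]; exact hN.pow_right k
  have e2 : N ⊔ zpowers x = N ⊔ zpowers y := by
    have := congrArg (fun z => comap (QuotientGroup.mk' N) (zpowers z)) e
    simp only [← MonoidHom.map_zpowers, comap_map_eq, QuotientGroup.ker_mk'] at this
    rw [sup_comm, ← this, sup_comm]
  obtain ⟨k, hk, e3⟩ := SchurZassenhaus_trans (norm_of_normal N _) e2 (hco x A' hx) (hco y B' hy)
    (Or.inr (abelian_sol (abelian_zpowers x)))
  have e4 : k • A' = B' := by
    by_contra hne
    have := (tiSyl_iff P).1 hTI _ _ hne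
    have h2 : y ∈ ((k • A' : Sylow p G) : Subgroup G) ⊓ B' :=
      ⟨cj_mono k (zpowers_le.2 hx) (e3 ▸ mem_zpowers y), hy⟩
    rw [this] at h2; exact hy1 h2
  apply hAB
  ext1
  rw [← e4, Sylow.coe_mapSurjective, Sylow.coe_mapSurjective, sylow_coe_smul, map_cj,
    QuotientGroup.mk'_apply, (QuotientGroup.eq_one_iff k).2 hk, cj_one]

end Cfsg.Agent.S3984
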