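import Cfsg.Statements.S3985
import Cfsg.Agent.FG.Basic

set_option autoImplicit false
open scoped Pointwise
open Cfsg

namespace Cfsg.Agent.S3985

open Cfsg.Agent.BG Cfsg.Agent.FG Subgroup

/-- Let P be a cyclic Sylow p-subgroup of the finite group G. Then P meets each conjugate g P g⁻¹ with g outside N_G(P) trivially if and only if P is weakly self-centralizing: C_G(x) = C_G(P) for every non-identity x ∈ P. -/
theorem result {G : Type*} [Group G] [Finite G] (p : ℕ) [Fact p.Prime] (P : Sylow p G) (hcyc : IsCyclic ↥(P : Subgroup G)) : (∀ g : G, g ∉ Subgroup.normalizer ((P : Subgroup G) : Set G) → (P : Subgroup G) ⊓ (MulAut.conj g • (P : Subgroup G)) = ⊥) ↔ ∀ x : G, x ∈ (P : Subgroup G) → x ≠ 1 → Subgroup.centralizer ({x} : Set G) = Subgroup.centralizer ((P : Subgroup G) : Set G) := by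
  have hab := cyclic_abelian hcyc
  constructor
  · intro h x hx hx1
    refine le_antisymm ?_ (cent_le_cent1 hx)
    have hn : C1[x] ≤ N[(P : Subgroup G)] := fun g hg => by
      by_contra hn
      have h2 : x ∈ (P : Subgroup G) ⊓ cj g P := ⟨hx, by
        have := conj_mem_cj g hx
        rwa [mem_cent1.1 hg, mul_inv_cancel_right] at this⟩
      have := h g hn
      rw [cj_eq_smul] at this
      rw [this] at h2; exact hx1 h2
    have hP : (P : Subgroup G) ≤ C1[x] := (IsMulCommutative.cent hab).trans (cent_le_cent1 hx)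
    obtain ⟨K, hK, hH⟩ := sdprod_Hall_exists (pHall_subl hP le_top (sylowIn_top P)) ⟨hP, hn⟩
    rw [← hK.sup, sup_le_iff]
    refine ⟨IsMulCommutative.cent hab, coprime_abelian_faithful_Ohm1 P.2 hK.norm
      (pnat_coprime (sylowIn_top P).pi hH.pi) hab ?_⟩
    have hz : zpowers x ≤ (P : Subgroup G) := zpowers_le.2 hx
    have h1 : omegaOne p (P : Subgroup G) ≤ zpowers x := by
      refine cardSg_cyclic hcyc (Ohm_sub _ _) hz ?_
      rw [Ohm1_cyclic_pgroup_prime hcyc P.2 (fun e => hx1 (by simpa [e] using hx))]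
      exact pgroup_pdiv (IsPGroup.sub P.2 hz) (by simpa using hx1)
    exact centsS h1 (C_zpowers x ▸ hH.le)
  · intro h g hg
    rw [cj_eq_smul, eq_bot_iff]
    rintro y ⟨hy, hy'⟩
    by_contra hy1
    have h1 := h y hy hy1
    have h2 := h _ (mem_cj.1 hy') (by simpa [mul_eq_one_iff_eq_inv] using hy1)
    have h3 : cj g C[(P : Subgroup G)] = C[(P : Subgroup G)] := by
      conv_lhs => rw [← h2, ← C1_conj]
      rw [← h1]; congr 2; group
    apply hg
    refine mem_norm_of_cj_le (sub_normal_Hall (pHall_subl (IsMulCommutative.cent hab) le_top (sylowIn_top P))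
      ⟨IsMulCommutative.cent hab, cent_sub _⟩ ?_ (pgroupJ g (sylowIn_top P).pi))
    rw [← h3]; exact cj_mono g (IsMulCommutative.cent hab)

end Cfsg.Agent.S3985
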