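import Cfsg.Statements.S3986
import Cfsg.Agent.FG.Basic

set_option autoImplicit false
open Cfsg

namespace Cfsg.Agent.S3986

open Cfsg.Agent.BG Cfsg.Agent.FG Subgroup

/-- Let p be a prime and G a finite group. Then some Sylow p-subgroup of G is a direct factor of G (it is normal and has a normal complement) if and only if every element of p-power order commutes with every element whose order is a power of a prime other than p. -/
theorem result {G : Type*} [Group G] [Finite G] (p : ℕ) [Fact p.Prime] : (∃ (P : Sylow p G) (K : Subgroup G), (P : Subgroup G).Normal ∧ K.Normal ∧ (P : Subgroup G) ⊓ K = ⊥ ∧ (P : Subgroup G) ⊔ K = ⊤) ↔ ∀ x y : G, (∃ a : ℕ, orderOf x = p ^ a) → (∃ q b : ℕ, q.Prime ∧ q ≠ p ∧ orderOf y = q ^ b) → x * y = y * x := by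
  constructor
  · rintro ⟨P, K, hP, hK, hi, hs⟩ x y ⟨a, ha⟩ ⟨q, b, hq, hqp, hb⟩
    have hd := dprod_of_normal (normal_top _) (normal_top K) hs hi
    have hx := mem_normal_Hall (sylowIn_top P) (normal_top _) (mem_top x) (piElt_of_pow ha)
    haveI := Fact.mk hq
    have hy := mem_normal_Hall (compl_pHall hd.sdprod.compl (sylowIn_top P)) (normal_top _) (mem_top y)
      (pi_pnat (piElt_of_pow hb) hqp)
    exact mem_cent.1 (hd.cent hy) x hx
  · intro h
    obtain ⟨P⟩ : Nonempty (Sylow p G) := inferInstance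
    have hd := dprod_of_commute (sylowIn_top P) fun q hq hqp Q _ hQ y hy => mem_cent.2 fun x hx => by
      haveI := Fact.mk hq
      obtain ⟨b, hb⟩ := exists_pow_of_piElt (mem_p_elt (IsPGroup.pi hQ) hy)
      exact h x y (exists_pow_of_piElt (mem_p_elt (sylowIn_top P).pi hx)) ⟨q, b, hq, hqp, hb⟩
    exact ⟨P, _, hd.normall.normal, hd.normalr.normal, hd.inf, hd.sup⟩

end Cfsg.Agent.S3986
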