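import Cfsg.Statements.S3987
import Cfsg.Agent.FG.Basic
import Cfsg.Agent.S3986

set_option autoImplicit false
open Cfsg

namespace Cfsg.Agent.S3987

open Cfsg.Agent.BG Cfsg.Agent.FG Subgroup

/-- Let p be a prime and G a finite group. Then some Sylow p-subgroup of G is a direct factor of G (normal with a normal complement) if and only if for every element x of p-power order and every element y whose order is a power of a prime other than p, the conjugacy class of x y has as many elements as the product of the sizes of the classes of x and of y. -/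
theorem result {G : Type*} [Group G] [Finite G] (p : ℕ) [Fact p.Prime] : (∃ (P : Sylow p G) (K : Subgroup G), (P : Subgroup G).Normal ∧ K.Normal ∧ (P : Subgroup G) ⊓ K = ⊥ ∧ (P : Subgroup G) ⊔ K = ⊤) ↔ ∀ x y : G, (∃ a : ℕ, orderOf x = p ^ a) → (∃ q b : ℕ, q.Prime ∧ q ≠ p ∧ orderOf y = q ^ b) → (Subgroup.centralizer ({x * y} : Set G)).index = (Subgroup.centralizer ({x} : Set G)).index * (Subgroup.centralizer ({y} : Set G)).index := by
  constructor
  · rintro ⟨P, K, hP, hK, hi, hs⟩ x y ⟨a, ha⟩ ⟨q, b, hq, hqp, hb⟩
    have hd := dprod_of_normal (normal_top _) (normal_top K) hs hi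
    have hx := mem_normal_Hall (sylowIn_top P) (normal_top _) (mem_top x) (piElt_of_pow ha)
    haveI := Fact.mk hq
    have hK := compl_pHall hd.sdprod.compl (sylowIn_top P)
    have hy' : PiElt {p}ᶜ y := pi_pnat (piElt_of_pow hb) hqp
    have hy := mem_normal_Hall hK (normal_top _) (mem_top y) hy'
    have hc : Commute x y := mem_cent.1 (hd.cent hy) x hx
    have e := constt_eq hc (piElt_of_pow ha) hy'
    rw [cent1_eq_inf_constt {p} (x * y), e.1, e.2]
    refine le_antisymm index_inf_le (Nat.le_of_dvd (Nat.pos_of_ne_zero index_ne_zero_of_finite)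
      (Nat.Coprime.mul_dvd_of_dvd_of_dvd ?_ (index_dvd_of_le inf_le_left) (index_dvd_of_le inf_le_right)))
    have h1 : C1[x].index ∣ K.index := index_dvd_of_le (hd.cent.trans (cent_le_cent1 hx))
    have h2 : C1[y].index ∣ (P : Subgroup G).index := index_dvd_of_le (hd.symm.cent.trans (cent_le_cent1 hy))
    have h3 := hK.idx
    have h4 := (sylowIn_top P).idx
    rw [relIndex_top_right] at h3 h4
    rw [compl_compl] at h3
    exact pnat_coprime (h3.of_dvd h1) (h4.of_dvd h2)
  · intro h
    refine (S3986.result p).2 fun x y hx hy => ?_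
    have h1 : C1[x] ⊓ C1[y] ≤ C1[x * y] := fun g hg => mem_cent1.2 (by
      rw [← mul_assoc, mem_cent1.1 hg.1, mul_assoc, mem_cent1.1 hg.2, mul_assoc])
    have h2 : (C1[x] ⊓ C1[y]).index ≤ C1[x * y].index := h x y hx hy ▸ index_inf_le
    have h3 : C1[x] ⊓ C1[y] = C1[x * y] := eq_of_card_le h1 (by
      have a := card_mul_index (C1[x] ⊓ C1[y])
      have b := card_mul_index C1[x * y]
      have c : 0 < C1[x * y].index := Nat.pos_of_ne_zero index_ne_zero_of_finite
      refine Nat.le_of_mul_le_mul_right ?_ c
      rw [b, ← a]; exact Nat.mul_le_mul_left _ h2)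
    have h4 : x * y ∈ C1[x] ⊓ C1[y] := h3 ▸ cent1_self (x * y)
    have := mem_cent1.1 h4.1
    rw [mul_assoc] at this
    exact (mul_left_cancel this).symm

end Cfsg.Agent.S3987
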