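import Cfsg.Statements.S3992
import Cfsg.Agent.S3633
import Cfsg.Agent.S1475
import Cfsg.Agent.Char.Burnside

set_option autoImplicit false
open Cfsg

namespace Cfsg.Agent.S3992

open Cfsg.Agent.BG Cfsg.Agent.FG Subgroup

theorem aux {G : Type*} [Group G] [Finite G] (h : ∀ p, FG.Sep {p} (⊤ : Subgroup G))
    (h0 : ∀ p, p.Prime → Op p (⊤ : Subgroup G) = ⊥) {A B : Subgroup G} (hA : A ≠ ⊥) (hB : B ≠ ⊥) (hs : Subnormal B ⊤)
    (hc : A ≤ C[B]) : False := by
  obtain ⟨p, hp, h1⟩ := exists_prime_dvd_card hB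
  exact hB (eq_bot_iff.2 ((subnormal_pcore hs (((h p).of_cent le_top fun e =>
    hA (eq_bot_iff.2 ((le_inf le_top hc).trans e.le))).resolve_right fun h => h p hp h1 rfl)).trans (h0 p hp).le))

/-- Let G be a finite non-solvable group in which every element has prime-power order, and let R be its largest solvable normal subgroup. Then R is a p-group for some prime p; G/R has a non-abelian simple normal subgroup contained in every nontrivial normal subgroup of G/R (its unique minimal normal subgroup); and the order of every solvable subgroup of G has at most two prime divisors. -/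
theorem result {G : Type*} [Group G] [Finite G] (hns : ¬ Group.IsSolvable G) (hpp : ∀ g : G, g ≠ 1 → IsPrimePow (orderOf g))
    (R : Subgroup G) [R.Normal] (hRs : Group.IsSolvable ↥R) (hRmax : ∀ N : Subgroup G, N.Normal → Group.IsSolvable ↥N → N ≤ R) :
    (∃ p : ℕ, p.Prime ∧ IsPGroup p ↥R) ∧
      (∃ M : Subgroup (G ⧸ R), M.Normal ∧ IsSimpleGroup ↥M ∧ ¬ IsMulCommutative ↥M ∧
        ∀ N : Subgroup (G ⧸ R), N.Normal → N ≠ ⊥ → M ≤ N) ∧
      ∀ H : Subgroup G, Group.IsSolvable ↥H → (Nat.card ↥H).primeFactors.card ≤ 2 := by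
  have h1 : ∀ a b : ℕ, a.Prime → b.Prime → a ≠ b → ∀ g : G, orderOf g ≠ a * b := fun a b ha hb hab g e =>
    hab (((isPrimePow_iff_unique_prime_dvd.1 (hpp g fun h => ha.ne_one (Nat.eq_one_of_mul_eq_one_right
      (e.symm.trans (orderOf_eq_one_iff.2 h))))).unique ⟨ha, e ▸ dvd_mul_right a b⟩ ⟨hb, e ▸ dvd_mul_left b a⟩))
  refine ⟨?_, ?_, fun H hH => S1475.result fun g => or_iff_not_imp_right.2 fun h =>
    orderOf_coe g ▸ hpp g (by simpa using h)⟩
  · have h2 : 3 ≤ (Nat.card G).primeFactors.card := by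
      by_contra! h2
      obtain ⟨p, q, hp, hq, h3⟩ : ∃ p q : ℕ, p.Prime ∧ q.Prime ∧ (Nat.card G).primeFactors ⊆ {p, q} := by
        obtain h | h | h : (Nat.card G).primeFactors.card = 0 ∨ (Nat.card G).primeFactors.card = 1 ∨
          (Nat.card G).primeFactors.card = 2 := by omega
        · exact ⟨2, 2, Nat.prime_two, Nat.prime_two, by simp [Finset.card_eq_zero.1 h]⟩
        · obtain ⟨p, e⟩ := Finset.card_eq_one.1 h
          have := Nat.prime_of_mem_primeFactors (e.ge (Finset.mem_singleton_self p))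
          exact ⟨p, p, this, this, by simp [e]⟩
        · obtain ⟨p, q, -, e⟩ := Finset.card_eq_two.1 h
          exact ⟨p, q, Nat.prime_of_mem_primeFactors (e.ge (by simp)), Nat.prime_of_mem_primeFactors (e.ge (by simp)), e.le⟩
      obtain ⟨a, ha⟩ := (p_natP hp).1 (partn_pnat {p} (Nat.card G))
      obtain ⟨b, hb⟩ := (p_natP hq).1 ((partn_pnat {p}ᶜ (Nat.card G)).mono' fun r hr h4 h5 => by
        simpa [show r ≠ p from h5] using h3 (Nat.mem_primeFactors.2 ⟨hr, h4.trans (partn_dvd_self _ _), Nat.card_pos.ne'⟩))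
      exact hns (Char.isSolvable_of_card_eq_prime_pow_mul hp hq (by rw [← ha, ← hb, partnC _ Nat.card_pos.ne']))
    have h3 := (S3633.result _ h2 ⟨fun r hr => ⟨Nat.prime_of_mem_primeFactors hr, Nat.dvd_of_mem_primeFactors hr⟩,
      fun r hr s hs hrs ⟨g, e⟩ => h1 r s (Nat.prime_of_mem_primeFactors hr) (Nat.prime_of_mem_primeFactors hs) hrs g e⟩ R hRs).1
    have h4 : ∀ r : ℕ, r.Prime → r ∣ #R → r ∈ (Nat.card G).primeFactors := fun r hr h =>
      Nat.mem_primeFactors.2 ⟨hr, h.trans (card_subgroup_dvd_card R), Nat.card_pos.ne'⟩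
    by_cases h0 : R = ⊥
    · exact ⟨2, Nat.prime_two, h0 ▸ IsPGroup.of_bot⟩
    obtain ⟨p, hp, h5⟩ := exists_prime_dvd_card h0
    haveI := Fact.mk hp
    exact ⟨p, hp, PiNat.pg fun r hr h => h3 r (h4 r hr h) p (h4 p hp h5) h h5⟩
  have hf := QuotientGroup.mk'_surjective R
  have h2 : ∀ p, FG.Sep {p} (⊤ : Subgroup (G ⧸ R)) := fun p => map_top_of_surjective _ hf ▸
    (sep_of_orderOf fun a b ha hb e1 e2 _ _ g _ => h1 a b ha hb (fun e => e2 (e ▸ e1)) g).map _
  have h3 : ∀ N : Subgroup (G ⧸ R), N.Normal → Group.IsSolvable N → N = ⊥ := fun N _ _ => by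
    rw [← map_comap_eq_self_of_surjective hf N, Subgroup.map_eq_bot_iff, QuotientGroup.ker_mk']
    refine hRmax _ inferInstance (Group.isSolvable_of_ker_le_range
      (inclusion ((QuotientGroup.ker_mk' R).ge.trans (ker_le_comap _ N))) ((QuotientGroup.mk' R).subgroupComap N) ?_)
    exact fun x hx => ⟨⟨x, (QuotientGroup.eq_one_iff _).1 (congrArg Subtype.val hx)⟩, rfl⟩
  have h4 : ∀ p, p.Prime → Op p (⊤ : Subgroup (G ⧸ R)) = ⊥ := fun p hp =>
    haveI := Fact.mk hp
    h3 _ (pcore_normal _ _).normal (pgroup_sol (Op_pgroup p _))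
  obtain ⟨M, hM, -⟩ := minnormal_exists (H := (⊤ : Subgroup (G ⧸ R))) (M := ⊤) (fun e => hns (by
    have : R = ⊤ := top_unique fun x _ => (QuotientGroup.eq_one_iff x).1 (e.le (mem_top _))
    exact isog_sol (isog_symm isog_top) (this ▸ hRs))) (normG _)
  have nM : M ⊴ ⊤ := ⟨le_top, hM.norm⟩
  refine ⟨M, nM.normal, ?_, fun h => hM.ne (h3 M nM.normal (abelian_sol h)), fun N _ hN => by_contra fun h =>
    aux h2 h4 hN hM.ne nM.subnormal (TI_cent (le_top.trans hM.norm) (norm_of_normal _ _) (by_contra fun e =>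
      h (inf_eq_right.1 (hM.map_eq inf_le_right (normsI (norm_of_normal _ _) hM.norm) e))))⟩
  haveI := (nontrivial_iff_ne_bot M).2 hM.ne
  refine ⟨fun S hS => or_iff_not_imp_left.2 fun h0 => ?_⟩
  obtain ⟨T, hT, h5⟩ := minnormal_exists (M := M) (mt (map_eq_bot_iff_of_injective S M.subtype_injective).1 h0)
    (normal_map_subtype hS).norm
  have nT : T ⊴ M := ⟨h5.trans (map_subtype_le S), hT.norm⟩
  have h6 : T = M := hM.map_eq nT.le (fun g _ => mem_norm.2 (by_contra fun e => ?_)) hT.ne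
  · exact map_injective M.subtype_injective ((map_subtype_le S).antisymm (h6.ge.trans h5) |>.trans (map_subtype_top M).symm)
  have n2 : cj g T ⊴ M := nM.cj_eq (mem_top g) ▸ nT.cj g
  refine aux h2 h4 (mt cj_eq_bot.1 hT.ne) hT.ne (nT.subnormal.trans nM.subnormal)
    (TI_cent (n2.le.trans nT.norm) (nT.le.trans n2.norm) (by_contra fun h => e ?_))
  exact (eq_of_card_le (inf_eq_right.1 (hT.map_eq inf_le_right (normsI n2.norm nT.norm) h)) (card_cj g T).le).symm

end Cfsg.Agent.S3992
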