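import Cfsg.Statements.S4009
import Cfsg.Agent.Loc.Comm
import Cfsg.Agent.PGrp.Basic

set_option autoImplicit false
open Cfsg

namespace Cfsg.Agent.S4009

open Subgroup PGrp
open scoped commutatorElement

section
variable {G : Type*} [Group G]

/-- `[N, G, ..., G]`. -/
def it (N : Subgroup G) : ℕ → Subgroup G
  | 0 => N
  | i + 1 => ⁅it N i, ⊤⁆

/-- The derived series of a subgroup. -/
def D : Subgroup G → ℕ → Subgroup G
  | N, 0 => N
  | N, m + 1 => D ⁅N, N⁆ m

theorem D_succ (m : ℕ) : ∀ N : Subgroup G, D N (m + 1) = ⁅D N m, D N m⁆ := by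
  induction m with
  | zero => exact fun _ => rfl
  | succ m ih => exact fun N => ih _

theorem D_top (m : ℕ) : D (⊤ : Subgroup G) m = derivedSeries G m := by
  induction m with
  | zero => rfl
  | succ m ih => rw [D_succ, ih]; rfl

theorem D_ne {N : Subgroup G} {m : ℕ} (h : D N m ≠ ⊥) : N ≠ ⊥ := by
  rintro rfl
  induction m with
  | zero => exact h rfl
  | succ m ih => exact ih fun e => h (by rw [D_succ, e, commutator_bot_left])

instance it_normal (N : Subgroup G) [hN : N.Normal] : ∀ i, (it N i).Normal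
  | 0 => hN
  | i + 1 => haveI := it_normal N i; commutator_normal _ _

theorem it_mono {M N : Subgroup G} (h : M ≤ N) : ∀ i, it M i ≤ it N i
  | 0 => h
  | i + 1 => commutator_mono (it_mono h i) le_rfl

theorem it_it (N : Subgroup G) (a : ℕ) : ∀ b, it (it N a) b = it N (a + b)
  | 0 => rfl
  | b + 1 => congrArg (⁅·, ⊤⁆) (it_it N a b)

theorem comm_le (s : ℕ) : ∀ (N : Subgroup G) [N.Normal], ⁅N, it ⊤ s⁆ ≤ it N (s + 1) := by
  induction s with
  | zero => exact fun N _ => le_rfl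
  | succ s ih =>
    intro N _
    rw [commutator_comm]
    refine Loc.three_subgroups_of_normal ?_ ?_
    · rw [commutator_comm ⊤]
      refine (ih (it N 1)).trans ?_
      rw [it_it, add_comm]
    · exact commutator_mono (ih N) le_rfl

theorem two_gen {N K : Subgroup G} [K.Normal] {a b : G} [N.Normal] (ha : a ∈ N) (hb : b ∈ N)
    (h : N ≤ it N 1 ⊔ zpowers a ⊔ zpowers b) (h1 : ⁅it N 1, N⁆ ≤ K) (h2 : ⁅a, b⁆ ∈ K) :
    ⁅N, N⁆ ≤ K := by
  have e : ∀ x y : G, ⁅x, y⁆ ∈ K ↔ x ∈ (centralizer {(y : G ⧸ K)}).comap (QuotientGroup.mk' K) :=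
    fun x y => by
      rw [mem_comap, mem_centralizer_singleton_iff, ← QuotientGroup.eq_one_iff,
        ← commutatorElement_eq_one_iff_mul_comm]; rfl
  have sy : ∀ x y : G, ⁅x, y⁆ ∈ K → ⁅y, x⁆ ∈ K := fun x y h => by
    rw [← commutatorElement_inv]; exact inv_mem h
  have k : ∀ y ∈ N, ⁅a, y⁆ ∈ K → ⁅b, y⁆ ∈ K → ∀ x ∈ N, ⁅x, y⁆ ∈ K := fun y hy k1 k2 x hx =>
    (e x y).2 ((h.trans (sup_le (sup_le (fun w hw => (e w y).1
      (h1 (commutator_mem_commutator hw hy))) (zpowers_le.2 ((e a y).1 k1)))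
      (zpowers_le.2 ((e b y).1 k2)))) hx)
  exact commutator_le.2 fun x hx y hy => k y hy
    (sy _ _ (k a ha (by simp) (sy _ _ h2) y hy)) (sy _ _ (k b hb h2 (by simp) y hy)) x hx

/-- `N / [N, G]` is cyclic. -/
def Cyc (N : Subgroup G) : Prop := ∃ a ∈ N, N ≤ it N 1 ⊔ zpowers a

theorem Cyc.le {N : Subgroup G} [N.Normal] (h : Cyc N) {s : ℕ} (hs : N ≤ it ⊤ s) :
    ⁅N, N⁆ ≤ it N (s + 2) := by
  obtain ⟨a, ha, h⟩ := h
  refine two_gen ha ha (h.trans le_sup_left) ?_ (by simp)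
  rw [commutator_comm]
  exact (commutator_mono le_rfl (commutator_mono hs le_rfl)).trans (comm_le (s + 1) N)

variable [Finite G] {p : ℕ} [hp : Fact p.Prime]

theorem lg (hG : IsPGroup p G) (N : Subgroup G) : Nat.card N = p ^ Nat.log p (Nat.card N) := by
  obtain ⟨k, hk⟩ := (hG.to_subgroup N).exists_card_eq
  rw [hk, Nat.log_pow hp.out.one_lt]

theorem lg_lt (hG : IsPGroup p G) {M N : Subgroup G} (h : M < N) :
    Nat.log p (Nat.card M) < Nat.log p (Nat.card N) := by
  rw [← Nat.pow_lt_pow_iff_right hp.out.one_lt, ← lg hG, ← lg hG]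
  exact lt_of_not_ge fun e => h.ne (eq_of_le_of_card_ge h.le e)

theorem lg_le (hG : IsPGroup p G) {M N : Subgroup G} (h : M ≤ N) :
    Nat.log p (Nat.card M) ≤ Nat.log p (Nat.card N) :=
  h.eq_or_lt.elim (fun e => e ▸ le_rfl) fun e => (lg_lt hG e).le

theorem lg_it (hG : IsPGroup p G) (N : Subgroup G) [N.Normal] (i : ℕ) (h : it N i ≠ ⊥) :
    Nat.log p (Nat.card (it N i)) + i ≤ Nat.log p (Nat.card N) := by
  induction i with
  | zero => rfl
  | succ i ih =>
    have h1 : it N i ≠ ⊥ := fun e => h (by rw [it, e, commutator_bot_left])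
    haveI := hG.isNilpotent
    obtain ⟨z, hz, hz1, hz2⟩ := exists_central_mod (M := ⊥) (N := it N (i + 1)) (by simpa using h)
    have : it N (i + 1) < it N i := lt_of_le_of_ne (commutator_le_left _ _) fun e => by
      have h2 : ∀ k, (⊤ : Subgroup G).lowerCentralSeries k ≥ it N i := fun k => by
        induction k with
        | zero => exact le_top
        | succ k ih => rw [← e]; exact commutator_mono ih le_rfl
      obtain ⟨k, hk⟩ := Subgroup.nilpotent_iff_lowerCentralSeries.1 hG.isNilpotent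
      exact h1 (le_bot_iff.1 (hk ▸ h2 k))
    have := lg_lt hG this
    have := ih h1
    omega

theorem gen (hG : IsPGroup p G) {M N : Subgroup G} [M.Normal] (h : M ≤ N)
    (hc : Nat.card N = Nat.card M * p) : ∃ a ∈ N, N ≤ M ⊔ zpowers a := by
  obtain ⟨g, hg, hgM⟩ := SetLike.not_le_iff_exists.1 fun e : N ≤ M => by
    have := card_le_of_le e
    have h0 : 0 < Nat.card M := Nat.card_pos
    have := hp.out.one_lt
    nlinarith
  obtain ⟨m, h1, h2⟩ := exists_pow_not_mem hG hgM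
  refine ⟨_, pow_mem hg (p ^ m), (eq_of_le_of_card_ge (sup_le h (zpowers_le.2 (pow_mem hg _))) ?_).ge⟩
  rw [card_sup_zpowers hp.out (by rw [normalizer_eq_top]; trivial) h1 h2, hc]

theorem ncyc (hG : IsPGroup p G) {N : Subgroup G} [N.Normal] (h : ¬ Cyc N) :
    Nat.log p (Nat.card (it N 1)) + 2 ≤ Nat.log p (Nat.card N) := by
  have h1 : it N 1 ≤ N := commutator_le_left _ _
  have h2 := lg_lt hG (lt_of_le_of_ne h1 fun e => h ⟨1, one_mem _, e.ge.trans le_sup_left⟩)
  by_contra h3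
  exact h (gen hG h1 (by rw [lg hG N, lg hG (it N 1), ← pow_succ]; congr 1; omega))

theorem le_it {N : Subgroup G} [N.Normal] {s : ℕ} (hs : N ≤ it ⊤ s) : ⁅N, N⁆ ≤ it N (s + 1) :=
  (commutator_mono le_rfl hs).trans (comm_le s N)

theorem hall (hG : IsPGroup p G) {N : Subgroup G} [N.Normal] {s : ℕ} (hs : N ≤ it ⊤ s)
    (h : ⁅N, N⁆ ≠ ⊥) : Nat.log p (Nat.card ↥⁅N, N⁆) + s + 2 ≤ Nat.log p (Nat.card N) := by
  by_cases hc : Cyc N
  · have h1 := hc.le hs
    have := lg_le hG h1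
    have := lg_it hG N (s + 2) (ne_bot_of_le_ne_bot h h1)
    omega
  · have h1 := le_it hs
    rw [add_comm, ← it_it] at h1
    have := lg_le hG h1
    have := lg_it hG _ s (ne_bot_of_le_ne_bot h h1)
    have := ncyc hG hc
    omega

theorem small (hG : IsPGroup p G) {N : Subgroup G} [N.Normal] {s : ℕ} (hs : N ≤ it ⊤ s)
    (h : ⁅N, N⁆ ≠ ⊥) (hc : ¬ Cyc N)
    (e : Nat.log p (Nat.card N) ≤ Nat.log p (Nat.card ↥⁅N, N⁆) + s + 2) : Cyc ⁅N, N⁆ := by
  have h1 := le_it hs
  have h1' := h1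
  rw [add_comm, ← it_it] at h1
  have a1 := lg_le hG h1
  have a2 := lg_it hG _ s (ne_bot_of_le_ne_bot h h1)
  have a3 := ncyc hG hc
  have e1 : ⁅N, N⁆ = it N (s + 1) := by
    by_contra hne
    have := lg_lt hG (lt_of_le_of_ne h1' hne)
    rw [add_comm, ← it_it] at this; omega
  have hN : Nat.card N = Nat.card (it N 1) * p ^ 1 * p := by
    rw [lg hG N, lg hG (it N 1), ← pow_add, ← pow_succ]; congr 1; omega
  obtain ⟨L, hL, l1, l2, l3⟩ := exists_normal_between hG (M := it N 1) (N := N)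
    (commutator_le_left _ _) 1 (hN ▸ Nat.le_mul_of_pos_right _ hp.out.pos)
  obtain ⟨a, ha, h2⟩ := gen hG l1 (by rw [l3, pow_one])
  obtain ⟨b, hb, h3⟩ := gen hG l2 (by rw [l3, hN])
  have hab := commutator_mem_commutator (l2 ha) hb
  haveI := normal_sup_zpowers (M := it ⁅N, N⁆ 1) (x := ⁅a, b⁆) fun g =>
    commutator_mem_commutator hab (mem_top g)
  refine ⟨_, hab, two_gen (l2 ha) hb (h3.trans (sup_le_sup_right h2 _)) (le_sup_of_le_left ?_)
    (mem_sup_right (mem_zpowers _))⟩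
  rw [commutator_comm, e1]
  exact (commutator_mono le_rfl (commutator_mono hs le_rfl)).trans (comm_le (s + 1) N)

theorem F (hG : IsPGroup p G) (m : ℕ) : ∀ (N : Subgroup G) [N.Normal] (s : ℕ), N ≤ it ⊤ s →
    D N m ≠ ⊥ → (s + 1) * 2 ^ m + m ≤ Nat.log p (Nat.card N) + s := by
  induction m with
  | zero =>
    intro N _ s _ h
    have := lg_lt hG (bot_lt_iff_ne_bot.2 h)
    simp only [D] at this; omega
  | succ m ih =>
    intro N _ s hs h
    have h1 := hall hG hs (D_ne (m := m) h)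
    have h2 := ih ⁅N, N⁆ (s + (s + 1)) ((le_it hs).trans (it_it (⊤ : Subgroup G) s _ ▸ it_mono hs _)) h
    rw [pow_succ]; nlinarith

theorem T (hG : IsPGroup p G) (m : ℕ) : ∀ (N : Subgroup G) [N.Normal] (s : ℕ), N ≤ it ⊤ s →
    D N m ≠ ⊥ → (s + 1) * 2 ^ m + 2 * m ≤ Nat.log p (Nat.card N) + s + 2 := by
  induction m with
  | zero => intro N _ s _ _; omega
  | succ m ih =>
    intro N _ s hs h
    have h0 := D_ne (m := m) h
    have h1 := hall hG hs h0
    have hs' := (le_it hs).trans (it_it (⊤ : Subgroup G) s _ ▸ it_mono hs _)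
    by_cases hc : Cyc N
    · have h2 := F hG m ⁅N, N⁆ (s + (s + 2))
        ((hc.le hs).trans (it_it (⊤ : Subgroup G) s _ ▸ it_mono hs _)) h
      have := m.lt_two_pow_self
      rw [pow_succ]; nlinarith
    by_cases e : Nat.log p (Nat.card N) ≤ Nat.log p (Nat.card ↥⁅N, N⁆) + s + 2
    · have hc' := small hG hs h0 hc e
      rcases m with _ | m
      · omega
      · have h3 := hall hG hs' (D_ne (m := m) h)
        have h2 := F hG m ⁅⁅N, N⁆, ⁅N, N⁆⁆ (s + (s + 1) + (s + (s + 1) + 2))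
          ((hc'.le hs').trans (it_it (⊤ : Subgroup G) _ _ ▸ it_mono hs' _)) h
        have := m.lt_two_pow_self
        rw [pow_succ, pow_succ]; nlinarith
    · have h2 := ih ⁅N, N⁆ _ hs' h
      rw [pow_succ]; nlinarith

end

/-- Let P be a finite p-group of order p^n whose derived length is exactly k + 1 (the k-th derived subgroup is nontrivial and the (k+1)-st is trivial). Then n ≥ 2^k + 2k − 2. -/
theorem result {P : Type*} [Group P] [Finite P] (p : ℕ) [Fact p.Prime] (n k : ℕ) (hcard : Nat.card P = p ^ n) (hk : derivedSeries P k ≠ ⊥) (hk' : derivedSeries P (k + 1) = ⊥) : 2 ^ k + 2 * k ≤ n + 2 := by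
  have := T (IsPGroup.of_card hcard) k ⊤ 0 le_rfl (D_top (G := P) k ▸ hk)
  rw [card_top, hcard, Nat.log_pow (Fact.out : p.Prime).one_lt] at this
  omega

end Cfsg.Agent.S4009
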