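import Cfsg.Statements.S4013
import Cfsg.Agent.FG.Basic

set_option autoImplicit false
open Cfsg

namespace Cfsg.Agent.S4013

open Cfsg.Agent.BG Cfsg.Agent.FG Subgroup

/-- Let G be a finite p-group (p prime) and N < M normal subgroups of G such that for some g ∈ M ∖ N the conjugacy class of g is exactly M ∖ N. Then p = 2 and N has index 2 in M. -/
theorem result {G : Type*} [Group G] [Finite G] (p : ℕ) [Fact p.Prime] (hG : IsPGroup p G) (N M : Subgroup G) [N.Normal] [M.Normal] (hNM : N < M) (g : G) (hgM : g ∈ M) (hgN : g ∉ N) (hcl : {h : G | IsConj g h} = (M : Set G) \ (N : Set G)) : p = 2 ∧ N.relIndex M = 2 := by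
  have hp : p.Prime := Fact.out
  have h1 : Nat.card {h : G // IsConj g h} = #M - #N := by
    have : Nat.card {h : G // IsConj g h} = ({h : G | IsConj g h}).ncard := rfl
    rw [this, hcl, Set.ncard_sdiff hNM.le]; rfl
  rw [Invol.card_class_eq_index, ← card_mul_relIndex hNM.le, ← Nat.mul_sub_one] at h1
  obtain ⟨n, hn⟩ := IsPGroup.iff_card.1 hG
  obtain ⟨a, -, ha⟩ := (Nat.dvd_prime_pow hp).1 (hn ▸ ((relIndex_dvd_card N M).trans (card_subgroup_dvd_card M)))
  obtain ⟨b, -, hb⟩ := (Nat.dvd_prime_pow hp).1 (hn ▸ ((Dvd.intro_left _ h1.symm).trans (index_dvd_card _)))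
  have ha0 : a ≠ 0 := by
    rintro rfl
    exact hNM.not_ge (relIndex_eq_one.1 ha)
  have h2 : 1 ≤ N.relIndex M := relIndex_pos _ _
  have h3 : p ^ a = p ^ b + 1 := by omega
  have hb0 : b = 0 := by
    by_contra hb0
    have := (Nat.dvd_add_right (dvd_pow_self p hb0)).1 (h3 ▸ dvd_pow_self p ha0)
    exact hp.ne_one (Nat.dvd_one.1 this)
  subst hb0
  have h4 := dvd_pow_self p ha0
  rw [h3] at h4
  exact ⟨(Nat.prime_dvd_prime_iff_eq hp Nat.prime_two).1 h4, ha.trans h3⟩

end Cfsg.Agent.S4013
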