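import Cfsg.Statements.S4020
import Cfsg.Agent.S4023
import Cfsg.Agent.PLocal.NStab
import Cfsg.Agent.Block.ZStar
import Cfsg.Agent.PLocal.PSolv

set_option autoImplicit false
open Cfsg

namespace Cfsg.Agent.S4020

open Subgroup Cfsg.Agent.Transfer Cfsg.Agent.BG Cfsg.Agent.PLocal

theorem ctl {H : Type*} [Group H] [Finite H] {p : ℕ} [Fact p.Prime] (hp : p ≠ 2)
    (hab : ∀ Q : Subgroup H, IsPGroup 2 Q → IsMulCommutative Q) (P : Sylow p H) {x g : H} (hx : x ∈ (P : Subgroup H))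
    (hg : g * x * g⁻¹ ∈ centerThompsonOf p (P : Subgroup H)) : x ∈ centerThompsonOf p (P : Subgroup H) := by
  have h2 := (sfok_single_iff ZJF_char (isSylowIn_top P)).1 (sfok_ZJ hp
    (fun X _ _ hX Q hQ => stableOn_of_abelian_two hp (fun R _ hR => hX.abelian (fun Q _ => hab Q) R hR) hQ le_rfl)
    H (involves_self H)).2
  rw [ind_ZJF, controlsSF_iff (isSylowIn_top P) (ZJ_le _ _)] at h2
  obtain ⟨n, hn, h3⟩ := h2 {x} g (Set.singleton_subset_iff.2 hx) (by simpa using ZJ_le _ _ hg)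
  rw [← h3 x rfl] at hg
  exact (mem_normalizer_iff.1 hn x).2 hg

theorem abS {H : Type*} [Group H] [Finite H] (T : Sylow 2 H) (h : IsMulCommutative (T : Subgroup H)) (Q : Subgroup H)
    (hQ : IsPGroup 2 Q) : IsMulCommutative Q := by
  obtain ⟨T', hT'⟩ := hQ.exists_le_sylow
  obtain ⟨g, rfl⟩ := MulAction.exists_smul_eq H T T'
  have e := T.equivSMul g
  refine ⟨⟨fun x y => Subtype.ext ?_⟩⟩
  have := congrArg (fun z => ((e z : (g • T : Sylow 2 H)) : H)) (h.1.comm (e.symm ⟨x, hT' x.2⟩) (e.symm ⟨y, hT' y.2⟩))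
  simpa using this

theorem fin {G H : Type*} [Group G] [Finite G] [Group H] [Finite H] {p : ℕ} [Fact p.Prime] (hp : p ≠ 2)
    (hab : ∀ Q : Subgroup H, IsPGroup 2 Q → IsMulCommutative Q) (P : Sylow p G) (hna : ¬ IsMulCommutative P)
    (key : ∀ x ∈ (P : Subgroup G), ∀ w ∈ (P : Subgroup G), w ≠ 1 → ∃ g, g * x * g⁻¹ ∈ zpowers w)
    (f : G →* H) (hf : Function.Surjective f) (hk : ∀ x ∈ (P : Subgroup G), f x = 1 → x = 1) : False := by
  set P' := P.mapSurjective hf
  have hc : ∀ x ∈ (P : Subgroup G), ∀ y ∈ (P : Subgroup G), f x * f y = f y * f x → x * y = y * x := fun x hx y hy h => by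
    have := hk (x * y * (y * x)⁻¹) (mul_mem (mul_mem hx hy) (inv_mem (mul_mem hy hx))) (by simp [h])
    exact mul_inv_eq_one.1 this
  have h0 : (P' : Subgroup H) ≠ ⊥ := fun h => hna ⟨⟨fun x y => Subtype.ext (hc _ x.2 _ y.2 (by
    have : f x ∈ (P' : Subgroup H) := ⟨x, x.2, rfl⟩
    rw [h, mem_bot] at this; simp [this]))⟩⟩
  obtain ⟨⟨w', hw'⟩, hw1⟩ := ne_bot_iff_exists_ne_one.1 (ZJ_ne_bot P'.2 h0)
  obtain ⟨w, hw, rfl⟩ := ZJ_le _ _ hw'
  have all : ∀ x ∈ (P : Subgroup G), f x ∈ centerThompsonOf p (P' : Subgroup H) := fun x hx => by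
    obtain ⟨g, k, hk⟩ := key x hx w hw (by rintro rfl; exact hw1 (Subtype.ext (map_one f)))
    refine ctl hp hab P' (g := f g) ⟨x, hx, rfl⟩ ?_
    rw [← map_inv, ← map_mul, ← map_mul, ← hk]; simp only [map_zpow]; exact zpow_mem hw' k
  have := isMulCommutative_ZJ p (P' : Subgroup H)
  exact hna ⟨⟨fun x y => Subtype.ext (hc _ x.2 _ y.2 (setLike_mul_comm (all _ x.2) (all _ y.2)))⟩⟩

/-- Let G be a finite group in which, for every prime p, any two p-subgroups of the same order are conjugate. Then every Sylow subgroup of G is cyclic, elementary abelian, or a quaternion group of order 8. -/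
theorem result {G : Type*} [Group G] [Finite G]
    (hD : ∀ p : ℕ, p.Prime → ∀ H K : Subgroup G, IsPGroup p H → IsPGroup p K → Nat.card H = Nat.card K →
      ∃ g : G, K = H.map (MulAut.conj g).toMonoidHom) {p : ℕ} [Fact p.Prime] (P : Sylow p G) :
    IsCyclic P ∨ Cfsg.IsElementaryAbelian p (P : Subgroup G) ∨ Nonempty ((P : Subgroup G) ≃* QuaternionGroup 2) := by
  rcases S4023.result (hD p Fact.out) P with h | h | ⟨-, h⟩ | ⟨hp, hna, -, he⟩
  · exact .inl h
  · exact .inr (.inl h)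
  · exact .inr (.inr h)
  exfalso
  have pp : p.Prime := Fact.out
  have xp : ∀ x ∈ (P : Subgroup G), x ^ p = 1 := fun x hx => by
    have := Monoid.pow_exponent_eq_one (⟨x, hx⟩ : (P : Subgroup G))
    rw [he] at this; exact congrArg Subtype.val this
  have key : ∀ x ∈ (P : Subgroup G), ∀ w ∈ (P : Subgroup G), w ≠ 1 → ∃ g, g * x * g⁻¹ ∈ zpowers w := by
    intro x hx w hw w1
    by_cases x1 : x = 1
    · exact ⟨1, by simp [x1]⟩
    obtain ⟨g, hg⟩ := hD p pp (zpowers x) (zpowers w) (P.2.to_le (zpowers_le.2 hx)) (P.2.to_le (zpowers_le.2 hw))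
      (by rw [Nat.card_zpowers, Nat.card_zpowers, orderOf_eq_prime (xp x hx) x1, orderOf_eq_prime (xp w hw) w1])
    exact ⟨g, hg ▸ ⟨x, mem_zpowers x, rfl⟩⟩
  obtain ⟨T⟩ : Nonempty (Sylow 2 G) := inferInstance
  have ab : IsMulCommutative (T : Subgroup G) → False := fun h =>
    fin hp (abS T h)
      P hna key (MonoidHom.id G) Function.surjective_id (fun _ _ h => h)
  rcases S4023.result (hD 2 Nat.prime_two) T with h | h | ⟨-, ⟨e⟩⟩ | ⟨h, -⟩
  · exact ab inferInstance
  · exact ab h.1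
  swap; · exact h rfl
  set O := pPrimeCore 2 G
  have oO : Odd (Nat.card O) := Block.odd_card_pPrimeCore
  by_cases hPO : ∀ x ∈ (P : Subgroup G), x ∈ O → x = 1
  · have hq := QuotientGroup.mk'_surjective O
    set T1 := T.mapSurjective hq
    have hT : (T : Subgroup G) ⊓ (QuotientGroup.mk' O).ker = ⊥ := by
      rw [QuotientGroup.ker_mk']
      refine inf_eq_bot_of_coprime ?_
      obtain ⟨k, hk⟩ := IsPGroup.iff_card.1 T.2
      rw [hk]; exact Nat.Coprime.pow_left _ (Nat.coprime_two_left.2 oO)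
    have e1 : (T : Subgroup G) ≃* (T1 : Subgroup (G ⧸ O)) := MulEquiv.ofBijective ((QuotientGroup.mk' O).subgroupMap T)
      ⟨(injective_iff_map_eq_one _).2 fun x hx => Subtype.ext (by
        have : (x : G) ∈ (T : Subgroup G) ⊓ (QuotientGroup.mk' O).ker := ⟨x.2, congrArg Subtype.val hx⟩
        rwa [hT] at this), (QuotientGroup.mk' O).subgroupMap_surjective T⟩
    have hZ := Block.card_center_of_quaternion T1 (n := 0) (e1.symm.trans e) (PLocal.pPrimeCore_quotient_pPrimeCore 2 G)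
    have hq2 := QuotientGroup.mk'_surjective (center (G ⧸ O))
    set T2 := T1.mapSurjective hq2
    have c1 : Nat.card (T1 : Subgroup (G ⧸ O)) = 8 := by
      rw [← Nat.card_congr e1.toEquiv, Nat.card_congr e.toEquiv]; simp [QuaternionGroup.card]
    have hle : center (G ⧸ O) ≤ T1 := (IsPGroup.of_card (n := 1) (by simpa using hZ)).le_sylow_of_normal T1
    have c2 : Nat.card (T2 : Subgroup ((G ⧸ O) ⧸ center (G ⧸ O))) = 2 ^ 2 := by
      have := BG.card_mul_relIndex hle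
      rw [hZ, c1] at this
      have h2 := PLocal.card_map_mk' (center (G ⧸ O)) T1
      have h3 : Nat.card (T2 : Subgroup ((G ⧸ O) ⧸ center (G ⧸ O))) = _ := h2
      omega
    refine fin hp (abS T2 ⟨⟨IsPGroup.commGroupOfCardEqPrimeSq c2 |>.mul_comm⟩⟩)
      P hna key ((QuotientGroup.mk' _).comp (QuotientGroup.mk' O)) (hq2.comp hq) fun x hx h => hPO x hx ?_
    have h1 : (x : G ⧸ O) ∈ center (G ⧸ O) := (QuotientGroup.eq_one_iff _).1 h
    have h2 : (x : G ⧸ O) ^ 2 = 1 := by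
      have := congrArg Subtype.val (pow_card_eq_one' (x := (⟨_, h1⟩ : center (G ⧸ O))))
      rwa [hZ] at this
    have h3 : (x : G ⧸ O) ^ p = 1 := by rw [← QuotientGroup.mk_pow, xp x hx]; rfl
    have := Nat.dvd_gcd (orderOf_dvd_of_pow_eq_one h2) (orderOf_dvd_of_pow_eq_one h3)
    rw [((Nat.coprime_primes Nat.prime_two pp).2 hp.symm), Nat.dvd_one, orderOf_eq_one_iff] at this
    exact (QuotientGroup.eq_one_iff _).1 this
  push Not at hPO
  obtain ⟨w, hw, wO, w1⟩ := hPO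
  have PO : (P : Subgroup G) ≤ O := fun x hx => by
    obtain ⟨g, hg⟩ := key x hx w hw w1
    simpa [mul_assoc] using (inferInstance : O.Normal).conj_mem _ (zpowers_le.2 wO hg) g⁻¹
  have h0 : (P : Subgroup G) ≠ ⊥ := fun h => w1 (by rwa [h, mem_bot] at hw)
  obtain ⟨⟨z, hz⟩, z1⟩ := ne_bot_iff_exists_ne_one.1 (ZJ_ne_bot P.2 h0)
  have hW : (centerThompsonOf p (P.subtype PO : Subgroup O)).map O.subtype = centerThompsonOf p (P : Subgroup G) := by
    rw [map_ZJ (by simp), Sylow.coe_subtype, subgroupOf_map_subtype, inf_eq_left.2 PO]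
  have all : ∀ x ∈ (P : Subgroup G), x ∈ centerThompsonOf p (P : Subgroup G) := fun x hx => by
    obtain ⟨g, hg⟩ := key x hx z (ZJ_le _ _ hz) (fun h => z1 (Subtype.ext h))
    have hg' := zpowers_le.2 hz hg
    have : g ∈ O ⊔ normalizer ((P : Subgroup G) : Set G) := by
      rw [sup_comm]; exact (P.normalizer_sup_eq_top' PO).ge trivial
    rw [← SetLike.mem_coe, normal_mul] at this
    obtain ⟨o, ho, n, hn, rfl⟩ := this
    have hy := (mem_normalizer_iff.1 hn x).1 hx
    refine (mem_normalizer_iff.1 (normalizer_le_normalizer_ZJ p _ hn) x).2 ?_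
    rw [← hW] at hg' ⊢
    refine ⟨⟨_, PO hy⟩, ctl hp (fun Q hQ => ?_) (P.subtype PO) (g := ⟨o, ho⟩) hy ?_, rfl⟩
    · obtain ⟨k, hk⟩ := IsPGroup.iff_card.1 hQ
      have : Odd (2 ^ k) := hk ▸ oO.of_dvd_nat (card_subgroup_dvd_card Q)
      have : k = 0 := by
        by_contra h
        exact (Nat.not_odd_iff_even.2 ((Nat.even_pow' h).2 even_two)) this
      subst this
      rw [eq_bot_of_card_eq Q hk]; infer_instance
    · obtain ⟨y, hy', e⟩ := hg'
      have : (⟨o, ho⟩ * ⟨_, PO hy⟩ * ⟨o, ho⟩⁻¹ : O) = y := by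
        apply Subtype.ext; simp only [coe_subtype] at e; rw [e]; simp [mul_assoc]
      rw [this]; exact hy'
  have := isMulCommutative_ZJ p (P : Subgroup G)
  exact hna ⟨⟨fun x y => Subtype.ext (setLike_mul_comm (all _ x.2) (all _ y.2))⟩⟩

end Cfsg.Agent.S4020
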