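import Cfsg.Statements.S4024
import Cfsg.Agent.Solv.Separable
import Cfsg.Agent.Solv.MinNormal
import Cfsg.Agent.BG.Base5

set_option autoImplicit false
open Cfsg

namespace Cfsg.Agent.S4024

open Subgroup Cfsg.Agent.Solv

theorem eq_one_of {G : Type*} [Group G] [Finite G] {p : ℕ} [hp : Fact p.Prime] {x : G} {k m : ℕ}
    (h1 : x ^ p ^ k = 1) (h2 : x ^ m = 1) (hm : m.Coprime p) : x = 1 := by
  rw [← orderOf_eq_one_iff]
  exact Nat.eq_one_of_dvd_coprimes (hm.pow_right k) (orderOf_dvd_of_pow_eq_one h2)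
    (orderOf_dvd_of_pow_eq_one h1)

/-- Let p be an odd prime and G a finite group in which any two p-subgroups of the same order are conjugate, with Sylow p-subgroup P. If H is a normal p-solvable subgroup of G whose order is divisible by p, then P is abelian, and either P ≤ H or P is cyclic. -/
theorem result {G : Type*} [Group G] [Finite G]
    {p : ℕ} [Fact p.Prime] (hp : p ≠ 2) (hC : ∀ H K : Subgroup G, IsPGroup p H → IsPGroup p K → Nat.card H = Nat.card K →
      ∃ g : G, K = H.map (MulAut.conj g).toMonoidHom) (P : Sylow p G)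
    (H : Subgroup G) [H.Normal] (hsolv : Cfsg.IsPSolvable p H) (hdiv : p ∣ Nat.card H) :
    IsMulCommutative P ∧ ((P : Subgroup G) ≤ H ∨ IsCyclic P) := by
  classical
  rename_i hpp _
  set N := pPrimeCore p G with hN
  let π := QuotientGroup.mk' N
  have hπ : Function.Surjective π := QuotientGroup.mk'_surjective N
  have hNc : (Nat.card N).Coprime p := coprime_card_pPrimeCore p G
  haveI : (H.map π).Normal := Subgroup.Normal.map inferInstance π hπ
  have hs : IsPSolvable p (H.map π) := isPSolvable_of_surjective hsolv (π.subgroupMap_surjective H)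
  have h0 : pPrimeCore p (H.map π) = ⊥ := by
    have := map_subtype_pPrimeCore_le (p := p) (H.map π)
    rw [pPrimeCore_quotient_pPrimeCore, le_bot_iff, map_eq_bot_iff_of_injective _ (subtype_injective _)] at this
    exact this
  have h1 : pCore p (H.map π) ≠ ⊥ := by
    intro h
    have h2 := centralizer_pCore_le_of_isPSolvable hs h0
    rw [h] at h2
    have h3 : H ≤ N := by
      intro x hx
      have : (⟨π x, mem_map_of_mem π hx⟩ : H.map π) ∈ (⊥ : Subgroup (H.map π)) :=
        h2 (by simp [mem_centralizer_iff])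
      rw [mem_bot, Subtype.ext_iff] at this
      exact (QuotientGroup.eq_one_iff x).1 this
    exact not_dvd_card_pPrimeCore p G (hdiv.trans (card_dvd_of_le h3))
  let M := pCore p (G ⧸ N) ⊓ H.map π
  have hM : M ≠ ⊥ := by
    intro h
    apply h1
    have := map_subtype_pCore (p := p) (H.map π)
    rw [show pCore p (G ⧸ N) ⊓ H.map π = ⊥ from h, map_eq_bot_iff_of_injective _ (subtype_injective _)] at this
    exact this
  have hMp : IsPGroup p M := (isPGroup_pCore p _).to_le inf_le_left
  haveI : Group.IsNilpotent M := hMp.isNilpotent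
  obtain ⟨q, V, hq, hVn, hV0, hVM, hVc, hVq, hVp, -⟩ := exists_normal_elementary_le M hM
  have hVp' : IsPGroup p V := hMp.to_le hVM
  let W := V.comap π
  have hW : p ∣ Nat.card W := by
    rw [card_comap_mk']
    exact (dvd_card_of_isPGroup hVp' hV0).mul_left _
  obtain ⟨x0, hx0⟩ := exists_prime_orderOf_dvd_card' (G := W) p hW
  have hWn : W.Normal := inferInstance
  have hzp : ∀ {y : G} {k : ℕ}, orderOf y = p ^ k → IsPGroup p (zpowers y) := fun {y k} hy =>
    IsPGroup.of_card (by rw [Nat.card_zpowers, hy])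
  have hall : ∀ y : G, y ^ p = 1 → y ∈ W := by
    intro y hy
    by_cases hy1 : y = 1
    · rw [hy1]; exact one_mem _
    have hoy : orderOf y = p := orderOf_eq_prime hy hy1
    have hox : orderOf (x0 : G) = p := by rw [orderOf_coe, hx0]
    obtain ⟨g, hg⟩ := hC (zpowers (x0 : G)) (zpowers y) (hzp (k := 1) (by simpa using hox))
      (hzp (k := 1) (by simpa using hoy)) (by rw [Nat.card_zpowers, Nat.card_zpowers, hox, hoy])
    have := mem_zpowers y
    rw [hg] at this
    obtain ⟨z, hz, rfl⟩ := this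
    exact hWn.conj_mem z (zpowers_le.2 x0.2 hz) g
  by_cases hcyc : IsCyclic P
  · exact ⟨IsCyclic.isMulCommutative, Or.inr hcyc⟩
  have hodd : Odd (Nat.card (P : Subgroup G)) := by
    obtain ⟨n, hn⟩ := IsPGroup.iff_card.1 P.isPGroup'
    rw [hn]; exact (hpp.out.odd_of_ne_two hp).pow
  obtain ⟨r, hr, E, hE⟩ := BG.noncyclic_p2Elem (A := (P : Subgroup G))
    (Or.inl ⟨hodd, P.isPGroup'.isNilpotent⟩) hcyc
  have hEp : IsPGroup p E := P.isPGroup'.to_le hE.le
  have hrp : r = p := by
    obtain ⟨n, hn⟩ := IsPGroup.iff_card.1 hEp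
    have : r ∣ p ^ n := by rw [← hn]; exact hE.card ▸ dvd_pow_self r (by norm_num)
    exact (Nat.prime_dvd_prime_iff_eq hr hpp.out).1 (hr.dvd_of_dvd_pow this)
  subst hrp
  have hexp : ∀ y ∈ (P : Subgroup G), y ^ r = 1 := by
    intro y hy
    obtain ⟨k, hk⟩ := IsPGroup.iff_orderOf.1 P.isPGroup' ⟨y, hy⟩
    have hk' : orderOf y = r ^ k := by rw [← hk, ← orderOf_coe]
    by_contra hne
    have hk2 : 2 ≤ k := by
      by_contra h
      apply hne
      apply orderOf_dvd_iff_pow_eq_one.1
      rw [hk']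
      exact (pow_dvd_pow r (by omega : k ≤ 1)).trans (by simp)
    have hz : orderOf (y ^ r ^ (k - 2)) = r ^ 2 := by
      rw [orderOf_pow_of_dvd (pow_pos hr.pos _).ne' (hk' ▸ pow_dvd_pow r (by omega)), hk',
        Nat.pow_div (by omega) hr.pos]
      congr 1; omega
    obtain ⟨g, hg⟩ := hC E (zpowers (y ^ r ^ (k - 2))) hEp (hzp hz) (by rw [Nat.card_zpowers, hz]; exact hE.card)
    have := mem_zpowers (y ^ r ^ (k - 2))
    rw [hg] at this
    obtain ⟨z, hz', e⟩ := this
    have h3 : (y ^ r ^ (k - 2)) ^ r = 1 := by rw [← e, ← map_pow, hE.abelem.2 z hz', map_one]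
    have h4 := Nat.le_of_dvd hr.pos (orderOf_dvd_of_pow_eq_one h3)
    rw [hz] at h4
    have := hr.two_le
    nlinarith
  have hPW : (P : Subgroup G) ≤ W := fun y hy => hall y (hexp y hy)
  refine ⟨⟨⟨fun a b => Subtype.ext ?_⟩⟩, Or.inl fun y hy => ?_⟩
  · have h3 : π a * π b = π b * π a := by
      have := hVc.is_comm.comm ⟨π a, hPW a.2⟩ ⟨π b, hPW b.2⟩
      exact congrArg Subtype.val this
    have h4 : (a : G) * b * ((b : G) * a)⁻¹ ∈ N := by
      rw [← QuotientGroup.eq_one_iff]
      change π _ = 1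
      rw [map_mul, map_inv, map_mul, map_mul, h3, mul_inv_cancel]
    have h5 := hexp _ (mul_mem (mul_mem a.2 b.2) (inv_mem (mul_mem b.2 a.2)))
    have h6 : ((a : G) * b * ((b : G) * a)⁻¹) ^ Nat.card N = 1 := by
      have := pow_card_eq_one' (G := N) (x := ⟨_, h4⟩)
      exact congrArg Subtype.val this
    have h7 := eq_one_of (p := r) (k := 1) (by simpa using h5) h6 hNc
    exact mul_inv_eq_one.1 h7
  · obtain ⟨h, hh, e⟩ := (hVM (hPW hy)).2
    have h4 : h⁻¹ * y ∈ N := QuotientGroup.eq.1 e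
    have h5 : ((h⁻¹ * y : G) : G ⧸ H) = (y : G ⧸ H) := by
      rw [QuotientGroup.mk_mul, (QuotientGroup.eq_one_iff h⁻¹).2 (inv_mem hh), one_mul]
    have h6 : (h⁻¹ * y) ^ Nat.card N = 1 := by
      have := pow_card_eq_one' (G := N) (x := ⟨_, h4⟩)
      exact congrArg Subtype.val this
    rw [← QuotientGroup.eq_one_iff]
    refine eq_one_of (p := r) (k := 1) (m := Nat.card N) ?_ ?_ hNc
    · rw [pow_one, ← QuotientGroup.mk_pow, hexp y hy, QuotientGroup.mk_one]
    · rw [← h5, ← QuotientGroup.mk_pow, h6, QuotientGroup.mk_one]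

end Cfsg.Agent.S4024
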