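import Cfsg.Statements.S4027
import Cfsg.Agent.FG.Basic

set_option autoImplicit false
open Cfsg

namespace Cfsg.Agent.S4027

open Cfsg.Agent.BG Cfsg.Agent.FG Subgroup
open scoped commutatorElement

/-- Let G be a finite group in which every element x of odd order satisfies N_G(⟨x⟩) = C_G(x). Then the Sylow 2-subgroups of G are normal. -/
theorem result {G : Type*} [Group G] [Finite G]
    (hirr : ∀ x : G, (∀ r : ℕ, r.Prime → r ∣ orderOf x → r ≠ 2) →
      Subgroup.normalizer ((Subgroup.zpowers x : Subgroup G) : Set G) ≤ Subgroup.centralizer {x}) (P : Sylow 2 G) :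
    (P : Subgroup G).Normal := by
  refine sylow_two_normal_of_quotient P fun t y ht hy hi => ?_
  obtain ⟨x, hx, rfl⟩ := exists_lift_piElt (π := {2}ᶜ) (QuotientGroup.mk'_surjective _) (pnat_odd.2 hy)
  obtain ⟨g, rfl⟩ := QuotientGroup.mk_surjective t
  obtain ⟨k, hk, h⟩ := exists_norm_of_quotient (N := pCore 2 G) (A := zpowers x) (g := g)
    (pnat_coprime (IsPGroup.pi (Solv.isPGroup_pCore 2 G)) (p_elt_zpowers.2 hx))
    (Or.inr (abelian_sol (abelian_zpowers x))) (by
      rw [MonoidHom.map_zpowers, mem_norm, cj_zpowers, hi, zpowers_inv])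
  have := congrArg (QuotientGroup.mk' (pCore 2 G)) (mem_cent1.1 (hirr x hx h))
  simp only [map_mul, map_inv, QuotientGroup.mk'_apply, (QuotientGroup.eq_one_iff k).2 hk, inv_one, one_mul] at this
  exact Invol.eq_one_of_odd_of_inverts_of_commute hy hi this.symm

end Cfsg.Agent.S4027
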