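import Cfsg.Statements.S4028
import Cfsg.Agent.FG.Basic

set_option autoImplicit false
open Cfsg

namespace Cfsg.Agent.S4028

open Cfsg.Agent.BG Cfsg.Agent.FG Subgroup

/-- Let G be a finite group with Sylow 2-subgroup P. Then N_G(⟨x⟩) = C_G(x) holds for every 2-element x of G if and only if N_P(⟨y⟩) = C_P(y) holds for every y ∈ P (computed inside P). -/
theorem result {G : Type*} [Group G] [Finite G] (P : Sylow 2 G) :
    (∀ x : G, (∀ r : ℕ, r.Prime → r ∣ orderOf x → r = 2) →
      Subgroup.normalizer ((Subgroup.zpowers x : Subgroup G) : Set G) ≤ Subgroup.centralizer {x}) ↔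
    (∀ y : ↥(P : Subgroup G), Subgroup.normalizer ((Subgroup.zpowers y : Subgroup ↥(P : Subgroup G)) : Set ↥(P : Subgroup G)) ≤
        Subgroup.centralizer {y}) := by
  constructor
  · intro h y n hn
    have hy : PiElt {2} (y : G) := mem_p_elt (sylowIn_top P).pi y.2
    have := h y hy (norms_map (P : Subgroup G).subtype (zpowers_le.2 hn) |> fun h' => by
      rw [MonoidHom.map_zpowers, MonoidHom.map_zpowers] at h'; exact h' (mem_zpowers _))
    exact mem_cent1.2 (Subtype.ext (mem_cent1.1 this))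
  · intro h x hx
    have hx' : PiGrp {2} (zpowers x) := p_elt_zpowers.2 hx
    refine le_of_pgroup_le fun q hq Q hQ hqQ => ?_
    haveI := Fact.mk hq
    by_cases e : q = 2
    · subst e
      obtain ⟨g, -, hg⟩ := Sylow_Jsub (sylowIn_top P) le_top (pgroup_sup (Or.inl hQ) hqQ (PiNat.pg hx'))
      intro u hu
      have h1 : g * x * g⁻¹ ∈ (P : Subgroup G) := hg (conj_mem_cj g (mem_sup_right (mem_zpowers x)))
      have h2 : g * u * g⁻¹ ∈ (P : Subgroup G) := hg (conj_mem_cj g (mem_sup_left hu))
      have h3 : g * u * g⁻¹ ∈ N[zpowers (g * x * g⁻¹)] := by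
        rw [← cj_zpowers, N_cj]; exact conj_mem_cj g (hQ hu)
      have := h ⟨_, h1⟩ (x := ⟨_, h2⟩) (zpowers_le.1 ((norms_map_inj (P : Subgroup G).subtype_injective).1 (by
        rw [MonoidHom.map_zpowers, MonoidHom.map_zpowers]; exact zpowers_le.2 h3)))
      have h4 : g * u * g⁻¹ ∈ C1[g * x * g⁻¹] := mem_cent1.2 (congrArg Subtype.val (mem_cent1.1 this))
      rwa [C1_conj, conj_mem_cj_iff] at h4
    · rw [← C_zpowers]
      refine cent_of_coprime_relIndex (Nat.Coprime.coprime_dvd_right
        (relIndex_cent_cyclic_dvd (cyclicP.2 ⟨x, rfl⟩) hQ) ?_)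
      obtain ⟨k, hk⟩ := (p_natP Nat.prime_two).1 hx'
      refine pnat_coprime' (p'group_of_ne hqQ e) ?_
      rw [hk]
      rcases k with _ | k
      · simpa using pnat_one _
      · rw [Nat.totient_prime_pow_succ Nat.prime_two]; simpa using pnat_pow_self Nat.prime_two k

end Cfsg.Agent.S4028
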