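import Cfsg.Statements.S4029
import Cfsg.Agent.Char.FS
import Cfsg.Agent.Solv.Frattini

set_option autoImplicit false
open Cfsg

namespace Cfsg.Agent.S4029

open Subgroup Cfsg.Agent.Char
open scoped commutatorElement

/-- Let P be a finite 2-group in which N_P(⟨y⟩) = C_P(y) for every y ∈ P. If s is the number of conjugacy classes of involutions of P, then #(P/Φ(P)) ≤ s + 1; in particular the subgroup generated by the involutions of P has order at least #(P/Φ(P)). -/
theorem result {P : Type*} [Group P] [Finite P] (hP : IsPGroup 2 P)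
    (hirr : ∀ y : P, Subgroup.normalizer ((Subgroup.zpowers y : Subgroup P) : Set P) ≤ Subgroup.centralizer {y}) :
    Nat.card (P ⧸ frattini P) ≤ Nat.card {c : ConjClasses P // ∃ y : P, ConjClasses.mk y = c ∧ orderOf y = 2} + 1 ∧
    Nat.card (P ⧸ frattini P) ≤ Nat.card (Subgroup.closure {y : P | orderOf y = 2}) := by
  classical
  have := hP.isNilpotent
  let _ : CommGroup (P ⧸ frattini P) := { (inferInstance : Group (P ⧸ frattini P)) with
    mul_comm := fun a b => by
      obtain ⟨a, rfl⟩ := QuotientGroup.mk_surjective a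
      obtain ⟨b, rfl⟩ := QuotientGroup.mk_surjective b
      rw [← commutatorElement_eq_one_iff_mul_comm]
      exact (QuotientGroup.eq_one_iff ⁅a, b⁆).2
        (Solv.commutator_le_frattini (commutator_mem_commutator (mem_top a) (mem_top b))) }
  have h1 : Nat.card (P ⧸ frattini P) ≤ Nat.card {χ : IrrCharacter P // ∀ g, (χ.1 g).im = 0} := by
    rw [← CommGroup.card_monoidHom_of_hasEnoughRootsOfUnity (P ⧸ frattini P) ℂ]
    refine Nat.card_le_card_of_injective (fun l => ⟨⟨_, isIrrCharacter_hom (l.comp (QuotientGroup.mk' _))⟩,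
      fun g => ?_⟩) fun a b h => ?_
    · have : (l g : ℂ) ^ 2 = 1 := by
        rw [← Units.val_pow_eq_pow_val, ← map_pow, ← QuotientGroup.mk_pow,
          (QuotientGroup.eq_one_iff _).2 (Solv.pow_mem_frattini hP g), map_one, Units.val_one]
      rcases mul_self_eq_one_iff.1 (sq (l g : ℂ) ▸ this) with h | h <;> simp [h]
    · ext g
      exact congrFun (congrArg (fun x => x.1.1) h) g
  rw [card_real_irr_eq_card_real_classes] at h1
  have hsq : ∀ g : P, IsConj g g⁻¹ → g = 1 ∨ orderOf g = 2 := fun g h => by
    obtain ⟨c, hc⟩ := isConj_iff.1 h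
    have h2 : c ∈ normalizer (zpowers g : Set P) := mem_normalizer_fintype (by
      rintro _ ⟨k, rfl⟩
      rw [← conj_zpow, hc]
      exact zpow_mem (inv_mem (mem_zpowers g)) k)
    rw [mem_centralizer_singleton_iff.1 (hirr g h2), mul_inv_cancel_right] at hc
    by_cases e : g = 1
    · exact Or.inl e
    · exact Or.inr (orderOf_eq_prime (by rw [sq]; exact mul_eq_one_iff_eq_inv.2 hc) e)
  refine ⟨h1.trans ?_, h1.trans ?_⟩
  · rw [← Finite.card_option]
    refine Nat.card_le_card_of_injective (fun C => if h : ∃ y : P, ConjClasses.mk y = C.1 ∧ orderOf y = 2 then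
      some ⟨C.1, h⟩ else none) fun a b h => Subtype.ext ?_
    have key : ∀ C : {C : ConjClasses P // ∀ g, ConjClasses.mk g = C → IsConj g g⁻¹},
        (¬ ∃ y : P, ConjClasses.mk y = C.1 ∧ orderOf y = 2) → C.1 = ConjClasses.mk 1 := fun C hC => by
      obtain ⟨g, hg⟩ := ConjClasses.mk_surjective C.1
      rcases hsq g (C.2 g hg) with rfl | h
      · exact hg.symm
      · exact (hC ⟨g, hg, h⟩).elim
    dsimp only at h
    split_ifs at h with h1 h2 h2
    · simpa using h
    · rw [key a h1, key b h2]
  · have key : ∀ C : {C : ConjClasses P // ∀ g, ConjClasses.mk g = C → IsConj g g⁻¹},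
        ∃ g : closure {y : P | orderOf y = 2}, ConjClasses.mk g.1 = C.1 := fun C => by
      obtain ⟨g, hg⟩ := ConjClasses.mk_surjective C.1
      exact ⟨⟨g, (hsq g (C.2 g hg)).elim (· ▸ one_mem _) fun h => subset_closure h⟩, hg⟩
    choose f hf using key
    exact Nat.card_le_card_of_injective f fun a b h => Subtype.ext (by rw [← hf, ← hf, h])

end Cfsg.Agent.S4029
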