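import Cfsg.Statements.S4032
import Cfsg.Agent.FG.Basic

set_option autoImplicit false
open Cfsg

namespace Cfsg.Agent.S4032

open Cfsg.Agent.BG Cfsg.Agent.FG Subgroup

/-- Let π be a set of primes and G a finite group in which N_G(⟨x⟩) = C_G(x) for every π-element x. If N is a normal subgroup of G whose order is divisible by no prime of π, then G/N has the same property: N_{G/N}(⟨y⟩) = C_{G/N}(y) for every π-element y of G/N. -/
theorem result {G : Type*} [Group G] [Finite G] (π : Set ℕ)
    (hirr : ∀ x : G, (∀ r : ℕ, r.Prime → r ∣ orderOf x → r ∈ π) →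
      Subgroup.normalizer ((Subgroup.zpowers x : Subgroup G) : Set G) ≤ Subgroup.centralizer {x})
    (N : Subgroup G) [N.Normal] (hN : ∀ r : ℕ, r.Prime → r ∣ Nat.card N → r ∉ π) :
    ∀ y : G ⧸ N, (∀ r : ℕ, r.Prime → r ∣ orderOf y → r ∈ π) →
      Subgroup.normalizer ((Subgroup.zpowers y : Subgroup (G ⧸ N)) : Set (G ⧸ N)) ≤ Subgroup.centralizer {y} := by
  intro y hy g hg
  obtain ⟨x, hx, rfl⟩ := exists_lift_piElt (π := π) (QuotientGroup.mk'_surjective N) hy
  obtain ⟨g, rfl⟩ := QuotientGroup.mk_surjective g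
  rw [← MonoidHom.map_zpowers] at hg
  obtain ⟨k, hk, h⟩ := exists_norm_of_quotient (pnat_coprime' (π := π) hN (p_elt_zpowers.2 hx))
    (Or.inr (abelian_sol (abelian_zpowers x))) hg
  have := congrArg (QuotientGroup.mk' N) (mem_cent1.1 (hirr x hx h))
  simp only [map_mul, map_inv, QuotientGroup.mk'_apply, (QuotientGroup.eq_one_iff k).2 hk, inv_one, one_mul] at this
  exact mem_cent1.2 this

end Cfsg.Agent.S4032
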