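import Cfsg.Statements.S4033
import Cfsg.Agent.Small.TwoReg
import Cfsg.Agent.S4034

set_option autoImplicit false
open Cfsg

namespace Cfsg.Agent.S4033

open Subgroup Cfsg.Agent.Gen2 Cfsg.Agent.Small.TwoReg

/-- Let G be a finite group and p a prime, and suppose the conjugacy classes of p-regular elements of G (elements of order prime to p) have exactly two distinct sizes. Then either G has an abelian p-complement (an abelian subgroup of order prime to p and p-power index), or there are a prime q ≠ p, a Sylow p-subgroup P, a Sylow q-subgroup Q and a central subgroup A such that PQ is a normal subgroup of order #P·#Q and G is the internal direct product PQ × A. -/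
theorem result {G : Type*} [Group G] [Finite G] {p : ℕ} (hp : p.Prime)
    (h2 : Set.ncard (Set.range fun x : {x : G // (orderOf x).Coprime p} => (ConjClasses.mk (x : G)).carrier.ncard) = 2) :
    (∃ H : Subgroup G, IsMulCommutative H ∧ ¬ p ∣ Nat.card H ∧ ∃ k : ℕ, H.index = p ^ k) ∨
    (∃ (q : ℕ) (_ : Fact q.Prime) (P : Sylow p G) (Q : Sylow q G) (A : Subgroup G), q ≠ p ∧
        A ≤ Subgroup.center G ∧ Nat.card ↥((P : Subgroup G) ⊔ (Q : Subgroup G)) = Nat.card P * Nat.card Q ∧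
        ((P : Subgroup G) ⊔ (Q : Subgroup G)).Normal ∧
        ((P : Subgroup G) ⊔ (Q : Subgroup G)) ⊓ A = ⊥ ∧ ((P : Subgroup G) ⊔ (Q : Subgroup G)) ⊔ A = ⊤) := by
  have := Fact.mk hp
  have cs : ∀ x : G, (ConjClasses.mk x).carrier.ncard = (centralizer ({x} : Set G)).index := fun x => by
    rw [← card_carrier_mk, Nat.card_coe_set_eq]
  obtain ⟨m, hm⟩ : ∃ m, ∀ x : G, (orderOf x).Coprime p → x ∉ center G → (centralizer ({x} : Set G)).index = m := by
    obtain ⟨a, b, -, e⟩ := Set.ncard_eq_two.1 h2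
    have k : ∀ x : G, (orderOf x).Coprime p → (centralizer ({x} : Set G)).index = a ∨ (centralizer ({x} : Set G)).index = b :=
      fun x hx => cs x ▸ e.le ⟨⟨x, hx⟩, rfl⟩
    rcases k 1 (by simp) with e | e <;> rw [cs_one] at e
    exacts [⟨b, fun x hx n => (k x hx).resolve_left fun e' => n (cs_eq_one_iff.1 (e'.trans e.symm))⟩,
      ⟨a, fun x hx n => (k x hx).resolve_right fun e' => n (cs_eq_one_iff.1 (e'.trans e.symm))⟩]
  by_cases h : ∀ l, ∃ t, t ≠ l ∧ ∃ w : G, NE p t w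
  · refine .inl ((S4034.result hp).1 fun x hx => ?_)
    rw [cs]
    by_cases z : x ∈ center G
    · exact ⟨0, cs_eq_one_iff.2 z⟩
    · exact ⟨_, Nat.eq_prime_pow_of_unique_prime_dvd (cs_ne_zero x) fun {q} hq d => by_contra fun n =>
        R2.not_dvd ⟨⟨hp, hm⟩, h⟩ hq n (hm x hx z ▸ d)⟩
  obtain ⟨q, hq, qp, h⟩ : ∃ q : ℕ, q.Prime ∧ q ≠ p ∧ ∀ t, t ≠ q → ∀ w : G, ¬ NE p t w := by
    push Not at h
    obtain ⟨l, h⟩ := h
    by_cases e : ∃ w : G, NE p l w
    · exact let ⟨w, e⟩ := e; ⟨l, e.1, e.2, h⟩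
    obtain ⟨q, h1, hq⟩ := Nat.exists_infinite_primes (p + 1)
    exact ⟨q, hq, by omega, fun t _ w k => e ⟨w, by_contra fun n => h t (by rintro rfl; exact n k) w k⟩⟩
  have := Fact.mk hq
  let A : Subgroup G :=
    { carrier := {z | z ∈ center G ∧ (orderOf z).Coprime (p * q)}
      one_mem' := ⟨one_mem _, by simp⟩
      inv_mem' := fun {a} h => ⟨inv_mem h.1, (orderOf_inv a).symm ▸ h.2⟩
      mul_mem' := fun {a b} h k => ⟨mul_mem h.1 k.1, (h.2.mul_left k.2).coprime_dvd_left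
        (Commute.orderOf_mul_dvd_mul_orderOf (mem_center_iff.1 k.1 a))⟩ }
  have hA : A ≤ center G := fun _ h => h.1
  have : A.Normal := ⟨fun a ha g => by rwa [mem_center_iff.1 ha.1 g, mul_inv_cancel_right]⟩
  have a1 : ∀ r, r.Prime → r ∣ A.index → r = p ∨ r = q := fun r hr d => by_contra fun n => by
    have := Fact.mk hr
    obtain ⟨L⟩ : Nonempty (Sylow r G) := inferInstance
    rw [not_or] at n
    exact not_dvd_index_of_sylow_le L (H := A) (fun w hw => ⟨by_contra fun z => h r n.2 w ⟨hr, n.1, pElt_of_mem L.2 hw, z⟩,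
      (cop hr hp n.1 (pElt_of_mem L.2 hw)).mul_right (cop hr hq n.2 (pElt_of_mem L.2 hw))⟩) d
  have a2 : ∀ r, r.Prime → r ∣ Nat.card A → ¬ (r = p ∨ r = q) := fun r hr d e => by
    obtain ⟨x, hx, o⟩ := exists_mem_orderOf_eq_prime hr d
    exact (Nat.Prime.coprime_iff_not_dvd hr).1 (o ▸ hx.2) (by rcases e with rfl | rfl <;> simp)
  obtain ⟨K, hK⟩ := exists_right_complement'_of_coprime (N := A) (Nat.coprime_of_dvd fun r hr d e => a2 r hr d (a1 r hr e))
  obtain ⟨P, hP⟩ := exists_sylow_le_of_not_dvd_index (p := p) K fun d => a2 p hp (hK.index_eq_card ▸ d) (.inl rfl)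
  obtain ⟨Q, hQ⟩ := exists_sylow_le_of_not_dvd_index (p := q) K fun d => a2 q hq (hK.index_eq_card ▸ d) (.inr rfl)
  have t : (P : Subgroup G) ⊔ Q ⊔ A = ⊤ := index_eq_one.1 (Nat.eq_one_iff_not_exists_prime_dvd.2 fun r hr d => by
    rcases a1 r hr (d.trans (index_dvd_of_le le_sup_right)) with rfl | rfl
    exacts [not_dvd_index_of_sylow_le P (le_sup_left.trans le_sup_left) d,
      not_dvd_index_of_sylow_le Q (le_sup_right.trans le_sup_left) d])
  refine .inr ⟨q, ‹_›, P, Q, A, qp, hA, ?_, normalizer_eq_top_iff.1 (top_le_iff.1 (t.ge.trans (sup_le le_normalizer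
    (hA.trans (center_le_normalizer _))))), (hK.disjoint.symm.mono_left (sup_le hP hQ)).eq_bot, t⟩
  obtain ⟨c, e⟩ := Nat.Coprime.mul_dvd_of_dvd_of_dvd (IsPGroup.coprime_card_of_ne p q qp.symm _ _ P.2 Q.2)
    (card_dvd_of_le (le_sup_left : (P : Subgroup G) ≤ P.1 ⊔ Q.1)) (card_dvd_of_le (le_sup_right : (Q : Subgroup G) ≤ P.1 ⊔ Q.1))
  have k : ∀ {r a b : ℕ} (L : Subgroup G), r ∣ c → Nat.card L * b * c ∣ Nat.card G → r ∣ L.index := fun {r a b} L d e =>
    d.trans ((Dvd.intro_left b rfl).trans (Nat.dvd_of_mul_dvd_mul_left (Nat.card_pos (α := L)) (by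
      rwa [L.card_mul_index, ← mul_assoc])))
  have c1 : c = 1 := Nat.eq_one_iff_not_exists_prime_dvd.2 fun r hr d => by
    have g := e ▸ card_subgroup_dvd_card ((P : Subgroup G) ⊔ Q)
    rcases a1 r hr (hK.symm.index_eq_card ▸ (d.trans (Dvd.intro_left _ e.symm)).trans (card_dvd_of_le (sup_le hP hQ)))
      with rfl | rfl
    exacts [P.not_dvd_index (k (a := 0) _ d g), Q.not_dvd_index (k (a := 0) _ d (mul_comm (Nat.card P) _ ▸ g))]
  rw [e, c1, mul_one]

end Cfsg.Agent.S4033
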