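import Cfsg.Statements.S4036
import Cfsg.Agent.FG.Basic
import Cfsg.Agent.Gen.Baer

set_option autoImplicit false
open Cfsg

namespace Cfsg.Agent.S4036

open Cfsg.Agent.BG Cfsg.Agent.FG Subgroup

/-- Let P be a finite abelian p-group and K a group of automorphisms of P (a subgroup of Aut P) whose order is divisible by p. If all non-identity elements of K have the same fixed-point subgroup on P, then K has no non-trivial normal subgroup of order prime to p. -/
theorem result {P : Type*} [CommGroup P] [Finite P] {p : ℕ}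
    [Fact p.Prime] (hP : IsPGroup p P) (K : Subgroup (MulAut P)) (hK : p ∣ Nat.card K)
    (hfix : ∀ x y : MulAut P, x ∈ K → y ∈ K → x ≠ 1 → y ≠ 1 → ∀ v : P, x v = v ↔ y v = v) :
    ∀ N : Subgroup ↥K, N.Normal → ¬ p ∣ Nat.card N → N = ⊥ := by
  intro N hN hpN
  have hp : p.Prime := Fact.out
  obtain ⟨x, hx⟩ := exists_prime_orderOf_dvd_card' p hK
  have hx1 : x ≠ 1 := by rintro rfl; simp [eq_comm, hp.ne_one] at hx
  have := Gen.bender_abelian hP K.subtype (P := zpowers x) (Q := N) (pgroup_of_card_p (by rwa [Nat.card_zpowers]))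
    ((Nat.Prime.coprime_iff_not_dvd hp).2 hpN).symm (norm_of_normal _ _) fun v hv g _ => by
      by_cases e : g = 1
      · simp [e]
      · exact (hfix x g x.2 g.2 (by simpa using hx1) (by simpa using e) v).1 (hv x (mem_zpowers x))
  rw [eq_bot_iff]
  intro g hg
  exact Subtype.ext (MulEquiv.ext (this g hg))

end Cfsg.Agent.S4036
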