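import Cfsg.Statements.S4039
import Cfsg.Agent.FG.NilMax
import Cfsg.Agent.PLocal.Func

set_option autoImplicit false
open Cfsg

namespace Cfsg.Agent.S4039

open Cfsg.Agent.BG Cfsg.Agent.FG Subgroup

/-- A finite group possessing a maximal subgroup that is nilpotent of class at most 2 is solvable. -/
theorem result {G : Type*} [Group G] [Finite G]
    (M : Subgroup G) (hmax : IsCoatom M) (hnil : Group.IsNilpotent M) (hcl : Group.nilpotencyClass ↥M ≤ 2) :
    Group.IsSolvable G := by
  refine sol_of_core hmax (nilpotent_sol hnil) fun h1 h2 => ?_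
  have h3 := nilpotent_map (QuotientGroup.mk' M.normalCore) hnil
  have h4 := (Group.nilpotencyClass_le_of_surjective _ ((QuotientGroup.mk' M.normalCore).subgroupMap_surjective M)).trans hcl
  generalize M.map (QuotientGroup.mk' M.normalCore) = L at h1 h2 h3 h4
  refine sol_of_corefree h1 h2 h3 fun p hp P h5 e =>
    Transfer.hasNormalPComplement_of_fullyNormalized P fun D h0 ⟨hD, h6⟩ g hg hc => ?_
  have hP : (P : Subgroup _) ≤ L := e.trans_le (pcore_sub _ _)
  have h7 := PLocal.isSylowIn_iff.1 (Transfer.isSylowIn_centralizer_of_normalizer h6)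
  have h8 : ⁅L, L⁆ ≤ C[L] := commutator_le.2 fun x hx y hy => mem_cent.2 fun z hz =>
    congrArg Subtype.val (mem_center_iff.1 (comm_mem_center_of_class2 h4 ⟨x, hx⟩ ⟨y, hy⟩) ⟨z, hz⟩)
  have h9 : (P : Subgroup _) ⊓ C[D] ⊴ L := ⟨inf_le_left.trans hP, norm_of_commg_subl (le_inf
    ((commSg _ inf_le_left).trans (commg_subl (e ▸ (pcore_normal _ _).norm)))
    ((commgSS (inf_le_left.trans hP) le_rfl).trans (h8.trans (centS (hD.trans hP)))))⟩
  have h10 := Frattini_arg (cent_normal D) h7
  rw [norm_eq_of_corefree h1 h2 h9 fun h => center_nil_ne_bot (pgroup_nil P.isPGroup') (h0 ∘ fun h => eq_bot_iff.2 (h ▸ hD))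
    (eq_bot_iff.2 ((inf_le_inf_left _ (centS hD)).trans h.le))] at h10
  have h11 := nilpotent_pcoreC {p} h3
  have h12 : PiNat {p} (C[D].relIndex N[D]) := by
    rw [← h10, relIndex_sup_norml (inf_le_left.trans (cent_norm D))]
    refine PiNat.of_dvd ?_ ((relIndex_dvd_of_le_left _ (h11.cent.trans (centS (hD.trans e.le)))).trans
      (relIndex_dvd_of_norm (pcore_normal _ _).norm inf_le_right))
    rw [h11.symm.sdprod.relIndexl]
    exact pcore_pgroup _ _
  haveI := (cent_normal D).subgroupOf
  exact mem_of_pow_coprime_orderOf (pow_index_mem (H := C[D].subgroupOf N[D]) ⟨g, hg⟩)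
    (pnat_coprime h12 ((p'nat_coprime hp.out).2 hc))

end Cfsg.Agent.S4039
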