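import Cfsg.Statements.S4043
import Cfsg.Agent.FG.Compl

set_option autoImplicit false
open Cfsg

namespace Cfsg.Agent.S4043

open Cfsg.Agent.BG Cfsg.Agent.FG Subgroup

theorem norm_eq {G : Type*} [Group G] [Finite G] {p : ℕ} [Fact p.Prime] {K A : Subgroup G} (hK : IsPGroup p K)
    (h : Sdprod K A ⊤) (h1 : HasNormalPComplement p A) (h2 : K ⊓ C[A] = ⊥) : N[Op' p A] = A := by
  obtain ⟨P, hP⟩ := Sylow_exists p A
  have h3 := sdprod_of_npc h1 hP
  have h4 : K ⊓ N[Op' p A] = ⊥ := by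
    rw [coprime_norm_cent (h3.lel.trans h.norm) (pnat_coprime (IsPGroup.pi hK) (pcore_pgroup _ _))]
    by_contra h0
    refine pgroup_cent_ne_bot hP.pg (IsPGroup.sub hK inf_le_left)
      (normsI (hP.le.trans h.norm) (norms_cent h3.norm)) h0 ?_
    rwa [inf_assoc, ← cent_sup, h3.sup]
  have h5 := group_modr (.inr h.norm) h3.normal.norm
  rwa [h.sup, inf_top_eq, inf_comm, h4, bot_sup_eq] at h5

theorem sup_le {G : Type*} [Group G] [Finite G] {p : ℕ} [Fact p.Prime] {K A B : Subgroup G}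
    (h : Sdprod K A ⊤) (h1 : HasNormalPComplement p A) (h2 : PiGrp {p}ᶜ B) : B ≤ K ⊔ Op' p A := by
  have h3 := hasNormalPComplement_iff.1 h1
  have n : K ⊔ Op' p A ⊴ ⊤ := ⟨le_top, h.sup.ge.trans (_root_.sup_le (normsG le_sup_left)
    (normsY h.norm (pcore_normal _ _).norm))⟩
  refine fun x hx => mem_of_pow_coprime_orderOf (haveI := n.normal; pow_index_mem _ x)
    (pnat_coprime' (PiNat.of_dvd h3.idx ?_) (mem_p_elt h2 hx))
  rw [← relIndex_top_right, ← top_unique (h.sup.ge.trans (sup_le_sup_right (le_sup_left (b := Op' p A)) A)),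
    relIndex_sup_norml (le_top.trans n.norm)]
  exact relIndex_dvd_of_le_left _ le_sup_right

/-- Let G be a finite group that is the semidirect product of a normal p-subgroup N by a subgroup A, and also of N by a subgroup A₁, where p is a prime and A and A₁ both have normal p-complements. If C_N(A) = C_N(A₁) = 1, then A₁ is conjugate to A by an element of N. -/
theorem result {G : Type*} [Group G] [Finite G] {p : ℕ}
    [Fact p.Prime] (N : Subgroup G) [N.Normal] (hN : IsPGroup p N) (A A₁ : Subgroup G)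
    (hA : A.IsComplement' N) (hA₁ : A₁.IsComplement' N)
    (hAp : Cfsg.HasNormalPComplement p A) (hA₁p : Cfsg.HasNormalPComplement p A₁)
    (hC : ∀ n : G, n ∈ N → (∀ a : G, a ∈ A → a * n * a⁻¹ = n) → n = 1)
    (hC₁ : ∀ n : G, n ∈ N → (∀ a : G, a ∈ A₁ → a * n * a⁻¹ = n) → n = 1) :
    ∃ n : G, n ∈ N ∧ A₁ = A.map (MulAut.conj n).toMonoidHom := by
  have h := isComplement'_iff_sdprod.1 hA.symm
  have h' := isComplement'_iff_sdprod.1 hA₁.symm
  have e : ∀ B : Subgroup G, (∀ n : G, n ∈ N → (∀ a : G, a ∈ B → a * n * a⁻¹ = n) → n = 1) → N ⊓ C[B] = ⊥ :=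
    fun B hB => eq_bot_iff.2 fun n hn => hB n hn.1 fun a ha => mul_inv_eq_iff_eq_mul.2 (mem_cent.1 hn.2 a ha)
  obtain ⟨n, hn, h1⟩ := SchurZassenhaus_trans (A := Op' p A) (B := Op' p A₁) (norm_of_normal N _) (le_antisymm
    (_root_.sup_le le_sup_left (sup_le h' hA₁p (pcore_pgroup _ _))) (_root_.sup_le le_sup_left (sup_le h hAp (pcore_pgroup _ _))))
    (pnat_coprime (IsPGroup.pi hN) (pcore_pgroup _ _)) (pnat_coprime (IsPGroup.pi hN) (pcore_pgroup _ _)) (.inl (pgroup_sol hN))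
  exact ⟨n, hn, by rw [← cj_def, ← norm_eq hN h' hA₁p (e _ hC₁), h1, N_cj, norm_eq hN h hAp (e _ hC)]⟩

end Cfsg.Agent.S4043
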