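import Cfsg.Statements.S4049
import Cfsg.Agent.FG.Basic

set_option autoImplicit false
open Cfsg

namespace Cfsg.Agent.S4049

open Cfsg.Agent.BG Cfsg.Agent.FG Subgroup
open scoped commutatorElement

/-- Let G be a finite group such that N_G(H)/C_G(H) has odd order for every nontrivial subgroup H of odd order. Then the Sylow 2-subgroups of G are normal. -/
theorem result {G : Type*} [Group G] [Finite G]
    (hhom : ∀ H : Subgroup G, H ≠ ⊥ → ¬ 2 ∣ Nat.card ↥H →
        ¬ 2 ∣ (Subgroup.centralizer (H : Set G)).relIndex (Subgroup.normalizer (H : Set G))) (P : Sylow 2 G) :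
    (P : Subgroup G).Normal := by
  refine sylow_two_normal_of_quotient P fun t y ht hy hi => ?_
  obtain ⟨x, hx, rfl⟩ := exists_lift_piElt (π := {2}ᶜ) (QuotientGroup.mk'_surjective _) (pnat_odd.2 hy)
  obtain ⟨g, rfl⟩ := QuotientGroup.mk_surjective t
  obtain ⟨k, hk, h⟩ := exists_norm_of_quotient (N := pCore 2 G) (A := zpowers x) (g := g)
    (pnat_coprime (IsPGroup.pi (Solv.isPGroup_pCore 2 G)) (p_elt_zpowers.2 hx))
    (Or.inr (abelian_sol (abelian_zpowers x))) (by
      rw [MonoidHom.map_zpowers, mem_norm, cj_zpowers, hi, zpowers_inv])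
  by_contra hx1
  have ho := hhom (zpowers x) (by rintro e; simp at e; exact hx1 (by simp [e]))
    (pnat_odd.1 (p_elt_zpowers.2 hx)).not_two_dvd_nat
  haveI := (cent_normal (zpowers x)).subgroupOf
  have h2 := mem_subgroupOf.1 (pow_index_mem (H := C[zpowers x].subgroupOf N[zpowers x]) ⟨_, h⟩)
  rw [C_zpowers] at h2 ho
  have := congrArg (QuotientGroup.mk' (pCore 2 G)) (mem_cent1.1 h2)
  simp only [map_mul, map_inv, map_pow, QuotientGroup.mk'_apply, (QuotientGroup.eq_one_iff k).2 hk, inv_one,
    one_mul, coe_pow] at this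
  refine hx1 (Invol.eq_one_of_odd_of_inverts_of_commute hy (Invol.pow_inverts_of_odd hi ?_) this.symm)
  exact Nat.not_even_iff_odd.1 fun h => ho h.two_dvd

end Cfsg.Agent.S4049
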