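import Cfsg.Statements.S4050
import Cfsg.Agent.FG.PiClosed

set_option autoImplicit false
open Cfsg

namespace Cfsg.Agent.S4050

open Cfsg.Agent.BG Cfsg.Agent.FG Subgroup

/-- Let π be a set of primes and G a finite group. The π-elements of G (elements whose order is divisible only by primes of π) form a subgroup if and only if G is π-separable (it has a chain of normal subgroups from 1 to G with each successive index divisible only by primes in π or only by primes outside π) and N_G(H)/C_G(H) is a π'-group for every nontrivial π'-subgroup H of G. -/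
theorem result {G : Type*} [Group G] [Finite G] (π : Set ℕ)
    (hπ : ∀ p ∈ π, p.Prime) :
    (∃ K : Subgroup G, ∀ x : G, x ∈ K ↔ ∀ p : ℕ, p.Prime → p ∣ orderOf x → p ∈ π) ↔
    ((∃ (n : ℕ) (H : Fin (n + 1) → Subgroup G), H 0 = ⊥ ∧ H (Fin.last n) = ⊤ ∧ Monotone H ∧ (∀ i, (H i).Normal) ∧
      ∀ i : Fin n, (∀ q : ℕ, q.Prime → q ∣ (H i.castSucc).relIndex (H i.succ) → q ∈ π) ∨
        (∀ q : ℕ, q.Prime → q ∣ (H i.castSucc).relIndex (H i.succ) → q ∉ π)) ∧
     (∀ H : Subgroup G, H ≠ ⊥ → (∀ p : ℕ, p.Prime → p ∣ Nat.card ↥H → p ∉ π) →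
        ∀ p : ℕ, p.Prime → p ∣ (Subgroup.centralizer (H : Set G)).relIndex (Subgroup.normalizer (H : Set G)) → p ∉ π)) := by
  refine piClosed_iff_top.trans ⟨fun h => ⟨⟨2, ![⊥, piCoreOf π ⊤, ⊤], rfl, rfl, ?_, ?_, ?_⟩, fun H _ h1 => ?_⟩,
    fun ⟨⟨n, H, h0, h1, h2, h3, h4⟩, h5⟩ => ?_⟩
  · exact Fin.monotone_iff_le_succ.2 (Fin.forall_fin_two.2 ⟨bot_le, le_top⟩)
  · intro i
    fin_cases i
    exacts [normal_bot, (pcore_normal _ _).normal, normal_top]
  · exact Fin.forall_fin_two.2 ⟨.inl fun q hq hd => h.pi q hq (by simpa using hd), .inr h.idx⟩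
  · have n := pcore_normal π (⊤ : Subgroup G)
    have h2 : N[H] ⊓ piCoreOf π ⊤ ≤ C[H] := commG1.1 (eq_bot_iff.2 ((le_inf ((commSg _ inf_le_right).trans
      (commg_subl (le_top.trans n.norm))) (commg_subr inf_le_left)).trans (pgroup_TI h.pi h1).le))
    refine PiNat.of_dvd h.idx ((relIndex_dvd_of_le_left _ h2).trans ?_)
    rw [inf_relIndex_left]
    exact relIndex_dvd_of_norm n.norm le_top
  have h := piHom_of h5
  rw [← h1]
  refine Fin.induction (motive := fun i => IsPiHallOf π (piCoreOf π (H i)) (H i)) ?_ (fun i ih => ?_) _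
  · rw [h0, pcore_bot]; exact pHall_id (pgroup_bot _)
  · haveI := h3 i.castSucc
    exact h.closed_step ((BG.normal_top _).subl (h2 i.castSucc_le_succ) le_top) ih (h4 i)

end Cfsg.Agent.S4050
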