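import Cfsg.Statements.S4051
import Cfsg.Agent.FG.PiClosed

set_option autoImplicit false
open Cfsg

namespace Cfsg.Agent.S4051

open Cfsg.Agent.BG Cfsg.Agent.FG Subgroup

/-- Let π be a set of primes and G a finite group such that N_G(H)/C_G(H) is a π'-group for every nontrivial π'-subgroup H of G. If K is a normal subgroup of G such that the π-elements of K form a subgroup and the π-elements of G/K form a subgroup, then the π-elements of G form a subgroup. -/
theorem result {G : Type*} [Group G] [Finite G] (π : Set ℕ)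
    (hπ : ∀ p ∈ π, p.Prime) (hhom : (∀ H : Subgroup G, H ≠ ⊥ → (∀ p : ℕ, p.Prime → p ∣ Nat.card ↥H → p ∉ π) →
        ∀ p : ℕ, p.Prime → p ∣ (Subgroup.centralizer (H : Set G)).relIndex (Subgroup.normalizer (H : Set G)) → p ∉ π))
    (K : Subgroup G) [K.Normal]
    (hK : ∃ L : Subgroup ↥K, ∀ x : ↥K, x ∈ L ↔ ∀ p : ℕ, p.Prime → p ∣ orderOf x → p ∈ π)
    (hQ : ∃ L : Subgroup (G ⧸ K), ∀ x : G ⧸ K, x ∈ L ↔ ∀ p : ℕ, p.Prime → p ∣ orderOf x → p ∈ π) :
    (∃ K : Subgroup G, ∀ x : G, x ∈ K ↔ ∀ p : ℕ, p.Prime → p ∣ orderOf x → p ∈ π) := by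
  have h := piHom_of hhom
  have h1 := piClosed_iff_top.1 hQ
  set L := piCoreOf π (⊤ : Subgroup (G ⧸ K))
  haveI : L.Normal := (pcore_normal _ _).normal
  have hf := QuotientGroup.mk'_surjective K
  have h2 : K ≤ L.comap (QuotientGroup.mk' K) := (QuotientGroup.ker_mk' K).ge.trans (ker_le_comap _ _)
  refine piClosed_iff_top.2 (h.closed_step (normal_top (L.comap (QuotientGroup.mk' K)))
    (h.closed_step ((normal_top K).subl h2 le_top) (piClosed_iff.1 hK) (.inl ?_)) (.inr ?_))
  · conv => enter [2, 1]; rw [← QuotientGroup.ker_mk' K]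
    rw [relIndex_ker, map_comap_eq_self_of_surjective hf]
    exact h1.pi
  · rw [relIndex_top_right, index_comap_of_surjective _ hf, ← relIndex_top_right]
    exact h1.idx

end Cfsg.Agent.S4051
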