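import Cfsg.Statements.S4056
import Cfsg.Agent.FG.Basic

set_option autoImplicit false
open Cfsg

namespace Cfsg.Agent.S4056

open Cfsg.Agent.BG Cfsg.Agent.FG Subgroup
open scoped commutatorElement

/-- In a finite 2-group of nilpotency class at most 2 and exponent dividing 4, the Frattini subgroup lies in the centre and is elementary abelian. -/
theorem result {P : Type*} [Group P] [Finite P] (hP : IsPGroup 2 P)
    (hcl : Group.nilpotencyClass P ≤ 2) (hexp : Monoid.exponent P ∣ 4) :
    frattini P ≤ Subgroup.center P ∧ Cfsg.IsElementaryAbelian 2 (frattini P) := by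
  haveI := hP.isNilpotent
  have h4 : ∀ x : P, x ^ 4 = 1 := Monoid.exponent_dvd_iff_forall_pow_eq_one.1 hexp
  have hc : ∀ x y z : P, Commute ⁅x, y⁆ z := fun x y => PGrp.commute_of_mem_center (comm_mem_center_of_class2 hcl x y)
  have h2 : ∀ x y : P, ⁅x, y⁆ ^ 2 = 1 := fun x y => by
    have := PGrp.mul_pow_of_commute_commutator (hc x y y) (hc x y x) 4
    rw [h4, h4, h4, mul_one, mul_one, show Nat.choose 4 2 = 4 + 2 by decide, pow_add, h4, one_mul] at this
    exact this.symm
  have hT : IsPGroup 2 (⊤ : Subgroup P) := hP.to_subgroup ⊤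
  have h : Phi (⊤ : Subgroup P) ≤ omegaOne 2 Z[(⊤ : Subgroup P)] := by
    rw [center_top]
    refine (Phi_min hT).2 ⟨commutator_le.2 fun x _ y _ => mem_Ohm1 (comm_mem_center_of_class2 hcl x y) (h2 x y),
      fun x _ => mem_Ohm1 (mem_center_iff.2 fun y => ?_) (by rw [← pow_mul]; exact h4 x)⟩
    rw [eq_comm, ← commutatorElement_eq_one_iff_mul_comm, PGrp.commutator_pow_left (hc _ _ _), h2]
  rw [← Phi_top]
  exact ⟨center_top (G := P) ▸ h.trans (Ohm_sub _ _), abelemS h (Ohm1_center_abelem _ _)⟩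

end Cfsg.Agent.S4056
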