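import Cfsg.Statements.S4058
import Cfsg.Agent.S0158
import Cfsg.Agent.S0159
import Cfsg.Agent.Char.Central
import Cfsg.Agent.Solv.Frattini
import Mathlib.GroupTheory.FiniteAbelian.Duality
import Mathlib.RingTheory.RootsOfUnity.AlgebraicallyClosed

set_option autoImplicit false
open Cfsg

namespace Cfsg.Agent.S4058

open Subgroup MulAction
open scoped IsMulCommutative ComplexConjugate

theorem dvd_sum_of_orbit {L X : Type*} [Group L] [Fintype X] [MulAction L X] (f : X → ℤ) (m : ℤ)
    (hf : ∀ (l : L) (x : X), f (l • x) = f x) (h : ∀ x, m ∣ (stabilizer L x).index * f x) : m ∣ ∑ x, f x := by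
  classical
  rw [← Finset.sum_fiberwise (s := Finset.univ) (g := Quotient.mk (orbitRel L X))]
  refine Finset.dvd_sum fun ω _ => ?_
  obtain ⟨x, rfl⟩ := Quotient.exists_rep ω
  have h1 : ∀ y, Quotient.mk (orbitRel L X) y = Quotient.mk (orbitRel L X) x ↔ y ∈ orbit L x := fun y =>
    Quotient.eq
  rw [Finset.sum_congr rfl (g := fun _ => f x) (fun y hy => by
    obtain ⟨l, rfl⟩ := (h1 y).1 (Finset.mem_filter.1 hy).2
    exact hf l x), Finset.sum_const, nsmul_eq_mul]
  have h2 : (Finset.univ.filter fun y => Quotient.mk (orbitRel L X) y = Quotient.mk (orbitRel L X) x).card =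
      (stabilizer L x).index := by
    rw [index_stabilizer, ← Set.ncard_coe_finset]
    congr 1
    ext y
    simp [h1]
  rw [h2]
  exact h x

/-- linear characters fixing an irreducible character: at most `χ(1)²` of them -/
theorem card_le_sq {G ι : Type*} [Group G] [Finite G] [Finite ι] {χ : G → ℂ} (hχ : IsIrrCharacter G χ)
    (l : ι → G →* ℂˣ) (hl : Function.Injective l) (h : ∀ i g, χ g * l i g = χ g) {d : ℕ} (hd : χ 1 = d) :
    Nat.card ι ≤ d ^ 2 := by
  classical
  have := Fintype.ofFinite G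
  have := Fintype.ofFinite ι
  obtain ⟨m, hm, h1⟩ := (hχ.isCharacter.mul hχ.isCharacter.conj).exists_nat_coeff
  let e : ι → IrrCharacter G := fun i => ⟨_, Char.isIrrCharacter_hom (l i)⟩
  have he : Function.Injective e := fun i j hij => hl (MonoidHom.ext fun g =>
    Units.ext (congrFun (congrArg Subtype.val hij) g))
  have h2 : ∀ i, m (e i) = 1 := fun i => by
    have h3 := hm (e i)
    rw [Char.classInner_mul_left] at h3
    have h4 : (fun g => conj (conj (χ g)) * (e i).1 g) = χ := funext fun g => by simpa [e] using h i g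
    rw [h4, hχ.classInner_self] at h3
    exact_mod_cast h3.symm
  choose dg hdg0 hdg using fun φ : IrrCharacter G => φ.2.exists_pos_apply_one
  have h5 : d ^ 2 = ∑ φ, m φ * dg φ := by
    have := congrFun h1 1
    simp only [Pi.mul_apply, hd, Finset.sum_apply, Pi.smul_apply, smul_eq_mul, hdg, map_natCast] at this
    rw [sq]; exact_mod_cast this
  rw [h5, Nat.card_eq_fintype_card]
  calc Fintype.card ι = ∑ φ ∈ Finset.univ.image e, 1 := by simp [Finset.card_image_of_injective _ he]
    _ ≤ ∑ φ ∈ Finset.univ.image e, m φ * dg φ := Finset.sum_le_sum fun φ hφ => by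
        obtain ⟨i, -, rfl⟩ := Finset.mem_image.1 hφ
        rw [h2, one_mul]; exact hdg0 _
    _ ≤ _ := Finset.sum_le_sum_of_subset (Finset.subset_univ _)

/-- Let G be a finite 2-group with #(G/Φ(G)) ≥ 2^(2k+1). Then the number of elements x of G with x² = 1 is divisible by 2^(k+1). -/
theorem result {G : Type*} [Group G] [Finite G] (hG : IsPGroup 2 G) (k : ℕ)
    (hgen : 2 ^ (2 * k + 1) ≤ Nat.card (G ⧸ frattini G)) :
    2 ^ (k + 1) ∣ Nat.card {x : G // x ^ 2 = 1} := by
  classical
  have := Fintype.ofFinite G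
  have := hG.isNilpotent
  have : IsMulCommutative (G ⧸ frattini G) :=
    Normal.quotient_commutative_iff_commutator_le.2 Solv.commutator_le_frattini
  let L := G ⧸ frattini G →* ℂˣ
  have hL : Nat.card L = Nat.card (G ⧸ frattini G) := CommGroup.card_monoidHom_of_hasEnoughRootsOfUnity _ ℂ
  have : Finite L := Nat.finite_of_card_ne_zero (hL ▸ Nat.card_pos.ne')
  let act : MulAction L (IrrCharacter G) :=
    { smul := fun l χ => ⟨_, χ.2.mul_hom (l.comp (QuotientGroup.mk' _))⟩
      one_smul := fun χ => Subtype.ext (funext fun g => mul_one _)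
      mul_smul := fun l l' χ => Subtype.ext (funext fun g => by
        show χ.1 g * ((l g * l' g : ℂˣ) : ℂ) = χ.1 g * l' g * l g
        push_cast; ring) }
  have hact : ∀ (l : L) (χ : IrrCharacter G) (g : G), (l • χ).1 g = χ.1 g * l g := fun _ _ _ => rfl
  have hν : ∀ χ : IrrCharacter G, ∃ n : ℤ, (Nat.card G : ℂ)⁻¹ * ∑ s : G, χ.1 (s * s) = n := by
    rintro ⟨_, n, ρ, hρ, rfl⟩
    rcases (Cfsg.Agent.S0158.result ρ).1 with h | h | h
    · exact ⟨0, by simpa using h⟩
    · exact ⟨1, by simpa using h⟩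
    · exact ⟨-1, by simpa using h⟩
  choose ν hν using hν
  choose dg hdg using fun φ : IrrCharacter G => φ.2.isCharacter.exists_nat_apply_one
  have h1 : (Nat.card {x : G // x ^ 2 = 1} : ℤ) = ∑ χ, ν χ * dg χ := by
    have := Cfsg.Agent.S0159.result (G := G)
    rw [finsum_eq_sum_of_fintype] at this
    simp only [hν, hdg] at this
    simp only [← sq] at this
    exact_mod_cast this
  rw [← Int.natCast_dvd_natCast, h1]
  refine dvd_sum_of_orbit (L := L) _ _ (fun l χ => ?_) fun χ => ?_
  · have h2 : (ν (l • χ) : ℂ) = ν χ := by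
      rw [← hν, ← hν]
      congr 2
      ext s
      rw [hact, (QuotientGroup.eq_one_iff _).2 (sq s ▸ Solv.pow_mem_frattini hG s), map_one, Units.val_one,
        mul_one]
    have h3 : (dg (l • χ) : ℂ) = dg χ := by rw [← hdg, ← hdg, hact]; simp
    rw [Int.cast_injective h2, Nat.cast_injective h3]
  · have h2 := card_le_sq χ.2 (fun l : stabilizer L χ => l.1.comp (QuotientGroup.mk' _))
      (fun l l' h => Subtype.ext (QuotientGroup.monoidHom_ext _ h))
      (fun l g => congrFun (congrArg Subtype.val l.2) g) (hdg χ)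
    obtain ⟨N, hN⟩ := IsPGroup.iff_card.1 hG
    obtain ⟨e, -, he⟩ := (Nat.dvd_prime_pow Nat.prime_two).1 (hN ▸ χ.2.dvd_card_of_apply_one (hdg χ))
    obtain ⟨d, hd⟩ := IsPGroup.iff_card.1 (hG.to_quotient (frattini G))
    have h3 := (stabilizer L χ).card_mul_index
    rw [hL, hd] at h3
    obtain ⟨s, -, hs⟩ := (Nat.dvd_prime_pow Nat.prime_two).1 (Dvd.intro _ h3)
    obtain ⟨i, -, hi⟩ := (Nat.dvd_prime_pow Nat.prime_two).1 (Dvd.intro_left _ h3)
    rw [hs, hi, ← pow_add, Nat.pow_right_inj (by norm_num)] at h3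
    rw [hs, he, ← pow_mul, Nat.pow_le_pow_iff_right (by norm_num)] at h2
    rw [hd, Nat.pow_le_pow_iff_right (by norm_num)] at hgen
    rw [hi, he, mul_left_comm]
    apply Dvd.dvd.mul_left
    push_cast
    rw [← pow_add]
    exact pow_dvd_pow _ (by omega)

end Cfsg.Agent.S4058
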