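import Cfsg.Statements.S4065
import Cfsg.Agent.Classical.PSL2Four

set_option autoImplicit false
open Cfsg

namespace Cfsg.Agent.S4065

open Cfsg.Agent.Classical Matrix Subgroup MulAction

/-- Let F be a finite field with 2ⁿ elements, n ≥ 2. In PSL₂(F) the centralizer of every element meets each of its conjugates by elements outside its normalizer trivially. -/
theorem result (n : ℕ) (hn : 2 ≤ n)
    (x : Matrix.ProjectiveSpecialLinearGroup (Fin 2) (GaloisField 2 n)) :
    Cfsg.IsTISubset (Subgroup.centralizer ({x} : Set (Matrix.ProjectiveSpecialLinearGroup (Fin 2) (GaloisField 2 n))) :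
      Set (Matrix.ProjectiveSpecialLinearGroup (Fin 2) (GaloisField 2 n))) := by
  have := Fact.mk Nat.prime_two
  have h2 : (2 : GaloisField 2 n) = 0 := CharTwo.two_eq_zero
  intro g hg y hy hy'
  by_contra h1
  obtain ⟨x, rfl⟩ := pslMk_surjective x
  obtain ⟨y, rfl⟩ := pslMk_surjective y
  obtain ⟨g, rfl⟩ := pslMk_surjective g
  by_cases hx : IsScal x.1
  · rw [pslMk_eq_one_iff.2 hx] at hg
    simp [mem_normalizer_iff, mem_centralizer_singleton_iff] at hg
  rw [← map_inv, ← map_mul, ← map_mul] at hy'
  have hy1 : ¬ IsScal y.1 := mt pslMk_eq_one_iff.2 h1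
  have e1 := sl_centralizer_eq_of_mem hx hy1 ((comap_centralizer_pslMk (Or.inr h2)).le hy)
  have e2 := sl_centralizer_eq_of_mem hx (x := g * y * g⁻¹) (fun h => h1 (by
    simpa using pslMk_eq_one_iff.2 h)) ((comap_centralizer_pslMk (Or.inr h2)).le hy')
  refine hg (mem_comap.1 ?_)
  rw [comap_normalizer_eq_of_surjective _ pslMk_surjective, comap_centralizer_pslMk (Or.inr h2),
    mem_normalizer_iff]
  intro h
  conv_lhs => rw [← e1]
  conv_rhs => rw [← e2]
  rw [mem_centralizer_singleton_iff, mem_centralizer_singleton_iff]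
  simp [← mul_assoc]
  simp [mul_assoc]

end Cfsg.Agent.S4065
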