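import Cfsg.Statements.S4066
import Cfsg.Agent.FG.Basic

set_option autoImplicit false
open Cfsg

namespace Cfsg.Agent.S4066

open Cfsg.Agent.BG Cfsg.Agent.FG Subgroup
open scoped commutatorElement

/-- Let G be a finite group in which the centralizer of every element meets each of its conjugates by elements outside its normalizer trivially. Then any two distinct Sylow p-subgroups of G, for any prime p, intersect trivially. -/
theorem result {G : Type*} [Group G] [Finite G] (hTI : ∀ x : G, Cfsg.IsTISubset (Subgroup.centralizer ({x} : Set G) : Set G))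
    {p : ℕ} [Fact p.Prime] (P Q : Sylow p G) (hPQ : P ≠ Q) : (P : Subgroup G) ⊓ (Q : Subgroup G) = ⊥ := by
  rw [eq_bot_iff]
  rintro x ⟨hxP, hxQ⟩
  by_contra hx1
  have key : ∀ y g w : G, w ≠ 1 → w ∈ C1[y] → w ∈ cj g C1[y] → cj g C1[y] = C1[y] := fun y g w hw h1 h2 => by
    by_contra hn
    refine hw ?_
    have := hTI y g (fun h => hn (mem_norm.1 h)) _ (mem_cj.1 h2) (by simpa [mul_assoc] using h1)
    simpa [mul_eq_one_iff_eq_inv] using this
  obtain ⟨z, hz, hz1⟩ := trivgPn.1 (center_nil_ne_bot (pgroup_nil P.2) (trivgPn.2 ⟨x, hxP, hx1⟩))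
  have hP : (P : Subgroup G) ≤ C1[z] := le_cent1_iff.2 hz.2
  obtain ⟨g, rfl⟩ := MulAction.exists_smul_eq G P Q
  have hQ : cj g P ≤ C1[z] := key z g x hx1 (hP hxP) (cj_mono g hP hxQ) ▸ cj_mono g hP
  apply hPQ
  ext1
  refine Hall_eq_of_le (sylowIn_top P) (sylowIn_top _) fun y hy => ?_
  have h1 : C1[z] ≤ N[C1[y]] := fun c hc => mem_norm.2 (key y c z hz1 (mem_cent1_comm.1 (hP hy)) (by
    have := conj_mem_cj c (mem_cent1_comm.1 (hP hy))
    rwa [mem_cent1.1 hc, mul_inv_cancel_right] at this))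
  have h2 := ((norm_normalI h1).center).pcore {p}
  refine normal_sub_Hall (pHall_subl hQ le_top (sylowIn_top (g • P))) h2 (pcore_pgroup _ _) ?_
  refine nilpotent_sub_pcore (abelian_nil (center_abelian _)) (zpowers_le.2 ?_)
    (p_elt_zpowers.2 (mem_p_elt (sylowIn_top P).pi hy)) (mem_zpowers y)
  exact ⟨⟨hP hy, cent1_self y⟩, le_cent1_iff.1 inf_le_right⟩

end Cfsg.Agent.S4066
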