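import Cfsg.Statements.S4067
import Cfsg.Agent.Frob.Compl
import Cfsg.Agent.Char.Second
import Cfsg.Agent.Char.Central
import Cfsg.Agent.PGrp.Basic

set_option autoImplicit false
open Cfsg

namespace Cfsg.Agent.S4067

open Subgroup Cfsg.Agent.BG Cfsg.Agent.PGrp MulAction
open scoped commutatorElement

theorem count {A X : Type*} [Group A] [MulAction A X] [Fintype X] (c : ℕ) (w : X → ℕ)
    (h : ∀ x, c ≤ w x * (orbit A x).ncard) : c * Nat.card (orbitRel.Quotient A X) ≤ ∑ x, w x := by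
  classical
  let _ := Fintype.ofFinite (orbitRel.Quotient A X)
  rw [← Finset.sum_fiberwise Finset.univ (fun x => (Quotient.mk _ x : orbitRel.Quotient A X)), Nat.card_eq_fintype_card,
    mul_comm, ← Finset.card_univ, ← smul_eq_mul]
  refine Finset.card_nsmul_le_sum _ _ _ fun ω _ => ?_
  induction ω using Quotient.inductionOn with
  | h a =>
  have e : (Finset.univ.filter fun x => (Quotient.mk _ x : orbitRel.Quotient A X) = Quotient.mk _ a).card =
      (orbit A a).ncard := by
    rw [← Set.ncard_coe_finset]; congr 1; ext x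
    simp only [Finset.coe_filter, Finset.mem_univ, true_and, Set.mem_ofPred_eq]
    exact Quotient.eq
  have hp : 0 < (orbit A a).ncard := (Set.ncard_pos (Set.toFinite _)).2 ⟨a, mem_orbit_self a⟩
  refine Nat.le_of_mul_le_mul_right ?_ hp
  rw [Finset.sum_mul, mul_comm, ← smul_eq_mul]
  nth_rewrite 1 [← e]
  refine Finset.card_nsmul_le_sum _ _ _ fun x hx => ?_
  rw [← orbit_eq_iff.2 (Quotient.exact (Finset.mem_filter.1 hx).2)]
  exact h x

theorem add_choose_two (s t : ℕ) : (s + t).choose 2 = s.choose 2 + t.choose 2 + t * s := by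
  induction t with
  | zero => simp
  | succ t ih => rw [← add_assoc, Nat.choose_succ_succ' (s + t) 1, Nat.choose_succ_succ' t 1, ih]; simp; ring

theorem caseA {G : Type*} [Group G] [Finite G] (h1 : Nat.card G ≠ 1)
    (h : (Nat.card G).minFac + 1 ≤ Nat.card (commutator G)) :
    Nat.card (ConjClasses G) * (Nat.card G).minFac ≤ Nat.card G := by
  classical
  have hp := (Nat.minFac_prime h1).two_le
  rw [← Char.card_irr_eq_card_conjClasses]
  have e1 := Char.sum_charDegree_sq (G := G)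
  have e2 := Char.card_linear_irr (G := G)
  have e3 := (commutator G).index_mul_card
  rw [Nat.card_eq_fintype_card, Fintype.card_subtype] at e2
  rw [← Finset.sum_filter_add_sum_filter_not Finset.univ fun χ : IrrCharacter G => (χ : G → ℂ) 1 = 1] at e1
  have e4 := Finset.card_filter_add_card_filter_not (s := Finset.univ) fun χ : IrrCharacter G => (χ : G → ℂ) 1 = 1
  have e5 := Finset.card_nsmul_le_sum (Finset.univ.filter fun χ : IrrCharacter G => (χ : G → ℂ) 1 = 1)
    (fun χ => charDegree (χ : G → ℂ) ^ 2) 1 fun χ _ => pow_pos (Char.IsIrrCharacter.charDegree_pos χ.2) 2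
  have e6 := Finset.card_nsmul_le_sum (Finset.univ.filter fun χ : IrrCharacter G => ¬ (χ : G → ℂ) 1 = 1)
    (fun χ => charDegree (χ : G → ℂ) ^ 2) ((Nat.card G).minFac ^ 2) fun χ hχ => by
      refine Nat.pow_le_pow_left (Nat.minFac_le_of_dvd ?_ (Char.IsIrrCharacter.charDegree_dvd_card χ.2)) 2
      have := Char.IsIrrCharacter.charDegree_pos χ.2
      have : charDegree (χ : G → ℂ) ≠ 1 := fun e => (Finset.mem_filter.1 hχ).2 (by
        rw [(Char.IsIrrCharacter.isCharacter χ.2).apply_one_eq_charDegree, e, Nat.cast_one])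
      omega
  rw [Nat.card_eq_fintype_card (α := IrrCharacter G), ← Finset.card_univ, ← e4, e2]
  rw [e2] at e5
  simp only [smul_eq_mul] at e5 e6
  generalize (Nat.card G).minFac = p at *
  obtain ⟨q, rfl⟩ : ∃ q, p = q + 1 := ⟨p - 1, by omega⟩
  have := Nat.mul_le_mul_left (commutator G).index h
  refine Nat.le_of_mul_le_mul_right ?_ (show 0 < q + 1 by omega)
  nlinarith [Nat.mul_le_mul_left q this]

section
variable {G : Type*} [Group G] [Finite G] {p : ℕ} [hp : Fact p.Prime] {c : G} (oc : orderOf c = p)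
  (hc : ∀ g, Commute c g) (hd : ∀ x y : G, ⁅x, y⁆ ∈ zpowers c)
include oc hc hd

omit [Finite G] hp oc in
theorem cc (x y g : G) : Commute ⁅x, y⁆ g := by
  obtain ⟨k, hk⟩ := mem_zpowers_iff.1 (hd x y)
  rw [← hk]; exact (hc g).zpow_left k

omit [Finite G] hp in
theorem powZ (x : G) : x ^ p ∈ center G := mem_center_iff.2 fun g => by
  obtain ⟨k, hk⟩ := mem_zpowers_iff.1 (hd x g)
  rw [eq_comm, ← commutatorElement_eq_one_iff_mul_comm, commutator_pow_left (cc hc hd _ _ _), ← hk, ← zpow_natCast,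
    ← zpow_mul, mul_comm, zpow_mul, zpow_natCast, ← oc, pow_orderOf_eq_one, one_zpow]

theorem exists_a {x y : G} (hxy : ¬ Commute x y) (hΩ : ∀ z ∈ center G, z ^ p = 1 → z ∈ zpowers c) :
    ∃ a, a ∉ center G ∧ a ^ p = c ^ p.choose 2 := by
  have cZ : c ∈ center G := mem_center_iff.2 fun g => (hc g).symm
  let P : center G →* G := MonoidHom.mk' (fun z => (z : G) ^ p) fun a b =>
    (show Commute (a : G) b from mem_center_iff.1 b.2 a).mul_pow p
  have hP : ∀ z : center G, P z = (z : G) ^ p := fun z => rfl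
  have hY : P.range ≤ center G := by rintro _ ⟨z, rfl⟩; exact pow_mem z.2 p
  have hk : Nat.card P.ker = p := by
    rw [← oc, ← Nat.card_zpowers, ← card_map_of_injective (subtype_injective _)]
    congr 2
    refine le_antisymm ?_ (zpowers_le.2 ⟨⟨c, cZ⟩, show c ^ p = 1 by rw [← oc, pow_orderOf_eq_one], rfl⟩)
    rintro _ ⟨z, hz, rfl⟩; exact hΩ z z.2 hz
  have hi : P.range.relIndex (center G) = p := by
    have e1 := card_mul_relIndex hY
    have e2 := P.ker.index_mul_card
    rw [index_ker, hk, ← e1] at e2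
    exact (Nat.eq_of_mul_eq_mul_left Nat.card_pos e2).symm
  have hm := p_index_maximal hY (hi ▸ hp.out)
  have gen : ∀ t ∈ center G, t ∉ P.range → ∀ z ∈ center G, ∃ u ∈ P.range, ∃ i : ℤ, u * t ^ i = z := fun t ht h z hz =>
    (mem_sup_zpowers (mem_normalizer_iff.2 fun v => by rw [← mem_center_iff.1 ht, mul_inv_cancel_right])).1
      ((hm.sup_eq (zpowers_le.2 ht) (by rwa [zpowers_le])).ge hz)
  have nx : x ∉ center G := fun h => hxy (mem_center_iff.1 h y).symm
  have ny : y ∉ center G := fun h => hxy (mem_center_iff.1 h x)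
  suffices H : ∃ a, a ∉ center G ∧ a ^ p * (c ^ p.choose 2)⁻¹ ∈ P.range by
    obtain ⟨a, ha, u, hu⟩ := H
    refine ⟨a * (u : G)⁻¹, fun h => ha (by simpa using mul_mem h u.2), ?_⟩
    rw [(show Commute a (u : G)⁻¹ from mem_center_iff.1 (inv_mem u.2) a).mul_pow, inv_pow, ← hP, hu, mul_inv_rev,
      inv_inv, ((hc _).pow_left _).eq, mul_inv_cancel_left]
  have mp : ∀ a b : G, ∃ k : ℤ, (a * b) ^ p = (c ^ p.choose 2) ^ k * (a ^ p * b ^ p) ∧ ⁅b, a⁆ = c ^ k := fun a b => by
    obtain ⟨k, hk⟩ := mem_zpowers_iff.1 (hd b a)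
    refine ⟨k, ?_, hk.symm⟩
    rw [mul_pow_of_commute_commutator (cc hc hd _ _ _) (cc hc hd _ _ _), ← hk, ← zpow_natCast, ← zpow_mul, mul_comm k,
      zpow_mul, zpow_natCast]
  by_cases h : c ^ p.choose 2 ∈ P.range
  · by_cases hx : x ^ p ∈ P.range
    · exact ⟨x, nx, mul_mem hx (inv_mem h)⟩
    obtain ⟨u, hu, i, e⟩ := gen _ (powZ oc hc hd x) hx _ (powZ oc hc hd y)
    obtain ⟨k, hk, -⟩ := mp y (x ^ (-i))
    refine ⟨y * x ^ (-i), fun h => hxy ?_, mul_mem ?_ (inv_mem h)⟩
    · have := (show Commute x (y * x ^ (-i)) from mem_center_iff.1 h x).mul_right ((Commute.refl x).zpow_right i)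
      simpa using this
    · rw [hk, ← e, ← zpow_natCast (x ^ (-i)), ← zpow_mul, mul_comm (-i), zpow_mul, zpow_natCast, mul_assoc u,
        ← zpow_add, add_neg_cancel, zpow_zero, mul_one]
      exact mul_mem (zpow_mem h k) hu
  obtain rfl : p = 2 := by
    by_contra h2
    exact h (by rw [orderOf_dvd_iff_pow_eq_one.1 (by rw [oc]; exact dvd_choose_two hp.out h2)]; exact one_mem _)
  rw [Nat.choose_self, pow_one] at h mp ⊢
  have ev : ∀ k : ℤ, c ^ (2 * k) = 1 := fun k => by
    rw [zpow_mul, show c ^ (2 : ℤ) = 1 by rw [← pow_orderOf_eq_one c, oc]; exact zpow_natCast c 2, one_zpow]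
  have alt : ∀ a : G, a ^ 2 ∈ P.range ∨ a ^ 2 * c⁻¹ ∈ P.range := fun a => by
    obtain ⟨u, hu, i, e⟩ := gen c cZ h _ (powZ oc hc hd a)
    rcases Int.even_or_odd' i with ⟨k, rfl | rfl⟩
    · left; rwa [← e, ev, mul_one]
    · right; rwa [← e, zpow_add_one, ev, one_mul, mul_inv_cancel_right]
  rcases alt x with h1 | h1
  swap; · exact ⟨x, nx, h1⟩
  rcases alt y with h2 | h2
  swap; · exact ⟨y, ny, h2⟩
  refine ⟨x * y, fun h => hxy ?_, ?_⟩
  · simpa using ((Commute.refl x).inv_right).mul_right (show Commute x (x * y) from mem_center_iff.1 h x)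
  · obtain ⟨k, hk, e⟩ := mp x y
    rcases Int.even_or_odd' k with ⟨j, rfl | rfl⟩
    · exact absurd (commutatorElement_eq_one_iff_commute.1 (e.trans (ev j))).symm hxy
    · rw [hk, zpow_add_one, ev, one_mul, (hc _).eq, mul_inv_cancel_right]; exact mul_mem h1 h2

theorem exists_f {x y : G} (hxy : ¬ Commute x y) : ∃ (b : G) (f : ℕ → G), b ∉ center G ∧ f 0 = 1 ∧ f p = 1 ∧
    (∀ s t g, ⁅g, b⁆ = c ^ t → f s * g * f t = g * f (s + t)) ∧ (∀ s, Commute (f s) b) ∧
    (∀ s, f s ∈ zpowers c → p ∣ s) ∧ ∀ s, f s ^ p ∈ zpowers c := by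
  have key : ∀ a : G, a ∉ zpowers c → a ^ p ∈ zpowers c → ∀ s : ℕ, a ^ s ∈ zpowers c → p ∣ s := fun a h1 h2 s h3 =>
    Int.natCast_dvd_natCast.1 (dvd_of_zpow_mem hp.out h1 h2 (by rwa [zpow_natCast]))
  by_cases hΩ : ∀ z ∈ center G, z ^ p = 1 → z ∈ zpowers c
  · obtain ⟨a, ha, e⟩ := exists_a oc hc hd hxy hΩ
    have cZ : zpowers c ≤ center G := zpowers_le.2 (mem_center_iff.2 fun g => (hc g).symm)
    refine ⟨a, fun s => a ^ s * (c ^ s.choose 2)⁻¹, ha, by simp, by simp [e], fun s t g hg => ?_,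
      fun s => ((Commute.refl a).pow_left s).mul_left ((hc a).pow_left _).inv_left, fun s hs => ?_, fun s => ?_⟩
    · have e1 : ⁅g, a ^ s⁆ = (c ^ t) ^ s := by rw [commutator_pow_right (cc hc hd _ _ _), hg]
      have e2 : a ^ s * g = ((c ^ t) ^ s)⁻¹ * (g * a ^ s) := by rw [← e1, commutatorElement_def]; group
      have cm : ∀ (n : ℕ) (u : G), (c ^ n)⁻¹ * u = u * (c ^ n)⁻¹ := fun n u => ((hc u).pow_left n).inv_left
      show a ^ s * (c ^ s.choose 2)⁻¹ * g * (a ^ t * (c ^ t.choose 2)⁻¹) = g * (a ^ (s + t) * (c ^ (s + t).choose 2)⁻¹)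
      rw [mul_assoc (a ^ s), cm, ← mul_assoc (a ^ s), e2, ← pow_mul, cm, add_choose_two, pow_add a]
      simp only [mul_assoc]
      rw [← mul_assoc (c ^ s.choose 2)⁻¹, cm _ (a ^ t), ← mul_assoc (c ^ (t * s))⁻¹, ← mul_assoc (c ^ (t * s))⁻¹,
        cm _ (a ^ t)]
      group
    · refine key a (fun h => ha (cZ h)) (e ▸ pow_mem (mem_zpowers c) _) s ?_
      simpa using mul_mem hs (pow_mem (mem_zpowers c) (s.choose 2))
    · rw [(((hc _).pow_left _).inv_left.symm).mul_pow, ← pow_mul, mul_comm s, pow_mul, e]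
      exact mul_mem (pow_mem (pow_mem (mem_zpowers c) _) _) (pow_mem (inv_mem (pow_mem (mem_zpowers c) _)) _)
  · push Not at hΩ
    obtain ⟨a, ha, e, h⟩ := hΩ
    refine ⟨x, fun s => a ^ s, fun h => hxy (mem_center_iff.1 h y).symm, by simp, e, fun s t g _ => ?_,
      fun s => (mem_center_iff.1 (pow_mem ha s) x).symm, key a h (by rw [e]; exact one_mem _),
      fun s => by rw [← pow_mul, mul_comm s, pow_mul, e, one_pow]; exact one_mem _⟩
    show a ^ s * g * a ^ t = g * a ^ (s + t)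
    rw [← mem_center_iff.1 (pow_mem ha s) g, pow_add, mul_assoc]

theorem orb1 {x : G} (hx : x ∉ center G) {z : G} (hz : z ∈ zpowers c) : ∃ g : G, g * x * g⁻¹ = z * x := by
  obtain ⟨y, hy⟩ : ∃ y, ⁅y, x⁆ ≠ 1 := by
    by_contra! h
    exact hx (mem_center_iff.2 fun g => commutatorElement_eq_one_iff_mul_comm.1 (h g))
  have : zpowers ⁅y, x⁆ = zpowers c := by
    refine eq_of_le_of_card_ge (zpowers_le.2 (hd y x)) ?_
    have := card_dvd_of_le (zpowers_le.2 (hd y x))
    rw [Nat.card_zpowers c, oc] at this ⊢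
    rcases (Nat.dvd_prime hp.out).1 this with h | h
    · exact absurd (zpowers_eq_bot.1 (card_eq_one.1 h)) hy
    · exact h.ge
  obtain ⟨k, rfl⟩ := mem_zpowers_iff.1 (this ▸ hz)
  exact ⟨y ^ k, by rw [← commutator_zpow_left (cc hc hd _ _ _), commutatorElement_def]; group⟩

theorem orb2 {x y : G} (hxy : ¬ Commute x y) : ∃ b, b ∉ center G ∧ ∀ g, g ∉ C1[b] →
    p * p ≤ (orbit (MulAut G) g).ncard := by
  obtain ⟨b, f, hb, f0, fp, fm, fb, fc, fq⟩ := exists_f oc hc hd hxy
  have hl : ∀ g : G, ∃ t : ℕ, ⁅g, b⁆ = c ^ t := fun g =>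
    (mem_powers_iff_mem_zpowers.2 (hd g b) : ∃ t : ℕ, c ^ t = _).imp fun _ h => h.symm
  choose l hl using hl
  have per : ∀ k s, f (s + p * k) = f s := fun k s => by
    induction k with
    | zero => rfl
    | succ k ih =>
      have := fm (s + p * k) p 1 (by rw [← oc, pow_orderOf_eq_one]; simp)
      rw [fp, mul_one, mul_one, one_mul, ih] at this
      rw [mul_add, mul_one, ← add_assoc, this]
  have fe : ∀ s t, c ^ s = c ^ t → f s = f t := fun s t h => by
    rw [pow_eq_pow_iff_modEq, oc] at h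
    rw [← Nat.mod_add_div s p, ← Nat.mod_add_div t p, per, per, h]
  let φ : G →* G := MonoidHom.mk' (fun g => g * f (l g)) fun g h => by
    rw [fe (l (g * h)) (l g + l h) (by rw [← hl, commutator_mul_left (cc hc hd _ _ _), hl, hl, ← pow_add, add_comm]),
      mul_assoc, ← fm _ _ h (hl h)]
    group
  have hφ : Function.Injective φ := (injective_iff_map_eq_one φ).2 fun g hg => by
    have hg : g * f (l g) = 1 := hg
    have h1 : Commute g b := by rw [eq_inv_of_mul_eq_one_left hg]; exact (fb _).inv_left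
    rwa [fe (l g) 0 (by rw [← hl, pow_zero, commutatorElement_eq_one_iff_commute]; exact h1), f0, mul_one] at hg
  let α : MulAut G := MulEquiv.ofBijective φ ⟨hφ, Finite.injective_iff_surjective.1 hφ⟩
  refine ⟨b, hb, fun g hg => ?_⟩
  have hu : f (l g) ∉ zpowers c := fun h => hg (by
    obtain ⟨k, hk⟩ := fc _ h
    rw [mem_cent1, ← commutatorElement_eq_one_iff_mul_comm, hl, hk, pow_mul, ← oc, pow_orderOf_eq_one, one_pow])
  have hα : ∀ k : ℕ, (α ^ k) g = g * f (l g) ^ k := fun k => by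
    induction k with
    | zero => simp
    | succ k ih =>
      rw [pow_succ', MulAut.mul_apply, ih, pow_succ, ← mul_assoc]
      show _ * f (l _) = _
      rw [fe (l (g * f (l g) ^ k)) (l g) (by rw [← hl, ← hl, commutator_mul_left (cc hc hd _ _ _),
        commutatorElement_eq_one_iff_commute.2 ((fb _).pow_left k), one_mul])]
  have nu : f (l g) ∈ N[zpowers c] := cent_sub _ (mem_cent.2 fun v hv => by
    obtain ⟨k, rfl⟩ := mem_zpowers_iff.1 hv; exact (hc _).zpow_left k)
  have e := card_sup_zpowers hp.out nu hu (fq _)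
  rw [Nat.card_zpowers, oc] at e
  rw [← e, ← Nat.card_coe_set_eq]
  refine Nat.card_le_card_of_injective (fun u => (⟨g * u, ?_⟩ : orbit (MulAut G) g)) fun u v h =>
    Subtype.ext (mul_left_cancel (congrArg Subtype.val h))
  obtain ⟨z, hz, i, e⟩ := (mem_sup_zpowers nu).1 u.2
  obtain ⟨k, hk⟩ := (mem_powers_iff_mem_zpowers.2 (zpow_mem (mem_zpowers (f (l g))) i) : ∃ k : ℕ, _ ^ k = _)
  obtain ⟨v, hv⟩ := orb1 oc hc hd (x := (α ^ k) g) (fun h => hg (by
    have := ((fb (l g)).pow_left k).inv_left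
    rw [hα] at h
    exact mem_cent1.2 (by
      simpa using (show Commute (g * f (l g) ^ k) b from (mem_center_iff.1 h b).symm).mul_left this : Commute g b))) hz
  refine ⟨MulAut.conj v * α ^ k, ?_⟩
  obtain ⟨j, rfl⟩ := mem_zpowers_iff.1 hz
  show v * (α ^ k) g * v⁻¹ = _
  rw [hv, hα, show f (l g) ^ k = _ from hk, ← e, ← mul_assoc, ← mul_assoc, ((hc g).zpow_left j).eq]

end

/-- A non-abelian finite group has at most `#G/p` automorphism orbits. -/
theorem result {G : Type*} [Group G] [Finite G] (hna : ¬ IsMulCommutative G) :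
    Nat.card (MulAction.orbitRel.Quotient (MulAut G) G) ≤ Nat.card G / (Nat.card G).minFac := by
  classical
  obtain ⟨x, y, hxy⟩ : ∃ x y : G, ¬ Commute x y := by
    by_contra! h; exact hna ⟨⟨h⟩⟩
  have h1 : Nat.card G ≠ 1 := fun h => hxy (by
    have := (Nat.card_eq_one_iff_unique.1 h).1; exact Subsingleton.elim _ _)
  have hp := Nat.minFac_prime h1
  rw [Nat.le_div_iff_mul_le hp.pos]
  by_cases h : (Nat.card G).minFac + 1 ≤ Nat.card (commutator G)
  · refine le_trans (Nat.mul_le_mul_right _ ?_) (caseA h1 h)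
    refine Nat.card_le_card_of_surjective (Quotient.map' id fun a b hab => ?_ :
      ConjClasses G → orbitRel.Quotient (MulAut G) G) fun q => ?_
    · obtain ⟨g, hg⟩ := isConj_iff.1 (IsConj.symm hab)
      exact ⟨MulAut.conj g, hg⟩
    · induction q using Quotient.inductionOn with
      | h a => exact ⟨ConjClasses.mk a, rfl⟩
  have c1 : ⁅x, y⁆ ≠ 1 := fun e => hxy (commutatorElement_eq_one_iff_commute.1 e)
  have cm : ∀ a b : G, ⁅a, b⁆ ∈ commutator G := fun a b => commutator_mem_commutator (mem_top a) (mem_top b)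
  have mf : ∀ d, d ∣ Nat.card G → d ≠ 1 → (Nat.card G).minFac ≤ d := fun d hd h =>
    Nat.minFac_le_of_dvd (by have := Nat.pos_of_dvd_of_pos hd Nat.card_pos; omega) hd
  have o1 := mf _ (orderOf_dvd_natCard ⁅x, y⁆) (by simpa using c1)
  have o2 := card_le_of_le (zpowers_le.2 (cm x y))
  rw [Nat.card_zpowers] at o2
  have e : zpowers ⁅x, y⁆ = commutator G := eq_of_le_of_card_ge (zpowers_le.2 (cm x y)) (by rw [Nat.card_zpowers]; omega)
  have oc : orderOf ⁅x, y⁆ = (Nat.card G).minFac := by omega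
  have hc : ∀ g, Commute ⁅x, y⁆ g := fun g => mem_cent.1 (Frob.cent_of_minFac (H := ⊤) (P := commutator G)
    (by rw [card_top]; omega) (by rwa [card_top]) (norm_of_normal _ _) (mem_top g)) _ (cm x y)
  have hd : ∀ a b : G, ⁅a, b⁆ ∈ zpowers ⁅x, y⁆ := fun a b => e ▸ cm a b
  have := Fact.mk hp
  obtain ⟨b, hb, hb'⟩ := orb2 oc hc hd hxy
  have hZM : center G ≤ C1[b] := fun z hz => mem_cent1.2 (mem_center_iff.1 hz b).symm
  have i1 : (Nat.card G).minFac ≤ (center G).relIndex C1[b] := mf _ ((relIndex_dvd_card _ _).trans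
    (card_subgroup_dvd_card _)) fun e => hb (relIndex_eq_one.1 e (cent1_self b))
  have i2 : (Nat.card G).minFac ≤ C1[b].index := mf _ (index_dvd_card _) fun e => hb (mem_center_iff.2 fun g =>
    mem_cent1.1 (index_eq_one.1 e ▸ mem_top g))
  have i3 := card_mul_relIndex hZM
  have i4 := C1[b].card_mul_index
  generalize (Nat.card G).minFac = p at *
  let _ := Fintype.ofFinite G
  obtain ⟨q, rfl⟩ : ∃ q, p = q + 1 := ⟨p - 1, by have := hp.pos; omega⟩
  have hw := count (A := MulAut G) ((q + 1) * (q + 1))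
    (fun g : G => 1 + (if g ∈ C1[b] then q else 0) + if g ∈ center G then q * (q + 1) else 0) fun g => by
      by_cases h1 : g ∈ center G
      · have : 0 < (orbit (MulAut G) g).ncard := (Set.ncard_pos (Set.toFinite _)).2 ⟨g, mem_orbit_self g⟩
        simp only [h1, hZM h1, if_true]; nlinarith
      by_cases h2 : g ∈ C1[b]
      · simp only [h1, h2, if_true, if_false, add_zero, add_comm 1 q]
        refine Nat.mul_le_mul_left _ ?_
        rw [← oc, ← Nat.card_zpowers, ← Nat.card_coe_set_eq]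
        refine Nat.card_le_card_of_injective (fun u => (⟨u * g, ?_⟩ : orbit (MulAut G) g)) fun u v h =>
          Subtype.ext (mul_right_cancel (congrArg Subtype.val h))
        obtain ⟨v, hv⟩ := orb1 oc hc hd h1 u.2
        exact ⟨MulAut.conj v, hv⟩
      · simpa [h1, h2] using hb' g h2
  have cf : ∀ H : Subgroup G, (Finset.univ.filter fun g => g ∈ H).card = #H := fun H => by
    rw [Nat.card_eq_fintype_card, Fintype.card_subtype]
  simp only [Finset.sum_add_distrib, ← Finset.sum_filter, Finset.sum_const, cf, smul_eq_mul, mul_one, Finset.card_univ,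
    ← Nat.card_eq_fintype_card] at hw
  rw [show (Finset.univ.filter fun g => g ∈ center G).card = #(center G) by convert cf _] at hw
  have j1 := Nat.mul_le_mul_left (#(center G)) i1
  have j2 := Nat.mul_le_mul_left (#C1[b]) i2
  rw [i3] at j1
  rw [i4] at j2
  have hq : 1 ≤ q := by have := hp.two_le; omega
  refine Nat.le_of_mul_le_mul_right ?_ (show 0 < q + 1 by omega)
  nlinarith [Nat.mul_le_mul_left q j1, Nat.mul_le_mul_left q j2, Nat.mul_le_mul_left (q * #C1[b]) hq]

end Cfsg.Agent.S4067
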