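import Cfsg.Statements.S4068
import Cfsg.Agent.AB.CA2
import Cfsg.Agent.FTC.Aniso
import Cfsg.Agent.Char.Burnside
import Cfsg.Agent.S0252
import Cfsg.Agent.Classical.SL2Torus
import Cfsg.Agent.Classical.PSL2Basic

set_option autoImplicit false
open Cfsg

namespace Cfsg.Agent.S4068

open Subgroup

theorem of_prime_orders {G : Type*} [Group G] [Finite G] (hns : ¬ Group.IsSolvable G)
    (ho : ∀ g : G, g = 1 ∨ (orderOf g).Prime) : Nonempty (G ≃* alternatingGroup (Fin 5)) := by
  obtain ⟨T⟩ : Nonempty (Sylow 2 G) := inferInstance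
  have h2 : 2 ∣ Nat.card G := by
    by_contra h; exact hns (FTC.solvable_of_odd (Nat.not_even_iff_odd.1 fun e => h e.two_dvd))
  have hnc : ¬ IsCyclic (T : Subgroup G) := fun h => hns (FTC.solvable_of_normalizer_le_centralizer T
    (h.normalizer_le_centralizer ((Nat.minFac_eq_two_iff _).2 h2)))
  have hnn : ¬ (T : Subgroup G).Normal := fun h => hns (FTC.solvable_of_normal_two _ T.isPGroup' T.not_dvd_index)
  have hsq : ∀ t : G, orderOf t = 2 → ∀ c ∈ centralizer ({t} : Set G), c ^ 2 = 1 := by
    intro t ht c hc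
    rcases ho c with rfl | h
    · simp
    by_cases h' : orderOf c = 2
    · rw [← h', pow_orderOf_eq_one]
    have hcop : (orderOf c).Coprime (orderOf t) := by rw [ht]; exact (Nat.coprime_primes h Nat.prime_two).2 h'
    have e := (show Commute c t from mem_centralizer_singleton_iff.1 hc).orderOf_mul_eq_mul_orderOf_of_coprime hcop
    rcases ho (c * t) with h1 | h1
    · rw [h1, orderOf_one, ht] at e; omega
    · rw [e, ht] at h1
      exact absurd h1 (Nat.not_prime_mul h.ne_one (by norm_num))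
  obtain ⟨h, t, ht, -⟩ := AB.ea_of_sylow T hnc hnn fun t ht => ⟨⟨⟨fun a b => by
    have h1 : ∀ x : centralizer ({t} : Set G), x⁻¹ = x := fun x =>
      inv_eq_of_mul_eq_one_left (Subtype.ext (by rw [← sq]; exact hsq t ht x x.2))
    rw [← h1 (a * b), mul_inv_rev, h1, h1]⟩⟩, hsq t ht⟩
  obtain ⟨F, _, _, hF, hF2, ⟨f⟩⟩ := h.equiv_SL ht
  have hlt := h.two_lt ht
  have key : ∀ n : ℕ, (∃ x : Matrix.SpecialLinearGroup (Fin 2) F, orderOf x = n) → n = 1 ∨ n.Prime := by
    rintro n ⟨x, rfl⟩
    rw [← f.symm.orderOf_eq x]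
    exact (ho (f.symm x)).imp (fun e => by rw [e, orderOf_one]) id
  obtain ⟨a, ha, -⟩ := Classical.exists_dSL_generator (F := F)
  obtain ⟨b, hb, -⟩ := Classical.sl_exists_orderOf_succ (F := F)
  have k1 := key _ ⟨_, ha⟩
  have k2 := key _ ⟨_, hb⟩
  rw [← hF] at hlt
  rw [Nat.card_eq_fintype_card] at k1 k2
  have h3 : ¬ 3 ∣ Fintype.card F := by
    haveI : CharP F 2 := (CharP.charP_iff_prime_eq_zero Nat.prime_two).2 hF2
    obtain ⟨n, -, hn⟩ := FiniteField.card F 2
    rw [hn]
    intro hd
    have := Nat.le_of_dvd two_pos (Nat.prime_three.dvd_of_dvd_pow hd)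
    omega
  have h4 : Fintype.card F = 4 := by
    rcases (by omega : 3 ∣ Fintype.card F - 1 ∨ 3 ∣ Fintype.card F + 1) with h5 | h5
    · rcases k1 with k | k
      · omega
      · have := (Nat.prime_dvd_prime_iff_eq Nat.prime_three k).1 h5; omega
    · rcases k2 with k | k
      · omega
      · have := (Nat.prime_dvd_prime_iff_eq Nat.prime_three k).1 h5; omega
  obtain ⟨e⟩ := S0252.result h4
  exact ⟨(f.trans (Classical.slEquivPSL hF2)).trans e⟩

/-- A finite non-solvable group on which its automorphism group has exactly four orbits is isomorphic to the alternating group of degree 5. -/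
theorem result {G : Type*} [Group G] [Finite G] (hns : ¬ Group.IsSolvable G)
    (h4 : Nat.card (MulAction.orbitRel.Quotient (MulAut G) G) = 4) : Nonempty (G ≃* alternatingGroup (Fin 5)) := by
  classical
  refine of_prime_orders hns fun g => ?_
  have h2 : 2 ∣ Nat.card G := by
    by_contra h; exact hns (FTC.solvable_of_odd (Nat.not_even_iff_odd.1 fun e => h e.two_dvd))
  have ex : ∀ p : ℕ, ∃ r : ℕ, r.Prime ∧ r ∣ Nat.card G ∧ r ≠ 2 ∧ r ≠ p := fun p => by
    by_contra h
    push Not at h
    exact hns (Char.isSolvable_of_two_primes (p := 2) (q := p) fun r hr hd => or_iff_not_imp_left.2 (h r hr hd))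
  obtain ⟨p, hp, p1, p2, -⟩ := ex 0
  obtain ⟨r, hr, r1, r2, r3⟩ := ex p
  by_contra hg
  push Not at hg
  let f : MulAction.orbitRel.Quotient (MulAut G) G → ℕ := Quotient.lift orderOf (by
    rintro a b ⟨φ, rfl⟩; exact φ.orderOf_eq b)
  haveI := Fintype.ofFinite (MulAction.orbitRel.Quotient (MulAut G) G)
  have hsub : ({1, 2, p, r, orderOf g} : Finset ℕ) ⊆ Finset.univ.image f := by
    have : ∀ q : ℕ, q.Prime → q ∣ Nat.card G → q ∈ Finset.univ.image f := fun q hq hd => by
      haveI := Fact.mk hq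
      obtain ⟨x, hx⟩ := exists_prime_orderOf_dvd_card' q hd
      exact Finset.mem_image.2 ⟨Quotient.mk _ x, Finset.mem_univ _, hx⟩
    simp only [Finset.insert_subset_iff, Finset.singleton_subset_iff]
    exact ⟨Finset.mem_image.2 ⟨Quotient.mk _ 1, Finset.mem_univ _, orderOf_one⟩, this 2 Nat.prime_two h2,
      this p hp p1, this r hr r1, Finset.mem_image.2 ⟨Quotient.mk _ g, Finset.mem_univ _, rfl⟩⟩
  have h5 := (Finset.card_le_card hsub).trans Finset.card_image_le
  have a1 : orderOf g ≠ 1 := by simpa using hg.1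
  have a2 : orderOf g ≠ 2 := fun e => hg.2 (e ▸ Nat.prime_two)
  have a3 : orderOf g ≠ p := fun e => hg.2 (e ▸ hp)
  have a4 : orderOf g ≠ r := fun e => hg.2 (e ▸ hr)
  have := hp.ne_one
  have := hr.ne_one
  rw [Finset.card_univ, ← Nat.card_eq_fintype_card, h4, Finset.card_insert_of_notMem (by simp; omega),
    Finset.card_insert_of_notMem (by simp; omega), Finset.card_insert_of_notMem (by simp; omega),
    Finset.card_insert_of_notMem (by simp; omega)] at h5
  simp at h5

end Cfsg.Agent.S4068
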