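import Cfsg.Statements.S4070
import Cfsg.Agent.CH.Dl9

set_option autoImplicit false
open Cfsg

namespace Cfsg.Agent.S4070

/-- Let G be a finite solvable group acting faithfully by additive automorphisms on a finite vector space V over the field with p elements, completely reducibly (every G-invariant subspace has a G-invariant complement). Then some vector v ∈ V has stabilizer C_G(v) of derived length at most 9; and if both #G and p are odd, some vector has abelian stabilizer. -/
theorem result {G V : Type*} [Group G] [Finite G] [Group.IsSolvable G]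
    {p : ℕ} [Fact p.Prime] [AddCommGroup V] [Module (ZMod p) V] [Finite V] [DistribMulAction G V] [FaithfulSMul G V]
    (hcr : ∀ W : Submodule (ZMod p) V, (∀ (g : G) (w : V), w ∈ W → g • w ∈ W) →
      ∃ W' : Submodule (ZMod p) V, (∀ (g : G) (w : V), w ∈ W' → g • w ∈ W') ∧ IsCompl W W') :
    (∃ v : V, derivedSeries ↥(MulAction.stabilizer G v) 9 = ⊥) ∧
    (Odd (Nat.card G) → p ≠ 2 → ∃ v : V, IsMulCommutative ↥(MulAction.stabilizer G v)) := by
  have h0 : ∀ U : AddSubgroup V, CH.Reg.Inv G U → ∃ W, CH.Reg.Inv G W ∧ IsCompl U W := fun U hU => by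
    obtain ⟨W, h1, h2⟩ := hcr (AddSubgroup.toZModSubmodule p U) hU
    exact ⟨(AddSubgroup.toZModSubmodule p).symm W, h1, by
      simpa using (AddSubgroup.toZModSubmodule p).symm.isCompl h2⟩
  refine ⟨?_, fun hG hp => ?_⟩
  · obtain ⟨v, hv⟩ := CH.Kc.transport h0 9 fun G' V' _ _ _ _ _ φ _ h => by
      haveI := Group.isSolvable_of_surjective (f := φ.symm.toMonoidHom) φ.symm.surjective
      exact CH.Kc.main1 h
    refine ⟨v, (Subgroup.map_eq_bot_iff_of_injective _ (Subgroup.subtype_injective _)).1 ?_⟩
    rw [CH.Kc.derived_eq]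
    exact le_bot_iff.1 hv
  · obtain ⟨v, hv⟩ := CH.Kc.transport h0 1 fun G' V' _ _ _ _ _ φ hV h => by
      haveI := Group.isSolvable_of_surjective (f := φ.symm.toMonoidHom) φ.symm.surjective
      refine CH.Kc.main2 h (Nat.card_congr φ.toEquiv ▸ hG) ?_
      rw [hV, Module.natCard_eq_pow_finrank (K := ZMod p), Nat.card_zmod]
      exact ((Fact.out : p.Prime).odd_of_ne_two hp).pow
    exact ⟨v, ⟨⟨fun a b => Subtype.ext (commutatorElement_eq_one_iff_mul_comm.1
      (hv (Subgroup.commutator_mem_commutator a.2 b.2)))⟩⟩⟩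

end Cfsg.Agent.S4070
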