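import Cfsg.Statements.S4071
import Cfsg.Agent.BG.Base6
import Cfsg.Agent.Solv.Frattini
import Cfsg.Agent.SolvStr.Frattini

set_option autoImplicit false
open Cfsg

namespace Cfsg.Agent.S4071

open Subgroup
open scoped commutatorElement

theorem key {G : Type*} [Group G] [Finite G] {A H : Subgroup G} [hA : A.Normal]
    [IsMulCommutative A] {h : G} (hh : h ∈ H) (hc : ∀ a ∈ A, h * a * h⁻¹ = a → a = 1)
    (hg : ∀ g : G, ∃ b ∈ A, ∃ j : ℤ, g = b * h ^ j) : normalizer (H : Set G) = H := by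
  refine le_antisymm (fun g hgN => ?_) le_normalizer
  obtain ⟨b, hb, j, rfl⟩ := hg g
  have hbN : b ∈ normalizer (H : Set G) := by
    have := mul_mem hgN (inv_mem (le_normalizer (zpow_mem hh j)))
    simpa using this
  have hcomm : ∀ a ∈ A, ∀ c ∈ A, a * c = c * a := fun a ha c hc =>
    congrArg Subtype.val (mul_comm' (⟨a, ha⟩ : A) ⟨c, hc⟩)
  have hmem : ∀ c ∈ A, c * (h * c⁻¹ * h⁻¹) ∈ A := fun c hc =>
    mul_mem hc (hA.conj_mem _ (inv_mem hc) h)
  have hinj : ∀ c ∈ A, ∀ d ∈ A, c * (h * c⁻¹ * h⁻¹) = d * (h * d⁻¹ * h⁻¹) → c = d := by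
    intro c hc' d hd e
    have h1 : h * (d⁻¹ * c) * h⁻¹ = d⁻¹ * c := by
      have e2 : d⁻¹ * c = (h * d⁻¹ * h⁻¹) * (h * c * h⁻¹) := by
        calc d⁻¹ * c = d⁻¹ * (c * (h * c⁻¹ * h⁻¹)) * (h * c * h⁻¹) := by group
          _ = _ := by rw [e]; group
      calc _ = (h * d⁻¹ * h⁻¹) * (h * c * h⁻¹) := by group
        _ = _ := e2.symm
    have := hc _ (mul_mem (inv_mem hd) hc') h1
    exact (inv_mul_eq_one.1 this).symm
  have hmemH : ∀ c ∈ H, c * (h * c⁻¹ * h⁻¹) ∈ H := fun c hc =>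
    mul_mem hc (mul_mem (mul_mem hh (inv_mem hc)) (inv_mem hh))
  let f : (A ⊓ H : Subgroup G) → (A ⊓ H : Subgroup G) := fun c =>
    ⟨c * (h * c⁻¹ * h⁻¹), hmem c c.2.1, hmemH c c.2.2⟩
  have hf : Function.Injective f := fun c d e =>
    Subtype.ext (hinj c c.2.1 d d.2.1 (congrArg Subtype.val e))
  have hbH : b * (h * b⁻¹ * h⁻¹) ∈ H := by
    have := (mem_normalizer_iff.1 hbN h).1 hh
    have e : b * (h * b⁻¹ * h⁻¹) = (b * h * b⁻¹) * h⁻¹ := by group
    rw [e]; exact mul_mem this (inv_mem hh)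
  obtain ⟨c, hc2⟩ := (Finite.injective_iff_surjective.1 hf) ⟨_, hmem b hb, hbH⟩
  have : (c : G) = b := hinj c c.2.1 b hb (congrArg Subtype.val hc2)
  exact mul_mem (this ▸ c.2.2) (zpow_mem hh j)

theorem back {G : Type*} [Group G] [Finite G] (x : G) (A : Subgroup G) (p : ℕ) (hp : p.Prime)
    [hA : A.Normal] [IsMulCommutative A] {k : ℕ} (hk : orderOf x = p ^ k)
    (hc : (zpowers x).IsComplement' A) (hz : x ^ p ∈ center G)
    (hf : ∀ a : G, a ∈ A → a ≠ 1 → x * a * x⁻¹ ≠ a) (H : Subgroup G) (hH : ¬ IsMulCommutative H) :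
    normalizer (H : Set G) = H := by
  have hcomm : ∀ a ∈ A, ∀ c ∈ A, a * c = c * a := fun a ha c hc =>
    congrArg Subtype.val (mul_comm' (⟨a, ha⟩ : A) ⟨c, hc⟩)
  have hdec : ∀ g : G, ∃ i : ℕ, ∃ a ∈ A, g = x ^ i * a := by
    intro g
    obtain ⟨⟨⟨y, hy⟩, ⟨a, ha⟩⟩, e⟩ := hc.2 g
    obtain ⟨i, rfl⟩ := (mem_powers_iff_mem_zpowers.2 hy)
    exact ⟨i, a, ha, e.symm⟩
  by_cases hall : ∀ h ∈ H, ∃ z ∈ center G, ∃ a ∈ A, h = z * a
  · refine absurd ⟨⟨fun a b => Subtype.ext ?_⟩⟩ hH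
    obtain ⟨z, hz, c, hc, e1⟩ := hall a a.2
    obtain ⟨w, hw, d, hd, e2⟩ := hall b b.2
    simp only [coe_mul, e1, e2]
    rw [mem_center_iff] at hz hw
    calc z * c * (w * d) = z * (c * w) * d := by group
      _ = z * w * (c * d) := by rw [hw c]; group
      _ = w * (z * d) * c := by rw [hcomm c hc d hd, hw z]; group
      _ = _ := by rw [← hz d]; group
  push Not at hall
  obtain ⟨h, hh, hne⟩ := hall
  obtain ⟨i, a, ha, rfl⟩ := hdec h
  have hi : ¬ p ∣ i := by
    rintro ⟨j, rfl⟩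
    exact hne _ (by rw [pow_mul]; exact pow_mem hz j) a ha rfl
  have hcop : i.Coprime (orderOf x) := by
    rw [hk]; exact ((hp.coprime_iff_not_dvd.2 hi).symm).pow_right k
  obtain ⟨m, hm⟩ := exists_pow_eq_self_of_coprime hcop
  refine key (A := A) hh (fun c hc e => ?_) fun g => ?_
  · by_contra h1
    refine hf c hc h1 ?_
    have e1 : Commute (x ^ i) c := by
      have : x ^ i * c * (x ^ i)⁻¹ = c := by
        calc x ^ i * c * (x ^ i)⁻¹ = x ^ i * (a * c * a⁻¹) * (x ^ i)⁻¹ := by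
              rw [hcomm a ha c hc]; group
          _ = x ^ i * a * c * (x ^ i * a)⁻¹ := by group
          _ = c := e
      exact mul_inv_eq_iff_eq_mul.1 this
    have e2 : Commute x c := hm ▸ e1.pow_left m
    rw [e2.eq]; group
  · obtain ⟨j, c, hc, rfl⟩ := hdec g
    refine ⟨x ^ j * c * ((x ^ i * a) ^ ((m * j : ℕ) : ℤ))⁻¹, ?_, (m * j : ℕ), by group⟩
    rw [← QuotientGroup.eq_one_iff]
    have e1 := (QuotientGroup.eq_one_iff a).2 ha
    have e2 := (QuotientGroup.eq_one_iff c).2 hc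
    have e3 : ((x : G ⧸ A) ^ i) ^ m = x := by
      rw [← QuotientGroup.mk_pow, ← QuotientGroup.mk_pow, hm]
    simp only [QuotientGroup.mk_mul, QuotientGroup.mk_inv, QuotientGroup.mk_pow, e1, e2, mul_one,
      zpow_natCast, pow_mul, e3, mul_inv_cancel]

theorem fwd {G : Type*} [Group G] [Finite G] [Group.IsSolvable G] (hnn : ¬ Group.IsNilpotent G)
    (hyp : ∀ H : Subgroup G, ¬ IsMulCommutative H → normalizer (H : Set G) = H) :
    ∃ (x : G) (A : Subgroup G) (p : ℕ), p.Prime ∧ A.Normal ∧ IsMulCommutative A ∧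
      (∃ k : ℕ, orderOf x = p ^ k) ∧ ¬ p ∣ Nat.card A ∧ (zpowers x).IsComplement' A ∧
      x ^ p ∈ center G ∧ ∀ a : G, a ∈ A → a ≠ 1 → x * a * x⁻¹ ≠ a := by
  have hnorm : ∀ H : Subgroup G, H.Normal → H ≠ ⊤ → IsMulCommutative H := by
    intro H hH h
    by_contra h1
    exact h ((hyp H h1).symm.trans (normalizer_eq_top H))
  haveI : Nontrivial G := by
    by_contra h
    rw [not_nontrivial_iff_subsingleton] at h
    exact hnn inferInstance
  obtain ⟨M, hM, hGM⟩ := SolvStr.exists_isCoatom_ge (Group.IsSolvable.commutator_lt_top_of_nontrivial G).ne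
  haveI hMn : M.Normal := Subgroup.Normal.of_commutator_le G hGM
  haveI := hnorm M hMn hM.1
  have hp := Solv.prime_index_of_isCoatom hM
  set p := M.index with hpdef
  haveI : Fact p.Prime := ⟨hp⟩
  have hcomm : ∀ a ∈ M, ∀ c ∈ M, a * c = c * a := fun a ha c hc =>
    congrArg Subtype.val (mul_comm' (⟨a, ha⟩ : M) ⟨c, hc⟩)
  obtain ⟨k, m, hm, hkm⟩ := Nat.exists_eq_pow_mul_and_not_dvd (Nat.card_pos (α := G)).ne' p hp.ne_one
  have hcop : m.Coprime p := (hp.coprime_iff_not_dvd.2 hm).symm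
  let A : Subgroup G :=
    { carrier := {a | a ∈ M ∧ a ^ m = 1}
      mul_mem' := fun {a b} ha hb => ⟨mul_mem ha.1 hb.1, by
        rw [Commute.mul_pow (hcomm a ha.1 b hb.1), ha.2, hb.2, one_mul]⟩
      one_mem' := ⟨one_mem _, one_pow _⟩
      inv_mem' := fun {a} ha => ⟨inv_mem ha.1, by rw [inv_pow, ha.2, inv_one]⟩ }
  have hAM : A ≤ M := fun a ha => ha.1
  haveI hAn : A.Normal := ⟨fun a ha g => ⟨hMn.conj_mem a ha.1 g, by
    rw [conj_pow, ha.2, mul_one, mul_inv_cancel]⟩⟩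
  haveI hAc : IsMulCommutative A := ⟨⟨fun a b => Subtype.ext (hcomm a a.2.1 b b.2.1)⟩⟩
  have hAp : ¬ p ∣ Nat.card A := by
    intro h
    obtain ⟨a, ha⟩ := exists_prime_orderOf_dvd_card' p h
    have : orderOf a ∣ m := orderOf_dvd_of_pow_eq_one (Subtype.ext a.2.2)
    exact hm (ha ▸ this)
  have hQ : IsPGroup p (G ⧸ A) := by
    intro g
    obtain ⟨g, rfl⟩ := QuotientGroup.mk_surjective g
    refine ⟨k + 1, ?_⟩
    rw [← QuotientGroup.mk_pow, QuotientGroup.eq_one_iff]
    refine ⟨?_, ?_⟩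
    · rw [pow_succ', pow_mul]; exact pow_mem (pow_index_mem M g) _
    · rw [pow_succ', ← pow_mul, mul_assoc, ← hkm, mul_comm, pow_mul, pow_card_eq_one', one_pow]
  obtain ⟨y, hy⟩ : ∃ y, y ∉ M := by
    by_contra h
    push Not at h
    exact hM.1 (eq_top_iff.2 fun g _ => h g)
  set x := y ^ m with hx
  have hxM : x ∉ M := by
    intro h
    obtain ⟨u, hu⟩ := exists_pow_eq_self_of_coprime (x := (y : G ⧸ M)) (n := m)
      (hcop.coprime_dvd_right (orderOf_dvd_natCard _))
    rw [← QuotientGroup.mk_pow, (QuotientGroup.eq_one_iff _).2 h, one_pow, eq_comm,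
      QuotientGroup.eq_one_iff] at hu
    exact hy hu
  have hxo : ∃ j, orderOf x = p ^ j := by
    have : orderOf x ∣ p ^ k := orderOf_dvd_of_pow_eq_one (by
      rw [hx, ← pow_mul, mul_comm, ← hkm, pow_card_eq_one'])
    obtain ⟨j, -, hj⟩ := (Nat.dvd_prime_pow hp).1 this
    exact ⟨j, hj⟩
  have hsup : zpowers x ⊔ M = ⊤ := SolvStr.sup_eq_top_of_isCoatom hM (by rwa [zpowers_le])
  have hcen : ∀ z ∈ M, z * x = x * z → z ∈ center G := by
    intro z hz h
    have : (⊤ : Subgroup G) ≤ centralizer {z} := by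
      rw [← hsup, sup_le_iff, zpowers_le]
      exact ⟨mem_centralizer_singleton_iff.2 h.symm,
        fun a ha => mem_centralizer_singleton_iff.2 (hcomm a ha z hz)⟩
    exact mem_center_iff.2 fun g => mem_centralizer_singleton_iff.1 (this (mem_top g))
  have hnc : ¬ ⁅A, zpowers x⁆ = ⊥ := by
    intro h
    rw [commutator_eq_bot_iff_le_centralizer] at h
    haveI := hQ.isNilpotent
    refine hnn (Subgroup.isNilpotent_of_ker_le_center (QuotientGroup.mk' A) ?_)
    rw [QuotientGroup.ker_mk']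
    exact fun a ha => hcen a ha.1 (h ha x (mem_zpowers x)).symm
  have hcc : (Nat.card A).Coprime (Nat.card (zpowers x)) := by
    obtain ⟨j, hj⟩ := hxo
    rw [Nat.card_zpowers, hj]
    exact (hp.coprime_iff_not_dvd.2 hAp).symm.pow_right j
  have hinf : A ⊓ zpowers x = ⊥ := (disjoint_of_coprime_natCard hcc).eq_bot
  have ncomm : ∀ B : Subgroup G, ⁅B, zpowers x⁆ ≠ ⊥ →
      ¬ IsMulCommutative (B ⊔ zpowers x : Subgroup G) := by
    intro B hB h
    refine hB (commutator_eq_bot_iff_le_centralizer.2 fun b hb c hc => ?_)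
    exact congrArg Subtype.val (mul_comm' (⟨c, mem_sup_right hc⟩ : (B ⊔ zpowers x : Subgroup G))
      ⟨b, mem_sup_left hb⟩)
  have htop : A ⊔ zpowers x = ⊤ := by
    have hf := QuotientGroup.mk'_surjective A
    have h1 := hyp _ (ncomm A hnc)
    have h2 : ((zpowers x).map (QuotientGroup.mk' A)).comap (QuotientGroup.mk' A) =
        A ⊔ zpowers x := by rw [comap_map_eq, QuotientGroup.ker_mk', sup_comm]
    haveI := hQ.isNilpotent
    have h3 : (zpowers x).map (QuotientGroup.mk' A) = ⊤ := by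
      refine normalizerCondition_iff_only_full_group_self_normalizing.1
        Group.normalizerCondition_of_isNilpotent _ ?_
      apply comap_injective hf
      rw [comap_normalizer_eq_of_surjective _ hf, h2, h1]
    rw [← h2, h3, comap_top]
  have hXA : zpowers x ≤ normalizer (A : Set G) := by rw [normalizer_eq_top]; exact le_top
  have hB := BG.coprime_commGid hXA hcc
  have htop2 : ⁅A, zpowers x⁆ ⊔ zpowers x = ⊤ := by
    have h1 := hyp _ (ncomm ⁅A, zpowers x⁆ (by rwa [hB]))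
    rw [← h1, eq_top_iff, ← htop]
    refine sup_le (le_normalizer_iff.2 fun a ha g hg => ?_) (le_sup_right.trans le_normalizer)
    haveI : ⁅A, zpowers x⁆.Normal := by
      rw [← normalizer_eq_top_iff, eq_top_iff, ← htop]
      exact sup_le (normalizer_commutator_ge_left _ _) (normalizer_commutator_ge_right _ _)
    have hg' : g ∈ ((⁅A, zpowers x⁆ ⊔ zpowers x : Subgroup G) : Set G) := hg
    rw [normal_mul] at hg'
    obtain ⟨b, hb, y, hy, rfl⟩ := hg'
    have e : a * (b * y) * a⁻¹ = (a * b * a⁻¹) * ⁅a, y⁆ * y := by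
      rw [commutatorElement_def]; group
    show a * (b * y) * a⁻¹ ∈ _
    rw [e]
    exact mul_mem (mem_sup_left (mul_mem (this.conj_mem b hb a) (commutator_mem_commutator ha hy)))
      (mem_sup_right hy)
  have hAB : A = ⁅A, zpowers x⁆ := by
    have hle : ⁅A, zpowers x⁆ ≤ A := commutator_le_left _ _
    have := BG.group_modl (H := A) (Or.inr (normalizer_commutator_ge_right A (zpowers x))) hle
    rwa [htop2, inf_top_eq, hinf, sup_bot_eq] at this
  refine ⟨x, A, p, hp, hAn, hAc, hxo, hAp, (SolvStr.isComplement'_of_inf_sup hinf htop).symm,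
    hcen _ (pow_index_mem M x) (by group), fun a ha h1 h2 => h1 ?_⟩
  have h3 := BG.coprime_abel_cent_TI hXA hcc hAc
  rw [← hAB] at h3
  rw [← mem_bot, ← h3]
  refine ⟨ha, ?_⟩
  have : zpowers x ≤ centralizer {a} := by
    rw [zpowers_le, mem_centralizer_singleton_iff]; exact mul_inv_eq_iff_eq_mul.1 h2
  exact fun c hc => mem_centralizer_singleton_iff.1 (this hc)

/-- Let G be a finite solvable non-nilpotent group. Every non-abelian subgroup of G is self-normalizing if and only if G is a semidirect product ⟨x⟩ ⋉ A in which ⟨x⟩ is a p-group for some prime p, A is a normal abelian subgroup of order prime to p, x^p is central in G, and x acts fixed-point-freely on A (no non-identity element of A commutes with x). -/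
theorem result {G : Type*} [Group G] [Finite G]
    [Group.IsSolvable G] (hnn : ¬ Group.IsNilpotent G) :
    (∀ H : Subgroup G, ¬ IsMulCommutative H → Subgroup.normalizer (H : Set G) = H) ↔
    ∃ (x : G) (A : Subgroup G) (p : ℕ), p.Prime ∧ A.Normal ∧ IsMulCommutative A ∧ (∃ k : ℕ, orderOf x = p ^ k) ∧
      ¬ p ∣ Nat.card A ∧ (Subgroup.zpowers x).IsComplement' A ∧ x ^ p ∈ Subgroup.center G ∧
      ∀ a : G, a ∈ A → a ≠ 1 → x * a * x⁻¹ ≠ a := by
  refine ⟨fwd hnn, ?_⟩
  rintro ⟨x, A, p, hp, hA, hc, ⟨k, hk⟩, -, h1, h2, h3⟩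
  exact back x A p hp hk h1 h2 h3

end Cfsg.Agent.S4071
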