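import Cfsg.Statements.S4072
import Cfsg.Agent.FG.Basic
import Cfsg.Agent.Transfer.Hall
import Cfsg.Agent.BG.S1

set_option autoImplicit false
open Cfsg

namespace Cfsg.Agent.S4072

open Cfsg.Agent.BG Cfsg.Agent.FG Subgroup
open scoped commutatorElement

/-- A finite group in which every non-abelian subgroup is self-normalizing is solvable or simple. -/
theorem result {G : Type*} [Group G] [Finite G] (hS : ∀ H : Subgroup G, ¬ IsMulCommutative H → Subgroup.normalizer (H : Set G) = H) :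
    Group.IsSolvable G ∨ IsSimpleGroup G := by
  by_contra! hn
  obtain ⟨hs, hsimple⟩ := hn
  haveI : Nontrivial G := by
    by_contra h
    haveI := not_nontrivial_iff_subsingleton.1 h
    exact hs inferInstance
  have hs' : ¬ Group.IsSolvable (⊤ : Subgroup G) := fun h => hs (isog_sol (isog_symm isog_top) h)
  -- proper normal subgroups are abelian
  have h1 : ∀ N : Subgroup G, N ⊴ ⊤ → N ≠ ⊤ → IsMulCommutative N := fun N hN hne => by
    by_contra hn
    exact hne (by rw [← hS N hn, eq_top_iff]; exact hN.norm)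
  have hper : ⁅(⊤ : Subgroup G), (⊤ : Subgroup G)⁆ = ⊤ := by
    by_contra hn
    exact hs' (der1_sol (abelian_sol (h1 _ (der_normal ⊤) hn)))
  obtain ⟨N₀, hN₀, hN1, hN2⟩ : ∃ N : Subgroup G, N ⊴ ⊤ ∧ N ≠ ⊥ ∧ N ≠ ⊤ := by
    by_contra! h
    exact hsimple ⟨fun N hN => or_iff_not_imp_left.2 (h N (normal_top N))⟩
  obtain ⟨N, hN₀N, ⟨hN, hNt⟩, hmax⟩ := maxgroup_exists (P := fun N : Subgroup G => N ⊴ ⊤ ∧ N ≠ ⊤) ⟨hN₀, hN2⟩
  have hab := h1 N hN hNt
  have hn : ∀ A : Subgroup G, A ≤ N[N] := fun A => le_top.trans hN.norm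
  -- no Sylow subgroup of `G / N` is abelian and self-normalizing
  have key : ∀ (p : ℕ) [Fact p.Prime] (P : Subgroup G), N ≤ P → N ≠ P → SylowIn p (P /ᵍ N) (⊤ /ᵍ N) →
      IsMulCommutative (P /ᵍ N) → N[P] ≠ P := fun p _ P hNP hne hP hPab hnP => by
    have hd := Burnside_normal_complement hP (by
      rw [← quotient_subnormG ⊤ ⟨hNP, hn P⟩, top_inf_eq, hnP]; exact IsMulCommutative.cent hPab)
    obtain ⟨K, hNK, hK, e⟩ := inv_quotientN hN (pcore_normal {p}ᶜ (⊤ /ᵍ N))
    by_cases hKt : K = ⊤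
    · have := hd.inf
      rw [show Op' p (⊤ /ᵍ N) = K /ᵍ N from e.symm, hKt, inf_eq_right.2 hP.le, quotient_sub1 (hn P)] at this
      exact hne (le_antisymm hNP this)
    · have := hd.sup
      rw [show Op' p (⊤ /ᵍ N) = K /ᵍ N from e.symm, hmax K ⟨hK, hKt⟩ hNK, trivg_quotient, bot_sup_eq] at this
      exact hs' (series_sol hN (abelian_sol hab) (abelian_sol (this ▸ hPab)))
  by_cases hc : C[N] = ⊤
  · obtain ⟨p, hp, hd⟩ := exists_prime_dvd_card (A := N) fun e => hN1 (le_bot_iff.1 (e ▸ hN₀N))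
    haveI := Fact.mk hp
    obtain ⟨P⟩ : Nonempty (Sylow p G) := inferInstance
    have hNZ : N ≤ center G := by rw [← cent_top, centsC, hc]
    have hpel : ∀ z ∈ N, PiElt {p} z → z ∈ ⁅(P : Subgroup G), (P : Subgroup G)⁆ := fun z hz hzp =>
      mem_of_pow_coprime_orderOf (Transfer.pow_index_mem_commutator_of_mem_center (P : Subgroup G) (hNZ hz)
        (by rw [← der_top, hper]; trivial)) (pnat_coprime' (π := {p}) (by
          have := (sylowIn_top P).idx; rwa [relIndex_top_right] at this) hzp)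
    obtain ⟨z, hz, hzp⟩ := Cauchy hp hd
    have hz1 : z ≠ 1 := by rintro rfl; simp [eq_comm, hp.ne_one] at hzp
    have hPab : ¬ IsMulCommutative (P : Subgroup G) := fun h => hz1 (by
      simpa [der1_eq_bot.2 h] using hpel z hz (piElt_of_pow (k := 1) (by simpa)))
    have hnP := hS _ hPab
    have hNP : N ≤ P := hnP ▸ cents_norm (centsC.1 (hc ▸ le_top))
    have hN' : N ≤ ⁅(P : Subgroup G), (P : Subgroup G)⁆ := fun z hz => hpel z hz (mem_p_elt (sylowIn_top P).pi (hNP hz))
    have h2 := card_der_dvd_of_proper_abelian P.2 fun H hH => by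
      by_contra hn
      exact (nilpotent_proper_norm (pgroup_nil P.2) hH).not_ge (by rw [hS H hn]; exact inf_le_right)
    refine key p P hNP (fun e => hPab (e ▸ hab)) (quotient_pHall (hn _) (sylowIn_top P)) (sub_der1_abelian ?_) hnP
    exact (eq_of_card_le hN' ((Nat.le_of_dvd hp.pos h2).trans (Nat.le_of_dvd (cardG_pos N) hd))).ge
  · have hC : C[N] = N := hmax _ ⟨⟨le_top, norms_cent hN.norm⟩, hc⟩ (IsMulCommutative.cent hab)
    have hself : ∀ H : Subgroup G, N < H → N[H] = H := fun H hH => hS H fun h =>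
      hH.not_ge (hC ▸ sub_abelian_cent h hH.le)
    obtain ⟨p, hp, hd⟩ := exists_prime_dvd_card (A := ⊤ /ᵍ N) (quotient_neq1 (hn _) (by simpa using hNt))
    haveI := Fact.mk hp
    obtain ⟨X, hX, hXp⟩ := Cauchy_sub hp hd
    obtain ⟨P, hNP, -, rfl⟩ := inv_quotientS hN hX
    have hlt : N < P := lt_of_le_of_ne hNP (by rintro rfl; simp [trivg_quotient, eq_comm, hp.ne_one] at hXp)
    refine key p P hNP hlt.ne ?_ (cyclic_abelian (prime_cyclic (hXp ▸ hp))) (hself P hlt)
    refine Sylow_subnorm ?_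
    rw [← quotient_subnormG ⊤ ⟨hNP, hn P⟩, top_inf_eq, hself P hlt]
    exact pHall_id (IsPGroup.pi (pgroup_of_card_p hXp))

end Cfsg.Agent.S4072
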