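import Cfsg.Statements.S4074
import Cfsg.Agent.FG.Basic

set_option autoImplicit false
open Cfsg

namespace Cfsg.Agent.S4074

open Cfsg.Agent.BG Cfsg.Agent.FG Subgroup DihedralGroup
open scoped commutatorElement

/-- For n > 2, every non-abelian subgroup of the dihedral group of order 2n is self-normalizing if and only if n = 4 or n is odd. -/
theorem result (n : ℕ) (hn : 2 < n) :
    (∀ H : Subgroup (DihedralGroup n), ¬ IsMulCommutative H → Subgroup.normalizer (H : Set (DihedralGroup n)) = H) ↔
    (n = 4 ∨ Odd n) := by
  haveI : NeZero n := ⟨by omega⟩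
  constructor
  · intro h
    by_contra! hc
    obtain ⟨h4, ho⟩ := hc
    obtain ⟨m, rfl⟩ := Nat.not_odd_iff_even.1 ho
    -- the subgroup `⟨r², s⟩` of index two
    let f : ZMod (m + m) →+* ZMod 2 := ZMod.castHom (by omega) (ZMod 2)
    let H : Subgroup (DihedralGroup (m + m)) :=
      { carrier := {g | match g with | r i => f i = 0 | sr i => f i = 0}
        mul_mem' := by
          rintro (a | a) (b | b) ha hb <;> simp only [Set.mem_ofPred_eq] at ha hb <;>
            simp [ha, hb]
        one_mem' := map_zero f
        inv_mem' := by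
          rintro (a | a) ha <;> simp only [Set.mem_ofPred_eq] at ha <;> simp [ha] }
    have hr : ∀ i, r i ∈ H ↔ f i = 0 := fun _ => Iff.rfl
    have hs : ∀ i, sr i ∈ H ↔ f i = 0 := fun _ => Iff.rfl
    have h2 : ∀ a : ZMod 2, a + a = 0 := by decide
    have hn : N[H] = ⊤ := by
      rw [eq_top_iff, le_norm_iff]
      rintro (a | a) - (b | b) hb <;> simp only [hr, hs] at hb <;> simp [hr, hs, hb, h2]
    have := h H fun hab => by
      have := IsMulCommutative.comm hab (x := r 2) (y := sr 0) (by rw [hr, map_ofNat]; rfl) (by simp [hs])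
      simp only [r_mul_sr, sr_mul_r, sr.injEq, zero_sub, zero_add] at this
      have h5 : ((4 : ℕ) : ZMod (m + m)) = 0 := by push_cast; linear_combination -this
      have := Nat.le_of_dvd (by norm_num) ((ZMod.natCast_eq_zero_iff _ _).1 h5)
      omega
    have h3 : r 1 ∈ H := by rw [← this, hn]; trivial
    simp [hr] at h3
  · rintro (rfl | ho) H hH
    · by_cases e : H = ⊤
      · subst e; simp
      · exfalso; apply hH
        haveI : Fact (Nat.Prime 2) := ⟨Nat.prime_two⟩
        have h8 : Nat.card (DihedralGroup 4) = 2 ^ 3 := by rw [nat_card]; rfl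
        have h1 := card_subgroup_dvd_card H
        rw [h8] at h1
        obtain ⟨k, hk, e'⟩ := (Nat.dvd_prime_pow Nat.prime_two).1 h1
        refine p2group_abelian (p := 2) (e' ▸ pow_dvd_pow 2 ?_)
        by_contra hk'
        exact e (eq_top_of_card_eq _ (by rw [e', h8, show k = 3 by omega]))
    · obtain ⟨i, hi⟩ : ∃ i, sr i ∈ H := by
        by_contra! hc
        refine hH (abelian_of_cent (le_cent_iff.2 ?_))
        rintro (a | a) ha (b | b) hb
        · simp [add_comm]
        · exact absurd hb (hc b)
        · exact absurd ha (hc a)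
        · exact absurd ha (hc a)
      have key : ∀ j, r j ∈ N[H] → r j ∈ H := fun j hj => by
        have h1 := mul_mem (conj_mem_of_norm hj hi) hi
        refine mem_of_pow_coprime_orderOf (m := 2) ?_ ?_
        · convert h1 using 1; simp [sq]; ring
        · refine Nat.Coprime.coprime_dvd_right (orderOf_dvd_of_pow_eq_one (n := n) ?_) ho.coprime_two_left
          simp
      refine le_antisymm ?_ (normG H)
      rintro (j | j) hj
      · exact key j hj
      · have := mul_mem hi (key (j - i) (by simpa using mul_mem (normG H hi) hj))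
        simpa using this

end Cfsg.Agent.S4074
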