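import Cfsg.Statements.S4075
import Cfsg.Agent.FG.Basic

set_option autoImplicit false
open Cfsg

namespace Cfsg.Agent.S4075

open Cfsg.Agent.BG Cfsg.Agent.FG Subgroup
open scoped commutatorElement

/-- Let G be a finite nilpotent group. Every non-abelian subgroup of G is self-normalizing if and only if G is abelian or G is a minimal non-abelian p-group for some prime p (non-abelian of prime-power order with every proper subgroup abelian). -/
theorem result {G : Type*} [Group G] [Finite G]
    [Group.IsNilpotent G] :
    (∀ H : Subgroup G, ¬ IsMulCommutative H → Subgroup.normalizer (H : Set G) = H) ↔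
    (IsMulCommutative G ∨ (IsPrimePow (Nat.card G) ∧ ¬ IsMulCommutative G ∧ ∀ H : Subgroup G, H ≠ ⊤ → IsMulCommutative H)) := by
  have hG : Group.IsNilpotent (⊤ : Subgroup G) := inferInstance
  constructor
  · intro h
    have h' : ∀ H : Subgroup G, H ≠ ⊤ → IsMulCommutative H := fun H hH => by
      by_contra hn
      exact hH (nilpotent_sub_norm hG le_top (by rw [h H hn]; exact inf_le_right))
    by_cases hab : IsMulCommutative G
    · exact Or.inl hab
    refine Or.inr ⟨?_, hab, h'⟩
    by_contra hpp
    refine hab (isog_abelian (isog_symm isog_top) (s12_nil_abelian hG fun p hp hd => h' _ fun e => hpp ?_))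
    haveI := Fact.mk hp
    obtain ⟨k, hk⟩ := IsPGroup.iff_card.1 (e ▸ Op_pgroup p (⊤ : Subgroup G))
    rw [hk] at hd
    rw [← card_top, hk]
    exact hp.isPrimePow.pow (by rintro rfl; exact hp.ne_one (by simpa using hd))
  · rintro (h | ⟨-, -, h⟩) H hH
    · exact absurd (abelianS le_top (isog_abelian isog_top h)) hH
    · by_cases e : H = ⊤
      · subst e; simp
      · exact absurd (h H e) hH

end Cfsg.Agent.S4075
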