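import Cfsg.Statements.S4080
import Cfsg.Agent.FG.Basic

set_option autoImplicit false
open Cfsg

namespace Cfsg.Agent.S4080

open Cfsg.Agent.BG Cfsg.Agent.FG Subgroup

theorem aux {p : ℕ} [hp : Fact p.Prime] (h3 : 3 < p) (N : Matrix (Fin 2) (Fin 2) (ZMod (p ^ 2)))
    (h : (1 + N) ^ p = 1) : (p : ZMod (p ^ 2)) • N = 0 := by
  haveI : NeZero (p ^ 2) := ⟨pow_ne_zero _ hp.out.ne_zero⟩
  let f : ZMod (p ^ 2) →+* ZMod p := ZMod.castHom (dvd_pow_self p two_ne_zero) (ZMod p)
  have hpp : (p : ZMod (p ^ 2)) * p = 0 := by rw [← sq, ← Nat.cast_pow, ZMod.natCast_self]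
  have h1 : (f.mapMatrix N) ^ p = 0 := by
    have := congrArg f.mapMatrix h
    rw [map_pow, map_add, map_one, add_pow_char_of_commute _ (Commute.one_left _), one_pow] at this
    simpa using this
  have h2 : (f.mapMatrix N) ^ 2 = 0 := by
    have h4 := Matrix.isNilpotent_charpoly_sub_pow_of_isNilpotent (M := f.mapMatrix N) ⟨p, h1⟩
    rw [isNilpotent_iff_eq_zero, sub_eq_zero] at h4
    have := Matrix.aeval_self_charpoly (f.mapMatrix N)
    rw [h4] at this
    simpa using this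
  obtain ⟨M, hM⟩ : ∃ M, N ^ 2 = (p : ZMod (p ^ 2)) • M := by
    have : ∀ i j, ∃ c, (N ^ 2) i j = (p : ZMod (p ^ 2)) * c := fun i j => by
      have h5 : f ((N ^ 2) i j) = 0 := by
        rw [← map_pow] at h2
        exact congrFun (congrFun h2 i) j
      obtain ⟨k, hk⟩ := ZMod.natCast_zmod_surjective ((N ^ 2) i j)
      rw [← hk, map_natCast, ZMod.natCast_eq_zero_iff] at h5
      obtain ⟨c, rfl⟩ := h5
      exact ⟨c, by rw [← hk]; push_cast; rfl⟩
    choose M hM using this
    exact ⟨Matrix.of M, by ext i j; simp [hM]⟩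
  have h4 : N ^ 4 = 0 := by
    rw [show 4 = 2 + 2 from rfl, pow_add, hM, smul_mul_smul_comm, hpp, zero_smul]
  rw [add_comm, (Commute.one_right N).add_pow] at h
  obtain ⟨k, hk⟩ : ∃ k, p + 1 = k + 1 + 1 := ⟨p - 1, by omega⟩
  rw [hk, Finset.sum_range_succ', Finset.sum_range_succ', Finset.sum_eq_zero] at h
  · simp only [one_pow, mul_one, zero_add, pow_one, Nat.choose_one_right, pow_zero, Nat.choose_zero_right,
      Nat.cast_one, add_eq_right] at h
    rw [← h, Nat.cast_smul_eq_nsmul, nsmul_eq_mul']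
  · intro i hi
    rw [one_pow, mul_one]
    by_cases e : i + 1 + 1 = p
    · rw [pow_eq_zero_of_le (by omega) h4]; simp
    · obtain ⟨c, hc⟩ := hp.out.dvd_choose_self (k := i + 1 + 1) (by omega) (by simp at hi; omega)
      rw [hc, show i + 1 + 1 = i + 2 from rfl, pow_add, hM, ← nsmul_eq_mul', ← Nat.cast_smul_eq_nsmul (ZMod (p ^ 2)),
        mul_smul_comm, smul_smul]
      push_cast
      rw [mul_right_comm, hpp]; simp

/-- Let p > 3 be a prime and L the direct product of two cyclic groups of order p². Every automorphism of L of order p fixes every element of order p of L. -/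
theorem result {p : ℕ} [Fact p.Prime] (hp : 3 < p)
    (a : MulAut (Multiplicative (ZMod (p ^ 2) × ZMod (p ^ 2)))) (ha : orderOf a = p)
    (x : Multiplicative (ZMod (p ^ 2) × ZMod (p ^ 2))) (hx : orderOf x = p) : a x = x := by
  haveI : NeZero (p ^ 2) := ⟨pow_ne_zero _ (Nat.Prime.ne_zero Fact.out)⟩
  let φ : Module.End (ZMod (p ^ 2)) (ZMod (p ^ 2) × ZMod (p ^ 2)) :=
    (AddMonoidHom.toMultiplicative.symm a.toMonoidHom).toZModLinearMap (p ^ 2)
  have hφ : ∀ k : ℕ, ∀ v, (φ ^ k) v = Multiplicative.toAdd ((a ^ k) (Multiplicative.ofAdd v)) := fun k => by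
    induction k with
    | zero => intro v; rfl
    | succ k ih => intro v; rw [pow_succ φ, pow_succ a, Module.End.mul_apply, ih]; rfl
  have h1 : φ ^ p = 1 := LinearMap.ext fun v => by
    rw [hφ, orderOf_dvd_iff_pow_eq_one.1 ha.dvd]; rfl
  let e := LinearMap.toMatrixAlgEquiv (Module.Basis.finTwoProd (ZMod (p ^ 2)))
  have h2 := aux hp (e (φ - 1)) (by rw [map_sub, map_one, add_sub_cancel, ← map_pow, h1, map_one])
  rw [← map_smul, map_eq_zero_iff _ e.injective] at h2
  have key : ∀ c : ZMod (p ^ 2), p • c = 0 → ∃ d, c = (p : ZMod (p ^ 2)) * d := fun c hc => by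
    obtain ⟨k, rfl⟩ := ZMod.natCast_zmod_surjective c
    rw [nsmul_eq_mul, ← Nat.cast_mul, ZMod.natCast_eq_zero_iff, sq,
      Nat.mul_dvd_mul_iff_left (Nat.Prime.pos Fact.out)] at hc
    obtain ⟨d, rfl⟩ := hc
    exact ⟨d, by push_cast; rfl⟩
  have h3 : p • Multiplicative.toAdd x = 0 := by rw [← toAdd_pow, orderOf_dvd_iff_pow_eq_one.1 hx.dvd]; rfl
  obtain ⟨d1, e1⟩ := key _ (congrArg Prod.fst h3)
  obtain ⟨d2, e2⟩ := key _ (congrArg Prod.snd h3)
  have h4 : Multiplicative.toAdd x = (p : ZMod (p ^ 2)) • (d1, d2) := Prod.ext e1 e2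
  have h5 := LinearMap.congr_fun h2 (d1, d2)
  rw [LinearMap.smul_apply, ← map_smul, ← h4, LinearMap.sub_apply, LinearMap.zero_apply, sub_eq_zero] at h5
  exact h5

end Cfsg.Agent.S4080
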