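import Cfsg.Statements.S4081
import Cfsg.Agent.Gen2.AutOrb
import Cfsg.Agent.Gen2.Nilp
import Cfsg.Agent.BG.S3Gen
import Cfsg.Agent.BG.Constt
import Cfsg.Agent.Char.Burnside

set_option autoImplicit false
open Cfsg

namespace Cfsg.Agent.S4081

open Subgroup Cfsg.Agent.BG Cfsg.Agent.Gen2 MulAction
open scoped IsMulCommutative

variable {G : Type*} [Group G] [Finite G]

theorem ext_aut {V : Subgroup G} [V.Normal] {x : G} (hc : V.IsComplement' (zpowers x))
    (A : MulAut V) {i : ℕ} (hi : i.Coprime (orderOf x))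
    (h : ∀ u, A (MulAut.conjNormal x u) = (MulAut.conjNormal x ^ i : MulAut V) (A u)) :
    ∃ α : MulAut G, (∀ v : V, α v = A v) ∧ α x = x ^ i := by
  have hn : ∀ (n : ℕ) u, A ((MulAut.conjNormal x ^ n : MulAut V) u) =
      ((MulAut.conjNormal x ^ i) ^ n : MulAut V) (A u) := fun n u => by
    induction n with
    | zero => rfl
    | succ n ih => rw [pow_succ', pow_succ', MulAut.mul_apply, h, ih, MulAut.mul_apply]
  let e := SemidirectProduct.mulEquivSubgroup hc
  let f : G →* G := (SemidirectProduct.lift (V.subtype.comp A.toMonoidHom)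
    ((zpowers x).subtype.comp (powMonoidHom i)) (by
      rintro ⟨g, hg⟩
      obtain ⟨n, rfl⟩ := mem_powers_iff_mem_zpowers.2 hg
      ext u
      have := congrArg Subtype.val (hn n u)
      rw [← pow_mul, ← map_pow, ← map_pow, mul_comm, pow_mul] at this
      exact this)).comp e.symm.toMonoidHom
  have f1 : ∀ v : V, f v = A v := fun v => by
    have : e.symm v = SemidirectProduct.inl v := e.symm_apply_eq.2 (by simp [e])
    simp [f, this]
  have f2 : f x = x ^ i := by
    have : e.symm x = SemidirectProduct.inr ⟨x, mem_zpowers x⟩ := e.symm_apply_eq.2 (by simp [e])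
    simp [f, this]
  refine ⟨MulEquiv.ofBijective f (Finite.surjective_iff_bijective.1 (MonoidHom.range_eq_top.1
    (top_le_iff.1 (hc.sup_eq_top.ge.trans (sup_le (fun v hv => ?_) (zpowers_le.2 ?_)))))), f1, f2⟩
  · exact ⟨A.symm ⟨v, hv⟩, by rw [f1, MulEquiv.apply_symm_apply]⟩
  · exact zpowers_le.2 (⟨x, f2⟩ : x ^ i ∈ f.range) (mem_zpowers_pow_iff.2 hi)

omit [Finite G] in
theorem orb_eq {x y : G} : (Quotient.mk'' x : orbitRel.Quotient (MulAut G) G) = Quotient.mk'' y ↔
    ∃ α : MulAut G, α y = x := Quotient.eq''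

theorem fwd {p q : ℕ} [hp : Fact p.Prime] [hq : Fact q.Prime] (hne : p ≠ q) {a b : G}
    (ha : orderOf a = p) (hb : orderOf b = q) (h0 : pCore p G ≠ ⊥)
    (h : ∀ g : G, g = 1 ∨ (∃ α : MulAut G, α a = g) ∨ ∃ α : MulAut G, α b = g) :
    ∃ n : ℕ, 1 ≤ n ∧ Nat.card G = p ^ n * q ∧
      (∀ P : Sylow p G, (P : Subgroup G).Normal ∧ IsElementaryAbelian p (P : Subgroup G)) ∧
      orderOf (p : ZMod q) = q - 1 ∧
      ∀ x y : G, orderOf x = q → orderOf y = p → x * y * x⁻¹ ≠ y := by
  have ho : ∀ g : G, g = 1 ∨ orderOf g = p ∨ orderOf g = q := fun g =>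
    (h g).imp_right fun h => h.imp (fun ⟨α, e⟩ => by rw [← e, α.orderOf_eq, ha])
      fun ⟨α, e⟩ => by rw [← e, α.orderOf_eq, hb]
  have hA : ∀ g : G, orderOf g = p → ∃ α : MulAut G, α a = g := fun g e =>
    ((h g).resolve_left (by rintro rfl; exact hp.out.ne_one (by simpa using e.symm))).resolve_right
      fun ⟨α, e'⟩ => hne (by rw [← e, ← e', α.orderOf_eq, hb])
  have hB : ∀ g : G, orderOf g = q → ∃ α : MulAut G, α b = g := fun g e =>
    ((h g).resolve_left (by rintro rfl; exact hq.out.ne_one (by simpa using e.symm))).resolve_left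
      fun ⟨α, e'⟩ => hne (by rw [← e, ← e', α.orderOf_eq, ha])
  have pe : ∀ {r : ℕ} [Fact r.Prime] {H : Subgroup G}, IsPGroup r H → ∀ g ∈ H, g ≠ 1 →
      orderOf g = r := fun {r} hr {H} hH g hg g1 => by
    obtain ⟨k, hk⟩ := pElt_of_mem hH hg
    have : (r ^ k).Prime := hk ▸ ((ho g).resolve_left g1).elim (· ▸ hp.out) (· ▸ hq.out)
    rw [hk, (Nat.Prime.pow_eq_iff this).1 rfl |>.2, pow_one]
  have fpf : ∀ x y : G, orderOf x = q → orderOf y = p → x * y * x⁻¹ ≠ y := fun x y hx hy e => by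
    have e' := Commute.orderOf_mul_eq_mul_orderOf_of_coprime (mul_inv_eq_iff_eq_mul.1 e)
      (by rw [hx, hy]; exact (Nat.coprime_primes hq.out hp.out).2 hne.symm)
    rw [hx, hy] at e'
    have := hp.out.two_le
    have := hq.out.two_le
    rcases ho (x * y) with h | h | h
    · rw [h, orderOf_one] at e'; nlinarith
    all_goals nlinarith
  obtain ⟨V, hV⟩ : ∃ V, V = (center (pCore p G)).map (pCore p G).subtype := ⟨_, rfl⟩
  have cV : V.Characteristic := hV ▸ inferInstance
  rw [map_subtype_center] at hV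
  have pV : IsPGroup p V := (Solv.isPGroup_pCore p G).to_le (hV ▸ center_sub _)
  have V1 : V ≠ ⊥ := hV ▸ center_nil_ne_bot (pgroup_nil (Solv.isPGroup_pCore p G)) h0
  have aV : IsMulCommutative V := hV ▸ center_abelian _
  clear hV
  have ch : ∀ (α : MulAut G), ∀ g, α g ∈ V ↔ g ∈ V := fun α g =>
    SetLike.ext_iff.1 (cV.fixed α) g
  have mV : ∀ g, orderOf g = p → g ∈ V := fun g hg => by
    obtain ⟨v, hv, v1⟩ := trivgPn.1 V1
    obtain ⟨α, rfl⟩ := hA v (pe pV v hv v1)
    obtain ⟨β, rfl⟩ := hA g hg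
    exact (ch β a).2 ((ch α a).1 hv)
  have eV : ∀ P : Sylow p G, (P : Subgroup G) = V := fun P => le_antisymm (fun g hg => by
    by_cases g1 : g = 1
    exacts [g1 ▸ one_mem _, mV g (pe P.isPGroup' g hg g1)])
    (normal_sub_Hall (sylowIn_top P) (normal_top V) (IsPGroup.pi pV))
  have xV : ∀ v ∈ V, v ^ p = 1 := fun v hv => by
    by_cases v1 : v = 1
    exacts [by simp [v1], pe pV v hv v1 ▸ pow_orderOf_eq_one v]
  have sb : SylowIn q (zpowers b) ⊤ := by
    refine max_pgroup_Sylow le_top (pgroup_of_card_p (by rw [Nat.card_zpowers, hb]))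
      fun Q hQ l _ => ?_
    by_contra hne'
    obtain ⟨k, hk⟩ := hQ.exists_card_eq
    have lt := proper_card (lt_of_le_of_ne l (Ne.symm hne'))
    rw [Nat.card_zpowers, hb, hk] at lt
    have k2 : 2 ≤ k := by
      by_contra h2
      have := pow_le_pow_right₀ hq.out.one_le (show k ≤ 1 by omega)
      rw [pow_one] at this; omega
    obtain ⟨R, lR, -, cR⟩ := normal_pgroup hQ (normal_refl Q) (k := 2) (hk ▸ pow_dvd_pow q k2)
    have cy : IsCyclic R := abelian_regular_cyclic (p2group_abelian cR.dvd) V1 (norm_of_normal V R)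
      fun x hx x1 => eq_bot_iff.2 fun y hy => by
        by_contra y1
        exact fpf x y (pe hQ x (lR hx) x1) (pe pV y hy.1 y1)
          (mul_inv_eq_iff_eq_mul.2 (mem_cent1.1 hy.2).symm)
    obtain ⟨x, rfl⟩ := cyclicP.1 cy
    rw [Nat.card_zpowers] at cR
    have h2 := hq.out.two_le
    have := pe hQ x (lR (mem_zpowers x)) (by rintro rfl; rw [orderOf_one] at cR; nlinarith)
    nlinarith
  have sV : SylowIn p V ⊤ := eV default ▸ sylowIn_top _
  have sup : V ⊔ zpowers b = ⊤ := top_le_iff.1 (le_of_Sylow_le fun r hr hd => by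
    obtain ⟨g, -, e⟩ := Cauchy hr hd
    rcases ho g with h | h | h
    · rw [h, orderOf_one] at e; exact absurd e.symm hr.ne_one
    · exact ⟨V, e ▸ h ▸ sV, le_sup_left⟩
    · exact ⟨_, e ▸ h ▸ sb, le_sup_right⟩)
  obtain ⟨n, hn⟩ := pV.exists_card_eq
  have cd := card_sup_TI (Or.inr (norm_of_normal V (zpowers b)))
    (pgroup_p'_TI pV (p'group_of_ne sb.pg hne.symm))
  rw [sup, card_top, Nat.card_zpowers, hb, hn] at cd
  refine ⟨n, Nat.pos_of_ne_zero fun h => V1 (card_eq_one_iff.1 (by rw [hn, h, pow_zero])), cd,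
    fun P => by rw [eV P]; exact ⟨inferInstance, aV, xV⟩, ?_, fpf⟩
  have := (nontrivial_iff_ne_bot V).2 V1
  have res : ∀ α : MulAut G, ∃ A : MulAut V, (∀ v : V, (A v : G) = α v) ∧ ∀ u, (A
      (MulAut.conjNormal b u) : V) = MulAut.conjNormal (α b) (A u) := fun α =>
    ⟨(α.subgroupMap V).trans (MulEquiv.subgroupCongr (characteristic_iff_map_eq.1 cV α)),
      fun _ => rfl, fun u => Subtype.ext (show α (b * u * b⁻¹) = α b * α u * (α b)⁻¹ by simp)⟩
  refine (orderOf_eq_iff_trans (τ := MulAut.conjNormal (H := V) b) hne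
    (fun v => Subtype.ext (xV v v.2)) (by rw [← map_pow, ← hb, pow_orderOf_eq_one, map_one])
    fun v e => ?_).2 (fun v w hv hw => ?_) fun i hi => ?_
  · by_contra v1
    exact fpf b v hb (pe pV v v.2 (by simpa using v1)) (congrArg Subtype.val e)
  · obtain ⟨α, h1⟩ := hA v (pe pV v v.2 (by simpa using hv))
    obtain ⟨β, h2⟩ := hA w (pe pV w w.2 (by simpa using hw))
    obtain ⟨A, h3, h4⟩ := res (β * α⁻¹)
    obtain ⟨v', hv', _, hz, e⟩ := (mem_sup_norml (norm_of_normal V (zpowers b))).1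
      (sup.ge (mem_top ((β * α⁻¹) b)))
    obtain ⟨i, rfl⟩ := mem_powers_iff_mem_zpowers.2 hz
    refine ⟨A, i, Subtype.ext (by rw [h3, ← h1, ← h2]; simp), fun u => ?_⟩
    rw [h4, e, map_mul, MulAut.mul_apply, ← map_pow]
    exact Subtype.ext (conj_eq_of_cent (aV.cent hv') (Subtype.property _))
  · obtain ⟨β, h2⟩ := hB (b ^ i) (by
      rw [Nat.Coprime.orderOf_pow (hb ▸ hq.out.coprime_iff_not_dvd.2 hi), hb])
    obtain ⟨A, -, h4⟩ := res β
    exact ⟨A, fun u => by rw [h4, h2, map_pow]⟩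

/-- Let G be a finite group whose order is not a prime power. Then the automorphism group of G has exactly three orbits on G if and only if there are distinct primes p, q with #G = pⁿ·q (n ≥ 1) such that G has a normal elementary abelian Sylow p-subgroup P, p is a primitive root modulo q (the multiplicative order of p mod q is q − 1), and every element of order q of G acts on P without non-identity fixed points. -/
theorem result {G : Type*} [Group G] [Finite G] (hnpp : ¬ IsPrimePow (Nat.card G)) (hnt : Nat.card G ≠ 1) :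
    Nat.card (MulAction.orbitRel.Quotient (MulAut G) G) = 3 ↔
    ∃ (p q n : ℕ) (_ : Fact p.Prime) (_ : Fact q.Prime), p ≠ q ∧ 1 ≤ n ∧ Nat.card G = p ^ n * q ∧
      (∀ P : Sylow p G, (P : Subgroup G).Normal ∧ Cfsg.IsElementaryAbelian p (P : Subgroup G)) ∧
      orderOf (p : ZMod q) = q - 1 ∧
      ∀ x y : G, orderOf x = q → orderOf y = p → x * y * x⁻¹ ≠ y := by
  constructor
  · intro h3
    obtain ⟨p, hp, hpd⟩ := Nat.exists_prime_and_dvd hnt
    obtain ⟨q, hq, hne, hqd⟩ := exists_prime_ne_of_not_isPrimePow Nat.card_pos.ne' hnt hnpp hp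
    have := Fact.mk hp
    have := Fact.mk hq
    obtain ⟨a, ha⟩ := exists_prime_orderOf_dvd_card' p hpd
    obtain ⟨b, hb⟩ := exists_prime_orderOf_dvd_card' q hqd
    have ne : ∀ x y : G, orderOf x ≠ orderOf y →
        (Quotient.mk'' x : orbitRel.Quotient (MulAut G) G) ≠ Quotient.mk'' y := fun x y h e => by
      obtain ⟨α, rfl⟩ := orb_eq.1 e
      exact h (α.orderOf_eq y)
    have h : ∀ g : G, g = 1 ∨ (∃ α : MulAut G, α a = g) ∨ ∃ α : MulAut G, α b = g := fun g => by
      have := Set.eq_of_subset_of_ncard_le (Set.subset_univ _) ((Set.ncard_univ _).trans_le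
        (h3.trans (Set.ncard_eq_three.2 ⟨_, _, _, ne 1 a (by simp [ha, hp.ne_one.symm]),
          ne 1 b (by simp [hb, hq.ne_one.symm]), ne a b (by rw [ha, hb]; exact hne.symm),
          rfl⟩).symm).le)
      have := this.ge (Set.mem_univ (Quotient.mk'' g))
      simp only [Set.mem_insert_iff, Set.mem_singleton_iff, orb_eq, map_one] at this
      exact this.imp_left fun ⟨_, h⟩ => h.symm
    have pq : ∀ r : ℕ, r.Prime → r ∣ Nat.card G → r = p ∨ r = q := fun r hr hd => by
      have := Fact.mk hr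
      obtain ⟨g, e⟩ := exists_prime_orderOf_dvd_card' r hd
      rcases h g with rfl | ⟨α, rfl⟩ | ⟨α, rfl⟩
      · exact absurd (by simpa using e.symm) hr.ne_one
      · exact Or.inl (by rw [← e, α.orderOf_eq, ha])
      · exact Or.inr (by rw [← e, α.orderOf_eq, hb])
    have := Char.isSolvable_of_two_primes pq
    by_cases h1 : pCore p G = ⊥
    · have h2 : pCore q G ≠ ⊥ := fun h2 => hnt (by
        rw [← card_top, card_eq_one_iff]
        refine trivg_Fitting (solvable_of ⊤) (eq_bot_iff.2 (Fitting_le_of_pcore fun r hr hd => ?_))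
        rcases pq r hr (hd.trans (card_subgroup_dvd_card _)) with rfl | rfl
        exacts [(Op_top r).trans_le h1.le, (Op_top r).trans_le h2.le])
      obtain ⟨n, hn⟩ := fwd hne hb ha h2 fun g => (h g).imp_right Or.symm
      exact ⟨q, p, n, inferInstance, inferInstance, hne, hn⟩
    · obtain ⟨n, hn⟩ := fwd hne.symm ha hb h1 h
      exact ⟨p, q, n, inferInstance, inferInstance, hne.symm, hn⟩
  rintro ⟨p, q, n, hp, hq, hne, hn, hc, hP, ho, fpf⟩
  obtain ⟨P⟩ : Nonempty (Sylow p G) := inferInstance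
  obtain ⟨nP, aP, xP⟩ := hP P
  have sP := sylowIn_top P
  generalize (P : Subgroup G) = V at *
  obtain ⟨b, hb⟩ := exists_prime_orderOf_dvd_card' (G := G) q (hc ▸ dvd_mul_left _ _)
  obtain ⟨a, ha⟩ := exists_prime_orderOf_dvd_card' (G := G) p
    (hc ▸ (dvd_pow_self p (by omega)).mul_right _)
  have pe : ∀ {x : G}, orderOf x = p → PiElt {p} x := fun h =>
    PiNat.of_dvd ((pnat_prime hp.out).2 rfl) h.dvd
  have mV : ∀ {x : G}, PiElt {p} x → x ∈ V := mem_normal_Hall sP (normal_top V) (mem_top _)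
  have oV : ∀ v ∈ V, v ≠ 1 → orderOf v = p := fun v hv v1 => orderOf_eq_prime (xP v hv) v1
  have cV : #V = p ^ n := by
    rw [card_Hall sP, card_top]
    exact partn_eq Nat.card_pos.ne' hc (pnat_pow_self hp.out n) ((pnat_prime hq.out).2 hne.symm)
  have cb : #(zpowers b) = q := by rw [Nat.card_zpowers, hb]
  have co : V.IsComplement' (zpowers b) := isComplement'_of_card_mul_and_disjoint
    (by rw [cV, cb, hc]) (disjoint_iff.2 (pgroup_p'_TI sP.pg
      (p'group_of_ne (pgroup_of_card_p cb) hne.symm)))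
  have sb : SylowIn q (zpowers b) ⊤ := sylow_mk le_top (pgroup_of_card_p cb) (by
    rw [relIndex_top_right, co.index_eq_card, cV]
    exact fun h => hne ((Nat.prime_dvd_prime_iff_eq hq.out hp.out).1 (hq.out.dvd_of_dvd_pow h)).symm)
  have a1 : a ≠ 1 := by rintro rfl; exact hp.out.ne_one (by simpa using ha.symm)
  have b1 : b ≠ 1 := by rintro rfl; exact hq.out.ne_one (by simpa using hb.symm)
  have := (nontrivial_iff_exists_ne_one V).2 ⟨a, mV (pe ha), a1⟩
  obtain ⟨t1, t2⟩ := (orderOf_eq_iff_trans (τ := MulAut.conjNormal (H := V) b) hne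
    (fun v => Subtype.ext (xP v v.2)) (by rw [← map_pow, ← hb, pow_orderOf_eq_one, map_one])
    fun v e => by
      by_contra v1
      exact fpf b v hb (oV v v.2 (by simpa using v1)) (congrArg Subtype.val e)).1 ho
  rw [← Set.ncard_univ, Set.ncard_eq_three]
  refine ⟨Quotient.mk'' 1, Quotient.mk'' a, Quotient.mk'' b, ?_, ?_, ?_,
    (Set.eq_univ_of_forall fun g => ?_).symm⟩
  · simpa [orb_eq] using a1
  · simpa [orb_eq] using b1
  · rw [Ne, orb_eq]
    rintro ⟨α, e⟩
    exact hne (by rw [← ha, ← e, α.orderOf_eq, hb])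
  induction g using Quotient.inductionOn' with
  | h g =>
  simp only [Set.mem_insert_iff, Set.mem_singleton_iff, orb_eq]
  by_cases g1 : g = 1
  · exact Or.inl ⟨1, g1.symm⟩
  by_cases gV : g ∈ V
  · obtain ⟨A, h1, h2⟩ := t1 ⟨a, mV (pe ha)⟩ ⟨g, gV⟩ (by simpa using a1) (by simpa using g1)
    obtain ⟨α, h3, -⟩ := ext_aut co A (i := 1) (by simp) (by simpa using h2)
    exact Or.inr (Or.inl ⟨α, (h3 ⟨a, _⟩).trans (congrArg Subtype.val h1)⟩)
  have o2 : orderOf (constt {p}ᶜ g) = q := by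
    have := PiNat.dvd_of_dvd_mul (p_elt_constt {p}ᶜ g) (a := q) (b := p ^ n)
      (by rw [compl_compl]; exact pnat_pow_self hp.out n)
      (by rw [mul_comm, ← hc]; exact orderOf_dvd_natCard _)
    refine ((Nat.dvd_prime hq.out).1 this).resolve_left fun h => gV (mV ?_)
    simpa using constt1P.1 (orderOf_eq_one_iff.1 h)
  have o1 : constt {p} g = 1 := by
    by_contra h
    exact fpf _ _ o2 (oV _ (mV (p_elt_constt _ _)) h)
      (mul_inv_eq_iff_eq_mul.2 (commute_constt_constt _ _ (Commute.refl g)))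
  rw [constt_p_elt (constt1P.1 o1)] at o2
  obtain ⟨k, -, hk⟩ := Sylow_Jsub sb le_top (pgroup_of_card_p (p := q) (A := zpowers g)
    (by rw [Nat.card_zpowers, o2]))
  obtain ⟨i, hi⟩ := mem_powers_iff_mem_zpowers.2 (hk (conj_mem_cj k (mem_zpowers g)))
  have qi : ¬ q ∣ i := fun h => g1 (by
    rw [← hb, orderOf_dvd_iff_pow_eq_one] at h
    simpa using hi.symm.trans h)
  obtain ⟨A, hA⟩ := t2 i qi
  obtain ⟨α, -, h4⟩ := ext_aut co A (hb ▸ (hq.out.coprime_iff_not_dvd.2 qi).symm) hA
  exact Or.inr (Or.inr ⟨MulAut.conj k⁻¹ * α, by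
    rw [MulAut.mul_apply, h4, show b ^ i = _ from hi]; simp [mul_assoc]⟩)

end Cfsg.Agent.S4081
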