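import Cfsg.Statements.S4082
import Cfsg.Agent.BG.Base6
import Cfsg.Agent.Loc.Res
import Cfsg.Agent.Invol.Dihedral
import Cfsg.Agent.Classical.PGL2Dih

set_option autoImplicit false
open Cfsg

namespace Cfsg.Agent.S4082

open Subgroup Cfsg.Agent.BG

theorem pbc {G : Type*} [Group G] [Finite G] {p : ℕ} [Fact p.Prime] {R : Subgroup G} (hR : IsPGroup p R) {x : G}
    (hx : x ∈ N[R]) : (∀ S : Sylow p ↥(R ⊔ zpowers x), (S : Subgroup ↥(R ⊔ zpowers x)).Normal) ∧
      ∀ (S : Sylow p ↥(R ⊔ zpowers x)) [(S : Subgroup ↥(R ⊔ zpowers x)).Normal],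
        IsCyclic (↥(R ⊔ zpowers x) ⧸ (S : Subgroup ↥(R ⊔ zpowers x))) := by
  haveI n : (R.subgroupOf (R ⊔ zpowers x)).Normal :=
    (normal_subgroupOf_iff_le_normalizer le_sup_left).2 (sup_le le_normalizer (zpowers_le.2 hx))
  have le : ∀ S : Sylow p ↥(R ⊔ zpowers x), R.subgroupOf (R ⊔ zpowers x) ≤ (S : Subgroup ↥(R ⊔ zpowers x)) :=
    fun S => IsPGroup.le_sylow_of_normal (N := R.subgroupOf _) hR.comap_subtype S
  have cy : ∀ (N : Subgroup ↥(R ⊔ zpowers x)) [N.Normal], R.subgroupOf _ ≤ N → IsCyclic (_ ⧸ N) := fun N _ h =>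
    ⟨⟨QuotientGroup.mk ⟨x, mem_sup_right (mem_zpowers x)⟩, fun y => by
      obtain ⟨⟨y, hy⟩, rfl⟩ := QuotientGroup.mk_surjective y
      obtain ⟨a, ha, _, ⟨k, rfl⟩, rfl⟩ := (mem_sup_norml (zpowers_le.2 hx)).1 hy
      refine ⟨k, ?_⟩
      beta_reduce
      rw [← QuotientGroup.mk_zpow, eq_comm, ← mul_inv_eq_one, ← QuotientGroup.mk_inv, ← QuotientGroup.mk_mul,
        QuotientGroup.eq_one_iff]
      exact h (by simpa [mem_subgroupOf] using ha)⟩⟩
  refine ⟨fun S => ?_, fun S _ => cy _ (le S)⟩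
  haveI := cy _ le_rfl
  exact Normal.of_commutator_le _ ((Normal.quotient_commutative_iff_commutator_le.1 inferInstance).trans (le S))

theorem split {G : Type*} [Group G] [Finite G] {p : ℕ} [Fact p.Prime] (P : Sylow p G) (H : Subgroup G)
    (h1 : ∀ S : Sylow p H, (S : Subgroup H).Normal)
    (h2 : ∀ (S : Sylow p H) [(S : Subgroup H).Normal], IsCyclic (H ⧸ (S : Subgroup H))) :
    ∃ R ≤ (P : Subgroup G), ∃ x ∈ N[R], (orderOf x).Coprime p ∧ Nonempty (H ≃* ↥(R ⊔ zpowers x)) := by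
  obtain ⟨S⟩ : Nonempty (Sylow p H) := inferInstance
  haveI := h1 S
  obtain ⟨K, hK⟩ := exists_right_complement'_of_coprime S.card_coprime_index
  obtain ⟨x, hx⟩ := cyclicP.1 (hK.symm.QuotientMulEquiv.isCyclic.1 (h2 S))
  obtain ⟨g, -, hg⟩ := Sylow_Jsub (sylowIn_top P) le_top (S.2.map H.subtype)
  refine ⟨_, hg, g * x * g⁻¹, ?_, ?_, ⟨(cjEquiv g H).trans (MulEquiv.subgroupCongr ?_)⟩⟩
  · rw [N_cj]; exact ⟨x, Loc.normal_map_subtype (h1 S) x.2, rfl⟩
  · rw [Loc.orderOf_conj', orderOf_coe, ← Nat.card_zpowers, hx, ← hK.symm.index_eq_card]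
    exact ((Nat.Prime.coprime_iff_not_dvd Fact.out).2 S.not_dvd_index).symm
  · have := congrArg (fun A => cj g (map H.subtype A)) hK.sup_eq_top
    simp only [← hx, Subgroup.map_sup, MonoidHom.map_zpowers, cj, ← MonoidHom.range_eq_map, range_subtype] at this
    exact this.symm

theorem refl {G : Type*} [Group G] [Finite G] {p n : ℕ} [hp : Fact p.Prime] (h2 : p ≠ 2) {R : Subgroup G}
    (hR : IsPGroup p R) {x : G} (hx : x ∉ C[R]) (e : ↥(R ⊔ zpowers x) ≃* DihedralGroup n) :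
    orderOf x = 2 ∧ ∀ c ∈ R, x * c * x⁻¹ = c⁻¹ := by
  obtain ⟨t, r, a1, a2, -, -, a5⟩ := Invol.exists_of_equiv_dihedral e
  have a3 : ∀ k : ℤ, t * r ^ k * t⁻¹ = r ^ (-k) := fun k => by rw [← conj_zpow, a2]; group
  have a4 : ∀ k : ℤ, t * r ^ k * (t * r ^ k) = 1 := fun k => by
    rw [show t * r ^ k * (t * r ^ k) = t * r ^ k * t⁻¹ * (t * t) * r ^ k by group, a1, a3]; group
  have a6 : ∀ c ∈ R, ∃ k : ℤ, c = r ^ k := fun c hc => by
    obtain ⟨k, h | h⟩ := (a5 c).1 (mem_sup_left hc)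
    · exact ⟨k, h⟩
    · obtain ⟨j, hj⟩ := hR ⟨c, hc⟩
      exact ⟨0, orderOf_eq_one_iff.1 (Nat.eq_one_of_dvd_coprimes (((Nat.coprime_primes Nat.prime_two hp.1).2 h2.symm).pow_right j)
        (orderOf_dvd_of_pow_eq_one (x := c) (by rw [sq, h, a4])) (orderOf_dvd_of_pow_eq_one (congrArg Subtype.val hj))) ▸ (zpow_zero r).symm⟩
  obtain ⟨k, rfl | rfl⟩ := (a5 x).1 (mem_sup_right (mem_zpowers x))
  · exact absurd (fun c hc => by obtain ⟨j, rfl⟩ := a6 c hc; group) hx
  · refine ⟨orderOf_eq_prime (by rw [sq, a4]) fun e => hx (e ▸ one_mem _), fun c hc => ?_⟩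
    obtain ⟨j, rfl⟩ := a6 c hc
    rw [show t * r ^ k * r ^ j * (t * r ^ k)⁻¹ = t * r ^ j * t⁻¹ by group, a3, zpow_neg]

/-- Let p be an odd prime and G a finite group with Sylow p-subgroup P. Say that G has restricted p-by-cyclic subgroups when every subgroup H of G whose Sylow p-subgroup is normal in H with cyclic quotient is itself cyclic or dihedral of order 2pⁿ for some n. Then G has restricted p-by-cyclic subgroups if and only if P is cyclic and one of the following holds: (1) N_G(P) = C_G(P); or (2) N_G(P)/C_G(P) has order 2 and, for the subgroup Q of order p of P, the centralizer C_G(Q) is abelian and every element of N_G(Q) outside C_G(Q) is an involution inverting every element of C_G(Q). -/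
theorem result {G : Type*} [Group G] [Finite G] {p : ℕ}
    [Fact p.Prime] (hp : p ≠ 2) (P : Sylow p G) :
    (∀ H : Subgroup G, (∀ S : Sylow p ↥H, (S : Subgroup ↥H).Normal) →
        (∀ (S : Sylow p ↥H) [(S : Subgroup ↥H).Normal], IsCyclic (↥H ⧸ (S : Subgroup ↥H))) →
        IsCyclic H ∨ (∃ n : ℕ, Nonempty (H ≃* DihedralGroup (p ^ n)))) ↔
    (IsCyclic P ∧
      (Subgroup.normalizer ((P : Subgroup G) : Set G) = Subgroup.centralizer ((P : Subgroup G) : Set G) ∨
       ((Subgroup.centralizer ((P : Subgroup G) : Set G)).relIndex (Subgroup.normalizer ((P : Subgroup G) : Set G)) = 2 ∧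
        ∀ Q : Subgroup G, Q ≤ P → Nat.card Q = p →
          IsMulCommutative ↥(Subgroup.centralizer (Q : Set G)) ∧
          ∀ x : G, x ∈ Subgroup.normalizer (Q : Set G) → x ∉ Subgroup.centralizer (Q : Set G) →
            orderOf x = 2 ∧ ∀ c : G, c ∈ Subgroup.centralizer (Q : Set G) → x * c * x⁻¹ = c⁻¹))) := by
  constructor
  · intro h
    have key : ∀ R : Subgroup G, IsPGroup p R → ∀ x ∈ N[R], x ∉ C[R] → orderOf x = 2 ∧ ∀ c ∈ R, x * c * x⁻¹ = c⁻¹ :=
      fun R hR x hx hc => by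
        rcases h _ (pbc hR hx).1 (pbc hR hx).2 with h1 | ⟨n, ⟨e⟩⟩
        · exact absurd (centralizer_le (SetLike.coe_subset_coe.2 le_sup_left) (abelian_iff.1 (cyclic_abelian h1) (mem_sup_right (mem_zpowers x)))) hc
        · exact refl hp hR hc e
    have hc : IsCyclic P := by
      rcases h _ (pbc P.2 (one_mem _)).1 (pbc P.2 (one_mem _)).2 with h1 | ⟨n, ⟨e⟩⟩
      · exact cyclicS le_sup_left h1
      · obtain ⟨k, hk⟩ := P.2.exists_card_eq
        have := Nat.card_congr e.toEquiv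
        rw [zpowers_one_eq_bot, sup_bot_eq, hk, DihedralGroup.nat_card] at this
        exact absurd ((Nat.prime_dvd_prime_iff_eq Nat.prime_two Fact.out).1
          (Nat.prime_two.dvd_of_dvd_pow (this ▸ dvd_mul_right _ _))) hp.symm
    refine ⟨hc, or_iff_not_imp_left.2 fun hn => ?_⟩
    obtain ⟨x, hx, hx'⟩ := SetLike.exists_of_lt (lt_of_le_of_ne (centralizer_le_normalizer _) (Ne.symm hn))
    have ix := (key _ P.2 x hx hx').2
    refine ⟨relIndex_eq_two_iff_exists_notMem_and.2 ⟨x, hx, hx', fun b hb => or_iff_not_imp_right.2 fun h1 c hc => ?_⟩,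
      fun Q hQ cQ => ?_⟩
    · rw [← mul_inv_eq_iff_eq_mul.1 (show b * x * c * (b * x)⁻¹ = c by
        rw [show b * x * c * (b * x)⁻¹ = b * (x * c * x⁻¹) * b⁻¹ by group, ix c hc, (key _ P.2 b hb h1).2 _ (inv_mem hc),
          inv_inv])]
    have pQ := P.2.to_le hQ
    have k2 : ∀ x ∈ N[Q], x ∉ C[Q] → orderOf x = 2 ∧ ∀ c ∈ C[Q], x * c * x⁻¹ = c⁻¹ := fun x h1 h2 =>
      ⟨(key Q pQ x h1 h2).1, fun c h3 => by
        have a1 := pow_orderOf_eq_one x
        have a2 := pow_orderOf_eq_one (x * c)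
        rw [(key Q pQ x h1 h2).1, sq] at a1
        rw [(key Q pQ _ (mul_mem h1 (centralizer_le_normalizer _ h3)) (mt (mul_mem_cancel_right h3).1 h2)).1, sq] at a2
        rw [inv_eq_of_mul_eq_one_right a1, eq_inv_iff_mul_eq_one, ← a2, mul_assoc]⟩
    have := (k2 x (norms_sub_cyclic hc hQ (zpowers_le.2 hx) (mem_zpowers x)) fun h1 => ?_).2
    · exact ⟨abelian_iff.2 fun a ha b hb => inv_injective (by
        rw [← this _ (mul_mem hb ha), mul_inv_rev, ← this a ha, ← this b hb]; group), k2⟩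
    · obtain ⟨y, hy⟩ := exists_prime_orderOf_dvd_card' (G := Q) p cQ.symm.dvd
      have a1 := ix y (hQ y.2)
      rw [← h1 y y.2, mul_inv_cancel_right, eq_inv_iff_mul_eq_one, ← sq] at a1
      have a2 := orderOf_dvd_of_pow_eq_one a1
      rw [orderOf_coe, hy] at a2
      exact hp ((Nat.prime_dvd_prime_iff_eq Fact.out Nat.prime_two).1 a2)
  · rintro ⟨hc, h⟩ H h1 h2
    obtain ⟨R, hR, x, hx, ho, ⟨e⟩⟩ := split P H h1 h2
    have pR := P.2.to_le hR
    have cR := cyclicS hR hc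
    obtain ⟨k, hk⟩ := pR.exists_card_eq
    have co : (#R).Coprime #(zpowers x) := by rw [hk, Nat.card_zpowers]; exact (ho.symm.pow_left k)
    by_cases c : x ∈ C[R]
    · exact .inl (e.isCyclic.2 (cyclicY cR inferInstance (cents_symm (zpowers_le.2 c)) co))
    have c1 : x ∉ C[omegaOne p R] := fun h3 => c (coprime_abelian_faithful_Ohm1 pR (zpowers_le.2 hx) co
      (cyclic_abelian cR) (zpowers_le.2 h3) (mem_zpowers x))
    have n1 : x ∈ N[omegaOne p R] := norms_Ohm p (zpowers_le.2 hx) (mem_zpowers x)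
    have l1 := (Ohm_sub p R).trans hR
    have l2 := cents_symm (l1.trans (abelian_iff.1 (cyclic_abelian hc)))
    rcases h with h | ⟨-, h⟩
    · have := Frattini_arg ⟨centralizer_le_normalizer _, norms_cent le_rfl⟩ (pHall_subl l2 le_top (sylowIn_top P))
      exact absurd ((sup_le le_rfl (inf_le_right.trans (h.le.trans (centralizer_le l1)))) (this.ge n1)) c1
    · obtain ⟨a1, a2⟩ := (h _ l1 (Ohm1_cyclic_pgroup_prime cR pR fun e => c (by simp [e]))).2 x n1 c1
      have a3 : x * x = 1 := by rw [← sq, ← a1, pow_orderOf_eq_one]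
      obtain ⟨f⟩ := Classical.nonempty_equiv_dihedral_of_cyclic (D := R ⊔ zpowers x) cR a3
        (fun t ht => a2 t (l2 (hR ht))) (fun h => c (abelian_iff.1 (cyclic_abelian cR) h)) fun d =>
          ⟨fun hd => by
            rw [sup_comm] at hd
            obtain ⟨a, ha, b, hb, rfl⟩ := (mem_sup_normr (zpowers_le.2 hx)).1 hd
            rcases (Invol.mem_zpowers_invol a3).1 ha with rfl | rfl <;> simp [hb],
          fun hd => hd.elim mem_sup_left fun hd => by
            simpa using mul_mem (mem_sup_right (mem_zpowers x)) (mem_sup_left hd)⟩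
      exact .inr ⟨k, ⟨e.trans (hk ▸ f)⟩⟩

end Cfsg.Agent.S4082
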