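import Cfsg.Statements.S4083
import Cfsg.Agent.S4082
import Cfsg.Agent.Invol.DihSyl
import Cfsg.Agent.GW.DihCent
import Cfsg.Agent.Classical.Triangle
import Cfsg.Agent.Classical.DicksonSL

set_option autoImplicit false
open Cfsg

namespace Cfsg.Agent.S4083

open Subgroup Cfsg.Agent.BG Cfsg.Agent.S4082

theorem cent {G : Type*} [Group G] [Finite G] {R : Subgroup G} (pR : IsPGroup 2 R) (cR : IsCyclic R) {x : G}
    (hx : x ∈ N[R]) (ho : (orderOf x).Coprime 2) : x ∈ C[R] := by
  obtain ⟨k, hk⟩ := pR.exists_card_eq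
  have h1 := relIndex_cent_cyclic_dvd cR (zpowers_le.2 hx)
  have h2 : C[R].relIndex (zpowers x) ∣ orderOf x := Nat.card_zpowers x ▸ relIndex_dvd_card _ _
  refine zpowers_le.1 (relIndex_eq_one.1 (Nat.eq_one_of_dvd_coprimes (ho.pow_right (k - 1)) h2 (h1.trans ?_)))
  rw [hk]
  obtain _ | k := k
  · simp
  · rw [Nat.totient_prime_pow_succ Nat.prime_two]; simp

/-- Let G be a finite group with Sylow 2-subgroup P. Every subgroup H of G whose Sylow 2-subgroup is normal in H with cyclic quotient is cyclic, dihedral of 2-power order, or isomorphic to the alternating group of degree 4, if and only if either P is cyclic, or P is dihedral (of order at least 4) and every elementary abelian subgroup K of order 4 of P satisfies C_G(K) = K. -/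
theorem result {G : Type*} [Group G] [Finite G] (P : Sylow 2 G) :
    (∀ H : Subgroup G, (∀ S : Sylow 2 ↥H, (S : Subgroup ↥H).Normal) →
        (∀ (S : Sylow 2 ↥H) [(S : Subgroup ↥H).Normal], IsCyclic (↥H ⧸ (S : Subgroup ↥H))) →
        IsCyclic H ∨ (∃ n : ℕ, Nonempty (H ≃* DihedralGroup (2 ^ n))) ∨ Nonempty (H ≃* alternatingGroup (Fin 4))) ↔
    (IsCyclic P ∨
      ((∃ n : ℕ, 1 ≤ n ∧ Nonempty ((P : Subgroup G) ≃* DihedralGroup (2 ^ n))) ∧
        ∀ K : Subgroup G, K ≤ P → Nat.card K = 4 → (∀ k ∈ K, k ^ 2 = 1) → Subgroup.centralizer (K : Set G) = K)) := by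
  constructor
  · intro h
    refine or_iff_not_imp_left.2 fun hc => ⟨?_, fun K hK c4 h2 => le_antisymm (fun x hx => ?_) ?_⟩
    · have e1 : (P : Subgroup G) ⊔ zpowers 1 = P := by simp
      rcases h _ (pbc P.2 (one_mem _)).1 (pbc P.2 (one_mem _)).2 with h1 | ⟨n, ⟨e⟩⟩ | ⟨⟨e⟩⟩
      · exact absurd (cyclicS le_sup_left h1) hc
      · rw [e1] at e
        refine ⟨n, Nat.pos_of_ne_zero ?_, ⟨e⟩⟩
        rintro rfl
        exact hc (isCyclic_of_prime_card (p := 2) (by rw [Nat.card_congr e.toEquiv, DihedralGroup.nat_card]; rfl))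
      · obtain ⟨k, hk⟩ := P.2.exists_card_eq
        have := Nat.card_congr e.toEquiv
        rw [e1, hk, Classical.card_alt4] at this
        have h3 : 3 ∣ 2 ^ k := by rw [this]; norm_num
        exact absurd (Nat.prime_three.dvd_of_dvd_pow h3) (by norm_num)
    · have pK := P.2.to_le hK
      have nx := centralizer_le_normalizer _ hx
      have aK : IsMulCommutative K := IsPGroup.isMulCommutative_of_card_eq_prime_sq (p := 2) c4
      have ab := abelianY aK inferInstance (cents_symm (zpowers_le.2 hx))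
      rcases h _ (pbc pK nx).1 (pbc pK nx).2 with h1 | ⟨n, ⟨e⟩⟩ | ⟨⟨e⟩⟩
      · have := cyclic_abelem_card_dvd (p := 2) (E := K) ⟨aK, h2⟩ (cyclicS le_sup_left h1)
        rw [c4] at this
        omega
      · refine (eq_of_le_of_card_ge le_sup_left ?_).ge (mem_sup_right (mem_zpowers x))
        rw [c4, Nat.card_congr e.toEquiv, DihedralGroup.nat_card]
        have := (e.symm.injective.eq_iff.1 (by
          simpa only [map_mul] using ab.is_comm.comm (e.symm (.r 1)) (e.symm (.sr 0))) :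
            (.r 1 * .sr 0 : DihedralGroup (2 ^ n)) = .sr 0 * .r 1)
        simp only [DihedralGroup.r_mul_sr, DihedralGroup.sr_mul_r, DihedralGroup.sr.injEq] at this
        have := Nat.le_of_dvd two_pos ((ZMod.natCast_eq_zero_iff 2 (2 ^ n)).1 (by linear_combination -this))
        omega
      · exact absurd (fun a b => e.symm.injective (by simpa only [map_mul] using ab.is_comm.comm (e.symm a) (e.symm b)) :
          ∀ a b : alternatingGroup (Fin 4), a * b = b * a) (by decide +kernel)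
    · exact abelian_iff.1 (IsPGroup.isMulCommutative_of_card_eq_prime_sq (p := 2) c4)
  · intro h H h1 h2
    obtain ⟨R, hR, x, hx, ho, ⟨e⟩⟩ := split P H h1 h2
    have pR := P.2.to_le hR
    obtain ⟨k, hk⟩ := pR.exists_card_eq
    have co : (#R).Coprime #(zpowers x) := by rw [hk, Nat.card_zpowers]; exact (ho.symm.pow_left k)
    by_cases cR : IsCyclic R
    · exact .inl (e.isCyclic.2 (cyclicY cR inferInstance (cents_symm (zpowers_le.2 (cent pR cR hx ho))) co))
    obtain ⟨⟨n, hn, ⟨f⟩⟩, h⟩ := h.resolve_left fun c => cR (cyclicS hR c)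
    have one : ∀ K ≤ R, IsKleinFour K → ∀ y ∈ zpowers x, y ∈ C[K] → y = 1 := fun K hK h4 y hy hc =>
      mem_bot.1 (coprime_TI co ▸ mem_inf.2 ⟨hK (h K (hK.trans hR) h4.card_four
        (fun k hk => by rw [sq, Invol.mul_self_of_mem_four h4 hk]) ▸ hc), hy⟩)
    by_cases c : x ∈ C[R]
    · obtain ⟨t, r, a1, a2, -, -, a5⟩ := Invol.exists_of_equiv_dihedral f
      have a3 : ∀ k : ℤ, t * r ^ k * t⁻¹ = r ^ (-k) := fun k => by rw [← conj_zpow, a2]; group
      obtain ⟨w, hw, wr⟩ := SetLike.not_le_iff_exists.1 fun c : R ≤ zpowers r => cR (cyclicS c inferInstance)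
      obtain ⟨j, rfl⟩ : ∃ j : ℤ, w = t * r ^ j := ((a5 w).1 (hR hw)).imp fun j hj => hj.resolve_left fun e => wr ⟨j, e.symm⟩
      have a4 : t * r ^ j * (t * r ^ j) = 1 := by
        rw [show t * r ^ j * (t * r ^ j) = t * r ^ j * t⁻¹ * (t * t) * r ^ j by group, a1, a3]; group
      have a6 : ∀ y ∈ R ⊓ zpowers r, t * r ^ j * y * (t * r ^ j)⁻¹ = y⁻¹ := by
        rintro _ ⟨-, i, rfl⟩
        rw [show t * r ^ j * r ^ i * (t * r ^ j)⁻¹ = t * r ^ i * t⁻¹ by group, a3, zpow_neg]
      have a7 : ∀ d, d ∈ R ↔ d ∈ R ⊓ zpowers r ∨ (t * r ^ j)⁻¹ * d ∈ R ⊓ zpowers r := fun d =>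
        ⟨fun hd => by
          obtain ⟨i, rfl | rfl⟩ := (a5 d).1 (hR hd)
          exacts [.inl ⟨hd, i, rfl⟩, .inr ⟨R.mul_mem (R.inv_mem hw) hd, i - j, by group⟩],
        fun hd => hd.elim (·.1) fun hd => (R.mul_mem_cancel_left (R.inv_mem hw)).1 (mem_inf.1 hd).1⟩
      obtain ⟨g⟩ := Classical.nonempty_equiv_dihedral_of_cyclic (cyclicS inf_le_right inferInstance) a4 a6
        (fun h => wr h.2) a7
      obtain ⟨m, hm⟩ := (pR.to_le (inf_le_left : R ⊓ zpowers r ≤ R)).exists_card_eq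
      obtain ⟨z, hz⟩ := exists_prime_orderOf_dvd_card' (G := ↥(R ⊓ zpowers r)) 2 (hm ▸ dvd_pow_self 2 fun m0 => cR
        (isCyclic_of_prime_card (p := 2) (by rw [Nat.card_congr g.toEquiv, DihedralGroup.nat_card, hm, m0]; rfl)))
      rw [← orderOf_coe] at hz
      have z2 : (z : G) * z = 1 := by rw [← sq, ← hz, pow_orderOf_eq_one]
      have hK : closure {(z : G), t * r ^ j} ≤ R := (closure_le _).2 (Set.pair_subset z.2.1 hw)
      obtain rfl := one _ hK (Invol.isKleinFour_closure z2 a4 (by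
        have := a6 z z.2
        rw [inv_eq_of_mul_eq_one_right z2, mul_inv_eq_iff_eq_mul] at this
        exact this.symm) (fun e => by simp [e] at hz) (fun e => wr (e ▸ one_mem _)) fun e => wr (e ▸ z.2.2)) x
        (mem_zpowers x) (centS hK c)
      exact .inr (.inl ⟨m, ⟨(e.trans (MulEquiv.subgroupCongr (by simp))).trans (hm ▸ g)⟩⟩)
    obtain ⟨n, rfl⟩ : ∃ m, n = m + 1 := ⟨n - 1, by omega⟩
    obtain ⟨r, s, D⟩ := Invol.exists_dih f
    have oo := Nat.coprime_two_right.1 ho
    have h4 := D.four_of_not_triv P.2 hR fun ht => by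
      obtain ⟨d, hd, h3⟩ := ht x hx oo
      obtain ⟨i, hi⟩ := pR ⟨d, hd⟩
      have h5 : ∀ (m : ℕ), ∀ a ∈ R, x ^ m * a * (x ^ m)⁻¹ = d ^ m * a * (d ^ m)⁻¹ := fun m => by
        induction m with
        | zero => simp
        | succ m ih =>
          intro a ha
          rw [show x ^ (m + 1) * a * (x ^ (m + 1))⁻¹ = x * (x ^ m * a * (x ^ m)⁻¹) * x⁻¹ by rw [pow_succ']; group, ih a ha,
            h3 _ (mul_mem (mul_mem (pow_mem hd m) ha) (inv_mem (pow_mem hd m))), pow_succ']; group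
      refine c (Loc.mem_of_pow_mem_of_coprime (n := 2 ^ i) (fun a ha => ?_) (ho.pow_right i))
      have := h5 (2 ^ i) a ha
      rw [show d ^ 2 ^ i = 1 from congrArg Subtype.val hi, one_mul, inv_one, mul_one, mul_inv_eq_iff_eq_mul] at this
      exact this.symm
    obtain ⟨v, v', v2, -, -, v1, -, -, hv⟩ := Invol.exists_of_isKleinFour h4
    have vR : v ∈ R := (hv v).2 (by simp)
    have nf : ∀ y ∈ zpowers x, y * v * y⁻¹ = v → y = 1 := fun y hy e => one R le_rfl h4 y hy (GW.four_odd_cent h4 vR v1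
      (zpowers_le.2 hx hy) (oo.of_dvd_nat (orderOf_dvd_of_mem_zpowers hy)) (mem_cent1.2 (mul_inv_eq_iff_eq_mul.1 e)))
    have x1 : x ≠ 1 := fun e => c (e ▸ one_mem _)
    have w1 := conj_mem_of_norm hx vR
    have w2 : x * v * x⁻¹ ≠ v := fun e => x1 (nf x (mem_zpowers x) e)
    have m4 := Invol.mem_four_iff h4 vR w1 v1 (by simpa using v1) w2.symm
    have w3 : x * (x * v * x⁻¹) * x⁻¹ = v * (x * v * x⁻¹) := by
      rcases (m4 _).1 (conj_mem_of_norm hx w1) with e | e | e | e
      · simp [v1] at e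
      · have := nf (x ^ 2) (pow_mem (mem_zpowers x) 2) (Eq.trans (by rw [sq]; group) e)
        exact absurd (orderOf_eq_one_iff.1 (Nat.eq_one_of_dvd_coprimes ho dvd_rfl (orderOf_dvd_of_pow_eq_one this))) x1
      · exact absurd ((MulAut.conj x).injective e) w2
      · exact e
    have cm := (Invol.commute_of_mem_four h4 vR w1).eq
    have x3 : x ^ 3 = 1 := nf _ (pow_mem (mem_zpowers x) 3) (by
      calc x ^ 3 * v * (x ^ 3)⁻¹ = x * (x * (x * v * x⁻¹) * x⁻¹) * x⁻¹ := by rw [pow_three]; group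
      _ = x * (v * (x * v * x⁻¹)) * x⁻¹ := by rw [w3]
      _ = x * v * x⁻¹ * (x * (x * v * x⁻¹) * x⁻¹) := by group
      _ = v := by rw [w3, ← mul_assoc, ← cm, mul_assoc, Invol.mul_self_of_mem_four h4 w1, mul_one])
    obtain ⟨g⟩ := Classical.Tri.equiv_alt4 (x := x⁻¹) (y := x * v) ⟨by rw [inv_pow, x3, inv_one], by
      calc (x * v) ^ 3 = x * v * x⁻¹ * (x * (x * v * x⁻¹) * x⁻¹) * x ^ 3 * v := by rw [pow_three, pow_three]; group
      _ = 1 := by rw [w3, x3, mul_one, ← mul_assoc, ← cm, mul_assoc v, Invol.mul_self_of_mem_four h4 w1, mul_one, v2],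
      by simp [sq, v2]⟩ (by simpa using v1)
    refine .inr (.inr ⟨(e.trans (MulEquiv.subgroupCongr (le_antisymm ?_ ((closure_le _).2 (Set.pair_subset
      (inv_mem (mem_sup_right (mem_zpowers x))) (mul_mem (mem_sup_right (mem_zpowers x)) (mem_sup_left vR))))))).trans g⟩)
    have b1 : x ∈ closure {x⁻¹, x * v} := inv_mem_iff.1 (subset_closure (by simp))
    have b2 : v ∈ closure {x⁻¹, x * v} := (mul_mem_cancel_left b1).1 (subset_closure (by simp))
    have b3 := mul_mem (mul_mem b1 b2) (inv_mem b1)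
    refine sup_le (fun a ha => ?_) (zpowers_le.2 b1)
    rcases (m4 a).1 ha with rfl | rfl | rfl | rfl
    exacts [one_mem _, b2, b3, mul_mem b2 b3]

end Cfsg.Agent.S4083
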