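import Cfsg.Statements.S4085
import Mathlib.GroupTheory.SpecificGroups.Cyclic
import Mathlib.Tactic

set_option autoImplicit false
open Cfsg

namespace Cfsg.Agent.S4085

open Subgroup

section
variable {G : Type*} [Group G] [Finite G]

def adj (x y : G) : Prop := x ∈ zpowers y ∨ y ∈ zpowers x

omit [Finite G] in
theorem adj.symm {x y : G} (h : adj x y) : adj y x := Or.symm h

theorem ncard_ord (x : G) {d : ℕ} (hd : d ∣ orderOf x) :
    {u | u ∈ zpowers x ∧ orderOf u = d}.ncard = d.totient := by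
  classical
  have := Fintype.ofFinite G
  have h := IsCyclic.card_orderOf_eq_totient (α := zpowers x) (d := d)
    (by rwa [Fintype.card_zpowers])
  rw [← h, ← Set.ncard_coe_finset, ← Set.ncard_image_of_injective _ Subtype.val_injective]
  congr 1
  ext u
  simp only [Set.mem_ofPred_eq, Finset.coe_filter, Finset.mem_univ, true_and, Set.mem_image]
  exact ⟨fun h => ⟨⟨u, h.1⟩, (orderOf_coe _).symm.trans h.2, rfl⟩,
    fun ⟨v, hv, e⟩ => e ▸ ⟨v.2, (orderOf_coe v).trans hv⟩⟩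

theorem mem_of_le {u v : G} (h : u ∈ zpowers v) (hle : orderOf v ≤ orderOf u) : v ∈ zpowers u := by
  have : zpowers u = zpowers v := eq_of_le_of_card_ge (zpowers_le.mpr h)
    (by rwa [Nat.card_zpowers, Nat.card_zpowers])
  exact this ▸ mem_zpowers v

theorem mem_of_dvd {x u v : G} (hu : u ∈ zpowers x) (hv : v ∈ zpowers x)
    (h : orderOf u ∣ orderOf v) : u ∈ zpowers v := by
  have h1 : {w | w ∈ zpowers v ∧ orderOf w = orderOf u} =
      {w | w ∈ zpowers x ∧ orderOf w = orderOf u} := by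
    refine Set.eq_of_subset_of_ncard_le (fun w hw => ⟨zpowers_le.mpr hv hw.1, hw.2⟩) ?_
    rw [ncard_ord v h, ncard_ord x (orderOf_dvd_of_mem_zpowers hu)]
  have : u ∈ {w | w ∈ zpowers v ∧ orderOf w = orderOf u} := h1 ▸ ⟨hu, rfl⟩
  exact this.1

theorem adj_iff {x u v : G} (hu : u ∈ zpowers x) (hv : v ∈ zpowers x) :
    adj u v ↔ orderOf u ∣ orderOf v ∨ orderOf v ∣ orderOf u :=
  or_congr ⟨orderOf_dvd_of_mem_zpowers, mem_of_dvd hu hv⟩
    ⟨orderOf_dvd_of_mem_zpowers, mem_of_dvd hv hu⟩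

theorem exists_ord (x : G) {d : ℕ} (hd : d ∣ orderOf x) : ∃ u ∈ zpowers x, orderOf u = d :=
  ⟨_, npow_mem_zpowers x _, orderOf_pow_orderOf_div (orderOf_pos x).ne' hd⟩

omit [Group G] [Finite G] in
theorem sep {n p q d d' : ℕ} (hn : n ≠ 0) (hp : p.Prime) (hq : q.Prime) (hpq : p ≠ q) (h1 : p ∣ n)
    (h2 : q ∣ n) (hd : d ∣ d') (hd' : d' ∣ n) (hd1 : d ≠ 1) (hne : d ≠ d') :
    ∃ c, c ∣ n ∧ ¬ ((d ∣ c ∨ c ∣ d) ↔ (d' ∣ c ∨ c ∣ d')) := by
  obtain ⟨m, rfl⟩ := hd
  have hd0 : d ≠ 0 := fun h => hn (by simpa [h] using hd')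
  have hm1 : m ≠ 1 := fun h => hne (by rw [h, mul_one])
  by_cases h : ∃ r s : ℕ, r.Prime ∧ s.Prime ∧ r ≠ s ∧ s ∣ d ∧ r ∣ m
  · obtain ⟨r, s, hr, hs, hrs, ⟨a, rfl⟩, hm⟩ := h
    have ha : 0 < a := Nat.pos_of_ne_zero fun h => hd0 (by simp [h])
    have h3 : r * a ∣ s * a * m := by
      rw [mul_assoc, mul_comm a]; exact (Nat.mul_dvd_mul_right hm a).mul_left s
    refine ⟨r * a, h3.trans hd', fun h => ?_⟩
    rcases h.mpr (Or.inr h3) with h | h
    · exact hrs ((Nat.prime_dvd_prime_iff_eq hs hr).mp (Nat.dvd_of_mul_dvd_mul_right ha h)).symm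
    · exact hrs ((Nat.prime_dvd_prime_iff_eq hr hs).mp (Nat.dvd_of_mul_dvd_mul_right ha h))
  · obtain ⟨s, hs, hsd⟩ := Nat.exists_prime_and_dvd hd1
    obtain ⟨r, hr, hrm⟩ := Nat.exists_prime_and_dvd hm1
    obtain rfl : r = s := by_contra fun hrs => h ⟨r, s, hr, hs, hrs, hsd, hrm⟩
    obtain ⟨t, ht, htn, htr⟩ : ∃ t : ℕ, t.Prime ∧ t ∣ n ∧ t ≠ r := by
      by_cases e : p = r
      · exact ⟨q, hq, h2, e ▸ hpq.symm⟩
      · exact ⟨p, hp, h1, e⟩
    have a1 : ¬ t ∣ d := fun e => h ⟨r, t, hr, ht, htr.symm, e, hrm⟩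
    have a2 : ¬ t ∣ m := fun e => h ⟨t, r, ht, hr, htr, hsd, e⟩
    refine ⟨d * t, (ht.coprime_iff_not_dvd.mpr a1).symm.mul_dvd_of_dvd_of_dvd
      ((dvd_mul_right d m).trans hd') htn, fun h => ?_⟩
    rcases h.mp (Or.inl (dvd_mul_right d t)) with h | h
    · exact htr ((Nat.prime_dvd_prime_iff_eq hr ht).mp
        (hrm.trans (Nat.dvd_of_mul_dvd_mul_left (Nat.pos_of_ne_zero hd0) h))).symm
    · exact a2 (Nat.dvd_of_mul_dvd_mul_left (Nat.pos_of_ne_zero hd0) h)

theorem twin {x u v : G} {p q : ℕ} (hp : p.Prime) (hq : q.Prime) (hpq : p ≠ q)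
    (h1 : p ∣ orderOf x) (h2 : q ∣ orderOf x) (hu : u ∈ zpowers x) (hv : v ∈ zpowers x)
    (hu1 : u ≠ 1) (hv1 : v ≠ 1) (h : ∀ w ∈ zpowers x, adj u w ↔ adj v w) :
    orderOf u = orderOf v := by
  have key : ∀ u v : G, u ∈ zpowers x → v ∈ zpowers x → u ≠ 1 →
      (∀ w ∈ zpowers x, adj u w ↔ adj v w) → orderOf u ∣ orderOf v → orderOf u = orderOf v := by
    intro u v hu hv hu1 h hd
    by_contra hne
    obtain ⟨c, hc, hn⟩ := sep (orderOf_pos x).ne' hp hq hpq h1 h2 hd
      (orderOf_dvd_of_mem_zpowers hv) (by rwa [Ne, orderOf_eq_one_iff]) hne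
    obtain ⟨w, hw, rfl⟩ := exists_ord x hc
    exact hn ((adj_iff hu hw).symm.trans ((h w hw).trans (adj_iff hv hw)))
  rcases (adj_iff hu hv).mp ((h v hv).mpr (Or.inl (mem_zpowers v))) with hd | hd
  · exact key u v hu hv hu1 h hd
  · exact (key v u hv hu hv1 (fun w hw => (h w hw).symm) hd).symm

theorem dom {x u : G} {p q : ℕ} (hp : p.Prime) (hq : q.Prime) (hpq : p ≠ q)
    (h1 : p ∣ orderOf x) (h2 : q ∣ orderOf x) (hu : u ∈ zpowers x)
    (h : ∀ w ∈ zpowers x, adj u w) : u = 1 ∨ orderOf u = orderOf x := by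
  by_cases hu1 : u = 1
  · exact Or.inl hu1
  · refine Or.inr (twin hp hq hpq h1 h2 hu (mem_zpowers x) hu1 ?_ fun w hw =>
      iff_of_true (h w hw) (Or.inr hw))
    rintro rfl
    rw [orderOf_one, Nat.dvd_one] at h1
    exact hp.one_lt.ne' h1

theorem ncard_dom (x : G) (hx : x ≠ 1) :
    {u | u ∈ zpowers x ∧ (u = 1 ∨ orderOf u = orderOf x)}.ncard = (orderOf x).totient + 1 := by
  rw [← ncard_ord x dvd_rfl, ← Set.ncard_insert_of_notMem (a := 1)
    (fun h => hx (orderOf_eq_one_iff.mp (h.2.symm.trans orderOf_one)))]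
  congr 1
  ext u
  constructor
  · rintro ⟨h1, h | h⟩
    exacts [Or.inl h, Or.inr ⟨h1, h⟩]
  · rintro (rfl | h)
    exacts [⟨one_mem _, Or.inl rfl⟩, ⟨h.1, Or.inr h.2⟩]

omit [Finite G] in
theorem adj_congr {v v' : G} (h : v ∈ zpowers v') (h' : v' ∈ zpowers v) (w : G) :
    adj v w ↔ adj v' w := by
  have key : ∀ v v' : G, v ∈ zpowers v' → v' ∈ zpowers v → adj v w → adj v' w := by
    rintro v v' h h' (a | a)
    exacts [Or.inl (zpowers_le.mpr a h'), Or.inr (zpowers_le.mpr h a)]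
  exact ⟨key v v' h h', key v' v h' h⟩

end

theorem tot {a b : ℕ} (h : a ∣ b) (hne : a ≠ b) (hb : 0 < b) (hle : b.totient ≤ a.totient) :
    2 ∣ b ∧ ¬ 2 ∣ a := by
  have e : a.totient = b.totient :=
    le_antisymm (Nat.le_of_dvd (Nat.totient_pos.mpr hb) (Nat.totient_dvd_of_dvd h)) hle
  obtain rfl := (Nat.eq_or_eq_of_totient_eq_totient h e).resolve_left hne
  refine ⟨dvd_mul_right _ _, fun h2 => ?_⟩
  rw [Nat.totient_two_mul_of_even (even_iff_two_dvd.mpr h2)] at e
  have := Nat.totient_pos.mpr (show 0 < a by omega)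
  omega

theorem aux {G H : Type*} [Group G] [Finite G] [Group H] [Finite H] (e : G ≃ H)
    (he : ∀ x y : G, adj x y ↔ adj (e x) (e y))
    {p q : ℕ} (hp : p.Prime) (hq : q.Prime) (hpq : p ≠ q) (g : G) (hg : orderOf g = p * q) :
    ∃ h : H, orderOf h = p * q := by
  obtain ⟨x, hgx, hmax⟩ := Set.exists_max_image {x | g ∈ zpowers x} orderOf (Set.toFinite _)
    ⟨g, mem_zpowers g⟩
  have hn : p * q ∣ orderOf x := hg ▸ orderOf_dvd_of_mem_zpowers hgx
  have h1 : p ∣ orderOf x := (dvd_mul_right p q).trans hn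
  have h2 : q ∣ orderOf x := (dvd_mul_left q p).trans hn
  have h6 : 2 < orderOf x := by
    have := Nat.le_of_dvd (orderOf_pos x) hn
    have := hp.two_le
    have := hq.two_le
    nlinarith
  have hx1 : x ≠ 1 := fun h => by rw [h, orderOf_one] at h6; omega
  have hM : ∀ w, adj x w ↔ w ∈ zpowers x := fun w =>
    ⟨fun h => h.elim (fun h => mem_of_le h (hmax w (zpowers_le.mpr h hgx))) id, Or.inr⟩
  have he' : ∀ u v, adj u (e.symm v) ↔ adj (e u) v := fun u v => by rw [he, e.apply_symm_apply]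
  -- the dominating vertices
  set D := {u | u ∈ zpowers x ∧ (u = 1 ∨ orderOf u = orderOf x)} with hD
  have hgen : ∀ u ∈ zpowers x, orderOf u = orderOf x → ∀ w, adj u w ↔ w ∈ zpowers x :=
    fun u hu h w => (adj_congr hu (mem_of_le hu h.ge) w).trans (hM w)
  have hone : ∀ w, adj (e.symm 1) w := fun w =>
    ((he' w 1).mpr (Or.inr (one_mem _))).symm
  have hoM : e.symm 1 ∈ zpowers x := (hM _).mp (hone x).symm
  have hoD : e.symm 1 ∈ D := ⟨hoM, dom hp hq hpq h1 h2 hoM fun w _ => hone w⟩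
  have hA : ∀ u ∈ D, e u ≠ 1 → ∀ w, adj u w ↔ w ∈ zpowers x := by
    rintro u ⟨hu, rfl | h⟩ hne w
    · refine iff_of_true (Or.inl (one_mem _)) ((hgen _ hoM (hoD.2.resolve_left fun h => hne ?_)
        w).mp (hone w))
      rw [← h, e.apply_symm_apply]
    · exact hgen u hu h w
  have hDa : ∀ u ∈ D, ∀ w ∈ zpowers x, adj u w := by
    rintro u ⟨hu, rfl | h⟩ w hw
    exacts [Or.inl (one_mem _), (hgen u hu h w).mpr hw]
  obtain ⟨y, ⟨hyD, hy1⟩, hymax⟩ := Set.exists_max_image {u | u ∈ D ∧ e u ≠ 1}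
    (fun u => orderOf (e u)) (Set.toFinite _) (by
      by_cases h : e x = 1
      · exact ⟨1, ⟨one_mem _, Or.inl rfl⟩, fun h' => hx1 (e.injective (h.trans h'.symm))⟩
      · exact ⟨x, ⟨mem_zpowers x, Or.inr rfl⟩, h⟩)
  have hS : ∀ v, adj (e y) v ↔ e.symm v ∈ zpowers x := fun v => (he' y v).symm.trans (hA y hyD hy1 _)
  have hDy : ∀ u ∈ D, e u ∈ zpowers (e y) := fun u hu => by
    by_cases h : e u = 1
    · rw [h]; exact one_mem _
    · exact ((he y u).mp (hDa y hyD u hu.1)).elim (fun h' => mem_of_le h' (hymax u ⟨hu, h⟩)) id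
  have cD : (e '' D).ncard = (orderOf x).totient + 1 := by
    rw [Set.ncard_image_of_injective _ e.injective, ncard_dom x hx1]
  have hcl : ∀ u ∈ zpowers x, u ∉ D → (orderOf (e u)).totient ≤ (orderOf u).totient := by
    intro u hu huD
    rw [← ncard_ord (e u) dvd_rfl, ← ncard_ord x (orderOf_dvd_of_mem_zpowers hu),
      ← Set.ncard_image_of_injective _ e.symm.injective]
    refine Set.ncard_le_ncard ?_
    rintro _ ⟨v, ⟨hv, ho⟩, rfl⟩
    have ht : ∀ w, adj (e.symm v) w ↔ adj u w := fun w => by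
      rw [he, he, e.apply_symm_apply]; exact adj_congr hv (mem_of_le hv ho.ge) _
    have hvM : e.symm v ∈ zpowers x := (hM _).mp ((ht x).mpr (Or.inl hu)).symm
    refine ⟨hvM, twin hp hq hpq h1 h2 hvM hu (fun h => huD ⟨hu, dom hp hq hpq h1 h2 hu
      fun w _ => (ht w).mp (h ▸ Or.inl (one_mem _))⟩) (fun h => huD ⟨hu, Or.inl h⟩)
      fun w _ => ht w⟩
  by_cases hi : ∀ w, e y ∈ zpowers w → w ∈ zpowers (e y)
  · have h3 : orderOf (e y) = orderOf x := by
      rw [← Nat.card_zpowers, ← Nat.card_zpowers]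
      exact Nat.card_congr (e.symm.subtypeEquiv fun v =>
        ⟨fun h => (hS v).mp (Or.inr h), fun h => ((hS v).mpr h).elim (hi v) id⟩)
    obtain ⟨h, -, hh⟩ := exists_ord (e y) (h3 ▸ hn)
    exact ⟨h, hh⟩
  exfalso
  have hk1 : orderOf (e y) ≠ 1 := by rwa [Ne, orderOf_eq_one_iff]
  obtain ⟨r, hr, hrk⟩ := Nat.exists_prime_and_dvd hk1
  by_cases hpp : ∀ s : ℕ, s.Prime → s ∣ orderOf (e y) → s = r
  · have hk := Nat.eq_prime_pow_of_unique_prime_dvd (orderOf_pos (e y)).ne' (fun {s} => hpp s)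
    generalize (orderOf (e y)).primeFactorsList.length = t at hk
    have ht : 0 < t := Nat.pos_of_ne_zero fun h => hk1 (by rw [hk, h, pow_zero])
    have hsub : ∀ u, e u ∈ zpowers (e y) → u ∈ D := fun u hu => by
      have huM : u ∈ zpowers x := (hA y hyD hy1 u).mp ((he y u).mpr (Or.inr hu))
      refine ⟨huM, dom hp hq hpq h1 h2 huM fun w hw => (he u w).mpr ?_⟩
      rcases (he y w).mp (hDa y hyD w hw) with h | h
      · exact Or.inl (zpowers_le.mpr h hu)
      · obtain ⟨i, -, hi⟩ := (Nat.dvd_prime_pow hr).mp (hk ▸ orderOf_dvd_of_mem_zpowers hu)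
        obtain ⟨j, -, hj⟩ := (Nat.dvd_prime_pow hr).mp (hk ▸ orderOf_dvd_of_mem_zpowers h)
        rw [adj_iff hu h, hi, hj]
        exact (le_total i j).imp (pow_dvd_pow r) (pow_dvd_pow r)
    have h3 : (orderOf x).totient + 1 ≤ orderOf (e y) := by
      rw [← cD, ← Nat.card_zpowers, ← SetLike.coe_sort_coe, Nat.card_coe_set_eq]
      refine Set.ncard_le_ncard ?_
      rintro _ ⟨u, hu, rfl⟩
      exact hDy u hu
    have h4 : orderOf (e y) ≤ 2 * (orderOf (e y)).totient := by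
      obtain ⟨t, rfl⟩ := Nat.exists_eq_succ_of_ne_zero ht.ne'
      rw [hk, Nat.totient_prime_pow_succ hr, pow_succ, mul_left_comm]
      have := hr.two_le
      exact Nat.mul_le_mul_left _ (by omega)
    have h5 : ∀ l : ℕ, l.Prime → l ∣ orderOf x → l ≠ orderOf x →
        (orderOf (e y)).totient ≤ l - 1 := fun l hl hd hne => by
      obtain ⟨u, hu, ho⟩ := exists_ord x hd
      have huD : u ∉ D := fun h => h.2.elim
        (fun h => hl.one_lt.ne (by rw [← ho, h, orderOf_one])) fun h => hne (ho ▸ h)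
      have a1 := hcl u hu huD
      rw [ho, Nat.totient_prime hl] at a1
      have a2 := ((he y u).mp (hDa y hyD u hu)).resolve_right fun h => huD (hsub u h)
      exact (Nat.le_of_dvd (Nat.totient_pos.mpr (orderOf_pos _))
        (Nat.totient_dvd_of_dvd (orderOf_dvd_of_mem_zpowers a2))).trans a1
    have h7 := Nat.le_of_dvd (Nat.totient_pos.mpr (orderOf_pos _)) (Nat.totient_dvd_of_dvd hn)
    rw [Nat.totient_mul ((Nat.coprime_primes hp hq).mpr hpq), Nat.totient_prime hp,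
      Nat.totient_prime hq] at h7
    have h8 := h5 p hp h1 fun h => hpq ((Nat.prime_dvd_prime_iff_eq hq hp).mp (h ▸ h2)).symm
    have h9 := h5 q hq h2 fun h => hpq ((Nat.prime_dvd_prime_iff_eq hp hq).mp (h ▸ h1))
    have := hp.two_le
    have := hq.two_le
    have a1 : (p - 1) * (q - 1) < (p - 1) * 2 := by omega
    have a2 : (p - 1) * (q - 1) < 2 * (q - 1) := by omega
    have := Nat.lt_of_mul_lt_mul_left a1
    have := Nat.lt_of_mul_lt_mul_right a2
    omega
  · push Not at hpp hi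
    obtain ⟨s, hs, hsk, hsr⟩ := hpp
    obtain ⟨w, hw, hw'⟩ := hi
    have h3 : (orderOf x).totient + 1 ≤ (orderOf (e y)).totient + 1 := by
      rw [← cD, ← ncard_dom (e y) hy1]
      refine Set.ncard_le_ncard ?_
      rintro _ ⟨u, hu, rfl⟩
      exact ⟨hDy u hu, dom hs hr hsr hsk hrk (hDy u hu) fun v hv =>
        (he' u v).mp (hDa u hu _ ((hS v).mp (Or.inr hv)))⟩
    have huM := (hS w).mp (Or.inl hw)
    have huD : e.symm w ∉ D := fun h => hw' (by simpa using hDy _ h)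
    have a1 := hcl _ huM huD
    rw [e.apply_symm_apply] at a1
    have a2 := Nat.le_of_dvd (Nat.totient_pos.mpr (orderOf_pos _))
        (Nat.totient_dvd_of_dvd (orderOf_dvd_of_mem_zpowers hw))
    have a3 := Nat.le_of_dvd (Nat.totient_pos.mpr (orderOf_pos _))
        (Nat.totient_dvd_of_dvd (orderOf_dvd_of_mem_zpowers huM))
    have b1 := (tot (orderOf_dvd_of_mem_zpowers huM) (fun h => huD ⟨huM, Or.inr h⟩)
      (orderOf_pos _) (by omega)).1
    have b2 := (tot (orderOf_dvd_of_mem_zpowers hw) (fun h => hw' (mem_of_le hw h.ge))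
      (orderOf_pos _) (by omega)).2
    obtain ⟨i, hiM, ho⟩ := exists_ord x b1
    have hiD : i ∉ D := fun h => h.2.elim
        (fun h => by rw [h, orderOf_one] at ho; omega) fun h => by omega
    have c1 := hcl i hiM hiD
    rw [ho, Nat.totient_two] at c1
    have c2 : orderOf (e i) = 2 := (Nat.totient_eq_one_iff.mp (le_antisymm c1
      (Nat.totient_pos.mpr (orderOf_pos _)))).resolve_left fun h => hiD (by
        rw [orderOf_eq_one_iff] at h
        rw [← h, e.symm_apply_apply] at hoD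
        exact hoD)
    rcases (he y i).mp (hDa y hyD i hiM) with h | h
    · have := orderOf_dvd_of_mem_zpowers h
      rw [c2] at this
      rcases (Nat.dvd_prime Nat.prime_two).mp this with h | h
      exacts [hk1 h, b2 (h ▸ dvd_rfl)]
    · exact b2 (c2 ▸ orderOf_dvd_of_mem_zpowers h)

/-- Let G and H be finite groups whose power graphs are isomorphic: there is a bijection e : G → H such that, for all x, y, one of x, y is a power of the other exactly when one of e(x), e(y) is a power of the other. Then G and H have the same prime graph: for distinct primes p, q, G has an element of order pq if and only if H does. -/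
theorem result {G H : Type*} [Group G] [Finite G] [Group H] [Finite H] (e : G ≃ H)
    (he : ∀ x y : G, (x ∈ Subgroup.zpowers y ∨ y ∈ Subgroup.zpowers x) ↔
      (e x ∈ Subgroup.zpowers (e y) ∨ e y ∈ Subgroup.zpowers (e x)))
    {p q : ℕ} (hp : p.Prime) (hq : q.Prime) (hpq : p ≠ q) :
    (∃ g : G, orderOf g = p * q) ↔ (∃ h : H, orderOf h = p * q) := by
  exact ⟨fun ⟨g, hg⟩ => aux e he hp hq hpq g hg, fun ⟨g, hg⟩ => aux e.symm (fun x y => by
    have := he (e.symm x) (e.symm y)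
    rw [e.apply_symm_apply, e.apply_symm_apply] at this
    exact this.symm) hp hq hpq g hg⟩

end Cfsg.Agent.S4085
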