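import Cfsg.Statements.S4086
import Cfsg.Agent.Gen2.Cyc
import Mathlib.Data.Nat.Factorization.PrimePow

set_option autoImplicit false
open Cfsg

namespace Cfsg.Agent.S4086

open Subgroup

/-- For a finite group G the following are equivalent: every non-identity element has prime-power order; whenever two elements generate a cyclic subgroup, one of them is a power of the other (the enhanced power graph of G coincides with its power graph). -/
theorem result {G : Type*} [Group G] [Finite G] :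
    (∀ g : G, g ≠ 1 → IsPrimePow (orderOf g)) ↔
    (∀ x y : G, IsCyclic ↥(Subgroup.closure ({x, y} : Set G)) → (x ∈ Subgroup.zpowers y ∨ y ∈ Subgroup.zpowers x)) := by
  constructor
  · intro h x y hc
    obtain ⟨g, hg⟩ := (Subgroup.isCyclic_iff_exists_zpowers_eq_top _).1 hc
    have hx : x ∈ zpowers g := hg ▸ subset_closure (by simp)
    have hy : y ∈ zpowers g := hg ▸ subset_closure (by simp)
    by_cases h1 : g = 1
    · subst h1
      rw [zpowers_one_eq_bot, mem_bot] at hx
      exact Or.inl (hx ▸ one_mem _)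
    obtain ⟨p, k, hp, -, hk⟩ := h g h1
    have hp' := hp.nat_prime
    obtain ⟨i, -, hi⟩ := (Nat.dvd_prime_pow hp').1 (hk ▸ orderOf_dvd_of_mem_zpowers hx)
    obtain ⟨j, -, hj⟩ := (Nat.dvd_prime_pow hp').1 (hk ▸ orderOf_dvd_of_mem_zpowers hy)
    rcases le_total i j with hij | hij
    · exact Or.inl (Gen2.mem_zpowers_of_orderOf_dvd hx hy (hi ▸ hj ▸ pow_dvd_pow p hij))
    · exact Or.inr (Gen2.mem_zpowers_of_orderOf_dvd hy hx (hi ▸ hj ▸ pow_dvd_pow p hij))
  · intro h g hg
    rw [isPrimePow_iff_unique_prime_dvd]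
    obtain ⟨p, hp, hpd⟩ := Nat.exists_prime_and_dvd (mt orderOf_eq_one_iff.1 hg)
    refine ⟨p, ⟨hp, hpd⟩, fun q ⟨hq, hqd⟩ => ?_⟩
    rw [← Nat.card_zpowers] at hpd hqd
    obtain ⟨a, ha, hao⟩ := Gen2.exists_mem_orderOf_eq_prime hp hpd
    obtain ⟨b, hb, hbo⟩ := Gen2.exists_mem_orderOf_eq_prime hq hqd
    have hle : closure ({a, b} : Set G) ≤ zpowers g := by
      rw [closure_le, Set.insert_subset_iff, Set.singleton_subset_iff]
      exact ⟨ha, hb⟩
    rcases h a b (isCyclic_of_le hle) with h1 | h1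
    · exact ((Nat.prime_dvd_prime_iff_eq hp hq).1 (hao ▸ hbo ▸ orderOf_dvd_of_mem_zpowers h1)).symm
    · exact (Nat.prime_dvd_prime_iff_eq hq hp).1 (hao ▸ hbo ▸ orderOf_dvd_of_mem_zpowers h1)

end Cfsg.Agent.S4086
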