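import Cfsg.Statements.S4088
import Cfsg.Agent.Gen2.Subnorm

set_option autoImplicit false
open Cfsg

namespace Cfsg.Agent.S4088

open scoped Pointwise

/-- Let G be a finite group, p a prime dividing the order of G, H a p-subgroup of G and P a Sylow p-subgroup of G. Call the subnormalizer of H the set of elements g of G such that H is subnormal in the subgroup generated by H and g. Then the number of elements of the subnormalizer of H equals the number of Sylow p-subgroups of G containing H times the order of N_G(P), and also equals the number of conjugates of H contained in P times the order of N_G(H). -/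
theorem result {G : Type*} [Group G] [Finite G] (p : ℕ) [Fact p.Prime]
    (hp : p ∣ Nat.card G) (H : Subgroup G) (hH : IsPGroup p H) (P : Sylow p G) :
    Nat.card {g : G // ((H).subgroupOf (H ⊔ Subgroup.zpowers g)).IsSubnormal} =
        Nat.card {Q : Sylow p G // H ≤ (Q : Subgroup G)} * Nat.card (Subgroup.normalizer ((P : Subgroup G) : Set G)) ∧
    Nat.card {g : G // ((H).subgroupOf (H ⊔ Subgroup.zpowers g)).IsSubnormal} =
        Nat.card {K : Subgroup G // K ≤ (P : Subgroup G) ∧ ∃ g : G, K = H.map (MulAut.conj g).toMonoidHom} *
          Nat.card (Subgroup.normalizer (H : Set G)) := by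
  rw [Gen2.card_subnormalizer hH P]
  constructor
  · have h := Gen2.card_smul_mem (G := G) P fun Q : Sylow p G => H ≤ Q
    simp only [MulAction.exists_smul_eq G P, and_true, Sylow.stabilizer_eq_normalizer] at h
    exact h
  · let _ : MulAction G (Subgroup G) := MulAction.compHom _ (MulAut.conj : G →* MulAut G)
    have h := Gen2.card_smul_mem (G := G) H fun K : Subgroup G => K ≤ P
    have h1 : MulAction.stabilizer G H = Subgroup.normalizer (H : Set G) :=
      Subgroup.ext fun g => Solv.conj_smul_eq_self_iff
    rw [h1] at h
    refine Eq.trans (Nat.card_congr ((Equiv.inv G).subtypeEquiv fun x => Loc.le_cj_iff)) (h.trans ?_)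
    congr 1
    exact Nat.card_congr (Equiv.subtypeEquivRight fun K =>
      and_congr Iff.rfl (exists_congr fun g => eq_comm))

end Cfsg.Agent.S4088
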