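import Cfsg.Statements.S4089
import Cfsg.Agent.Gen2.Subnorm

set_option autoImplicit false
open Cfsg

namespace Cfsg.Agent.S4089

/-- Let G be a finite group, p a prime and H a p-subgroup of G. Then the set of elements g of G such that H is subnormal in the subgroup generated by H and g is the union of the normalizers N_G(R) over the subgroups R of G containing H with R = O_p(N_G(R)); and this set does not change when H is replaced by the intersection of all Sylow p-subgroups of G containing H. -/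
theorem result {G : Type*} [Group G] [Finite G] (p : ℕ) [Fact p.Prime]
    (H : Subgroup G) (hH : IsPGroup p H) :
    {g : G | ((H).subgroupOf (H ⊔ Subgroup.zpowers g)).IsSubnormal} =
      {g : G | ∃ R : Subgroup G, H ≤ R ∧ (Cfsg.pCore p (Subgroup.normalizer (R : Set G))).map (Subgroup.normalizer (R : Set G)).subtype = R ∧ g ∈ Subgroup.normalizer (R : Set G)} ∧
    ∀ g : G, (((H).subgroupOf (H ⊔ Subgroup.zpowers g)).IsSubnormal ↔
      (((sInf {K : Subgroup G | ∃ Q : Sylow p G, H ≤ (Q : Subgroup G) ∧ K = (Q : Subgroup G)})).subgroupOf ((sInf {K : Subgroup G | ∃ Q : Sylow p G, H ≤ (Q : Subgroup G) ∧ K = (Q : Subgroup G)}) ⊔ Subgroup.zpowers g)).IsSubnormal) := by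
  constructor
  · ext g
    rw [Set.mem_setOf_eq, Gen2.isSubnormal_iff_subnRel hH]
    constructor
    · rintro ⟨-, R, hR, h1, -, h2⟩
      obtain ⟨M, ⟨hM, hHM, hg⟩, hmax⟩ := Set.Finite.exists_maximal (Set.toFinite
        {R : Subgroup G | IsPGroup p R ∧ H ≤ R ∧ g ∈ Subgroup.normalizer (R : Set G)}) ⟨R, hR, h1, h2⟩
      have h3 := Loc.le_pCoreOf_normalizer hM
      exact ⟨M, hHM, le_antisymm (hmax ⟨Loc.isPGroup_pCoreOf _ _, hHM.trans h3,
        Loc.le_normalizer_pCoreOf p _ hg⟩ h3) h3, hg⟩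
    · rintro ⟨R, h1, h2, h3⟩
      exact ⟨trivial, R, h2 ▸ Loc.isPGroup_pCoreOf _ _, h1, le_top, h3⟩
  · intro g
    have hp : ∀ H : Subgroup G, IsPGroup p H → IsPGroup p ↥(sInf {K : Subgroup G |
        ∃ Q : Sylow p G, H ≤ (Q : Subgroup G) ∧ K = (Q : Subgroup G)}) := fun H hH => by
      obtain ⟨Q, hQ⟩ := hH.exists_le_sylow
      exact Q.isPGroup'.to_le (sInf_le ⟨Q, hQ, rfl⟩)
    rw [Gen2.isSubnormal_iff_subnRel hH, Gen2.isSubnormal_iff_subnRel (hp H hH)]
    constructor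
    · rintro ⟨-, R, hR, h1, -, h2⟩
      refine ⟨trivial, _, hp R hR, sInf_le_sInf ?_, le_top, Loc.mem_normalizer_of_cj_le (le_sInf ?_)⟩
      · rintro _ ⟨Q, hQ, rfl⟩
        exact ⟨Q, h1.trans hQ, rfl⟩
      · rintro _ ⟨Q, hQ, rfl⟩
        refine Loc.cj_le_iff.2 (sInf_le ⟨g⁻¹ • Q, ?_, rfl⟩)
        refine Loc.le_cj_iff.2 ?_
        rwa [inv_inv, Loc.cj_eq_of_mem_normalizer h2]
    · rintro ⟨-, R, hR, h1, h2⟩
      refine ⟨trivial, R, hR, (le_sInf ?_).trans h1, h2⟩
      rintro _ ⟨Q, hQ, rfl⟩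
      exact hQ

end Cfsg.Agent.S4089
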