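import Cfsg.Statements.S4090
import Cfsg.Agent.Gen2.Subnorm
import Cfsg.Agent.Gen2.ClassCount
import Cfsg.Agent.Transfer.Hall

set_option autoImplicit false
open scoped BigOperators
open Cfsg

namespace Cfsg.Agent.S4090

section
open Subgroup Loc

variable {G : Type*} [Group G] [Finite G] {p : ℕ} [hp : Fact p.Prime]

omit [Finite G] hp in
theorem inf_le {N M Q : Subgroup G} [N.Normal] (hc : (N.relIndex M).Coprime p) (hQ : IsPGroup p Q) :
    Q ⊓ M ≤ N := fun x hx => by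
  obtain ⟨k, hk⟩ := exists_pow_of_isPGroup hQ hx.1
  exact Transfer.mem_of_pow_mem_of_coprime (hc.symm.pow_left k) hx.2 (hk ▸ N.one_mem)

omit [Finite G] hp in
theorem le_iff {N M Q H : Subgroup G} [N.Normal] [M.Normal] (hNM : N ≤ M)
    (hc : (N.relIndex M).Coprime p) (hQ : IsPGroup p Q) (hH : H ≤ Q) {v : G} (hv : v ∈ M) :
    H ≤ cj v Q ⊔ N ↔ ∀ h ∈ H, h * v * h⁻¹ * v⁻¹ ∈ N := by
  constructor
  · intro h1 h hh
    have h2 : v⁻¹ * h * v ∈ N ⊔ Q := by
      rw [← mem_cj, cj_sup, cj_eq_of_normal, sup_comm]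
      exact h1 hh
    have h3 : v⁻¹ * h * v * h⁻¹ ∈ (N ⊔ Q) ⊓ M := ⟨(N ⊔ Q).mul_mem h2 ((N ⊔ Q).inv_mem (mem_sup_right (hH hh))), by
      simpa [mul_assoc] using M.mul_mem (M.inv_mem hv) (‹M.Normal›.conj_mem _ hv h)⟩
    rw [Solv.sup_inf_of_le_left (by simp [normalizer_eq_top]) hNM, sup_of_le_left (inf_le hc hQ)] at h3
    simpa [mul_assoc] using ‹N.Normal›.conj_mem _ h3 v
  · intro h1 h hh
    rw [sup_comm, show h = h * v * h⁻¹ * v⁻¹ * (v * h * v⁻¹) by group]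
    exact mul_mem_sup (h1 h hh) (conj_mem_cj (hH hh))

theorem step_coprime {N M H : Subgroup G} [N.Normal] [M.Normal] (hNM : N ≤ M)
    (hc : (N.relIndex M).Coprime p) (hH : IsPGroup p H) (P : Sylow p G) :
    Nat.card {x : G // H ≤ cj x P ⊔ N} * Nat.card M = Nat.card {x : G // H ≤ cj x P ⊔ M} *
      Nat.card {u : G // u ∈ M ∧ ∀ h ∈ H, h * u * h⁻¹ * u⁻¹ ∈ N} := by
  rw [← Nat.card_prod, ← Nat.card_prod]
  have hex : ∀ x : {x : G // H ≤ cj x P ⊔ M}, ∃ u ∈ M, H ≤ cj (u * x) P := fun x => by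
    obtain ⟨g, hg, h⟩ := (((sylIn_top P).conj_of_mem (mem_top x.1)).mono le_sup_left
      (le_top (a := cj x.1 P ⊔ M))).exists_le_conj x.2 hH
    rw [sup_comm] at hg
    obtain ⟨u, hu, t, ht, rfl⟩ := mem_sup_of_normal_left.1 hg
    exact ⟨u, hu, by rwa [← cj_cj, cj_eq_of_mem ht, cj_cj] at h⟩
  choose c hc1 hc2 using hex
  refine (Nat.card_congr (Equiv.ofBijective
    (fun z : {x : G // H ≤ cj x P ⊔ M} × {u : G // u ∈ M ∧ ∀ h ∈ H, h * u * h⁻¹ * u⁻¹ ∈ N} =>
      ((⟨z.2 * (c z.1 * z.1), by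
        rw [← cj_cj]
        exact (le_iff hNM hc (isPGroup_cj _ P.isPGroup') (hc2 _) z.2.2.1).2 z.2.2.2⟩,
        ⟨z.2 * c z.1, M.mul_mem z.2.2.1 (hc1 _)⟩) : {x : G // H ≤ cj x P ⊔ N} × M)) ⟨?_, ?_⟩)).symm
  · rintro ⟨x, u⟩ ⟨y, v⟩ h
    have h1 : u.1 * (c x * x) = v * (c y * y) := congrArg (fun z => z.1.1) h
    have h2 : u.1 * c x = v * c y := congrArg (fun z => z.2.1) h
    rw [← mul_assoc, ← mul_assoc, h2] at h1
    obtain rfl : x = y := Subtype.ext (mul_left_cancel h1)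
    rw [Subtype.ext (mul_right_cancel h2 : u.1 = v)]
  · rintro ⟨⟨y, hy⟩, ⟨m, hm⟩⟩
    have hx : H ≤ cj (m⁻¹ * y) P ⊔ M := by
      refine hy.trans (sup_le ?_ (hNM.trans le_sup_right))
      rw [← mul_inv_cancel_left m y, ← cj_cj, mul_inv_cancel_left]
      exact cj_le_of_mem (mem_sup_right hm) le_sup_left
    have hv := M.mul_mem hm (M.inv_mem (hc1 ⟨_, hx⟩))
    refine ⟨⟨⟨_, hx⟩, ⟨m * (c ⟨_, hx⟩)⁻¹, hv,
      (le_iff hNM hc (isPGroup_cj _ P.isPGroup') (hc2 ⟨_, hx⟩) hv).1 ?_⟩⟩, ?_⟩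
    · rw [cj_cj]
      simpa [mul_assoc] using hy
    · simp [mul_assoc]

theorem sup_eq {N M Q : Subgroup G} [N.Normal] [M.Normal] (hNM : N ≤ M) {m : ℕ}
    (hc : N.relIndex M = p ^ m) (hQ : SylIn p Q ⊤) : N ⊔ Q ⊓ M = M := by
  refine le_antisymm (sup_le hNM inf_le_right) (relIndex_eq_one.1 ?_)
  refine Nat.eq_one_of_dvd_coprimes ((hp.out.coprime_iff_not_dvd.2
    (hQ.inf_normal' (le_top (a := M)) (by simp [normalizer_eq_top])).not_dvd_relIndex).pow_left m)
    (hc ▸ relIndex_dvd_of_le_left _ le_sup_left) (relIndex_dvd_of_le_left _ le_sup_right)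

omit [Finite G] hp in
theorem card_dvd {N M : Subgroup G} [hN : N.Normal] (hNM : N ≤ M) (H : Subgroup G) :
    Nat.card N ∣ Nat.card {u : G // u ∈ M ∧ ∀ h ∈ H, h * u * h⁻¹ * u⁻¹ ∈ N} := by
  let C : Subgroup G :=
    { carrier := {u | u ∈ M ∧ ∀ h ∈ H, h * u * h⁻¹ * u⁻¹ ∈ N}
      one_mem' := ⟨M.one_mem, by simp⟩
      mul_mem' := fun {a b} ha hb => ⟨M.mul_mem ha.1 hb.1, fun h hh => by
        simpa [mul_assoc] using N.mul_mem (ha.2 h hh) (hN.conj_mem _ (hb.2 h hh) a)⟩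
      inv_mem' := fun {a} ha => ⟨M.inv_mem ha.1, fun h hh => by
        simpa [mul_assoc] using hN.conj_mem' _ (N.inv_mem (ha.2 h hh)) a⟩ }
  exact card_dvd_of_le (H := N) (K := C) fun u hu =>
    ⟨hNM hu, fun h _ => N.mul_mem (hN.conj_mem _ hu h) (N.inv_mem hu)⟩

theorem step {N M H : Subgroup G} [N.Normal] [M.Normal] (hNM : N ≤ M)
    (hc : (∃ m, N.relIndex M = p ^ m) ∨ (N.relIndex M).Coprime p) (hH : IsPGroup p H) (P : Sylow p G) :
    Nat.card {x : G // H ≤ cj x P ⊔ N} * Nat.card M * Nat.card (N ⊓ P : Subgroup G) =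
      Nat.card {x : G // H ≤ cj x P ⊔ M} * Nat.card N * Nat.card (M ⊓ P : Subgroup G) *
      (if (N.relIndex M).Coprime p then
        Nat.card {u : G // u ∈ M ∧ ∀ h ∈ H, h * u * h⁻¹ * u⁻¹ ∈ N} / Nat.card N else 1) := by
  split_ifs with h
  · have h1 : N ⊓ P = M ⊓ P := le_antisymm (inf_le_inf_right _ hNM)
      (le_inf ((inf_comm _ _).le.trans (inf_le h P.isPGroup')) inf_le_right)
    obtain ⟨c, hc⟩ := card_dvd hNM H
    rw [step_coprime hNM h hH P, h1, hc, Nat.mul_div_cancel_left _ Nat.card_pos]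
    ring
  · obtain ⟨m, hm⟩ := hc.resolve_right h
    have h1 : ∀ x : G, cj x P ⊔ N = cj x P ⊔ M := fun x => by
      refine le_antisymm (sup_le_sup_left hNM _) (sup_le le_sup_left ?_)
      rw [← sup_eq hNM hm ((sylIn_top P).conj_of_mem (mem_top x))]
      exact sup_le le_sup_right (inf_le_left.trans le_sup_left)
    have h2 := Solv.card_sup_mul_card_inf (N := N) (H := P ⊓ M) (by simp [normalizer_eq_top])
    rw [sup_eq hNM hm (sylIn_top P), inf_comm _ M, ← inf_assoc, inf_of_le_left hNM] at h2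
    simp only [h1]
    rw [mul_assoc, h2, mul_one, mul_assoc]

theorem chain {H : Subgroup G} (hH : IsPGroup p H) (P : Sylow p G) (n : ℕ) :
    ∀ M : Fin (n + 1) → Subgroup G, Monotone M → (∀ i, (M i).Normal) →
    (∀ i : Fin n, (∃ m : ℕ, (M i.castSucc).relIndex (M i.succ) = p ^ m) ∨
      ((M i.castSucc).relIndex (M i.succ)).Coprime p) →
    Nat.card {x : G // H ≤ cj x P ⊔ M 0} * Nat.card (M (Fin.last n)) *
      Nat.card (M 0 ⊓ P : Subgroup G) =
    Nat.card {x : G // H ≤ cj x P ⊔ M (Fin.last n)} * Nat.card (M 0) *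
      Nat.card (M (Fin.last n) ⊓ P : Subgroup G) *
      ∏ i : Fin n, (if ((M i.castSucc).relIndex (M i.succ)).Coprime p then
        Nat.card {u : G // u ∈ M i.succ ∧ ∀ h ∈ H, h * u * h⁻¹ * u⁻¹ ∈ M i.castSucc} /
          Nat.card (M i.castSucc) else 1) := by
  induction n with
  | zero => intro M _ _ _; simp
  | succ n ih =>
    intro M hM hn hf
    have h1 := ih (fun i => M i.castSucc) (fun i j h => hM (by simpa using h)) (fun i => hn _)
      fun i => hf i.castSucc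
    have h2 := step (hM (Fin.last n).castSucc_le_succ) (hf (Fin.last n)) hH P
    rw [Fin.prod_univ_castSucc]
    simp only [Fin.castSucc_zero, Fin.succ_last, ← Fin.succ_castSucc] at h1 h2 ⊢
    refine Nat.eq_of_mul_eq_mul_left (Nat.card_pos (α := M (Fin.last n).castSucc)) ?_
    linear_combination Nat.card (M (Fin.last (n + 1))) * h1 + (Nat.card (M 0) *
      ∏ i : Fin n, (if ((M i.castSucc.castSucc).relIndex (M i.castSucc.succ)).Coprime p then
        Nat.card {u : G // u ∈ M i.castSucc.succ ∧ ∀ h ∈ H, h * u * h⁻¹ * u⁻¹ ∈ M i.castSucc.castSucc} /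
          Nat.card (M i.castSucc.castSucc) else 1)) * h2

end

/-- Let G be a finite p-solvable group, H a p-subgroup of G and P a Sylow p-subgroup, and fix a chain of normal subgroups 1 = M₀ ≤ M₁ ≤ ⋯ ≤ Mₙ = G of G each of whose factors is a p-group or a p'-group. Then the number of elements g of G such that H is subnormal in the subgroup generated by H and g equals the order of P times the product, over the factors Mᵢ₊₁/Mᵢ of order prime to p, of the order of the centralizer of H in Mᵢ₊₁/Mᵢ (counted as the number of u ∈ Mᵢ₊₁ with [h, u] ∈ Mᵢ for all h ∈ H, divided by the order of Mᵢ). -/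
theorem result {G : Type*} [Group G] [Finite G] (p : ℕ) [Fact p.Prime]
    (hG : Cfsg.IsPSolvable p G) (H : Subgroup G) (hH : IsPGroup p H) (P : Sylow p G)
    (n : ℕ) (M : Fin (n + 1) → Subgroup G) (h0 : M 0 = ⊥) (hn : M (Fin.last n) = ⊤) (hmono : Monotone M)
    (hnormal : ∀ i, (M i).Normal)
    (hfac : ∀ i : Fin n, (∃ m : ℕ, (M i.castSucc).relIndex (M i.succ) = p ^ m) ∨ ((M i.castSucc).relIndex (M i.succ)).Coprime p) :
    Nat.card {g : G // ((H).subgroupOf (H ⊔ Subgroup.zpowers g)).IsSubnormal} =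
      Nat.card (P : Subgroup G) *
        ∏ i : Fin n, (if ((M i.castSucc).relIndex (M i.succ)).Coprime p then
          Nat.card {u : G // u ∈ M i.succ ∧ ∀ h ∈ H, h * u * h⁻¹ * u⁻¹ ∈ M i.castSucc} / Nat.card (M i.castSucc)
          else 1) := by
  have h := chain hH P n M hmono hnormal hfac
  simp only [h0, hn, sup_bot_eq, sup_top_eq, le_top, bot_inf_eq, top_inf_eq, Subgroup.card_bot,
    Subgroup.card_top, mul_one, Nat.card_subtype_true] at h
  rw [Gen2.card_subnormalizer hH P]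
  refine Nat.eq_of_mul_eq_mul_left (Nat.card_pos (α := G)) ?_
  rw [mul_comm, h, mul_assoc]

end Cfsg.Agent.S4090
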