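import Cfsg.Statements.S4091
import Cfsg.Agent.S4090
import Cfsg.Agent.Gen2.NavRizo
import Mathlib.Analysis.MeanInequalities

set_option autoImplicit false
open Cfsg

namespace Cfsg.Agent.S4091

section
open Subgroup Loc Finset

variable {G : Type*} [Group G] [Finite G] {p : ℕ} [hp : Fact p.Prime]

theorem prod_comp_hom {A B : Type*} [Group A] [Group B] [Fintype A] [Fintype B] (φ : A →* B)
    (hφ : Function.Surjective φ) (f : B → ℕ) : ∏ x, f (φ x) = (∏ y, f y) ^ Nat.card φ.ker := by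
  classical
  rw [← prod_fiberwise' univ φ f, ← prod_pow]
  refine prod_congr rfl fun y _ => ?_
  rw [prod_const, MonoidHom.card_fiber_eq_of_mem_range φ (hφ y) ⟨1, map_one φ⟩,
    Nat.card_eq_fintype_card, Fintype.card_subtype]
  simp only [MonoidHom.mem_ker]

omit [Finite G] in
theorem card_eq {N M : Subgroup G} [N.Normal] (hNM : N ≤ M) (H : Subgroup G) :
    Nat.card {u : G // u ∈ M ∧ ∀ h ∈ H, h * u * h⁻¹ * u⁻¹ ∈ N} = Nat.card N *
      Nat.card (M.map (QuotientGroup.mk' N) ⊓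
        centralizer (H.map (QuotientGroup.mk' N) : Set (G ⧸ N)) : Subgroup (G ⧸ N)) := by
  rw [← Solv.card_comap_mk']
  refine Nat.card_congr (Equiv.subtypeEquivRight fun u => ?_)
  rw [comap_inf, Solv.comap_map_mk', sup_of_le_left hNM, Subgroup.mem_inf, mem_comap, mem_centralizer_iff]
  simp only [Subgroup.coe_map, Set.forall_mem_image, SetLike.mem_coe]
  refine and_congr Iff.rfl (forall₂_congr fun h _ => ?_)
  rw [← map_mul, ← map_mul, QuotientGroup.mk'_apply, QuotientGroup.mk'_apply,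
    QuotientGroup.eq_iff_div_mem, div_eq_mul_inv, mul_inv_rev, ← mul_assoc]

theorem ineq {N M : Subgroup G} [N.Normal] [M.Normal] (hNM : N ≤ M) (hc : (N.relIndex M).Coprime p)
    {P : Subgroup G} [Fintype P] (hP : IsPGroup p P) :
    ∏ x : P, Nat.card {u : G // u ∈ M ∧ ∀ h ∈ zpowers (x : G), h * u * h⁻¹ * u⁻¹ ∈ N} ^ p ≤
      (Nat.card M * Nat.card {u : G // u ∈ M ∧ ∀ h ∈ P, h * u * h⁻¹ * u⁻¹ ∈ N} ^ (p - 1)) ^
        Nat.card P := by
  let π := QuotientGroup.mk' N
  have : (M.map π).Normal := Normal.map inferInstance _ (QuotientGroup.mk'_surjective N)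
  have := Fintype.ofFinite (P.map π)
  have hM : Nat.card M = Nat.card N * Nat.card (M.map π) := by
    rw [← Solv.card_comap_mk', Solv.comap_map_mk', sup_of_le_left hNM]
  have hc' : (Nat.card (M.map π)).Coprime p := by
    rwa [← Nat.mul_right_inj (Nat.card_pos (α := N)).ne' |>.1
      ((Solv.card_mul_relIndex hNM).trans hM)]
  have h1 := Gen2.navarro_rizo (hP.map π) (V := M.map π) (by rw [normalizer_eq_top]; exact le_top) hc'
  have h2 := prod_comp_hom (π.subgroupMap P) (π.subgroupMap_surjective P)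
    fun y => Nat.card (M.map π ⊓ centralizer ({(y : G ⧸ N)} : Set (G ⧸ N)) : Subgroup (G ⧸ N)) ^ p
  have h3 : Nat.card P = Nat.card (P.map π) * Nat.card (π.subgroupMap P).ker := by
    rw [← (π.subgroupMap P).ker.card_mul_index, index_ker, mul_comm,
      MonoidHom.range_eq_top.2 (π.subgroupMap_surjective P), card_top]
  have h4 : ∏ y : P.map π, Nat.card (M.map π ⊓ centralizer ({(y : G ⧸ N) ^ p} : Set (G ⧸ N)) :
      Subgroup (G ⧸ N)) ≤ Nat.card (M.map π) ^ Nat.card (P.map π) := by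
    rw [Nat.card_eq_fintype_card (α := P.map π)]
    exact prod_le_pow_card _ _ _ fun y _ => card_le_of_le inf_le_left
  simp only [card_eq hNM, MonoidHom.map_zpowers, centralizer_zpowers, mul_pow, prod_mul_distrib,
    prod_const, card_univ, ← Nat.card_eq_fintype_card]
  refine le_of_eq_of_le (congrArg _ h2) ?_
  rw [h1, hM]
  calc _ ≤ (Nat.card N ^ p) ^ Nat.card P * (Nat.card (M.map π) ^ Nat.card (P.map π) *
      Nat.card (M.map π ⊓ centralizer (P.map π : Set (G ⧸ N)) : Subgroup (G ⧸ N)) ^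
        ((p - 1) * Nat.card (P.map π))) ^ Nat.card (π.subgroupMap P).ker := by gcongr
    _ = _ := by
      obtain ⟨q, rfl⟩ := Nat.exists_eq_add_one_of_ne_zero hp.out.ne_zero
      rw [h3, Nat.add_sub_cancel]
      ring

theorem step {N M : Subgroup G} [N.Normal] [M.Normal] (hNM : N ≤ M)
    (hc : (∃ m, N.relIndex M = p ^ m) ∨ (N.relIndex M).Coprime p) (P : Sylow p G)
    [Fintype (P : Subgroup G)]
    (h : ∏ y : (P : Subgroup G), Nat.card {x : G // zpowers (y : G) ≤ cj x P ⊔ M} ^ p ≤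
      (Nat.card G * Nat.card {x : G // P ≤ cj x P ⊔ M} ^ (p - 1)) ^ Nat.card P) :
    ∏ y : (P : Subgroup G), Nat.card {x : G // zpowers (y : G) ≤ cj x P ⊔ N} ^ p ≤
      (Nat.card G * Nat.card {x : G // P ≤ cj x P ⊔ N} ^ (p - 1)) ^ Nat.card P := by
  rcases hc with ⟨m, hm⟩ | hc
  · have h1 : ∀ x : G, cj x P ⊔ N = cj x P ⊔ M := fun x => by
      refine le_antisymm (sup_le_sup_left hNM _) (sup_le le_sup_left ?_)
      rw [← S4090.sup_eq hNM hm ((sylIn_top P).conj_of_mem (mem_top x))]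
      exact sup_le le_sup_right (inf_le_left.trans le_sup_left)
    simpa only [h1] using h
  · have h1 := Nat.mul_le_mul h (ineq hNM hc P.isPGroup')
    rw [← prod_mul_distrib, ← mul_pow, mul_mul_mul_comm, ← mul_pow,
      ← S4090.step_coprime hNM hc P.isPGroup' P] at h1
    simp only [← mul_pow, ← S4090.step_coprime hNM hc
      (P.isPGroup'.to_le (zpowers_le.2 (Subtype.prop _))) P] at h1
    simp only [mul_pow, prod_mul_distrib, prod_const, card_univ, ← Nat.card_eq_fintype_card] at h1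
    refine Nat.le_of_mul_le_mul_right (h1.trans_eq ?_) (pow_pos (pow_pos Nat.card_pos _) _)
    obtain ⟨q, rfl⟩ := Nat.exists_eq_add_one_of_ne_zero hp.out.ne_zero
    rw [Nat.add_sub_cancel]
    ring

theorem main (hG : IsPSolvable p G) (P : Sylow p G) [Fintype (P : Subgroup G)] :
    ∏ y : (P : Subgroup G), Nat.card {x : G // (y : G) ∈ cj x P} ^ p ≤
      (Nat.card G * Nat.card (normalizer ((P : Subgroup G) : Set G)) ^ (p - 1)) ^ Nat.card P := by
  obtain ⟨n, M, h0, hn, hM, hN, hf⟩ := hG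
  have key : ∀ i, ∏ y : (P : Subgroup G), Nat.card {x : G // zpowers (y : G) ≤ cj x P ⊔ M i} ^ p ≤
      (Nat.card G * Nat.card {x : G // P ≤ cj x P ⊔ M i} ^ (p - 1)) ^ Nat.card P := fun i => by
    induction i using Fin.reverseInduction with
    | last =>
      obtain ⟨q, rfl⟩ := Nat.exists_eq_add_one_of_ne_zero hp.out.ne_zero
      simp [hn, pow_succ']
    | cast i ih => exact step (hM i.castSucc_le_succ) (hf i) P ih
  have h := key 0
  simp only [h0, sup_bot_eq, zpowers_le] at h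
  rwa [Nat.card_congr (Equiv.subtypeEquivRight (q := fun x => x ∈ normalizer ((P : Subgroup G) : Set G))
    fun x => ⟨fun h => inv_mem_iff.1 (mem_normalizer_of_cj_le (le_cj_iff.1 h)),
      fun h => (cj_eq_of_mem_normalizer h).ge⟩)] at h

theorem count (P : Sylow p G) [Fintype (P : Subgroup G)] :
    (Nat.card {g : G // ∃ k : ℕ, orderOf g = p ^ k} : ℝ) =
      Nat.card G * ∑ y : (P : Subgroup G), (Nat.card {x : G // (y : G) ∈ cj x P} : ℝ)⁻¹ := by
  classical
  have := Fintype.ofFinite G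
  let F : G → ℝ := fun y => Nat.card {x : G // y ∈ cj x P}
  have hF : ∀ g y, F (g * y * g⁻¹) = F y := fun g y => congrArg Nat.cast
    (Nat.card_congr ((Equiv.mulLeft g).subtypeEquiv (p := fun x => y ∈ cj x P)
      (q := fun x => g * y * g⁻¹ ∈ cj x P) fun x => by
      rw [Equiv.coe_mulLeft, ← cj_cj, conj_mem_cj_iff]).symm)
  have h1 : ∀ g : G, ∑ y : (P : Subgroup G), (F y)⁻¹ = ∑ z : G, if z ∈ cj g P then (F z)⁻¹ else 0 :=
    fun g => by
      rw [← sum_filter, sum_subtype (p := (· ∈ cj g P)) _ (by simp)]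
      exact Fintype.sum_equiv (cjEquiv g P).toEquiv _ _ fun y => congrArg _ (hF g y).symm
  calc _ = ∑ z : G, ∑ g : G, if z ∈ cj g P then (F z)⁻¹ else 0 := by
        rw [Nat.card_eq_fintype_card, Fintype.card_subtype, card_filter]
        push_cast
        refine sum_congr rfl fun z _ => ?_
        rw [← sum_filter, sum_const, nsmul_eq_mul, ← Fintype.card_subtype, ← Nat.card_eq_fintype_card]
        split_ifs with h
        · obtain ⟨g, hg⟩ := Gen2.exists_conj_mem_sylow P h
          have : Nonempty {x : G // z ∈ cj x P} := ⟨⟨g⁻¹, mem_cj_inv.2 hg⟩⟩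
          exact (mul_inv_cancel₀ (Nat.cast_ne_zero.2 Nat.card_pos.ne')).symm
        · have : IsEmpty {x : G // z ∈ cj x P} :=
            ⟨fun x => h (Gen2.pElt_of_mem (isPGroup_cj _ P.isPGroup') x.2)⟩
          rw [Nat.card_of_isEmpty, Nat.cast_zero, zero_mul]
    _ = _ := by
      rw [sum_comm, ← sum_congr rfl fun g _ => h1 g, sum_const, card_univ, nsmul_eq_mul,
        Nat.card_eq_fintype_card]

theorem final {ι : Type*} [Fintype ι] [Nonempty ι] (F : ι → ℕ) (hF : ∀ y, 0 < F y) {n m u q : ℕ}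
    (hm : 0 < m) (h1 : ∏ y, F y ^ (q + 1) ≤ (n * m * m ^ q) ^ Nat.card ι)
    (h2 : (u : ℝ) = (n * m : ℕ) * ∑ y, (F y : ℝ)⁻¹) : Nat.card ι ^ (q + 1) * n ^ q ≤ u ^ (q + 1) := by
  have hF' : ∀ y, (0 : ℝ) < F y := fun y => Nat.cast_pos.2 (hF y)
  have hK : (0 : ℝ) < Nat.card ι := Nat.cast_pos.2 Nat.card_pos
  have h3 := Real.geom_mean_le_arith_mean univ (fun _ => 1) (fun y => (F y : ℝ)⁻¹)
    (by simp) (by simp [Fintype.card_pos]) fun y _ => (inv_pos.2 (hF' y)).le
  simp only [Real.rpow_one, sum_const, card_univ, ← Nat.card_eq_fintype_card,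
    nsmul_eq_mul, mul_one, one_mul, prod_inv_distrib] at h3
  set A := (∑ y, (F y : ℝ)⁻¹) / Nat.card ι with hA
  have hp0 : 0 < ∏ y, (F y : ℝ) := prod_pos fun y _ => hF' y
  have h4 := pow_le_pow_left₀ (by positivity) h3 (Nat.card ι)
  rw [Real.rpow_inv_natCast_pow (by positivity) Nat.card_pos.ne'] at h4
  have hA0 : 0 ≤ A := le_trans (by positivity) h3
  have h5 : (1 : ℝ) ≤ A ^ (q + 1) * (n * m * m ^ q) := by
    refine (one_le_pow_iff_of_nonneg (by positivity) (Nat.card_pos (α := ι)).ne').1 ?_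
    have h6 : (∏ y, (F y : ℝ)) ^ (q + 1) ≤ (n * m * m ^ q) ^ Nat.card ι := by
      rw [prod_pow] at h1
      exact_mod_cast h1
    calc (1 : ℝ) = ((∏ y, (F y : ℝ))⁻¹) ^ (q + 1) * (∏ y, (F y : ℝ)) ^ (q + 1) := by
          rw [← mul_pow, inv_mul_cancel₀ hp0.ne', one_pow]
      _ ≤ (A ^ Nat.card ι) ^ (q + 1) * (n * m * m ^ q) ^ Nat.card ι := by gcongr
      _ = _ := by ring
  have h7 : (u : ℝ) = n * m * Nat.card ι * A := by
    rw [h2, hA, mul_assoc _ _ (_ / _), mul_div_cancel₀ _ hK.ne']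
    push_cast
    rfl
  rw [← Nat.cast_le (α := ℝ)]
  push_cast
  rw [h7]
  calc _ = (Nat.card ι : ℝ) ^ (q + 1) * n ^ q * 1 := (mul_one _).symm
    _ ≤ (Nat.card ι : ℝ) ^ (q + 1) * n ^ q * (A ^ (q + 1) * (n * m * m ^ q)) := by gcongr
    _ = _ := by ring

end

open Loc in
/-- Let G be a finite p-solvable group, P a Sylow p-subgroup of G, u the number of p-elements of G (elements of p-power order, the identity included) and n the number of Sylow p-subgroups of G. Then u/#P ≥ n^((p−1)/p), stated as u^p ≥ #P^p · n^(p−1). -/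
theorem result {G : Type*} [Group G] [Finite G] (p : ℕ) [Fact p.Prime]
    (hG : Cfsg.IsPSolvable p G) (P : Sylow p G) :
    Nat.card (P : Subgroup G) ^ p * Nat.card (Sylow p G) ^ (p - 1) ≤ Nat.card {g : G // ∃ k : ℕ, orderOf g = p ^ k} ^ p := by
  have := Fintype.ofFinite (P : Subgroup G)
  have h1 := main hG P
  have h2 := count P
  have hG' : Nat.card G = Nat.card (Sylow p G) *
      Nat.card (Subgroup.normalizer ((P : Subgroup G) : Set G)) := by
    rw [P.card_eq_index_normalizer]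
    exact (Subgroup.index_mul_card _).symm
  rw [hG'] at h1 h2
  obtain ⟨q, rfl⟩ := Nat.exists_eq_add_one_of_ne_zero (Fact.out : p.Prime).ne_zero
  refine final _ (fun y => ?_) Nat.card_pos h1 h2
  have : Nonempty {x : G // (y : G) ∈ cj x P} := ⟨⟨1, by rw [Loc.cj_one]; exact y.2⟩⟩
  exact Nat.card_pos

end Cfsg.Agent.S4091
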