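import Cfsg.Statements.S4092
import Cfsg.Agent.Gen2.ClassCount
import Cfsg.Agent.Solv.Basic

set_option autoImplicit false
open Cfsg

namespace Cfsg.Agent.S4092

/-- Let G be a finite group, p a prime and P a Sylow p-subgroup of G that is not normal in G. Then G has at least p·#P elements of p-power order (the identity included). -/
theorem result {G : Type*} [Group G] [Finite G] (p : ℕ) [Fact p.Prime]
    (P : Sylow p G) (hP : ¬ (P : Subgroup G).Normal) :
    p * Nat.card (P : Subgroup G) ≤ Nat.card {g : G // ∃ k : ℕ, orderOf g = p ^ k} := by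
  classical
  have hp : p.Prime := Fact.out
  have := Fintype.ofFinite G
  have := Fintype.ofFinite (Sylow p G)
  have h0 : ∃ Q : Sylow p G, Q ≠ P := by
    by_contra h
    push Not at h
    have : Subsingleton (Sylow p G) := ⟨fun a b => (h a).trans (h b).symm⟩
    exact hP (Sylow.normal_of_subsingleton P)
  obtain ⟨Q0, hQ0⟩ := h0
  obtain ⟨⟨A, B⟩, hAB, hmax⟩ := Finset.exists_max_image
    (Finset.univ.filter fun z : Sylow p G × Sylow p G => z.1 ≠ z.2)
    (fun z => Nat.card ((z.1 : Subgroup G) ⊓ z.2 : Subgroup G)) ⟨(Q0, P), by simpa using hQ0⟩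
  simp only [Finset.mem_filter, Finset.mem_univ, true_and, Prod.forall] at hAB hmax
  set D : Subgroup G := A ⊓ B
  have hD : IsPGroup p D := A.isPGroup'.to_le inf_le_left
  let S := Finset.univ.filter fun Q : Sylow p G => D ≤ Q
  have h1 : S.card ≡ 1 [MOD p] := by
    refine Nat.ModEq.trans ?_ ((hD.card_modEq_card_fixedPoints (Sylow p G)).symm.trans
      (card_sylow_modEq_one p G)).symm.symm
    rw [Nat.card_eq_fintype_card, Fintype.card_subtype]
    simp only [hD.sylow_mem_fixedPoints_iff]
    rfl
  have h2 : p + 1 ≤ S.card := by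
    have h3 : 1 < S.card := Finset.one_lt_card.2 ⟨A, by simp [S, D], B, by simp [S, D], hAB⟩
    have := Nat.le_of_dvd (by omega) ((Nat.modEq_iff_dvd' h3.le).1 h1.symm)
    omega
  have h3 : p * Nat.card D ≤ Nat.card (P : Subgroup G) := by
    rw [P.card_eq_multiplicity, ← A.card_eq_multiplicity, ← Solv.card_mul_relIndex
      (inf_le_left : D ≤ A), mul_comm]
    refine Nat.mul_le_mul_left _ ?_
    obtain ⟨k, hk⟩ := (Nat.dvd_prime_pow hp).1
      (A.card_eq_multiplicity ▸ D.relIndex_dvd_card A)
    rw [hk.2]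
    refine Nat.le_self_pow (fun h => hAB ?_) p
    rw [h, pow_zero, Subgroup.relIndex_eq_one] at hk
    exact Sylow.ext (A.is_maximal' B.isPGroup' (hk.2.trans inf_le_right)).symm
  let f : Subgroup G → Finset G := fun H => Finset.univ.filter (· ∈ H)
  have hf : ∀ H, (f H).card = Nat.card H := Gen2.card_filter_mem
  have h4 : (S.biUnion fun Q => f Q \ f D).card =
      S.card * (Nat.card (P : Subgroup G) - Nat.card D) := by
    rw [Finset.card_biUnion, ← smul_eq_mul, ← Finset.sum_const]
    · refine Finset.sum_congr rfl fun Q hQ => ?_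
      rw [Finset.card_sdiff_of_subset, hf, hf, Q.card_eq_multiplicity, P.card_eq_multiplicity]
      exact fun x hx => by
        simp only [f, S, Finset.mem_filter, Finset.mem_univ, true_and] at hx hQ ⊢
        exact hQ hx
    · intro Q hQ R hR hQR
      simp only [S, Finset.coe_filter, Finset.mem_univ, true_and, Set.mem_ofPred_eq] at hQ hR
      have h5 := Subgroup.eq_of_le_of_card_ge (le_inf hQ hR) (hmax Q R hQR)
      simp only [Function.onFun, Finset.disjoint_left, f, Finset.mem_sdiff, Finset.mem_filter,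
        Finset.mem_univ, true_and]
      exact fun x h6 h7 => h6.2 (h5 ▸ ⟨h6.1, h7.1⟩)
  have h5 : ((S.biUnion fun Q => f Q \ f D) ∪ f D).card ≤
      Nat.card {g : G // ∃ k : ℕ, orderOf g = p ^ k} := by
    rw [Nat.card_eq_fintype_card, Fintype.card_subtype]
    refine Finset.card_le_card fun x hx => ?_
    simp only [f, Finset.mem_union, Finset.mem_biUnion, Finset.mem_sdiff, Finset.mem_filter,
      Finset.mem_univ, true_and] at hx ⊢
    rcases hx with ⟨Q, -, h, -⟩ | h
    · exact Gen2.pElt_of_mem Q.isPGroup' h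
    · exact Gen2.pElt_of_mem hD h
  rw [Finset.card_union_of_disjoint (by
    rw [Finset.disjoint_biUnion_left]
    exact fun _ _ => Finset.sdiff_disjoint), h4, hf] at h5
  refine le_trans ?_ ((Nat.add_le_add_right (Nat.mul_le_mul_right _ h2) _).trans h5)
  have h6 : Nat.card D ≤ Nat.card (P : Subgroup G) := (Nat.le_mul_of_pos_left _ hp.pos).trans h3
  obtain ⟨c, hc⟩ := Nat.exists_eq_add_of_le h6
  rw [hc] at h3 ⊢
  rw [Nat.add_sub_cancel_left]
  nlinarith

end Cfsg.Agent.S4092
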