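import Cfsg.Statements.S4093
import Cfsg.Agent.Gen2.ClassCount

set_option autoImplicit false
open scoped BigOperators
open Cfsg

namespace Cfsg.Agent.S4093

/-- Let G be a finite group with a normal subgroup N complementing a Sylow p-subgroup P (a normal p-complement). Then the number of elements of G of p-power order equals the sum over x ∈ P of the index of C_N(x) in N. -/
theorem result {G : Type*} [Group G] [Finite G] (p : ℕ) [Fact p.Prime]
    (P : Sylow p G) (N : Subgroup G) [N.Normal] (hNP : N.IsComplement' (P : Subgroup G)) :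
    Nat.card {g : G // ∃ k : ℕ, orderOf g = p ^ k} =
      ∑ᶠ x : (P : Subgroup G), Nat.card N / Nat.card ↥(N ⊓ Subgroup.centralizer ({(x : G)} : Set G)) := by
  classical
  have := Fintype.ofFinite (P : Subgroup G)
  let f : (Σ x : (P : Subgroup G), {y : G | ∃ n ∈ N, n * x * n⁻¹ = y}) →
      {g : G // ∃ k : ℕ, orderOf g = p ^ k} := fun z => ⟨z.2, by
    obtain ⟨x, y, n, -, rfl⟩ := z
    exact Gen2.pElt_conj (Gen2.pElt_of_mem P.isPGroup' x.2) n⟩
  have hf : Function.Bijective f := by
    constructor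
    · rintro ⟨x, _, n, hn, rfl⟩ ⟨x', _, n', hn', rfl⟩ h
      have h1 : n * x * n⁻¹ = n' * x' * n'⁻¹ := congrArg Subtype.val h
      have h2 : ((x : G) : G ⧸ N) = (x' : G) := by
        have := congrArg (QuotientGroup.mk (s := N)) h1
        simpa [(QuotientGroup.eq_one_iff n).2 hn, (QuotientGroup.eq_one_iff n').2 hn'] using this
      have h3 : (x : G)⁻¹ * x' = 1 := Subgroup.disjoint_def.1 hNP.disjoint (QuotientGroup.eq.1 h2)
        (mul_mem (inv_mem x.2) x'.2)
      obtain rfl : x = x' := Subtype.ext (inv_mul_eq_one.1 h3)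
      congr 1
      exact Subtype.ext h1
    · rintro ⟨g, hg⟩
      obtain ⟨c, hc⟩ := Gen2.exists_conj_mem_sylow P hg
      obtain ⟨⟨n, y⟩, hny⟩ := hNP.existsUnique c⁻¹ |>.exists
      refine ⟨⟨⟨y * (c * g * c⁻¹) * y⁻¹, mul_mem (mul_mem y.2 hc) (inv_mem y.2)⟩, g, n, n.2, ?_⟩,
        rfl⟩
      have : c = ((n : G) * y)⁻¹ := by rw [hny, inv_inv]
      simp only [this]
      simp [mul_assoc]
  rw [← Nat.card_congr (Equiv.ofBijective f hf), Nat.card_sigma, finsum_eq_sum_of_fintype]
  refine Finset.sum_congr rfl fun x _ => ?_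
  rw [Nat.card_coe_set_eq, Gen2.ncard_conj_by, ← BG.card_inf_mul_relIndex
    (Subgroup.centralizer ({(x : G)} : Set G)) N, inf_comm, Nat.mul_div_cancel_left _ Nat.card_pos]

end Cfsg.Agent.S4093
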