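import Cfsg.Statements.S4106
import Cfsg.Agent.Gen2.ClassCount

set_option autoImplicit false
open Cfsg

namespace Cfsg.Agent.S4106

/-- Let G be a finite group, π a set of primes and m the π-part of the order of G. Then the number of conjugacy classes of G consisting of π-elements (elements whose order is divisible only by primes in π) is at most m. -/
theorem result {G : Type*} [Group G] [Finite G]
    (π : Set ℕ) (hπ : ∀ q ∈ π, q.Prime)
    (m : ℕ) (hm : m ∣ Nat.card G) (hmπ : ∀ q : ℕ, q.Prime → q ∣ m → q ∈ π)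
    (hm' : ∀ q ∈ π, ¬ q ∣ Nat.card G / m) :
    Nat.card {C : ConjClasses G // ∀ q : ℕ, q.Prime → (∃ g : G, ConjClasses.mk g = C ∧ q ∣ orderOf g) → q ∈ π} ≤ m := by
  refine (Gen2.kpi_le_partn π).trans (le_of_eq ?_)
  exact BG.partn_eq Nat.card_pos.ne' (Nat.mul_div_cancel' hm).symm hmπ
    fun q _ hd hq => hm' q hq hd

end Cfsg.Agent.S4106
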