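import Cfsg.Statements.S4107
import Cfsg.Agent.Gen2.Basic
import Cfsg.Agent.Solv.Fitting

set_option autoImplicit false
open Cfsg

namespace Cfsg.Agent.S4107

theorem aux {G : Type*} [Group G] [Finite G] (N : Subgroup G) [N.Normal]
    (heq : ∀ x : G, x ∉ N → ∀ n ∈ N, orderOf (x * n) = orderOf x) (p : ℕ) [Fact p.Prime]
    (h : ¬ pCore p G ≤ N) : IsPGroup p N := by
  obtain ⟨x, hx, hxN⟩ := SetLike.not_le_iff_exists.1 h
  have hO := Solv.isPGroup_pCore p G
  refine Gen2.isPGroup_of_forall_pElt fun n hn => ?_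
  have h1 : ∃ k, orderOf (x * n) = p ^ k := by
    rw [heq x hxN n hn]; exact Gen2.pElt_of_mem hO hx
  obtain ⟨k, hk⟩ := Gen2.pElt_iff.1 (Gen2.pElt_map (QuotientGroup.mk' (pCore p G)) h1)
  rw [map_mul, (QuotientGroup.eq_one_iff x).2 hx |> fun h => show QuotientGroup.mk' (pCore p G) x = 1 from h,
    one_mul, ← map_pow] at hk
  obtain ⟨l, hl⟩ := Gen2.pElt_iff.1 (Gen2.pElt_of_mem hO ((QuotientGroup.eq_one_iff _).1 hk))
  exact Gen2.pElt_iff.2 ⟨k + l, by rw [pow_add, pow_mul, hl]⟩

/-- Let G be a finite group and N a proper non-trivial normal subgroup such that for every x outside N all elements of the coset xN have the same order as x. Then N ≤ F(G) or F(G) ≤ N, where F(G) is the Fitting subgroup; and if N is properly contained in F(G) then F(G) has prime-power order. -/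
theorem result {G : Type*} [Group G] [Finite G] (N : Subgroup G) [N.Normal] (hN1 : N ≠ ⊥) (hN2 : N ≠ ⊤)
    (heq : ∀ x : G, x ∉ N → ∀ n ∈ N, orderOf (x * n) = orderOf x) :
    (N ≤ Cfsg.fittingSubgroup G ∨ Cfsg.fittingSubgroup G ≤ N) ∧
    (N < Cfsg.fittingSubgroup G → IsPrimePow (Nat.card (Cfsg.fittingSubgroup G))) := by
  have hex : ¬ fittingSubgroup G ≤ N → ∃ p : Nat.Primes, ¬ pCore (p : ℕ) G ≤ N := fun h => by
    by_contra h'
    push Not at h'
    exact h (by rw [Solv.fitting_eq_iSup_pCore]; exact iSup_le h')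
  constructor
  · by_cases h : fittingSubgroup G ≤ N
    · exact Or.inr h
    · obtain ⟨p, hp⟩ := hex h
      have := Fact.mk p.2
      exact Or.inl ((Solv.le_pCore (aux N heq p hp)).trans Solv.pCore_le_fitting)
  · intro hlt
    obtain ⟨p, hp⟩ := hex hlt.not_ge
    have := Fact.mk p.2
    have hN := aux N heq p hp
    have hF : fittingSubgroup G = pCore p G := by
      refine le_antisymm ?_ Solv.pCore_le_fitting
      rw [Solv.fitting_eq_iSup_pCore]
      refine iSup_le fun q => ?_
      have := Fact.mk q.2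
      by_cases hq : pCore (q : ℕ) G ≤ N
      · exact hq.trans (Solv.le_pCore hN)
      · by_cases hpq : (p : ℕ) = q
        · rw [hpq]
        · exact absurd (disjoint_self.1 (IsPGroup.disjoint_of_ne p q hpq N N hN (aux N heq q hq))) hN1
    obtain ⟨k, hk⟩ := IsPGroup.iff_card.1 (Solv.isPGroup_pCore p G)
    rw [hF, hk]
    refine (isPrimePow_nat_iff _).2 ⟨p, k, p.2, Nat.pos_of_ne_zero ?_, rfl⟩
    rintro rfl
    rw [hF, Subgroup.card_eq_one.1 hk] at hlt
    exact not_lt_bot hlt

end Cfsg.Agent.S4107
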