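import Cfsg.Statements.S4108
import Cfsg.Agent.Gen2.FrobCompl
import Cfsg.Agent.Solv.Core

set_option autoImplicit false
open Cfsg

namespace Cfsg.Agent.S4108

/-- Let G be a finite group, p a prime and N a proper non-trivial normal p-subgroup such that for every x outside N all elements of the coset xN have the same order as x. Then every non-trivial subgroup H of G of order prime to p acts fixed-point-freely on N: NH is a Frobenius group with complement H and kernel N. -/
theorem result {G : Type*} [Group G] [Finite G] (N : Subgroup G) [N.Normal] (hN1 : N ≠ ⊥) (hN2 : N ≠ ⊤)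
    (heq : ∀ x : G, x ∉ N → ∀ n ∈ N, orderOf (x * n) = orderOf x)
    (p : ℕ) [Fact p.Prime] (hNp : IsPGroup p N) :
    ∀ H : Subgroup G, H ≠ ⊥ → (Nat.card H).Coprime p →
      Cfsg.IsFrobeniusComplement (H.subgroupOf (N ⊔ H)) ∧ Cfsg.frobeniusKernel (H.subgroupOf (N ⊔ H)) = (N.subgroupOf (N ⊔ H) : Set ↥(N ⊔ H)) := by
  intro H hH hc
  have hc' := Solv.coprime_card_of_isPGroup hNp hc
  refine Gen2.frob_sup_of_fpf Subgroup.le_normalizer_of_normal hN1 hH fun h hh h1 n hn h3 => ?_
  have h2 := heq h (fun h2 => h1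
    (Subgroup.disjoint_def.1 (Subgroup.disjoint_of_coprime_natCard hc') h2 hh)) n hn
  rwa [Commute.orderOf_mul_eq_mul_orderOf_of_coprime h3.symm (hc'.symm.of_dvd
    (H.orderOf_dvd_natCard hh) (N.orderOf_dvd_natCard hn)),
    Nat.mul_eq_left (orderOf_pos _).ne', orderOf_eq_one_iff] at h2

end Cfsg.Agent.S4108
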