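import Cfsg.Statements.S4112
import Cfsg.Agent.Gen2.ClassCount
import Cfsg.Agent.Loc.PGrp
import Cfsg.Agent.Solv.SchurZassenhaus

set_option autoImplicit false
open Cfsg

namespace Cfsg.Agent.S4112

/-- Let G be a finite group and M ≤ N non-trivial proper normal subgroups such that for every g outside N the conjugacy class of g is a union of cosets of M (equivalently gm is conjugate to g for every m ∈ M). Then (1) and (2) below are equivalent, and they imply (3): (1) every g outside N acts fixed-point-freely on M, that is C_G(x) ≤ N for every x ∈ M, x ≠ 1; (2) the index of N in G is coprime to the order of M; (3) there is a subgroup H of G with HN = G and H ∩ M = 1. -/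
theorem result {G : Type*} [Group G] [Finite G] (N M : Subgroup G) [N.Normal] [M.Normal] (hMN : M ≤ N) (hM1 : M ≠ ⊥) (hN2 : N ≠ ⊤)
    (hcam : ∀ g : G, g ∉ N → ∀ m ∈ M, ∃ x : G, x * g * x⁻¹ = g * m) :
    ((∀ x ∈ M, x ≠ 1 → Subgroup.centralizer ({x} : Set G) ≤ N) ↔ N.index.Coprime (Nat.card M)) ∧
    ((∀ x ∈ M, x ≠ 1 → Subgroup.centralizer ({x} : Set G) ≤ N) → ∃ H : Subgroup G, H ⊔ N = ⊤ ∧ H ⊓ M = ⊥) := by
  have h1 : (∀ x ∈ M, x ≠ 1 → Subgroup.centralizer ({x} : Set G) ≤ N) →
      N.index.Coprime (Nat.card M) := fun h => by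
    by_contra hc
    obtain ⟨q, hq, h1, h2⟩ := Nat.Prime.not_coprime_iff_dvd.1 hc
    have := Fact.mk hq
    obtain ⟨Q⟩ : Nonempty (Sylow q G) := inferInstance
    obtain ⟨⟨x, hx, h3⟩, h4⟩ := Subgroup.ne_bot_iff_exists_ne_one.1
      (Loc.inf_centralizer_ne_bot_of_dvd Q.isPGroup' Subgroup.le_normalizer_of_normal h2)
    refine Gen2.not_dvd_index_of_sylow_le Q (le_trans (fun y hy => ?_)
      (h x hx fun h5 => h4 (Subtype.ext h5))) h1
    exact Gen2.mem_cent.2 (h3 y hy)
  refine ⟨⟨h1, fun h x hx hx1 g hg => ?_⟩, fun h => ?_⟩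
  · by_contra hgN
    let π : Set ℕ := {q | q ∣ Nat.card M}
    have h2 : BG.constt π g ∈ N := by
      rw [← QuotientGroup.eq_one_iff, ← orderOf_eq_one_iff]
      refine Nat.eq_one_of_dvd_coprimes ?_ (orderOf_map_dvd (QuotientGroup.mk' N) _)
        (orderOf_dvd_natCard _)
      exact Nat.coprime_of_dvd fun q hq h1 h2 =>
        hq.one_lt.ne' (Nat.eq_one_of_dvd_coprimes h h2 (BG.p_elt_constt π g q hq h1))
    have h3 : BG.constt πᶜ g ∉ N := fun h3 => hgN (BG.consttC π g ▸ mul_mem h2 h3)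
    obtain ⟨y, hy⟩ := hcam _ h3 x hx
    have h4 := (MulAut.conj y).orderOf_eq (BG.constt πᶜ g)
    have h5 : Commute (BG.constt πᶜ g) x := (BG.commute_constt πᶜ (Gen2.mem_cent.1 hg).symm).symm
    rw [MulAut.conj_apply, hy, h5.orderOf_mul_eq_mul_orderOf_of_coprime (Nat.coprime_of_dvd
      fun q hq h1 h2 => BG.p_elt_constt πᶜ g q hq h1 (h2.trans (M.orderOf_dvd_natCard hx))),
      Nat.mul_eq_left (orderOf_pos _).ne', orderOf_eq_one_iff] at h4
    exact hx1 h4
  · obtain ⟨H, hH, hmin⟩ := exists_minimal_of_wellFoundedLT (fun H : Subgroup G => H ⊔ N = ⊤)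
      ⟨⊤, top_sup_eq _⟩
    refine ⟨H, hH, ?_⟩
    by_contra h0
    obtain ⟨q, hq, h2⟩ := Nat.exists_prime_and_dvd (mt Subgroup.card_eq_one.1 h0)
    have := Fact.mk hq
    obtain ⟨T, hT⟩ := Loc.exists_sylIn q (H ⊓ N)
    have h3 : H ≤ Subgroup.normalizer ((H ⊓ N : Subgroup G) : Set G) :=
      Solv.le_normalizer_inf Subgroup.le_normalizer Subgroup.le_normalizer_of_normal
    have h4 := hT.frattini_sup inf_le_left h3
    have h5 : H ≤ Subgroup.normalizer (T : Set G) := by
      refine (hmin (y := H ⊓ Subgroup.normalizer (T : Set G)) ?_ inf_le_left).trans inf_le_right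
      refine top_le_iff.1 (hH.ge.trans (sup_le (h4.ge.trans ?_) le_sup_right))
      exact sup_le (le_sup_of_le_right inf_le_right) le_sup_left
    have h6 : N.relIndex H = N.index := by
      rw [← Subgroup.relIndex_sup_right, hH, Subgroup.relIndex_top_right]
    have h7 : ¬ q ∣ T.relIndex H := by
      rw [← Subgroup.relIndex_mul_relIndex T (H ⊓ N) H hT.le inf_le_left,
        Subgroup.inf_relIndex_left, h6, hq.dvd_mul, not_or]
      exact ⟨hT.not_dvd_relIndex, fun h8 => hq.one_lt.ne' (Nat.eq_one_of_dvd_coprimes (h1 h) h8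
        (h2.trans (Subgroup.card_dvd_of_le inf_le_right)))⟩
    obtain ⟨k, hk⟩ := hT.pg.exists_card_eq
    obtain ⟨B, hB, h8, h9, h10⟩ := Solv.exists_complement_in (hT.le.trans inf_le_left) h5
      (hk ▸ ((Nat.Prime.coprime_iff_not_dvd hq).2 h7).pow_left k)
    have h11 := hmin (y := B) (top_le_iff.1 (hH.ge.trans (sup_le (h8.ge.trans (sup_le
      (le_sup_of_le_right (hT.le.trans inf_le_right)) le_sup_left)) le_sup_right))) hB
    refine hT.ne_bot (h2.trans (Subgroup.card_dvd_of_le (inf_le_inf_left H hMN))) ?_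
    rwa [inf_eq_left.2 ((hT.le.trans inf_le_left).trans h11)] at h9

end Cfsg.Agent.S4112
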