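import Cfsg.Statements.S4115
import Cfsg.Agent.Gen2.TIHall
import Cfsg.Agent.Char.Frobenius

set_option autoImplicit false
universe u
open Cfsg

namespace Cfsg.Agent.S4115

open Subgroup Cfsg.Agent.BG Cfsg.Agent.Gen2

/-- Let G be a finite group and H a subgroup that meets each of its conjugates by elements outside N_G(H) trivially and whose order is coprime to its index in N_G(H). Then H has a normal complement in N_G(H) if and only if H has a normal complement in G. Moreover, if H is not normal in G and has a normal complement in N_G(H), then H is isomorphic to a Frobenius complement of some finite Frobenius group. -/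
theorem result {G : Type u} [Group G] [Finite G] (H : Subgroup G)
    (hTI : Cfsg.IsTISubset (H : Set G)) (hHall : (Nat.card H).Coprime (H.subgroupOf (Subgroup.normalizer (H : Set G))).index) :
    ((∃ K : Subgroup (Subgroup.normalizer (H : Set G)), K.Normal ∧ K.IsComplement' (H.subgroupOf (Subgroup.normalizer (H : Set G)))) ↔
      (∃ N : Subgroup G, N.Normal ∧ N.IsComplement' H)) ∧
    (¬ H.Normal → (∃ K : Subgroup (Subgroup.normalizer (H : Set G)), K.Normal ∧ K.IsComplement' (H.subgroupOf (Subgroup.normalizer (H : Set G)))) →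
      ∃ (F : Type u) (_ : Group F) (_ : Finite F) (C : Subgroup F), Cfsg.IsFrobeniusComplement C ∧ Nonempty (H ≃* C)) := by
  have hH := ti_hall hTI hHall
  have hHall' : IsPiHallOf (primesOf #H) H N[H] := pHall_of_coprime (normG H) hHall
  have key : (∃ K : Subgroup N[H], K.Normal ∧ K.IsComplement' (H.subgroupOf N[H])) →
      ∃ N : Subgroup G, N.Normal ∧ N.IsComplement' H := by
    rintro ⟨K, hK, hc⟩
    have hKn := normal_map_subtype hK
    have hsd : Sdprod (K.map N[H].subtype) H N[H] := by
      refine sdprod_of_card hKn (normG H) ?_ (le_of_eq ?_)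
      · rw [eq_bot_iff]
        rintro _ ⟨⟨x, hx, rfl⟩, hx'⟩
        exact congrArg Subtype.val (disjoint_def.1 hc.disjoint hx hx')
      · rw [← hc.card_mul, card_map_of_injective N[H].subtype_injective,
          Nat.card_congr (subgroupOfEquivOfLe (normG H)).toEquiv]
    have hKH : IsPiHallOf (primesOf #H)ᶜ (K.map N[H].subtype) N[H] :=
      compl_pHall ⟨normG H, hKn.1, (inf_comm _ _).trans hsd.inf, fun m hm => by
        obtain ⟨k, hk, y, hy, h⟩ := hsd.mem (inv_mem hm)
        exact ⟨y⁻¹, inv_mem hy, k⁻¹, inv_mem hk, by rw [← mul_inv_rev, ← h, inv_inv]⟩⟩ hHall'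
    obtain ⟨M, hM, -, h1, h2⟩ := Char.exists_normal_of_wielandt (H := N[H])
      (L := K.map N[H].subtype) hKn.1 (fun h hh x hx => hKn.conj_mem hh hx) fun g hg x hx hx' => by
        refine mem_normal_Hall hKH hKn hx fun p hp hd hp' => ?_
        obtain ⟨y, hy, hyp⟩ := exists_mem_orderOf_eq_prime (H := zpowers x) hp
          (by rwa [Nat.card_zpowers])
        have hy1 : PiElt (primesOf #H) y := by
          rw [PiElt, hyp]; exact (pnat_prime hp).2 hp'
        have hy2 := hTI g hg y (mem_normal_Hall hHall' (normalG H) (zpowers_le.2 hx hy) hy1)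
          (mem_normal_Hall hHall' (normalG H) ?_ ?_)
        · rw [hy2, orderOf_one] at hyp
          exact hp.ne_one hyp.symm
        · obtain ⟨k, rfl⟩ := hy
          rw [← conj_zpow]
          exact zpow_mem hx' k
        · rwa [PiElt, show g * y * g⁻¹ = MulAut.conj g y from rfl, MulEquiv.orderOf_eq]
    have hKM : K.map N[H].subtype ≤ M := h1.ge.trans inf_le_left
    refine ⟨M, hM, isComplement'_iff_sdprod.2 ⟨?_, norm_of_normal _ _, ?_⟩⟩
    · rw [← h2, ← hsd.sup, ← sup_assoc, sup_eq_left.2 hKM]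
    · rw [← hsd.inf, ← h1, inf_assoc, inf_eq_right.2 (normG H)]
  refine ⟨⟨key, fun ⟨N, hN, hc⟩ => ⟨N.subgroupOf _, inferInstance, ?_⟩⟩, fun hnn h => ?_⟩
  · have hsd := sdprod_modr (isComplement'_iff_sdprod.1 hc) (normG H)
    rw [inf_top_eq] at hsd
    refine isComplement'_of_disjoint_and_mul_eq_univ (disjoint_def.2 fun {x} h1 h2 =>
      Subtype.ext (disjoint_def.1 hc.disjoint h1 h2)) (Set.eq_univ_iff_forall.2 fun x => ?_)
    obtain ⟨k, hk, y, hy, h⟩ := hsd.mem x.2
    exact ⟨⟨k, hk.1⟩, hk.2, ⟨y, normG H hy⟩, hy, Subtype.ext h.symm⟩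
  · obtain ⟨N, hN, hc⟩ := key h
    have hFC := ti_isFC_of_sup hTI hnn (N := N) (hc.index_eq_card ▸ hH.symm)
      (eq_top_iff.2 (hc.sup_eq_top.ge.trans (sup_le_sup_left (normG H) _)))
    obtain ⟨p, V, _, _, _, φ, -, -, -, hφ⟩ := hFC.exists_action
    have := hFC.nontrivial
    obtain ⟨L, _, _, C, h1, h2, -⟩ := exists_frob_of_action.{u} φ hφ
    exact ⟨L, _, ‹_›, C, h1, h2⟩

end Cfsg.Agent.S4115
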