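import Cfsg.Statements.S4116
import Cfsg.Agent.Solv.HallConverse
import Cfsg.Agent.Frob.Basic
import Cfsg.Agent.Gen2.Basic

set_option autoImplicit false
open Cfsg

namespace Cfsg.Agent.S4116

open scoped Pointwise

theorem ti {G : Type*} [Group G] {H : Subgroup G} (hTI : IsTISubset (H : Set G)) {u v x : G}
    (h1 : x ≠ 1) (hu : x ∈ MulAut.conj u • H) (hv : x ∈ MulAut.conj v • H) :
    MulAut.conj u • H = MulAut.conj v • H := by
  rw [Solv.mem_conj_smul] at hu hv
  have : v⁻¹ * u ∈ Subgroup.normalizer (H : Set G) := by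
    by_contra h
    have h2 := hTI _ h _ hu (by simpa [mul_assoc] using hv)
    exact h1 (by rw [show x = u * (u⁻¹ * x * u) * u⁻¹ by group, h2]; group)
  rw [← Solv.conj_smul_eq_self_iff, ← Solv.conj_smul_conj_smul] at this
  rw [← this, Solv.conj_smul_conj_inv_smul, this]

/-- Let G be a finite group with a subgroup H whose order is coprime to its index (a Hall subgroup) and which meets each of its conjugates by elements outside N_G(H) trivially. Then every subgroup of G whose order is divisible only by primes dividing the order of H lies in a conjugate of H. -/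
theorem result {G : Type*} [Group G] [Finite G] (H : Subgroup G)
    (hHall : (Nat.card H).Coprime H.index) (hTI : Cfsg.IsTISubset (H : Set G))
    (K : Subgroup G) (hK : ∀ q : ℕ, q.Prime → q ∣ Nat.card K → q ∣ Nat.card H) :
    ∃ g : G, K ≤ H.map (MulAut.conj g).toMonoidHom := by
  have hH := Solv.isPiHallOf_top_iff.2 (Solv.isPiHall_of_coprime hHall)
  have hmem : ∀ u, ∀ k ∈ K, MulAut.conj (k * u) • H = MulAut.conj u • H → k ∈ MulAut.conj u • H :=
    fun u k hk h => by
      rw [← Solv.conj_smul_conj_smul, Solv.conj_smul_eq_self_iff] at h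
      refine Subgroup.zpowers_le.1 (Solv.HallOf.le_of_normalizes (Solv.HallOf.conj_of_mem hH (Subgroup.mem_top u)) le_top
        (fun q hq hd => hK q hq (hd.trans ?_)) (Subgroup.zpowers_le.2 h))
      exact Subgroup.card_dvd_of_le (Subgroup.zpowers_le.2 hk)
  have hex : ∀ x ∈ K, x ≠ 1 → ∃ u, x ∈ MulAut.conj u • H := fun x hx hx1 => by
    obtain ⟨y, hy, hq⟩ := Gen2.exists_prime_order_mem_zpowers hx1
    have := Fact.mk hq
    have hyK : y ∈ K := Subgroup.zpowers_le.2 hx hy
    obtain ⟨u, hu⟩ := Solv.exists_le_conj_of_not_dvd_index (N := Subgroup.zpowers y) (H := H)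
      (Gen2.isPGroup_zpowers_iff.2 ⟨1, (pow_one _).symm⟩)
      (hq.coprime_iff_not_dvd.1 (hHall.coprime_dvd_left (hK _ hq (K.orderOf_dvd_natCard hyK))))
    have hu' := hu (Subgroup.mem_zpowers y)
    refine ⟨u, hmem u x hx (ti hTI (x := y) (by rintro rfl; simp [Nat.not_prime_one] at hq) ?_ hu')⟩
    rw [← Solv.conj_smul_conj_smul]
    have h1 : x * y * x⁻¹ = y := by
      obtain ⟨j, rfl⟩ := hy
      group
    exact h1 ▸ Solv.conj_mem_conj_smul x hu'
  by_contra hne
  push Not at hne
  simp only [← Solv.conj_smul_eq_map] at hne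
  have hFC : ∀ u, ∀ x ∈ K, x ≠ 1 → x ∈ MulAut.conj u • H →
      IsFrobeniusComplement ((MulAut.conj u • H).subgroupOf K) := fun u x hx hx1 hxu => by
    refine Frob.isFrobeniusComplement_iff.2 ⟨fun h => hx1 ?_, fun h => hne u
      (Subgroup.subgroupOf_eq_top.1 h), fun g y hy hy1 hg => hmem u g g.2 ?_⟩
    · have : (⟨x, hx⟩ : K) ∈ (MulAut.conj u • H).subgroupOf K := hxu
      rw [h] at this
      exact congrArg Subtype.val this
    · refine ti hTI (x := y) (fun h => hy1 (Subtype.ext h)) ?_ hy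
      rw [← Solv.conj_smul_conj_smul, Solv.mem_conj_smul]
      exact hg
  obtain ⟨x, hx, hx1⟩ := K.bot_or_exists_ne_one.resolve_left fun h => hne 1 (h ▸ bot_le)
  obtain ⟨u, hu⟩ := hex x hx hx1
  refine hne u (Subgroup.subgroupOf_eq_top.1 (Gen2.eq_top_of_forall_exists_conj_mem _ fun y => ?_))
  by_cases hy1 : (y : G) = 1
  · exact ⟨1, by simp [Subgroup.mem_subgroupOf, hy1]⟩
  obtain ⟨v, hv⟩ := hex y y.2 hy1
  obtain ⟨g, z, hz1, hz, hg⟩ := Frob.exists_conj_inf_ne_bot (hFC u x hx hx1 hu) (hFC v y y.2 hy1 hv)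
  have h1 := ti hTI (u := g * u) (v := v) (x := z) (fun h => hz1 (Subtype.ext h)) (by
    rw [← Solv.conj_smul_conj_smul, Solv.mem_conj_smul]
    exact hg) hz
  rw [← h1, ← Solv.conj_smul_conj_smul, Solv.mem_conj_smul] at hv
  exact ⟨g⁻¹, by simpa [Subgroup.mem_subgroupOf] using hv⟩

end Cfsg.Agent.S4116
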