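import Cfsg.Statements.S4117
import Cfsg.Agent.Gen.MinAct
import Cfsg.Agent.BG.S1
import Cfsg.Agent.Solv.CoprimeSylow
import Mathlib.GroupTheory.SpecificGroups.ZGroup

set_option autoImplicit false
open Cfsg

namespace Cfsg.Agent.S4117

open Subgroup in
theorem aux {G : Type*} [Group G] [Finite G] {A K : Subgroup G} [IsZGroup K]
    (hA : A ≤ normalizer (K : Set G)) (hc : (Nat.card A).Coprime (Nat.card K)) :
    (Nat.card (K ⊓ centralizer (A : Set G) : Subgroup G)).Coprime
      ((K ⊓ centralizer (A : Set G)).relIndex K) ∧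
    IsCyclic ↥⁅K, A⁆ ∧ ⁅K, A⁆ ⊓ centralizer (A : Set G) = ⊥ ∧
    ⁅K, A⁆ ⊔ (K ⊓ centralizer (A : Set G)) = K := by
  have hs : Group.IsSolvable A ∨ Group.IsSolvable K := Or.inr inferInstance
  have hab : ∀ W ≤ K, IsCyclic W → A ≤ normalizer (W : Set G) → ⁅W, A⁆ = W →
      W ⊓ centralizer (A : Set G) = ⊥ := fun W hW hWc hAW h => by
    have h1 := Gen.cent_le_der_of_comm_eq hAW (Solv.coprime_of_le hc hW).symm h
    rwa [commutator_self_eq_bot_iff.2 inferInstance, le_bot_iff] at h1
  have hWK := Solv.commutator_le_of_le_normalizer hA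
  have hcyc : IsCyclic ↥⁅K, A⁆ := by
    have h1 : ⁅K ⊔ A, K ⊔ A⁆ ≤ centralizer ((⁅K, K⁆ : Subgroup G) : Set G) :=
      BG.der1_cent_cyclic (BG.Zgroup_der1_cyclic ‹_›).1 (Solv.le_normalizer_commutator
        (sup_le le_normalizer hA) (sup_le le_normalizer hA))
    refine BG.nil_Zgroup_cyclic (BG.ZgroupS hWK ‹_›) ((isNilpotent_iff_lowerCentralSeries _).2 ⟨2, ?_⟩)
    exact commutator_eq_bot_iff_le_centralizer.2 (le_centralizer_iff.1
      (((commutator_mono le_sup_left le_sup_right).trans h1).trans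
        (centralizer_le (commutator_mono hWK hWK))))
  refine ⟨?_, hcyc, hab _ hWK hcyc (Solv.le_normalizer_commutator hA le_normalizer)
    (Solv.commutator_commutator_eq hA hc), Solv.commutator_sup_inf_centralizer hA hc hs⟩
  refine Nat.coprime_of_dvd fun p hp h1 h2 => ?_
  have := Fact.mk hp
  obtain ⟨P, hP, hAP⟩ := Solv.exists_invariant_sylIn hA hc hs p
  have hPc := BG.Zgroup_pgroup_cyclic ‹_› hP.le hP.pg
  rcases hP.pg.commutator_eq_bot_or_commutator_eq_self hAP (Solv.coprime_of_le hc hP.le).symm with h | h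
  · refine hP.not_dvd_relIndex (h2.trans (relIndex_dvd_of_le_left K (le_inf hP.le ?_)))
    exact le_centralizer_iff.1 (commutator_eq_bot_iff_le_centralizer.1 h)
  · exact (Solv.sylIn_inf_centralizer hA hc hs hP hAP).ne_bot h1
      (hab P hP.le hPc hAP (by rw [commutator_comm, h]))

/-- Let A be a finite group acting on the finite group G by automorphisms with the orders of A and G coprime, and suppose every Sylow subgroup of G is cyclic. Then the fixed-point subgroup C_G(A) is a Hall subgroup of G (its order is coprime to its index), the subgroup [G, A] generated by the elements g⁻¹·a(g) is cyclic and normal with [G, A] ∩ C_G(A) = 1 and [G, A]·C_G(A) = G. -/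
theorem result {G A : Type*} [Group G] [Finite G] [Group A] [Finite A]
    [MulDistribMulAction A G] (hcop : (Nat.card A).Coprime (Nat.card G))
    (hcyc : ∀ (p : ℕ) [Fact p.Prime] (P : Sylow p G), IsCyclic (P : Subgroup G)) :
    (Nat.card (MulAction.fixedPoints A G : Set G)).Coprime (Nat.card G / Nat.card (MulAction.fixedPoints A G : Set G)) ∧
    IsCyclic (Subgroup.closure {y : G | ∃ (a : A) (g : G), y = g⁻¹ * a • g}) ∧
    (Subgroup.closure {y : G | ∃ (a : A) (g : G), y = g⁻¹ * a • g}).Normal ∧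
    (Subgroup.closure {y : G | ∃ (a : A) (g : G), y = g⁻¹ * a • g} : Set G) ∩ MulAction.fixedPoints A G = {1} ∧
    Subgroup.closure {y : G | ∃ (a : A) (g : G), y = g⁻¹ * a • g} ⊔ Subgroup.closure (MulAction.fixedPoints A G) = ⊤ := by
  have hZ : IsZGroup G := ⟨fun p hp P => haveI := Fact.mk hp; hcyc p P⟩
  let φ := MulDistribMulAction.toMulAut A G
  have : IsZGroup (Transfer.sdL φ ⊤) := IsZGroup.of_surjective
    (G := (⊤ : Subgroup G)) (SemidirectProduct.inl.subgroupMap_surjective ⊤)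
  obtain ⟨h1, h2, h3, h4⟩ := aux (Transfer.sdR_le_normalizer_top φ ⊤) (by
    rw [Transfer.card_sdL, Transfer.card_sdR, Subgroup.card_top, Subgroup.card_top]; exact hcop)
  let C := FixedPoints.subgroup A G
  have hC : Transfer.sdL φ ⊤ ⊓ Subgroup.centralizer (Transfer.sdR φ ⊤ : Set _) = Transfer.sdL φ C := by
    ext x
    constructor
    · rintro ⟨⟨g, -, rfl⟩, hg⟩
      exact ⟨g, fun a => (Transfer.inl_mem_centralizer_sdR φ).1 hg a trivial, rfl⟩
    · rintro ⟨g, hg, rfl⟩
      exact ⟨⟨g, trivial, rfl⟩, (Transfer.inl_mem_centralizer_sdR φ).2 fun a _ => hg a⟩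
  have hW : {x | ∃ g ∈ (⊤ : Subgroup G), ∃ a ∈ (⊤ : Subgroup A), x = g⁻¹ * φ a g} =
      {y : G | ∃ (a : A) (g : G), y = g⁻¹ * a • g} := by
    ext x
    exact ⟨fun ⟨g, _, a, _, h⟩ => ⟨a, g, h⟩, fun ⟨a, g, h⟩ => ⟨g, trivial, a, trivial, h⟩⟩
  have hK := Transfer.commutator_sdL_sdR φ ⊤ ⊤
  rw [hW] at hK
  rw [hK] at h2 h3 h4
  rw [hC] at h1 h4
  have hcl : Subgroup.closure (MulAction.fixedPoints A G) = C := Subgroup.closure_eq C
  refine ⟨?_, ?_, ?_, ?_, ?_⟩
  · rw [Transfer.card_sdL, Subgroup.relIndex_map_map_of_injective _ _ SemidirectProduct.inl_injective,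
      Subgroup.relIndex_top_right] at h1
    show (Nat.card C).Coprime (Nat.card G / Nat.card C)
    rwa [← C.card_mul_index, Nat.mul_div_cancel_left _ Nat.card_pos]
  · exact isCyclic_of_surjective _
      (Subgroup.equivMapOfInjective _ _ (SemidirectProduct.inl_injective (φ := φ))).symm.surjective
  · refine ⟨fun x hx g => (Transfer.inl_mem_sdL φ).1 ?_⟩
    rw [← hK, map_mul, map_mul, map_inv]
    exact Solv.conj_mem_of_le_normalizer (Subgroup.normalizer_commutator_ge_left _ _)
      ⟨g, trivial, rfl⟩ (hK ▸ (Transfer.inl_mem_sdL φ).2 hx)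
  · refine Set.eq_singleton_iff_unique_mem.2 ⟨⟨Subgroup.one_mem _, C.one_mem⟩, fun x hx => ?_⟩
    have : (SemidirectProduct.inl x : G ⋊[φ] A) ∈ (⊥ : Subgroup (G ⋊[φ] A)) := h3 ▸
      ⟨(Transfer.inl_mem_sdL φ).2 hx.1, (Transfer.inl_mem_centralizer_sdR φ).2 fun a _ => hx.2 a⟩
    exact SemidirectProduct.inl_injective (φ := φ) (this.trans (map_one _).symm)
  · rw [hcl]
    exact Transfer.sdL_injective φ ((Subgroup.map_sup _ _ _).trans h4)

end Cfsg.Agent.S4117
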