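import Cfsg.Statements.S4118
import Cfsg.Agent.Gen2.TIHall
import Cfsg.Agent.Gen2.FCStruct
import Cfsg.Agent.Perm.NearField2
import Cfsg.Agent.S3359

set_option autoImplicit false
open Cfsg

namespace Cfsg.Agent.S4118

open Subgroup Cfsg.Agent.BG Cfsg.Agent.Gen2

/-- Let G be a finite group and H a non-normal subgroup meeting each of its conjugates by elements outside N_G(H) trivially, with the order of H coprime to its index in N_G(H); let π be the set of primes dividing the order of H and suppose G is π-separable (it has a chain of normal subgroups from 1 to G each of whose factors has order divisible only by primes in π or coprime to the order of H). Let O be the largest normal subgroup of G of order coprime to the order of H. Then G = O·N_G(H), O·H is normal in G, and G is solvable if and only if O is solvable and H has no subgroup isomorphic to SL₂(5). -/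
theorem result {G : Type*} [Group G] [Finite G] (H : Subgroup G)
    (hTI : Cfsg.IsTISubset (H : Set G)) (hnn : ¬ H.Normal)
    (hHall : (Nat.card H).Coprime (H.subgroupOf (Subgroup.normalizer (H : Set G))).index)
    (hsep : ∃ (n : ℕ) (M : Fin (n + 1) → Subgroup G), M 0 = ⊥ ∧ M (Fin.last n) = ⊤ ∧ Monotone M ∧ (∀ i, (M i).Normal) ∧
      ∀ i : Fin n, (∀ q : ℕ, q.Prime → q ∣ (M i.castSucc).relIndex (M i.succ) → q ∣ Nat.card H) ∨
        ((M i.castSucc).relIndex (M i.succ)).Coprime (Nat.card H))
    (O : Subgroup G) (hO : O = sSup {K : Subgroup G | K.Normal ∧ (Nat.card K).Coprime (Nat.card H)}) :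
    O ⊔ Subgroup.normalizer (H : Set G) = ⊤ ∧ (O ⊔ H).Normal ∧
    (Group.IsSolvable G ↔ Group.IsSolvable O ∧
      ∀ K : Subgroup G, K ≤ H → ¬ Nonempty (K ≃* Matrix.SpecialLinearGroup (Fin 2) (ZMod 5))) := by
  have hH := ti_hall hTI hHall
  have hsup := ti_struct hTI hH hsep
  rw [sSup_coprime_eq] at hO
  rw [← hO] at hsup
  have hOn : O.Normal := hO ▸ (pcore_normal _ _).normal
  have hOp : PiGrp (primesOf #H)ᶜ O := hO ▸ pcore_pgroup _ _
  have hHp : PiGrp (primesOf #H) H := fun p hp h => ⟨hp, h⟩
  have hFC := ti_isFC_of_sup hTI hnn (pnat_coprime' hOp hHp) hsup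
  have hn : (O ⊔ H).Normal := normalizer_eq_top_iff.1 (eq_top_iff.2 (hsup.ge.trans
    (sup_le (normsG le_sup_left) (normsY (norm_of_normal _ _) le_rfl))))
  refine ⟨hsup, hn, fun hs => ⟨inferInstance, fun K _ ⟨e⟩ => ?_⟩, fun ⟨hO1, hK⟩ => ?_⟩
  · exact Perm.NF.not_isSolvable_SL25 (solvable_of_surjective (f := e.toMonoidHom) e.surjective)
  have hHs : Group.IsSolvable H := by
    by_contra h
    obtain ⟨-, -, -, S, -, -, -, -, ⟨e⟩, -⟩ := S3359.result h hFC
    exact hK (S.map H.subtype) (map_subtype_le S)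
      ⟨(equivMapOfInjective S _ H.subtype_injective).symm.trans e⟩
  obtain ⟨Q, hQ⟩ := SchurZassenhaus_split (normalG H) hHall
  have hc : (#H).Coprime #Q := hQ.relIndexl ▸ hHall
  have hQp : PiGrp (primesOf #H)ᶜ Q := fun p hp h1 h2 =>
    hp.ne_one (Nat.eq_one_of_dvd_coprimes hc h2.2 h1)
  have hQs : Group.IsSolvable Q := by
    rcases Nat.even_or_odd #Q with h2 | h2
    swap
    · exact S0205.result h2
    have hZ : IsZGroup (⊤ : Subgroup H) := hFC.isZGroup_of_not_eight fun h => by
      rw [card_top] at h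
      exact absurd (Nat.eq_one_of_dvd_coprimes hc ((show 2 ∣ 8 by decide).trans h) h2.two_dvd)
        (by decide)
    have hZ' : IsZGroup H := isog_Zgroup (isog_symm isog_top) hZ
    have h1 : H ≤ C[⁅Q, Q⁆] := le_of_coprime_Sylow_le hQ.norm hc (Or.inr hHs) fun p hp P hP hn => by
      have := Fact.mk hp
      exact cents_symm (der1_cent_cyclic (Zgroup_pgroup_cyclic hZ' hP.le hP.pg) hn)
    have h2 : N[H] ≤ N[⁅Q, Q⁆] := hQ.sup.ge.trans (sup_le (cents_norm h1) (norms_der (normG Q)))
    have h3 : O ⊔ ⁅Q, Q⁆ ≤ O := by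
      rw [hO]
      refine pcore_max ⟨le_top, hsup.ge.trans (sup_le (normsG (hO ▸ le_sup_left))
        (normsY (hO ▸ norm_of_normal _ _) h2))⟩ (pgroupY (Or.inr (hO ▸ norm_of_normal _ _)) (hO ▸ hOp)
        (pgroupS (commutator_le_self Q) hQp))
    exact der1_sol (solvableS (le_sup_right.trans h3) hO1)
  have := solvableY (Or.inr (norm_of_normal _ _))
    (solvableY (Or.inr (norm_of_normal _ _)) hO1 hHs) hQs
  rw [sup_assoc, hQ.sup, hsup] at this
  exact isog_sol (isog_symm isog_top) this

end Cfsg.Agent.S4118
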