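import Cfsg.Statements.S4125
import Cfsg.Agent.Small.PPOrb
import Cfsg.Agent.Gen2.PPClass2
import Cfsg.Agent.Gen2.CopClass
import Cfsg.Agent.Gen2.ClassCount
import Cfsg.Agent.SolvStr.Product
import Cfsg.Agent.Isa.I4

set_option autoImplicit false
open Cfsg

namespace Cfsg.Agent.S4125

open Subgroup Cfsg.Agent.BG Cfsg.Agent.Gen2
open scoped commutatorElement

variable {G : Type*} [Group G] [Finite G] {q : ℕ} [hq : Fact q.Prime]

theorem half {x y : G} {r b : ℕ} (hr : r.Prime) (hx : ∃ k, orderOf x = q ^ k) (x1 : x ∉ center G)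
    (co : C1[x].index.Coprime C1[y].index) (hy : C1[y].index = r ^ b) (h : C1[x * y].index ≤ C1[y].index) :
    r = q ∧ x ∈ pCore q G := by
  obtain rfl : r = q := by_contra fun e => x1 (mem_center_of_coprime_cs co h (by
    obtain ⟨k, hk⟩ := hx
    rw [hk, hy]; exact Nat.coprime_pow_primes _ _ hq.out hr (Ne.symm e)))
  obtain ⟨j, -, hj⟩ := (Nat.dvd_prime_pow hr).1 (hy ▸ card_clStab_dvd y)
  have h1 : clStab y ≤ pCore r G := Solv.le_pCore (.of_card hj)
  have h2 := mem_pCore_of_cs (k := 0) (pElt_map (QuotientGroup.mk' (pCore r G)) hx) (cs_eq_one_iff.2 (mem_center_iff.2 fun g =>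
    QuotientGroup.induction_on g fun g => by
      have := (QuotientGroup.eq_one_iff _).2 (h1 (comm_mem_clStab co h g))
      exact (commutatorElement_eq_one_iff_mul_comm.1 this).symm))
  rw [Solv.pCore_quotient_pCore] at h2
  exact ⟨rfl, (QuotientGroup.eq_one_iff x).1 h2⟩

theorem two (h : ∀ x : G, (∃ k : ℕ, orderOf x = q ^ k) → ∃ (r : ℕ) (a : ℕ), r.Prime ∧ C1[x].index = r ^ a)
    {x y : G} {p r a b : ℕ} (hp : p.Prime) (hr : r.Prime) (pr : p ≠ r) (hx : ∃ k, orderOf x = q ^ k)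
    (hy : ∃ k, orderOf y = q ^ k) (x1 : x ∉ center G) (y1 : y ∉ center G) (ha : C1[x].index = p ^ a)
    (hb : C1[y].index = r ^ b) : (r = q ∧ x ∈ pCore q G) ∨ (p = q ∧ y ∈ pCore q G) := by
  have co : C1[x].index.Coprime C1[y].index := ha ▸ hb ▸ Nat.coprime_pow_primes _ _ hp hr pr
  obtain ⟨S, hS⟩ := exists_sylow_mem hx
  obtain ⟨g, hg⟩ := exists_conj_mem_sylow S hy
  obtain ⟨c, hc⟩ := isConj_iff.1 (isConj_mul_of_coprime co (IsConj.refl x) (isConj_iff.2 ⟨g, rfl⟩)).symm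
  obtain ⟨s, k, hs, hk⟩ := h (x * y) (hc ▸ pElt_conj (pElt_of_mem S.2 (mul_mem hS hg)) c)
  have h1 : s ^ k ∣ p ^ a * r ^ b := by
    rw [← hk, ← ha, ← hb, ← SolvStr.index_inf_of_coprime co]
    exact index_dvd_of_le fun u hu => mem_cent1.2 (Commute.mul_right (mem_cent1.1 hu.1) (mem_cent1.1 hu.2))
  by_cases e : s = p
  · refine .inr (half hp hy y1 co.symm ha ?_)
    rw [show y * x = y * (x * y) * y⁻¹ by group, cs_conj, hk, ha]
    exact Nat.le_of_dvd (pow_pos hp.pos a) ((Nat.coprime_pow_primes _ _ hs hr (e ▸ pr)).dvd_of_dvd_mul_right h1)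
  · refine .inl (half hr hx x1 co hb ?_)
    rw [hk, hb]
    exact Nat.le_of_dvd (pow_pos hr.pos b) ((Nat.coprime_pow_primes _ _ hs hp e).dvd_of_dvd_mul_left h1)

theorem direct (Q : Sylow q G) [hn : (Q : Subgroup G).Normal]
    (h : ∀ x ∈ (Q : Subgroup G), (∃ a, C1[x].index = q ^ a) ∨ x ∈ C[(Q : Subgroup G)])
    (h' : (Q : Subgroup G) ≤ C[(Q : Subgroup G)] → ∀ x ∈ (Q : Subgroup G), ∃ a, C1[x].index = q ^ a) :
    ∃ N : Subgroup G, N.Normal ∧ N.IsComplement' Q ∧ N ≤ C[(Q : Subgroup G)] := by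
  set T := (center (G ⧸ ⁅(Q : Subgroup G), (Q : Subgroup G)⁆)).comap (QuotientGroup.mk' _)
  have h1 : ∀ x ∈ (Q : Subgroup G), (∃ a, C1[x].index = q ^ a) → x ∈ T := fun x hx ⟨a, ha⟩ =>
    mem_center_iff.2 fun g => QuotientGroup.induction_on g fun g => by
      obtain ⟨c, hc, s, hs, rfl⟩ := exists_mul_of_coprime (A := C1[x]) (B := Q)
        (ha ▸ ((Nat.Prime.coprime_iff_not_dvd hq.out).2 Q.not_dvd_index).pow_left a) g
      refine commutatorElement_eq_one_iff_mul_comm.1 ((QuotientGroup.eq_one_iff ⁅c * s, x⁆).2 ?_)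
      rw [show ⁅c * s, x⁆ = c * ⁅s, x⁆ * c⁻¹ * (c * x * c⁻¹ * x⁻¹) by simp only [commutatorElement_def]; group,
        mem_cent1.1 hc, mul_inv_cancel_right, mul_inv_cancel, mul_one]
      exact Normal.conj_mem inferInstance _ (commutator_mem_commutator hs hx) c
  have h2 : (Q : Subgroup G) ≤ T := (SubgroupClass.subset_union.1 fun x hx => (h x hx).imp_left (h1 x hx)).elim id
    fun c x hx => h1 x hx (h' c x hx)
  obtain ⟨K, hK⟩ := exists_right_complement'_of_coprime Q.card_coprime_index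
  have h3 : K ≤ C[(Q : Subgroup G)] := coprime_cent_Phi (norm_of_normal _ _) (hK.symm.index_eq_card ▸ Q.card_coprime_index)
    (le_trans (commutator_le.2 fun x hx k _ => (QuotientGroup.eq_one_iff ⁅x, k⁆).1
      (commutatorElement_eq_one_iff_mul_comm.2 (mem_center_iff.1 (h2 hx) (k : G ⧸ _)).symm)) (der1_sub_Phi (pgroup_nil Q.2)))
  exact ⟨K, normalizer_eq_top_iff.1 (eq_top_iff.2 (hK.sup_eq_top.ge.trans (sup_le (cents_norm (cents_symm h3)) le_normalizer))),
    hK.symm, h3⟩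

theorem normal (Q : Sylow q G) (h : ∀ x : G, (∃ k : ℕ, orderOf x = q ^ k) → x ∈ pCore q G) : pCore q G = Q :=
  le_antisymm (Solv.pCore_le_sylow Q) fun x hx => h x (pElt_of_mem Q.2 hx)

theorem single (h : ∀ x : G, (∃ k : ℕ, orderOf x = q ^ k) → ∃ (r : ℕ) (a : ℕ), r.Prime ∧ C1[x].index = r ^ a) :
    ∃ p : ℕ, p.Prime ∧ ∀ x : G, (∃ k : ℕ, orderOf x = q ^ k) → ∃ a : ℕ, C1[x].index = p ^ a := by
  by_contra! hc
  have nc : ∀ {x : G} {p : ℕ}, (∀ a, C1[x].index ≠ p ^ a) → x ∉ center G := fun h c => h 0 (cs_eq_one_iff.2 c)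
  obtain ⟨w, w1, w2⟩ := hc q hq.out
  obtain ⟨r, b, hr, hb⟩ := h w w1
  have rq : r ≠ q := fun e => w2 b (e ▸ hb)
  obtain ⟨u, u1, u2⟩ := hc r hr
  obtain ⟨p, a, hp, ha⟩ := h u u1
  obtain ⟨rfl, -⟩ := (two h hp hr (fun e => u2 a (e ▸ ha)) u1 w1 (nc u2) (nc w2) ha hb).resolve_left fun h => rq h.1
  obtain ⟨Q⟩ : Nonempty (Sylow p G) := inferInstance
  have e := normal Q fun y hy => by
    obtain ⟨s, c, hs, hc⟩ := h y hy
    by_cases y1 : y ∈ center G
    · exact mem_pCore_of_cs (k := 0) hy (cs_eq_one_iff.2 y1)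
    by_cases e : p = s
    · exact mem_pCore_of_cs hy (e ▸ hc)
    · exact ((two h hp hs e u1 hy (nc u2) y1 ha hc).resolve_left fun h => e h.1.symm).2
  haveI : (Q : Subgroup G).Normal := e ▸ inferInstance
  have hC : ∀ y s c, s.Prime → s ≠ p → C1[y].index = s ^ c → y ∈ C[(Q : Subgroup G)] := fun y s c hs e' hc =>
    e ▸ mem_centralizer_pCore_of_not_dvd fun d => e' ((Nat.prime_dvd_prime_iff_eq hp hs).1 (hp.dvd_of_dvd_pow (hc ▸ d))).symm
  have hm : ∀ y : G, (∃ k : ℕ, orderOf y = p ^ k) → y ∈ (Q : Subgroup G) := fun y hy =>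
    mem_sylow_of_mem_normalizer Q hy (norm_of_normal (Q : Subgroup G) ⊤ (mem_top y))
  obtain ⟨N, -, h1, h2⟩ := direct Q (fun y hy => by
    obtain ⟨s, c, hs, hc⟩ := h y (pElt_of_mem Q.2 hy)
    exact (eq_or_ne s p).imp (fun e : s = p => ⟨c, e ▸ hc⟩) (hC y s c hs · hc)) fun c => absurd (not_dvd_index_of_sylow_le Q
      (fun y hy => mem_cent1.2 (c (hm u u1) y hy))) (not_not.2 (ha ▸ dvd_pow_self p fun a0 => u2 0 (by rw [ha, a0]; rfl)))
  exact nc w2 (cent_eq_top_iff.1 (eq_top_iff.2 (h1.sup_eq_top.ge.trans (sup_le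
    (fun y hy => mem_cent1.2 (h2 hy w (hm w w1)).symm) fun y hy => mem_cent1.2 (hC w r b hr rq hb y hy)))))

theorem solv (Q : Sylow q G) [(Q : Subgroup G).Normal] (ab : IsMulCommutative (Q : Subgroup G)) (h0 : pPrimeCore q G = ⊥)
    {p : ℕ} [Fact p.Prime] (h : ∀ x ∈ (Q : Subgroup G), ∃ a, C1[x].index = p ^ a) : Group.IsSolvable G := by
  obtain ⟨K, hK⟩ := exists_right_complement'_of_coprime Q.card_coprime_index
  have : Group.IsSolvable K := by_contra fun hs => by
    obtain ⟨D, hD, D1, h1⟩ := PF.CH.exists_perfect hs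
    have co : ¬ q ∣ #D := fun d => Q.not_dvd_index (hK.symm.index_eq_card ▸ d.trans (card_dvd_of_le hD.1))
    have h2 := Small.PPOrb.le_cent (p := p) Q.2 ab (norm_of_normal _ D) (le_antisymm (commg_subl le_normalizer) h1) co fun v hv => by
      obtain ⟨a, ha⟩ := h v hv
      have h3 : C1[v].relIndex K = p ^ a := by
        rw [← ha, ← relIndex_top_right, ← ncard_conj_by, ← ncard_conj_by]
        congr 1; ext y
        refine ⟨fun ⟨n, _, e⟩ => ⟨n, trivial, e⟩, fun ⟨n, _, e⟩ => ?_⟩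
        obtain ⟨⟨k, s⟩, rfl⟩ := hK.symm.2 n
        refine ⟨k, k.2, Eq.trans ?_ e⟩
        beta_reduce
        rw [show (k : G) * s * v * ((k : G) * s)⁻¹ = k * (s * v * (s : G)⁻¹) * (k : G)⁻¹ by group, abelian_iff.1 ab hv s s.2,
          mul_inv_cancel_right]
      haveI := (normal_subgroupOf_iff_le_normalizer hD.1).2 hD.2
      have h4 := relIndex_dvd_index_of_normal_right (C1[v].subgroupOf K) (D.subgroupOf K)
      rw [relIndex_subgroupOf hD.1, ← relIndex, h3] at h4
      exact ((Nat.dvd_prime_pow Fact.out).1 h4).imp fun _ h => h.2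
    haveI : D.Normal := normalizer_eq_top_iff.1 (eq_top_iff.2 (hK.sup_eq_top.ge.trans (sup_le (cents_norm (cents_symm h2)) hD.2)))
    exact D1 (Solv.eq_bot_of_pPrimeCore_eq_bot h0 ((Nat.Prime.coprime_iff_not_dvd hq.out).2 co).symm)
  haveI := Group.isSolvable_of_surjective (f := hK.symm.QuotientMulEquiv.symm.toMonoidHom) (MulEquiv.surjective _)
  haveI := Q.2.isNilpotent
  exact Group.isSolvable_of_ker_le_range (Q : Subgroup G).subtype (QuotientGroup.mk' (Q : Subgroup G)) (by simp)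

/-- Let G be a finite group and q a prime dividing its order such that every element of q-power order has a conjugacy class of prime-power size. Then G is q-solvable of q-length 1: there are normal subgroups K ≤ L of G with K of order prime to q, L/K a q-group and L of index prime to q. Moreover there is a prime p such that every element of q-power order has a class of p-power size (one prime serving for all of them), and for a Sylow q-subgroup Q: if p = q then Q is normal with a normal complement (a direct factor), while if p ≠ q then Q is abelian, the product of Q with the largest normal p-subgroup O_p(G) is normal in G, and G/O_{q'}(G) is solvable, where O_{q'}(G) is the largest normal subgroup of order prime to q. -/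
theorem result {G : Type*} [Group G] [Finite G] (q : ℕ) [Fact q.Prime] (hq : q ∣ Nat.card G)
    (hBaer : ∀ x : G, (∃ k : ℕ, orderOf x = q ^ k) → ∃ (r : ℕ) (a : ℕ), r.Prime ∧ (Subgroup.centralizer ({x} : Set G)).index = r ^ a) (Q : Sylow q G) :
    (∃ K L : Subgroup G, K.Normal ∧ L.Normal ∧ K ≤ L ∧ (Nat.card K).Coprime q ∧ (∃ m : ℕ, K.relIndex L = q ^ m) ∧ L.index.Coprime q) ∧
    ∃ p : ℕ, p.Prime ∧ (∀ x : G, (∃ k : ℕ, orderOf x = q ^ k) → ∃ a : ℕ, (Subgroup.centralizer ({x} : Set G)).index = p ^ a) ∧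
      (p = q → (Q : Subgroup G).Normal ∧ ∃ N : Subgroup G, N.Normal ∧ N.IsComplement' (Q : Subgroup G)) ∧
      (p ≠ q → IsMulCommutative (Q : Subgroup G) ∧ (Cfsg.pCore p G ⊔ (Q : Subgroup G)).Normal ∧
        ∀ _h : (Cfsg.pPrimeCore q G).Normal, Group.IsSolvable (G ⧸ Cfsg.pPrimeCore q G)) := by
  obtain ⟨p, hp, h⟩ := single hBaer
  haveI := Fact.mk hp
  have h1 : p = q → (Q : Subgroup G).Normal := by
    rintro rfl
    exact normal Q (fun x hx => mem_pCore_of_cs hx (h x hx).choose_spec) ▸ inferInstance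
  have h2 : p ≠ q → (pCore p G ⊔ (Q : Subgroup G)).Normal := fun pq => by
    have := normal (Q.mapSurjective (QuotientGroup.mk'_surjective (pCore p G))) fun x hx => by
      obtain ⟨x, rfl⟩ := QuotientGroup.mk'_surjective _ x
      obtain ⟨y, -, hy, e⟩ := exists_pElt_lift _ x hx
      obtain ⟨a, ha⟩ := h y hy
      obtain ⟨k, -, hk⟩ := (Nat.dvd_prime_pow hp).1 (ha ▸ cs_quotient_dvd (pCore p G) y)
      exact Solv.le_pCore_of_le_fitting (isPGroup_zpowers_iff.2 hx)
        (zpowers_le.2 (e ▸ mem_fitting_of_cs hp (Solv.pCore_quotient_pCore p G) hk)) (mem_zpowers _)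
    rw [sup_comm, ← Solv.comap_map_mk', ← Sylow.coe_mapSurjective (QuotientGroup.mk'_surjective _), ← this]
    infer_instance
  have h3 : (pPrimeCore q G ⊔ (Q : Subgroup G)).Normal := by
    by_cases e : p = q
    · haveI := h1 e
      infer_instance
    · haveI := h2 e
      rw [show pPrimeCore q G ⊔ (Q : Subgroup G) = pPrimeCore q G ⊔ (pCore p G ⊔ Q) by
        rw [← sup_assoc, sup_eq_left.2 (Solv.pCore_le_pPrimeCore_of_ne (Ne.symm e))]]
      infer_instance
  refine ⟨⟨pPrimeCore q G, _, inferInstance, h3, le_sup_left, Solv.coprime_card_pPrimeCore q G, ?_,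
    ((Nat.Prime.coprime_iff_not_dvd Fact.out).2 (not_dvd_index_of_sylow_le Q le_sup_right)).symm⟩, p, hp, h, ?_, fun pq => ?_⟩
  · rw [relIndex_sup_left]
    obtain ⟨k, hk⟩ := Q.2.exists_card_eq
    exact ((Nat.dvd_prime_pow Fact.out).1 (hk ▸ relIndex_dvd_card _ _)).imp fun _ h => h.2
  · intro e
    haveI := h1 e
    subst e
    obtain ⟨N, a1, a2, -⟩ := direct Q (fun x hx => .inl (h x (pElt_of_mem Q.2 hx))) fun _ x hx => h x (pElt_of_mem Q.2 hx)
    exact ⟨this, N, a1, a2⟩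
  have ab : IsMulCommutative (Q : Subgroup G) := abelian_iff.2 fun y hy x hx => by
    have := commutator_mem_pCore_of_cs (h x (pElt_of_mem Q.2 hx)).choose_spec (h y (pElt_of_mem Q.2 hy)).choose_spec
    exact commutatorElement_eq_one_iff_mul_comm.1 (mem_bot.1 (Solv.inf_pPrimeCore_eq_bot Q.2 ▸ mem_inf.2
      ⟨mul_mem (mul_mem (mul_mem hx hy) (inv_mem hx)) (inv_mem hy), Solv.pCore_le_pPrimeCore_of_ne (Ne.symm pq) this⟩))
  refine ⟨ab, h2 pq, fun _ => ?_⟩
  have hs := QuotientGroup.mk'_surjective (pPrimeCore q G)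
  haveI : ((Q.mapSurjective hs : Sylow q _) : Subgroup _).Normal := by
    have := h3.map _ hs
    rwa [Subgroup.map_sup, (Subgroup.map_eq_bot_iff _).2 (QuotientGroup.ker_mk' _).ge, bot_sup_eq] at this
  refine solv (p := p) (Q.mapSurjective hs) (map_isMulCommutative _ _) (Solv.pPrimeCore_quotient_pPrimeCore q G) ?_
  rintro _ ⟨x, hx, rfl⟩
  obtain ⟨a, ha⟩ := h x (pElt_of_mem Q.2 hx)
  exact ((Nat.dvd_prime_pow hp).1 (ha ▸ cs_quotient_dvd _ x)).imp fun _ h => h.2

end Cfsg.Agent.S4125
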