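import Cfsg.Statements.S4126
import Cfsg.Agent.Gen2.PPClass2

set_option autoImplicit false
open Cfsg

namespace Cfsg.Agent.S4126

/-- Let G be a finite group and p a prime. Suppose every element of order p, and when p = 2 also every element of order 4, has a conjugacy class of p-power size. Then G has a normal p-complement. -/
theorem result {G : Type*} [Group G] [Finite G] (p : ℕ) [Fact p.Prime]
    (h : ∀ x : G, (orderOf x = p ∨ (p = 2 ∧ orderOf x = 4)) → ∃ a : ℕ, (Subgroup.centralizer ({x} : Set G)).index = p ^ a) :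
    Cfsg.HasNormalPComplement p G := by
  open Subgroup in
  have hp : p.Prime := Fact.out
  have h1 : ∀ x : G, x ^ p = 1 ∨ (p = 2 ∧ x ^ 4 = 1) →
      (∃ j, orderOf x = p ^ j) ∧ ∃ a : ℕ, (centralizer ({x} : Set G)).index = p ^ a := by
    intro x hx
    by_cases h0 : x = 1
    · exact ⟨⟨0, by simp [h0]⟩, 0, by rw [h0, Gen2.cs_one, pow_zero]⟩
    by_cases h2 : x ^ p = 1
    · exact ⟨Gen2.pElt_iff.2 ⟨1, by rwa [pow_one]⟩, h x (Or.inl (orderOf_eq_prime h2 h0))⟩
    · obtain ⟨rfl, h3⟩ := hx.resolve_left h2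
      exact ⟨Gen2.pElt_iff.2 ⟨2, h3⟩, h x (Or.inr ⟨rfl,
        orderOf_eq_prime_pow (p := 2) (n := 1) (by rwa [pow_one]) h3⟩)⟩
  have h2 : Cfsg.pCore p G ≤ centralizer (Cfsg.pResidual p G : Set G) :=
    Gen2.le_centralizer_of_small (B := ⊤) (Solv.isPGroup_pCore p G) le_normalizer_of_normal le_top
      (by have := Transfer.pResidual_normal p G; exact le_normalizer_of_normal)
      Gen2.pGen_pResidual fun U hU hn hK hs => by
      have : U.Normal := normalizer_eq_top_iff.1 (top_le_iff.1 hn)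
      rw [Gen2.eq_bot_of_cs ((Solv.isPGroup_pCore p G).to_le hU) hK fun x hx => (h1 x (hs x hx)).2]
      exact bot_le
  exact Gen2.npc_of_omega4 fun x g hx hg => (h1 x hx).2.elim fun a ha =>
    h2 (Gen2.mem_pCore_of_cs (h1 x hx).1 ha) g (Transfer.mem_pResidual_of_coprime hg)

end Cfsg.Agent.S4126
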