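import Cfsg.Statements.S4167
import Cfsg.Agent.S0205
import Cfsg.Agent.Gen2.SqFree

set_option autoImplicit false
open Cfsg

namespace Cfsg.Agent.S4167

/-- Let G be a finite group in which no conjugacy class has size divisible by 4. Then G is solvable. -/
theorem result {G : Type*} [Group G] [Finite G]
    (h : ∀ x : G, ¬ 4 ∣ (Subgroup.centralizer ({x} : Set G)).index) : Group.IsSolvable G := by
  obtain ⟨N, _, h2, h3⟩ := Transfer.hasNormalPComplement_iff_exists.1
    (Gen2.npc_of_not_four_dvd (G := G) h)
  have := S0205.result (Nat.coprime_two_right.1 h2)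
  have := h3.isNilpotent
  exact Solv.isSolvable_of_normal_of_quotient N

end Cfsg.Agent.S4167
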