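import Cfsg.Statements.S4130
import Cfsg.Agent.Gen2.RankOne
import Cfsg.Agent.S4167
import Cfsg.Agent.SolvStr.Frattini

set_option autoImplicit false
open Cfsg

namespace Cfsg.Agent.S4130

open Subgroup Cfsg.Agent.BG Cfsg.Agent.Gen2

theorem ss.{u} {G : Type u} [Group G] [Finite G] [Group.IsSolvable G]
    (h : ∀ x : G, Squarefree (centralizer ({x} : Set G)).index) : IsSupersolvable G := by
  induction hn : Nat.card G using Nat.strong_induction_on generalizing G with
  | _ n ih =>
  subst hn
  rcases subsingleton_or_nontrivial G with h0 | h0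
  · exact SolvStr.isSupersolvable_of_subsingleton
  obtain ⟨V, hV, h1, hmin⟩ := Solv.exists_minimal_normal G
  obtain ⟨hc, p, hp, hpow⟩ := Solv.elementary_of_minimal_normal h1 hmin
  have : Fact p.Prime := ⟨hp⟩
  have hP : IsPGroup p V := fun x => ⟨1, Subtype.ext (by simpa using hpow x x.2)⟩
  have := isCyclic_minnormal_of_rank_one hp hc hmin fun x => relIndex_dvd_of_not_sq_dvd hP
    fun e => hp.not_isUnit (h x p (by rwa [← sq]))
  refine SolvStr.isSupersolvable_of_isCyclic_of_quotient V
    (ih _ (Solv.card_quotient_lt h1) (fun x => ?_) rfl)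
  obtain ⟨x, rfl⟩ := QuotientGroup.mk_surjective x
  exact (h x).squarefree_of_dvd (cs_quotient_dvd V x)

/-- Let G be a finite group all of whose conjugacy class sizes are square-free. Then G is supersolvable, G/F(G) and the derived subgroup G′ are cyclic of square-free order (F(G) the Fitting subgroup, which is normal), F(G) has nilpotency class at most 2, and G is metabelian. -/
theorem result {G : Type*} [Group G] [Finite G]
    (h : ∀ x : G, Squarefree (Subgroup.centralizer ({x} : Set G)).index) :
    Cfsg.IsSupersolvable G ∧ (Cfsg.fittingSubgroup G).Normal ∧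
    (∀ _h : (Cfsg.fittingSubgroup G).Normal, IsCyclic (G ⧸ Cfsg.fittingSubgroup G) ∧ Squarefree (Cfsg.fittingSubgroup G).index) ∧
    IsCyclic (commutator G) ∧ Squarefree (Nat.card (commutator G)) ∧
    Subgroup.upperCentralSeries ↥(Cfsg.fittingSubgroup G) 2 = ⊤ ∧ commutator ↥(commutator G) = ⊥ := by
  have : Group.IsSolvable G := S4167.result fun x e =>
    Nat.prime_two.not_isUnit (h x 2 e)
  have h1 := ss h
  have hN := SolvStr.ss_isNilpotent_commutator h1
  have h2 : Squarefree (Nat.card (commutator G)) := Nat.squarefree_iff_prime_squarefree.2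
    fun p hp e => by
      have : Fact p.Prime := ⟨hp⟩
      exact not_sq_dvd_card_commutator (p := p) hN
        (fun x e => hp.not_isUnit (h x p (by rwa [← sq]))) (by rwa [sq])
  have := IsZGroup.of_squarefree h2
  have hc : IsCyclic (commutator G) := inferInstance
  obtain ⟨d, hd⟩ := (Subgroup.isCyclic_iff_exists_zpowers_eq_top (commutator G)).1 hc
  have hd1 : d ∈ commutator G := hd ▸ mem_zpowers d
  have hC : centralizer ({d} : Set G) = centralizer (commutator G : Set G) := by
    rw [← hd, zpowers_eq_closure, centralizer_closure]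
  have hDC : commutator G ≤ centralizer ({d} : Set G) := fun x hx =>
    mem_cent.2 (congrArg Subtype.val (hc.isMulCommutative.is_comm.comm ⟨x, hx⟩ ⟨d, hd1⟩))
  have hcl : ∀ H : Subgroup G, H ≤ centralizer (commutator G : Set G) →
      Subgroup.upperCentralSeries H 2 = ⊤ := fun H hH => by
    refine eq_top_iff.2 fun x _ => Subgroup.mem_upperCentralSeries_succ_iff.2 fun y => ?_
    rw [Subgroup.upperCentralSeries_one]
    exact mem_center_iff.2 fun z => Subtype.ext (hH z.2 _
      (commutator_mem_commutator (mem_top (x : G)) (mem_top (y : G)))).symm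
  have hCF : centralizer ({d} : Set G) ≤ fittingSubgroup G := by
    rw [hC]
    have : Group.IsNilpotent (centralizer (commutator G : Set G)) := ⟨2, hcl _ le_rfl⟩
    exact Solv.le_fitting
  have h3 : Squarefree (fittingSubgroup G).index := (h d).squarefree_of_dvd (index_dvd_of_le hCF)
  refine ⟨h1, inferInstance, fun _ => ⟨?_, h3⟩, hc, h2, hcl _ (le_centralizer_iff.1 ?_), ?_⟩
  · have := IsZGroup.of_squarefree h3
    have h4 : IsMulCommutative (G ⧸ fittingSubgroup G) :=
      Normal.quotient_commutative_iff_commutator_le.2 (hDC.trans hCF)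
    have : Group.IsNilpotent (G ⧸ fittingSubgroup G) :=
      ⟨1, by rw [Subgroup.upperCentralSeries_one]; exact center_eq_top⟩
    infer_instance
  · refine le_of_pelts fun p hp x hx hxp => ?_
    have : (zpowers x).Normal := SolvStr.normal_of_le_of_isCyclic (zpowers_le.2 hx)
    obtain ⟨k, hk⟩ := (p_natP hp).1 hxp
    have h5 : Nat.card (zpowers x) ∣ p := by
      rw [Nat.card_zpowers, hk]
      have : k ≤ 1 := not_lt.1 fun e => hp.not_isUnit (h2 p (by
        rw [← sq]; exact (pow_dvd_pow p e).trans (hk ▸ Subgroup.orderOf_dvd_natCard _ hx)))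
      simpa using pow_dvd_pow p this
    exact le_centralizer_iff.1 (SolvStr.fitting_le_centralizer_minimal_normal
      fun K _ hK => eq_bot_or_eq_of_card_dvd hp h5 hK) (mem_zpowers x)
  · have := hc.isMulCommutative
    exact commutator_eq_bot (commutator G)

end Cfsg.Agent.S4130
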