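import Cfsg.Statements.S4134
import Cfsg.Agent.Gen2.TwoSizes
import Cfsg.Agent.Gen2.SylowNum

set_option autoImplicit false
open Cfsg

namespace Cfsg.Agent.S4134

open Subgroup Cfsg.Agent.BG Cfsg.Agent.Gen2

/-- Let G be a finite group whose conjugacy classes have exactly two sizes, 1 and n > 1. Then n is a power of a prime p and G is the direct product of a p-group and an abelian group of order prime to p: its Sylow p-subgroup P is normal with an abelian normal complement centralizing it; moreover P has an abelian normal subgroup A with P/A of exponent dividing p. -/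
theorem result {G : Type*} [Group G] [Finite G] (n : ℕ) (hn : 1 < n)
    (h : ∀ x : G, (Subgroup.centralizer ({x} : Set G)).index = 1 ∨ (Subgroup.centralizer ({x} : Set G)).index = n) (hex : ∃ x : G, (Subgroup.centralizer ({x} : Set G)).index = n) :
    ∃ (p : ℕ) (_ : Fact p.Prime) (a : ℕ), n = p ^ a ∧ ∀ P : Sylow p G, (P : Subgroup G).Normal ∧
      (∃ N : Subgroup G, N.Normal ∧ N.IsComplement' (P : Subgroup G) ∧ IsMulCommutative N ∧
        ∀ x ∈ N, ∀ y ∈ (P : Subgroup G), x * y = y * x) ∧
      ∃ A : Subgroup (P : Subgroup G), A.Normal ∧ IsMulCommutative A ∧ ∀ y : (P : Subgroup G), y ^ p ∈ A := by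
  obtain ⟨p, hp, hP⟩ := isPGroup_quotient_of_two_sizes h
  have hf : Fact p.Prime := ⟨hp⟩
  obtain ⟨k, hk⟩ := IsPGroup.iff_card.1 hP
  rw [← index_eq_card] at hk
  obtain ⟨x, rfl⟩ := hex
  obtain ⟨a, -, ha⟩ := (Nat.dvd_prime_pow hp).1 (hk ▸ index_dvd_of_le (center_le_centralizer {x}))
  refine ⟨p, hf, a, ha, fun P => ?_⟩
  have := hP.isNilpotent
  have hG : Group.IsNilpotent G := Group.of_quotient_center_nilpotent this
  have hn : (P : Subgroup G).Normal := inferInstance
  have hd := nilpotent_pcoreC {p} (M := (⊤ : Subgroup G)) inferInstance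
  have e : piCoreOf {p} (⊤ : Subgroup G) = P := by
    rw [← Solv.pCore_eq_of_normal P]; exact Op_top p
  rw [e] at hd
  have hn' : (piCoreOf {p}ᶜ (⊤ : Subgroup G)).Normal := normal_top_iff.1 (pcore_normal _ _)
  have hZ : piCoreOf {p}ᶜ (⊤ : Subgroup G) ≤ center G := fun y hy =>
    FG.mem_of_piElt (BG.normal_top _) (by
      rw [compl_compl, relIndex_top_right, hk]; exact pnat_pow_self hp k) (mem_top y)
      (mem_p_elt (pcore_pgroup _ _) hy)
  refine ⟨hn, ⟨_, hn', isComplement'_iff_sdprod.2 hd.symm.sdprod,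
    le_centralizer_iff_isMulCommutative.1 (hZ.trans (center_le_centralizer _)),
    fun a ha y _ => (mem_center_iff.1 (hZ ha) y).symm⟩, center P, inferInstance, inferInstance,
    pow_mem_center_of_two_sizes P.isPGroup' (m := C1[x].index) fun y => ?_⟩
  rw [cs_subtype, ← relIndex_sup_of_le (hZ.trans (center_le_centralizer _)) le_normalizer_of_normal,
    hd.sup, relIndex_top_right]
  exact h y

end Cfsg.Agent.S4134
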