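import Cfsg.Statements.S4135
import Cfsg.Agent.Gen2.TwoSizes

set_option autoImplicit false
open Cfsg

namespace Cfsg.Agent.S4135

open Subgroup Cfsg.Agent.BG Cfsg.Agent.Gen2

/-- Let G be a finite group, r a prime and R a Sylow r-subgroup of G that is not central, N a normal subgroup of G containing R, and m a natural number such that every element of N has a conjugacy class in G of size 1 or m. Then N is nilpotent. -/
theorem result {G : Type*} [Group G] [Finite G] (r : ℕ) [Fact r.Prime]
    (R : Sylow r G) (hR : ¬ (R : Subgroup G) ≤ Subgroup.center G) (N : Subgroup G) [N.Normal] (hRN : (R : Subgroup G) ≤ N)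
    (m : ℕ) (h : ∀ x ∈ N, (Subgroup.centralizer ({x} : Set G)).index = 1 ∨ (Subgroup.centralizer ({x} : Set G)).index = m) : Group.IsNilpotent N := by
  rename_i hr hn
  by_cases h0 : PiNat {r} ((center G).relIndex N)
  · have h1 : IsPGroup r (N ⧸ center N) := IsPGroup.iff_card.2 ((p_natP hr.out).1 (h0.of_dvd
      (index_dvd_of_le fun x hx => mem_center_iff.2 fun y => Subtype.ext (mem_center_iff.1 hx y))))
    exact Group.of_quotient_center_nilpotent h1.isNilpotent
  have key : ∀ (q : ℕ) [Fact q.Prime] (H : Subgroup G), q ∣ (center G).relIndex H →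
      ∃ u ∈ H, PiElt {q} u ∧ u ∉ center G := fun q hq H hd => by
    obtain ⟨S⟩ : Nonempty (Sylow q H) := inferInstance
    by_contra H'
    push Not at H'
    exact not_dvd_index_of_sylow_le S (fun a ha => H' a a.2 ((p_natP hq.out).2 (by
      simpa using pElt_of_mem S.isPGroup' ha))) hd
  simp only [PiNat, not_forall] at h0
  obtain ⟨q, hq, hqd, hqr⟩ := h0
  have : Fact q.Prime := ⟨hq⟩
  obtain ⟨v, hv, h3, h4⟩ := key q N hqd
  obtain ⟨u₀, hu₀, h2⟩ := SetLike.not_le_iff_exists.1 hR
  have h5 : r ∣ (center G).relIndex C1[u₀] := by_contra fun e => h2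
    (FG.mem_of_piElt ⟨center_le_centralizer _, le_normalizer_of_normal⟩ ((p'natE hr.out).2 e)
      (self_mem_cent u₀) ((p_natP hr.out).2 (pElt_of_mem R.isPGroup' hu₀)))
  have h6 : (center G).relIndex C1[u₀] = (center G).relIndex C1[v] := by
    have e1 := relIndex_mul_index (center_le_centralizer ({u₀} : Set G))
    have e2 := relIndex_mul_index (center_le_centralizer ({v} : Set G))
    rw [(h u₀ (hRN hu₀)).resolve_left fun e => h2 (cs_eq_one_iff.1 e),
      ← (h v hv).resolve_left fun e => h4 (cs_eq_one_iff.1 e), ← e2] at e1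
    exact Nat.eq_of_mul_eq_mul_right (cs_pos v) e1
  obtain ⟨u, hu, h7, h8⟩ := key r C1[v] (h6 ▸ h5)
  have huN : u ∈ N := by
    obtain ⟨g, hg⟩ := exists_conj_mem_sylow R ((p_natP hr.out).1 h7)
    simpa [mul_assoc] using hn.conj_mem' _ (hRN hg) g
  obtain ⟨h9, h10⟩ := exists_conj_mem_cent_of_two_sizes h huN hv h7 (pi_pnat h3 hqr) h8 h4 hu
  obtain ⟨p, hp, hP⟩ := isPGroup_quotient_of_two_sizes (G := N) (m := C1[u].relIndex N) fun y => by
    by_cases hy : (y : G) ∈ center G
    · exact Or.inl (cs_eq_one_iff.2 (mem_center_iff.2 fun z => Subtype.ext (mem_center_iff.1 hy z)))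
    obtain ⟨g, hg⟩ := h10 y y.2
    right
    rw [← h9 _ (hn.conj_mem _ y.2 g) hg fun e => hy (by
      simpa [mul_assoc] using Normal.conj_mem' inferInstance _ e g),
      ← cs_subtype N ⟨_, hn.conj_mem _ y.2 g⟩]
    exact (cs_mulEquiv (MulAut.conjNormal g) y).symm
  have : Fact p.Prime := ⟨hp⟩
  exact Group.of_quotient_center_nilpotent hP.isNilpotent

end Cfsg.Agent.S4135
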