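import Cfsg.Statements.S4138
import Cfsg.Agent.Gen2.CopClass
import Cfsg.Agent.Gen2.ClassCount

set_option autoImplicit false
open Cfsg

namespace Cfsg.Agent.S4138

open Subgroup Cfsg.Agent.BG Cfsg.Agent.Gen2
open scoped commutatorElement

theorem orb {G : Type*} [Group G] [Finite G] {M : Subgroup G} [hn : M.Normal]
    (hM : IsMulCommutative M) {u x : G} (hx : x ∈ M) (hc : (#M).Coprime (orderOf u))
    (hu : x ∉ C1[u]) : ∃ b ∈ M, b ∈ C1[u] ∧ C1[x].index < C1[u * b].index := by
  have hd := coprime_abelian_cent_dprod (K := M) (A := zpowers u) le_normalizer_of_normal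
    (by rwa [Nat.card_zpowers]) hM
  rw [C_zpowers] at hd
  set W := ⁅M, zpowers u⁆
  obtain ⟨c, hc', b, hb, rfl⟩ := hd.sdprod.mem hx
  refine ⟨b, hb.1, hb.2, ?_⟩
  rw [cent_mul_of_coprime (mem_cent.1 hb.2).symm
    (hc.symm.of_dvd_right (Subgroup.orderOf_dvd_natCard _ hb.1))]
  set U := C1[u] ⊓ C1[b]
  have h1 : C1[c].relIndex U < #W := by
    rw [← ncard_conj_by]
    refine Set.ncard_lt_ncard (s := {y | ∃ n ∈ U, n * c * n⁻¹ = y}) (t := W) ⟨?_, fun e => ?_⟩
    · rintro _ ⟨a, ha, rfl⟩
      exact (mem_normalizer_iff.1 (normsR (C := U) le_normalizer_of_normal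
        (inf_le_left.trans (cent1_le_norm_zpowers u)) ha) c).1 hc'
    · obtain ⟨a, -, h2⟩ := e W.one_mem
      exact hu (by rw [conj_eq_one_iff.1 h2, one_mul]; exact hb.2)
  have h2 : C1[c] ⊓ U = C1[c * b] ⊓ U := by
    ext a
    refine and_congr_left fun ha => ?_
    change a ∈ C1[c] ↔ a ∈ C1[c * b]
    rw [mem_cent_comm, mem_cent_comm (x := c * b),
      mul_mem_cancel_right (mem_cent_comm.1 ha.2)]
  have h3 := relIndex_mul_index (inf_le_right : C1[c] ⊓ U ≤ U)
  have h4 := relIndex_mul_index (inf_le_left : C1[c * b] ⊓ U ≤ _)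
  rw [inf_relIndex_right, h2, ← h4] at h3
  have h5 : #W ≤ (C1[c * b] ⊓ U).relIndex C1[c * b] := by
    rw [← hd.sdprod.relIndexr, inf_comm, inf_relIndex_right]
    exact (relIndex_le_of_le_right (fun a ha => mem_cent.2
      (congrArg Subtype.val (hM.is_comm.comm ⟨a, ha⟩ ⟨_, hx⟩))) index_ne_zero_of_finite).trans
      (relIndex_le_of_le_left (inf_le_right.trans inf_le_left) index_ne_zero_of_finite)
  by_contra H
  have := Nat.mul_lt_mul_of_lt_of_le (h1.trans_le h5) (not_lt.1 H) (cs_pos _)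
  omega

/-- Let G be a finite group whose two largest conjugacy class sizes m > n > 1 are coprime, and let x, y ∈ G have classes of sizes n and m respectively. Then C_G(x) and C_G(y) are abelian, and G/Z(G) is a Frobenius group with kernel C_G(x)/Z(G) and complement C_G(y)/Z(G). -/
theorem result {G : Type*} [Group G] [Finite G] (m n : ℕ) (hmn : n < m) (hn : 1 < n)
    (hcop : m.Coprime n) (htop : ∀ z : G, (Subgroup.centralizer ({z} : Set G)).index ≤ m) (hsecond : ∀ z : G, (Subgroup.centralizer ({z} : Set G)).index < m → (Subgroup.centralizer ({z} : Set G)).index ≤ n)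
    (x y : G) (hx : (Subgroup.centralizer ({x} : Set G)).index = n) (hy : (Subgroup.centralizer ({y} : Set G)).index = m) :
    IsMulCommutative (Subgroup.centralizer ({x} : Set G)) ∧ IsMulCommutative (Subgroup.centralizer ({y} : Set G)) ∧
    Cfsg.IsFrobeniusComplement ((Subgroup.centralizer ({y} : Set G)).map (QuotientGroup.mk' (Subgroup.center G))) ∧
    Cfsg.frobeniusKernel ((Subgroup.centralizer ({y} : Set G)).map (QuotientGroup.mk' (Subgroup.center G))) =
      ((Subgroup.centralizer ({x} : Set G)).map (QuotientGroup.mk' (Subgroup.center G)) : Set (G ⧸ Subgroup.center G)) := by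
  set π := primesOf n
  have hπn : PiNat π n := pnat_pi n
  have hπm : PiNat πᶜ m := coprime_pi'.1 hcop.symm
  have hcs : ∀ z : G, C1[z].index = m ∨ C1[z].index ≤ n := fun z =>
    (htop z).eq_or_lt.imp_right (hsecond z)
  have heq : ∀ {z w : G}, C1[z] ≤ C1[w] → C1[z].index ≤ C1[w].index → C1[w] ≤ C1[z] :=
    fun h1 h2 => relIndex_eq_one.1 (Nat.eq_of_mul_eq_mul_right (cs_pos _) (by
      rw [relIndex_mul_index h1, one_mul]
      exact le_antisymm h2 (Nat.le_of_dvd (cs_pos _) (index_dvd_of_le h1))))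
  have hnm : ∀ z : G, n ∣ C1[z].index → C1[z].index = n := fun z h =>
    le_antisymm ((hcs z).resolve_left fun e => hn.ne' (hcop.symm.eq_one_of_dvd (e ▸ h)))
      (Nat.le_of_dvd (cs_pos _) h)
  have hcm : ∀ {u w : G}, PiElt π u → PiElt πᶜ w → u ∈ C1[w] → C1[u * w] = C1[u] ⊓ C1[w] :=
    fun h1 h2 h3 => cent_mul_of_coprime (mem_cent.1 h3) (pnat_coprime h1 h2)
  obtain ⟨p, hp, hpn⟩ := Nat.exists_prime_and_dvd hn.ne'
  have : Fact p.Prime := ⟨hp⟩
  have h2 : ∀ w : G, PiElt πᶜ w → C1[w].index ∣ m → w ∈ center G := fun w hw hwm => by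
    refine mem_of_constt_prime fun s hs hsw => ?_
    have : Fact s.Prime := ⟨hs⟩
    set t := constt {s} w
    have ht : PiElt πᶜ t := p_elt_constt_of _ hw
    have htm : C1[t].index ∣ m := (index_dvd_of_le (cent1_le_constt _ w)).trans hwm
    have hc : C1[t].index.Coprime C1[x].index := hx ▸ hcop.of_dvd_left htm
    rcases hcs (t * x) with h | h
    swap
    · exact mem_center_of_coprime_cs hc (hx ▸ h) (hx ▸ pnat_coprime' ht hπn)
    have h3 := cs_le_cs_mul' (x := t * x) (y := x⁻¹) (by rwa [cent_inv, h, hx])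
    rw [mul_inv_cancel_right, h] at h3
    have h4 := commute_of_pElt hc ((p_natP hs).1 (p_elt_constt {s} w))
      (hx ▸ hπn.not_dvd hs (hw s hs hsw))
    obtain ⟨P, hP⟩ := exists_sylow_le_of_not_dvd_index (p := p) C1[t]
      fun e => hπm p hp (e.trans htm) (hπn p hp hpn)
    refine absurd (hx ▸ hpn) (not_dvd_index_of_sylow_le P fun g hg => mem_cent_comm.1 ?_)
    have h5 := hcm (pi_pnat ((p_natP hp).2 (pElt_of_mem P.isPGroup' hg)) (hπn p hp hpn)) ht (hP hg)
    exact (h5.le (heq (h5.le.trans inf_le_right) ((htop _).trans h3) (mem_cent_comm.1 h4))).1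
  have h1 : ∀ u : G, PiElt π u → C1[u].index ∣ n → u ∈ center G := fun u hu hun =>
    mem_center_of_coprime_cs (y := y) (hy ▸ hcop.symm.of_dvd_left hun) (hy ▸ htop _)
      (hy ▸ pnat_coprime hu hπm)
  set x' := constt πᶜ x
  have hx' : C1[x'].index = n := by
    rw [← cent_mul_central (h1 _ (p_elt_constt π x) (hx ▸ index_dvd_of_le (cent1_le_constt _ x))),
      consttC', hx]
  have h3 : ∀ u : G, PiElt π u → u ∉ center G → C1[u].index = m := fun u hu huZ => by
    have h4 : x' ∉ C1[u] := fun e => huZ (h1 u hu (by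
      have h5 := hcm hu (p_elt_constt _ x) (mem_cent_comm.1 e)
      exact hx' ▸ index_dvd_of_le ((heq (h5.le.trans inf_le_right)
        ((hnm _ (hx' ▸ index_dvd_of_le (h5.le.trans inf_le_right))).trans hx'.symm).le).trans
        (h5.le.trans inf_le_left))))
    have hc : C1[x'].index.Coprime C1[y].index := by rw [hx', hy]; exact hcop.symm
    set V := clStab y ⊓ C[clStab y]
    have h5 : x' ∈ C[clStab y] := fun a ha =>
      mem_cent.1 (le_cent_of_coprime (hc.symm.of_dvd_left (card_clStab_dvd y)) ha)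
    have h6 : ∀ g, ⁅x', g⁆ ∈ V := fun g => ⟨comm_mem_clStab hc (hy ▸ htop _) g, by
      rw [commutatorElement_def, mul_assoc, mul_assoc]
      exact mul_mem h5 (by simpa [mul_assoc] using Normal.conj_mem inferInstance _ (inv_mem h5) g)⟩
    have h7 : V ⊔ zpowers x' ≤ (center (G ⧸ V)).comap (QuotientGroup.mk' V) := by
      refine sup_le (fun a ha => ?_) (zpowers_le.2 (mem_center_iff.2 fun g => ?_))
      · rw [mem_comap, QuotientGroup.mk'_apply, (QuotientGroup.eq_one_iff a).2 ha]
        exact one_mem _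
      · obtain ⟨g, rfl⟩ := QuotientGroup.mk'_surjective V g
        rw [eq_comm, ← commutatorElement_eq_one_iff_mul_comm, ← map_commutatorElement]
        exact (QuotientGroup.eq_one_iff _).2 (h6 g)
    have : (V ⊔ zpowers x').Normal := ⟨fun a ha g => by
      have h8 : ⁅g, a⁆ ∈ V := (QuotientGroup.eq_one_iff _).1 (by
        change QuotientGroup.mk' V _ = 1
        rw [map_commutatorElement, commutatorElement_eq_one_iff_mul_comm]
        exact mem_center_iff.1 (h7 ha) _)
      simpa [commutatorElement_def] using mul_mem (mem_sup_left h8) ha⟩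
    have h8 : PiGrp πᶜ (V ⊔ zpowers x') := pgroupY (Or.inr le_normalizer_of_normal)
      (hπm.of_dvd ((card_dvd_of_le inf_le_left).trans (hy ▸ card_clStab_dvd y)))
      (p_elt_zpowers.2 (p_elt_constt _ x))
    obtain ⟨b, hb, hbu, h9⟩ := orb (M := V ⊔ zpowers x') (abelianY
      (le_centralizer_iff_isMulCommutative.1 fun a ha b hb => ha.2 b hb.1) (abelian_zpowers _)
      (cents_symm (zpowers_le.2 fun a ha => h5 a ha.1))) (mem_sup_right (mem_zpowers _))
      (pnat_coprime' h8 hu) h4
    have h10 := (hcs _).resolve_right (hx' ▸ h9).not_ge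
    have h11 := hcm hu (mem_p_elt h8 hb) (mem_cent_comm.1 hbu)
    rw [← h10, cent_mul_central (h2 b (mem_p_elt h8 hb)
      (h10 ▸ index_dvd_of_le (h11.le.trans inf_le_right)))]
  refine frobenius_of_cs_split (π := π) (fun z => ?_)
    (fun e => hn.ne' (hx ▸ cs_eq_one_iff.2 e)) (hx ▸ hπn) (hy ▸ hπm) (hy ▸ htop)
  by_cases hu : constt π z ∈ center G
  swap
  · right
    rwa [le_antisymm (htop z) (h3 _ (p_elt_constt π z) hu ▸
      Nat.le_of_dvd (cs_pos _) (index_dvd_of_le (cent1_le_constt π z)))]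
  left
  rw [← consttC' π z, cent_mul_central hu]
  set w := constt πᶜ z
  by_cases hw : w ∈ center G
  · rw [cs_eq_one_iff.2 hw]; exact pnat_one _
  rw [hnm w ?_]
  · exact hπn
  have h4 : PiNat πᶜ ((center G).relIndex C1[w]) := fun s hs hd hsπ => by
    have : Fact s.Prime := ⟨hs⟩
    obtain ⟨S⟩ : Nonempty (Sylow s C1[w]) := inferInstance
    refine not_dvd_index_of_sylow_le S (fun a ha => by_contra fun haZ => hw ?_) hd
    have h5 : PiElt π (a : G) := pi_pnat ((p_natP hs).2 (by
      simpa using pElt_of_mem S.isPGroup' ha)) hsπ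
    have h6 := hcm h5 (p_elt_constt _ z) a.2
    have h7 := h3 a h5 haZ
    exact h2 w (p_elt_constt _ z) (h7 ▸ index_dvd_of_le ((heq (h6.le.trans inf_le_left)
      (h7 ▸ htop _)).trans (h6.le.trans inf_le_right)))
  refine hπn.dvd_of_dvd_mul h4 ?_
  rw [mul_comm, relIndex_mul_index (center_le_centralizer _), ← hx]
  exact index_dvd_of_le (center_le_centralizer _)

end Cfsg.Agent.S4138
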