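import Cfsg.Statements.S4139
import Cfsg.Agent.Gen2.Breadth

set_option autoImplicit false
open Cfsg

namespace Cfsg.Agent.S4139

open Subgroup Cfsg.Agent.BG Cfsg.Agent.Gen2

universe u

theorem exists_central {G : Type*} [Group G] [Finite G] {p : ℕ} (hp : p.Prime) (h : p ∣ Nat.card (center G)) :
    ∃ N : Subgroup G, N.Normal ∧ N ≤ center G ∧ Nat.card N = p := by
  obtain ⟨z, hz, ho⟩ := exists_mem_orderOf_eq_prime hp h
  have := zpowers_le.2 hz
  exact ⟨zpowers z, ⟨fun n hn g => by
    rwa [mem_center_iff.1 (this hn), mul_inv_cancel_right]⟩, this, (Nat.card_zpowers z).trans ho⟩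

theorem dvd_of_nil {p : ℕ} [hp : Fact p.Prime] (k : ℕ) : ∀ (H : Type u) [Group H] [Finite H]
    [Group.IsNilpotent H], p ^ k ∣ Nat.card H → p ^ k ∣ (ppSet p H).ncard := by
  induction k with
  | zero => intros; simp
  | succ k ih =>
    intro H _ _ _ h
    obtain ⟨P⟩ : Nonempty (Sylow p H) := inferInstance
    have hP : (P : Subgroup H) ≠ ⊥ := P.ne_bot_of_dvd_card ((dvd_pow_self p k.succ_ne_zero).trans h)
    have h1 : (P : Subgroup H) ⊓ center H ≠ ⊥ := by
      have := meet_center_nil (M := ⊤) (N := (P : Subgroup H)) (Group.isNilpotent_top.2 inferInstance)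
        ⟨le_top, norm_of_normal _ _⟩ hP
      rwa [center_top] at this
    obtain ⟨N, _, hN, hc⟩ := exists_central hp.out
      ((pgroup_pdiv (P.isPGroup'.sub inf_le_left) h1).trans (card_dvd_of_le inf_le_right))
    rw [ncard_ppSet_quotient hp.out N hN hc, pow_succ']
    rw [card_eq_card_quotient_mul_card_subgroup N, hc, pow_succ] at h
    exact Nat.mul_dvd_mul_left _ (ih _ (Nat.dvd_of_mul_dvd_mul_right hp.out.pos h))

theorem normal_of_dvd {p : ℕ} [hp : Fact p.Prime] (n : ℕ) : ∀ (G : Type u) [Group G] [Finite G],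
    Nat.card G = n → (∀ k, p ^ k ∣ Nat.card G → p ^ k ∣ (ppSet p G).ncard) →
      ∀ P : Sylow p G, (P : Subgroup G).Normal := by
  induction n using Nat.strong_induction_on with
  | _ n ih =>
  intro G _ _ hn h P
  by_cases hP : (P : Subgroup G) = ⊥
  · rw [hP]; infer_instance
  have h1 := h 1 (by simpa using (pgroup_pdiv P.isPGroup' hP).trans (card_subgroup_dvd_card _))
  obtain ⟨N, _, hN, hc⟩ := exists_central hp.out (dvd_ncard_ppSet_iff.1 (by simpa using h1))
  have h2 := card_eq_card_quotient_mul_card_subgroup N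
  have h3 := ih _ (by
    rw [← hn, h2, hc]; exact lt_mul_of_one_lt_right Nat.card_pos hp.out.one_lt) (G ⧸ N) rfl (fun k hk => by
    have := h (k + 1) (by rw [h2, hc, pow_succ]; exact Nat.mul_dvd_mul_right hk _)
    rw [ncard_ppSet_quotient hp.out N hN hc, pow_succ'] at this
    exact Nat.dvd_of_mul_dvd_mul_left hp.out.pos this)
    (P.mapSurjective (QuotientGroup.mk'_surjective N))
  have h4 : N ≤ P := (IsPGroup.of_card (n := 1) (by simpa using hc)).le_sylow_of_normal P
  have h5 := h3.comap (QuotientGroup.mk' N)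
  rwa [Sylow.coe_mapSurjective, comap_map_eq, QuotientGroup.ker_mk', sup_eq_left.2 h4] at h5

/-- Let G and H be finite groups such that for every natural number k, G and H have the same number of conjugacy classes of size k. If H is nilpotent then G is nilpotent. -/
theorem result {G H : Type*} [Group G] [Finite G] [Group H] [Finite H]
    (hH : Group.IsNilpotent H)
    (h : ∀ k : ℕ, Nat.card {C : ConjClasses G // Nat.card C.carrier = k} = Nat.card {C : ConjClasses H // Nat.card C.carrier = k}) :
    Group.IsNilpotent G := by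
  let e1 : ConjClasses G ≃ ConjClasses H := Equiv.ofFiberEquiv
    (f := fun C => Nat.card C.carrier) (g := fun C => Nat.card C.carrier)
    fun k => (Finite.card_eq.1 (h k)).some
  have h1 : ∀ C, Nat.card (e1 C).carrier = Nat.card C.carrier := fun C =>
    Equiv.ofFiberEquiv_map (f := fun C : ConjClasses G => Nat.card C.carrier)
      (g := fun C : ConjClasses H => Nat.card C.carrier) _ C
  let e2 : G ≃ H := Equiv.ofFiberEquiv (f := fun x => e1 (ConjClasses.mk x)) (g := ConjClasses.mk)
    fun C => (Finite.card_eq.1 (by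
      obtain ⟨C, rfl⟩ := e1.surjective C
      simp only [EmbeddingLike.apply_eq_iff_eq, ← ConjClasses.mem_carrier_iff_mk_eq]
      exact (h1 C).symm)).some
  have h2 : ∀ x, C1[e2 x].index = C1[x].index := fun x => by
    rw [← card_carrier_mk, ← card_carrier_mk, ← h1]
    exact congrArg (fun C : ConjClasses H => Nat.card C.carrier) (Equiv.ofFiberEquiv_map _ x)
  refine (Group.isNilpotent_of_finite_tfae.out 3 0).1
    (show ∀ (p : ℕ) (_hp : Fact p.Prime) (P : Sylow p G), (P : Subgroup G).Normal from fun p hp => ?_)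
  refine normal_of_dvd _ G rfl fun k hk => ?_
  have h3 : ppSet p G = e2 ⁻¹' ppSet p H := by ext x; simp [ppSet, h2]
  rw [h3, Set.ncard_preimage_of_injective_subset_range e2.injective (by simp)]
  exact dvd_of_nil k H (Nat.card_congr e2 ▸ hk)

end Cfsg.Agent.S4139
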