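import Cfsg.Statements.S4140
import Cfsg.Agent.BG.S3Gen
import Cfsg.Agent.Gen.ThompsonNil

set_option autoImplicit false
open Cfsg

namespace Cfsg.Agent.S4140

open Subgroup Cfsg.Agent.BG
open scoped commutatorElement

variable {G : Type*} [Group G] [Finite G] {N : Subgroup G} [N.Normal]

omit [Finite G] in
theorem ncard_comm (H : Subgroup G) (v : G) :
    C1[v].relIndex H = Set.ncard {w | ∃ h ∈ H, ⁅v⁻¹, h⁆ = w} := by
  let _ := MulAction.compHom G ((MulAut.conj (G := G)).comp H.subtype)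
  have h1 : C1[v].subgroupOf H = MulAction.stabilizer H v := by
    ext g; exact mem_cent1.trans mul_inv_eq_iff_eq_mul.symm
  rw [relIndex, h1, MulAction.index_stabilizer, ← Set.ncard_image_of_injective _ (mul_right_injective v⁻¹)]
  congr 1; ext w
  exact ⟨fun ⟨_, ⟨g, rfl⟩, h⟩ => ⟨g, g.2, h ▸ by simp [commutatorElement_def, mul_assoc]; exact (mul_assoc _ _ _).symm⟩,
    fun ⟨g, hg, h⟩ => ⟨_, ⟨⟨g, hg⟩, rfl⟩, h ▸ by simp [commutatorElement_def, mul_assoc]; exact mul_assoc _ _ _⟩⟩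

theorem fpf (hcam : ∀ g : G, g ∉ N → ∀ n ∈ N, ∃ x : G, x * g * x⁻¹ = g * n) {π : Set ℕ} {g : G} (hg : g ∉ N)
    (hπ : PiElt π g) {V : Subgroup G} (hV : V ≤ N) (h : PiGrp πᶜ V) : V ⊓ C1[g] = ⊥ := by
  refine eq_bot_iff.2 fun x hx => ?_
  obtain ⟨y, hy⟩ := hcam g hg x (hV hx.1)
  have h1 := orderOf_conj' y g
  rw [hy, Commute.orderOf_mul_eq_mul_orderOf_of_coprime (mem_cent1.1 hx.2).symm
    (pnat_coprime hπ (mem_p_elt h hx.1))] at h1
  exact orderOf_eq_one_iff.1 ((Nat.mul_eq_left (orderOf_pos g).ne').1 h1)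

theorem key (hcam : ∀ g : G, g ∉ N → ∀ n ∈ N, ∃ x : G, x * g * x⁻¹ = g * n) {p : ℕ} [hp : Fact p.Prime]
    (h1 : p ∣ #N) (h2 : p ∣ N.index) {X T V : Subgroup G} (hT : N ⊔ T = ⊤) (hX : SylowIn p X T) (hV : V ≤ N)
    (hV1 : V ≠ ⊥) (pV : PiGrp {p}ᶜ V) (hn : X ≤ N[V]) (hc : N ⊓ X ≤ C[V]) : False := by
  have h3 : PiNat {p}ᶜ ((N ⊔ X).relIndex ⊤) := by
    have := (pHall_map (QuotientGroup.mk' N) hX).idx
    rwa [← bot_sup_eq (T.map _), ← (Subgroup.map_eq_bot_iff N).2 (QuotientGroup.ker_mk' N).ge, ← Subgroup.map_sup, hT,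
      ← relIndex_comap, comap_map_eq, QuotientGroup.ker_mk', sup_comm] at this
  obtain ⟨P, hP, hXP⟩ := Sylow_superset (le_sup_right (a := N)) hX.pg
  have hP' : SylowIn p P ⊤ := pHall_trans_idx hP le_top h3
  have h4 : P = P ⊓ N ⊔ X := by rw [← group_modr (Or.inr (norm_of_normal _ _)) hXP, inf_eq_left.2 hP.le]
  have hK : N ⊓ X ⊴ X := inf_comm N X ▸ norm_normalI (norm_of_normal _ _)
  have hVK := cents_norm (cents_symm hc)
  have hVK' : V ⊓ (N ⊓ X) = ⊥ := pgroup_TI' pV (pgroupS inf_le_right hX.pi)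
  have hr : Semiregular (V /ᵍ (N ⊓ X)) (X /ᵍ (N ⊓ X)) := fun z hz z1 => by
    obtain ⟨x, hx, hx', rfl⟩ := mem_quotient_iff.1 hz
    rw [← C_zpowers, ← quotient_zpowers hx', ← quotient_TI_subcent hVK (zpowers_le.2 hx') (zpowers_le.2 (hn hx)) hVK',
      C_zpowers, fpf hcam (fun h => z1 (coset_id ⟨h, hx⟩)) (mem_p_elt hX.pi hx) hV pV, quotient_bot]
  have hV2 : V /ᵍ (N ⊓ X) ≠ ⊥ := quotient_neq1 hVK fun h => hV1 ((inf_eq_left.2 h).symm.trans hVK')
  obtain ⟨z, hz, z1⟩ := trivgPn.1 (center_nil_ne_bot (pgroup_nil (hX.pg.quo (N ⊓ X))) (quotient_neq1 hK.norm fun h => by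
    rw [sup_eq_left.2 (h.trans inf_le_left), relIndex_top_right] at h3
    exact (p'natE hp.out).1 h3 h2))
  obtain ⟨h, hh, hh', rfl⟩ := mem_quotient_iff.1 hz.1
  have hN : h ∉ N := fun h => z1 (coset_id ⟨h, hh⟩)
  have nP : P ⊓ N ⊴ P := norm_normalI (norm_of_normal _ _)
  have h5 : ∀ y ∈ P, ⁅h⁻¹, y⁆ ∈ ⁅P ⊓ N, P⁆ := fun y hy => by
    obtain ⟨u, hu, x, hx, rfl⟩ := (mem_sup_norml (hXP.trans nP.norm)).1 (h4.le hy)
    have hA : zpowers (coset (N ⊓ X) h) ⊔ zpowers (coset (N ⊓ X) x) ≤ X /ᵍ (N ⊓ X) :=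
      sup_le (zpowers_le.2 hz.1) (zpowers_le.2 (mem_quotient (hK.norm hx) hx))
    have h6 := abelian_regular_cyclic (abelianY (abelian_zpowers _) (abelian_zpowers _)
      (zpowers_le.2 (centS (le_sup_right.trans hA) hz.2))) hV2 (hA.trans (quotient_norms _ hn))
      (semiregularS le_rfl hA hr)
    rw [← quotient_zpowers hh', ← quotient_zpowers (hK.norm hx), ← quotientY (zpowers_le.2 hh')
      (zpowers_le.2 (hK.norm hx)), ← quotientYidl (sup_le (zpowers_le.2 hh') (zpowers_le.2 (hK.norm hx)))] at h6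
    have hB : N ⊓ X ⊔ (zpowers h ⊔ zpowers x) ≤ X := sup_le hK.le (sup_le (zpowers_le.2 hh) (zpowers_le.2 hx))
    obtain ⟨k, hk, h7⟩ := (cyclic_quotient_iff (hK.subl le_sup_left hB)).1 h6
    have hk' := zpowers_le.2 (hXP (hB hk))
    have h8 : zpowers h ⊔ zpowers x ≤ P ⊓ N ⊔ zpowers k := le_sup_right.trans
      (h7.ge.trans (sup_le_sup_right (le_inf (inf_le_right.trans hXP) inf_le_left) _))
    have h9 := commg_normr (P ⊓ N) P
    refine comm_sup_le (nP.le.trans h9) (hk'.trans h9) (commgS _ (sup_le nP.le hk')) ((commGC _ _).le.trans (comm_sup_le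
      (nP.le.trans h9) (hk'.trans h9) (commgS _ hk') ((der1_eq_bot.2 (abelian_zpowers k)).le.trans bot_le)))
      (commutator_mem_commutator (inv_mem (h8 (mem_sup_left (mem_zpowers h))))
        (mul_mem (mem_sup_left hu) (h8 (mem_sup_right (mem_zpowers x)))))
  have h6 := pgroup_comm_proper hP.pg (IsPGroup.sub hP.pg nP.le) nP.norm
    (Hall_ne_bot (Hall_setI_normal (normal_top N) hP') hp.out rfl h1)
  let D := C1[(h : G ⧸ N)].comap (QuotientGroup.mk' N)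
  have hD : ∀ g : G, g ∈ D ↔ ⁅h⁻¹, g⁆ ∈ N := fun g => by
    rw [← QuotientGroup.eq_one_iff (N := N), mem_comap, mem_cent1, ← commute_iff_eq, ← Commute.inv_right_iff,
      Commute.symm_iff, ← commutatorElement_eq_one_iff_commute]
    rfl
  have hPD : P ≤ D := fun y hy => (hD y).2 (h6.le (h5 y hy)).2
  have h7 : C1[h].relIndex D = #N := by
    rw [ncard_comm]
    refine congrArg Set.ncard (Set.ext fun w => ⟨fun ⟨g, hg, e⟩ => e ▸ (hD g).1 hg, fun hw => ?_⟩)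
    obtain ⟨x, hx⟩ := hcam h hN w hw
    have : ⁅h⁻¹, x⁆ = w := by rw [commutatorElement_def, inv_inv, mul_assoc, mul_assoc, ← mul_assoc x, hx]; simp
    exact ⟨x, (hD x).2 (this ▸ hw), this⟩
  have h8 : C1[h].relIndex P ≤ #⁅P ⊓ N, P⁆ := by
    rw [ncard_comm]
    exact Set.ncard_le_ncard fun w ⟨g, hg, e⟩ => e ▸ h5 g hg
  have h9 : #(C1[h] ⊓ P) * #(P ⊓ N) ∣ #P := by
    rw [card_Hall hP']
    refine dvd_partn (cardG_ne_zero _) (PiNat.mul (pgroupS inf_le_right hP.pi) (pgroupS inf_le_left hP.pi))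
      (Dvd.dvd.trans ?_ (cardSg (A := D) le_top))
    rw [← card_inf_mul_relIndex C1[h] D, h7]
    exact mul_dvd_mul (cardSg (inf_le_inf_left _ hPD)) (cardSg inf_le_right)
  rw [← card_inf_mul_relIndex C1[h] P] at h9
  exact (h8.trans_lt (proper_card h6)).not_ge (Nat.le_of_dvd (relIndex_pos _ _)
    (Nat.dvd_of_mul_dvd_mul_left (cardG_pos _) h9))

/-- Let G be a finite group and N a proper non-trivial normal subgroup such that for every g outside N the conjugacy class of g is a union of cosets of N (equivalently gn is conjugate to g for every n ∈ N). Then either every element of G outside N acts fixed-point-freely on N (C_G(x) ≤ N for all x ∈ N, x ≠ 1, so G is a Frobenius group with kernel N), or N has prime-power order, or G/N has prime-power order. -/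
theorem result {G : Type*} [Group G] [Finite G] (N : Subgroup G) [N.Normal] (hN1 : N ≠ ⊥) (hN2 : N ≠ ⊤)
    (hcam : ∀ g : G, g ∉ N → ∀ n ∈ N, ∃ x : G, x * g * x⁻¹ = g * n) :
    (∀ x ∈ N, x ≠ 1 → Subgroup.centralizer ({x} : Set G) ≤ N) ∨ IsPrimePow (Nat.card N) ∨ IsPrimePow N.index := by
  by_contra! h
  obtain ⟨⟨x, hx, x1, h0⟩, h1, h2⟩ := h
  obtain ⟨p, hp, Q, hQ, pQ, h3⟩ : ∃ p, p.Prime ∧ ∃ Q ≤ C1[x], IsPGroup p Q ∧ ¬ Q ≤ N := by
    by_contra! h; exact h0 (le_of_pgroup_le h)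
  have := Fact.mk hp
  have hpN : p ∣ #N := by_contra fun h => by
    obtain ⟨g, hg, hg'⟩ := SetLike.not_le_iff_exists.1 h3
    exact x1 (mem_bot.1 (fpf hcam hg' (mem_p_elt pQ.pi hg) le_rfl ((p'natE hp).2 h) ▸
      mem_inf.2 ⟨hx, mem_cent1_comm.1 (hQ hg)⟩))
  have hpI : p ∣ N.index := by_contra fun h => h3 (relIndex_eq_one.1 (pnat_1 (pQ.pi.of_dvd (relIndex_dvd_card _ _))
    (((p'natE hp).2 h).of_dvd (relIndex_dvd_index_of_normal _ _))))
  obtain ⟨q, hq, hqI, hne⟩ : ∃ q, q.Prime ∧ q ∣ N.index ∧ q ≠ p := by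
    by_contra! h; exact h2 (isPrimePow_iff_unique_prime_dvd.2 ⟨p, ⟨hp, hpI⟩, fun q hq => h q hq.1 hq.2⟩)
  have := Fact.mk hq
  by_cases hqN : q ∣ #N
  · obtain ⟨R, hR⟩ := Sylow_exists q N
    have hT : N ⊔ N[R] = ⊤ := by simpa using Frattini_arg (normal_top N) hR
    obtain ⟨P, hP⟩ := Sylow_exists p N[R]
    by_cases h4 : N ⊓ P = ⊥
    · exact key hcam hpN hpI hT hP hR.le (Sylow_ne_bot hR hqN) (p'group_of_ne hR.pg hne) hP.le (h4 ▸ bot_le)
    have hn : N[R] ⊓ N ⊴ N[R] := norm_normalI (norm_of_normal _ _)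
    have h5 := Frattini_arg hn (Sylow_setI_normal hn hP)
    rw [inf_comm N[R] N, inf_assoc, inf_eq_right.2 hP.le] at h5
    obtain ⟨X, hX⟩ := Sylow_exists q (N[R] ⊓ N[N ⊓ P])
    have h6 : N ⊓ X ≤ R := sub_Hall_of_norm hR inf_le_left (pgroupS inf_le_right hX.pi)
      (Or.inl (inf_le_right.trans (hX.le.trans inf_le_left)))
    have pV := p'group_of_ne (IsPGroup.sub hP.pg (inf_le_right (a := N))) hne.symm
    refine key hcam hqN hqI (T := N[R] ⊓ N[N ⊓ P]) (eq_top_iff.2 (hT.ge.trans (sup_le le_sup_left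
      (h5.ge.trans (sup_le_sup_right inf_le_left _))))) hX inf_le_left h4 pV (hX.le.trans inf_le_right)
      (commG1.1 (eq_bot_iff.2 (le_trans (le_inf ?_ ?_) (pgroup_TI hR.pi pV).le)))
    · exact (commSg _ h6).trans (commg_subl (inf_le_right.trans hP.le))
    · exact commg_subr (inf_le_right.trans (hX.le.trans inf_le_right))
  obtain ⟨g, -, hg⟩ := Cauchy (A := ⊤) hq (card_top (G := G) ▸ hqI.trans N.index_dvd_card)
  have h4 : Group.IsNilpotent N := Gen.prime_Frobenius_kernel_nil (R := zpowers g) (norm_of_normal _ _)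
    (by rwa [Nat.card_zpowers, hg]) (C_zpowers g ▸ fpf hcam (π := {q}) (fun h => hqN (hg ▸ orderOf_dvd_cardG h))
      (by rw [PiElt, hg]; exact (pnat_prime hq).2 rfl) le_rfl ((p'natE hq).2 hqN))
  obtain ⟨P, hP⟩ := Sylow_exists p (⊤ : Subgroup G)
  refine key hcam hpN hpI (sup_top_eq N) hP (pcore_sub _ N) (fun h => h1 ?_) (pcore_pgroup _ _)
    (norms_pcore _ (norm_of_normal _ _)) (sub_nilpotent_cent2 h4 inf_le_left (pcore_sub _ _)
      (pnat_coprime (pgroupS inf_le_right hP.pi) (pcore_pgroup _ _)))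
  have h5 := p'group_of_Hall_bot (h ▸ nilpotent_pcore_Hall {p}ᶜ h4)
  exact isPrimePow_iff_unique_prime_dvd.2 ⟨p, ⟨hp, hpN⟩, fun r hr => by simpa using h5 r hr.1 hr.2⟩

end Cfsg.Agent.S4140
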