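import Cfsg.Statements.S4143
import Cfsg.Agent.Fus.Mxc
-- import your own Cfsg.Agent.* helpers here

set_option autoImplicit false
open Cfsg

namespace Cfsg.Agent.S4143

/-- Let X be a finite p-group of order p^n containing a non-abelian subgroup B of order p³ with C_X(B) ≤ B. Then X has nilpotency class n − 1 (maximal class). -/
theorem result {X : Type*} [Group X] [Finite X] {p : ℕ} [Fact p.Prime] (n : ℕ) (hX : Nat.card X = p ^ n)
    (B : Subgroup X) (hB : Nat.card B = p ^ 3) (hBna : ¬ IsMulCommutative B) (hC : Subgroup.centralizer (B : Set X) ≤ B) :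
    Group.nilpotencyClass X = n - 1 :=
  open Subgroup Cfsg.Agent.Fus Cfsg.Agent.Loc Equiv in by
  obtain ⟨b, -, hb⟩ := exists_cent_of_cube (IsPGroup.of_card hX) hB hBna hC
  have h1 := Subgroup.card_le_card_group B
  rw [hB, hX, Nat.pow_le_pow_iff_right (Fact.out : p.Prime).one_lt] at h1
  obtain ⟨m, rfl⟩ : ∃ m, n = m + 2 := ⟨n - 2, by omega⟩
  exact PGrp.class_of_cent m hX b hb

end Cfsg.Agent.S4143
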