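import Cfsg.Statements.S4144
import Cfsg.Agent.Fus.Mxc
-- import your own Cfsg.Agent.* helpers here

set_option autoImplicit false
open Cfsg

namespace Cfsg.Agent.S4144

/-- Let X be a finite p-group of order p^n, n ≥ 2, of nilpotency class n − 1 (maximal class), and H any subgroup of X. Then the index in H of the subgroup generated by the p-th powers of elements of H is at most p^p. -/
theorem result {X : Type*} [Group X] [Finite X] {p : ℕ} [Fact p.Prime] (n : ℕ) (hn : 2 ≤ n) (hX : Nat.card X = p ^ n)
    (hmax : Group.nilpotencyClass X = n - 1) (H : Subgroup X) :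
    (Subgroup.closure {y : X | ∃ h ∈ H, y = h ^ p}).relIndex H ≤ p ^ p :=
  open Subgroup Cfsg.Agent.Fus Cfsg.Agent.Loc Equiv in by
  have h := mx_of_class hn hX hmax
  obtain ⟨x, hx⟩ := h.exists_unif
  have h1 := h.card_le hx (H := H) (U := Subgroup.closure {y : X | ∃ h ∈ H, y = h ^ p}) fun g hg =>
    subset_closure ⟨g, hg, rfl⟩
  rw [← Solv.card_mul_relIndex (show Subgroup.closure {y : X | ∃ h ∈ H, y = h ^ p} ≤ H from
    (closure_le _).2 fun _ ⟨g, hg, e⟩ => e ▸ pow_mem hg p), mul_comm] at h1
  exact Nat.le_of_mul_le_mul_right h1 Nat.card_pos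

end Cfsg.Agent.S4144
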