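import Cfsg.Statements.S4150
import Cfsg.Agent.Gen2.PrimeCyc
import Cfsg.Agent.Gen2.TwoPrimes

set_option autoImplicit false
open Cfsg

namespace Cfsg.Agent.S4150

open Subgroup MulAction Equiv Equiv.Perm Cfsg.Agent.BG Cfsg.Agent.Perm Cfsg.Agent.Gen2

theorem prim {α : Type*} [Fintype α] [DecidableEq α] {G : Subgroup (Perm α)} {x y : Perm α}
    (hx : x ∈ G) (hy : y ∈ G) (hp : (orderOf x).Prime) (hq : (orderOf y).Prime)
    (hc : ∀ a, x a ≠ a ∨ y a ≠ a) (h1 : Fintype.card α < orderOf x + orderOf y)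
    (h2 : Fintype.card α < 2 * orderOf y) : IsPreprimitive G α := by
  have cy := isCycle_of_prime_order' hq h2
  obtain ⟨b, hb, hb'⟩ := id cy
  have o : ∀ a, y a ≠ a → a ∈ orbit (zpowers (⟨y, hy⟩ : G)) b := fun a ha => by
    obtain ⟨i, hi⟩ := hb' ha
    exact ⟨⟨⟨y, hy⟩ ^ i, i, rfl⟩, hi⟩
  have tr : IsPretransitive G α := (isPretransitive_iff_base b).2 fun a => by
    suffices ∃ i : ℕ, y ((x ^ i) a) ≠ (x ^ i) a by
      obtain ⟨i, hi⟩ := this
      obtain ⟨g, hg⟩ := o _ hi
      exact ⟨(⟨x, hx⟩ ^ i)⁻¹ * g, by rw [mul_smul, inv_smul_eq_iff]; exact hg⟩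
    by_contra! h
    have ha := (hc a).resolve_right (not_not.2 (h 0))
    have := Fact.mk hp
    have e := Function.minimalPeriod_eq_prime (f := x) (x := a) (p := orderOf x)
      (by rw [Function.IsPeriodicPt, iterate_eq_pow, pow_orderOf_eq_one]; rfl) ha
    have := Finset.card_le_card_of_injOn (s := Finset.range (orderOf x)) (t := y.supportᶜ)
      (fun i => (x ^ i) a) (fun i _ => by simpa using h i) fun i hi j hj h =>
        Function.iterate_injOn_Iio_minimalPeriod (f := x) (x := a) (by simpa [e] using hi)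
          (by simpa [e] using hj) (by simpa only [iterate_eq_pow] using h)
    rw [Finset.card_range, Finset.card_compl, ← cy.orderOf] at this
    have := hp.pos
    omega
  have co : (orbit (zpowers (⟨y, hy⟩ : G)) b).ncard = orderOf y := by
    rw [cy.orderOf, ← Set.ncard_coe_finset]
    congr 1
    refine Set.Subset.antisymm ?_ fun a ha => o a (mem_support.1 ha)
    rintro _ ⟨⟨_, i, rfl⟩, rfl⟩
    exact zpow_apply_mem_support.2 (mem_support.2 hb)
  have : IsPreprimitive (zpowers (⟨y, hy⟩ : G)) (orbit (zpowers (⟨y, hy⟩ : G)) b) :=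
    IsPreprimitive.of_prime_card (by rwa [Nat.card_coe_set_eq, co])
  refine IsPreprimitive.of_card_lt (φ := (zpowers (⟨y, hy⟩ : G)).subtype)
    (f := (⟨Subtype.val, fun _ _ => rfl⟩ : MulActionHom _ (orbit (zpowers (⟨y, hy⟩ : G)) b) α)) ?_
  rw [Nat.card_eq_fintype_card]
  exact h2.trans_eq (congrArg _ (co.symm.trans (congrArg _ Subtype.range_coe.symm)))

theorem full {α : Type*} [Fintype α] [DecidableEq α] {x y : Perm α} {p q : ℕ}
    (hx : x ∈ alternatingGroup α) (hy : y ∈ alternatingGroup α) (ox : orderOf x = p)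
    (oy : orderOf y = q) (hp : p.Prime) (hq : q.Prime) (hc : ∀ a, x a ≠ a ∨ y a ≠ a)
    (h1 : Fintype.card α < p + q) (h2 : p < q) (h5 : 5 ≤ q)
    (h : q ≤ Fintype.card α → (Fintype.card α < 2 * p ∧ (p + 3 ≤ Fintype.card α ∨ p = 3 ∨
      (p = 5 ∧ Fintype.card α = 7) ∨ (p = 11 ∧ Fintype.card α = 13))) ∨
      q + 3 ≤ Fintype.card α ∨ (q = 5 ∧ Fintype.card α = 6)) :
    ∃ d : ℕ, 5 ≤ d ∧ Nonempty (closure {x, y} ≃* alternatingGroup (Fin d)) := by
  subst ox oy
  have hA : closure {x, y} ≤ alternatingGroup α := (closure_le _).2 (by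
    rintro _ (rfl | rfl) <;> assumption)
  have mx : x ∈ closure {x, y} := subset_closure (by simp)
  have my : y ∈ closure {x, y} := subset_closure (by simp)
  have hG := prim mx my hp hq hc h1 (by omega)
  generalize closure {x, y} = G at *
  have cy := isCycle_of_prime_order' hq (by omega)
  have lq : orderOf y ≤ Fintype.card α := cy.orderOf ▸ y.support.card_le_univ
  have fin : alternatingGroup α ≤ G → ∃ d : ℕ, 5 ≤ d ∧ Nonempty (G ≃* alternatingGroup (Fin d)) :=
    fun h => ⟨Fintype.card α, by omega, ⟨(MulEquiv.subgroupCongr (le_antisymm hA h)).trans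
      (Fintype.equivFin α).altCongrHom⟩⟩
  rcases h lq with ⟨h3, h4⟩ | h3 | ⟨h3, h4⟩
  · have cx := isCycle_of_prime_order' hp h3
    refine fin ?_
    rcases h4 with h4 | h4 | ⟨h4, h6⟩ | ⟨h4, h6⟩
    · exact alternatingGroup_le_of_isCycle G hG hp h4 cx cx.orderOf.symm mx
    · exact alternatingGroup_le_of_isPreprimitive_of_isThreeCycle_mem hG
        (card_support_eq_three_iff.1 (cx.orderOf ▸ h4)) mx
    · have := isMultiplyPretransitive_of_isCycle G hG hp (by omega) cx cx.orderOf.symm mx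
      rw [h4, h6] at this
      exact alt_le_of_seven h6 hA this.isMultiplyPretransitive
    · exact alt_le_of_thirteen h6 hA hG cx (cx.orderOf ▸ h4) mx
  · exact fin (alternatingGroup_le_of_isCycle G hG hq h3 cy cy.orderOf.symm my)
  · have := isMultiplyPretransitive_of_isCycle G hG hq (by omega) cy cy.orderOf.symm my
    rw [h3, h4] at this
    exact (alt_of_six h4 hA this.isMultiplyPretransitive).elim fin fun h => ⟨5, le_rfl, h⟩

theorem main {m p q : ℕ} (hp : p.Prime) (hq : q.Prime) (h1 : m ≤ 2 * p) (h2 : p < q) (h5 : 5 ≤ q)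
    (h : ∀ d, q ≤ d → d ≤ m → (d < 2 * p ∧ (p + 3 ≤ d ∨ p = 3 ∨ (p = 5 ∧ d = 7) ∨
      (p = 11 ∧ d = 13))) ∨ q + 3 ≤ d ∨ (q = 5 ∧ d = 6))
    (x y : alternatingGroup (Fin m)) (ox : orderOf x = p) (oy : orderOf y = q) :
    ∃ d : ℕ, 5 ≤ d ∧ Nonempty (closure ({x, y} : Set (alternatingGroup (Fin m))) ≃*
      alternatingGroup (Fin d)) := by
  let P : Fin m → Prop := fun a => x.1 a ≠ a ∨ y.1 a ≠ a
  have inv : ∀ z : Perm (Fin m), (∀ a, z a ≠ a → P a) → ∀ a, P (z a) ↔ P a := fun z hz a => by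
    by_cases e : z a = a
    · rw [e]
    · exact iff_of_true (hz _ fun h => e (z.injective h)) (hz _ e)
  have hx : ∀ a, x.1 a ≠ a → P a := fun _ => Or.inl
  have hy : ∀ a, y.1 a ≠ a → P a := fun _ => Or.inr
  have ex := ofSubtype_subtypePerm (inv _ hx) hx
  have ey := ofSubtype_subtypePerm (inv _ hy) hy
  have le : Fintype.card (Subtype P) ≤ m := (Fintype.card_subtype_le P).trans (by simp)
  obtain ⟨d, hd, e⟩ := full (x := subtypePerm x.1 (inv _ hx)) (y := subtypePerm y.1 (inv _ hy))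
    ((sign_subtypePerm _ _ hx).trans x.2) ((sign_subtypePerm _ _ hy).trans y.2)
    (by rw [← orderOf_injective _ ofSubtype_injective, ex, orderOf_coe, ox])
    (by rw [← orderOf_injective _ ofSubtype_injective, ey, orderOf_coe, oy]) hp hq
    (fun a => a.2.imp (fun h e => h (congrArg Subtype.val e)) fun h e => h (congrArg Subtype.val e))
    (le.trans_lt (by omega)) h2 h5 fun h3 => h _ h3 le
  refine ⟨d, hd, isog_trans (isog_map_inj (subtype_injective _) _)
    (isog_trans ?_ (isog_trans (isog_symm (isog_map_inj ofSubtype_injective _)) e))⟩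
  rw [MonoidHom.map_closure, MonoidHom.map_closure, Set.image_pair, Set.image_pair, ex, ey]
  exact ⟨MulEquiv.refl _⟩

/-- Let m ≥ 5. Then there are primes p < q with m/2 ≤ p and q ≤ m such that any two elements x, y of the alternating group of degree m with x of order p and y of order q generate a subgroup isomorphic to an alternating group of some degree d ≥ 5. -/
theorem result (m : ℕ) (hm : 5 ≤ m) :
    ∃ p q : ℕ, p.Prime ∧ q.Prime ∧ m ≤ 2 * p ∧ p < q ∧ q ≤ m ∧
      ∀ x y : alternatingGroup (Fin m), orderOf x = p → orderOf y = q →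
        ∃ d : ℕ, 5 ≤ d ∧ Nonempty (Subgroup.closure ({x, y} : Set (alternatingGroup (Fin m))) ≃* alternatingGroup (Fin d)) := by
  have k := fun p q hp hq h1 h2 h3 h5 h =>
    (⟨p, q, hp, hq, h1, h2, h3, main hp hq h1 h2 h5 h⟩ : ∃ p q : ℕ, p.Prime ∧ q.Prime ∧
      m ≤ 2 * p ∧ p < q ∧ q ≤ m ∧ ∀ x y : alternatingGroup (Fin m), orderOf x = p → orderOf y = q →
      ∃ d : ℕ, 5 ≤ d ∧ Nonempty (Subgroup.closure ({x, y} : Set (alternatingGroup (Fin m))) ≃*
        alternatingGroup (Fin d)))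
  rcases (by omega : m ≤ 6 ∨ (7 ≤ m ∧ m ≤ 10) ∨ (11 ≤ m ∧ m ≤ 12) ∨ (13 ≤ m ∧ m ≤ 16) ∨ 17 ≤ m)
    with h | h | h | h | h
  · exact k 3 5 (by norm_num) (by norm_num) (by omega) (by omega) hm (by omega) (by omega)
  · exact k 5 7 (by norm_num) (by norm_num) (by omega) (by omega) h.1 (by omega) (by omega)
  · exact k 7 11 (by norm_num) (by norm_num) (by omega) (by omega) h.1 (by omega) (by omega)
  · exact k 11 13 (by norm_num) (by norm_num) (by omega) (by omega) h.1 (by omega) (by omega)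
  · obtain ⟨p, q, hp, hq, h1, h2, h3⟩ := exists_two_primes h
    exact k p q hp hq (by omega) (by omega) h3 (by omega) (by omega)

end Cfsg.Agent.S4150
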