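import Cfsg.Statements.S4151
import Cfsg.Agent.Gen2.TIHall
import Cfsg.Agent.Gen2.FCStruct
import Cfsg.Agent.S4117

set_option autoImplicit false
open Cfsg

namespace Cfsg.Agent.S4151

open Subgroup Cfsg.Agent.BG Cfsg.Agent.Gen2
open scoped commutatorElement

/-- Let G be a finite group and H a non-normal subgroup meeting each of its conjugates by elements outside N_G(H) trivially, with the order of H coprime to its index in N_G(H), such that G is π-separable for π the set of primes dividing the order of H (G has a chain of normal subgroups from 1 to G each of whose factors has order divisible only by primes dividing the order of H or coprime to it). Suppose a Sylow 2-subgroup of H is abelian and Q is a complement of H in N_G(H). Then C_H(Q), the subgroup of elements of H commuting with Q, has order coprime to its index in G and has a normal complement in G. -/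
theorem result {G : Type*} [Group G] [Finite G] (H : Subgroup G)
    (hTI : Cfsg.IsTISubset (H : Set G)) (hnn : ¬ H.Normal)
    (hHall : (Nat.card H).Coprime (H.subgroupOf (Subgroup.normalizer (H : Set G))).index)
    (hsep : ∃ (n : ℕ) (M : Fin (n + 1) → Subgroup G), M 0 = ⊥ ∧ M (Fin.last n) = ⊤ ∧ Monotone M ∧ (∀ i, (M i).Normal) ∧
      ∀ i : Fin n, (∀ q : ℕ, q.Prime → q ∣ (M i.castSucc).relIndex (M i.succ) → q ∣ Nat.card H) ∨
        ((M i.castSucc).relIndex (M i.succ)).Coprime (Nat.card H))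
    (h2 : ∀ P : Sylow 2 H, IsMulCommutative (P : Subgroup H))
    (Q : Subgroup G) (hQ : Q ≤ Subgroup.normalizer (H : Set G)) (hQH : Q ⊓ H = ⊥) (hQH' : Q ⊔ H = Subgroup.normalizer (H : Set G)) :
    (Nat.card ↥(H ⊓ Subgroup.centralizer (Q : Set G))).Coprime (H ⊓ Subgroup.centralizer (Q : Set G)).index ∧
    ∃ N : Subgroup G, N.Normal ∧ N.IsComplement' (H ⊓ Subgroup.centralizer (Q : Set G)) := by
  have hH := ti_hall hTI hHall
  have hsup := ti_struct hTI hH hsep
  set O := piCoreOf (primesOf #H)ᶜ (⊤ : Subgroup G) with hO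
  have hOn : O.Normal := (pcore_normal _ _).normal
  have hOp : PiGrp (primesOf #H)ᶜ O := pcore_pgroup _ _
  have hHp : PiGrp (primesOf #H) H := fun p hp h => ⟨hp, h⟩
  have hFC := ti_isFC_of_sup hTI hnn (pnat_coprime' hOp hHp) hsup
  have hZ : IsZGroup (⊤ : Subgroup H) := hFC.isZGroup_of_cyclic fun P _ hP => by
    rcases hFC.isCyclic_or_quaternion hP with h | ⟨-, n, hn, ⟨e⟩⟩
    · exact h
    obtain ⟨S, hS⟩ := hP.exists_le_sylow
    have h1 := abelianS hS (h2 S)
    have h3 := h1.is_comm.comm (e.symm (.a 1)) (e.symm (.xa 0))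
    rw [← map_mul, ← map_mul, e.symm.apply_eq_iff_eq] at h3
    simp only [QuaternionGroup.a_mul_xa, QuaternionGroup.xa_mul_a, zero_sub, zero_add,
      QuaternionGroup.xa.injEq] at h3
    have h4 : ((2 : ℕ) : ZMod (2 * 2 ^ n)) = 0 := by
      rw [Nat.cast_ofNat]
      linear_combination -h3
    have h5 := Nat.le_of_dvd two_pos ((ZMod.natCast_eq_zero_iff _ _).1 h4)
    have := Nat.one_lt_two_pow hn
    omega
  have hZ' : IsZGroup H := isog_Zgroup (isog_symm isog_top) hZ
  have hsd : Sdprod H Q N[H] := ⟨(sup_comm _ _).trans hQH', hQ, (inf_comm _ _).trans hQH⟩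
  have hc : (#H).Coprime #Q := hsd.relIndexl ▸ hHall
  obtain ⟨h3, -, h4, h5⟩ := S4117.aux hQ hc.symm
  set C := H ⊓ C[Q] with hC
  have hCH : C ≤ H := inf_le_left
  have hCn : C ≤ N[⁅H, Q⁆] := hCH.trans (normalizer_commutator_ge_left _ _)
  have hsd' : Sdprod ⁅H, Q⁆ C H := ⟨h5, hCn, eq_bot_iff.2 (h4 ▸ inf_le_inf_left _ inf_le_right)⟩
  have hcC := card_dvd_of_le hCH
  refine ⟨?_, O ⊔ (Q ⊔ ⁅H, Q⁆), ?_⟩
  · rw [← relIndex_mul_index hCH]
    exact h3.mul_right (hH.coprime_dvd_left hcC)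
  have htop : O ⊔ (Q ⊔ ⁅H, Q⁆) ⊔ C = ⊤ := by
    rw [sup_assoc, sup_assoc, h5, hQH', hsup]
  have hN : C ≤ N[O ⊔ (Q ⊔ ⁅H, Q⁆)] :=
    normsY (norm_of_normal _ _) (normsY (cents_norm inf_le_right) hCn)
  have hn : (O ⊔ (Q ⊔ ⁅H, Q⁆)).Normal :=
    normalizer_eq_top_iff.1 (eq_top_iff.2 (htop.ge.trans (sup_le (normG _) hN)))
  refine ⟨hn, isComplement'_iff_sdprod.2 ⟨htop, hN, pgroup_TI' (π := primesOf #C) ?_
    fun p hp h => ⟨hp, h⟩⟩⟩
  refine pgroupY (Or.inr (norm_of_normal _ _)) (fun p hp h h' => hOp p hp h ⟨hp, h'.2.trans hcC⟩)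
    (pgroupY (Or.inl (normalizer_commutator_ge_right _ _)) (fun p hp h h' => hp.ne_one ?_)
    fun p hp h h' => hp.ne_one ?_)
  · exact Nat.eq_one_of_dvd_coprimes hc (h'.2.trans hcC) h
  · exact Nat.eq_one_of_dvd_coprimes h3 h'.2 (hsd'.relIndexr ▸ h)

end Cfsg.Agent.S4151
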