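import Cfsg.Statements.S4153
import Cfsg.Agent.Gen2.ClassCount

set_option autoImplicit false
open Cfsg

namespace Cfsg.Agent.S4153

/-- Let G be a finite group, p a prime, N a normal subgroup, P a Sylow p-subgroup of G and P̄ a Sylow p-subgroup of G/N. Count the elements of p-power order, the identity included. Then (number of such elements of G/N)/#P̄ ≤ (number of such elements of G)/#P, stated as a cross-multiplied inequality, with equality when N is central. -/
theorem result {G : Type*} [Group G] [Finite G] (p : ℕ) [Fact p.Prime] (N : Subgroup G) [N.Normal]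
    (P : Sylow p G) (Pbar : Sylow p (G ⧸ N)) :
    Nat.card {g : (G ⧸ N) // ∃ k : ℕ, orderOf g = p ^ k} * Nat.card (P : Subgroup G) ≤ Nat.card {g : G // ∃ k : ℕ, orderOf g = p ^ k} * Nat.card (Pbar : Subgroup (G ⧸ N)) ∧
    (N ≤ Subgroup.center G → Nat.card {g : (G ⧸ N) // ∃ k : ℕ, orderOf g = p ^ k} * Nat.card (P : Subgroup G) = Nat.card {g : G // ∃ k : ℕ, orderOf g = p ^ k} * Nat.card (Pbar : Subgroup (G ⧸ N))) := by
  classical
  have := Fintype.ofFinite G
  have := Fintype.ofFinite (G ⧸ N)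
  have h1 : ∀ Q : Sylow p G, Nat.card (Q : Subgroup G) =
      Nat.card (Pbar : Subgroup (G ⧸ N)) * Nat.card (N ⊓ Q : Subgroup G) := fun Q => by
    have := Solv.card_map_mul_card_inf_ker (QuotientGroup.mk' N) Q
    rw [QuotientGroup.ker_mk'] at this
    rw [← this, Pbar.card_eq_multiplicity,
      ← (Q.mapSurjective (QuotientGroup.mk'_surjective N)).card_eq_multiplicity]
    rfl
  have h2 : ∀ Q : Sylow p G, Nat.card (N ⊓ Q : Subgroup G) = Nat.card (N ⊓ P : Subgroup G) :=
    fun Q => Nat.eq_of_mul_eq_mul_left Nat.card_pos (by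
      rw [← h1, ← h1, Q.card_eq_multiplicity, P.card_eq_multiplicity])
  have h3 : Nat.card {g : G // ∃ k : ℕ, orderOf g = p ^ k} =
      ∑ x ∈ Finset.univ.filter (fun x : G ⧸ N => ∃ k : ℕ, orderOf x = p ^ k),
        (Finset.univ.filter fun g : G => (∃ k : ℕ, orderOf g = p ^ k) ∧ (g : G ⧸ N) = x).card := by
    rw [Nat.card_eq_fintype_card, Fintype.card_subtype, Finset.card_eq_sum_card_fiberwise
      (f := fun g : G => (g : G ⧸ N))
      (t := Finset.univ.filter fun x : G ⧸ N => ∃ k : ℕ, orderOf x = p ^ k)]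
    · simp only [Finset.filter_filter]
    · intro g hg
      simp only [Finset.coe_filter, Finset.mem_univ, true_and, Set.mem_ofPred_eq] at hg ⊢
      exact Gen2.pElt_map (QuotientGroup.mk' N) hg
  have h4 : ∀ x ∈ Finset.univ.filter (fun x : G ⧸ N => ∃ k : ℕ, orderOf x = p ^ k),
      Nat.card (N ⊓ P : Subgroup G) ≤
        (Finset.univ.filter fun g : G => (∃ k : ℕ, orderOf g = p ^ k) ∧ (g : G ⧸ N) = x).card ∧
      (N ≤ Subgroup.center G →
        (Finset.univ.filter fun g : G => (∃ k : ℕ, orderOf g = p ^ k) ∧ (g : G ⧸ N) = x).card ≤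
        Nat.card (N ⊓ P : Subgroup G)) := by
    intro x hx
    obtain ⟨g, rfl⟩ := QuotientGroup.mk_surjective x
    obtain ⟨a, -, ha, hag⟩ := Gen2.exists_pElt_lift (QuotientGroup.mk' N) g
      (Finset.mem_filter.1 hx).2
    obtain ⟨Q, hQ⟩ := Gen2.exists_sylow_mem ha
    rw [← h2 Q, ← Gen2.card_filter_mem]
    refine ⟨Finset.card_le_card_of_injOn (fun n => a * n) ?_ fun _ _ _ _ h => mul_left_cancel h,
      fun hN => Finset.card_le_card_of_injOn (fun n => a⁻¹ * n) ?_
        fun _ _ _ _ h => mul_left_cancel h⟩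
    · intro n hn
      simp only [Finset.coe_filter, Finset.mem_univ, true_and, Set.mem_ofPred_eq] at hn ⊢
      refine ⟨Gen2.pElt_of_mem Q.isPGroup' (mul_mem hQ hn.2), ?_⟩
      rw [QuotientGroup.mk_mul, (QuotientGroup.eq_one_iff n).2 hn.1, mul_one]
      exact hag
    · intro b hb
      simp only [Finset.coe_filter, Finset.mem_univ, true_and, Set.mem_ofPred_eq] at hb ⊢
      have h5 : a⁻¹ * b ∈ N := QuotientGroup.eq.1 (Eq.trans hag hb.2.symm)
      refine Subgroup.mem_inf.2 ⟨h5, ?_⟩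
      have h6 : Commute a⁻¹ b := by
        have := Subgroup.mem_center_iff.1 (hN h5) a⁻¹
        rw [mul_assoc] at this
        exact mul_left_cancel this
      have h7 : ∃ k, orderOf (a⁻¹ * b) = p ^ k := by
        obtain ⟨i, hi⟩ := Gen2.pElt_iff.1 ha
        obtain ⟨j, hj⟩ := Gen2.pElt_iff.1 hb.1
        refine Gen2.pElt_iff.2 ⟨i + j, ?_⟩
        rw [h6.mul_pow, inv_pow, pow_add, pow_mul, hi, mul_comm (p ^ i), pow_mul, hj]
        simp
      exact Gen2.mem_sylow_of_le_cent Q h7 (by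
        rw [Gen2.cent_eq_top_iff.2 (hN h5)]; exact le_top)
  rw [h1 P, h3, Nat.card_eq_fintype_card (α := {g : G ⧸ N // _}), Fintype.card_subtype,
    mul_comm (Nat.card (Pbar : Subgroup (G ⧸ N))), ← mul_assoc, ← smul_eq_mul (Finset.card _),
    ← Finset.sum_const]
  exact ⟨Nat.mul_le_mul_right _ (Finset.sum_le_sum fun x hx => (h4 x hx).1), fun hN =>
    congrArg (· * _) (Finset.sum_congr rfl fun x hx => le_antisymm (h4 x hx).1 ((h4 x hx).2 hN))⟩

end Cfsg.Agent.S4153
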