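import Cfsg.Statements.S4154


set_option autoImplicit false
open Cfsg

namespace Cfsg.Agent.S4154

/-- Let G be a finite group and α an automorphism of G such that every element of G is the product of an element fixed by α and an element of the form g⁻¹α(g). If N is a normal α-invariant subgroup, then the automorphism ᾱ induced on G/N has the same property, and every coset fixed by ᾱ contains an element fixed by α (so the fixed points of ᾱ are the images of the fixed points of α). -/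
theorem result {G : Type*} [Group G] [Finite G] (α : MulAut G)
    (hccp : ∀ x : G, ∃ c g : G, α c = c ∧ x = c * (g⁻¹ * α g))
    (N : Subgroup G) [N.Normal] (hN : ∀ n ∈ N, α n ∈ N) :
    (∀ x : G, ∃ c g : G, c⁻¹ * α c ∈ N ∧ x⁻¹ * (c * (g⁻¹ * α g)) ∈ N) ∧
    (∀ x : G, x⁻¹ * α x ∈ N → ∃ c : G, α c = c ∧ c⁻¹ * x ∈ N) := by
  classical
  refine ⟨fun x => ?_, fun x hx => ?_⟩
  · obtain ⟨c, g, h1, h2⟩ := hccp x
    exact ⟨c, g, by simp [h1], by simp [← h2]⟩
  let β : G ⧸ N →* G ⧸ N := QuotientGroup.map N N α.toMonoidHom hN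
  have hβ : ∀ g : G, β g = (α g : G) := fun g => rfl
  let F : Subgroup (G ⧸ N) := β.eqLocus (MonoidHom.id _)
  let C : Subgroup (G ⧸ N) := (α.toMonoidHom.eqLocus (MonoidHom.id _)).map (QuotientGroup.mk' N)
  have hCF : C ≤ F := by
    rintro _ ⟨c, hc, rfl⟩
    exact congrArg (QuotientGroup.mk (s := N)) hc
  have hs : Function.Surjective fun z : C × ((G ⧸ N) ⧸ F) =>
      (z.1 : G ⧸ N) * (z.2.out * (β z.2.out)⁻¹) := by
    intro y
    obtain ⟨y, rfl⟩ := QuotientGroup.mk_surjective y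
    obtain ⟨c, g, h1, rfl⟩ := hccp y
    refine ⟨(⟨c, c, h1, rfl⟩, ((g⁻¹ : G) : G ⧸ N)), ?_⟩
    obtain ⟨f, hf⟩ := QuotientGroup.mk_out_eq_mul F ((g⁻¹ : G) : G ⧸ N)
    have : β f = f := f.2
    simp only [hf, map_mul, this, hβ]
    simp
  have h1 := Nat.card_le_card_of_surjective _ hs
  rw [Nat.card_prod, ← F.card_mul_index] at h1
  have h2 := Subgroup.eq_of_le_of_card_ge hCF
    (Nat.le_of_mul_le_mul_right h1 (Nat.pos_of_ne_zero F.index_ne_zero_of_finite))
  have h3 : (x : G ⧸ N) ∈ F := (QuotientGroup.eq.2 hx).symm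
  obtain ⟨c, hc, hcx⟩ : (x : G ⧸ N) ∈ C := h2 ▸ h3
  exact ⟨c, hc, QuotientGroup.eq.1 hcx⟩

end Cfsg.Agent.S4154
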