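import Cfsg.Statements.S4155
import Cfsg.Agent.S4107
import Cfsg.Agent.Gen2.Nilp
import Cfsg.Agent.Gen2.QuatAct

set_option autoImplicit false
open Cfsg

namespace Cfsg.Agent.S4155

/-- Let G be a finite group and N a proper non-trivial normal nilpotent subgroup whose order is not a prime power, such that for every x outside N all elements of the coset xN have the same order as x. Then N is the Fitting subgroup of G, and for every prime q every Sylow q-subgroup of G/N is cyclic or generalized quaternion. -/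
theorem result {G : Type*} [Group G] [Finite G] (N : Subgroup G) [N.Normal] (hN1 : N ≠ ⊥) (hN2 : N ≠ ⊤)
    (heq : ∀ x : G, x ∉ N → ∀ n ∈ N, orderOf (x * n) = orderOf x)
    (hnil : Group.IsNilpotent N) (hnpp : ¬ IsPrimePow (Nat.card N)) :
    N = Cfsg.fittingSubgroup G ∧
    ∀ (q : ℕ) [Fact q.Prime] (Q : Sylow q (G ⧸ N)), IsCyclic (Q : Subgroup (G ⧸ N)) ∨ ∃ n : ℕ, Nonempty ((Q : Subgroup (G ⧸ N)) ≃* QuaternionGroup (2 ^ n)) := by
  have hN0 : Nat.card N ≠ 1 := fun h => hN1 (Subgroup.card_eq_one.1 h)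
  constructor
  · have h1 : N ≤ fittingSubgroup G := Solv.le_fitting
    by_contra hne
    exact hnpp (((S4107.result N hN1 hN2 heq).2 (lt_of_le_of_ne h1 hne)).dvd
      (Subgroup.card_dvd_of_le h1) hN0)
  · intro q hq Q
    obtain ⟨r, hr, hrq, hrN⟩ :=
      Gen2.exists_prime_ne_of_not_isPrimePow Nat.card_pos.ne' hN0 hnpp hq.out
    let A := Gen2.omegaZ r N
    have hA : Nontrivial A := (Subgroup.nontrivial_iff_ne_bot A).2 (Gen2.omegaZ_ne_bot N hr hrN)
    let φ : G ⧸ N →* MulAut A := QuotientGroup.lift N MulAut.conjNormal fun n hn => by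
      ext a
      simp [← Gen2.le_centralizer_omegaZ r N hn a a.2]
    rcases subsingleton_or_nontrivial (Q : Subgroup (G ⧸ N)) with hQ | hQ
    · exact Or.inl inferInstance
    have hFC : Gen2.IsFC (Q : Subgroup (G ⧸ N)) := by
      refine Gen2.isFC_of_action (φ.comp (Q : Subgroup (G ⧸ N)).subtype) ?_
      rintro ⟨y, hy⟩ hy1 a ha
      obtain ⟨g, rfl⟩ := QuotientGroup.mk_surjective y
      by_contra ha1
      have ha1' : (a : G) ≠ 1 := fun h => ha1 (Subtype.ext h)
      have hc : g * a * g⁻¹ = a := congrArg Subtype.val ha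
      obtain ⟨x, hx, ⟨k, hk⟩, hxg⟩ := Gen2.exists_pElt_lift (p := q) (QuotientGroup.mk' N) g
        (Gen2.pElt_of_mem Q.isPGroup' hy)
      have hxN : x ∉ N := fun h => hy1 (Subtype.ext (by
        show QuotientGroup.mk' N g = 1
        rw [← hxg]
        exact (QuotientGroup.eq_one_iff x).2 h))
      have hcm : Commute x a := by
        obtain ⟨j, rfl⟩ := hx
        exact Commute.zpow_left (show Commute g a from mul_inv_eq_iff_eq_mul.1 hc) j
      have hoa := Gen2.orderOf_of_mem_omegaZ hr a.2 ha1'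
      have h1 := heq x hxN a a.2.1
      rw [hcm.orderOf_mul_eq_mul_orderOf_of_coprime (by
        rw [hk, hoa]
        exact Nat.Coprime.pow_left _ ((Nat.coprime_primes hq.out hr).2 hrq.symm)), hoa] at h1
      exact hr.one_lt.ne' (mul_left_cancel₀ (orderOf_pos x).ne' (h1.trans (mul_one _).symm))
    rcases hFC.isCyclic_or_quaternion (p := q) (P := ⊤) (Q.isPGroup'.to_subgroup ⊤) with h | ⟨-, n, -, ⟨e⟩⟩
    · exact Or.inl (isCyclic_of_surjective _ Subgroup.topEquiv.surjective)
    · exact Or.inr ⟨n, ⟨Subgroup.topEquiv.symm.trans e⟩⟩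

end Cfsg.Agent.S4155
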