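import Cfsg.Statements.S4156


set_option autoImplicit false
open Cfsg

namespace Cfsg.Agent.S4156

/-- Let n ≥ 5 and F a finite field. Then the projective special linear group PSL_n(F) contains a subgroup isomorphic to the alternating group of degree n + 1. -/
theorem result (n : ℕ) (hn : 5 ≤ n) (F : Type*) [Field F] [Finite F] :
    ∃ f : alternatingGroup (Fin (n + 1)) →* Matrix.ProjectiveSpecialLinearGroup (Fin n) F, Function.Injective f := by
  have : IsSimpleGroup (alternatingGroup (Fin (n + 1))) :=
    alternatingGroup.isSimpleGroup (by simpa using hn.trans n.le_succ)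
  have hc : commutator (alternatingGroup (Fin (n + 1))) = ⊤ :=
    commutator_alternatingGroup_eq_top (by simpa using hn.trans n.le_succ)
  let s : (Fin (n + 1) → F) →ₗ[F] F := Fintype.linearCombination F fun _ => 1
  have hs : ∀ v, s v = ∑ i, v i := fun v => by simp [s, Fintype.linearCombination_apply]
  have h1 : Module.finrank F (LinearMap.ker s) = n := by
    have := s.finrank_range_add_finrank_ker
    rw [LinearMap.range_eq_top.2 fun c => ⟨Pi.single 0 c, by simp [hs]⟩] at this
    simp only [finrank_top, Module.finrank_self, Module.finrank_fin_fun] at this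
    omega
  let b := Module.finBasisOfFinrankEq F _ h1
  let τ : alternatingGroup (Fin (n + 1)) →* Module.End F (LinearMap.ker s) :=
    { toFun := fun g => (LinearMap.funLeft F F (g.1⁻¹ : Equiv.Perm _)).restrict fun v hv => by
        rw [LinearMap.mem_ker, hs] at hv ⊢
        rw [← hv]
        exact Equiv.sum_comp (g.1⁻¹ : Equiv.Perm _) v
      map_one' := by ext; simp [LinearMap.funLeft]
      map_mul' := fun a b => by ext; simp [LinearMap.funLeft] }
  let ρ := (LinearMap.toMatrixAlgEquiv b).toMonoidHom.comp τ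
  have h2 : ∀ {H : Type _} [Group H] (f : alternatingGroup (Fin (n + 1)) →* H),
      (∀ a b, f a * f b = f b * f a) → ∀ a, f a = 1 := fun f hf a => by
    have : commutator _ ≤ f.ker := Subgroup.commutator_le.2 fun a _ b _ => by
      rw [MonoidHom.mem_ker, map_commutatorElement, commutatorElement_eq_one_iff_mul_comm, hf]
    exact this (hc ▸ Subgroup.mem_top a)
  let f : alternatingGroup (Fin (n + 1)) →* Matrix.SpecialLinearGroup (Fin n) F :=
    { toFun := fun g => ⟨ρ g, congrArg Units.val
        (h2 (Matrix.detMonoidHom.comp ρ).toHomUnits (fun _ _ => mul_comm _ _) g)⟩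
      map_one' := Subtype.ext (map_one ρ)
      map_mul' := fun a b => Subtype.ext (map_mul ρ a b) }
  refine ⟨(QuotientGroup.mk' _).comp f, (MonoidHom.ker_eq_bot_iff _).1
    ((IsSimpleGroup.eq_bot_or_eq_top_of_normal _ inferInstance).resolve_right fun h => ?_)⟩
  have h3 := h2 f fun a b => Subgroup.mem_center_iff.1 ((QuotientGroup.eq_one_iff (f b)).1
    (MonoidHom.mem_ker.1 (h.ge (Subgroup.mem_top b)))) (f a)
  obtain ⟨a, ha⟩ : ∃ a : Fin 3 → Fin (n + 1), Function.Injective a :=
    ⟨Fin.castLE (by omega), Fin.castLE_injective _⟩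
  let g : alternatingGroup (Fin (n + 1)) := ⟨Equiv.swap (a 0) (a 2) * Equiv.swap (a 0) (a 1), by
    rw [Equiv.Perm.mem_alternatingGroup, map_mul, Equiv.Perm.sign_swap (ha.ne (by decide)),
      Equiv.Perm.sign_swap (ha.ne (by decide))]
    rfl⟩
  have h4 : τ g = 1 := (LinearMap.toMatrixAlgEquiv b).injective
    ((congrArg Subtype.val (h3 g)).trans (map_one _).symm)
  have h5 := congrFun (congrArg Subtype.val (LinearMap.congr_fun h4
    ⟨Pi.single (a 0) 1 - Pi.single (a 1) 1, by simp [hs]⟩)) (a 0)
  have h6 : (Equiv.swap (a 0) (a 2) * Equiv.swap (a 0) (a 1)).symm (a 0) = a 2 := by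
    rw [Equiv.symm_apply_eq, Equiv.Perm.mul_apply, Equiv.swap_apply_of_ne_of_ne
      (ha.ne (by decide)) (ha.ne (by decide)), Equiv.swap_apply_right]
  simp [τ, g, LinearMap.funLeft, h6, Pi.single_apply, ha.eq_iff] at h5

end Cfsg.Agent.S4156
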