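import Cfsg.Statements.S4477
import Mathlib
import Cfsg.Agent.Char.FS
import Cfsg.Agent.CharDeep.Det
import Cfsg.Agent.Solv.Frattini

set_option autoImplicit false
open Cfsg

namespace Cfsg.Agent.S4477

open Cfsg.Agent.Char Cfsg.Agent.CharDeep
open scoped ComplexConjugate

theorem cyc_of_comm {G : Type*} [Group G] [Finite G] (hG : IsPGroup 2 G)
    (ha : Nat.card {s : G // s * s = 1} % 4 = 2) (hc : ∀ a b : G, a * b = b * a) : IsCyclic G := by
  let E : Subgroup G :=
    { carrier := {s | s * s = 1}
      mul_mem' := fun {a b} ha hb => by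
        simp only [Set.mem_ofPred_eq] at *
        rw [mul_assoc, hc b, mul_assoc, hb, mul_one, ha]
      one_mem' := by simp
      inv_mem' := fun {a} ha => by
        simp only [Set.mem_ofPred_eq] at *
        rw [← mul_inv_rev, ha, inv_one] }
  change Nat.card E % 4 = 2 at ha
  obtain ⟨k, hk⟩ := IsPGroup.iff_card.1 (hG.to_subgroup E)
  have h2 : Nat.card E = 2 := by
    rcases k with _ | _ | k
    · omega
    · simpa using hk
    · rw [hk, pow_add, pow_add] at ha
      omega
  obtain ⟨z, hz, hu⟩ := (Nat.card_eq_two_iff' (1 : E)).1 h2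
  obtain ⟨χ, hχ, hne⟩ := exists_irr_apply_ne (g := (z : G)) fun h => hz (Subtype.ext h)
  obtain ⟨lam, rfl⟩ := hχ.exists_hom_of_comm hc
  refine isCyclic_of_injective_ringHom ((Units.coeHom ℂ).comp lam)
    ((MonoidHom.ker_eq_bot_iff _).1 ?_)
  by_contra h
  set K := ((Units.coeHom ℂ).comp lam).ker
  obtain ⟨m, hm⟩ := IsPGroup.iff_card.1 (hG.to_subgroup K)
  obtain ⟨y, hy⟩ := exists_prime_orderOf_dvd_card' (G := K) 2 (hm ▸ dvd_pow_self 2 (by
    rintro rfl
    exact h (Subgroup.eq_bot_of_card_eq _ (by simpa using hm))))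
  rw [← Subgroup.orderOf_coe] at hy
  have := hu ⟨y, show (y : G) * y = 1 by rw [← pow_two, ← hy, pow_orderOf_eq_one]⟩ fun h => by
    rw [show (y : G) = 1 from congrArg Subtype.val h] at hy
    simp at hy
  refine hne ?_
  rw [← this]
  exact (show (lam y : ℂ) = 1 from y.2).trans (by simp)

theorem cyc_of_quot {G : Type*} [Group G] [Finite G] (hG : IsPGroup 2 G)
    (h : IsCyclic (G ⧸ commutator G)) : IsCyclic G := by
  haveI := hG.isNilpotent
  obtain ⟨x, hx⟩ := h.exists_generator
  obtain ⟨x, rfl⟩ := QuotientGroup.mk_surjective x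
  refine (isCyclic_iff_exists_zpowers_eq_top).2 ⟨x, frattini_nongenerating ?_⟩
  refine top_unique fun g _ => ?_
  obtain ⟨k, hk⟩ := hx g
  have : (x ^ k)⁻¹ * g ∈ commutator G := QuotientGroup.eq.1 hk
  rw [← mul_inv_cancel_left (x ^ k) g]
  exact Subgroup.mul_mem_sup ⟨k, rfl⟩ (Solv.commutator_le_frattini this)

theorem aux.{u} (n : ℕ) : ∀ (G : Type u) [Group G] [Finite G], Nat.card G = n → IsPGroup 2 G →
    Nat.card {s : G // s * s = 1} % 4 = 2 → IsCyclic G ∨ (commutator G).index = 4 := by
  classical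
  induction n using Nat.strong_induction_on with | _ n ih => ?_
  intro G _ _ hn hG ha
  by_cases hc : ∀ a b : G, a * b = b * a
  · exact .inl (cyc_of_comm hG ha hc)
  have hnc : ¬ IsCyclic G := fun h => hc fun a b => (IsCyclic.isMulCommutative (α := G)).1.1 a b
  right
  haveI := Fintype.ofFinite G
  haveI := hG.isNilpotent
  obtain ⟨z, hz2, hzc, hzZ⟩ : ∃ z : G, orderOf z = 2 ∧ z ∈ commutator G ∧
      z ∈ Subgroup.center G := by
    have h0 : commutator G ⊓ Subgroup.center G ≠ ⊥ := by
      letI := MulAction.compHom (commutator G) (MulAut.conjNormal : G →* MulAut (commutator G))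
      obtain ⟨m, hm⟩ := IsPGroup.iff_card.1 (hG.to_subgroup (commutator G))
      obtain ⟨b, hb, hb1⟩ := hG.exists_fixed_point_of_prime_dvd_card_of_fixed_point (commutator G)
        (hm ▸ dvd_pow_self 2 (by
          rintro rfl
          have := Subgroup.eq_bot_of_card_eq (commutator G) (by simpa using hm)
          rw [commutator_eq_bot_iff_center_eq_top] at this
          exact hc fun a b => (Subgroup.mem_center_iff.1 (this ▸ Subgroup.mem_top b) a)))
        (a := 1) fun g => map_one (MulAut.conjNormal g)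
      refine fun h => hb1 (Subtype.ext (Subgroup.mem_bot.1 (h ▸ ⟨b.2, ?_⟩)).symm)
      exact Subgroup.mem_center_iff.2 fun g =>
        mul_inv_eq_iff_eq_mul.1 (congrArg Subtype.val (hb g))
    set K := commutator G ⊓ Subgroup.center G
    obtain ⟨m, hm⟩ := IsPGroup.iff_card.1 (hG.to_subgroup K)
    obtain ⟨y, hy⟩ := exists_prime_orderOf_dvd_card' (G := K) 2 (hm ▸ dvd_pow_self 2 (by
      rintro rfl
      exact h0 (Subgroup.eq_bot_of_card_eq _ (by simpa using hm))))
    exact ⟨y, by rwa [Subgroup.orderOf_coe], y.2.1, y.2.2⟩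
  set Z := Subgroup.zpowers z with hZ
  have hZc : Z ≤ Subgroup.center G := by simpa [hZ] using hzZ
  have hZ' : Z ≤ commutator G := by simpa [hZ] using hzc
  haveI : Z.Normal := ⟨fun a ha g => by
    rwa [Subgroup.mem_center_iff.1 (hZc ha) g, mul_inv_cancel_right]⟩
  by_cases ha' : Nat.card {s : G ⧸ Z // s * s = 1} % 4 = 2
  · have hlt : Nat.card (G ⧸ Z) < n := by
      have := Z.card_mul_index
      rw [Nat.card_zpowers, hz2, hn, Subgroup.index] at this
      have := Nat.card_pos (α := G ⧸ Z)
      omega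
    rcases ih _ hlt (G ⧸ Z) rfl (hG.to_quotient Z) ha' with h | h
    · exact absurd ((QuotientGroup.mk' Z).isMulCommutative_of_isCyclic_of_ker_le_center
        (by simpa)).1.1 hc
    · rw [← h, ← Subgroup.index_map_eq _ (QuotientGroup.mk'_surjective Z) (by simpa), 
        map_commutator_eq, MonoidHom.range_eq_top.2 (QuotientGroup.mk'_surjective Z)]
      rfl
  haveI := Fintype.ofFinite (G ⧸ Z)
  set U := Finset.univ.filter fun χ : IrrCharacter G => ¬ ∀ n ∈ Z, χ.1 n = χ.1 1 with hU
  have e1 : (Nat.card {s : G // s * s = 1} : ℂ) = Nat.card {s : G ⧸ Z // s * s = 1} +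
      ∑ χ ∈ U, fsInd χ.1 * χ.1 1 := by
    rw [← sum_fsInd_mul, ← sum_fsInd_mul, ← Finset.sum_filter_add_sum_filter_not _
      fun χ : IrrCharacter G => ∀ n ∈ Z, χ.1 n = χ.1 1]
    congr 1
    refine (by convert sum_irr_filter_ker Z fun χ => fsInd χ * χ 1 : _ = _).trans
      (Finset.sum_congr rfl fun φ _ => ?_)
    congr 1
    have := sum_comp_of_surjective (QuotientGroup.mk' Z) (QuotientGroup.mk'_surjective Z)
      fun y => φ.1 (y * y)
    simp only [QuotientGroup.mk'_apply, QuotientGroup.ker_mk'] at this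
    simp only [fsInd, QuotientGroup.mk_mul, this, Subgroup.card_eq_card_quotient_mul_card_subgroup Z]
    have := natCard_cast_ne_zero (G := Z)
    have := natCard_cast_ne_zero (G := G ⧸ Z)
    push_cast
    field_simp
  obtain ⟨k, hk⟩ := IsPGroup.iff_card.1 hG
  set T := U.filter fun χ => charDegree χ.1 = 2 with hT
  have hodd : ¬ 2 ∣ T.card := by
    intro hev
    have h1 : ∀ χ ∈ U, ∃ m : ℤ, fsInd χ.1 * χ.1 1 = 4 * m + 2 *
        if charDegree χ.1 = 2 ∧ ∀ g, (χ.1 g).im = 0 then 1 else 0 := fun χ hχ => by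
      obtain ⟨j, -, hj⟩ := (Nat.dvd_prime_pow Nat.prime_two).1 (hk ▸ χ.2.charDegree_dvd_card)
      rw [χ.2.apply_one_eq_charDegree]
      by_cases hr : ∀ g, (χ.1 g).im = 0
      swap
      · exact ⟨0, by rw [χ.2.fsInd_eq_zero (not_forall.1 hr)]; simp [hr]⟩
      rcases j with _ | _ | j
      · refine absurd (fun n hn => χ.2.apply_one_eq_one_iff.1 ?_ n (hZ' hn))
          (Finset.mem_filter.1 hχ).2
        simp [χ.2.apply_one_eq_charDegree, hj]
      · rcases χ.2.fsInd_eq_one_or_neg_one hr with h | h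
        · exact ⟨0, by simp [h, hj, hr]⟩
        · exact ⟨-1, by simp [h, hj, hr]; norm_num⟩
      · have : charDegree χ.1 ≠ 2 := by rw [hj, pow_add, pow_add]; omega
        rcases χ.2.fsInd_eq_one_or_neg_one hr with h | h
        · exact ⟨2 ^ j, by rw [if_neg (by simp [this]), h, hj]; push_cast; ring⟩
        · exact ⟨-2 ^ j, by rw [if_neg (by simp [this]), h, hj]; push_cast; ring⟩
    choose! m hm using h1
    rw [Finset.sum_congr rfl hm, Finset.sum_add_distrib, ← Finset.mul_sum, ← Finset.mul_sum,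
      Finset.sum_boole, ← Finset.filter_filter, ← hT] at e1
    have h2 := Finset.card_filter_add_card_filter_not (s := T) fun χ => ∀ g, (χ.1 g).im = 0
    have h3 : 2 ∣ (T.filter fun χ => ¬ ∀ g, (χ.1 g).im = 0).card := by
      rw [← ZMod.natCast_eq_zero_iff, Finset.card_eq_sum_ones, Nat.cast_sum]
      refine Finset.sum_involution (fun χ _ => ⟨fun g => conj (χ.1 g), χ.2.conj⟩)
        (fun _ _ => rfl) (fun χ hχ _ h => (Finset.mem_filter.1 hχ).2
          (conj_eq_iff_forall_im.1 (congrArg Subtype.val h))) (fun χ hχ => ?_)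
        fun χ _ => Subtype.ext (by simp)
      simp only [hT, hU, Finset.mem_filter, Finset.mem_univ, true_and] at hχ ⊢
      refine ⟨⟨fun h => hχ.1.1 fun n hn => (starRingEnd ℂ).injective (h n hn), charDegree_eq_of_apply_one ?_⟩, by simpa using hχ.2⟩
      simp only [χ.2.apply_one_eq_charDegree, hχ.1.2, map_natCast]
    norm_cast at e1
    omega
  letI : MulAction (G →* ℂˣ) T :=
    { smul := fun lam χ => ⟨⟨fun g => χ.1.1 g * lam g, χ.1.2.mul_hom lam⟩, by
        have hχ := χ.2
        simp only [hT, hU, Finset.mem_filter, Finset.mem_univ, true_and] at hχ ⊢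
        refine ⟨fun h => hχ.1 fun n hn => ?_, charDegree_eq_of_apply_one ?_⟩
        · simpa [show lam n = 1 from Abelianization.commutator_subset_ker lam (hZ' hn)] using h n hn
        · simp [χ.1.2.apply_one_eq_charDegree, hχ.2]⟩
      one_smul := fun χ => Subtype.ext (Subtype.ext (funext fun g => mul_one _))
      mul_smul := fun a b χ => Subtype.ext (Subtype.ext (funext fun g => by
        change χ.1.1 g * ((a g * b g : ℂˣ) : ℂ) = χ.1.1 g * b g * a g
        push_cast
        ring)) }
  obtain ⟨χ, hχ⟩ := IsPGroup.nonempty_fixed_point_of_prime_not_dvd_card (G := G →* ℂˣ) (p := 2)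
    (fun lam => ⟨k, hk ▸ hom_pow_card lam⟩) T (by simpa using hodd)
  have hv : ∀ g, g ∉ commutator G → χ.1.1 g = 0 := fun g hg => by
    obtain ⟨φ, hφ, h1, h2⟩ := exists_irr_apply_ne_of_not_mem _ hg
    obtain ⟨lam, rfl⟩ := hφ.isCharacter.exists_hom_of_apply_one (hφ.apply_one_eq_one_iff.2 h1)
    have : χ.1.1 g * lam g = χ.1.1 g := congrFun (congrArg (fun x : T => x.1.1) (hχ lam)) g
    exact (mul_right_eq_self₀.1 this).resolve_left (by simpa using h2)
  have h4 : (commutator G).index ≤ 4 := by
    have h := χ.1.2.sum_norm_sq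
    rw [← Finset.sum_subset (Finset.subset_univ (Finset.univ.filter (· ∈ commutator G)))
      fun g _ hg => by simp [hv g (by simpa using hg)]] at h
    have h' := Finset.sum_le_card_nsmul (Finset.univ.filter (· ∈ commutator G))
      (fun g => ‖χ.1.1 g‖ ^ 2) 4 fun g _ => by
        have := χ.1.2.isCharacter.norm_apply_le_charDegree g
        rw [(Finset.mem_filter.1 χ.2).2] at this
        push_cast at this
        nlinarith [norm_nonneg (χ.1.1 g)]
    rw [h, ← Fintype.card_subtype, ← Nat.card_eq_fintype_card, nsmul_eq_mul,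
      ← (commutator G).card_mul_index] at h'
    have h0 := Nat.card_pos (α := commutator G)
    exact Nat.le_of_mul_le_mul_left (by exact_mod_cast h') h0
  obtain ⟨j, -, hj⟩ := (Nat.dvd_prime_pow Nat.prime_two).1 (hk ▸ (commutator G).index_dvd_card)
  by_contra hne
  refine hnc (cyc_of_quot hG (isCyclic_of_card_dvd_prime (p := 2) ?_))
  rw [← Subgroup.index, hj]
  rcases j with _ | _ | j
  · simp
  · simp
  · rw [hj, pow_add, pow_add] at h4 hne
    have := Nat.two_pow_pos j
    omega

/-- Let G be a finite 2-group whose number of involutions is congruent to 1 modulo 4. Then G is cyclic or its commutator subgroup has index 4. -/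
theorem result {G : Type*} [Group G] [Finite G] (hG : IsPGroup 2 G) (ht : Nat.card {x : G // orderOf x = 2} % 4 = 1) : IsCyclic G ∨ (commutator G).index = 4 := by
  classical
  haveI := Fintype.ofFinite G
  refine aux _ G rfl hG ?_
  have e0 : Nat.card {s : G // s * s = 1} = Nat.card {x : G // orderOf x = 2} + 1 := by
    rw [Nat.card_eq_fintype_card, Nat.card_eq_fintype_card, Fintype.card_subtype,
      Fintype.card_subtype, ← Finset.card_insert_of_notMem (a := (1 : G)) (by simp)]
    congr 1
    ext s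
    simp only [Finset.mem_filter, Finset.mem_univ, true_and, Finset.mem_insert]
    refine ⟨fun h => (eq_or_ne s 1).imp_right fun h1 => orderOf_eq_prime (by rwa [pow_two]) h1, ?_⟩
    rintro (rfl | h)
    · simp
    · rw [← pow_two, ← h, pow_orderOf_eq_one]
  omega

end Cfsg.Agent.S4477
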