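import Cfsg.Statements.S4157
import Cfsg.Agent.Gen2.Kulakoff
import Cfsg.Agent.PGrp.Sympl
import Cfsg.Agent.PGrp.MaxClassP
import Cfsg.Agent.S4477

set_option autoImplicit false
open Cfsg

namespace Cfsg.Agent.S4157

open Subgroup BG Gen2
open scoped commutatorElement

theorem split {G : Type*} [Group G] [Finite G] {p : ℕ} [hp : Fact p.Prime] (a : ℕ) :
    Nat.card {g : G // g ^ p ^ (a + 1) = 1} =
      Nat.card {g : G // g ^ p ^ a = 1} + Nat.card {x : G // orderOf x = p ^ (a + 1)} := by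
  change Set.ncard {g : G | g ^ p ^ (a + 1) = 1} =
    Set.ncard {g : G | g ^ p ^ a = 1} + Set.ncard {x : G | orderOf x = p ^ (a + 1)}
  rw [← Set.ncard_union_eq (Set.disjoint_left.2 fun x hx hx' => ?_)]
  · congr 1
    ext x
    refine ⟨fun h => or_iff_not_imp_left.2 fun h' => orderOf_eq_prime_pow h' h, ?_⟩
    rintro (h | h)
    · exact (pow_mul x _ p).trans ((congrArg (· ^ p) h).trans (one_pow p))
    · exact orderOf_dvd_iff_pow_eq_one.1 (Eq.dvd h)
  · have := orderOf_dvd_of_pow_eq_one hx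
    rw [show orderOf x = p ^ (a + 1) from hx', Nat.pow_dvd_pow_iff_le_right hp.out.one_lt] at this
    omega

theorem two {G : Type*} [Group G] [Finite G] (hG : IsPGroup 2 G) {R U : Subgroup G} [R.Normal] (hR : Abelem 2 R)
    (h4 : #R = 2 ^ 2) (l : R ≤ U) {a : ℕ} (hU : #U = 2 ^ (a + 3)) : 2 ^ (a + 3) ∣ Nat.card {g : G // g ^ 2 ^ (a + 2) = 1} := by
  have c : ⁅R, ⊤⁆ ≤ center G := by
    have lt := nil_comm_properl (pgroup_nil (hG.to_subgroup ⊤)) le_top (fun e : R = ⊥ => by simp [e] at h4) le_rfl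
      le_normalizer_of_normal
    obtain ⟨j, hj, e⟩ := (Nat.dvd_prime_pow Nat.prime_two).1 (h4 ▸ cardSg lt.le)
    have := proper_card lt
    rw [e, h4, Nat.pow_lt_pow_iff_right one_lt_two] at this
    rcases j with _ | j
    · simp [card_eq_one.1 e]
    obtain rfl : j = 0 := by omega
    exact (cents_symm (pgroup_cent_prime (hG.to_subgroup ⊤) e le_normalizer_of_normal)).trans cent_top.le
  have sq : ∀ g, ∀ r ∈ R, Commute (g * g) r := fun g r hr => by
    have h1 := commutator_mem_commutator hr (mem_top g)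
    have h2 := hR.pow (commg_subl le_normalizer_of_normal h1)
    have h3 := mem_center_iff.1 (c h1) g
    have h5 : r * g = ⁅r, g⁆ * g * r := by simp [commutatorElement_def]
    refine Eq.symm ?_
    rw [← mul_assoc, h5, mul_assoc _ r, h5, ← mul_assoc, ← mul_assoc, mul_assoc ⁅r, g⁆ g, h3, ← mul_assoc, ← pow_two,
      h2, one_mul]
  rw [← hU]
  refine FG.card_dvd_of_brauer U {g | g ^ 2 ^ (a + 2) = 1} (fun h _ x hx => ?_) fun x hx V hV hxV u hu => ?_
  · simp only [Set.mem_ofPred_eq] at hx ⊢; rw [conj_pow, hx]; simp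
  simp only [Set.mem_ofPred_eq] at hx ⊢
  rcases hV.eq_or_lt with rfl | hlt
  · let π := QuotientGroup.mk' R
    have e : #(V.map π) = 2 ^ (a + 1) := by
      have := Solv.card_comap_mk' R (V.map π)
      rw [comap_map_eq_self (by simpa [π] using l), hU, h4, show a + 3 = 2 + (a + 1) by omega, pow_add] at this
      exact (Nat.eq_of_mul_eq_mul_left (by positivity) this).symm
    obtain ⟨g, hg⟩ := isConj_iff.1 (FG.isConj_mul_pow_card (IsPGroup.of_card e) (le_normalizer_map π ⟨x, hxV, rfl⟩)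
      (mem_map_of_mem π hu))
    obtain ⟨g, rfl⟩ := QuotientGroup.mk'_surjective R g
    rw [e, ← map_mul, ← map_pow, ← map_pow, ← map_inv, ← map_mul, ← map_mul, QuotientGroup.mk'_eq_mk'] at hg
    obtain ⟨r, hr, hg⟩ := hg
    rw [pow_succ, pow_mul, ← hg, Commute.mul_pow, hR.pow hr, conj_pow, ← pow_mul, ← pow_succ, hx]
    · simp
    · rw [pow_succ, pow_mul, pow_two, ← conj_mul]; exact sq _ r hr
  obtain ⟨j, hj, e⟩ := (Nat.dvd_prime_pow Nat.prime_two).1 (hU ▸ cardSg hV)
  have h4 := proper_card hlt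
  rw [e, hU, Nat.pow_lt_pow_iff_right one_lt_two] at h4
  have := (FG.isConj_mul_pow_card (IsPGroup.of_card e) hxV hu).pow (2 ^ (a + 2 - j))
  rwa [← pow_mul, ← pow_mul, e, ← pow_add, show j + (a + 2 - j) = a + 2 by omega, hx, isConj_one_right] at this

/-- Let G be a finite p-group of order p^m that is not cyclic and, when p = 2, not of maximal class (nilpotency class m − 1). Then for every 1 ≤ k < m the number of subgroups of G of order p^k is congruent to 1 + p modulo p². -/
theorem result {G : Type*} [Group G] [Finite G] {p : ℕ} [Fact p.Prime] (m : ℕ)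
    (hG : Nat.card G = p ^ m) (hnc : ¬ IsCyclic G) (h2 : p = 2 → Group.nilpotencyClass G ≠ m - 1)
    (k : ℕ) (hk1 : 1 ≤ k) (hk2 : k < m) :
    Nat.card {H : Subgroup G // Nat.card H = p ^ k} ≡ 1 + p [MOD p ^ 2] := by
  have hp : p.Prime := Fact.out
  have pG := IsPGroup.of_card hG
  have hdvd : p ^ (k + 1) ∣ Nat.card G := hG ▸ pow_dvd_pow p hk2
  have i4 : p = 2 → (commutator G).index ≠ 4 := fun e h => h2 e (by
    subst e
    rcases (show 2 ≤ m by omega).eq_or_lt with rfl | lt
    · exact PGrp.class_of_cent 0 hG 1 (hG ▸ card_le_card_group _)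
    obtain ⟨n, rfl⟩ := Nat.exists_eq_add_of_le' lt
    obtain ⟨a, x, h⟩ := PGrp.exists_dqs hG h
    exact h.class_eq)
  obtain ⟨R, _, hR, h4⟩ : ∃ R : Subgroup G, R.Normal ∧ Abelem p R ∧ #R = p ^ 2 := by
    by_contra! r
    obtain ⟨e, a, x, n, h⟩ := (PGrp.isCyclic_or_isMC pG r).resolve_left hnc
    exact i4 e h.index_commutator
  obtain ⟨U, hU, l⟩ := Sylow.exists_subgroup_card_pow_prime_le p hdvd R h4 (by omega)
  have h3 : p ∣ Nat.card {H : Subgroup G // #H = p ^ (k + 1) ∧ IsCyclic H} := by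
    rcases ne_or_eq p 2 with e | rfl
    · refine dvd_card_cyclic_subgroups e hU fun c => ?_
      have := cyclic_abelem_card_dvd hR (cyclicS l c)
      rw [h4, pow_two] at this
      exact hp.one_lt.not_ge (Nat.le_of_dvd one_pos ((Nat.mul_dvd_mul_iff_left hp.pos).1 (by simpa using this)))
    have h5 : 2 ^ (k + 1) ∣ Nat.card {g : G // g ^ 2 ^ k = 1} := by
      rcases hk1.eq_or_lt with rfl | lt
      · have h6 := FG.dvd_card_pow_eq_one ((pow_dvd_pow 2 (by omega : 1 ≤ 2)).trans hdvd)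
        have h7 := split (G := G) (p := 2) 0
        have h8 := mt (S4477.result pG) (not_or.2 ⟨hnc, i4 rfl⟩)
        simp only [pow_zero, pow_one, zero_add, Nat.card_unique] at h6 h7 ⊢
        omega
      obtain ⟨a, rfl⟩ := Nat.exists_eq_add_of_le' lt
      exact two pG hR h4 l hU
    have h1 := FG.dvd_card_pow_eq_one hdvd
    rw [split, Nat.dvd_add_right h5, ← card_cyclic_subgroups_mul, Nat.totient_prime_pow_succ hp] at h1
    exact (Nat.mul_dvd_mul_iff_right (Nat.two_pow_pos k)).1 (by rw [← pow_succ']; simpa using h1)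
  have h5 := FG.card_subgroups_modEq_one hdvd
  have h6 : Nat.card {H : Subgroup G // #H = p ^ (k + 1)} =
      Nat.card {H : Subgroup G // #H = p ^ (k + 1) ∧ IsCyclic H} +
        Nat.card {H : Subgroup G // #H = p ^ (k + 1) ∧ ¬ IsCyclic H} := by
    change Set.ncard {H : Subgroup G | #H = p ^ (k + 1)} =
      Set.ncard {H : Subgroup G | #H = p ^ (k + 1) ∧ IsCyclic H} +
        Set.ncard {H : Subgroup G | #H = p ^ (k + 1) ∧ ¬ IsCyclic H}
    rw [← Set.ncard_union_eq (Set.disjoint_left.2 fun x hx hx' => hx'.2 hx.2)]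
    congr 1
    ext x
    simp only [Set.mem_ofPred_eq, Set.mem_union]
    tauto
  have h7 := (Nat.modEq_zero_iff_dvd.2 h3).add_right (Nat.card {H : Subgroup G // #H = p ^ (k + 1) ∧ ¬ IsCyclic H})
  rw [zero_add, ← h6] at h7
  have := ((h7.symm.trans h5).mul_left' p).add_left 1
  rw [← pow_two, mul_one] at this
  exact (card_subgroups_modEq_noncyclic hdvd).trans this

end Cfsg.Agent.S4157
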