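import Cfsg.Statements.S4159
import Cfsg.Agent.S0205
import Cfsg.Agent.Gen2.Real

set_option autoImplicit false
open Cfsg

namespace Cfsg.Agent.S4159

/-- Let G be a finite group such that in every subgroup H of G, any two conjugacy classes of H of size greater than 1 have non-coprime sizes. Then G is solvable. -/
theorem result {G : Type*} [Group G] [Finite G]
    (h : ∀ (H : Subgroup G) (x y : H), 1 < (Subgroup.centralizer ({x} : Set H)).index → 1 < (Subgroup.centralizer ({y} : Set H)).index →
      ¬ ((Subgroup.centralizer ({x} : Set H)).index).Coprime (Subgroup.centralizer ({y} : Set H)).index) : Group.IsSolvable G := by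
  open Subgroup in
  rcases Nat.even_or_odd (Cfsg.pCore 2 G).index with he | ho
  · exfalso
    obtain ⟨y, g, hy, hodd, ⟨k, hk⟩, e⟩ := Gen2.exists_real_of_even_index he
    have hn : zpowers g ≤ normalizer (zpowers y : Set G) := by
      rw [zpowers_le]
      refine mem_normalizer_fintype fun x hx => ?_
      obtain ⟨j, rfl⟩ := mem_zpowers_iff.1 hx
      rw [Invol.conj_zpow_of_inverts e]
      exact inv_mem hx
    have hc : ¬ Commute y g := fun hc =>
      hy.ne_one (orderOf_eq_one_iff.2 (Invol.eq_one_of_odd_of_inverts_of_commute hodd e hc))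
    have hy' : y ∈ zpowers y ⊔ zpowers g := mem_sup_left (mem_zpowers y)
    have hg' : g ∈ zpowers y ⊔ zpowers g := mem_sup_right (mem_zpowers g)
    have h1 : ∀ a b : (zpowers y ⊔ zpowers g : Subgroup G), ¬ Commute (a : G) b →
        1 < (centralizer ({a} : Set (zpowers y ⊔ zpowers g : Subgroup G))).index := fun a b hab =>
      lt_of_le_of_ne (Gen2.cs_pos a) fun h => hab
        (congrArg Subtype.val (mem_center_iff.1 (Gen2.cs_eq_one_iff.1 h.symm) b)).symm
    refine h _ ⟨y, hy'⟩ ⟨g, hg'⟩ (h1 _ ⟨g, hg'⟩ hc) (h1 _ ⟨y, hy'⟩ fun h => hc h.symm) ?_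
    rw [Gen2.cs_subtype, Gen2.cs_subtype]
    refine Nat.Coprime.of_dvd ?_ ?_ ((Nat.coprime_two_left.2 hodd).pow_left k)
    · refine (relIndex_dvd_of_le_left _ (zpowers_le.2 (Gen2.self_mem_cent y))).trans ?_
      rw [sup_comm, Solv.relIndex_sup_of_le_normalizer hn, ← hk, ← Nat.card_zpowers]
      exact relIndex_dvd_card _ _
    · refine (relIndex_dvd_of_le_left _ (zpowers_le.2 (Gen2.self_mem_cent g))).trans ?_
      rw [Gen2.relIndex_sup_of_le le_rfl hn, ← Nat.card_zpowers]
      exact relIndex_dvd_card _ _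
  · have := S0205.result (G := G ⧸ Cfsg.pCore 2 G) ho
    have := (Solv.isPGroup_pCore 2 G).isNilpotent
    exact Solv.isSolvable_of_normal_of_quotient (Cfsg.pCore 2 G)

end Cfsg.Agent.S4159
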