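import Cfsg.Statements.S4168
import Cfsg.Agent.Transfer.Abelian
import Cfsg.Agent.Gen2.Basic

set_option autoImplicit false
open Cfsg

namespace Cfsg.Agent.S4168

/-- Let L be a finite quasisimple group (perfect with L/Z(L) simple). Then every prime dividing the order of the centre Z(L) also divides the order of L/Z(L). -/
theorem result {L : Type*} [Group L] [Finite L] (hL : Cfsg.IsQuasisimple L)
    (p : ℕ) (hp : p.Prime) (hdiv : p ∣ Nat.card (Subgroup.center L)) : p ∣ (Subgroup.center L).index := by
  by_contra h
  obtain ⟨z, hz, ho⟩ := Gen2.exists_mem_orderOf_eq_prime hp hdiv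
  have h2 := Transfer.pow_relIndex_mem_commutator (A := Subgroup.center L) (H := ⊤) le_top
    (z := z) (Subgroup.center_le_centralizer _ hz) (by
      rw [show ⁅(⊤ : Subgroup L), (⊤ : Subgroup L)⁆ = ⊤ from hL.1.1]; trivial)
  rw [Subgroup.commutator_eq_bot_iff_le_centralizer.2 (Subgroup.center_le_centralizer _),
    Subgroup.mem_bot, ← orderOf_dvd_iff_pow_eq_one, ho, Subgroup.relIndex_top_right] at h2
  exact h h2

end Cfsg.Agent.S4168
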