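import Cfsg.Statements.S4172
import Cfsg.Agent.BG.Base6
import Cfsg.Agent.S0081
import Cfsg.Agent.S0088
import Cfsg.Agent.S0051
import Cfsg.Agent.Loc.Am1

set_option autoImplicit false
open Cfsg

namespace Cfsg.Agent.S4172

section helpers
open Cfsg.Agent.Loc Subgroup
open scoped commutatorElement

variable {G : Type*} [Group G] [Finite G] {p : ℕ} [hp : Fact p.Prime]

theorem two_gen {P R : Subgroup G} (hg : (BG.Phi P).relIndex P = p ^ 2) (hR : R ≤ P) (hn : ¬ R ≤ BG.Phi P) :
    ∃ x ∈ P, R ⊔ zpowers x = P := by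
  have l := sup_le (BG.Phi_sub P) hR
  have e := relIndex_mul_relIndex _ _ _ (le_sup_left : _ ≤ BG.Phi P ⊔ R) l
  obtain ⟨k, hk, ek⟩ := (Nat.dvd_prime_pow hp.out).1 (hg ▸ e ▸ dvd_mul_left _ _ : (BG.Phi P ⊔ R).relIndex P ∣ p ^ 2)
  interval_cases k
  · exact ⟨1, one_mem _, by
      rw [zpowers_one_eq_bot, sup_bot_eq]; exact BG.Phi_nongen hR ((relIndex_eq_one.1 ek).trans (sup_comm _ _).le)⟩
  · rw [pow_one] at ek
    obtain ⟨x, hx, h⟩ := SetLike.not_le_iff_exists.1 fun k => hp.out.ne_one (ek.symm.trans (relIndex_eq_one.2 k))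
    refine ⟨x, hx, BG.Phi_nongen (sup_le hR (zpowers_le.2 hx)) ?_⟩
    rw [sup_comm, ← sup_assoc, sup_eq_of_relIndex_prime hp.out ek l (zpowers_le.2 hx) (zpowers_le.not.2 h)]
  · rw [ek, hg, mul_eq_right₀ (pow_ne_zero _ hp.out.ne_zero), relIndex_eq_one] at e
    exact absurd (le_sup_right.trans e) hn

theorem tate (P : Sylow p G) {A : Subgroup G} (hO : pPrimeCore p G = ⊥) (hA : Sig.SubnIn A ⊤)
    (hn : (P : Subgroup G) ≤ normalizer (A : Set G)) (h : A ⊓ P ≤ BG.Phi P) : A ≤ BG.Phi P := by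
  have l : A ≤ A ⊔ P := le_sup_left
  have := (normal_subgroupOf_iff_le_normalizer l).2 (sup_le le_normalizer hn)
  obtain ⟨T, K, hK, c⟩ := S0081.result (sylIn_of_sylow_le P le_sup_right).toSylow (A.subgroupOf (A ⊔ P)) (by
    have := BG.morphim_Phi (MonoidHom.id ↥(A ⊔ P)) P.2 le_sup_right
    rw [BG.mim_id, BG.mim_id] at this
    exact fun x hx => this.le (h hx))
  have e : pPrimeCore p A = ⊥ := (map_eq_bot_iff_of_injective _ A.subtype_injective).1
    (le_bot_iff.1 ((Sig.ppIn_mono hA).trans ((Sig.ppIn_top p).trans hO).le))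
  have : K = ⊥ := by
    have := Solv.le_pPrimeCore (N := K) (p := p) (c.index_eq_card ▸
      ((hp.out.coprime_iff_not_dvd).2 T.not_dvd_index).symm)
    rwa [← Solv.map_pPrimeCore_equiv (subgroupOfEquivOfLe l).symm, e, Subgroup.map_bot, le_bot_iff] at this
  have t : (T : Subgroup (A.subgroupOf (A ⊔ P))) = ⊤ := by simpa [this] using c.sup_eq_top
  have g : IsPGroup p A := ((t ▸ T.2 : IsPGroup p (⊤ : Subgroup _)).of_equiv topEquiv).of_equiv (subgroupOfEquivOfLe l)
  exact (le_inf le_rfl ((le_pCoreOf_of_subnIn hA g).trans (sylIn_top P).pCoreOf_le)).trans h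

end helpers

/-- Let p be a prime and G a finite group with a non-commutative Sylow p-subgroup P whose Frattini subgroup has index p² in P (P is generated by two elements). Suppose G has no nontrivial normal subgroup of order prime to p and the Frattini subgroup of P contains no nontrivial normal subgroup of G. Then the generalized Fitting subgroup F*(G) is the unique minimal normal subgroup of G, the image of P in G/F*(G) is cyclic, and if F*(G) is not commutative then P permutes the components of G transitively by conjugation. -/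
theorem result {G : Type*} [Group G] [Finite G] (p : ℕ) [Fact p.Prime] (P : Sylow p G) (hna : ¬ IsMulCommutative (P : Subgroup G)) (hgen : (frattini ↥(P : Subgroup G)).index = p ^ 2) (hcore : Cfsg.pPrimeCore p G = ⊥) (hfrat : ((frattini ↥(P : Subgroup G)).map (P : Subgroup G).subtype).normalCore = ⊥) [hFn : (Cfsg.generalizedFittingSubgroup G).Normal] :
    (Cfsg.generalizedFittingSubgroup G ≠ ⊥ ∧ ∀ K : Subgroup G, K.Normal → K ≠ ⊥ → Cfsg.generalizedFittingSubgroup G ≤ K) ∧
      IsCyclic ↥((P : Subgroup G).map (QuotientGroup.mk' (Cfsg.generalizedFittingSubgroup G))) ∧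
      (¬ IsMulCommutative (Cfsg.generalizedFittingSubgroup G) → ∀ K L : Subgroup G, Cfsg.IsComponent K → Cfsg.IsComponent L → ∃ x ∈ (P : Subgroup G), L = K.map (MulAut.conj x).toMonoidHom) := by
  open Cfsg.Agent.Loc Subgroup in
  open scoped commutatorElement in
  have nP := BG.pgroup_nil P.2
  have key : ∀ A, Sig.SubnIn A ⊤ → (P : Subgroup G) ≤ normalizer (A : Set G) → ¬ A ≤ BG.Phi P →
      (∃ x ∈ (P : Subgroup G), A ⊓ P ⊔ zpowers x = P) ∧ ⁅(P : Subgroup G), (P : Subgroup G)⁆ ≤ A := fun A h1 h2 h3 => by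
    obtain ⟨x, hx, e⟩ := two_gen ((BG.relIndex_map_subtype _).trans hgen) inf_le_right fun k => h3 (tate P hcore h1 h2 k)
    refine ⟨⟨x, hx, e⟩, ?_⟩
    have := BG.der_sup_le (K := A ⊓ P) (H := zpowers x) (zpowers_le.2 (le_normalizer_inf h2 le_normalizer hx))
    rw [e, BG.der1_eq_bot.2 (BG.abelian_zpowers x), sup_bot_eq] at this
    exact this.trans inf_le_left
  have kn := fun (A : Subgroup G) [A.Normal] (h : A ≠ ⊥) => key A (.of_normal le_top le_normalizer_of_normal)
    le_normalizer_of_normal fun k => h (le_bot_iff.1 (hfrat ▸ normal_le_normalCore.2 k))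
  have P1 : ⁅(P : Subgroup G), (P : Subgroup G)⁆ ≠ ⊥ := fun k => hna (BG.der1_eq_bot.1 k)
  set M := normalClosure ((⁅(P : Subgroup G), (P : Subgroup G)⁆ : Subgroup G) : Set G)
  have M1 : M ≠ ⊥ := fun k => P1 (le_bot_iff.1 (k ▸ le_normalClosure))
  have mn : ∀ (A : Subgroup G) [A.Normal], A ≠ ⊥ → M ≤ A := fun A _ h => normalClosure_le_normal (kn A h).2
  have eF := Solv.fitting_eq_pCore hcore
  have nN := pCore_normal' p G
  obtain ⟨x, hx, e⟩ := (kn M M1).1
  have h1 : pCore p G ≠ ⊥ → layer G = ⊥ ∧ pCore p G ≤ M ∧ IsMulCommutative (pCore p G) := fun h => by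
    have l := mn _ h
    have lP := pCore_le_sylow P
    rw [inf_eq_left.2 (l.trans lP)] at e
    have ea := (BG.trivg_Phi (isPGroup_pCore p G)).1 (le_bot_iff.1 (hfrat ▸ (@normal_le_normalCore _ _ _ _
      ((BG.normal_top _).Phi.normal)).2 (BG.PhiS P.2 lP)))
    have d : ∀ X, M ≤ X → X ⊓ P = M ⊔ X ⊓ zpowers x := fun X h => by
      rw [← e]; exact BG.group_modl (Or.inr le_normalizer_of_normal) h
    refine ⟨by_contra fun k => M1 (le_bot_iff.1 ?_), by_contra fun k => ?_, ea.1⟩
    · have lE := mn _ k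
      have c : M ≤ centralizer (layer G : Set G) := l.trans (le_centralizer_iff.1 (commutator_eq_bot_iff_le_centralizer.1
        (by rw [← eF, ← Sig.fitIn_top, ← Sig.layerIn_top]; exact Sig.commutator_layerIn_fitIn)))
      have s := (sylIn_top P).inf_normal' (N := layer G) le_top le_normalizer_of_normal
      have := S0088.result ((P ⊓ layer G : Subgroup G).subgroupOf (layer G)) (by
        refine BG.abelian_of_cent (BG.cents_subgroupOf _ (BG.IsMulCommutative.cent ?_))
        rw [inf_comm, d _ lE]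
        exact BG.abelianY (BG.abelianS l ea.1) (BG.abelianS inf_le_right (BG.abelian_zpowers x))
          (c.trans (centralizer_anti inf_le_left))) (by
        obtain ⟨k, hk⟩ := s.pg.exists_card_eq
        rw [card_subgroupOf s.le, hk]
        exact ((Fact.out : p.Prime).coprime_iff_not_dvd.2 s.not_dvd_relIndex).pow_left k)
      intro y hy
      have := this.le (show (⟨y, lE hy⟩ : layer G) ∈ _ from ⟨⟨⟨l.trans lP hy, lE hy⟩, by
        have := (Sig.layer_perfect (G := G)).ge (lE hy)
        rw [← map_subtype_commutator] at this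
        obtain ⟨z, hz, rfl⟩ := this
        exact hz⟩, mem_center_iff.2 fun z => Subtype.ext (c hy z z.2)⟩)
      exact congrArg Subtype.val this
    · have e2 := d _ l
      rw [inf_eq_left.2 lP] at e2
      have t : zpowers x ⊓ M = ⊥ := by
        by_contra t
        have cy := BG.cyclic_abelem_prime Fact.out (BG.abelemS (inf_le_left : pCore p G ⊓ zpowers x ≤ _) ea)
          (isCyclic_of_le inf_le_right) fun j => k (by rw [e2, j, sup_bot_eq])
        exact k (e2.le.trans (sup_le le_rfl ((BG.prime_meet (by rw [cy]; exact Fact.out) fun j => t (le_bot_iff.1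
          ((le_inf (le_inf (inf_le_right.trans l) inf_le_left) inf_le_right).trans j.le))))))
      have := BG.abelianS l ea.1
      obtain ⟨H, c⟩ := S0051.result M P (l.trans lP) (by
        obtain ⟨k, hk⟩ := ((isPGroup_pCore p G).to_le l).exists_card_eq
        rw [hk]
        exact ((Fact.out : p.Prime).coprime_iff_not_dvd.2 P.not_dvd_index).pow_left k) _ (zpowers_le.2 hx) t e
      have e3 := BG.group_modl (A := M) (B := H) (Or.inr le_normalizer_of_normal) l
      rw [c.sup_eq_top, inf_top_eq] at e3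
      have : (pCore p G ⊓ H).Normal := normal_of_top_le_normalizer (c.sup_eq_top.ge.trans (sup_le
        (le_normalizer_of_le_centralizer (BG.sub_abelian_cent2 ea.1 l inf_le_left))
        (le_normalizer_inf le_normalizer_of_normal le_normalizer)))
      exact M1 (c.disjoint.eq_bot_of_le ((mn _ fun j => k (by rw [e3, j, sup_bot_eq])).trans inf_le_right))
  have eM : generalizedFittingSubgroup G = M := by
    refine le_antisymm (sup_le ?_ ?_) (mn _ fun k => M1 (le_bot_iff.1 (le_top.trans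
      (Sig.fstarIn_eq_bot_iff.1 (Sig.fstarIn_top.trans k)).le)))
    · by_cases h : pCore p G = ⊥
      · refine Sig.layer_le_iff.2 fun L hL => ((Sig.compIn_top_iff.2 hL).le_or_commutator
          (.of_normal le_top le_normalizer_of_normal)).resolve_right fun k => M1 (le_bot_iff.1 ?_)
        have := BG.abelian_of_cent (mn (centralizer (M : Set G)) fun j => (Sig.compIn_top_iff.2 hL).ne_bot
          (le_bot_iff.1 (j ▸ commutator_eq_bot_iff_le_centralizer.1 k)))
        exact Solv.le_fitting_of_isMulCommutative.trans (eF.trans h).le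
      · exact (h1 h).1.le.trans bot_le
    · by_cases h : pCore p G = ⊥
      · exact (eF.trans h).le.trans bot_le
      · exact eF.le.trans (h1 h).2.1
  refine ⟨⟨eM ▸ M1, fun K _ h => eM ▸ mn K h⟩, ?_, fun hn K L hK hL => by_contra fun k => ?_⟩
  · rw [← e, Subgroup.map_sup, (Subgroup.map_eq_bot_iff _).2 (inf_le_left.trans (by rw [QuotientGroup.ker_mk', eM])),
      bot_sup_eq, MonoidHom.map_zpowers]
    infer_instance
  have h : pCore p G = ⊥ := by_contra fun h => hn (by
    rw [generalizedFittingSubgroup, (h1 h).1, bot_sup_eq, eF]; exact (h1 h).2.2)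
  have kp : ∀ X, IsComponent X → ∀ S : Set (Subgroup G), (∀ Y ∈ S, Sig.CompIn Y ⊤) → X ∈ S →
      (∀ g ∈ (P : Subgroup G), ∀ Y ∈ S, cj g Y ∈ S) → Sig.SubnIn (sSup S) ⊤ ∧
        ⁅(P : Subgroup G), (P : Subgroup G)⁆ ≤ sSup S := fun X hX S s1 s2 s3 => by
    have a := subnIn_sSup fun Y h => (s1 Y h).subnIn
    refine ⟨a, (key _ a (BG.norms_sSup_of_perm s3) fun j => ?_).2⟩
    exact (BG.sol_der1_proper (BG.solvableS ((le_sSup s2).trans (j.trans (BG.Phi_sub _))) (BG.pgroup_sol P.2))
      (s1 X s2).ne_bot).ne (s1 X s2).perfect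
  have cK := Sig.compIn_top_iff.2 hK
  obtain ⟨a1, a2⟩ := kp K hK {Y | ∃ g ∈ (P : Subgroup G), Y = cj g K}
    (fun Y ⟨g, _, e⟩ => e ▸ cK.conj (le_normalizer (mem_top g))) ⟨1, one_mem _, (cj_one K).symm⟩
    fun g hg Y ⟨g', hg', e⟩ => ⟨g * g', mul_mem hg hg', by rw [e, cj_cj]⟩
  obtain ⟨-, b2⟩ := kp L hL {Y | ∃ g ∈ (P : Subgroup G), Y = cj g L}
    (fun Y ⟨g, _, e⟩ => e ▸ (Sig.compIn_top_iff.2 hL).conj (le_normalizer (mem_top g))) ⟨1, one_mem _, (cj_one L).symm⟩
    fun g hg Y ⟨g', hg', e⟩ => ⟨g * g', mul_mem hg hg', by rw [e, cj_cj]⟩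
  have cc := Sig.commutator_sSup_compIn_eq_bot (K := ⊤) (S := {Y | ∃ g ∈ (P : Subgroup G), Y = cj g L})
    (T := {Y | ∃ g ∈ (P : Subgroup G), Y = cj g K})
    (by rintro Y ⟨g, _, e⟩; exact e ▸ (Sig.compIn_top_iff.2 hL).conj (le_normalizer (mem_top g)))
    (by rintro Y ⟨g, _, e⟩; exact e ▸ cK.conj (le_normalizer (mem_top g))) (by
      rintro Y ⟨g, hg, e⟩ ⟨g', hg', e'⟩
      refine k ⟨g⁻¹ * g', mul_mem (inv_mem hg) hg', ?_⟩
      show L = cj _ K
      rw [← cj_cj, ← e', e, cj_inv_cj])
  exact P1 (le_bot_iff.1 ((le_inf a2 (b2.trans (commutator_eq_bot_iff_le_centralizer.1 cc))).trans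
    ((Sig.center_le_fitIn a1).trans (Sig.fitIn_top.trans (eF.trans h)).le)))

end Cfsg.Agent.S4172
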