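import Cfsg.Statements.S4177
import Cfsg.Agent.SolvStr.Product

set_option autoImplicit false
open Cfsg

namespace Cfsg.Agent.S4177

theorem cast_ne {k H : Type*} [Field k] [Group H] (hH : (Nat.card H : k) ≠ 0) (A : Subgroup H) :
    (Nat.card A : k) ≠ 0 := fun h => hH (by rw [← A.card_mul_index, Nat.cast_mul, h, zero_mul])

open scoped Classical in
theorem aux {k V H : Type*} [Field k] [AddCommGroup V] [Module k V] [Group H] [Fintype H]
    (hH : (Nat.card H : k) ≠ 0) (ρ : Representation k H V) (A B : Subgroup H)
    (hc : B.index.Coprime A.index) {u : V} (hu : ∀ x ∈ A, ρ x u = u) (g : H) :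
    ρ g (∑ y : B, ρ y u) = ∑ y : B, ρ y u := by
  let r : H → ℕ := fun x => (Finset.univ.filter fun z : B × A => (z.1 : H) * z.2 = x).card
  have h1 : ∀ x, r x = r 1 := fun x => by
    obtain ⟨b, hb, a, ha, rfl⟩ :=
      SolvStr.isProd_top_iff.1 (SolvStr.isProd_top_of_coprime_index hc) x
    refine Finset.card_equiv ((Equiv.mulLeft (⟨b, hb⟩ : B)⁻¹).prodCongr
      (Equiv.mulRight (⟨a, ha⟩ : A)⁻¹)) fun z => ?_
    simp only [Finset.mem_filter, Finset.mem_univ, true_and]
    show _ ↔ b⁻¹ * z.1 * (z.2 * a⁻¹) = 1
    rw [← mul_assoc, mul_inv_eq_one, mul_assoc, inv_mul_eq_iff_eq_mul]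
  have h2 : (Nat.card A : k) • ∑ y : B, ρ y u = r 1 • ∑ x : H, ρ x u := by
    have h3 := Finset.sum_fiberwise_of_maps_to (s := Finset.univ) (t := Finset.univ)
      (g := fun z : B × A => (z.1 : H) * z.2) (fun _ _ => Finset.mem_univ _)
      (fun z => ρ ((z.1 : H) * z.2) u)
    rw [Fintype.sum_prod_type] at h3
    simp only [map_mul, Module.End.mul_apply, hu _ (Subtype.prop _), Finset.sum_const,
      Finset.card_univ] at h3
    rw [Nat.cast_smul_eq_nsmul, Nat.card_eq_fintype_card, Finset.smul_sum, ← h3, Finset.smul_sum]
    refine Finset.sum_congr rfl fun x _ => ?_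
    rw [← h1 x, ← Finset.sum_const]
    refine Finset.sum_congr rfl fun z hz => ?_
    rw [← (Finset.mem_filter.1 hz).2, map_mul, Module.End.mul_apply, hu _ z.2.2]
  refine smul_right_injective V (cast_ne hH A) ?_
  simp only
  rw [← map_smul, h2, map_nsmul, map_sum]
  congr 1
  exact Fintype.sum_equiv (Equiv.mulLeft g) _ _ fun x => by simp

/-- Let k be a field whose characteristic does not divide the order of the finite group H (for instance a field of characteristic zero), and ρ a k-linear representation of H on V. Let a be a vector whose H-orbit spans V. Then the space of H-fixed vectors has dimension at most 1, and every vector b whose H-orbit has size coprime to the size of the orbit of a is fixed by H. -/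
theorem result {k V H : Type*} [Field k] [AddCommGroup V] [Module k V] [Group H] [Finite H]
    (hchar : ¬ ringChar k ∣ Nat.card H) (ρ : Representation k H V) (a : V)
    (hspan : Submodule.span k {u : V | ∃ h : H, ρ h a = u} = ⊤) :
    Module.finrank k ρ.invariants ≤ 1 ∧
    ∀ b : V, (Nat.card {u : V | ∃ h : H, ρ h a = u}).Coprime (Nat.card {u : V | ∃ h : H, ρ h b = u}) → ∀ h : H, ρ h b = b := by
  classical
  have := Fintype.ofFinite H
  have hH : (Nat.card H : k) ≠ 0 := by rwa [Ne, ringChar.spec]
  let _ : MulAction H V :=
    { smul := fun h v => ρ h v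
      one_smul := fun v => by
        show ρ 1 v = v
        simp
      mul_smul := fun g h v => by
        show ρ (g * h) v = ρ g (ρ h v)
        simp }
  have key : ∀ B : Subgroup H, B.index.Coprime (MulAction.stabilizer H a).index →
      ∀ v, ∀ g : H, ρ g (∑ y : B, ρ y v) = ∑ y : B, ρ y v := fun B hB v g => by
    induction (hspan ▸ Submodule.mem_top : v ∈ Submodule.span k _) using
      Submodule.span_induction with
    | mem _ h =>
      obtain ⟨h, rfl⟩ := h
      refine aux hH ρ (MulAction.stabilizer H (h • a)) B ?_ (fun x hx => hx) g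
      rwa [MulAction.index_stabilizer, MulAction.orbit_smul, ← MulAction.index_stabilizer]
    | zero => simp
    | add x y _ _ hx hy => simp only [map_add, Finset.sum_add_distrib, hx, hy]
    | smul c x _ hx => simp only [map_smul, ← Finset.smul_sum, hx]
  constructor
  · refine (Submodule.finrank_mono (t := k ∙ ∑ y : H, ρ y a) fun v hv => ?_).trans
      (finrank_span_le_card _ |>.trans (by simp))
    have h1 : ∀ v, ∑ y : H, ρ y v ∈ k ∙ ∑ y : H, ρ y a := fun v => by
      induction (hspan ▸ Submodule.mem_top : v ∈ Submodule.span k _) using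
        Submodule.span_induction with
      | mem _ h =>
        obtain ⟨h, rfl⟩ := h
        rw [Fintype.sum_equiv (Equiv.mulRight h) (fun y => ρ y (ρ h a)) (fun y => ρ y a)
          fun x => by simp]
        exact Submodule.mem_span_singleton_self _
      | zero => simp
      | add x y _ _ hx hy => simpa only [map_add, Finset.sum_add_distrib] using add_mem hx hy
      | smul c x _ hx =>
        simpa only [map_smul, ← Finset.smul_sum] using Submodule.smul_mem _ c hx
    have h2 := h1 v
    simp only [hv _, Finset.sum_const, Finset.card_univ, ← Nat.card_eq_fintype_card,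
      ← Nat.cast_smul_eq_nsmul k] at h2
    exact (Submodule.smul_mem_iff _ hH).1 h2
  · intro b hb h
    have h1 := key (MulAction.stabilizer H b) (by
      rw [MulAction.index_stabilizer, MulAction.index_stabilizer]; exact hb.symm) b h
    have h2 : ∀ y : MulAction.stabilizer H b, ρ y b = b := fun y => y.2
    simp only [h2, Finset.sum_const, Finset.card_univ, ← Nat.card_eq_fintype_card,
      ← Nat.cast_smul_eq_nsmul k, map_smul] at h1
    exact smul_right_injective V (cast_ne hH _) h1

end Cfsg.Agent.S4177
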