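import Cfsg.Statements.S4176
import Cfsg.Agent.S4177
import Cfsg.Agent.Solv.Hall

set_option autoImplicit false
open Cfsg

namespace Cfsg.Agent.S4176

/-- Let k be a field of prime characteristic p, H a finite p-soluble group and ρ a k-linear representation of H on V. Let a be a vector that is fixed by some Sylow p-subgroup of H and whose H-orbit spans V. Then the space of H-fixed vectors has dimension at most 1, and every vector b whose H-orbit has size coprime to the size of the orbit of a is fixed by H. -/
theorem result {k V H : Type*} [Field k] (p : ℕ) [Fact p.Prime] [CharP k p] [AddCommGroup V] [Module k V]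
    [Group H] [Finite H] (hsol : Cfsg.IsPSolvable p H) (ρ : Representation k H V) (a : V)
    (hfix : ∃ P : Sylow p H, ∀ x : H, x ∈ (P : Subgroup H) → ρ x a = a)
    (hspan : Submodule.span k {u : V | ∃ h : H, ρ h a = u} = ⊤) :
    Module.finrank k ρ.invariants ≤ 1 ∧
    ∀ b : V, (Nat.card {u : V | ∃ h : H, ρ h a = u}).Coprime (Nat.card {u : V | ∃ h : H, ρ h b = u}) → ∀ h : H, ρ h b = b := by
  classical
  have := Fintype.ofFinite H
  obtain ⟨P, hP⟩ := hfix
  have hp : p.Prime := Fact.out
  have hok := Solv.HallOK.of_isPSolvable' hsol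
  have hchar : ringChar k = p := ringChar.eq k p
  have hcompl : ∀ L : Subgroup H, IsPiHall {p}ᶜ L → L.IsComplement' (P : Subgroup H) := fun L hL => by
    refine Subgroup.isComplement'_of_coprime ?_ ?_
    · rw [P.card_eq_multiplicity, ← (Solv.isPiHall_compl_singleton_iff_index hp).1 hL, L.card_mul_index]
    · rw [P.card_eq_multiplicity]
      exact ((Solv.isPiHall_compl_singleton_iff hp).1 hL).1.pow_right _
  have horb : ∀ L : Subgroup H, IsPiHall {p}ᶜ L →
      {u : V | ∃ h : L, (ρ.comp L.subtype) h a = u} = {u : V | ∃ h : H, ρ h a = u} := fun L hL => by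
    ext u
    refine ⟨fun ⟨h, hh⟩ => ⟨h, hh⟩, ?_⟩
    rintro ⟨h, rfl⟩
    obtain ⟨⟨x, y⟩, rfl⟩ := (hcompl L hL).2 h
    exact ⟨x, by simp [hP y y.2]⟩
  have hL0 : ∀ L : Subgroup H, IsPiHall {p}ᶜ L → ¬ ringChar k ∣ Nat.card L := fun L hL => by
    rw [hchar]
    exact hp.coprime_iff_not_dvd.1 ((Solv.isPiHall_compl_singleton_iff hp).1 hL).1.symm
  have key : ∀ L : Subgroup H, IsPiHall {p}ᶜ L → ∃ s : V, (∀ g, ρ g s = s) ∧
      ∀ v, (∀ y : L, ρ y v = v) → v ∈ k ∙ s := fun L hL => by
    have hc := hcompl L hL
    refine ⟨∑ y : L, ρ y a, fun g => ?_, fun v hv => ?_⟩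
    · choose σ hσ using fun y : L => hc.2 (g * y)
      have hinj : Function.Injective fun y => ((σ y).1 : L) := fun y z hyz => by
        have h1 : ((σ y).1 : H) = (σ z).1 := congrArg Subtype.val hyz
        have h2 : (y : H)⁻¹ * z = ((σ y).2 : H)⁻¹ * (σ z).2 := by
          calc (y : H)⁻¹ * z = (g * y)⁻¹ * (g * z) := by group
            _ = _ := by
              rw [← hσ y, ← hσ z]
              simp only
              rw [h1]; group
        have h3 := Subgroup.disjoint_def.1 hc.disjoint (L.mul_mem (L.inv_mem y.2) z.2)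
          (h2 ▸ (P : Subgroup H).mul_mem ((P : Subgroup H).inv_mem (σ y).2.2) (σ z).2.2)
        exact Subtype.ext (inv_mul_eq_one.1 h3)
      rw [map_sum]
      refine Fintype.sum_bijective _ (Finite.injective_iff_bijective.1 hinj) _ _ fun y => ?_
      rw [← Module.End.mul_apply, ← map_mul, ← hσ y]
      simp [hP _ (σ y).2.2]
    · have h1 : ∀ v, ∑ y : L, ρ y v ∈ k ∙ ∑ y : L, ρ y a := fun v => by
        induction (((horb L hL).symm ▸ hspan) ▸ Submodule.mem_top : v ∈ Submodule.span k
          {u : V | ∃ h : L, (ρ.comp L.subtype) h a = u}) using Submodule.span_induction with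
        | mem _ h =>
          obtain ⟨h, rfl⟩ := h
          rw [Fintype.sum_equiv (Equiv.mulRight h) (fun y : L => ρ y ((ρ.comp L.subtype) h a))
            (fun y : L => ρ y a) fun x => by simp]
          exact Submodule.mem_span_singleton_self _
        | zero => simp
        | add x y _ _ hx hy => simpa only [map_add, Finset.sum_add_distrib] using add_mem hx hy
        | smul c x _ hx =>
          simpa only [map_smul, ← Finset.smul_sum] using Submodule.smul_mem _ c hx
      have h2 := h1 v
      simp only [hv _, Finset.sum_const, Finset.card_univ, ← Nat.card_eq_fintype_card,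
        ← Nat.cast_smul_eq_nsmul k] at h2
      exact (Submodule.smul_mem_iff _ (by rw [Ne, ringChar.spec]; exact hL0 L hL)).1 h2
  constructor
  · obtain ⟨L, hL⟩ := hok.exists_hall
    obtain ⟨s, -, hs⟩ := key L hL
    refine (Submodule.finrank_mono (t := k ∙ s) fun v hv => hs v fun y => ?_).trans
      (finrank_span_le_card _ |>.trans (by simp))
    exact hv y
  · intro b hb h
    let _ : MulAction H V :=
      { smul := fun h v => ρ h v
        one_smul := fun v => by
          show ρ 1 v = v
          simp
        mul_smul := fun g h v => by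
          show ρ (g * h) v = ρ g (ρ h v)
          simp }
    let B := MulAction.stabilizer H b
    obtain ⟨M, hM⟩ := (hok.subgroup B).exists_hallOf
    obtain ⟨hMB, hM1, hM2⟩ := Solv.isPiHallOf_iff.1 hM
    obtain ⟨L, hL, hML⟩ := hok.exists_hall_ge hM1
    obtain ⟨s, hs1, hs⟩ := key L hL
    have h1 := (S4177.result (hL0 L hL) (ρ.comp L.subtype) a ((horb L hL).symm ▸ hspan)).2 b (by
      rw [horb L hL]
      refine hb.coprime_dvd_right ?_
      have e1 : Nat.card {u : V | ∃ h : L, (ρ.comp L.subtype) h b = u} = B.relIndex L :=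
        (MulAction.index_stabilizer L b).symm
      have e2 : Nat.card {u : V | ∃ h : H, ρ h b = u} = B.index :=
        (MulAction.index_stabilizer H b).symm
      rw [e1, e2]
      refine (Subgroup.relIndex_dvd_of_le_left L hMB).trans ?_
      have h3 : (M.relIndex L).Coprime (M.relIndex B) :=
        ((Solv.isPiHall_iff.1 hL).1.of_dvd (M.relIndex_dvd_card L)).coprime hM2
      refine h3.dvd_of_dvd_mul_left ?_
      rw [Subgroup.relIndex_mul_index hMB]
      exact Subgroup.relIndex_dvd_index_of_le hML)
    obtain ⟨c, rfl⟩ := Submodule.mem_span_singleton.1 (hs b h1)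
    rw [map_smul, hs1]

end Cfsg.Agent.S4176
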