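import Cfsg.Statements.S4178
import Mathlib.LinearAlgebra.Quotient.Card

set_option autoImplicit false
open Cfsg

namespace Cfsg.Agent.S4178

theorem aux {H Ω : Type*} [Group H] [Finite Ω] (R : Subgroup H) (f : H → Ω) (x₀ : Ω)
    (h0 : ∀ h, f h ≠ x₀) (hf : ∀ a b, f a = f b → a⁻¹ * b ∈ R) : R.index + 1 ≤ Nat.card Ω := by
  have h1 : Function.Injective fun q : H ⧸ R => f q.out := fun q r h => by
    rw [← q.out_eq', ← r.out_eq']
    exact QuotientGroup.eq.2 (hf _ _ h)
  have : Finite (H ⧸ R) := Finite.of_injective _ h1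
  rw [Subgroup.index, ← Finite.card_option]
  refine Nat.card_le_card_of_injective (fun o => o.elim x₀ fun q => f q.out) ?_
  rintro (_ | q) (_ | r) h
  · rfl
  · exact absurd h.symm (h0 _)
  · exact absurd h (h0 _)
  · exact congrArg some (h1 h)

/-- Let F be a finite field with q elements, V a non-zero finite-dimensional F-space of dimension d, H a group of invertible linear maps of V, and R the subgroup of H generated by the elements of H that fix some non-zero vector (have eigenvalue 1). Then the index of R in H is at most q^d − 1; and if H leaves invariant some proper non-zero subspace, the index is at most q^(d/2) − 1. -/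
theorem result {F V : Type*} [Field F] [Fintype F] [AddCommGroup V] [Module F V] [FiniteDimensional F V] [Nontrivial V]
    (H : Subgroup (V ≃ₗ[F] V)) :
    (Subgroup.closure {h : ↥H | ∃ v : V, v ≠ 0 ∧ (h : V ≃ₗ[F] V) v = v}).index ≤ Fintype.card F ^ Module.finrank F V - 1 ∧
    ((∃ W : Submodule F V, W ≠ ⊥ ∧ W ≠ ⊤ ∧ ∀ h ∈ H, ∀ w ∈ W, h w ∈ W) →
      ((Subgroup.closure {h : ↥H | ∃ v : V, v ≠ 0 ∧ (h : V ≃ₗ[F] V) v = v}).index : ℝ) ≤ Real.sqrt ((Fintype.card F : ℝ) ^ Module.finrank F V) - 1) := by
  have : Finite V := Module.finite_of_finite F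
  have hV : Nat.card V = Fintype.card F ^ Module.finrank F V := by
    rw [Module.natCard_eq_pow_finrank (K := F), Nat.card_eq_fintype_card]
  set R := Subgroup.closure {h : ↥H | ∃ v : V, v ≠ 0 ∧ (h : V ≃ₗ[F] V) v = v}
  have key : ∀ W : Submodule F V, W ≠ ⊥ → (∀ h ∈ H, ∀ w ∈ W, h w ∈ W) → R.index + 1 ≤ Nat.card W := by
    intro W hW hH
    obtain ⟨v, hv, hv0⟩ := W.exists_mem_ne_zero_of_ne_bot hW
    refine aux R (fun h => (⟨(h : V ≃ₗ[F] V) v, hH _ h.2 v hv⟩ : W)) 0
      (fun h hh => hv0 (by simpa using hh)) fun a b hab => Subgroup.subset_closure ⟨v, hv0, ?_⟩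
    have : (a : V ≃ₗ[F] V) v = (b : V ≃ₗ[F] V) v := congrArg Subtype.val hab
    simp [← this]
  constructor
  · have := key ⊤ top_ne_bot fun _ _ _ _ => trivial
    rw [Nat.card_congr Submodule.topEquiv.toEquiv, hV] at this
    omega
  · rintro ⟨W, hW0, hW1, hH⟩
    have h1 := key W hW0 hH
    have : Finite (V ⧸ W) := Finite.of_surjective _ W.mkQ_surjective
    obtain ⟨v, hv⟩ : ∃ v, v ∉ W := by
      by_contra h
      push Not at h
      exact hW1 (eq_top_iff.2 fun v _ => h v)
    have h2 : R.index + 1 ≤ Nat.card (V ⧸ W) := by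
      refine aux R (fun h => W.mkQ ((h : V ≃ₗ[F] V) v)) 0 (fun h hh => hv ?_) fun a b hab => ?_
      · simpa using hH _ (H.inv_mem h.2) _ ((Submodule.Quotient.mk_eq_zero W).1 hh)
      · by_contra hR
        set c : V ≃ₗ[F] V := ((a⁻¹ * b : H) : V ≃ₗ[F] V) with hc
        have hcH : c ∈ H := (a⁻¹ * b).2
        have h3 : ∀ x, c x = x → x = 0 := fun x hx => by
          by_contra hx0
          exact hR (Subgroup.subset_closure ⟨x, hx0, hx⟩)
        have h4 : c v - v ∈ W := by
          have := hH _ (H.inv_mem a.2) _ ((Submodule.Quotient.eq W).1 hab.symm)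
          simpa [hc] using this
        let g : W → W := fun w => ⟨c w - w, W.sub_mem (hH _ hcH _ w.2) w.2⟩
        have hg : Function.Injective g := fun x y hxy => by
          have h5 : c x - x = c y - y := congrArg Subtype.val hxy
          refine Subtype.ext (sub_eq_zero.1 (h3 _ ?_))
          rw [map_sub, sub_eq_sub_iff_sub_eq_sub, h5]
        obtain ⟨w, hw⟩ := Finite.injective_iff_surjective.1 hg ⟨_, h4⟩
        have h5 : c w - w = c v - v := congrArg Subtype.val hw
        refine hv (sub_eq_zero.1 (h3 (w - v) ?_) ▸ w.2)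
        rw [map_sub, sub_eq_sub_iff_sub_eq_sub, h5]
    have h3 : (R.index + 1) ^ 2 ≤ Fintype.card F ^ Module.finrank F V := by
      rw [← hV, Submodule.card_eq_card_quotient_mul_card W, sq]
      exact Nat.mul_le_mul h1 h2
    rw [le_sub_iff_add_le]
    refine Real.le_sqrt_of_sq_le ?_
    exact_mod_cast h3

end Cfsg.Agent.S4178
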