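import Cfsg.Statements.S4182

set_option autoImplicit false
open Cfsg

namespace Cfsg.Agent.S4182

open Subgroup MulAction
open scoped Pointwise Classical

theorem le_index {P : Type*} [Group P] [Finite P] {p : ℕ} [Fact p.Prime] (hP : IsPGroup p P) {K : Subgroup P}
    (hK : K ≠ ⊤) : p ≤ K.index := by
  obtain ⟨n, hn⟩ := hP.index K
  rw [hn]
  exact Nat.le_self_pow (fun e => hK (index_eq_one.1 (by rw [hn, e, pow_zero]))) p

theorem conj {G : Type*} [Group G] [Finite G] {p : ℕ} [Fact p.Prime] {P Q : Sylow p G} {H : Subgroup G}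
    (hP : P ≤ H) (hQ : Q ≤ H) : ∃ h ∈ H, h • P = Q := by
  obtain ⟨h, hh⟩ := exists_smul_eq H (P.subtype hP) (Q.subtype hQ)
  rw [Sylow.smul_subtype] at hh
  exact ⟨h, h.2, Sylow.subtype_injective hh⟩

theorem avoid {G : Type*} [Group G] [Finite G] (p : ℕ) [Fact p.Prime]
    (hgen : closure {g : G | ∃ k : ℕ, orderOf g = p ^ k} = ⊤) {ι : Type*} (K : ι → Subgroup G) (hK : ∀ i, K i ≠ ⊤)
    (s : Finset ι) (hs : s.card ≤ p) : ∃ P : Sylow p G, ∀ i ∈ s, ¬ (P : Subgroup G) ≤ K i := by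
  induction s using Finset.induction_on with
  | empty => exact ⟨default, by simp⟩
  | insert j s hj ih =>
  rw [Finset.card_insert_of_notMem hj] at hs
  obtain ⟨P, hP⟩ := ih (by omega)
  by_contra hn
  push Not at hn
  have hPj : (P : Subgroup G) ≤ K j := by
    obtain ⟨i, hi, e⟩ := hn P
    rcases Finset.mem_insert.1 hi with rfl | hi
    exacts [e, absurd e (hP i hi)]
  obtain ⟨L, ⟨hPL, R, hRL, hRj⟩, hmin⟩ := (wellFounded_lt (α := Subgroup G)).has_min
    {L | (P : Subgroup G) ≤ L ∧ ∃ R : Sylow p G, (R : Subgroup G) ≤ L ∧ ¬ (R : Subgroup G) ≤ K j} ⟨⊤, le_top, by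
      by_contra hh
      push Not at hh
      refine hK j (top_le_iff.1 (hgen ▸ (closure_le _).2 fun g ⟨k, hk⟩ => ?_))
      obtain ⟨Q, hQ⟩ := (IsPGroup.of_card (p := p) (G := zpowers g) (n := k)
        (by rw [Nat.card_zpowers, hk])).exists_le_sylow
      exact hh Q le_top (hQ (mem_zpowers g))⟩
  let r : Sylow p G → Sylow p G → Prop := fun A B => (A : Subgroup G) ⊔ B ≠ L
  have hle : ∀ l ∈ L, ∀ A : Sylow p G, (A : Subgroup G) ≤ L → ((l • A : Sylow p G) : Subgroup G) ≤ L :=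
    fun l hl A hA => Sylow.smul_le hA ⟨l, hl⟩
  have rs : ∀ A B, r A B → r B A := fun A B h => by simpa only [r, sup_comm] using h
  have ri : ∀ l ∈ L, ∀ A B, r A B → r (l • A) (l • B) := fun l hl A B h e => h (by
    rw [Sylow.coe_subgroup_smul, Sylow.coe_subgroup_smul, ← smul_sup] at e
    rw [← smul_left_cancel_iff (MulAut.conj l), e]
    exact (conj_smul_eq_self_of_mem hl).symm)
  have r0 : ∀ A : Sylow p G, (A : Subgroup G) ≤ L → r P A → (A : Subgroup G) ≤ K j := fun A hA h => by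
    by_contra e
    exact hmin _ ⟨le_sup_left, A, le_sup_right, e⟩ (lt_of_le_of_ne (sup_le hPL hA) h)
  have rt : ∀ A B C : Sylow p G, (A : Subgroup G) ≤ L → (B : Subgroup G) ≤ L → (C : Subgroup G) ≤ L →
      r A B → r A C → r B C := fun A B C hA hB hC h1 h2 => by
    obtain ⟨l, hl, rfl⟩ := conj hPL hA
    have h3 := r0 _ (hle _ (inv_mem hl) B hB) (by simpa using ri _ (inv_mem hl) _ _ h1)
    have h4 := r0 _ (hle _ (inv_mem hl) C hC) (by simpa using ri _ (inv_mem hl) _ _ h2)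
    have h5 : r (l⁻¹ • B) (l⁻¹ • C) := fun e => hRj (hRL.trans (e ▸ sup_le h3 h4))
    simpa using ri l hl _ _ h5
  have rR : r R R := fun e => hRj (by
    rw [sup_idem] at e
    rw [P.is_maximal' R.isPGroup' (e ▸ hPL)]; exact hPj)
  let N : Subgroup G :=
    { carrier := {g | g ∈ L ∧ r (g • R) R}
      one_mem' := ⟨one_mem _, by rwa [one_smul]⟩
      mul_mem' := fun {a b} ha hb => ⟨mul_mem ha.1 hb.1, rt (a • R) _ _ (hle _ ha.1 _ hRL)
        (hle _ (mul_mem ha.1 hb.1) _ hRL) hRL (by rw [mul_smul]; exact rs _ _ (ri a ha.1 _ _ hb.2)) ha.2⟩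
      inv_mem' := fun {a} ha => ⟨inv_mem ha.1, rs _ _ (by simpa using ri _ (inv_mem ha.1) _ _ ha.2)⟩ }
  have hN : N.subgroupOf P ≠ ⊤ := fun e => by
    obtain ⟨n, hn, e1⟩ := conj (P := R) (Q := P) (H := N) (fun g hg => ⟨hRL hg, by
      rwa [Sylow.smul_eq_iff_mem_normalizer.2 (le_normalizer hg)]⟩) (subgroupOf_eq_top.1 e)
    exact hRj (r0 R hRL (e1 ▸ hn.2))
  have hx : ∀ x : P, ∃ i ∈ s, (((x : G) • R : Sylow p G) : Subgroup G) ≤ K i := fun x => by
    obtain ⟨i, hi, e⟩ := hn ((x : G) • R)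
    rcases Finset.mem_insert.1 hi with rfl | hi
    · exact absurd (by simpa using Sylow.smul_le e ⟨(x : G)⁻¹, inv_mem (hPj x.2)⟩) hRj
    · exact ⟨i, hi, e⟩
  choose f hf hf' using hx
  haveI := Fintype.ofFinite (P ⧸ N.subgroupOf P)
  have := Finset.card_le_card_of_injOn (s := Finset.univ) (t := s) (fun c : P ⧸ N.subgroupOf P => f c.out)
    (fun c _ => hf _) fun c _ d _ e => by
      rw [← c.out_eq', ← d.out_eq', QuotientGroup.eq, mem_subgroupOf]
      refine ⟨hPL (c.out⁻¹ * d.out).2, ?_⟩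
      have h1 : r ((d.out : G) • R) ((c.out : G) • R) := fun e1 =>
        hP _ (hf c.out) (hPL.trans (e1 ▸ sup_le (by simpa only [e] using hf' d.out) (hf' c.out)))
      simpa [mul_smul] using ri _ (inv_mem (hPL c.out.2)) _ _ h1
  have h2 := le_index P.isPGroup' hN
  rw [Finset.card_univ, ← Nat.card_eq_fintype_card, ← index] at this
  omega

/-- Let p be a prime and G a finite group generated by its p-elements. If a finite family of proper subgroups of G covers the set of p-elements of G (every element of p-power order lies in one of them), then the family has at least p + 1 members. -/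
theorem result {G : Type*} [Group G] [Finite G] (p : ℕ) [Fact p.Prime] (hgen : Subgroup.closure {g : G | ∃ k : ℕ, orderOf g = p ^ k} = ⊤)
    {ι : Type*} [Fintype ι] (K : ι → Subgroup G) (hK : ∀ i, K i ≠ ⊤)
    (hcov : ∀ g : G, (∃ k : ℕ, orderOf g = p ^ k) → ∃ i, g ∈ K i) :
    p + 1 ≤ Fintype.card ι := by
  by_contra h
  obtain ⟨P, hP⟩ := avoid p hgen K hK Finset.univ (by rw [Finset.card_univ]; omega)
  have hc : ⋃ i ∈ (Finset.univ : Finset ι), (fun _ => (1 : P)) i • (((K i).subgroupOf P : Subgroup P) : Set P) =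
      Set.univ := Set.eq_univ_of_forall fun x => by
    obtain ⟨k, hk⟩ := IsPGroup.iff_orderOf.1 P.isPGroup' x
    obtain ⟨i, hi⟩ := hcov x ⟨k, by rwa [orderOf_coe]⟩
    simpa [mem_subgroupOf] using ⟨i, hi⟩
  have hi : ∀ i, p ≤ ((K i).subgroupOf P).index := fun i =>
    le_index P.isPGroup' fun e => hP i (Finset.mem_univ i) (subgroupOf_eq_top.1 e)
  have hp : (1 : ℚ) < p := by exact_mod_cast (Fact.out : p.Prime).one_lt
  have h1 := one_le_sum_inv_index_of_leftCoset_cover hc
  have h2 : ∑ i : ι, (((K i).subgroupOf P).index : ℚ)⁻¹ ≤ Fintype.card ι * (p : ℚ)⁻¹ := by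
    rw [← nsmul_eq_mul, ← Finset.card_univ]
    exact Finset.sum_le_card_nsmul _ _ _ fun i _ => inv_anti₀ (by linarith) (by exact_mod_cast hi i)
  have h3 : (Fintype.card ι : ℚ) * (p : ℚ)⁻¹ ≤ 1 := by
    rw [mul_inv_le_iff₀ (by linarith), one_mul]; exact_mod_cast (by omega : Fintype.card ι ≤ p)
  have h4 := pairwiseDisjoint_leftCoset_cover_of_sum_inv_index_eq_one hc (by linarith)
  have h5 : 1 < Fintype.card ι := by
    have : (p : ℚ) ≤ Fintype.card ι := by
      have := h1.trans h2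
      rwa [le_mul_inv_iff₀ (by linarith), one_mul] at this
    exact_mod_cast hp.trans_le this
  obtain ⟨i, j, hij⟩ := Fintype.one_lt_card_iff.1 h5
  have h6 := h4 (x := i) (y := j) (by simp; infer_instance) (by simp; infer_instance) hij
  exact Set.disjoint_left.1 h6 (show (1 : P) ∈ _ by simp) (by simp)

end Cfsg.Agent.S4182
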