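import Cfsg.Statements.S4184
import Cfsg.Agent.Gen2.Basic


set_option autoImplicit false
open Cfsg

namespace Cfsg.Agent.S4184

open Subgroup Gen2

theorem types {M : Type*} [Group M] [Finite M] (A : Set ℕ)
    (hA : ∀ a ∈ A, ∀ b ∉ A, a.Prime → b.Prime → a ∣ Nat.card M → b ∣ Nat.card M →
      ¬ ∃ x : M, orderOf x = a * b) {x : M} (hx : x ≠ 1) {r s : ℕ} (hr : r.Prime) (hs : s.Prime)
    (hr' : r ∣ Nat.card (centralizer ({x} : Set M)))
    (hs' : s ∣ Nat.card (centralizer ({x} : Set M))) (hrA : r ∈ A) : s ∈ A := by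
  obtain ⟨y, hy, hyp⟩ := exists_prime_order_mem_zpowers hx
  have key : ∀ t, t.Prime → t ∣ Nat.card (centralizer ({x} : Set M)) → (t ∈ A ↔ orderOf y ∈ A) := by
    intro t ht htd
    obtain ⟨u, hu, hut⟩ := exists_mem_orderOf_eq_prime ht htd
    by_cases hty : t = orderOf y
    · rw [hty]
    have hc : Commute u y := mem_cent.1 (cent_le_cent_of_mem_zpowers hy hu)
    have hco : (orderOf u).Coprime (orderOf y) := by
      rw [hut]; exact (Nat.coprime_primes ht hyp).2 hty
    have ho := hc.orderOf_mul_eq_mul_orderOf_of_coprime hco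
    rw [hut] at ho
    have h1 : t ∣ Nat.card M := hut ▸ orderOf_dvd_natCard u
    have h2 : orderOf y ∣ Nat.card M := orderOf_dvd_natCard y
    constructor
    · intro h
      by_contra h'
      exact hA t h _ h' ht hyp h1 h2 ⟨_, ho⟩
    · intro h
      by_contra h'
      exact hA _ h t h' hyp ht h2 h1 ⟨_, by rw [ho, mul_comm]⟩
  exact (key s hs hs').2 ((key r hr hr').1 hrA)

theorem exists_central {G : Type*} [Group G] [Finite G] {p : ℕ} [Fact p.Prime] {P : Subgroup G}
    (hP : IsPGroup p P) (hne : P ≠ ⊥) :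
    ∃ z ∈ P, z ≠ 1 ∧ P ≤ centralizer ({z} : Set G) := by
  have : Nontrivial P := (nontrivial_iff_ne_bot P).2 hne
  have := hP.center_nontrivial
  obtain ⟨⟨z, hz⟩, hz1⟩ := exists_ne (1 : center P)
  refine ⟨z, z.2, fun h => hz1 (Subtype.ext (Subtype.ext h)), fun y hy => mem_cent.2 ?_⟩
  exact congrArg Subtype.val (mem_center_iff.1 hz ⟨y, hy⟩)

theorem main {G M : Type*}
    [Group G] [Finite G] [Group M] [Finite M] (hZG : Subgroup.center G = ⊥)
    (h : Set.range (fun g : G => (Subgroup.centralizer ({g} : Set G)).index) = Set.range (fun g : M => (Subgroup.centralizer ({g} : Set M)).index))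
    (A : Set ℕ)
    (hty : ∀ x : M, x ≠ 1 → ∀ r s : ℕ, r.Prime → s.Prime → r ∣ Nat.card (centralizer ({x} : Set M)) →
      s ∣ Nat.card (centralizer ({x} : Set M)) → (r ∈ A ↔ s ∈ A))
    {p q : ℕ} (hp : p.Prime) (hq : q.Prime) (hpM : p ∣ Nat.card M) (hqM : q ∣ Nat.card M)
    (hqG : q ∣ Nat.card G)
    (hpA : p ∈ A) (hqA : q ∉ A) : (Nat.card G).factorization p ≤ (Nat.card M).factorization p := by
  have := Fact.mk hp
  have := Fact.mk hq
  have hpq : p ≠ q := fun e => hqA (e ▸ hpA)
  have hG0 : Nat.card G ≠ 0 := Nat.card_pos.ne'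
  have hM0 : Nat.card M ≠ 0 := Nat.card_pos.ne'
  -- every nonidentity element of `G` has a partner in `M`
  have partner : ∀ y : G, y ≠ 1 → ∃ x : M, x ≠ 1 ∧
      (centralizer ({x} : Set M)).index = (centralizer ({y} : Set G)).index := by
    intro y hy
    have : (centralizer ({y} : Set G)).index ∈
        Set.range (fun g : M => (Subgroup.centralizer ({g} : Set M)).index) := h ▸ ⟨y, rfl⟩
    obtain ⟨x, hx⟩ := this
    refine ⟨x, ?_, hx⟩
    rintro rfl
    simp only [cs_one] at hx
    have := cs_eq_one_iff.1 hx.symm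
    rw [hZG] at this
    exact hy this
  obtain ⟨Q⟩ : Nonempty (Sylow q G) := inferInstance
  obtain ⟨z, hzQ, hz1, hQz⟩ := exists_central Q.isPGroup' (Q.ne_bot_of_dvd_card hqG)
  obtain ⟨xz, hxz1, hxz⟩ := partner z hz1
  have hqz : q ∣ Nat.card (centralizer ({xz} : Set M)) := by
    have h1 := not_dvd_index_of_sylow_le Q hQz
    rw [← (centralizer ({xz} : Set M)).index_mul_card, hxz] at hqM
    exact ((Nat.Prime.dvd_mul hq).1 hqM).resolve_left h1
  -- centraliser orders in `M` are determined by class sizes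
  have dvdc : ∀ x x' : M, (centralizer ({x} : Set M)).index ∣ (centralizer ({x'} : Set M)).index →
      Nat.card (centralizer ({x'} : Set M)) ∣ Nat.card (centralizer ({x} : Set M)) := by
    intro x x' ⟨c, hc⟩
    refine ⟨c, Nat.eq_of_mul_eq_mul_left (cs_pos x) ?_⟩
    rw [index_mul_card, ← (centralizer ({x'} : Set M)).index_mul_card, hc]; ring
  -- elements `y` of `p`-power order centralising `z` (also `y = 1` replaced by `z`)
  have hfull : ∀ y : G, y ≠ 1 → ∀ x : M, x ≠ 1 →
      (centralizer ({x} : Set M)).index = (centralizer ({y} : Set G)).index →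
      ¬ p ∣ Nat.card (centralizer ({x} : Set M)) →
      (Nat.card (centralizer ({y} : Set G))).factorization p + (Nat.card M).factorization p =
        (Nat.card G).factorization p := by
    intro y _ x _ hxy hpx
    rw [← (centralizer ({x} : Set M)).index_mul_card, ← (centralizer ({y} : Set G)).index_mul_card,
      Nat.factorization_mul (cs_ne_zero _) Nat.card_pos.ne',
      Nat.factorization_mul (cs_ne_zero _) Nat.card_pos.ne', hxy]
    simp only [Finsupp.add_apply, Nat.factorization_eq_zero_of_not_dvd hpx]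
    ring
  have hpz : ¬ p ∣ Nat.card (centralizer ({xz} : Set M)) :=
    fun hd => hqA ((hty xz hxz1 p q hp hq hd hqz).1 hpA)
  have key : ∀ y : G, y ≠ 1 → (∃ k, orderOf y = p ^ k) → y ∈ centralizer ({z} : Set G) →
      ∃ x : M, x ≠ 1 ∧ (centralizer ({x} : Set M)).index = (centralizer ({y} : Set G)).index ∧
        ¬ p ∣ Nat.card (centralizer ({x} : Set M)) := by
    intro y hy1 ⟨k, hk⟩ hyz
    obtain ⟨j, hj⟩ := pElt_of_mem Q.isPGroup' hzQ
    have hc : Commute y z := mem_cent.1 hyz
    have hco : (orderOf y).Coprime (orderOf z) := by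
      rw [hk, hj]; exact Nat.coprime_pow_primes _ _ hp hq hpq
    have hyz1 : y * z ≠ 1 := by
      intro h1
      have := mem_zpowers_mul_left hc hco
      rw [h1, zpowers_one_eq_bot, mem_bot] at this
      exact hy1 this
    obtain ⟨x, hx1, hx⟩ := partner y hy1
    obtain ⟨x', hx1', hx'⟩ := partner _ hyz1
    refine ⟨x, hx1, hx, fun hd => ?_⟩
    have h1 := dvdc x x' (by rw [hx, hx']; exact cs_dvd_cs_mul_left hc hco)
    have h2 := dvdc xz x' (by rw [hxz, hx']; exact cs_dvd_cs_mul_right hc hco)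
    have h3 : Nat.card (centralizer ({x'} : Set M)) ≠ 1 := by
      rw [Ne, card_eq_one]
      intro hb
      have := self_mem_cent x'
      rw [hb] at this
      exact hx1' this
    have hr := Nat.minFac_prime h3
    have hr1 := (hty x hx1 p _ hp hr hd ((Nat.minFac_dvd _).trans h1)).1 hpA
    exact hqA ((hty xz hxz1 _ q hr hq ((Nat.minFac_dvd _).trans h2) hqz).1 hr1)
  by_contra hlt
  push Not at hlt
  have hz := hfull z hz1 xz hxz1 hxz hpz
  obtain ⟨P0⟩ : Nonempty (Sylow p (centralizer ({z} : Set G))) := inferInstance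
  set R : Subgroup G := (P0 : Subgroup (centralizer ({z} : Set G))).map (Subgroup.subtype _) with hR
  have hRp : IsPGroup p R := P0.isPGroup'.map _
  have hRz : R ≤ centralizer ({z} : Set G) := map_subtype_le _
  have hRc : Nat.card R = p ^ (Nat.card (centralizer ({z} : Set G))).factorization p := by
    rw [hR, card_map_of_injective (subtype_injective _), P0.card_eq_multiplicity]
  have hR1 : R ≠ ⊥ := by
    rw [Ne, ← card_eq_one, hRc]
    intro h1
    rcases (Nat.pow_eq_one).1 h1 with h2 | h2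
    · exact hp.ne_one h2
    · omega
  obtain ⟨y, hyR, hy1, hRy⟩ := exists_central hRp hR1
  obtain ⟨P, hP⟩ := hRp.exists_le_sylow
  obtain ⟨w, hwP, hw1, hPw⟩ := exists_central P.isPGroup' (fun hb => hR1 (le_bot_iff.1 (hb ▸ hP)))
  obtain ⟨x, hx1, hx, hpx⟩ := key y hy1 (pElt_of_mem hRp hyR) (hRz hyR)
  have hy := hfull y hy1 x hx1 hx hpx
  have hS : IsPGroup p ((P : Subgroup G) ⊓ centralizer ({y} : Set G) : Subgroup G) :=
    P.isPGroup'.to_inf_left
  have hRS : R ≤ (P : Subgroup G) ⊓ centralizer ({y} : Set G) := le_inf hP hRy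
  have hSR : (P : Subgroup G) ⊓ centralizer ({y} : Set G) = R := by
    symm
    apply eq_of_le_of_card_ge hRS
    obtain ⟨n, hn⟩ := IsPGroup.iff_card.1 hS
    have hd := card_dvd_of_le (inf_le_right : (P : Subgroup G) ⊓ centralizer ({y} : Set G) ≤ _)
    rw [hn] at hd ⊢
    rw [hRc]
    apply Nat.pow_le_pow_right hp.pos
    have := (hp.pow_dvd_iff_le_factorization Nat.card_pos.ne').1 hd
    omega
  have hwR : w ∈ R := hSR ▸ ⟨hwP, mem_cent_comm.1 (hPw (hP hyR))⟩
  obtain ⟨x', -, hx', hpx'⟩ := key w hw1 (pElt_of_mem hRp hwR) (hRz hwR)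
  rw [← (centralizer ({x'} : Set M)).index_mul_card, hx'] at hpM
  rcases (Nat.Prime.dvd_mul hp).1 hpM with h1 | h1
  · exact not_dvd_index_of_sylow_le P hPw h1
  · exact hpx' h1

/-- Let G and M be finite groups with trivial centres and the same set of conjugacy class sizes, and suppose the prime graph of M is disconnected: the prime divisors of #M split into two non-empty parts such that M has no element of order pq with p in one part and q in the other. Then #G = #M. -/
theorem result {G M : Type*}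
    [Group G] [Finite G] [Group M] [Finite M] (hZG : Subgroup.center G = ⊥) (hZM : Subgroup.center M = ⊥)
    (h : Set.range (fun g : G => (Subgroup.centralizer ({g} : Set G)).index) = Set.range (fun g : M => (Subgroup.centralizer ({g} : Set M)).index))
    (hdisc : ∃ A : Set ℕ, (∃ a ∈ A, a.Prime ∧ a ∣ Nat.card M) ∧ (∃ b ∉ A, b.Prime ∧ b ∣ Nat.card M) ∧
      ∀ a ∈ A, ∀ b ∉ A, a.Prime → b.Prime → a ∣ Nat.card M → b ∣ Nat.card M → ¬ ∃ x : M, orderOf x = a * b) :
    Nat.card G = Nat.card M := by
  obtain ⟨A, ⟨a, haA, ha, haM⟩, ⟨b, hbA, hb, hbM⟩, hA⟩ := hdisc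
  have hty : ∀ x : M, x ≠ 1 → ∀ r s : ℕ, r.Prime → s.Prime →
      r ∣ Nat.card (centralizer ({x} : Set M)) →
      s ∣ Nat.card (centralizer ({x} : Set M)) → (r ∈ A ↔ s ∈ A) :=
    fun x hx r s hr hs hr' hs' => ⟨types A hA hx hr hs hr' hs', types A hA hx hs hr hs' hr'⟩
  have hG0 : Nat.card G ≠ 0 := Nat.card_pos.ne'
  have hM0 : Nat.card M ≠ 0 := Nat.card_pos.ne'
  have hMG : Nat.card M ∣ Nat.card G := by
    rw [← Nat.factorization_prime_le_iff_dvd hM0 hG0]
    intro p hp
    have aux : ∀ q, q.Prime → q ∣ Nat.card M → ¬ (p ∈ A ↔ q ∈ A) →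
        (Nat.card M).factorization p ≤ (Nat.card G).factorization p := by
      intro q hq hqM hpq
      have := Fact.mk hq
      obtain ⟨x, hx⟩ := exists_prime_orderOf_dvd_card' q hqM
      have hx1 : x ≠ 1 := by
        rintro rfl
        exact hq.ne_one (by rw [← hx, orderOf_one])
      have hpx : ¬ p ∣ Nat.card (centralizer ({x} : Set M)) := fun hd =>
        hpq (hty x hx1 p q hp hq hd (hx ▸ Subgroup.orderOf_dvd_natCard _ (self_mem_cent x)))
      have : (centralizer ({x} : Set M)).index ∈
          Set.range (fun g : G => (Subgroup.centralizer ({g} : Set G)).index) := h ▸ ⟨x, rfl⟩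
      obtain ⟨y, hy⟩ := this
      simp only at hy
      rw [← (centralizer ({x} : Set M)).index_mul_card, ← (centralizer ({y} : Set G)).index_mul_card,
        Nat.factorization_mul (cs_ne_zero _) Nat.card_pos.ne',
        Nat.factorization_mul (cs_ne_zero _) Nat.card_pos.ne', hy]
      simp only [Finsupp.add_apply, Nat.factorization_eq_zero_of_not_dvd hpx]
      omega
    by_cases hpA : p ∈ A
    · exact aux b hb hbM (by simp [hpA, hbA])
    · exact aux a ha haM (by simp [hpA, haA])
  apply Nat.dvd_antisymm _ hMG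
  rw [← Nat.factorization_prime_le_iff_dvd hG0 hM0]
  intro p hp
  have := Fact.mk hp
  by_cases hpG : p ∣ Nat.card G
  swap
  · rw [Nat.factorization_eq_zero_of_not_dvd hpG]; exact Nat.zero_le _
  have hpM : p ∣ Nat.card M := by
    by_contra hpM
    obtain ⟨P⟩ : Nonempty (Sylow p G) := inferInstance
    apply P.ne_bot_of_dvd_card hpG
    rw [← le_bot_iff, ← hZG]
    apply sylow_le_center_of_forall_not_dvd_cs
    intro y hy
    have : (centralizer ({y} : Set G)).index ∈
        Set.range (fun g : M => (Subgroup.centralizer ({g} : Set M)).index) := h ▸ ⟨y, rfl⟩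
    obtain ⟨x, hx⟩ := this
    simp only at hx
    exact hpM ((hx ▸ hy).trans (index_dvd_card _))
  by_cases hpA : p ∈ A
  · exact main hZG h A hty hp hb hpM hbM (hbM.trans hMG) hpA hbA
  · refine main hZG h Aᶜ ?_ hp ha hpM haM (haM.trans hMG) hpA (by simpa using haA)
    intro x hx r s hr hs hr' hs'
    simp only [Set.mem_compl_iff, hty x hx r s hr hs hr' hs']

end Cfsg.Agent.S4184
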