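import Cfsg.Statements.S4186


set_option autoImplicit false
open Cfsg

namespace Cfsg.Agent.S4186

/-- Let T and X be subgroups of a group with T a finite 2-group normalizing X but not centralizing it. Then some element of T inverts some non-identity element of X under conjugation. -/
theorem result {G : Type*} [Group G] (T X : Subgroup G) [Finite ↥T] (hT : IsPGroup 2 ↥T) (hTN : T ≤ Subgroup.normalizer (X : Set G)) (hTC : ¬ T ≤ Subgroup.centralizer (X : Set G)) : ∃ t ∈ T, ∃ x ∈ X, x ≠ 1 ∧ t * x * t⁻¹ = x⁻¹ := by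
  obtain ⟨t, ht, htc⟩ := SetLike.not_le_iff_exists.1 hTC
  obtain ⟨k, hk⟩ := hT ⟨t, ht⟩
  have hk' : t ^ 2 ^ k ∈ Subgroup.centralizer (X : Set G) := by
    rw [show t ^ 2 ^ k = 1 from congrArg Subtype.val hk]; exact one_mem _
  have : ∃ s ∈ T, s ∉ Subgroup.centralizer (X : Set G) ∧
      s ^ 2 ∈ Subgroup.centralizer (X : Set G) := by
    clear hk
    induction k with
    | zero => exact absurd (by simpa using hk') htc
    | succ k ih =>
      by_cases h : t ^ 2 ^ k ∈ Subgroup.centralizer (X : Set G)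
      · exact ih h
      · exact ⟨_, pow_mem ht _, h, by rwa [← pow_mul, ← pow_succ]⟩
  obtain ⟨s, hs, h1, h2⟩ := this
  rw [Subgroup.mem_centralizer_iff] at h1
  push Not at h1
  obtain ⟨x, hx, hxs⟩ := h1
  refine ⟨s, hs, x⁻¹ * (s * x * s⁻¹), mul_mem (inv_mem hx)
    (((Subgroup.mem_normalizer_iff.1 (hTN hs)) x).1 hx), fun h => hxs ?_, ?_⟩
  · rw [inv_mul_eq_one, eq_mul_inv_iff_mul_eq] at h
    exact h
  · have := Subgroup.mem_centralizer_iff.1 h2 x hx
    calc s * (x⁻¹ * (s * x * s⁻¹)) * s⁻¹ = s * x⁻¹ * s⁻¹ * (s ^ 2 * x) * (s ^ 2)⁻¹ := by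
          simp only [pow_two]; group
      _ = _ := by rw [← this]; group

end Cfsg.Agent.S4186
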