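import Cfsg.Statements.S4188
import Cfsg.Agent.Low.Imprim
import Cfsg.Agent.BG.S2Abelem

set_option autoImplicit false
open Cfsg

namespace Cfsg.Agent.S4188

open Subgroup Module

/-- the subgroup generated by the squares -/
def Sq (Q : Type*) [Group Q] : Subgroup Q := closure (Set.range fun g : Q => g ^ 2)

lemma sq_mem {Q : Type*} [Group Q] (g : Q) : g ^ 2 ∈ Sq Q := subset_closure ⟨g, rfl⟩

lemma map_Sq_le {Q R : Type*} [Group Q] [Group R] (f : Q →* R) : (Sq Q).map f ≤ Sq R := by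
  rw [Sq, MonoidHom.map_closure, closure_le]
  rintro _ ⟨_, ⟨g, rfl⟩, rfl⟩
  simpa using sq_mem (f g)

instance Sq_normal {Q : Type*} [Group Q] : (Sq Q).Normal :=
  ⟨fun _ h g => map_Sq_le (MulAut.conj g).toMonoidHom ⟨_, h, rfl⟩⟩

lemma map_Sq {Q R : Type*} [Group Q] [Group R] {f : Q →* R} (hf : Function.Surjective f) :
    (Sq Q).map f = Sq R := by
  refine le_antisymm (map_Sq_le f) ((closure_le _).mpr ?_)
  rintro _ ⟨g, rfl⟩
  obtain ⟨g, rfl⟩ := hf g
  exact ⟨g ^ 2, sq_mem g, by simp⟩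

lemma relIndex_le {Q : Type*} [Group Q] [Finite Q] (K : Subgroup Q) :
    (Sq Q).relIndex K ≤ (Sq K).index :=
  Nat.le_of_dvd (Nat.pos_of_ne_zero index_ne_zero_of_finite)
    (index_dvd_of_le (map_le_iff_le_comap.mp (map_Sq_le K.subtype)))

lemma idx_le {Q R : Type*} [Group Q] [Group R] [Finite Q] (f : Q →* R) :
    (Sq Q).index ≤ (Sq f.range).index * (Sq f.ker).index := by
  rw [← relIndex_mul_index (le_sup_left : Sq Q ≤ Sq Q ⊔ f.ker), relIndex_sup_left, mul_comm,
    ← map_Sq f.rangeRestrict_surjective, index_map, MonoidHom.ker_rangeRestrict,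
    MonoidHom.range_eq_top.mpr f.rangeRestrict_surjective, index_top, mul_one]
  exact Nat.mul_le_mul_left _ (relIndex_le _)

lemma idx_two {Q : Type*} [Group Q] [Finite Q] {H : Subgroup Q} (h : H.index = 2) :
    (Sq Q).index ≤ 2 * (Sq H).index := by
  have : Sq Q ≤ H := (closure_le _).mpr (by rintro _ ⟨g, rfl⟩; exact sq_mem_of_index_two h g)
  rw [← relIndex_mul_index this, h, mul_comm]
  exact Nat.mul_le_mul_left _ (relIndex_le _)

universe u v

/-- the inductive statement -/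
def PP (q : ℕ) [Fact q.Prime] (V : Type v) [AddCommGroup V] [Module (ZMod q) V] : Prop :=
  ∀ (Q : Type u) [Group Q] [Finite Q], IsPGroup 2 Q → ∀ ρ : Q →* (V ≃ₗ[ZMod q] V),
    Function.Injective ρ → 2 * (Sq Q).index ≤ Nat.card V ∨ (Nat.card V = 3 ∧ Nat.card Q ≤ 2)

lemma split {q : ℕ} [Fact q.Prime] (hq : q ≠ 2) {V : Type v} [AddCommGroup V] [Module (ZMod q) V]
    (W : Submodule (ZMod q) V) (h1 : PP.{u} q W) (h2 : PP.{u} q (V ⧸ W))
    (Q : Type u) [Group Q] [Finite Q] (hQ : IsPGroup 2 Q) (ρ : Q →* (V ≃ₗ[ZMod q] V))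
    (hρ : Function.Injective ρ) (hW : ∀ g, ∀ w ∈ W, ρ g w ∈ W) :
    ∃ f1 f2 c1 c2 : ℕ, (Sq Q).index ≤ f1 * f2 ∧ Nat.card Q = c1 * c2 ∧ f1 ≤ c1 ∧ f2 ≤ c2 ∧
      (2 * f1 ≤ Nat.card W ∨ (Nat.card W = 3 ∧ c1 ≤ 2)) ∧
      (2 * f2 ≤ Nat.card (V ⧸ W) ∨ (Nat.card (V ⧸ W) = 3 ∧ c2 ≤ 2)) := by
  let σ : Representation (ZMod q) Q V := LinearEquiv.automorphismGroup.toLinearMapMonoidHom.comp ρ
  let ρ1 : Q →* (W ≃ₗ[ZMod q] W) := (LinearMap.GeneralLinearGroup.generalLinearEquiv _ _).toMonoidHom.comp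
    (σ.subrepresentation W fun g w hw => hW g w hw).asGroupHom
  let ρ2 : Q →* ((V ⧸ W) ≃ₗ[ZMod q] (V ⧸ W)) :=
    (LinearMap.GeneralLinearGroup.generalLinearEquiv _ _).toMonoidHom.comp
      (σ.quotient W fun g w hw => hW g w hw).asGroupHom
  have e1 : ∀ g (w : W), (ρ1 g w).1 = ρ g w := fun _ _ => rfl
  have e2 : ∀ g (v : V), ρ2 g (W.mkQ v) = W.mkQ (ρ g v) := fun _ _ => rfl
  let π := QuotientGroup.mk' ρ1.ker
  have hπ := QuotientGroup.mk'_surjective ρ1.ker
  have a1 := h1 (Q ⧸ ρ1.ker) (hQ.to_quotient _) _ (QuotientGroup.kerLift_injective ρ1)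
  have a2 := h2 ρ1.ker (hQ.to_subgroup _) (ρ2.comp ρ1.ker.subtype) (by
    rw [injective_iff_map_eq_one]
    rintro ⟨g, hg⟩ h
    have b1 : ∀ w ∈ W, ρ g w = w := fun w hw => by
      rw [← e1 g ⟨w, hw⟩, MonoidHom.mem_ker.mp hg]; rfl
    have b2 : ∀ v, ρ g v - v ∈ W := fun v => by
      rw [← Submodule.Quotient.eq]
      exact (e2 g v).symm.trans (congrArg (fun f : (V ⧸ W) ≃ₗ[ZMod q] (V ⧸ W) => f (W.mkQ v)) h)
    have b3 : ∀ (k : ℕ) v, ρ (g ^ k) v = v + k • (ρ g v - v) := fun k v => by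
      induction k with
      | zero => simp
      | succ k ih =>
        rw [pow_succ', map_mul, LinearEquiv.mul_apply, ih, map_add, map_nsmul, b1 _ (b2 v), succ_nsmul]
        abel
    have b4 : g ^ q = 1 := hρ (by
      rw [map_one]; ext v
      rw [b3, ← Nat.cast_smul_eq_nsmul (ZMod q)]; simp)
    obtain ⟨k, hk⟩ := hQ g
    have b5 : (2 ^ k).Coprime q :=
      ((Nat.coprime_primes Nat.prime_two Fact.out).mpr hq.symm).pow_left k
    exact Subtype.ext (orderOf_eq_one_iff.mp (Nat.eq_one_of_dvd_coprimes b5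
      (orderOf_dvd_of_pow_eq_one hk) (orderOf_dvd_of_pow_eq_one b4))))
  have a3 := idx_le ρ1
  rw [← map_Sq (f := (QuotientGroup.quotientKerEquivRange ρ1).toMonoidHom)
    (QuotientGroup.quotientKerEquivRange ρ1).surjective,
    index_map_of_bijective (f := (QuotientGroup.quotientKerEquivRange ρ1).toMonoidHom)
      (QuotientGroup.quotientKerEquivRange ρ1).bijective] at a3
  exact ⟨_, _, _, _, a3, card_eq_card_quotient_mul_card_subgroup _,
    Nat.le_of_dvd Nat.card_pos (index_dvd_card _), Nat.le_of_dvd Nat.card_pos (index_dvd_card _),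
    a1, a2⟩

lemma main {q : ℕ} [Fact q.Prime] (hq : q ≠ 2) (n : ℕ) : ∀ (V : Type v) [AddCommGroup V]
    [Module (ZMod q) V] [Finite V] [Nontrivial V], Nat.card V = n → PP.{u} q V := by
  induction n using Nat.strong_induction_on with
  | _ n ih =>
  intro V _ _ _ _ hn Q _ _ hQ ρ hρ
  have hq3 : 3 ≤ q := by have := (Fact.out : q.Prime).two_le; omega
  have hsub : ∀ W : Submodule (ZMod q) V, W ≠ ⊥ → W ≠ ⊤ → PP.{u} q W ∧ PP.{u} q (V ⧸ W) := by
    intro W h1 h2
    haveI := Submodule.nontrivial_iff_ne_bot.mpr h1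
    haveI := Submodule.Quotient.nontrivial_iff.mpr h2
    haveI : Finite (V ⧸ W) := Finite.of_surjective _ W.mkQ_surjective
    have h3 := W.card_eq_card_quotient_mul_card
    have h4 : 1 < Nat.card W := Finite.one_lt_card
    have h5 : 1 < Nat.card (V ⧸ W) := Finite.one_lt_card
    exact ⟨ih _ (by nlinarith) _ rfl, ih _ (by nlinarith) _ rfl⟩
  by_cases hirr : ∀ W : Submodule (ZMod q) V, (∀ g : Q, ∀ w ∈ W, ρ g w ∈ W) → W = ⊥ ∨ W = ⊤
  swap
  · push Not at hirr
    obtain ⟨W, hW, h1, h2⟩ := hirr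
    obtain ⟨f1, f2, c1, c2, a1, -, a3, a4, a5, a6⟩ :=
      split hq W (hsub W h1 h2).1 (hsub W h1 h2).2 Q hQ ρ hρ hW
    left
    rw [W.card_eq_card_quotient_mul_card]
    rcases a5 with a5 | ⟨a5, a7⟩ <;> rcases a6 with a6 | ⟨a6, a8⟩ <;> nlinarith
  have hcard := Module.natCard_eq_pow_finrank (K := ZMod q) (V := V)
  rw [Nat.card_zmod] at hcard
  have hpos : 0 < finrank (ZMod q) V := finrank_pos
  by_cases h : ∀ B : Subgroup Q, B.Normal → IsElementaryAbelian 2 B → Nat.card B ≠ 2 ^ 2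
  · rcases PGrp.isCyclic_or_isMC hQ h with h1 | ⟨-, a, x, m, h1⟩
    · by_cases h3 : Nat.card V = 3
      · refine Or.inr ⟨h3, ?_⟩
        obtain ⟨v, hv⟩ := exists_ne (0 : V)
        have hsp : Submodule.span (ZMod q) {v} = ⊤ := by
          apply Submodule.eq_top_of_finrank_eq
          rw [finrank_span_singleton hv]
          by_contra h4
          have := Nat.pow_le_pow_right (n := q) (by omega) (show 2 ≤ finrank (ZMod q) V by omega)
          nlinarith
        have := Nat.card_le_card_of_injective (fun g : Q => (⟨ρ g v, by simpa using hv⟩ : {x : V // x ≠ 0}))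
          fun a b hab => hρ (LinearEquiv.toLinearMap_injective
            (LinearMap.ext_on hsp (by rintro _ rfl; exact congrArg Subtype.val hab)))
        classical
        haveI := Fintype.ofFinite V
        have h5 : Nat.card {x : V // x ≠ 0} = Nat.card V - 1 := by
          simp [Nat.card_eq_fintype_card, Fintype.card_subtype_compl]
        omega
      · left
        obtain ⟨a, ha⟩ := h1.exists_generator
        have h4 : (Sq Q).index ∣ 2 := by
          haveI := isCyclic_of_surjective _ (QuotientGroup.mk'_surjective (Sq Q))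
          rw [index_eq_card, ← IsCyclic.exponent_eq_card]
          refine Monoid.exponent_dvd_of_forall_pow_eq_one fun g => ?_
          obtain ⟨g, rfl⟩ := QuotientGroup.mk_surjective g
          exact (QuotientGroup.eq_one_iff _).mpr (sq_mem g)
        have h5 := Nat.le_of_dvd two_pos h4
        have h6 := Nat.le_self_pow hpos.ne' q
        omega
    · left
      have h4 : (Sq Q).index ≤ 4 := by
        rw [← h1.index_commutator, h1.commutator_eq]
        exact Nat.le_of_dvd (Nat.pos_of_ne_zero index_ne_zero_of_finite)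
          (index_dvd_of_le (zpowers_le.mpr (sq_mem a)))
      have h5 : 2 ≤ finrank (ZMod q) V := by
        by_contra h5
        apply h1.not_comm
        obtain ⟨v, hv⟩ := finrank_le_one_iff.mp (show finrank (ZMod q) V ≤ 1 by omega)
        refine ⟨⟨fun a b => hρ (LinearEquiv.ext fun w => ?_)⟩⟩
        obtain ⟨c, rfl⟩ := hv w
        obtain ⟨d, hd⟩ := hv (ρ a v)
        obtain ⟨e, he⟩ := hv (ρ b v)
        simp only [map_mul, LinearEquiv.mul_apply, map_smul, ← hd, ← he, smul_comm d e]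
      have := Nat.pow_le_pow_right (n := q) (by omega) h5
      nlinarith
  push Not at h
  obtain ⟨B, hN, hB, hc⟩ := h
  obtain ⟨hna, H, W, h1, h2, h3, h4, -, h6⟩ := Low.imprim 2 hQ ρ hρ hirr B hB hc
  obtain ⟨g, hg⟩ : ∃ g, g ∉ H := by
    by_contra h; push Not at h
    rw [(eq_top_iff (a := H)).mpr fun g _ => h g] at h1; simp at h1
  obtain ⟨a, ha, h7⟩ := h6 g hg
  obtain rfl : a = 1 := (by decide : ∀ a : ZMod 2, a ≠ 0 → a = 1) a ha
  have hc1 : Nat.card (W 0) = Nat.card (W 1) := by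
    rw [← zero_add (1 : ZMod 2), ← h7 0]
    exact Nat.card_congr ((ρ g).submoduleMap (W 0)).toEquiv
  have hall : ∀ i : ZMod 2, i = 0 ∨ i = 1 := by decide
  have hco : IsCompl (W 0) (W 1) := by
    constructor
    · exact h3.pairwiseDisjoint (by decide)
    · rw [codisjoint_iff, eq_top_iff, ← h2]
      refine iSup_le fun i => ?_
      rcases hall i with rfl | rfl
      exacts [le_sup_left, le_sup_right]
  have hc2 : Nat.card (V ⧸ W 0) = Nat.card (W 0) := by
    rw [hc1]; exact Nat.card_congr (Submodule.quotientEquivOfIsCompl _ _ hco).toEquiv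
  have hc3 := (W 0).card_eq_card_quotient_mul_card
  rw [hc2] at hc3
  have hV : 1 < Nat.card V := Finite.one_lt_card
  have hW1 : W 0 ≠ ⊥ := by
    intro h; rw [h] at hc3; simp at hc3; omega
  have hW2 : W 0 ≠ ⊤ := by
    intro h
    rw [h, Nat.card_congr Submodule.topEquiv.toEquiv] at hc3; nlinarith
  obtain ⟨f1, f2, c1, c2, a1, a2, a3, a4, a5, a6⟩ :=
    split hq (W 0) (hsub _ hW1 hW2).1 (hsub _ hW1 hW2).2 H (hQ.to_subgroup _) (ρ.comp H.subtype)
      (hρ.comp H.subtype_injective) fun h => h4 h h.2 0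
  have a7 := idx_two h1
  rw [hc2] at a6
  left
  by_cases h9 : Nat.card (W 0) = 3
  · have b1 : Nat.card (Sq Q) ≠ 1 := by
      intro h
      apply hna
      exact PGrp.isMulCommutative_of_sq fun g => mem_bot.mp ((card_eq_one.mp h).le (sq_mem g))
    have b2 : 0 < Nat.card (Sq Q) := Nat.card_pos
    have b3 := (Sq Q).index_mul_card
    have b4 := H.index_mul_card
    rw [h1, a2] at b4
    rw [h9] at a5 a6 hc3
    rcases a5 with a5 | ⟨-, a5⟩ <;> rcases a6 with a6 | ⟨-, a6⟩
    · nlinarith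
    · have : f1 ≤ 1 := by omega
      nlinarith
    · have : f2 ≤ 1 := by omega
      nlinarith
    · have : c1 * c2 ≤ 4 := by nlinarith
      have : (Sq Q).index * 2 ≤ (Sq Q).index * Nat.card (Sq Q) :=
        Nat.mul_le_mul_left _ (by omega)
      omega
  · have := a5.resolve_right fun h => h9 h.1
    have := a6.resolve_right fun h => h9 h.1
    nlinarith

/-- Let G be a finite group that is the semidirect product of a normal abelian subgroup N of odd order by a 2-subgroup P, and suppose N is the unique minimal normal subgroup of G. Then the index of the Frattini subgroup of P in P is at most #N − 1. -/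
theorem result {G : Type*} [Group G] [Finite G] (N P : Subgroup G) (hN : N.Normal) (hNab : IsMulCommutative ↥N) (hNodd : Odd (Nat.card ↥N)) (hP : IsPGroup 2 ↥P) (hdisj : N ⊓ P = ⊥) (hprod : N ⊔ P = ⊤) (hmin : N ≠ ⊥ ∧ ∀ M : Subgroup G, M.Normal → M ≠ ⊥ → N ≤ M) : (frattini ↥P).index ≤ Nat.card ↥N - 1 := by
  obtain ⟨q, hq, hqd⟩ := Nat.exists_prime_and_dvd (mt card_eq_one.mp hmin.1)
  haveI : Fact q.Prime := ⟨hq⟩
  have hq2 : q ≠ 2 := by rintro rfl; exact hNodd.not_two_dvd_nat hqd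
  let M : Subgroup G :=
    { carrier := {x | x ∈ N ∧ x ^ q = 1}
      one_mem' := ⟨one_mem _, one_pow _⟩
      mul_mem' := fun {a b} ha hb => ⟨mul_mem ha.1 hb.1, by
        have : Commute a b := congrArg Subtype.val (hNab.is_comm.comm (⟨a, ha.1⟩ : N) ⟨b, hb.1⟩)
        rw [this.mul_pow, ha.2, hb.2, one_mul]⟩
      inv_mem' := fun ha => ⟨inv_mem ha.1, by rw [inv_pow, ha.2, inv_one]⟩ }
  have hM : N ≤ M := hmin.2 M ⟨fun x hx g => ⟨hN.conj_mem x hx.1 g, by
      rw [conj_pow, hx.2]; simp⟩⟩ (by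
    obtain ⟨x, hx⟩ := exists_prime_orderOf_dvd_card' q hqd
    rw [ne_bot_iff_exists_ne_one]
    refine ⟨⟨x, x.2, by rw [← hx]; exact congrArg Subtype.val (pow_orderOf_eq_one x)⟩, fun h => ?_⟩
    have : x = 1 := Subtype.ext (congrArg (fun y : M => y.1) h)
    rw [this, orderOf_one] at hx
    exact hq.one_lt.ne hx)
  have hV : IsElementaryAbelian q N := ⟨hNab, fun a ha => (hM ha).2⟩
  have hf : P ⊓ centralizer (N : Set G) = ⊥ := by
    by_contra h
    have h1 := hmin.2 _ (by
      rw [← normalizer_eq_top_iff, eq_top_iff, ← hprod]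
      refine sup_le ((le_centralizer_iff.mp inf_le_right).trans (centralizer_le_normalizer _)) ?_
      refine (le_inf le_normalizer ?_).trans (inf_normalizer_le_normalizer_inf)
      exact le_normalizer_of_normal) h
    exact hmin.1 (by rw [← hdisj, left_eq_inf]; exact h1.trans inf_le_left)
  let σ := BG.abRep hV (le_normalizer_of_normal : P ≤ _)
  have hσ : Function.Injective σ := BG.abRep_injective hf
  haveI : Nontrivial (BG.AbV hV) := (nontrivial_iff_ne_bot N).mpr hmin.1
  have h1 := main hq2 _ (BG.AbV hV) rfl P hP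
    ((LinearMap.GeneralLinearGroup.generalLinearEquiv _ _).toMonoidHom.comp σ.asGroupHom)
    (fun a b h => hσ (LinearMap.ext fun v => congrArg (fun f : _ ≃ₗ[ZMod q] _ => f v) h))
  rw [BG.AbV.card] at h1
  have h2 : (frattini P).index ≤ (Sq P).index := by
    refine Nat.le_of_dvd (Nat.pos_of_ne_zero index_ne_zero_of_finite)
      (index_dvd_of_le ((closure_le _).mpr ?_))
    rintro _ ⟨g, rfl⟩
    simp only [frattini, Order.radical, SetLike.mem_coe, mem_iInf]
    intro M hM
    exact sq_mem_of_index_two (PGrp.index_of_isCoatom hP hM) g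
  have h3 : (Sq P).index ≤ Nat.card P := Nat.le_of_dvd Nat.card_pos (index_dvd_card _)
  have h4 : 0 < (Sq P).index := Nat.pos_of_ne_zero index_ne_zero_of_finite
  omega

end Cfsg.Agent.S4188
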