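import Cfsg.Statements.S4193
import Cfsg.Agent.S0205
import Cfsg.Agent.Gen2.MinInv
import Cfsg.Agent.Gen2.Real

set_option autoImplicit false
open Cfsg

namespace Cfsg.Agent.S4193

section
open Subgroup
variable {G : Type*} [Group G] [Finite G]

theorem norm_zpowers {y g : G} (e : g * y * g⁻¹ = y⁻¹) :
    zpowers g ≤ normalizer (zpowers y : Set G) := by
  rw [zpowers_le]
  refine mem_normalizer_fintype fun x hx => ?_
  obtain ⟨j, rfl⟩ := mem_zpowers_iff.1 hx
  rw [Invol.conj_zpow_of_inverts e]
  exact inv_mem hx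

theorem commute_of_odd_cs {y g : G} (e : g * y * g⁻¹ = y⁻¹) {k : ℕ} (hk : orderOf g = 2 ^ k)
    (h : ¬ 2 ∣ (centralizer ({y} : Set G)).index) : Commute y g := by
  have hn : zpowers g ≤ normalizer (centralizer ({y} : Set G) : Set G) := by
    rw [← BG.C_zpowers]; exact Solv.le_normalizer_centralizer (norm_zpowers e)
  have h1 : (centralizer ({y} : Set G)).relIndex (zpowers g) ∣ 2 ^ k := by
    rw [← hk, ← Nat.card_zpowers]; exact relIndex_dvd_card _ _
  have h2 : (centralizer ({y} : Set G)).relIndex (zpowers g) ∣ (centralizer ({y} : Set G)).index := by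
    rw [← Solv.relIndex_sup_of_le_normalizer hn]
    exact relIndex_dvd_index_of_le le_sup_right
  have h3 := Nat.eq_one_of_dvd_coprimes
    (((Nat.Prime.coprime_iff_not_dvd Nat.prime_two).2 h).pow_left k) h1 h2
  exact (Gen2.mem_cent.1 (relIndex_eq_one.1 h3 (mem_zpowers g))).symm

end

/-- Let G be a finite group in which the conjugacy classes of all non-central real elements (elements conjugate to their inverses) have sizes with the same 2-part, and suppose G has a Sylow 2-subgroup S such that every element of S that is conjugate in S to its inverse lies in the centre of S. Then G is solvable and the subgroup generated by the 2-elements of G (the smallest normal subgroup of odd index) has a normal 2-complement. -/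
theorem result {G : Type*} [Group G] [Finite G] (a : ℕ) (h : ∀ x : G, IsConj x x⁻¹ → x ∉ Subgroup.center G → ((Subgroup.centralizer ({x} : Set G)).index).factorization 2 = a) (S : Sylow 2 G) (hS : ∀ s : ↥(S : Subgroup G), IsConj s s⁻¹ → s ∈ Subgroup.center ↥(S : Subgroup G)) : Group.IsSolvable G ∧ Cfsg.HasNormalPComplement 2 ↥(Subgroup.closure {g : G | ∃ k : ℕ, orderOf g = 2 ^ k}) := by
  open Subgroup in
  by_cases hc : ∀ x : G, (∃ j : ℕ, orderOf x = 2 ^ j) → IsConj x x⁻¹ → x ∈ center G
  · have h1 : Cfsg.HasNormalPComplement 2 G := Gen2.npc_of_real fun x g hx hr _ =>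
      mem_center_iff.1 (hc x (Gen2.pElt_iff.2 ⟨2, hx⟩) hr) g
    refine ⟨?_, Transfer.hasNormalPComplement_subgroup h1 _⟩
    obtain ⟨N, _, h2, h3⟩ := Transfer.hasNormalPComplement_iff_exists.1 h1
    have := S0205.result (Nat.coprime_two_right.1 h2)
    have := h3.isNilpotent
    exact Solv.isSolvable_of_normal_of_quotient N
  push Not at hc
  obtain ⟨x, hx, hr, hxc⟩ := hc
  have ha : a = 0 := by
    obtain ⟨g, hg⟩ := isConj_iff.1 hr
    obtain ⟨g, hg2, hg⟩ := Gen2.exists_two_elt_inverts hg
    obtain ⟨c, hc⟩ := Invol.exists_conj_into_sylow (IsPGroup.to_sup_of_normal_left'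
      (Gen2.isPGroup_zpowers_iff.2 hx) (Gen2.isPGroup_zpowers_iff.2 hg2) (norm_zpowers hg)) S
    have h1 := hc x (mem_sup_left (mem_zpowers x))
    have h2 := hc g (mem_sup_right (mem_zpowers g))
    have h3 := hS ⟨_, h1⟩ (isConj_iff.2 ⟨⟨_, h2⟩, Subtype.ext (by
      change c * g * c⁻¹ * (c * x * c⁻¹) * (c * g * c⁻¹)⁻¹ = (c * x * c⁻¹)⁻¹
      calc _ = c * (g * x * g⁻¹) * c⁻¹ := by group
        _ = _ := by rw [hg]; group)⟩)
    rw [← h x hr hxc, ← Gen2.cs_conj c x]
    exact Nat.factorization_eq_zero_of_not_dvd (Gen2.not_dvd_index_of_sylow_le S fun s hs =>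
      Gen2.mem_cent.2 (congrArg Subtype.val (mem_center_iff.1 h3 ⟨s, hs⟩)))
  have ho : Odd (Cfsg.pCore 2 G).index := by
    refine Nat.not_even_iff_odd.1 fun he => ?_
    obtain ⟨y, g, hy, hodd, ⟨k, hk⟩, e⟩ := Gen2.exists_real_of_even_index he
    have hc : ¬ Commute y g := fun hc =>
      hy.ne_one (orderOf_eq_one_iff.2 (Invol.eq_one_of_odd_of_inverts_of_commute hodd e hc))
    refine hc (commute_of_odd_cs e hk fun hd => ?_)
    have := h y (isConj_iff.2 ⟨g, e⟩) fun h => hc (mem_center_iff.1 h g).symm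
    exact (Nat.prime_two.factorization_pos_of_dvd (Gen2.cs_ne_zero y) hd).ne' (this.trans ha)
  constructor
  · have := S0205.result (G := G ⧸ Cfsg.pCore 2 G) ho
    have := (Solv.isPGroup_pCore 2 G).isNilpotent
    exact Solv.isSolvable_of_normal_of_quotient (Cfsg.pCore 2 G)
  · refine Transfer.hasNormalPComplement_of_isPGroup ((Solv.isPGroup_pCore 2 G).to_le
      ((closure_le _).2 fun g hg => zpowers_le.1 (Solv.le_of_coprime_index ?_)))
    exact Solv.coprime_card_of_isPGroup (Gen2.isPGroup_zpowers_iff.2 hg)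
      (Nat.coprime_two_right.2 ho)

end Cfsg.Agent.S4193
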