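import Cfsg.Statements.S4195
import Cfsg.Agent.Gen2.SylowNum
import Cfsg.Agent.Solv.Basic

set_option autoImplicit false
open Cfsg

namespace Cfsg.Agent.S4195

/-- Let x be a non-identity element of a finite group G whose centralizer contains a Sylow 2-subgroup of G. If x is conjugate to its inverse, then x has order 2. -/
theorem result {G : Type*} [Group G] [Finite G] (x : G) (hx : x ≠ 1) (P : Sylow 2 G) (hP : (P : Subgroup G) ≤ Subgroup.centralizer ({x} : Set G)) (hreal : IsConj x x⁻¹) : orderOf x = 2 := by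
  obtain ⟨g, hg⟩ := isConj_iff.1 hreal
  let C := Subgroup.centralizer ({x} : Set G)
  have hn : g ∈ Subgroup.normalizer (C : Set G) := by
    rw [← Solv.conj_smul_eq_self_iff]
    exact (Gen2.cent_conj g x).symm.trans (by rw [hg, Gen2.cent_inv])
  have h2 : g ^ 2 ∈ C := by
    rw [Gen2.mem_cent, ← mul_inv_eq_iff_eq_mul]
    calc g ^ 2 * x * (g ^ 2)⁻¹ = g * (g * x * g⁻¹) * g⁻¹ := by simp only [pow_two]; group
      _ = (g * x * g⁻¹)⁻¹ := by conv_lhs => rw [hg]
                                group
      _ = x := by rw [hg, inv_inv]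
  have h3 : g ^ C.relIndex (Subgroup.normalizer (C : Set G)) ∈ C :=
    (C.subgroupOf (Subgroup.normalizer (C : Set G))).pow_index_mem ⟨g, hn⟩
  obtain ⟨m, hm⟩ : Odd (C.relIndex (Subgroup.normalizer (C : Set G))) := by
    rw [← Nat.not_even_iff_odd, even_iff_two_dvd]
    exact fun h => Gen2.not_dvd_index_of_sylow_le P hP
      (h.trans (Subgroup.relIndex_dvd_index_of_le Subgroup.le_normalizer))
  rw [hm, pow_succ, pow_mul, C.mul_mem_cancel_left (pow_mem h2 m), Gen2.mem_cent] at h3
  rw [h3, mul_inv_cancel_right, eq_inv_iff_mul_eq_one, ← pow_two] at hg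
  exact orderOf_eq_prime hg hx

end Cfsg.Agent.S4195
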