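import Cfsg.Statements.S4196
import Cfsg.Agent.S4195
import Cfsg.Agent.Gen2.Cyc

set_option autoImplicit false
open Cfsg

namespace Cfsg.Agent.S4196

/-- A finite group G has elementary abelian Sylow 2-subgroups (commutative with every element squaring to the identity) if and only if every 2-element of G has a Sylow 2-subgroup in its centralizer and is conjugate to its inverse. -/
theorem result {G : Type*} [Group G] [Finite G] (P : Sylow 2 G) :
    (IsMulCommutative (P : Subgroup G) ∧ ∀ x ∈ (P : Subgroup G), x ^ 2 = 1) ↔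
      ∀ x : G, (∃ k : ℕ, orderOf x = 2 ^ k) → (∃ Q : Sylow 2 G, (Q : Subgroup G) ≤ Subgroup.centralizer ({x} : Set G)) ∧ IsConj x x⁻¹ := by
  constructor
  · rintro ⟨h1, h2⟩ x hx
    obtain ⟨c, hc⟩ := Gen2.exists_conj_mem_sylow P hx
    refine ⟨⟨c⁻¹ • P, fun y hy => ?_⟩, ?_⟩
    · have hy' : c * y * c⁻¹ ∈ (P : Subgroup G) := by
        simpa using (Solv.mem_conj_smul (g := c⁻¹)).1 hy
      have := Gen2.mul_comm_of_mem h1 hy' hc
      rw [Gen2.mem_cent]
      refine (MulAut.conj c).injective ?_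
      rw [map_mul, map_mul]
      exact this
    · have := h2 _ hc
      rw [conj_pow, mul_inv_eq_one, mul_eq_left, pow_two, ← eq_inv_iff_mul_eq_one] at this
      rw [← this]
  · intro h
    have h2 : ∀ x ∈ (P : Subgroup G), x ^ 2 = 1 := fun x hx => by
      obtain ⟨⟨Q, hQ⟩, h⟩ := h x (Gen2.pElt_of_mem P.isPGroup' hx)
      rcases eq_or_ne x 1 with rfl | h1
      · simp
      · rw [← S4195.result x h1 Q hQ h, pow_orderOf_eq_one]
    refine ⟨Gen2.isMulCommutative_of_forall fun x hx y hy => ?_, h2⟩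
    have h3 : ∀ x ∈ (P : Subgroup G), x⁻¹ = x := fun x hx => by
      rw [inv_eq_iff_mul_eq_one, ← pow_two, h2 x hx]
    rw [← h3 _ (mul_mem hx hy), mul_inv_rev, h3 x hx, h3 y hy]

end Cfsg.Agent.S4196
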