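import Cfsg.Statements.S4211
import Cfsg.Agent.Invol.OddAut
import Cfsg.Agent.PGrp.Basic
import Cfsg.Agent.BG.Base5

set_option autoImplicit false
open Cfsg

namespace Cfsg.Agent.S4211

open Subgroup Cfsg.Agent.PGrp Cfsg.Agent.Invol
open scoped commutatorElement

section
variable {G : Type*} [Group G] [Finite G] (hn : ∀ H : Subgroup G, H.Normal)
include hn

omit [Finite G] in
theorem cl (x y : G) : ⁅x, y⁆ ∈ zpowers x := commutator_mem_of_normal_left (hN := hn _) (mem_zpowers x) y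

omit [Finite G] in
theorem cr (x y : G) : ⁅x, y⁆ ∈ zpowers y := commutator_mem_of_normal_right (hN := hn _) (mem_zpowers y) x

omit hn [Finite G] in
theorem comm_of_mem {c x : G} (h : c ∈ zpowers x) : Commute c x := by
  obtain ⟨k, rfl⟩ := mem_zpowers_iff.1 h
  exact (Commute.refl x).zpow_left k

omit hn [Finite G] in
theorem comm_of_mem' {w z x : G} (h : w ∈ zpowers z) (hc : Commute z x) : w * x = x * w := by
  obtain ⟨k, rfl⟩ := mem_zpowers_iff.1 h
  exact hc.zpow_left k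

omit hn in
theorem root {c x : G} {p m : ℕ} (hp : p.Prime) (h : c ∈ zpowers x) (ho : orderOf x = p ^ (m + 1)) (h1 : c ≠ 1)
    (hc : c ^ p = 1) : ∃ i, ¬ p ∣ i ∧ c = x ^ (p ^ m * i) := by
  obtain ⟨a, rfl⟩ := (mem_powers_iff_mem_zpowers.2 h : ∃ a : ℕ, x ^ a = c)
  rw [← pow_mul, ← orderOf_dvd_iff_pow_eq_one, ho, pow_succ, Nat.mul_dvd_mul_iff_right hp.pos] at hc
  obtain ⟨i, rfl⟩ := hc
  refine ⟨i, fun hi => h1 ?_, rfl⟩
  rw [← orderOf_dvd_iff_pow_eq_one, ho, pow_succ]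
  exact Nat.mul_dvd_mul_left _ hi

theorem minpair {H : Subgroup G} {x y : G} (hx : x ∈ H) (hy : y ∈ H) (hxy : ¬ Commute x y)
    (hmin : ∀ u ∈ H, ∀ v ∈ H, orderOf u + orderOf v < orderOf x + orderOf y → Commute u v)
    (hle : orderOf y ≤ orderOf x) : orderOf x = 4 ∧ y * y = x * x ∧ y * x * y⁻¹ = x⁻¹ := by
  have c1 : ⁅x, y⁆ ≠ 1 := fun h => hxy (commutatorElement_eq_one_iff_commute.1 h)
  have cx := comm_of_mem (cl hn x y)
  have cy := comm_of_mem (cr hn x y)
  have lt : ∀ (z : G) (q : ℕ), q.Prime → q ∣ orderOf z → orderOf (z ^ q) < orderOf z := fun z q hq h => by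
    rw [orderOf_pow_of_dvd hq.ne_zero h]; exact Nat.div_lt_self (orderOf_pos z) hq.one_lt
  have px : ∀ q, q.Prime → q ∣ orderOf x → ⁅x, y⁆ ^ q = 1 := fun q hq h => by
    rw [← commutator_pow_left cx, commutatorElement_eq_one_iff_commute]
    exact hmin _ (pow_mem hx q) _ hy (by have := lt x q hq h; omega)
  have py : ∀ q, q.Prime → q ∣ orderOf y → ⁅x, y⁆ ^ q = 1 := fun q hq h => by
    rw [← commutator_pow_right cy, commutatorElement_eq_one_iff_commute]
    exact hmin _ hx _ (pow_mem hy q) (by have := lt y q hq h; omega)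
  obtain ⟨p, hp, hpx⟩ := Nat.exists_prime_and_dvd (show orderOf x ≠ 1 from fun h => hxy (by
    rw [orderOf_eq_one_iff.1 h]; exact Commute.one_left y))
  have := Fact.mk hp
  have cp := px p hp hpx
  have oc : orderOf ⁅x, y⁆ = p := orderOf_eq_prime cp c1
  have pw : ∀ z : G, ⁅x, y⁆ ∈ zpowers z → (∀ q, q.Prime → q ∣ orderOf z → ⁅x, y⁆ ^ q = 1) → ∃ m, orderOf z = p ^ (m + 1) :=
    fun z hz h => by
      have e := Nat.eq_prime_pow_of_unique_prime_dvd (p := p) (orderOf_pos z).ne' fun {q} hq hq' =>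
        ((Nat.prime_dvd_prime_iff_eq hp hq).1 (oc ▸ orderOf_dvd_of_pow_eq_one (h q hq hq'))).symm
      generalize (orderOf z).primeFactorsList.length = k at e
      rcases k with _ | k
      · rw [pow_zero, orderOf_eq_one_iff] at e
        rw [e, zpowers_one_eq_bot, mem_bot] at hz
        exact absurd hz c1
      · exact ⟨k, e⟩
  obtain ⟨m, hm⟩ := pw x (cl hn x y) px
  obtain ⟨n, hn'⟩ := pw y (cr hn x y) py
  obtain ⟨i, hi, ei⟩ := root hp (cl hn x y) hm c1 cp
  obtain ⟨j, hj, ej⟩ := root hp (cr hn x y) hn' c1 cp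
  have hyj : ¬ Commute x (y ^ j) := fun h => hxy (by
    obtain ⟨k, hk⟩ := exists_pow_eq_self_of_coprime (x := y) (n := j)
      (by rw [hn']; exact (hp.coprime_iff_not_dvd.2 hj).symm.pow_right _)
    rw [← hk]; exact h.pow_right k)
  obtain ⟨d, rfl⟩ : ∃ d, m = n + d := Nat.exists_eq_add_of_le (by
    rw [hm, hn', Nat.pow_le_pow_iff_right hp.one_lt] at hle; omega)
  have h1 : ¬ Commute x ((x ^ (p ^ d * i))⁻¹ * y ^ j) := fun h => hyj (by
    have := ((Commute.refl x).pow_right (p ^ d * i)).mul_right h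
    rwa [mul_inv_cancel_left] at this)
  have h2 : ((x ^ (p ^ d * i))⁻¹ * y ^ j) ^ p ^ n ≠ 1 := fun h => h1 (hmin _ hx _
    (mul_mem (inv_mem (pow_mem hx _)) (pow_mem hy _)) (by
      have := Nat.le_of_dvd (pow_pos hp.pos n) (orderOf_dvd_of_pow_eq_one h)
      have : p ^ n < p ^ (n + 1) := Nat.pow_lt_pow_right hp.one_lt (by omega)
      omega))
  have e1 : ⁅y ^ j, (x ^ (p ^ d * i))⁻¹⁆ = ⁅x, y⁆ ^ (p ^ d * i * j) := by
    rw [commutator_inv_right (comm_of_mem (cr hn _ _)), commutatorElement_inv, commutator_pow_left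
      (comm_of_mem (cl hn _ _)), commutator_pow_right cy, ← pow_mul, mul_comm]
  rw [mul_pow_of_commute_commutator (comm_of_mem (cr hn _ _)) (comm_of_mem (cl hn _ _)), e1, inv_pow, ← pow_mul x,
    ← pow_mul y, show p ^ d * i * p ^ n = p ^ (n + d) * i by ring, ← ei, mul_comm j, ← ej, inv_mul_cancel, mul_one,
    ← pow_mul, Ne, ← orderOf_dvd_iff_pow_eq_one, oc] at h2
  have hd : d = 0 := by
    by_contra h
    exact h2 (((dvd_pow_self p h).mul_right _).mul_right _ |>.mul_right _)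
  have hn0 : n ≠ 0 := by
    rintro rfl
    rw [pow_zero, one_mul] at ej
    exact hyj (ej ▸ cx.symm)
  have h3 : ¬ p ∣ (p ^ n).choose 2 := fun h => h2 (h.mul_left _)
  have h4 : 2 * (p ^ n).choose 2 = p ^ n * (p ^ n - 1) := by
    rw [Nat.choose_two_right, Nat.mul_div_cancel' (Nat.even_mul_pred_self _).two_dvd]
  obtain rfl : p = 2 := by
    by_contra h
    refine h3 (((Nat.coprime_primes hp Nat.prime_two).2 h).dvd_of_dvd_mul_left ?_)
    rw [h4]; exact (dvd_pow_self p hn0).mul_right _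
  obtain rfl : n = 1 := by
    by_contra h
    obtain ⟨k, rfl⟩ : ∃ k, n = k + 2 := ⟨n - 2, by omega⟩
    refine h3 (Nat.dvd_of_mul_dvd_mul_left two_pos ?_)
    rw [h4]; exact Dvd.dvd.mul_right ⟨2 ^ k, by ring⟩ _
  subst hd
  have sq : ∀ (z : G) (k : ℕ), orderOf z = 2 ^ (1 + 1) → ¬ 2 ∣ k → z ^ (2 ^ 1 * k) = z * z := fun z k hz hk => by
    obtain ⟨l, rfl⟩ : ∃ l, k = 2 * l + 1 := ⟨k / 2, by omega⟩
    rw [show 2 ^ 1 * (2 * l + 1) = 2 ^ (1 + 1) * l + 2 by ring, pow_add, pow_mul, ← hz, pow_orderOf_eq_one, one_pow,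
      one_mul, pow_two]
  rw [sq x i hm hi] at ei
  rw [sq y j hn' hj] at ej
  refine ⟨hm, ej.symm.trans ei, ?_⟩
  calc y * x * y⁻¹ = ⁅x, y⁆⁻¹ * x := by simp [commutatorElement_def, mul_assoc]
    _ = x⁻¹ := by rw [ei]; group

theorem exists_pair {H : Subgroup G} (h : ¬ IsMulCommutative H) :
    ∃ x ∈ H, ∃ y ∈ H, orderOf x = 4 ∧ y * y = x * x ∧ y * x * y⁻¹ = x⁻¹ := by
  have ex : ∃ k, ∃ x ∈ H, ∃ y ∈ H, ¬ Commute x y ∧ orderOf x + orderOf y = k := by
    by_contra hc
    push Not at hc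
    refine h ⟨⟨fun a b => Subtype.ext ?_⟩⟩
    by_contra hab
    exact hc _ a a.2 b b.2 hab rfl
  classical
  obtain ⟨x, hx, y, hy, hxy, e⟩ := Nat.find_spec ex
  have hmin : ∀ u ∈ H, ∀ v ∈ H, orderOf u + orderOf v < orderOf x + orderOf y → Commute u v := fun u hu v hv hlt => by
    by_contra hc
    exact Nat.find_min ex (e ▸ hlt) ⟨u, hu, v, hv, hc, rfl⟩
  rcases le_total (orderOf y) (orderOf x) with hle | hle
  · exact ⟨x, hx, y, hy, minpair hn hx hy hxy hmin hle⟩
  · exact ⟨y, hy, x, hx, minpair hn hy hx (fun h => hxy h.symm) (fun u hu v hv hlt => hmin u hu v hv (by omega)) hle⟩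

end

/-- A finite non-abelian group in which every subgroup is normal is the internal direct product of a subgroup isomorphic to the quaternion group of order `8`, an elementary abelian `2`-subgroup and an abelian subgroup of odd order. -/
theorem result {G : Type*} [Group G] [Finite G] (hna : ¬ IsMulCommutative G) (hn : ∀ H : Subgroup G, H.Normal) : ∃ Q E A : Subgroup G, Nonempty (Q ≃* QuaternionGroup 2) ∧ Cfsg.IsElementaryAbelian 2 E ∧ IsMulCommutative A ∧ Odd (Nat.card A) ∧ E ⊓ A = ⊥ ∧ Q ⊓ (E ⊔ A) = ⊥ ∧ Q ⊔ (E ⊔ A) = ⊤ := by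
  obtain ⟨x, -, y, -, ox, hsq, hinv⟩ := exists_pair hn (H := ⊤) fun h =>
    hna ⟨⟨fun a b => congrArg Subtype.val (h.is_comm.comm (⟨a, trivial⟩ : (⊤ : Subgroup G)) ⟨b, trivial⟩)⟩⟩
  have x4 : x * x * (x * x) = 1 := by rw [← pow_orderOf_eq_one x, ox]; simp [pow_succ, mul_assoc]
  have x2 : x * x ≠ 1 := fun h => by
    have := orderOf_dvd_of_pow_eq_one (show x ^ 2 = 1 by rw [pow_two, h]); rw [ox] at this; omega
  have nc : ¬ Commute x y := fun h => x2 (by
    rw [← h.eq, mul_inv_cancel_right] at hinv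
    nth_rewrite 1 [hinv]; exact inv_mul_cancel x)
  have hy : y ∉ zpowers x := fun h => nc (comm_of_mem h).symm
  have hQ : Quat (zpowers x ⊔ zpowers y) x y := by
    have := hn (zpowers x)
    have hc : Nat.card ↥(zpowers x ⊔ zpowers y) = 2 * orderOf x := by
      rw [card_sup_zpowers Nat.prime_two (le_normalizer_of_normal (mem_top y)) hy
        (by rw [pow_two, hsq]; exact mul_mem (mem_zpowers x) (mem_zpowers x)), Nat.card_zpowers, mul_comm]
    exact ⟨ox, hsq, hinv, hy, mem_iff_of_card hc (mem_sup_left (mem_zpowers x)) (mem_sup_right (mem_zpowers y)) hy⟩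
  set Q := zpowers x ⊔ zpowers y with hQd
  obtain ⟨S⟩ : Nonempty (Sylow 2 G) := inferInstance
  have := hn S
  obtain ⟨A, hA⟩ := exists_right_complement'_of_coprime (N := (S : Subgroup G)) S.card_coprime_index
  have hAo : Odd (Nat.card A) := by
    rw [← hA.symm.index_eq_card, ← Nat.not_even_iff_odd, even_iff_two_dvd]; exact S.not_dvd_index
  have hSA : (S : Subgroup G) ⊓ A = ⊥ := hA.disjoint.eq_bot
  have mS : ∀ g : G, g * g * (g * g) = 1 → g ∈ (S : Subgroup G) := fun g hg => by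
    have : IsPGroup 2 (zpowers g) := fun a => ⟨2, by
      obtain ⟨a, k, rfl⟩ := a
      apply Subtype.ext
      show (g ^ k) ^ 2 ^ 2 = 1
      rw [← zpow_natCast, ← zpow_mul, mul_comm, zpow_mul, zpow_natCast,
        show g ^ 2 ^ 2 = g * g * (g * g) by simp [pow_succ, mul_assoc], hg, one_zpow]⟩
    have := hn (zpowers g)
    exact (‹IsPGroup 2 (zpowers g)›.le_sylow_of_normal S) (mem_zpowers g)
  have y4 : y * y * (y * y) = 1 := by rw [hsq, x4]
  have hQS : Q ≤ S := sup_le (zpowers_le.2 (mS x x4)) (zpowers_le.2 (mS y y4))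
  have mC : ∀ z, z ∈ centralizer (Q : Set G) ↔ Commute z x ∧ Commute z y := fun z => by
    refine ⟨fun h => ⟨(mem_centralizer_iff.1 h x hQ.i_mem).symm, (mem_centralizer_iff.1 h y hQ.j_mem).symm⟩, fun h => ?_⟩
    rw [← zpowers_le, le_centralizer_iff]
    exact sup_le (zpowers_le.2 (mem_centralizer_iff.2 fun w hw => (comm_of_mem' hw h.1)))
      (zpowers_le.2 (mem_centralizer_iff.2 fun w hw => (comm_of_mem' hw h.2)))
  have hC4 : ∀ z ∈ centralizer (Q : Set G), z * z * (z * z) = 1 → z * z = 1 := fun z hz z4 => by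
    obtain ⟨zx, zy⟩ := (mC z).1 hz
    have e1 : ⁅z * x, y⁆ = x * x := by
      rw [commutatorElement_def, mul_inv_rev, show z * x * y * (x⁻¹ * z⁻¹) * y⁻¹ = z * (x * y * x⁻¹) * z⁻¹ * y⁻¹ by group,
        ((zx.mul_right zy).mul_right zx.inv_right).eq, mul_inv_cancel_right,
        show x * y * x⁻¹ * y⁻¹ = x * (y * x * y⁻¹)⁻¹ by group, hinv, inv_inv]
    have e2 : z * x * (z * x) = z * z * (x * x) := by rw [mul_assoc, ← mul_assoc x, ← zx.eq]; group
    have e3 : z * x * (z * x) * (z * x * (z * x)) = 1 := by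
      rw [e2, mul_assoc, ← mul_assoc (x * x), ← ((zx.mul_left zx).mul_right (zx.mul_left zx)).eq, mul_assoc (z * z), x4,
        mul_one, z4]
    have cxy : Commute (x * x) y := by rw [← hsq]; exact (Commute.refl y).mul_left (Commute.refl y)
    have ncz : ¬ Commute (z * x) y := fun h => nc (by simpa using zy.inv_left.mul_left h)
    rcases (Quat.mem_zpowers_of e3).1 (e1 ▸ cl hn (z * x) y) with h | h | h | h
    · exact absurd h x2
    · exact absurd (h ▸ cxy) ncz
    · rw [e2] at h; exact (right_eq_mul.1 h)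
    · exact absurd (by simpa using (h ▸ cxy : Commute (z * x)⁻¹ y).inv_left) ncz
  have hC2 : ∀ (k : ℕ), ∀ z ∈ centralizer (Q : Set G), z ^ 2 ^ k = 1 → z * z = 1 := fun k => by
    induction k with
    | zero => intro z _ hk; rw [pow_zero, pow_one] at hk; rw [hk, one_mul]
    | succ k ih =>
      intro z hz hk
      exact hC4 z hz (ih _ (mul_mem hz hz) (by rw [← pow_two, ← pow_mul, ← pow_succ', hk]))
  have hE2 : ∀ z ∈ (S : Subgroup G) ⊓ centralizer (Q : Set G), z * z = 1 := fun z hz => by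
    obtain ⟨k, hk⟩ := S.2 ⟨z, hz.1⟩
    exact hC2 k z hz.2 (congrArg Subtype.val hk)
  have hE0 : IsElementaryAbelian 2 ((S : Subgroup G) ⊓ centralizer (Q : Set G)) := by
    refine ⟨⟨⟨fun a b => Subtype.ext ?_⟩⟩, fun z hz => by rw [pow_two]; exact hE2 z hz⟩
    have h1 := hE2 _ (mul_mem a.2 b.2)
    show (a : G) * b = b * a
    rw [eq_inv_of_mul_eq_one_left h1, mul_inv_rev, inv_eq_of_mul_eq_one_left (hE2 _ a.2),
      inv_eq_of_mul_eq_one_left (hE2 _ b.2)]
  have cC : x * x ∈ centralizer (Q : Set G) := (mC _).2 ⟨(Commute.refl x).mul_left (Commute.refl x), by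
    rw [← hsq]; exact (Commute.refl y).mul_left (Commute.refl y)⟩
  obtain ⟨E, hE⟩ := BG.abelem_splits hE0 (H := zpowers (x * x)) (zpowers_le.2 ⟨hQS (mul_mem hQ.i_mem hQ.i_mem), cC⟩)
  have hEle : E ≤ (S : Subgroup G) ⊓ centralizer (Q : Set G) := hE.sup ▸ le_sup_right
  refine ⟨Q, E, A, hQ.equiv, ⟨⟨⟨fun a b => Subtype.ext (by
    exact congrArg Subtype.val (hE0.1.is_comm.comm (⟨a, hEle a.2⟩ : ↥((S : Subgroup G) ⊓ centralizer (Q : Set G)))
      ⟨b, hEle b.2⟩) : (a : G) * b = b * a)⟩⟩,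
    fun z hz => hE0.2 z (hEle hz)⟩, ?_, hAo, ?_, ?_, ?_⟩
  · by_contra h
    obtain ⟨u, hu, -, -, ou, -⟩ := exists_pair hn h
    have := orderOf_dvd_natCard (⟨u, hu⟩ : A)
    rw [← orderOf_coe, ou] at this
    exact (Nat.not_even_iff_odd.2 hAo) (even_iff_two_dvd.2 (Dvd.dvd.trans (by decide) this))
  · exact eq_bot_iff.2 (hSA ▸ inf_le_inf_right _ (hEle.trans inf_le_left))
  · rw [eq_bot_iff]
    rintro q ⟨hq, hq'⟩
    have := hn A
    have hq' : q ∈ ((E ⊔ A : Subgroup G) : Set G) := hq'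
    rw [mul_normal] at hq'
    obtain ⟨e, he, a, ha, rfl⟩ := hq'
    have h1 : a ∈ (S : Subgroup G) ⊓ A := ⟨by
      have := (S : Subgroup G).mul_mem ((S : Subgroup G).inv_mem (hEle he).1) (hQS hq)
      rwa [inv_mul_cancel_left] at this, ha⟩
    rw [hSA, mem_bot] at h1
    simp only [h1, mul_one] at hq ⊢
    rw [← hE.inf]
    refine ⟨?_, he⟩
    rcases hQ.sq_of_mem hq with h | h | h
    · rw [h]; exact one_mem _
    · rw [h]; exact mem_zpowers _
    · exact absurd ((hE2 e (hEle he)).symm.trans h).symm x2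
  · rw [eq_top_iff, ← hA.sup_eq_top, ← sup_assoc]
    refine sup_le_sup_right (fun s hs => ?_) _
    have key : ∀ u : G, u * u * (u * u) = 1 → u * u ≠ 1 → s * u * s⁻¹ = u ∨ s * u * s⁻¹ = u⁻¹ := fun u u4 u2 => by
      have e : s * u * s⁻¹ * (s * u * s⁻¹) ≠ 1 := fun h => u2 (by
        simpa [mul_assoc] using congrArg (s⁻¹ * · * s) h)
      rcases (Quat.mem_zpowers_of u4).1 ((hn (zpowers u)).conj_mem u (mem_zpowers u) s) with h | h | h | h
      · exact absurd (by rw [h, one_mul]) e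
      · exact .inl h
      · exact absurd (by rw [h, u4]) e
      · exact .inr h
    have fin : ∀ q ∈ Q, q * x * q⁻¹ = s * x * s⁻¹ → q * y * q⁻¹ = s * y * s⁻¹ → s ∈ Q ⊔ E := fun q hq h1 h2 => by
      have hz : q⁻¹ * s ∈ zpowers (x * x) ⊔ E := by
        rw [hE.sup]
        refine ⟨(S : Subgroup G).mul_mem ((S : Subgroup G).inv_mem (hQS hq)) hs, (mC _).2 ⟨?_, ?_⟩⟩
        · calc q⁻¹ * s * x = q⁻¹ * (s * x * s⁻¹) * s := by group
            _ = _ := by rw [← h1]; group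
        · calc q⁻¹ * s * y = q⁻¹ * (s * y * s⁻¹) * s := by group
            _ = _ := by rw [← h2]; group
      have := mul_mem (mem_sup_left hq : q ∈ Q ⊔ E)
        (sup_le_sup_right (zpowers_le.2 (mul_mem hQ.i_mem hQ.i_mem)) E hz)
      rwa [mul_inv_cancel_left] at this
    have hinv' : x * y * x⁻¹ = y⁻¹ := by
      calc x * y * x⁻¹ = x * (y * x * y⁻¹)⁻¹ * y := by group
        _ = y * y * (y * y) * y⁻¹ := by rw [hinv, inv_inv, ← hsq]; group
        _ = _ := by rw [y4, one_mul]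
    rcases key x x4 x2 with h1 | h1 <;> rcases key y y4 (hsq ▸ x2) with h2 | h2
    · exact fin 1 (one_mem _) (by rw [h1]; group) (by rw [h2]; group)
    · exact fin x hQ.i_mem (by rw [h1]; group) (by rw [h2, hinv'])
    · exact fin y hQ.j_mem (by rw [h1, hinv]) (by rw [h2]; group)
    · refine fin (x * y) (mul_mem hQ.i_mem hQ.j_mem) ?_ ?_
      · rw [h1, show x * y * x * (x * y)⁻¹ = x * (y * x * y⁻¹) * x⁻¹ by group, hinv]; group
      · rw [h2, ← hinv']; group

end Cfsg.Agent.S4211
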