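import Cfsg.Statements.S4226
import Cfsg.Agent.S2807
import Cfsg.Agent.FTC.Tate
import Cfsg.Agent.Gen2.Regular
import Cfsg.Agent.Loc.CharP
import Cfsg.Agent.BG.Base6
import Mathlib.GroupTheory.RegularWreathProduct

set_option autoImplicit false
open Cfsg

namespace Cfsg.Agent.S4226

open Subgroup Cfsg.Agent.BG Cfsg.Agent.Gen2

theorem not_reg {p : ℕ} [hp : Fact p.Prime] (Q : Sylow p (Equiv.Perm (Fin (p ^ 2)))) : ¬ Reg p Q := by
  intro h
  let C := Multiplicative (ZMod p)
  have hC : Nat.card C = p := by simp [C]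
  let e : C × C ≃ Fin (p ^ 2) := Finite.equivFinOfCardEq (by rw [Nat.card_prod, hC, sq])
  let f := e.permCongrHom.toMonoidHom.comp (RegularWreathProduct.toPerm C C C)
  have hf : Function.Injective f := e.permCongrHom.injective.comp (RegularWreathProduct.toPermInj C C C)
  have hW : IsPGroup p (RegularWreathProduct C C) :=
    .of_card (n := p + 1) (by rw [RegularWreathProduct.card, hC, pow_succ])
  obtain ⟨Q', hQ'⟩ := (hW.of_surjective _ f.rangeRestrict_surjective).exists_le_sylow
  have h1 : Reg p (RegularWreathProduct C C) := (h.of_surjective (Q.equiv Q').toMonoidHom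
    (Q.equiv Q').surjective).of_injective ((inclusion hQ').comp f.rangeRestrict)
    ((inclusion_injective hQ').comp (MonoidHom.rangeRestrict_injective_iff.2 hf))
  let g : C := Multiplicative.ofAdd 1
  have hg : orderOf g = p := by simp [g, C, orderOf_ofAdd_eq_addOrderOf]
  have hl : ∀ (w : RegularWreathProduct C C) (n : ℕ) (x : C),
      (w ^ n).left x = ∏ i ∈ Finset.range n, w.left ((w.right ^ i)⁻¹ * x) := by
    intro w n x
    induction n with
    | zero => simp
    | succ n ih =>
      rw [pow_succ, RegularWreathProduct.mul_left, Pi.mul_apply, ih, Finset.prod_range_succ,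
        show (w ^ n).right = w.right ^ n from map_pow RegularWreathProduct.rightHom w n]
  have hp1 : ∀ x : C, x ^ p = 1 := fun x => (congrArg (x ^ ·) hC).symm.trans pow_card_eq_one'
  have h2 := (h1.pow_eq_iff_one ⟨Pi.mulSingle 1 g, 1⟩ (RegularWreathProduct.inl g⁻¹)).1 (by
    rw [← map_pow, hp1, map_one]
    ext x
    · simp [hl, hp1]
    · exact congrArg _ ((map_pow RegularWreathProduct.rightHom _ p).trans (hp1 _)))
  have h3 := hl (⟨Pi.mulSingle 1 g, 1⟩ * (RegularWreathProduct.inl g⁻¹)⁻¹) p 1
  rw [h2, Finset.prod_eq_single_of_mem 0 (Finset.mem_range.2 hp.out.pos) fun i hi h0 => by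
    have : g ^ i ≠ 1 := pow_ne_one_of_lt_orderOf h0 ((Finset.mem_range.1 hi).trans_eq hg.symm)
    rw [← map_inv, inv_inv]
    simp [this]] at h3
  exact hp.out.ne_one (hg.symm.trans (orderOf_eq_one_iff.2 (by simpa using h3.symm)))

/-- Let `P` be a Sylow `p`-subgroup of the finite group `G` with nilpotency class less than `p` (the term of index `p - 1` of the lower central series of `P`, indexed from `0`, is trivial), and let `N` be its normalizer. Then `O^p(N) = O^p(G) ∩ N`, where `O^p` denotes the subgroup generated by the elements of order prime to `p`; so the largest `p`-factor groups of `G` and of `N` are isomorphic. -/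
theorem result {G : Type*} [Group G] [Finite G] {p : ℕ} [Fact p.Prime] (P : Sylow p G) (hcl : (P : Subgroup G).lowerCentralSeries (p - 1) = ⊥) : Cfsg.pResidualOf p (Subgroup.normalizer ((P : Subgroup G) : Set G)) = Cfsg.pResidual p G ⊓ Subgroup.normalizer ((P : Subgroup G) : Set G) := by
  set S := (P : Subgroup G) with hS
  have hfoc : S ⊓ commutator G = S ⊓ ⁅N[S], N[S]⁆ := by
    by_contra h
    obtain ⟨Q, f, hf⟩ := S2807.result P h
    refine not_reg Q ((reg_of_class P.isPGroup' ?_).of_surjective f hf)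
    rw [← map_eq_bot_iff_of_injective _ S.subtype_injective, map_lowerCentralSeries, ← MonoidHom.range_eq_map,
      range_subtype, hcl]
  have hP : SylowIn p S N[S] := pHall_subl (normG S) le_top (sylowIn_top P)
  set K := pResidual p G with hK
  set R := pResidualOf p N[S] with hR
  have hRK : R ≤ K := Loc.pResidualOf_le_pResidual p _
  have hRn : R ⊴ N[S] := normal_map_subtype inferInstance
  have hSR : S ≤ N[R] := (normG S).trans hRn.norm
  have hRS : R ⊔ S = N[S] := (Loc.sylIn_of_sylow_le P le_normalizer).pResidualOf_sup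
  have hKn : K.Normal := inferInstance
  have hV : K ⊓ S ≤ R := by
    have hU : R ⊓ S ⊴ S := ⟨inf_le_right, normsI hSR (normG S)⟩
    have hVn : K ⊓ S ⊴ S := ⟨inf_le_right, normsI (norm_of_normal _ _) (normG S)⟩
    have hVp := IsPGroup.sub P.isPGroup' hVn.le
    have hUV : R ⊓ S ≤ K ⊓ S := inf_le_inf_right _ hRK
    have hc := commg_subl hVn.norm
    have h1 : K ⊓ S ≤ R ⊓ S ⊔ ⁅K ⊓ S, S⁆ ⊔ Phi (K ⊓ S) := fun v hv => by
      have h0 : K ⊓ S ≤ commutator G := by
        have h5 : PiGrp {p}ᶜ (K /ᵍ commutator G) := by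
          refine pgroupS (B := Op' p (⊤ /ᵍ commutator G)) ((sub_quotient_pre (norm_of_normal _ _)).2
            ((closure_le _).2 fun x hx => (zpowers_le.1 ((sub_quotient_pre (norm_of_normal _ _)).1 ?_))))
            (pcore_pgroup _ _)
          exact nilpotent_sub_pcore (abelian_nil (sub_der1_abelian der_top.le)) (quotientS _ le_top)
            (quotient_pgroup _ (p_elt_zpowers.2 ((p'nat_coprime Fact.out).2 hx)))
        exact (quotient_sub1 (norm_of_normal _ _)).1 (trivg_of_pi (quotient_pgroup _ hVp.pi)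
          (pgroupS (quotientS _ inf_le_left) h5))
      have h2 : v ∈ ⁅N[S], N[S]⁆ := (hfoc ▸ mem_inf.2 ⟨hv.2, h0 hv⟩ : v ∈ S ⊓ ⁅N[S], N[S]⁆).2
      have hM : R ⊔ ⁅S, S⁆ ⊴ N[S] := hRn.sup ((normalG S).comm (normalG S))
      have h3 : ⁅N[S], N[S]⁆ ≤ R ⊔ ⁅S, S⁆ := by
        refine der1_min hM.norm (abelianS ?_ (sub_der1_abelian (M := S) le_sup_right))
        rw [quotientSK hM.norm ((normG S).trans hM.norm)]
        exact hRS.ge.trans (sup_le_sup_right le_sup_left _)
      have h4 : v ∈ S ⊓ (R ⊔ ⁅S, S⁆) := ⟨hv.2, h3 h2⟩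
      rw [group_modr (Or.inr ((commg_subl (normG S)).trans hSR)) (commg_subl (normG S)), inf_comm] at h4
      obtain ⟨u, hu, d, hd, rfl⟩ := (Solv.mem_sup_left_of_le_normalizer
        ((commg_subl (normG S)).trans hU.norm)).1 h4
      have hdV : d ∈ K ⊓ S := (mul_mem_cancel_left (hUV hu)).1 hv
      obtain ⟨d, hd', rfl⟩ := der1_sub_Phi (pgroup_nil P.isPGroup') hd
      rw [sup_assoc]
      refine mul_mem_sup hu (FTC.mem_of_mem_frattini P K ?_ ((sup_le hc (Phi_sub _)).trans inf_le_left)
        (fun v h1 h2 x hx => mem_sup_left (commutator_mem_commutator (show v ∈ K ⊓ S from ⟨h1, h2⟩) hx))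
        (fun v h1 h2 => mem_sup_right (pow_mem_Phi hVp ⟨h1, h2⟩))
        (normsY (commg_normr _ _) (norms_Phi hVn.norm)) hdV.1 hd')
      rw [← Loc.pResidualOf_subgroupOf, hK, ← Loc.pResidualOf_top, Loc.pResidualOf_pResidualOf,
        subgroupOf_self]
    have h2 := Phi_nongen (sup_le hUV hc) h1
    refine le_trans ((quotient_sub1 (hVn.le.trans hU.norm)).1 (nil_comm_trivg
      (quotient_nil _ (pgroup_nil P.isPGroup')) (quotientS _ hVn.le) le_rfl ?_)) inf_le_left
    rw [← quotientR (hVn.le.trans hU.norm) hU.norm, quotientSK (hVn.le.trans hU.norm)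
      ((hc.trans hVn.le).trans hU.norm), h2]
  refine le_antisymm (le_inf hRK hRn.le) ?_
  rw [← hRS, group_modl (Or.inr hSR) hRK]
  exact sup_le le_rfl hV

end Cfsg.Agent.S4226
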