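import Cfsg.Statements.S4231
import Cfsg.Agent.BG.Base6
import Cfsg.Agent.Perm.AutAlt

set_option autoImplicit false
open Cfsg

namespace Cfsg.Agent.S4231

open Subgroup Cfsg.Agent.BG Equiv Equiv.Perm

theorem conj33 (x y : alternatingGroup (Fin 6)) (hx : orderOf x = 3) (hy : orderOf y = 3)
    (h1 : ¬ IsThreeCycle x.1) (h2 : ¬ IsThreeCycle y.1) : IsConj x y := by
  have h3 : ∀ x : Perm (Fin 6), orderOf x = 3 → ¬ IsThreeCycle x → x.cycleType = {3, 3} := fun x hx h => by
    obtain ⟨n, hn⟩ := cycleType_prime_order (hx ▸ Nat.prime_three)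
    have := x.sum_cycleType_le
    rw [hn, hx] at this
    obtain rfl | rfl : n = 0 ∨ n = 1 := by simp at this; omega
    · exact (h (hn.trans (by rw [hx]; rfl))).elim
    · rw [hn, hx]; rfl
  let u : alternatingGroup (Fin 6) := ⟨swap 0 1 * swap 1 2 * (swap 3 4 * swap 4 5), mem_alternatingGroup.2 (by decide +kernel)⟩
  have hu : u.1.cycleType = {3, 3} := h3 _ (orderOf_eq_prime (by decide +kernel) (by decide +kernel))
    fun h => absurd h.card_support (by decide +kernel)
  have key : ∀ x : alternatingGroup (Fin 6), orderOf x = 3 → ¬ IsThreeCycle x.1 → IsConj u x := fun x hx h => by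
    obtain ⟨g, hg⟩ := isConj_iff.1 (isConj_iff_cycleType_eq.2 (hu.trans (h3 x ((orderOf_coe x).trans hx) h).symm))
    rcases Int.units_eq_one_or (Perm.sign g) with h | h
    · exact isConj_iff.2 ⟨⟨g, h⟩, Subtype.ext hg⟩
    · let s : Perm (Fin 6) := swap 0 3 * swap 1 4 * swap 2 5
      have hs : s * u * s⁻¹ = u := by decide +kernel
      refine isConj_iff.2 ⟨⟨g * s, ?_⟩, Subtype.ext ?_⟩
      · rw [mem_alternatingGroup, Perm.sign_mul, h, show Perm.sign s = -1 by decide +kernel]; simp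
      · rw [← hg, ← hs]; simp only [Subgroup.coe_mul, Subgroup.coe_inv]; rw [hs]; nth_rw 2 [← hs]; group
  exact (key x hx h1).symm.trans (key y hy h2)

theorem odd_inner {n : ℕ} (hn : 5 ≤ n) (ψ : MulAut (alternatingGroup (Fin n))) (h : Odd (orderOf ψ)) :
    ∃ σ : Perm (Fin n), MulAut.conjNormal σ = ψ := by
  refine Perm.AutAlt.exists_conj_of_threeCycle (by simp; omega) ψ fun t ht => ?_
  rcases eq_or_ne n 6 with rfl | h6
  swap
  · exact Perm.AutAlt.isThreeCycle_map (by simpa) ψ t ht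
  have h0 : ∀ x, IsConj t x → IsThreeCycle x.1 := fun x hx =>
    (isConj_iff_cycleType_eq.1 ((Subgroup.subtype _).map_isConj hx)).symm.trans ht
  have ho : orderOf t = 3 := (orderOf_coe t).symm.trans ht.orderOf
  by_contra h1
  have h2 : IsConj t (ψ (ψ t)) := by
    by_cases h2 : IsThreeCycle (ψ (ψ t)).1
    · exact alternatingGroup.isThreeCycle_isConj (by simp) ht h2
    · simpa using h1 (h0 _ (by
        simpa using ψ.symm.toMonoidHom.map_isConj (conj33 _ _ (by simpa) (by simpa) h1 h2)))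
  have h3 : ∀ k, IsConj t ((ψ ^ (2 * k)) t) := fun k => by
    induction k with
    | zero => rfl
    | succ k ih =>
      refine h2.trans ?_
      rw [mul_add, add_comm, pow_add]
      exact ψ.toMonoidHom.map_isConj (ψ.toMonoidHom.map_isConj ih)
  obtain ⟨k, hk⟩ := h
  have := h3 (k + 1)
  rw [show 2 * (k + 1) = orderOf ψ + 1 by omega, pow_succ, pow_orderOf_eq_one, one_mul] at this
  exact h1 (h0 _ this)

theorem comm_of_lt {n q : ℕ} [hq : Fact q.Prime] (h : n < q ^ 2) {X : Subgroup (Perm (Fin n))} (hX : IsPGroup q X) :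
    IsMulCommutative X := ⟨⟨fun a b => Subtype.ext (Equiv.ext fun x => by
  let f := MulAction.toPermHom X (MulAction.orbit X x)
  obtain ⟨k, hk⟩ := hX.card_orbit x
  have h1 : Nat.card (MulAction.orbit X x) ≤ q := by
    have : Nat.card (MulAction.orbit X x) < q ^ 2 := (Finite.card_subtype_le (· ∈ MulAction.orbit X x)).trans_lt (by rwa [Nat.card_eq_fintype_card, Fintype.card_fin])
    rw [hk] at this ⊢
    exact (Nat.pow_le_pow_right hq.out.pos (Nat.le_of_lt_succ ((Nat.pow_lt_pow_iff_right hq.out.one_lt).1 this))).trans_eq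
      (pow_one q)
  obtain ⟨j, hj⟩ := (hX.of_surjective _ f.rangeRestrict_surjective).exists_card_eq
  have h2 : q ^ j ∣ q.factorial := hj ▸ (card_subgroup_dvd_card _).trans
    (by rw [Nat.card_perm]; exact Nat.factorial_dvd_factorial h1)
  have h3 : j ≤ 2 := by
    by_contra h3
    have := ((pow_dvd_pow q (show 2 ≤ j by omega)).trans h2)
    rw [← Nat.mul_factorial_pred hq.out.ne_zero, sq, Nat.mul_dvd_mul_iff_left hq.out.pos, hq.out.dvd_factorial] at this
    have := hq.out.pos
    omega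
  exact congrArg (fun g : Perm (MulAction.orbit X x) => (g ⟨x, MulAction.mem_orbit_self x⟩).1)
    ((p2group_abelian (A := f.range) (hj ▸ pow_dvd_pow q h3)).comm (MonoidHom.mem_range.2 ⟨a, rfl⟩)
      (MonoidHom.mem_range.2 ⟨b, rfl⟩)))⟩⟩

theorem aux (n : ℕ) (hn : 5 ≤ n) (G : Subgroup (MulAut (alternatingGroup (Fin n))))
    (hG : (MulAut.conj : alternatingGroup (Fin n) →* MulAut (alternatingGroup (Fin n))).range ≤ G)
    (p q : ℕ) [hp : Fact p.Prime] [hq : Fact q.Prime] (hpq : p < q) (h : ∀ g : G, orderOf g ≠ p * q)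
    (Q : Sylow q G) : IsMulCommutative (Q : Subgroup G) := by
  have h2 := hp.out.two_le
  have ho : Odd q := hq.out.odd_of_ne_two (by omega)
  have inj := Perm.AutAlt.conjNormal_injective (α := Fin n) (by simp; omega)
  by_cases hlt : n < q ^ 2
  · have h1 := Q.2.map G.subtype
    have h3 := comm_of_lt hlt (h1.comap_of_injective _ inj)
    refine ⟨⟨fun a b => ?_⟩⟩
    have key : ∀ a : Q, ∃ σ, MulAut.conjNormal σ = a.1.1 := fun a => odd_inner hn _ (by
      obtain ⟨k, hk⟩ := IsPGroup.iff_orderOf.1 Q.2 a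
      rw [orderOf_coe, orderOf_coe, hk]; exact ho.pow)
    obtain ⟨σ, hσ⟩ := key a
    obtain ⟨τ, hτ⟩ := key b
    refine Subtype.ext (Subtype.ext ?_)
    change a.1.1 * b.1.1 = b.1.1 * a.1.1
    rw [← hσ, ← hτ, ← map_mul, ← map_mul, h3.comm ⟨a, a.2, hσ.symm⟩ ⟨b, b.2, hτ.symm⟩]
  obtain ⟨g, hg⟩ := (exists_with_cycleType_iff (Fin n) (m := {p, p, q})).2 ⟨by simp; nlinarith, by simp; omega⟩
  have h3 : g ∈ alternatingGroup (Fin n) := by
    obtain ⟨k, rfl⟩ := ho
    rw [mem_alternatingGroup, sign_of_cycleType, hg]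
    exact Even.neg_one_pow ⟨p + k + 2, by simp; omega⟩
  refine (h ⟨_, hG ⟨⟨g, h3⟩, rfl⟩⟩ ?_).elim
  rw [← orderOf_coe]
  change orderOf (MulAut.conjNormal g : MulAut (alternatingGroup (Fin n))) = _
  rw [orderOf_injective _ inj, ← lcm_cycleType, hg]
  simp [lcm_eq_nat_lcm, ((Nat.coprime_primes hp.out hq.out).2 hpq.ne).lcm_eq_mul]

/-- Let n ≥ 5 and let G be a group of automorphisms of the alternating group of degree n containing all inner automorphisms. If p ≠ q are primes and G has no element of order pq, then every Sylow p-subgroup of G is abelian or every Sylow q-subgroup of G is abelian. -/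
theorem result (n : ℕ) (hn : 5 ≤ n) (G : Subgroup (MulAut (alternatingGroup (Fin n))))
    (hG : (MulAut.conj : alternatingGroup (Fin n) →* MulAut (alternatingGroup (Fin n))).range ≤ G)
    (p q : ℕ) [Fact p.Prime] [Fact q.Prime] (hpq : p ≠ q) (h : ∀ g : G, orderOf g ≠ p * q) :
    (∀ P : Sylow p G, IsMulCommutative (P : Subgroup G)) ∨ (∀ Q : Sylow q G, IsMulCommutative (Q : Subgroup G)) := by
  rcases hpq.lt_or_gt with h1 | h1
  · exact Or.inr (aux n hn G hG p q h1 h)
  · exact Or.inl (aux n hn G hG q p h1 (mul_comm p q ▸ h))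

end Cfsg.Agent.S4231
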