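import Cfsg.Statements.S4234
import Cfsg.Agent.Classical.SLCard
import Mathlib

set_option autoImplicit false
open Cfsg

namespace Cfsg.Agent.S4234

open Subgroup

section Simple
variable {G : Type*} [Group G] [Finite G] [IsSimpleGroup G] (hG : Nat.card G = 1092)
include hG

theorem idx (X : Subgroup G) (hX : X ≠ ⊤) : 13 ≤ X.index := by
  have hk : (MulAction.toPermHom G (G ⧸ X)).ker = ⊥ := by
    rw [← normalCore_eq_ker]
    exact (X.normalCore_normal.eq_bot_or_eq_top).resolve_right fun h =>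
      hX (top_le_iff.1 (h ▸ X.normalCore_le))
  have := card_dvd_of_injective _ ((MonoidHom.ker_eq_bot_iff _).1 hk)
  rw [Nat.card_perm, hG, ← index] at this
  have h13 : 13 ∣ X.index.factorial := Dvd.dvd.trans (by norm_num) this
  exact (Nat.Prime.dvd_factorial (by norm_num)).1 h13

theorem norm_ne (H : Subgroup G) (h1 : H ≠ ⊥) (h2 : H ≠ ⊤) : normalizer (H : Set G) ≠ ⊤ := fun h =>
  (normalizer_eq_top_iff.1 h).eq_bot_or_eq_top.elim h1 h2

theorem ne_of_card {H : Subgroup G} {n : ℕ} (h : Nat.card H = n) (h1 : n ≠ 1) (h2 : n ≠ 1092) :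
    H ≠ ⊥ ∧ H ≠ ⊤ := by
  constructor <;> rintro rfl
  · simp at h; omega
  · rw [card_top, hG] at h; omega

theorem burn {p : ℕ} [Fact p.Prime] (P : Sylow p G) (h1 : Nat.card P ≠ 1) (h2 : Nat.card P ≠ 1092) :
    ¬ normalizer ((P : Subgroup G) : Set G) ≤ centralizer ((P : Subgroup G) : Set G) := by
  intro h
  have hc := (MonoidHom.ker_transferSylow_isComplement' P h).card_mul
  rcases (MonoidHom.normal_ker (MonoidHom.transferSylow P h)).eq_bot_or_eq_top with e | e
  · rw [e, card_bot, one_mul, hG] at hc; exact h2 hc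
  · rw [e, card_top] at hc
    exact h1 (Nat.eq_of_mul_eq_mul_left Nat.card_pos (hc.trans (mul_one _).symm))

omit [IsSimpleGroup G] in
theorem syl {p k : ℕ} [hp : Fact p.Prime] (hk : ¬ p ^ (k + 1) ∣ 1092) (Q : Subgroup G)
    (hQ : Nat.card Q = p ^ k) : ∃ P : Sylow p G, (P : Subgroup G) = Q := by
  obtain ⟨P, hP⟩ := (IsPGroup.of_card hQ).exists_le_sylow
  obtain ⟨m, hm⟩ := IsPGroup.iff_card.1 P.isPGroup'
  refine ⟨P, (eq_of_le_of_card_ge hP ?_).symm⟩
  rw [hm, hQ]
  refine Nat.pow_le_pow_right hp.out.pos ?_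
  by_contra hc
  exact hk ((pow_dvd_pow p (by omega)).trans (hm ▸ hG ▸ card_subgroup_dvd_card _))

omit [IsSimpleGroup G] hG in
theorem le_norm (X : Subgroup G) {p m : ℕ} [hp : Fact p.Prime] (hX : Nat.card X = p * m)
    (hm : ¬ p ∣ m) (h : ∀ n, n ∣ m → n % p = 1 → n = 1) :
    ∃ Q : Subgroup G, Nat.card Q = p ∧ Q ≤ X ∧ X ≤ normalizer (Q : Set G) := by
  obtain ⟨P⟩ : Nonempty (Sylow p X) := inferInstance
  have hP : Nat.card P = p := by
    rw [P.card_eq_multiplicity, hX, Nat.factorization_mul hp.out.ne_zero (by rintro rfl; simp at hm)]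
    simp [hp.out.factorization_self, Nat.factorization_eq_zero_of_not_dvd hm]
  have hi : (P : Subgroup X).index = m := by
    have := (P : Subgroup X).card_mul_index
    rw [hX] at this
    erw [hP] at this
    exact Nat.eq_of_mul_eq_mul_left hp.out.pos this
  have h1 : Nat.card (Sylow p X) = 1 := h _ (hi ▸ P.card_dvd_index) (by
    have := card_sylow_modEq_one p X
    rwa [Nat.ModEq, Nat.mod_eq_of_lt hp.out.one_lt] at this)
  haveI := (Nat.card_eq_one_iff_unique.1 h1).1
  have hn := P.normal_of_subsingleton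
  refine ⟨(P : Subgroup X).map X.subtype, by rw [card_map_of_injective X.subtype_injective]; exact hP,
    map_subtype_le _, ?_⟩
  rw [← normal_subgroupOf_iff_le_normalizer (map_subtype_le _)]
  rwa [subgroupOf, comap_map_eq_self_of_injective X.subtype_injective]

theorem nsyl {p : ℕ} [hp : Fact p.Prime] (P : Sylow p G) (h1 : Nat.card P ≠ 1)
    (h2 : Nat.card P ≠ 1092) : ∃ n, 13 ≤ n ∧ n % p = 1 ∧
      Nat.card (normalizer ((P : Subgroup G) : Set G)) * n = 1092 := by
  obtain ⟨a, b⟩ := ne_of_card hG (H := P) rfl h1 h2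
  refine ⟨_, idx hG _ (norm_ne hG _ a b), ?_, hG ▸ card_mul_index _⟩
  have := card_sylow_modEq_one p G
  rw [Nat.ModEq, Nat.mod_eq_of_lt hp.out.one_lt, P.card_eq_index_normalizer] at this
  exact this

instance f7 : Fact (Nat.Prime 7) := ⟨by norm_num⟩
instance f13 : Fact (Nat.Prime 13) := ⟨by norm_num⟩

theorem n7 (Q : Subgroup G) (hQ : Nat.card Q = 7) : Nat.card (normalizer (Q : Set G)) = 14 := by
  obtain ⟨P, rfl⟩ := syl hG (p := 7) (k := 1) (by norm_num) Q hQ
  obtain ⟨n, h1, h2, h3⟩ := nsyl hG P (by erw [hQ]; omega) (by erw [hQ]; omega)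
  have h4 := hQ ▸ card_dvd_of_le (le_normalizer (H := (P : Subgroup G)))
  generalize Nat.card (normalizer ((P : Subgroup G) : Set G)) = d at *
  obtain ⟨c, rfl⟩ := h4
  have : c ≤ 12 := by nlinarith
  interval_cases c <;> omega

theorem n13 (Q : Subgroup G) (hQ : Nat.card Q = 13) : Nat.card (normalizer (Q : Set G)) = 78 := by
  obtain ⟨P, rfl⟩ := syl hG (p := 13) (k := 1) (by norm_num) Q hQ
  obtain ⟨n, h1, h2, h3⟩ := nsyl hG P (by erw [hQ]; omega) (by erw [hQ]; omega)
  have h4 := hQ ▸ card_dvd_of_le (le_normalizer (H := (P : Subgroup G)))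
  generalize Nat.card (normalizer ((P : Subgroup G) : Set G)) = d at *
  obtain ⟨c, rfl⟩ := h4
  have : c ≤ 6 := by nlinarith
  interval_cases c <;> omega

theorem orders (X : Subgroup G) (hX : X ≠ ⊤) :
    Nat.card X ∈ ({1, 2, 3, 4, 6, 7, 12, 13, 14, 26, 39, 78} : Finset ℕ) := by
  have h1 := idx hG X hX
  have h2 := X.card_mul_index
  rw [hG] at h2
  have h7 : ∀ m, Nat.card X = 7 * m → ¬ 7 ∣ m → (∀ n, n ∣ m → n % 7 = 1 → n = 1) → 7 * m ∣ 14 := by
    intro m hm h h'
    obtain ⟨Q, hQ, -, hle⟩ := le_norm X hm h h'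
    exact hm ▸ n7 hG Q hQ ▸ card_dvd_of_le hle
  have h13 : Nat.card X ≠ 13 * 4 := by
    intro hm
    obtain ⟨Q, hQ, -, hle⟩ := le_norm X hm (by norm_num) (fun n hn h => by
      have := Nat.le_of_dvd (by norm_num) hn; omega)
    have := hm ▸ n13 hG Q hQ ▸ card_dvd_of_le hle
    omega
  have k : ∀ m, m ∣ 12 → Nat.card X = 7 * m → 7 * m ∣ 14 := fun m hm e =>
    h7 m e (fun h => by have := h.trans hm; omega) fun n hn h => by
      have := Nat.le_of_dvd (by norm_num) (hn.trans hm)
      have := hn.trans hm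
      interval_cases n <;> omega
  have k3 := k 3 (by norm_num)
  have k4 := k 4 (by norm_num)
  have k6 := k 6 (by norm_num)
  have k12 := k 12 (by norm_num)
  have hd : Nat.card X ∣ 1092 := Dvd.intro _ h2
  generalize Nat.card X = d at *
  have : d ≤ 84 := by nlinarith
  interval_cases d <;> first | decide | omega

theorem cases_of_dvd (X : Subgroup G) (hX : X ≠ ⊤) {d : ℕ} (h : d ∣ Nat.card X) :
    ∃ e ∈ ({1, 2, 3, 4, 6, 7, 12, 13, 14, 26, 39, 78} : Finset ℕ), d ∣ e ∧ Nat.card X = e :=
  ⟨_, orders hG X hX, h, rfl⟩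

theorem coatom (X : Subgroup G) (hX : X ≠ ⊤)
    (h : 12 ∣ Nat.card X ∨ 14 ∣ Nat.card X ∨ 78 ∣ Nat.card X) : IsCoatom X := by
  refine ⟨hX, fun Y hY => ?_⟩
  by_contra hc
  have h1 := orders hG X hX
  have h2 := orders hG Y hc
  have h3 := card_dvd_of_le hY.le
  have h4 : Nat.card X ≠ Nat.card Y := fun e => hY.ne (eq_of_le_of_card_ge hY.le e.ge)
  generalize Nat.card X = a at *
  generalize Nat.card Y = b at *
  revert h h3 h4
  revert b
  revert a
  decide

omit [IsSimpleGroup G] hG in
theorem aut_dvd (Q : Subgroup G) {p : ℕ} [hp : Fact p.Prime] (hQ : Nat.card Q = p) :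
    Nat.card (normalizer (Q : Set G)) ∣ Nat.card (centralizer (Q : Set G)) * (p - 1) := by
  haveI := isCyclic_of_prime_card hQ
  have h1 := (normalizerMonoidHom Q).ker.card_mul_index
  rw [index_ker, normalizerMonoidHom_ker,
    Nat.card_congr (subgroupOfEquivOfLe (centralizer_le_normalizer _)).toEquiv] at h1
  rw [← h1]
  refine Nat.mul_dvd_mul_left _ ?_
  have := card_subgroup_dvd_card (normalizerMonoidHom Q).range
  rwa [IsCyclic.card_mulAut, hQ, Nat.totient_prime hp.out] at this

theorem n3 (Q : Subgroup G) (hQ : Nat.card Q = 3) : Nat.card (normalizer (Q : Set G)) = 12 := by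
  have ha := aut_dvd Q hQ
  obtain ⟨P, rfl⟩ := syl hG (p := 3) (k := 1) (by norm_num) Q hQ
  obtain ⟨n, h1, h2, h3⟩ := nsyl hG P (by erw [hQ]; omega) (by erw [hQ]; omega)
  have h4 := hQ ▸ card_dvd_of_le (le_normalizer (H := (P : Subgroup G)))
  obtain ⟨a, b⟩ := ne_of_card hG hQ (by omega) (by omega)
  have h5 := orders hG _ (norm_ne hG _ a b)
  have h6 : ¬ Odd (Nat.card (normalizer ((P : Subgroup G) : Set G))) := by
    intro ho
    refine burn hG P (by erw [hQ]; omega) (by erw [hQ]; omega) ?_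
    refine (eq_of_le_of_card_ge (centralizer_le_normalizer _) ?_).ge
    exact Nat.le_of_dvd Nat.card_pos
      ((Nat.coprime_two_right.2 ho).dvd_of_dvd_mul_right ha)
  generalize Nat.card (normalizer ((P : Subgroup G) : Set G)) = d at *
  rw [Nat.odd_iff] at h6
  simp only [Finset.mem_insert, Finset.mem_singleton] at h5
  rcases h5 with h | h | h | h | h | h | h | h | h | h | h | h <;> subst h <;> omega

omit [Finite G] [IsSimpleGroup G] hG in
theorem comm4 (T : Subgroup G) (hT : Nat.card T = 4) : T ≤ centralizer (T : Set G) := by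
  haveI := IsPGroup.isMulCommutative_of_card_eq_prime_sq (p := 2) (G := T) hT
  exact le_centralizer T

theorem n4 (Q : Subgroup G) (hQ : Nat.card Q = 4) : Nat.card (normalizer (Q : Set G)) = 12 ∧
    ¬ normalizer (Q : Set G) ≤ centralizer (Q : Set G) := by
  obtain ⟨P, rfl⟩ := syl hG (p := 2) (k := 2) (by norm_num) Q hQ
  have hb := burn hG P (by erw [hQ]; omega) (by erw [hQ]; omega)
  refine ⟨?_, hb⟩
  have h4 := hQ ▸ card_dvd_of_le (le_normalizer (H := (P : Subgroup G)))
  obtain ⟨a, b⟩ := ne_of_card hG hQ (by omega) (by omega)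
  have h5 := orders hG _ (norm_ne hG _ a b)
  have h6 : Nat.card (normalizer ((P : Subgroup G) : Set G)) ≠ 4 := by
    intro h
    apply hb
    rw [← eq_of_le_of_card_ge le_normalizer (h.trans hQ.symm).le]
    exact comm4 _ hQ
  generalize Nat.card (normalizer ((P : Subgroup G) : Set G)) = d at *
  simp only [Finset.mem_insert, Finset.mem_singleton] at h5
  omega

omit [IsSimpleGroup G] in
theorem ex4 {t : G} (ht : orderOf t = 2) : ∃ T : Subgroup G, Nat.card T = 4 ∧ t ∈ T := by
  obtain ⟨P, hP⟩ := (IsPGroup.of_card (p := 2) (n := 1) (G := zpowers t)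
    (by rw [Nat.card_zpowers, ht]; rfl)).exists_le_sylow
  refine ⟨P, ?_, hP (mem_zpowers t)⟩
  rw [P.card_eq_multiplicity, hG, show 1092 = 2 ^ 2 * 273 by norm_num,
    Nat.factorization_mul (by norm_num) (by norm_num), Nat.prime_two.factorization_pow]
  simp [Nat.factorization_eq_zero_of_not_dvd]

omit [IsSimpleGroup G] in
theorem four_dvd {t : G} (ht : orderOf t = 2) : 4 ∣ Nat.card (normalizer (zpowers t : Set G)) := by
  obtain ⟨T, hT, htT⟩ := ex4 hG ht
  exact hT ▸ card_dvd_of_le (((comm4 T hT).trans (centralizer_le (by simpa using htT))).trans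
    (centralizer_le_normalizer _))

theorem fuse {T : Subgroup G} (hT : Nat.card T = 4) {s t : G} (hs : s ∈ T) (ht : t ∈ T)
    (hs1 : s ≠ 1) (ht1 : t ≠ 1) : IsConj s t := by
  classical
  obtain ⟨h12, hb⟩ := n4 hG T hT
  obtain ⟨y, hy⟩ := exists_prime_orderOf_dvd_card' (G := normalizer (T : Set G)) 3 (by rw [h12]; norm_num)
  have hP : IsPGroup 3 (zpowers y) := IsPGroup.of_card (n := 1) (by rw [Nat.card_zpowers, hy]; rfl)
  letI : MulAction (zpowers y) T := MulAction.compHom _ ((normalizerMonoidHom T).comp (zpowers y).subtype)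
  have hsm : ∀ (g : zpowers y) (x : T), ((g • x : T) : G) = g * x * (g : G)⁻¹ := fun g x => rfl
  have hfix : ∀ x : T, x ∈ MulAction.fixedPoints (zpowers y) T → x = 1 := by
    have hmod := hP.card_modEq_card_fixedPoints T
    let C : Subgroup T := (centralizer {(y : G)}).subgroupOf T
    have hC : MulAction.fixedPoints (zpowers y) T = C := by
      ext x
      simp only [MulAction.mem_fixedPoints, C, SetLike.mem_coe, mem_subgroupOf,
        mem_centralizer_singleton_iff]
      constructor
      · intro h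
        have := congrArg Subtype.val (h ⟨y, mem_zpowers y⟩)
        rw [hsm] at this
        exact (mul_inv_eq_iff_eq_mul.1 this).symm
      · rintro h ⟨g, k, rfl⟩
        apply Subtype.ext
        rw [hsm, mul_inv_eq_iff_eq_mul]
        exact ((Commute.zpow_right h k).eq.symm :)
    rw [hC, hT] at hmod
    rw [hC]
    have hd : Nat.card C ∣ 4 := hT ▸ card_subgroup_dvd_card C
    have h4 : Nat.card C ≠ 4 := by
      intro h
      have hC' : C = ⊤ := eq_top_of_card_eq _ (h.trans hT.symm)
      apply hb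
      have h3 : 3 ∣ Nat.card (centralizer (T : Set G)) := by
        rw [← hy, ← orderOf_coe]
        refine orderOf_dvd_natCard _ fun x hx => ?_
        exact mem_centralizer_singleton_iff.1 (subgroupOf_eq_top.1 hC' hx)
      have h4 := hT ▸ card_dvd_of_le (comm4 T hT)
      refine (eq_of_le_of_card_ge (centralizer_le_normalizer _) ?_).ge
      rw [h12]
      exact Nat.le_of_dvd Nat.card_pos (Nat.Coprime.mul_dvd_of_dvd_of_dvd (by norm_num) h3 h4)
    have h1 : Nat.card C = 1 := by
      have := Nat.le_of_dvd (by norm_num) hd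
      change 4 % 3 = Nat.card C % 3 at hmod
      generalize Nat.card C = c at *
      interval_cases c <;> omega
    intro x hx
    rw [card_eq_one.1 h1] at hx
    exact hx
  have horb : ∀ x : T, x ≠ 1 → MulAction.orbit (zpowers y) x = {1}ᶜ := by
    intro x hx
    have hsub : MulAction.orbit (zpowers y) x ⊆ {1}ᶜ := by
      rintro _ ⟨g, rfl⟩ h
      apply hx
      have := congrArg Subtype.val (Set.mem_singleton_iff.1 h)
      rw [hsm] at this
      exact Subtype.ext (by simpa using this)
    refine Set.eq_of_subset_of_ncard_le hsub ?_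
    obtain ⟨n, hn⟩ := hP.card_orbit x
    have hn0 : n ≠ 0 := by
      rintro rfl
      haveI := (Nat.card_eq_one_iff_unique.1 hn).1
      refine hx (hfix x fun g => ?_)
      exact congrArg Subtype.val (Subsingleton.elim
        (⟨_, MulAction.mem_orbit x g⟩ : MulAction.orbit (zpowers y) x) ⟨_, MulAction.mem_orbit_self x⟩)
    rw [Set.ncard_compl, hT, Set.ncard_singleton, ← Nat.card_coe_set_eq, hn]
    exact Nat.le_self_pow hn0 3
  have : (⟨t, ht⟩ : T) ∈ MulAction.orbit (zpowers y) (⟨s, hs⟩ : T) := by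
    rw [horb _ (fun h => hs1 (congrArg Subtype.val h))]
    exact fun h => ht1 (congrArg Subtype.val h)
  obtain ⟨g, hg⟩ := this
  exact isConj_iff.2 ⟨_, congrArg Subtype.val hg⟩

theorem n2 {t : G} (ht : orderOf t = 2) : 12 ∣ Nat.card (normalizer (zpowers t : Set G)) := by
  refine Nat.Coprime.mul_dvd_of_dvd_of_dvd (m := 3) (n := 4) (by norm_num) ?_ (four_dvd hG ht)
  obtain ⟨y, hy⟩ := exists_prime_orderOf_dvd_card' (G := G) 3 (by rw [hG]; norm_num)
  have hQ : Nat.card (zpowers y) = 3 := by rw [Nat.card_zpowers, hy]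
  have ha := aut_dvd _ hQ
  rw [n3 hG _ hQ] at ha
  obtain ⟨s, hs⟩ := exists_prime_orderOf_dvd_card' (G := centralizer (zpowers y : Set G)) 2
    (by omega)
  rw [← orderOf_coe] at hs
  have hc : y * s = s * y := s.2 y (mem_zpowers y)
  obtain ⟨T, hT, htT⟩ := ex4 hG ht
  obtain ⟨S, hS, hsS⟩ := ex4 hG hs
  obtain ⟨T', rfl⟩ := syl hG (p := 2) (k := 2) (by norm_num) T hT
  obtain ⟨S', rfl⟩ := syl hG (p := 2) (k := 2) (by norm_num) S hS
  obtain ⟨g, rfl⟩ := MulAction.exists_smul_eq G S' T'
  have h1 : g * s * g⁻¹ ∈ ((g • S' : Sylow 2 G) : Subgroup G) :=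
    smul_mem_pointwise_smul (s : G) (MulAut.conj g) _ hsS
  have hs1 : (s : G) ≠ 1 := fun h => by rw [h, orderOf_one] at hs; omega
  obtain ⟨c, hc'⟩ := isConj_iff.1 (fuse hG hT h1 htT (by simpa using hs1)
    (fun h => by rw [h, orderOf_one] at ht; omega))
  have ho : orderOf (c * g * y * (c * g)⁻¹) = 3 := by
    rw [← hy]; exact ((MulAut.conj (c * g)).orderOf_eq y)
  rw [← ho]
  refine orderOf_dvd_natCard _ (centralizer_le_normalizer _ ?_)
  rintro _ ⟨k, rfl⟩
  refine (Commute.zpow_left ?_ k).eq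
  rw [← hc']
  change _ * _ = _ * _
  calc _ = c * g * (s * y) * (c * g)⁻¹ := by group
    _ = _ := by rw [← hc]; group

theorem c13 (Q : Subgroup G) (hQ : Nat.card Q = 13) : centralizer (Q : Set G) ≤ Q := by
  haveI := isCyclic_of_prime_card hQ
  have hle : Q ≤ centralizer (Q : Set G) := le_centralizer Q
  have key : ∀ x ∈ centralizer (Q : Set G), 13 ∣ Nat.card (normalizer (zpowers x : Set G)) := by
    intro x hx
    refine hQ ▸ card_dvd_of_le (le_trans ?_ (centralizer_le_normalizer _))
    rw [le_centralizer_iff]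
    simpa using hx
  have h78 := n13 hG Q hQ ▸ card_dvd_of_le (centralizer_le_normalizer (Q : Set G))
  have h13 := hQ ▸ card_dvd_of_le hle
  have h2 : ¬ 2 ∣ Nat.card (centralizer (Q : Set G)) := by
    intro h
    obtain ⟨s, hs⟩ := exists_prime_orderOf_dvd_card' 2 h
    rw [← orderOf_coe] at hs
    obtain ⟨a, b⟩ := ne_of_card hG ((Nat.card_zpowers (s : G)).trans hs) (by omega) (by omega)
    have h5 := orders hG _ (norm_ne hG _ a b)
    have h6 := key s s.2
    have h7 := four_dvd hG hs
    generalize Nat.card (normalizer (zpowers (s : G) : Set G)) = d at *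
    simp only [Finset.mem_insert, Finset.mem_singleton] at h5
    omega
  have h3 : ¬ 3 ∣ Nat.card (centralizer (Q : Set G)) := by
    intro h
    obtain ⟨s, hs⟩ := exists_prime_orderOf_dvd_card' 3 h
    rw [← orderOf_coe] at hs
    have h6 := key s s.2
    rw [n3 hG _ ((Nat.card_zpowers (s : G)).trans hs)] at h6
    omega
  refine (eq_of_le_of_card_ge hle ?_).ge
  rw [hQ]
  have := Nat.le_of_dvd (by norm_num) h78
  generalize Nat.card (centralizer (Q : Set G)) = d at *
  obtain ⟨c, rfl⟩ := h13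
  have : c ≤ 6 := by omega
  interval_cases c <;> omega

theorem simple_main (H : Subgroup G) (h1 : H ≠ ⊥) (h2 : H ≠ ⊤) :
    IsCoatom (normalizer (H : Set G)) := by
  refine coatom hG _ (norm_ne hG H h1 h2) ?_
  have h0 := card_dvd_of_le (le_normalizer (H := H))
  have k13 : ∀ m, m ∣ 6 → Nat.card H = 13 * m → 78 ∣ Nat.card (normalizer (H : Set G)) := by
    intro m hm e
    have hm6 := Nat.le_of_dvd (by norm_num) hm
    obtain ⟨Q, hQ, hQH, hle⟩ := le_norm H e (fun h => by have := h.trans hm; omega) fun n hn h => by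
      have := Nat.le_of_dvd (by norm_num) (hn.trans hm)
      omega
    refine n13 hG Q hQ ▸ card_dvd_of_le ?_
    rw [← normal_subgroupOf_iff_le_normalizer hle]
    haveI := isCyclic_of_prime_card hQ
    refine ⟨fun h hh g => ?_⟩
    have : g * h * g⁻¹ * h⁻¹ ∈ (normalizerMonoidHom Q).ker := by
      rw [MonoidHom.mem_ker]
      simp only [map_mul, map_inv]
      apply (IsCyclic.mulAutMulEquiv Q).injective
      simp only [map_mul, map_inv, map_one]
      rw [mul_right_comm, mul_right_comm _ _ _⁻¹]; simp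
    rw [normalizerMonoidHom_ker, mem_subgroupOf] at this
    have := H.mul_mem (hQH (c13 hG Q hQ this)) hh
    simpa [mem_subgroupOf] using this
  have h5 := orders hG H h2
  simp only [Finset.mem_insert, Finset.mem_singleton] at h5
  rcases h5 with h | h | h | h | h | h | h | h | h | h | h | h
  · exact absurd (card_eq_one.1 h) h1
  · obtain ⟨t, ht⟩ := exists_prime_orderOf_dvd_card' (G := H) 2 (by rw [h])
    rw [← orderOf_coe] at ht
    have : zpowers (t : G) = H :=
      eq_of_le_of_card_ge (by simp) (by rw [Nat.card_zpowers, ht, h])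
    exact Or.inl (this ▸ n2 hG ht)
  · rw [n3 hG H h]; simp
  · rw [(n4 hG H h).1]; simp
  · obtain ⟨Q, hQ, -, hle⟩ := le_norm H (p := 3) (m := 2) h (by norm_num) fun n hn h => by
      have := Nat.le_of_dvd (by norm_num) hn
      omega
    left
    refine n3 hG Q hQ ▸ card_dvd_of_le ?_
    rw [← normal_subgroupOf_iff_le_normalizer hle]
    apply normal_of_index_eq_two
    have := (H.subgroupOf (normalizer (Q : Set G))).card_mul_index
    rw [n3 hG Q hQ, Nat.card_congr (subgroupOfEquivOfLe hle).toEquiv, h] at this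
    omega
  · rw [n7 hG H h]; simp
  · exact Or.inl (h ▸ h0)
  · exact Or.inr (Or.inr (k13 1 (by norm_num) h))
  · exact Or.inr (Or.inl (h ▸ h0))
  · exact Or.inr (Or.inr (k13 2 (by norm_num) h))
  · exact Or.inr (Or.inr (k13 3 (by norm_num) h))
  · exact Or.inr (Or.inr (k13 6 (by norm_num) h))

end Simple

/-- Every non-normal subgroup has a maximal normalizer. -/
def MN (K : Type*) [Group K] : Prop :=
  ∀ H : Subgroup K, ¬ H.Normal → IsCoatom (normalizer (H : Set K))

theorem MN.lift {K G : Type*} [Group K] [Finite K] [Group G] (hG : MN G) (π : K →* G)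
    (hπ : Function.Surjective π) (h : ∀ H : Subgroup K, ∀ g, ∀ h ∈ H, ∀ h' ∈ H,
      π (g * h * g⁻¹) = π h' → g * h * g⁻¹ ∈ H) : MN K := by
  intro H hH
  have e : normalizer (H : Set K) = (normalizer (H.map π : Set G)).comap π := by
    apply le_antisymm
    · rw [← map_le_iff_le_comap]; exact le_normalizer_map π
    · intro g hg
      refine mem_normalizer_fintype fun x hx => ?_
      obtain ⟨y, hy, e⟩ := (mem_normalizer_iff.1 hg (π x)).1 (mem_map_of_mem π hx)
      exact h H g x hx y hy (by simp [e])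
  rw [e]
  refine isCoatom_comap_of_surjective hπ (hG _ fun hn => hH ?_)
  rw [← normalizer_eq_top_iff, e, normalizer_eq_top_iff.2 hn, comap_top]

instance f13' : Fact (Nat.Prime 13) := ⟨by norm_num⟩

theorem mn_psl : MN (Matrix.ProjectiveSpecialLinearGroup (Fin 2) (ZMod 13)) := by
  haveI := Matrix.ProjectiveSpecialLinearGroup.rank_two_simple (F := ZMod 13) (by simp)
  have hc := Classical.card_PSL2_mul (F := ZMod 13)
  simp only [Nat.card_eq_fintype_card, ZMod.card] at hc
  intro H hH
  refine simple_main (by rw [Nat.card_eq_fintype_card]; norm_num at hc; omega) H ?_ ?_ <;>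
    rintro rfl <;> exact hH inferInstance

theorem invol : ∀ a b c d : ZMod 13, a * d - b * c = 1 → a * a + b * c = 1 → a * b + b * d = 0 →
    c * a + d * c = 0 → c * b + d * d = 1 → b = 0 ∧ c = 0 ∧ a = d ∧ (a = 1 ∨ a = -1) := by
  decide +kernel

theorem mn_sl : MN (Matrix.SpecialLinearGroup (Fin 2) (ZMod 13)) := by
  have key : ∀ z : Matrix.SpecialLinearGroup (Fin 2) (ZMod 13), z * z = 1 → z = 1 ∨ z = -1 := by
    intro z hz
    have hd := z.det_coe
    rw [Matrix.det_fin_two] at hd
    have e := fun i j => congrFun (congrFun (congrArg Subtype.val hz) i) j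
    have e1 := e 0 0
    have e2 := e 0 1
    have e3 := e 1 0
    have e4 := e 1 1
    simp [Matrix.mul_apply, Fin.sum_univ_two] at e1 e2 e3 e4
    obtain ⟨h1, h2, h3, h4 | h4⟩ := invol _ _ _ _ hd e1 e2 e3 e4
    · left; ext i j; fin_cases i <;> fin_cases j <;> simp [h1, h2, ← h3, h4]
    · right; ext i j; fin_cases i <;> fin_cases j <;> simp [h1, h2, ← h3, h4]
  refine mn_psl.lift (QuotientGroup.mk' _) (QuotientGroup.mk'_surjective _) fun H g h hh h' hh' e => ?_
  obtain ⟨z, hz, e⟩ := (QuotientGroup.mk'_eq_mk' _).1 e.symm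
  have hz2 : z * z = 1 := by
    obtain ⟨c, hc, e⟩ := Matrix.SpecialLinearGroup.mem_center_iff.1 hz
    apply Subtype.ext
    rw [Matrix.SpecialLinearGroup.coe_mul, ← e, ← map_mul, ← sq]
    rw [Fintype.card_fin] at hc
    rw [hc]; simp
  rw [← e]
  rcases key z hz2 with rfl | rfl
  · simpa using hh'
  refine H.mul_mem hh' ?_
  by_cases h2 : 2 ∣ Nat.card H
  · obtain ⟨t, ht⟩ := exists_prime_orderOf_dvd_card' 2 h2
    rw [← orderOf_coe] at ht
    rcases key t (by rw [← sq]; exact orderOf_dvd_iff_pow_eq_one.1 ht.dvd) with h | h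
    · rw [h, orderOf_one] at ht; omega
    · exact h ▸ t.2
  · have ho : Odd (Nat.card H) := Nat.not_even_iff_odd.1 (fun h => h2 h.two_dvd)
    have p1 : h ^ Nat.card H = 1 := congrArg Subtype.val (pow_card_eq_one' (x := (⟨h, hh⟩ : H)))
    have p2 : h' ^ Nat.card H = 1 := congrArg Subtype.val (pow_card_eq_one' (x := (⟨h', hh'⟩ : H)))
    have := congrArg (· ^ Nat.card H) e
    simp only [conj_pow, p1, mul_neg, mul_one, ho.neg_pow, p2, mul_inv_cancel] at this
    rw [this]; exact H.one_mem

/-- Let K be isomorphic to PSL(2, 13) or to SL(2, 13) and let S be a finite abelian group of order coprime to the order of K. Then in the direct product K × S every subgroup that is not normal has a normalizer that is a maximal subgroup. -/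
theorem result {K S : Type*} [Group K] [CommGroup S] [Finite K] [Finite S]
    (hK : Nonempty (K ≃* Matrix.ProjectiveSpecialLinearGroup (Fin 2) (ZMod 13)) ∨
      Nonempty (K ≃* Matrix.SpecialLinearGroup (Fin 2) (ZMod 13)))
    (hKS : (Nat.card K).Coprime (Nat.card S)) (H : Subgroup (K × S)) (hH : ¬ H.Normal) :
    IsCoatom (Subgroup.normalizer (H : Set (K × S))) := by
  have hM : MN K := by
    rcases hK with ⟨⟨e⟩⟩ | ⟨⟨e⟩⟩
    · exact mn_psl.lift e.toMonoidHom e.surjective fun H g h _ h' hh' e' => e.injective e' ▸ hh'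
    · exact mn_sl.lift e.toMonoidHom e.surjective fun H g h _ h' hh' e' => e.injective e' ▸ hh'
  refine hM.lift (MonoidHom.fst K S) Prod.fst_surjective (fun H g h hh h' hh' e => ?_) H hH
  obtain ⟨n, h1, h2⟩ := Nat.chineseRemainder hKS 1 0
  have key : ∀ x ∈ H, (x.1, (1 : S)) ∈ H := by
    intro x hx
    convert H.pow_mem hx n using 1
    ext
    · rw [Prod.pow_fst, pow_eq_pow_mod n pow_card_eq_one', h1, ← pow_eq_pow_mod 1 pow_card_eq_one',
        pow_one]
    · rw [Prod.pow_snd, pow_eq_pow_mod n pow_card_eq_one', h2]; simp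
  convert H.mul_mem (key h' hh') (H.mul_mem (H.inv_mem (key h hh)) hh) using 1
  ext
  · simpa using e
  · simp

end Cfsg.Agent.S4234
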