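import Cfsg.Statements.S4237
import Cfsg.Agent.Gen2.Kulakoff
import Cfsg.Agent.BG4.Rank

set_option autoImplicit false
open Cfsg

namespace Cfsg.Agent.S4237

open Subgroup Cfsg.Agent.BG Cfsg.Agent.Gen2

/-- Let G be a finite group, p a prime and a a natural number such that p^(a+1) divides the order of G. Then the number of subgroups of G of order p^a is congruent to 1 or to 1 + p modulo p². -/
theorem result {G : Type*} [Group G] [Finite G] (p a : ℕ) (hp : p.Prime) (hdvd : p ^ (a + 1) ∣ Nat.card G) :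
    Nat.card {H : Subgroup G // Nat.card H = p ^ a} ≡ 1 [MOD p ^ 2] ∨
      Nat.card {H : Subgroup G // Nat.card H = p ^ a} ≡ 1 + p [MOD p ^ 2] := by
  have : Fact p.Prime := ⟨hp⟩
  have h1 := card_subgroups_modEq_noncyclic hdvd
  suffices h : Nat.card {H : Subgroup G // #H = p ^ (a + 1) ∧ ¬ IsCyclic H} ≡ 0 [MOD p] ∨
      Nat.card {H : Subgroup G // #H = p ^ (a + 1) ∧ ¬ IsCyclic H} ≡ 1 [MOD p] by
    rcases h with h | h
    · left
      have := (h.mul_left' p).add_left 1
      rw [← pow_two] at this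
      exact h1.trans this
    · right
      have := (h.mul_left' p).add_left 1
      rw [← pow_two, mul_one] at this
      exact h1.trans this
  by_cases h2 : p = 2
  · subst h2; unfold Nat.ModEq; omega
  by_cases h3 : ∃ U : Subgroup G, #U = p ^ (a + 1) ∧ ¬ IsCyclic U
  · right
    obtain ⟨U, hU, hc⟩ := h3
    have h4 := dvd_card_cyclic_subgroups h2 hU hc
    have h5 := FG.card_subgroups_modEq_one hdvd
    have h6 : Nat.card {H : Subgroup G // #H = p ^ (a + 1)} =
        Nat.card {H : Subgroup G // #H = p ^ (a + 1) ∧ IsCyclic H} +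
          Nat.card {H : Subgroup G // #H = p ^ (a + 1) ∧ ¬ IsCyclic H} := by
      change Set.ncard {H : Subgroup G | #H = p ^ (a + 1)} =
        Set.ncard {H : Subgroup G | #H = p ^ (a + 1) ∧ IsCyclic H} +
          Set.ncard {H : Subgroup G | #H = p ^ (a + 1) ∧ ¬ IsCyclic H}
      rw [← Set.ncard_union_eq (Set.disjoint_left.2 fun x hx hx' => hx'.2 hx.2)]
      congr 1
      ext x
      simp only [Set.mem_ofPred_eq, Set.mem_union]
      tauto
    rw [h6] at h5
    have h7 := (Nat.modEq_zero_iff_dvd.2 h4).add_right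
      (Nat.card {H : Subgroup G // #H = p ^ (a + 1) ∧ ¬ IsCyclic H})
    rw [zero_add] at h7
    exact h7.symm.trans h5
  · left
    have : IsEmpty {H : Subgroup G // #H = p ^ (a + 1) ∧ ¬ IsCyclic H} := ⟨fun H => h3 ⟨H.1, H.2⟩⟩
    rw [Nat.card_of_isEmpty]

end Cfsg.Agent.S4237
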