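import Cfsg.Statements.S4238
import Cfsg.Agent.Transfer.Frobenius
import Cfsg.Agent.Solv.Coprime
import Cfsg.Agent.Solv.Core
import Cfsg.Agent.Loc.PGrp
import Cfsg.Agent.Gen2.Cyc

set_option autoImplicit false
open Cfsg

namespace Cfsg.Agent.S4238

open scoped Pointwise
open Subgroup in
theorem aux {K : Type*} [Group K] [Finite K] {p : ℕ} [hp : Fact p.Prime] {Q : Subgroup K} [Q.Normal]
    (hQ : IsPGroup p Q) {g : K} (hg : (orderOf g).Coprime p) (hK : Q ⊔ zpowers g = ⊤)
    (h0 : ⁅Q, zpowers g⁆ ≠ ⊥) (hmin : ∀ L : Subgroup K, L.Normal → L ≠ ⊥ → ⁅Q, zpowers g⁆ ≤ L)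
    (k : K) : orderOf k ≠ Monoid.exponent K := by
  intro hk
  have hn : zpowers g ≤ normalizer (Q : Set K) := by simp [normalizer_eq_top]
  have hc : (Nat.card Q).Coprime (Nat.card (zpowers g)) := by
    rw [Nat.card_zpowers]; exact Solv.coprime_card_of_isPGroup hQ hg
  have hQ0 : Q ≠ ⊥ := by
    rintro rfl
    exact h0 (commutator_bot_left _)
  have := hQ.isNilpotent
  obtain ⟨a, b, ha, hb, ⟨j, hj⟩, hbp, hab⟩ := Transfer.exists_pPart_mul_pPrimePart (p := p) k
  have hcm : Commute a b := by
    obtain ⟨i, rfl⟩ := ha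
    obtain ⟨i', rfl⟩ := hb
    exact Commute.zpow_zpow_self k i i'
  obtain ⟨i, -, hi⟩ := (Nat.dvd_prime_pow hp.out).1 (orderOf_dvd_of_pow_eq_one hj)
  have hord : orderOf k = p ^ i * orderOf b := by
    rw [hab, hcm.orderOf_mul_eq_mul_orderOf_of_coprime (hi ▸ hbp.symm.pow_left i), hi]
  have ha1 : a ≠ 1 := by
    rintro rfl
    obtain ⟨x, hx, hx1⟩ := (Q.bot_or_exists_ne_one).resolve_left hQ0
    refine hx1 (Transfer.eq_one_of_mem_isPGroup_of_coprime hQ hx (hbp.coprime_dvd_left ?_))
    rw [← one_mul b, ← hab, hk]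
    exact Monoid.order_dvd_exponent x
  have haQ : a ∈ Q := by
    refine zpowers_le.1 (Solv.le_of_le_sup_of_coprime hn (hK ▸ le_top) ?_)
    rw [Nat.card_zpowers, Nat.card_zpowers, hi]
    exact hg.symm.pow_left i
  obtain ⟨n, hnQ, hnb⟩ := Solv.exists_conj_smul_le (B := zpowers b) hn (hK ▸ le_top) hc
    (by rw [Nat.card_zpowers]; exact Solv.coprime_card_of_isPGroup hQ hbp) (Or.inl inferInstance)
  have hb' := hnb (Solv.conj_mem_conj_smul n (mem_zpowers b))
  have hgb : g ∈ zpowers (n * b * n⁻¹) := by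
    refine Gen2.mem_zpowers_of_orderOf_dvd (mem_zpowers g) hb' ?_
    rw [(SemiconjBy.conj_mk n b).orderOf_eq.symm]
    refine (hg.pow_right i).dvd_of_dvd_mul_left ?_
    rw [← hord, hk]
    exact Monoid.order_dvd_exponent g
  have hC0 : Q ⊓ centralizer (zpowers g : Set K) ≠ ⊥ := by
    intro h
    have : n * a * n⁻¹ ∈ Q ⊓ centralizer (zpowers g : Set K) := by
      refine ⟨‹Q.Normal›.conj_mem _ haQ _, fun y hy => ?_⟩
      obtain ⟨m, rfl⟩ := zpowers_le.2 hgb hy
      exact (Commute.zpow_left (a := n * b * n⁻¹) (b := n * a * n⁻¹) (hcm.symm.conj n) m).eq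
    rw [h, mem_bot] at this
    exact ha1 (by simpa using this)
  have hW := hmin _ inferInstance (Loc.center_ne_bot hQ hQ0)
  have hN : (Q ⊓ centralizer (zpowers g : Set K)).Normal := by
    refine Solv.normal_of_le_normalizer_of_sup_eq_top ?_
      (Solv.le_normalizer_inf hn (Solv.le_normalizer_centralizer le_normalizer)) hK
    conv_lhs => rw [← Solv.commutator_sup_inf_centralizer hn hc.symm (Or.inr inferInstance)]
    exact sup_le ((hW.trans inf_le_right).trans ((centralizer_le inf_le_left).trans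
      (centralizer_le_normalizer _))) le_normalizer
  exact h0 (commutator_eq_bot_iff_le_centralizer.2
    (Solv.le_centralizer_of_commutator_le_centralizer hn hc.symm ((hmin _ hN hC0).trans inf_le_right)))

/-- Let G be a finite group and p a prime. Then G has a normal p-complement if and only if every section K = H/N of G (N a normal subgroup of a subgroup H) whose largest normal subgroup of order prime to p is trivial contains an element whose order equals the exponent of K. -/
theorem result {G : Type*} [Group G] [Finite G] (p : ℕ) [Fact p.Prime] :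
    Cfsg.HasNormalPComplement p G ↔
      ∀ (H : Subgroup G) (N : Subgroup H) [N.Normal], Cfsg.pPrimeCore p (H ⧸ N) = ⊥ →
        ∃ k : H ⧸ N, orderOf k = Monoid.exponent (H ⧸ N) := by
  constructor
  · intro h H N _ h0
    have h1 := Transfer.hasNormalPComplement_quotient (Transfer.hasNormalPComplement_subgroup h H) N
    rw [Transfer.hasNormalPComplement_iff_pResidual_eq_pPrimeCore, h0,
      Transfer.pResidual_eq_bot_iff] at h1
    obtain ⟨n, hn⟩ := IsPGroup.iff_card.1 h1
    obtain ⟨j, -, hj⟩ := (Nat.dvd_prime_pow (Fact.out : p.Prime)).1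
      (hn ▸ Group.exponent_dvd_nat_card (G := H ⧸ N))
    obtain ⟨k, hk⟩ := (Fact.out : p.Prime).exists_orderOf_eq_pow_factorization_exponent (G := H ⧸ N)
    exact ⟨k, by rw [hk, hj, (Fact.out : p.Prime).factorization_pow, Finsupp.single_eq_same]⟩
  · intro h
    by_contra hG
    obtain ⟨P⟩ : Nonempty (Sylow p G) := inferInstance
    obtain ⟨Q, q, k, g, hQP, hq, hqp, hgk, hgN, hgC⟩ := Transfer.exists_prime_pow_not_centralizer P hG
    let H := Q ⊔ Subgroup.zpowers g
    have hH : H ≤ Subgroup.normalizer (Q : Set G) :=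
      sup_le Subgroup.le_normalizer (Subgroup.zpowers_le.2 hgN)
    have : (Q.subgroupOf H).Normal := Subgroup.normal_subgroupOf_of_le_normalizer hH
    let g' : H := ⟨g, Subgroup.mem_sup_right (Subgroup.mem_zpowers g)⟩
    have hQ' : IsPGroup p (Q.subgroupOf H) := (P.isPGroup'.to_le hQP).comap_subtype
    obtain ⟨N, ⟨hN, hN1⟩, hmax⟩ := Set.Finite.exists_maximal (Set.toFinite
      {N : Subgroup H | N.Normal ∧ ¬ ⁅Q.subgroupOf H, Subgroup.zpowers g'⁆ ≤ N}) ⟨⊥, inferInstance, by
        rw [le_bot_iff, Subgroup.commutator_eq_bot_iff_le_centralizer]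
        exact fun h => hgC fun x hx => (congrArg Subtype.val
          (h (x := ⟨x, Subgroup.mem_sup_left hx⟩) hx g' (Subgroup.mem_zpowers g'))).symm⟩
    let π := QuotientGroup.mk' N
    have hπ := QuotientGroup.mk'_surjective N
    have : ((Q.subgroupOf H).map π).Normal := Subgroup.Normal.map inferInstance _ hπ
    have h0 : ⁅(Q.subgroupOf H).map π, Subgroup.zpowers (π g')⁆ ≠ ⊥ := by
      rwa [← MonoidHom.map_zpowers, ← Subgroup.map_commutator, Ne, Subgroup.map_eq_bot_iff,
        QuotientGroup.ker_mk']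
    have hmin : ∀ L : Subgroup (H ⧸ N), L.Normal → L ≠ ⊥ →
        ⁅(Q.subgroupOf H).map π, Subgroup.zpowers (π g')⁆ ≤ L := fun L hL hL0 => by
      rw [← MonoidHom.map_zpowers, ← Subgroup.map_commutator, Subgroup.map_le_iff_le_comap]
      by_contra hc
      have hNL : N ≤ L.comap π := fun x hx => by
        rw [Subgroup.mem_comap, show π x = 1 from (QuotientGroup.eq_one_iff x).2 hx]
        exact L.one_mem
      refine hL0 (eq_bot_iff.2 fun x hx => ?_)
      obtain ⟨x, rfl⟩ := hπ x
      exact (QuotientGroup.eq_one_iff x).2 (hmax (y := L.comap π) ⟨inferInstance, hc⟩ hNL hx)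
    obtain ⟨x, hx⟩ := h H N (by
      by_contra hO
      exact h0 (le_bot_iff.1 (Solv.inf_pPrimeCore_eq_bot (hQ'.map π) ▸
        le_inf (Subgroup.commutator_le_left _ _) (hmin _ inferInstance hO))))
    refine aux (hQ'.map π) ?_ ?_ h0 hmin x hx
    · refine Nat.Coprime.coprime_dvd_left (orderOf_dvd_of_pow_eq_one (n := q ^ k) ?_)
        (((Nat.coprime_primes hq Fact.out).2 hqp).pow_left k)
      rw [← map_pow, show g' ^ q ^ k = 1 from Subtype.ext hgk, map_one]
    · rw [← MonoidHom.map_zpowers, ← Subgroup.map_sup, ← Subgroup.map_top_of_surjective _ hπ]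
      congr 1
      rw [← Subgroup.map_subtype_inj, Subgroup.map_sup, Subgroup.map_subgroupOf_eq_of_le le_sup_left,
        MonoidHom.map_zpowers, ← MonoidHom.range_eq_map, Subgroup.range_subtype]
      rfl

end Cfsg.Agent.S4238
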