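import Cfsg.Statements.S4240
import Cfsg.Agent.Gen2.ThW
import Cfsg.Agent.Transfer.Hol
import Cfsg.Agent.S0205

set_option autoImplicit false
open Cfsg

namespace Cfsg.Agent.S4240

open Subgroup Cfsg.Agent.BG Cfsg.Agent.Gen2 Cfsg.Agent.Transfer

theorem amb {G : Type*} [Group G] [Finite G] {K A : Subgroup G} (hn : A ≤ N[K])
    (co : (#K).Coprime #A) (hs : Group.IsSolvable K)
    (h : ∀ H < K, A ≤ N[H] → Group.IsNilpotent H) (hK : ¬ Group.IsNilpotent K) :
    ∃ p q a b : ℕ, p.Prime ∧ q.Prime ∧ p ≠ q ∧ #K = p ^ a * q ^ b ∧ q ∣ #K ∧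
      ∃ Q, SylowIn q Q K ∧ K ⊔ A ≤ N[Q] := by
  have K1 : K ≠ ⊥ := by rintro rfl; exact hK nilpotent_bot
  have nK : K ⊴ K ⊔ A := normalYl hn
  obtain ⟨W, -, cW⟩ := chief_factor_exists' (nK.comm nK) nK (sol_der1_proper hs K1)
  obtain ⟨p, hp, ab⟩ := sol_chief_abelem hs cW
  have := Fact.mk hp
  have nW := cW.normalV
  have ltW : W < K := cW.lt
  have nilW := h W ltW (le_sup_right.trans nW.2)
  have iW : PiNat {p} (W.relIndex K) := by
    rw [← card_quotient cW.normal.2]; exact IsPGroup.pi ab.pg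
  have key : ∀ q, q.Prime → q ≠ p → ∃ Q, SylowIn q Q K ∧ K ⊔ A ≤ N[Q] := fun q hq hne =>
    ⟨Op q W, pHall_trans_idx (nilpotent_pcore_Hall _ nilW) ltW.le
      (pi_pnat iW (by simpa using hne.symm)), (nW.pcore _).2⟩
  obtain ⟨P, hP, nP⟩ := coprime_Sylow_exists p hn co (Or.inr hs)
  by_contra! hc
  refine hK (nil_of_Sylow_normal fun q hq hd => ?_)
  by_cases hne : q ≠ p
  · obtain ⟨Q, h1, h2⟩ := key q hq hne
    exact ⟨Q, h1, le_sup_left.trans h2⟩
  obtain rfl : q = p := not_not.1 hne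
  refine ⟨P, hP, le_of_Sylow_le fun r hr hdr => ?_⟩
  by_cases hne : r = q
  · subst hne; exact ⟨P, hP, normG _⟩
  obtain ⟨Q, hQ, nQ⟩ := key r hr hne
  have := Fact.mk hr
  refine ⟨Q, hQ, ?_⟩
  have nPQ : P ≤ N[Q] := hP.le.trans (le_sup_left.trans nQ)
  have cop : (#Q).Coprime #P := pnat_coprime hQ.pi (p'group_of_ne hP.pg (Ne.symm hne))
  rcases (sup_le hP.le hQ.le).eq_or_lt with e | lt
  · exact absurd nQ (hc q r _ _ hq hr (Ne.symm hne) (by
      rw [← card_Sylow hP, ← card_Sylow hQ, ← card_sup_TI (Or.inl nPQ) (coprime_TI cop.symm), e])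
      hdr Q hQ)
  exact cents_norm (sub_nilpotent_cent2 (h _ lt (normsY nP (le_sup_right.trans nQ)))
    le_sup_right le_sup_left cop)

/-- Let a finite group A act by automorphisms on a finite group G of order coprime to that of A. Suppose every maximal A-invariant proper subgroup of G is nilpotent while G is not. Then G is solvable, the order of G has the form p^a·q^b for two distinct primes p and q, and G has a normal A-invariant Sylow subgroup for some prime dividing its order. -/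
theorem result {A G : Type*} [Group A] [Group G] [Finite A] [Finite G] [MulDistribMulAction A G]
    (hcop : (Nat.card A).Coprime (Nat.card G))
    (hmax : ∀ H : Subgroup G, H ≠ ⊤ → (∀ a : A, ∀ x ∈ H, a • x ∈ H) →
      (∀ K : Subgroup G, H < K → (∀ a : A, ∀ x ∈ K, a • x ∈ K) → K = ⊤) → Group.IsNilpotent H)
    (hG : ¬ Group.IsNilpotent G) :
    Group.IsSolvable G ∧
      (∃ p q a b : ℕ, p.Prime ∧ q.Prime ∧ p ≠ q ∧ Nat.card G = p ^ a * q ^ b) ∧
      ∃ (p : ℕ) (P : Sylow p G), p.Prime ∧ p ∣ Nat.card G ∧ (P : Subgroup G).Normal ∧ (∀ a : A, ∀ x ∈ (P : Subgroup G), a • x ∈ (P : Subgroup G)) := by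
  set φ : A →* MulAut G := MulDistribMulAction.toMulAut A G
  have inv : ∀ H : Subgroup G, sdR φ ⊤ ≤ N[sdL φ H] ↔ ∀ a : A, ∀ x ∈ H, a • x ∈ H := fun H => by
    rw [sdR_le_normalizer]; exact ⟨fun h a => h a trivial, fun h a _ => h a⟩
  have co : (#(sdL φ ⊤)).Coprime #(sdR φ ⊤) := by
    rw [card_sdL, card_sdR, Subgroup.card_top, Subgroup.card_top]; exact hcop.symm
  have iso : ∀ H : Subgroup G, Nonempty (H ≃* sdL φ H) := fun H =>
    isog_map_inj SemidirectProduct.inl_injective H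
  have h : ∀ H < sdL φ ⊤, sdR φ ⊤ ≤ N[H] → Group.IsNilpotent H := by
    intro H lt nH
    obtain ⟨H, rfl⟩ := exists_eq_sdL φ lt.le
    obtain ⟨M, lM, ⟨h1, h2⟩, h3⟩ := maxgroup_exists
      (P := fun M : Subgroup G => M ≠ ⊤ ∧ ∀ a : A, ∀ x ∈ M, a • x ∈ M) (A := H)
      ⟨by rintro rfl; exact lt.ne rfl, (inv H).1 nH⟩
    refine isog_nil (iso H) (nilpotentS lM (hmax M h1 h2 fun K lK iK => ?_))
    by_contra hK
    exact lK.ne' (h3 K ⟨hK, iK⟩ lK.le)
  have hn := sdR_le_normalizer_top φ ⊤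
  have hs : Group.IsSolvable (sdL φ ⊤) := by
    refine sol_of_inv_nil hn co ?_ h
    rcases Nat.even_or_odd #(sdL φ ⊤) with h2 | h2
    · refine Or.inl (S0205.result ?_)
      by_contra h3
      have := Nat.dvd_gcd h2.two_dvd (Nat.not_odd_iff_even.1 h3).two_dvd
      rw [co] at this
      omega
    · exact Or.inr (S0205.result h2)
  have isoT : Nonempty (sdL φ ⊤ ≃* G) := isog_symm (isog_trans isog_top (iso ⊤))
  obtain ⟨p, q, a, b, hp, hq, hne, e, hd, Q, hQ, nQ⟩ := amb hn co hs h fun h => hG (isog_nil isoT h)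
  rw [card_isog isoT] at e hd
  refine ⟨isog_sol isoT hs, ⟨p, q, a, b, hp, hq, hne, e⟩, ?_⟩
  obtain ⟨Q, rfl⟩ := exists_eq_sdL φ hQ.le
  have := Fact.mk hq
  obtain ⟨Q, rfl⟩ := sylow_of_sylowIn_top
    ((pHall_map_inj SemidirectProduct.inl_injective).1 hQ)
  refine ⟨q, Q, hq, hd, ?_, (inv _).1 (le_sup_right.trans nQ)⟩
  exact NormalIn.normal ⟨le_top,
    (norms_map_inj SemidirectProduct.inl_injective).1 (le_sup_left.trans nQ)⟩

end Cfsg.Agent.S4240
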