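import Cfsg.Statements.S4242
import Cfsg.Agent.BG.Base6
import Cfsg.Agent.Gen2.RankOne
import Cfsg.Agent.Transfer.Frobenius

set_option autoImplicit false
open Cfsg

namespace Cfsg.Agent.S4242

open Subgroup Cfsg.Agent.BG Cfsg.Agent.Gen2

/-- Let G be a finite group and p a prime dividing its order. Every maximal subgroup of G of order divisible by p is nilpotent if and only if G is nilpotent, or G is a minimal non-nilpotent group, or G is the internal direct product of a normal subgroup of order p and a normal minimal non-nilpotent subgroup of order prime to p. -/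
theorem result {G : Type*} [Group G] [Finite G] (p : ℕ) (hp : p.Prime) (hpG : p ∣ Nat.card G) :
    (∀ M : Subgroup G, IsCoatom M → p ∣ Nat.card M → Group.IsNilpotent M) ↔
      (Group.IsNilpotent G ∨ Cfsg.IsMinimalNonNilpotent G ∨
        ∃ Z K : Subgroup G, Z.Normal ∧ K.Normal ∧ Z ⊓ K = ⊥ ∧ Z ⊔ K = ⊤ ∧ Nat.card Z = p ∧
          Cfsg.IsMinimalNonNilpotent K ∧ ¬ p ∣ Nat.card K) := by
  have : Fact p.Prime := ⟨hp⟩
  have hcp : ∀ {n : ℕ} {A : Subgroup G}, IsPGroup p A → ¬ p ∣ n → (#A).Coprime n := fun hA h => by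
    obtain ⟨k, hk⟩ := IsPGroup.iff_card.1 hA
    exact hk ▸ ((Nat.Prime.coprime_iff_not_dvd hp).2 h).pow_left k
  constructor
  · intro h
    have h0 : ∀ H : Subgroup G, H ≠ ⊤ → p ∣ #H → Group.IsNilpotent H := fun H hH hd => by
      obtain ⟨M, hM, hle⟩ := (eq_top_or_exists_le_coatom H).resolve_left hH
      exact nilpotentS hle (h M hM (hd.trans (card_dvd_of_le hle)))
    refine or_iff_not_imp_left.2 fun h1 => or_iff_not_imp_left.2 fun h2 => ?_
    obtain ⟨M, hM, hMn⟩ : ∃ M : Subgroup G, IsCoatom M ∧ ¬ Group.IsNilpotent M := by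
      by_contra H
      push Not at H
      refine h2 ⟨h1, fun K hK => ?_⟩
      obtain ⟨M, hM, hle⟩ := (eq_top_or_exists_le_coatom K).resolve_left hK
      exact nilpotentS hle (H M hM)
    have hpM : ¬ p ∣ #M := fun e => hMn (h M hM e)
    by_cases h3 : pCore p G = ⊥
    · exfalso
      obtain ⟨P⟩ : Nonempty (Sylow p G) := inferInstance
      have h4 := Transfer.hasNormalPComplement_iff_normalizers.2 fun Q hQ hQ0 => by
        have := h0 N[Q] (fun e => hQ0 (by
          have : Q.Normal := normalizer_eq_top_iff.1 e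
          exact Solv.eq_bot_of_pCore_eq_bot h3 hQ))
          ((pgroup_pdiv hQ hQ0).trans (card_dvd_of_le le_normalizer))
        exact Transfer.hasNormalPComplement_of_isNilpotent
      have h5 := Transfer.pResidual_normal p G
      have h6 := isComplement'_iff_sdprod.1 (Transfer.isComplement'_pResidual h4 P)
      have hP0 : p ∣ #(P : Subgroup G) := P.dvd_card_of_dvd_card hpG
      have h7 : M = pResidual p G := by_contra fun e => by
        have h8 := hM.2 _ (lt_of_le_of_ne (fun x hx =>
          (Transfer.mem_pResidual_iff_of_hasNormalPComplement h4).2 (((Nat.Prime.coprime_iff_not_dvd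
            hp).2 hpM).symm.of_dvd_left (Subgroup.orderOf_dvd_natCard _ hx))) e)
        exact Transfer.hasNormalPComplement_iff_not_dvd_card_pResidual.1 h4
          (by rwa [h8, card_top])
      rw [← h7] at h5 h6
      have h8 : M ≤ C[P] := le_of_coprime_Sylow_le h6.norm (hcp P.isPGroup' hpM).symm
        (Or.inl (pgroup_sol P.isPGroup')) fun q hq Q hQ hn => by
        have : Fact q.Prime := ⟨hq⟩
        refine sub_nilpotent_cent2 (h0 (Q ⊔ P) (fun e => hMn ?_)
          (hP0.trans (card_dvd_of_le le_sup_right))) le_sup_left le_sup_right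
          (hcp P.isPGroup' fun e => hpM (e.trans (card_dvd_of_le hQ.le))).symm
        have := group_modl (Or.inr hn) hQ.le
        rw [e, inf_top_eq, h6.inf, sup_bot_eq] at this
        exact this ▸ pgroup_nil hQ.pg
      have : (P : Subgroup G).Normal := normalizer_eq_top_iff.1
        (eq_top_iff.2 (h6.sup.ge.trans (sup_le (cents_norm h8) le_normalizer)))
      rw [Solv.eq_bot_of_pCore_eq_bot h3 P.isPGroup', card_bot] at hP0
      exact hp.not_dvd_one hP0
    obtain ⟨N, hN, hN0, hle, hmin⟩ := Solv.exists_minimal_normal_le _ h3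
    have hNp : IsPGroup p N := (Solv.isPGroup_pCore p G).to_le hle
    have h4 : N ⊓ M = ⊥ := coprime_TI (hcp hNp hpM)
    have h5 : N ⊔ M = ⊤ := hM.2 _ (lt_of_le_of_ne le_sup_right fun e => hN0 (by
      rw [← h4, inf_eq_left.2 (le_sup_left.trans e.ge)]))
    have h6 : ∀ L < M, Group.IsNilpotent (N ⊔ L : Subgroup G) := fun L hL =>
      h0 _ (fun e => hL.ne (by
        have := group_modr (A := N) (Or.inr le_normalizer_of_normal) hL.le
        rwa [e, inf_top_eq, inf_comm, h4, bot_sup_eq, eq_comm] at this))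
        ((pgroup_pdiv hNp hN0).trans (card_dvd_of_le le_sup_left))
    have h7 : M ≤ C[N] := fun x hx => by
      have h8 : zpowers x < M := lt_of_le_of_ne (zpowers_le.2 hx) fun e =>
        hMn (cyclic_nil (e ▸ inferInstance))
      exact sub_nilpotent_cent2 (h6 _ h8) le_sup_right le_sup_left
        (hcp hNp fun e => hpM (e.trans (card_dvd_of_le h8.le))).symm (mem_zpowers x)
    have := pgroup_sol hNp
    have h8 : N ≤ center G := centralizer_eq_top_iff_subset.1 (eq_top_iff.2 (h5.ge.trans (sup_le
      (le_centralizer_iff_isMulCommutative.2 (Solv.elementary_of_minimal_normal hN0 hmin).1) h7)))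
    obtain ⟨z, hz, hzp⟩ := exists_mem_orderOf_eq_prime hp (pgroup_pdiv hNp hN0)
    refine ⟨N, M, hN, normalizer_eq_top_iff.1 (eq_top_iff.2 (h5.ge.trans (sup_le
      (cents_norm (cents_symm h7)) le_normalizer))), h4, h5, ?_, ⟨hMn, fun L hL => ?_⟩, hpM⟩
    · rw [← (hmin (zpowers z) ⟨fun a ha g => by
        rwa [mem_center_iff.1 (h8 (zpowers_le.2 hz ha)) g, mul_inv_cancel_right]⟩
        (zpowers_le.2 hz)).resolve_left fun e => hp.one_lt.ne (by
          rw [← hzp, zpowers_eq_bot.1 e, orderOf_one]), Nat.card_zpowers, hzp]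
    · exact isog_nil ⟨(L.equivMapOfInjective _ M.subtype_injective).symm⟩
        (nilpotentS le_sup_right (h6 _ (lt_of_le_of_ne (map_subtype_le L) fun e => hL
          (map_injective M.subtype_injective (by rw [e, ← MonoidHom.range_eq_map, range_subtype])))))
  · rintro (h | h | ⟨Z, K, hZ, hK, h1, h2, h3, h4, h5⟩) M hM hd
    · infer_instance
    · exact h.2 M hM.1
    have hZp : IsPGroup p Z := pgroup_of_card (h3.trans (pow_one p).symm)
    have h6 : K ≤ C[Z] := commutator_eq_bot_iff_le_centralizer.1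
      (le_bot_iff.1 ((commutator_le_inf K Z).trans (inf_comm K Z ▸ h1.le)))
    have h7 : Z ≤ M := by
      obtain ⟨z, hz, hzp⟩ := exists_mem_orderOf_eq_prime hp hd
      have h8 : SylowIn p Z ⊤ := sylow_mk le_top hZp (by
        rwa [Sdprod.relIndexl ⟨h2, le_normalizer_of_normal, h1⟩])
      rw [← (eq_bot_or_eq_of_card_dvd hp h3.dvd (zpowers_le.2 (mem_normal_Hall h8 (BG.normal_top Z)
        (mem_top z) ((p_natP hp).2 ⟨1, by simpa using hzp⟩)))).resolve_left fun e => hp.one_lt.ne (by
          rw [← hzp, zpowers_eq_bot.1 e, orderOf_one])]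
      exact zpowers_le.2 hz
    have h8 := group_modl (A := Z) (B := K) (Or.inl le_normalizer_of_normal) h7
    rw [h2, inf_top_eq] at h8
    rw [h8]
    refine cent_nil (cents_symm (inf_le_right.trans h6)) (pgroup_nil hZp)
      (isog_nil ⟨subgroupOfEquivOfLe inf_le_right⟩ (h4.2 _ fun e => hM.1 ?_))
    rw [h8, inf_eq_right.2 ((subgroupOf_eq_top.1 e).trans inf_le_left), h2]

end Cfsg.Agent.S4242
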