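import Cfsg.Statements.S4250
import Cfsg.Agent.Transfer.AlperinChain
import Cfsg.Agent.Transfer.Frobenius

set_option autoImplicit false
open Cfsg

namespace Cfsg.Agent.S4250

open Pointwise

/-- Let P be a Sylow p-subgroup of a finite group G. Call an intersection H = P ∩ Q with a Sylow p-subgroup Q tame when N_P(H) and N_Q(H) are Sylow p-subgroups of N_G(H). Then P ∩ G′ is generated by [P, N_G(P)] together with the commutator subgroups [P ∩ Q, ⟨x⟩] for all tame intersections P ∩ Q and all p-elements x of N_G(P ∩ Q). -/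
theorem result {G : Type*} [Group G] [Finite G] (p : ℕ) [Fact p.Prime] (P : Sylow p G) :
    (P : Subgroup G) ⊓ commutator G =
      ⁅(P : Subgroup G), Subgroup.normalizer ((P : Subgroup G) : Set G)⁆ ⊔
        ⨆ (Q : Sylow p G) (_ : (¬ p ∣ ((P : Subgroup G) ⊓ Subgroup.normalizer (((P : Subgroup G) ⊓ (Q : Subgroup G) : Subgroup G) : Set G)).relIndex (Subgroup.normalizer (((P : Subgroup G) ⊓ (Q : Subgroup G) : Subgroup G) : Set G)) ∧ ¬ p ∣ ((Q : Subgroup G) ⊓ Subgroup.normalizer (((P : Subgroup G) ⊓ (Q : Subgroup G) : Subgroup G) : Set G)).relIndex (Subgroup.normalizer (((P : Subgroup G) ⊓ (Q : Subgroup G) : Subgroup G) : Set G))))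
          (x : G) (_ : x ∈ Subgroup.normalizer (((P : Subgroup G) ⊓ (Q : Subgroup G) : Subgroup G) : Set G) ∧ ∃ k : ℕ, orderOf x = p ^ k),
          ⁅(P : Subgroup G) ⊓ (Q : Subgroup G), Subgroup.zpowers x⁆ := by
  apply le_antisymm
  · rw [inf_comm]
    apply Transfer.sylow_inf_commutator_le
    intro a ha g hg
    refine Transfer.alperin_induction_tame P (fun D g => ∀ a ∈ D, a⁻¹ * (g * a * g⁻¹) ∈ _)
      ?_ ?_ ?_ ?_ ((P : Subgroup G) ⊓ MulAut.conj g⁻¹ • (P : Subgroup G)) g inf_le_left ?_ a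
      ⟨ha, Transfer.mem_conj_smul.2 (by rwa [inv_inv])⟩
    · exact fun D E g h1 _ _ h2 a ha => h2 a (h1 ha)
    · intro D g h h1 h2 h3 h4 h5 a ha
      have := mul_mem (h4 a ha) (h5 _ (Transfer.conj_mem_conj_smul.2 ha))
      simpa [mul_assoc] using this
    · intro x hx a ha
      exact Subgroup.mem_sup_left (Transfer.inv_mul_conj_mem_commutator ha hx)
    · rintro Q _ rfl _ h1 h2 x h3 h4 a ha
      apply Subgroup.mem_sup_right
      have h5 : ∃ k : ℕ, orderOf x = p ^ k := by
        rcases h4 with h | h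
        · obtain ⟨k, hk⟩ := IsPGroup.iff_orderOf.1 P.2 ⟨x, h⟩
          exact ⟨k, by simpa using hk⟩
        · obtain ⟨k, hk⟩ := IsPGroup.iff_orderOf.1 Q.2 ⟨x, h⟩
          exact ⟨k, by simpa using hk⟩
      refine Subgroup.mem_iSup_of_mem Q (Subgroup.mem_iSup_of_mem ⟨h1.2.not_dvd, h2.2.not_dvd⟩
        (Subgroup.mem_iSup_of_mem x (Subgroup.mem_iSup_of_mem ⟨h3, h5⟩ ?_)))
      exact Transfer.inv_mul_conj_mem_commutator ha (Subgroup.mem_zpowers x)
    · rw [Subgroup.smul_inf, Transfer.conj_smul_conj_inv_smul]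
      exact inf_le_right
  · refine sup_le (le_inf ?_ (Subgroup.commutator_mono le_top le_top))
      (iSup_le fun Q => iSup_le fun _ => iSup_le fun x => iSup_le fun hx =>
        le_inf ?_ (Subgroup.commutator_mono le_top le_top))
    · exact Subgroup.le_normalizer_iff_commutator_le_left.1 le_rfl
    · exact (Subgroup.le_normalizer_iff_commutator_le_left.1 (Subgroup.zpowers_le.2 hx.1)).trans
        inf_le_left

end Cfsg.Agent.S4250
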