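import Cfsg.Statements.S4251
import Cfsg.Agent.Transfer.AlperinChain
import Cfsg.Agent.Transfer.Frobenius

set_option autoImplicit false
open Cfsg

namespace Cfsg.Agent.S4251

/-- Let P be a Sylow p-subgroup of a finite group G. Call an intersection H = P ∩ Q with a Sylow p-subgroup Q tame when N_P(H) and N_Q(H) are Sylow p-subgroups of N_G(H). If N_G(H)/C_G(H) is a p-group for every nontrivial tame intersection H = P ∩ Q, then G has a normal p-complement. -/
theorem result {G : Type*} [Group G] [Finite G] (p : ℕ) [Fact p.Prime] (P : Sylow p G)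
    (h : ∀ Q : Sylow p G, (P : Subgroup G) ⊓ (Q : Subgroup G) ≠ ⊥ → (¬ p ∣ ((P : Subgroup G) ⊓ Subgroup.normalizer (((P : Subgroup G) ⊓ (Q : Subgroup G) : Subgroup G) : Set G)).relIndex (Subgroup.normalizer (((P : Subgroup G) ⊓ (Q : Subgroup G) : Subgroup G) : Set G)) ∧ ¬ p ∣ ((Q : Subgroup G) ⊓ Subgroup.normalizer (((P : Subgroup G) ⊓ (Q : Subgroup G) : Subgroup G) : Set G)).relIndex (Subgroup.normalizer (((P : Subgroup G) ⊓ (Q : Subgroup G) : Subgroup G) : Set G))) →
      IsPGroup p (Subgroup.normalizer (((P : Subgroup G) ⊓ (Q : Subgroup G) : Subgroup G) : Set G) ⧸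
        (Subgroup.centralizer (((P : Subgroup G) ⊓ (Q : Subgroup G) : Subgroup G) : Set G)).subgroupOf
          (Subgroup.normalizer (((P : Subgroup G) ⊓ (Q : Subgroup G) : Subgroup G) : Set G)))) :
    Cfsg.HasNormalPComplement p G := by
  apply Transfer.hasNormalPComplement_of_local_control P
  rintro D x h0 h1 h2 rfl
  have h3 := h (x • P) h0 ⟨h1.2.not_dvd, (h1.isSylowIn_conj h2).not_dvd⟩
  obtain ⟨t, ht, c, hc, h4⟩ := h1.2.exists_mul_of_coprime_mem
    (C := Subgroup.centralizer _) (fun g hg hc =>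
      Transfer.mem_of_coprime_of_isPGroup_quotient _ h3 (g := ⟨g, hg⟩) (by simpa using hc)) h2
  refine ⟨t, ht.1, fun a ha => ?_⟩
  have := hc.1 a ha
  calc t * a * t⁻¹ = t * (a * c) * c⁻¹ * t⁻¹ := by group
    _ = t * c * a * (t * c)⁻¹ := by rw [this]; group
    _ = x * a * x⁻¹ := by rw [← h4]

end Cfsg.Agent.S4251
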