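import Cfsg.Statements.S4252
import Cfsg.Agent.Frob.Basic

set_option autoImplicit false
open Cfsg

namespace Cfsg.Agent.S4252

/-- Let a finite group G act on a finite set Ω with more than one point, transitively but not regularly, so that no non-identity element of G fixes two distinct points. Then the stabilizer H of any point is a Frobenius complement in G (nontrivial, proper, meeting its other conjugates trivially), and the Frobenius kernel of G with respect to H (the identity together with the elements lying in no conjugate of H) is exactly the set consisting of the identity and the elements fixing no point. -/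
theorem result {G Ω : Type*} [Group G] [Finite G] [Fintype Ω] [MulAction G Ω] (hΩ : 1 < Fintype.card Ω)
    (htrans : ∀ α β : Ω, ∃ g : G, g • α = β) (hnreg : ∃ g : G, g ≠ 1 ∧ ∃ α : Ω, g • α = α)
    (hfix : ∀ g : G, g ≠ 1 → ∀ α β : Ω, g • α = α → g • β = β → α = β) (α : Ω) :
    Cfsg.IsFrobeniusComplement (MulAction.stabilizer G α) ∧
      Cfsg.frobeniusKernel (MulAction.stabilizer G α) = {g : G | g = 1 ∨ ∀ ω : Ω, g • ω ≠ ω} := by
  refine ⟨Frob.isFrobeniusComplement_iff.2 ⟨fun h => ?_, fun h => ?_, fun g x hx h1 hg => ?_⟩, ?_⟩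
  · obtain ⟨g, hg, β, hβ⟩ := hnreg
    obtain ⟨c, rfl⟩ := htrans α β
    have : c⁻¹ * g * c ∈ MulAction.stabilizer G α := by
      rw [MulAction.mem_stabilizer_iff, mul_smul, mul_smul, hβ, inv_smul_smul]
    rw [h, Subgroup.mem_bot, mul_assoc, inv_mul_eq_one, eq_comm, mul_eq_right] at this
    exact hg this
  · obtain ⟨β, hβ⟩ := Fintype.exists_ne_of_one_lt_card hΩ α
    obtain ⟨c, rfl⟩ := htrans α β
    exact hβ (show c ∈ MulAction.stabilizer G α from h ▸ trivial)
  · rw [MulAction.mem_stabilizer_iff, mul_smul, mul_smul, inv_smul_eq_iff] at hg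
    exact hfix x h1 _ _ hg hx
  · ext x
    rw [Frob.mem_frobeniusKernel]
    refine or_congr_right ⟨fun h ω hω => ?_, fun h g hg => ?_⟩
    · obtain ⟨c, rfl⟩ := htrans α ω
      exact h c (by rw [MulAction.mem_stabilizer_iff, mul_smul, mul_smul, hω, inv_smul_smul])
    · rw [MulAction.mem_stabilizer_iff, mul_smul, mul_smul, inv_smul_eq_iff] at hg
      exact h _ hg

end Cfsg.Agent.S4252
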