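import Cfsg.Statements.S4261
import Cfsg.Agent.SolvStr.Frattini
import Cfsg.Agent.Solv.Frattini

set_option autoImplicit false
open Cfsg

namespace Cfsg.Agent.S4261

/-- Let M be a maximal subgroup of a finite solvable group G such that x^[G : M] lies in M for every x in G. Then M is normal in G. -/
theorem result {G : Type*} [Group G] [Finite G] (hG : Group.IsSolvable G) (M : Subgroup G) (hM : IsCoatom M)
    (hexp : ∀ x : G, x ^ M.index ∈ M) : M.Normal := by
  obtain ⟨p, k, hp, -, hk⟩ := (isPrimePow_nat_iff _).1 (Solv.isPrimePow_index_of_isCoatom hM)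
  have := Fact.mk hp
  have h1 : ∀ x : G, ¬ p ∣ orderOf x → x ∈ M := fun x hx => by
    obtain ⟨m, hm⟩ := exists_pow_eq_self_of_coprime (x := x) (n := M.index)
      (hk ▸ ((Nat.Prime.coprime_iff_not_dvd hp).2 hx).pow_left k)
    exact hm ▸ pow_mem (hexp x) m
  have h2 : IsPGroup p (G ⧸ M.normalCore) := fun g => by
    obtain ⟨g, rfl⟩ := QuotientGroup.mk_surjective g
    obtain ⟨a, m, hm, h⟩ := Nat.exists_eq_pow_mul_and_not_dvd (orderOf_pos g).ne' p hp.ne_one
    refine ⟨a, ?_⟩
    rw [← QuotientGroup.mk_pow, QuotientGroup.eq_one_iff]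
    refine fun b => h1 _ fun h3 => hm (h3.trans (orderOf_dvd_of_pow_eq_one ?_))
    rw [conj_pow, ← pow_mul, ← h, pow_orderOf_eq_one, mul_one, mul_inv_cancel]
  have := h2.isNilpotent
  have h3 := (Solv.normal_of_isCoatom (SolvStr.isCoatom_map_mk' hM M.normalCore_le)).comap
    (QuotientGroup.mk' M.normalCore)
  rwa [Solv.comap_map_mk', sup_eq_left.2 M.normalCore_le] at h3

end Cfsg.Agent.S4261
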