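import Cfsg.Statements.S4263
import Cfsg.Agent.Gen2.Basic
import Cfsg.Agent.Solv.Fitting
import Cfsg.Agent.SolvStr.Subnormal

set_option autoImplicit false
open Cfsg

namespace Cfsg.Agent.S4263

theorem pow_index_mem_of_isSubnormal {G : Type*} [Group G] {H : Subgroup G} (h : H.IsSubnormal)
    (x : G) : x ^ H.index ∈ H := by
  induction h with
  | top => trivial
  | step H K hle _ hN ih =>
    have := (H.subgroupOf K).pow_index_mem (⟨_, ih⟩ : K)
    rw [Subgroup.mem_subgroupOf] at this
    rw [← Subgroup.relIndex_mul_index hle, mul_comm, pow_mul]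
    exact this

/-- Let G be a finite group. An element x lies in the Fitting subgroup F(G) if and only if, for every subgroup H of G, the power x^[G : H] lies in H. -/
theorem result {G : Type*} [Group G] [Finite G] (x : G) :
    x ∈ Cfsg.fittingSubgroup G ↔ ∀ H : Subgroup G, x ^ H.index ∈ H := by
  constructor
  · intro hx H
    have h1 := pow_index_mem_of_isSubnormal
      (SolvStr.isSubnormal_of_isNilpotent (H.subgroupOf (fittingSubgroup G))) ⟨x, hx⟩
    rw [Subgroup.mem_subgroupOf] at h1
    obtain ⟨k, hk⟩ := Gen2.relIndex_dvd_index_of_normal_right H (fittingSubgroup G)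
    rw [hk, pow_mul]
    exact H.pow_mem h1 k
  · intro h
    rw [← QuotientGroup.eq_one_iff, ← orderOf_eq_one_iff]
    by_contra hne
    obtain ⟨p, hp, hpd⟩ := Nat.exists_prime_and_dvd hne
    haveI : Fact p.Prime := ⟨hp⟩
    obtain ⟨P⟩ : Nonempty (Sylow p G) := inferInstance
    have h1 : x ^ (P : Subgroup G).index ∈ pCore p G := by
      rw [Solv.pCore_eq_iInf_sylow, Subgroup.mem_iInf]
      intro Q
      have h2 : (Q : Subgroup G).index = (P : Subgroup G).index := by
        have h3 := (Q : Subgroup G).card_mul_index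
        have h4 := (P : Subgroup G).card_mul_index
        rw [Sylow.card_eq_multiplicity] at h3 h4
        exact Nat.eq_of_mul_eq_mul_left (pow_pos hp.pos _) (h3.trans h4.symm)
      rw [← h2]
      exact h Q
    have h2 : ((x : G ⧸ fittingSubgroup G)) ^ (P : Subgroup G).index = 1 := by
      rw [← QuotientGroup.mk_pow, QuotientGroup.eq_one_iff]
      exact Solv.pCore_le_fitting h1
    exact P.not_dvd_index (hpd.trans (orderOf_dvd_of_pow_eq_one h2))

end Cfsg.Agent.S4263
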