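import Cfsg.Statements.S4264
import Cfsg.Agent.Transfer.Residual
import Mathlib.Analysis.SpecialFunctions.Pow.Real
import Mathlib.NumberTheory.Padics.PadicVal.Basic

set_option autoImplicit false
open Cfsg

namespace Cfsg.Agent.S4264

open MulAction Subgroup Finset

section
variable {p : ℕ} [hp : Fact p.Prime] {P Δ : Type} [Group P] [Fintype P] [Fintype Δ] [MulAction P Δ]

omit [Fintype P] in
theorem orb_le (hP : IsPGroup p P) {x : P} {a : Δ} (h : x • a ≠ a) {s : Finset Δ}
    (hs : ∀ b ∈ orbit (zpowers x) a, b ∈ s) : p ≤ #s := by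
  obtain ⟨_ | n, hn⟩ := (hP.to_subgroup (zpowers x)).card_orbit a
  · have := (Nat.card_eq_one_iff_unique.1 hn).1
    exact absurd (congrArg Subtype.val (Subsingleton.elim (α := orbit (zpowers x) a)
      ⟨_, mem_orbit a ⟨x, mem_zpowers x⟩⟩ ⟨a, mem_orbit_self a⟩)) h
  · refine ((Nat.le_self_pow n.succ_ne_zero p).trans_eq hn.symm).trans ?_
    rw [Nat.card_coe_set_eq, ← Set.ncard_coe_finset]
    exact Set.ncard_le_ncard hs

omit [Fintype P] in
open Classical in
theorem card_orb (hP : IsPGroup p P) (x : P) : ∃ k, p * k ≤ #{a : Δ | x • a ≠ a} ∧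
    Nat.card (orbitRel.Quotient (zpowers x) Δ) ≤ #{a : Δ | x • a = a} + k := by
  have := Fintype.ofFinite (orbitRel.Quotient (zpowers x) Δ)
  refine ⟨#(image (Quotient.mk (orbitRel (zpowers x) Δ)) {a : Δ | x • a ≠ a}), mul_card_image_le_card _ _ fun b hb => ?_,
    ?_⟩
  · obtain ⟨a, ha, rfl⟩ := mem_image.1 hb
    refine orb_le hP (mem_filter.1 ha).2 fun b hb => mem_filter.2 ⟨mem_filter.2 ⟨mem_univ _, ?_⟩, Quotient.sound hb⟩
    obtain ⟨⟨_, i, rfl⟩, rfl⟩ := hb
    refine fun e => (mem_filter.1 ha).2 (smul_left_cancel (x ^ i) ?_)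
    rwa [← mul_smul, ← (Commute.refl x).zpow_right i, mul_smul]
  · rw [Nat.card_eq_fintype_card, ← card_univ]
    refine (card_le_card fun b _ => ?_).trans ((card_union_le _ _).trans (add_le_add_left (card_image_le
      (f := Quotient.mk (orbitRel (zpowers x) Δ))) _))
    obtain ⟨a, rfl⟩ := b.exists_rep
    by_cases h : x • a = a
    · exact mem_union_left _ (mem_image_of_mem _ (by simpa using h))
    · exact mem_union_right _ (mem_image_of_mem _ (by simpa using h))

open Classical in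
theorem card_supp (hP : IsPGroup p P) (hf : ∀ x : P, (∀ a : Δ, x • a = a) → x = 1) (S : Finset Δ) :
    ∃ v, (p - 1) * v ≤ #S ∧ #{x : P | ∀ a ∉ S, x • a = a} ≤ p ^ v := by
  obtain ⟨v, hv⟩ := IsPGroup.iff_card.1 (hP.to_subgroup
    ((Equiv.Perm.ofSubtype : Equiv.Perm {a // a ∈ S} →* _).range.comap (toPermHom P Δ)))
  have h := (card_comap_dvd_of_injective _ _ ((injective_iff_map_eq_one (toPermHom P Δ)).2 fun x h =>
    hf x fun a => DFunLike.congr_fun h a)).trans (card_range_dvd
      (Equiv.Perm.ofSubtype : Equiv.Perm {a // a ∈ S} →* _))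
  rw [hv, Nat.card_perm, Nat.card_eq_fintype_card, Fintype.card_coe, padicValNat_dvd_iff_le (Nat.factorial_ne_zero _)]
    at h
  refine ⟨v, (Nat.mul_le_mul_left _ h).trans ((sub_one_mul_padicValNat_factorial _).trans_le (Nat.sub_le _ _)), ?_⟩
  rw [← hv, Nat.card_eq_fintype_card, Fintype.card_subtype]
  refine card_le_card fun x hx => ?_
  simp only [mem_filter, mem_univ, true_and, mem_comap, Equiv.Perm.mem_range_ofSubtype_iff] at hx ⊢
  exact fun a ha => by_contra fun h => (Equiv.Perm.mem_support.1 ha) (hx a h)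

theorem key (hP : IsPGroup p P) (hf : ∀ x : P, (∀ a : Δ, x • a = a) → x = 1) {c d : ℝ} (hc : 1 ≤ c) (hd : 0 ≤ d)
    (h : c ^ p + 2 * p * c ≤ d ^ p) :
    ∑ x : P, c ^ Nat.card (orbitRel.Quotient (zpowers x) Δ) ≤ d ^ Fintype.card Δ := by
  classical
  have h0 := hp.out.two_le
  have h1 : p - 1 ≠ 0 := by omega
  have hp1 : (1 : ℝ) ≤ p := by exact_mod_cast hp.out.one_le
  obtain ⟨t, ht0, ht⟩ : ∃ t : ℝ, 0 ≤ t ∧ t ^ (p * (p - 1)) = p ^ p * c ^ (p - 1) :=
    ⟨_, by positivity, Real.rpow_inv_natCast_pow (by positivity) (by positivity)⟩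
  have h2 : t ^ p ≤ 2 * p * c := by
    rw [← pow_le_pow_iff_left₀ (by positivity) (by positivity) h1, ← pow_mul, ht, mul_pow, mul_pow,
      ← pow_sub_one_mul (n := p) (by omega), mul_comm (_ ^ _) (p : ℝ)]
    gcongr
    exact_mod_cast (show p ≤ p - 1 + 1 by omega).trans Nat.lt_two_pow_self
  have h3 : ∀ v k s : ℕ, (p - 1) * v ≤ s → p * k ≤ s → (p : ℝ) ^ v * c ^ k ≤ t ^ s := fun v k s hv hk => by
    rw [← pow_le_pow_iff_left₀ (n := p * (p - 1)) (by positivity) (by positivity) (by positivity), ← pow_mul t,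
      mul_comm s, pow_mul t, ht, mul_pow, mul_pow, ← pow_mul, ← pow_mul, ← pow_mul, ← pow_mul]
    exact mul_le_mul (pow_le_pow_right₀ hp1 (by nlinarith)) (pow_le_pow_right₀ hc (by nlinarith)) (by positivity)
      (by positivity)
  have h4 : ∀ u : ℝ, 0 ≤ u → u ^ p ≤ d ^ p → u ≤ d := fun u hu => (pow_le_pow_iff_left₀ hu hd (by omega)).1
  have h5 := h4 c (by positivity) (by linarith [show 0 ≤ 2 * p * c by positivity])
  have h6 := h4 t ht0 (by linarith [show 0 ≤ c ^ p by positivity])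
  let n := fun H : Subgroup P => #{a : Δ | stabilizer P a = H}
  let I := univ.image fun a : Δ => stabilizer P a
  have h7 : ∀ J : Finset (Subgroup P), ∑ H ∈ J, n H = #{a : Δ | stabilizer P a ∈ J} := fun J =>
    sum_card_fiberwise_eq_card_filter _ _ _
  calc _ = ∑ J ∈ I.powerset, ∑ x with {H ∈ I | x ∉ H} = J, c ^ Nat.card (orbitRel.Quotient (zpowers x) Δ) :=
        (sum_fiberwise_of_maps_to (fun x _ => mem_powerset.2 (filter_subset _ _)) _).symm
    _ ≤ ∑ J ∈ I.powerset, (∏ H ∈ J, if H = ⊤ then 0 else t ^ n H) * ∏ H ∈ I \ J, c ^ n H := by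
        refine sum_le_sum fun J _ => ?_
        by_cases hJ : ⊤ ∈ J
        · rw [prod_eq_zero (f := fun H => if H = ⊤ then (0 : ℝ) else _) hJ (if_pos rfl), zero_mul, filter_eq_empty_iff.2, sum_empty]
          rintro x - rfl
          simp at hJ
        rw [prod_congr rfl fun H hH => if_neg (ne_of_mem_of_not_mem hH hJ), prod_pow_eq_pow_sum, prod_pow_eq_pow_sum,
          h7, h7]
        obtain ⟨v, hv, hv'⟩ := card_supp hP hf {a : Δ | stabilizer P a ∈ J}
        refine (sum_le_card_nsmul _ _ (c ^ (#{a : Δ | stabilizer P a ∈ J} / p) *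
          c ^ #{a : Δ | stabilizer P a ∈ I \ J}) ?_).trans ?_
        · intro x hx
          obtain ⟨k, hk, hk'⟩ := card_orb (Δ := Δ) hP x
          obtain rfl := (mem_filter.1 hx).2
          rw [← pow_add]
          refine pow_le_pow_right₀ hc (hk'.trans ((add_comm _ _).trans_le (add_le_add ((Nat.le_div_iff_mul_le
            (by omega)).2 ((mul_comm _ _).trans_le (hk.trans (card_le_card ?_)))) (card_le_card ?_)))) <;>
          intro a <;> simp [I]
        · rw [nsmul_eq_mul, ← mul_assoc]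
          gcongr
          refine le_trans ?_ (h3 v _ _ hv (Nat.mul_div_le _ _))
          gcongr
          refine (Nat.cast_le.2 ((card_le_card fun x hx => ?_).trans hv')).trans_eq (Nat.cast_pow _ _)
          obtain rfl := (mem_filter.1 hx).2
          simp [I]
    _ = ∏ H ∈ I, ((if H = ⊤ then 0 else t ^ n H) + c ^ n H) := (prod_add _ _ _).symm
    _ ≤ ∏ H ∈ I, d ^ n H := by
        refine prod_le_prod (fun H _ => by positivity) fun H hH => ?_
        obtain ⟨a, -, rfl⟩ := mem_image.1 hH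
        split_ifs with e
        · rw [zero_add]; gcongr
        have := hP.isNilpotent
        obtain ⟨g, hg, hg'⟩ := SetLike.exists_of_lt (Group.normalizerCondition_of_isNilpotent _ (lt_top_iff_ne_top.2 e))
        obtain ⟨m, hm⟩ := Nat.exists_eq_add_of_le (orb_le hP hg' (s := {b : Δ | stabilizer P b = stabilizer P a})
          fun b ⟨⟨y, hy⟩, e⟩ => mem_filter.2 ⟨mem_univ _, by
            rw [← show y • a = b from e, stabilizer_smul_eq_stabilizer_map_conj]
            exact mem_normalizer_iff_map_conj_eq.1 (zpowers_le.2 hg hy)⟩)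
        rw [show n _ = _ from hm, pow_add, pow_add, pow_add]
        calc _ ≤ 2 * p * c * d ^ m + c ^ p * d ^ m := by gcongr
          _ ≤ _ := by rw [← add_mul, add_comm]; gcongr
    _ = _ := by rw [prod_pow_eq_pow_sum, h7, filter_true_of_mem fun a _ => mem_image_of_mem _ (mem_univ a), card_univ]

end

/-- The centraliser of `x` permutes the cycles of `x`. -/
abbrev act {H Δ : Type} [Group H] [MulAction H Δ] (x : H) :
    MulAction (centralizer {x}) (orbitRel.Quotient (zpowers x) Δ) where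
  smul g := Quotient.map (g.1 • ·) fun _ b ⟨⟨_, i, rfl⟩, e⟩ => ⟨⟨_, i, rfl⟩, by
    rw [← e]
    exact (mul_smul _ _ b).symm.trans ((congrArg (· • b)
      (Commute.zpow_right (mem_centralizer_singleton_iff.1 g.2) i).eq.symm).trans (mul_smul _ _ b))⟩
  one_smul := Quotient.ind fun a => congrArg _ (one_smul _ a)
  mul_smul g h := Quotient.ind fun a => congrArg _ (mul_smul g.1 h.1 a)

theorem main (n : ℕ) : ∀ (H Δ : Type) [Group H] [Fintype H] [Fintype Δ] [MulAction H Δ],
    (∀ h : H, (∀ a : Δ, h • a = a) → ∀ q : ℕ, q.Prime → q ∣ orderOf h → n + 1 < q) →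
    ∃ T : Finset H, (#T : ℝ) ≤ (4 - 3 / 3 ^ n) ^ Fintype.card Δ ∧
      ∀ z : H, (∀ q : ℕ, q.Prime → q ∣ orderOf z → q ≤ n + 1) → ∃ g, g * z * g⁻¹ ∈ T := by
  classical
  induction n with
  | zero =>
    refine fun H Δ _ _ _ _ _ => ⟨{1}, by norm_num, fun z hz => ⟨1, ?_⟩⟩
    simp [orderOf_eq_one_iff.1 (Nat.eq_one_iff_not_exists_prime_dvd.2 fun q hq h => (hz q hq h).not_gt hq.one_lt)]
  | succ n ih =>
    intro H Δ _ _ _ _ h
    have h1 : (1 : ℝ) ≤ 4 - 3 / 3 ^ n := by
      linarith [div_le_self (show (0 : ℝ) ≤ 3 by norm_num) (one_le_pow₀ (n := n) (show (1 : ℝ) ≤ 3 by norm_num))]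
    have h2 : (4 - 3 / 3 ^ (n + 1) : ℝ) = 4 - 3 / 3 ^ n + 2 / 3 ^ n := by field_simp; ring
    by_cases hp : (n + 2).Prime; swap
    · obtain ⟨T, h3, h4⟩ := ih H Δ fun g hg q hq e => (h g hg q hq e).le
      refine ⟨T, h3.trans ?_, fun z hz => h4 z fun q hq e => Nat.le_of_lt_succ
        ((hz q hq e).lt_of_ne fun e => hp (e ▸ hq))⟩
      rw [h2]
      gcongr
      exact le_add_of_nonneg_right (by positivity)
    have := Fact.mk hp
    obtain ⟨P⟩ : Nonempty (Sylow (n + 2) H) := inferInstance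
    have := fun x : H => Fintype.ofFinite (orbitRel.Quotient (zpowers x) Δ)
    choose T h3 h4 using fun x : P => @ih (centralizer {x.1}) _ _ _ (this x.1) (act x.1) fun g hg q hq e => by
      obtain ⟨k, hk⟩ := IsPGroup.iff_orderOf.1 P.isPGroup' x
      have h3 : ∀ a : Δ, (g.1 ^ orderOf x) • a = a := fun a => by
        obtain ⟨⟨_, i, rfl⟩, e⟩ := Quotient.exact (hg ⟦a⟧)
        have h3 : ∀ j : ℕ, g.1 ^ j • a = (x.1 ^ i) ^ j • a := fun j => by
          induction j with
          | zero => simp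
          | succ j ih =>
            rw [pow_succ', mul_smul, ih, ← mul_smul, ((Commute.zpow_right (mem_centralizer_singleton_iff.1 g.2)
              i).pow_right j).eq, mul_smul, pow_succ, mul_smul]
            exact congrArg _ e.symm
        rw [h3, ← zpow_natCast, ← zpow_mul, mul_comm, zpow_mul, zpow_natCast, ← Subgroup.orderOf_coe,
          pow_orderOf_eq_one, one_zpow, one_smul]
      have h4 : orderOf g ∣ orderOf x * orderOf (g.1 ^ orderOf x) := orderOf_dvd_of_pow_eq_one
        (Subtype.ext (by rw [SubgroupClass.coe_pow, pow_mul, pow_orderOf_eq_one]; rfl))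
      rcases hq.dvd_mul.1 (e.trans h4) with e | e
      · rw [(Nat.prime_dvd_prime_iff_eq hq hp).1 (hq.dvd_of_dvd_pow (hk ▸ e))]; omega
      · exact (h _ h3 q hq e).le
    refine ⟨univ.biUnion fun x : P => (T x).image (x.1 * ·.1), ?_, fun z hz => ?_⟩
    · refine le_trans ?_ (key (P := P) P.isPGroup' (fun x hx => ?_) h1 (h2 ▸ by positivity) ?_)
      · refine (Nat.cast_le.2 (card_biUnion_le.trans (sum_le_sum fun x _ => card_image_le))).trans ?_
        rw [Nat.cast_sum]
        refine sum_le_sum fun x _ => (h3 x).trans_eq (congrArg _ (Nat.card_eq_fintype_card.symm.trans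
          (Nat.card_congr (Quotient.congr (Equiv.refl _) fun a b => ?_))))
        exact ⟨fun ⟨⟨_, i, rfl⟩, e⟩ => ⟨⟨_, i, rfl⟩, e⟩, fun ⟨⟨_, i, rfl⟩, e⟩ => ⟨⟨_, i, rfl⟩, e⟩⟩
      · obtain ⟨_ | k, hk⟩ := IsPGroup.iff_orderOf.1 P.isPGroup' x
        · exact orderOf_eq_one_iff.1 hk
        · exact absurd (h x.1 hx _ hp (by rw [Subgroup.orderOf_coe, hk]; exact dvd_pow_self _ k.succ_ne_zero))
            (lt_irrefl _)
      · refine le_trans ?_ (h2 ▸ pow_add_mul_le_add_pow (by positivity) (by positivity) _)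
        have h5 : (3 : ℝ) ^ n ≤ (4 - 3 / 3 ^ n) ^ n := by
          rcases n with _ | n
          · simp
          · gcongr
            rw [pow_succ, mul_comm, ← div_div, div_self (by norm_num)]
            linarith [div_le_self zero_le_one (one_le_pow₀ (n := n) (show (1 : ℝ) ≤ 3 by norm_num))]
        generalize (4 - 3 / 3 ^ n : ℝ) = c at *
        rw [show n + 2 - 1 = n + 1 from rfl, pow_succ c n, ← mul_div_assoc, add_le_add_iff_left,
          le_div_iff₀ (by positivity)]
        calc _ ≤ 2 * (n + 2 : ℕ) * c * c ^ n := by gcongr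
          _ = _ := by ring
    · obtain ⟨a, b, ha, hb, ⟨k, hk⟩, hb', rfl⟩ := Transfer.exists_pPart_mul_pPrimePart (p := n + 2) z
      obtain ⟨Q, hQ⟩ := (show IsPGroup (n + 2) (zpowers a) from fun ⟨_, i, rfl⟩ => ⟨k, Subtype.ext (by
        rw [SubgroupClass.coe_pow, ← zpow_natCast, ← zpow_mul, mul_comm, zpow_mul, zpow_natCast, hk, one_zpow]
        rfl)⟩).exists_le_sylow
      obtain ⟨g, rfl⟩ := exists_smul_eq H Q P
      have h5 : Commute b a := by
        obtain ⟨i, hi⟩ := ha
        obtain ⟨j, hj⟩ := hb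
        generalize a * b = z at hi hj
        exact hi ▸ hj ▸ Commute.zpow_zpow_self z j i
      obtain ⟨⟨u, hu⟩, h6⟩ := h4 ⟨g * a * g⁻¹, Subgroup.smul_mem_pointwise_smul a (MulAut.conj g) _
        (hQ (mem_zpowers a))⟩ ⟨g * b * g⁻¹, mem_centralizer_singleton_iff.2 (h5.conj g).eq⟩ fun q hq e => by
          replace e := e.trans ((Subgroup.orderOf_coe _).symm.trans ((MulAut.conj g).orderOf_eq b)).dvd
          exact Nat.le_of_lt_succ ((hz q hq (e.trans (orderOf_dvd_of_mem_zpowers hb))).lt_of_ne fun e' =>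
            hq.one_lt.ne' (Nat.eq_one_of_dvd_coprimes hb' e (e' ▸ dvd_rfl)))
      refine ⟨u * g, mem_biUnion.2 ⟨_, mem_univ _, mem_image.2 ⟨_, h6, ?_⟩⟩⟩
      rw [mem_centralizer_singleton_iff] at hu
      change g * a * g⁻¹ * (u * (g * b * g⁻¹) * u⁻¹) = _
      rw [← mul_assoc, ← mul_assoc, ← hu]
      group

/-- Let G be a subgroup of the symmetric group of degree d ≥ 1. Then G has at most 5^{d−1} conjugacy classes. -/
theorem result (d : ℕ) (hd : 1 ≤ d) (G : Subgroup (Equiv.Perm (Fin d))) : Nat.card (ConjClasses ↥G) ≤ 5 ^ (d - 1) := by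
  classical
  by_cases h : d ≤ 7
  · refine (Nat.card_le_card_of_surjective _ ConjClasses.mk_surjective).trans ((card_le_card_group G).trans ?_)
    rw [Nat.card_perm, Nat.card_eq_fintype_card, Fintype.card_fin]
    interval_cases d <;> decide
  obtain ⟨T, h1, h2⟩ := main (Nat.card G) G (Fin d) fun g hg q hq e => absurd e (by
    simpa [show g = 1 from Subtype.ext (Equiv.ext fun a => hg a)] using hq.ne_one)
  have h3 := Nat.card_le_card_of_surjective (fun t : T => ConjClasses.mk t.1) fun c => by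
    obtain ⟨z, rfl⟩ := ConjClasses.mk_surjective c
    obtain ⟨g, hg⟩ := h2 z fun q _ e => (Nat.le_of_dvd Nat.card_pos (e.trans (orderOf_dvd_natCard z))).trans
      (Nat.le_succ _)
    exact ⟨⟨_, hg⟩, ConjClasses.mk_eq_mk_iff_isConj.2 (isConj_iff.2 ⟨g, rfl⟩).symm⟩
  have h4 : (#T : ℝ) ≤ 4 ^ d := h1.trans (by
    rw [Fintype.card_fin]
    have := div_le_self (show (0 : ℝ) ≤ 3 by norm_num) (one_le_pow₀ (n := Nat.card G) (show (1 : ℝ) ≤ 3 by norm_num))
    gcongr
    · linarith
    · exact sub_le_self _ (by positivity))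
  obtain ⟨d, rfl⟩ := Nat.exists_eq_add_of_lt (not_le.1 h)
  rw [Nat.card_eq_fintype_card (α := T), Fintype.card_coe] at h3
  refine h3.trans ((show #T ≤ 4 ^ (7 + d + 1) by exact_mod_cast h4).trans ?_)
  rw [Nat.add_sub_cancel, add_right_comm, pow_add, pow_add 5]
  exact Nat.mul_le_mul (by decide) (Nat.pow_le_pow_left (by decide) _)

end Cfsg.Agent.S4264
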