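import Cfsg.Statements.S4269
import Cfsg.Agent.BG.Base1

set_option autoImplicit false
open Cfsg

namespace Cfsg.Agent.S4269

open Subgroup Cfsg.Agent.BG
open scoped commutatorElement

/-- Let G be a finite group, V an abelian normal subgroup and H a subgroup with HV = G. Then H is pronormal in G (H and gHg⁻¹ are conjugate inside the subgroup they generate, for every g) if and only if every H-invariant subgroup U of V satisfies U = N_U(H)·[H, U], that is, U is the join of U ∩ N_G(H) and the commutator subgroup [H, U]. -/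
theorem result {G : Type*} [Group G] [Finite G]
    (V : Subgroup G) [V.Normal] (hV : IsMulCommutative ↥V) (H : Subgroup G) (hHV : H ⊔ V = ⊤) :
    Cfsg.IsPronormal H ↔
      ∀ U : Subgroup G, U ≤ V → (∀ h ∈ H, U.map (MulAut.conj h).toMonoidHom = U) →
        U = (U ⊓ Subgroup.normalizer (H : Set G)) ⊔ ⁅H, U⁆ := by
  rename_i hn
  have hc : ∀ a ∈ V, ∀ b ∈ V, a * b = b * a := fun a ha b hb =>
    congrArg Subtype.val (hV.is_comm.comm ⟨a, ha⟩ ⟨b, hb⟩)
  constructor
  · intro h U hU hH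
    have h1 : H ≤ N[U] := le_norm_iff_cj.2 hH
    have h2 : ⁅H, U⁆ ≤ U := commg_subr h1
    refine le_antisymm (fun u hu => ?_) (sup_le inf_le_left h2)
    obtain ⟨x, hx, e⟩ := h u
    have h3 : H ⊔ cj u H ≤ ⁅H, U⁆ ⊔ H := sup_le le_sup_right fun y hy => by
      obtain ⟨a, ha, rfl⟩ := mem_cj'.1 hy
      have := mul_mem (mem_sup_left (inv_mem (commutator_mem_commutator ha hu)))
        (mem_sup_right (S := ⁅H, U⁆) ha)
      rwa [show ⁅a, u⁆⁻¹ * a = u * a * u⁻¹ by rw [commutatorElement_def]; group] at this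
    obtain ⟨w, hw, a, ha, rfl⟩ := (mem_sup_norml (commg_norml H U)).1 (h3 hx)
    change cj u H = cj (w * a) H at e
    rw [cj_mul, cj_of_mem ha, eq_comm, cj_eq_iff, ← cj_mul] at e
    simpa using mul_mem (mem_sup_right hw) (mem_sup_left (T := ⁅H, U⁆)
      (mem_inf.2 ⟨mul_mem (inv_mem (h2 hw)) hu, mem_norm.2 e.symm⟩))
  · intro h g
    obtain ⟨a, ha, v, hv, e⟩ := mem_sup_of_normal_right.1 (hHV.ge (mem_top g⁻¹))
    have e1 : cj g H = cj v⁻¹ H := by
      rw [← inv_inv g, ← e, mul_inv_rev, cj_mul, cj_of_mem (inv_mem ha)]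
    change ∃ x ∈ H ⊔ cj g H, cj g H = cj x H
    rw [e1]
    set L := H ⊔ cj v⁻¹ H
    have h1 : v⁻¹ ∈ N[L] := mem_norm_of_cj_le fun y hy => by
      obtain ⟨z, hz, rfl⟩ := mem_cj'.1 hy
      obtain ⟨b, hb, w, hw, rfl⟩ := mem_sup_of_normal_right.1 (hHV.ge (mem_top z))
      rw [show v⁻¹ * (b * w) * v⁻¹⁻¹ = v⁻¹ * b * v⁻¹⁻¹ * (v⁻¹ * (w * v)) by group, hc w hw v hv,
        inv_mul_cancel_left]
      exact mul_mem (mem_sup_right (conj_mem_cj _ hb)) ((mul_mem_cancel_left (mem_sup_left hb)).1 hz)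
    have h2 : H ≤ N[V ⊓ N[L]] :=
      normsI le_normalizer_of_normal (le_sup_left.trans (le_normalizer.trans le_normalizer))
    have h3 : ⁅H, V ⊓ N[L]⁆ ≤ V := (commg_subr h2).trans inf_le_left
    obtain ⟨w, hw, n, hn, e2⟩ := (mem_sup_norml (A := ⁅H, V ⊓ N[L]⁆) (B := V ⊓ N[L] ⊓ N[H])
      (cents_norm fun x hx y hy => hc y (h3 hy) x hx.1.1)).1 (by
        rw [sup_comm]; exact (h _ inf_le_left (le_norm_iff_cj.1 h2)).le (mem_inf.2 ⟨inv_mem hv, h1⟩))
    refine ⟨w, (commutator_mono le_sup_left inf_le_right).trans (commg_subl le_rfl) hw, ?_⟩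
    rw [e2, cj_mul, cj_of_norm hn.2]

end Cfsg.Agent.S4269
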