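import Cfsg.Statements.S4271
import Cfsg.Agent.Gen2.Pronormal

set_option autoImplicit false
open Cfsg

namespace Cfsg.Agent.S4271

open Subgroup Cfsg.Agent.Gen2 Cfsg.Agent.BG

/-- Let p be a prime and G a finite group with a normal subgroup A such that every subgroup of A containing a Sylow p-subgroup of A is pronormal in A, and the Sylow p-subgroups of G/A are self-normalizing. Let T be a Sylow p-subgroup of A. Then every subgroup of G containing a Sylow p-subgroup of G is pronormal in G if and only if every subgroup of N_G(T)/T containing a Sylow p-subgroup of N_G(T)/T is pronormal in N_G(T)/T. (Pronormal: H and gHg⁻¹ are conjugate inside the subgroup they generate, for every g.) -/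
theorem result {G : Type*} [Group G] [Finite G] {p : ℕ} [Fact p.Prime]
    (A : Subgroup G) [A.Normal] (hA : (∀ K : Subgroup ↥A, (∃ P : Sylow p ↥A, (P : Subgroup ↥A) ≤ K) → Cfsg.IsPronormal K))
    (hQ : ∀ P : Sylow p (G ⧸ A), Subgroup.normalizer ((P : Subgroup (G ⧸ A)) : Set (G ⧸ A)) = P)
    (T : Subgroup G) (hT : ∃ P : Sylow p ↥A, (P : Subgroup ↥A).map A.subtype = T) [(T.subgroupOf (Subgroup.normalizer (T : Set G))).Normal] :
    (∀ K : Subgroup G, (∃ P : Sylow p G, (P : Subgroup G) ≤ K) → Cfsg.IsPronormal K) ↔ (∀ K : Subgroup (↥(Subgroup.normalizer (T : Set G)) ⧸ T.subgroupOf (Subgroup.normalizer (T : Set G))), (∃ P : Sylow p (↥(Subgroup.normalizer (T : Set G)) ⧸ T.subgroupOf (Subgroup.normalizer (T : Set G))), (P : Subgroup (↥(Subgroup.normalizer (T : Set G)) ⧸ T.subgroupOf (Subgroup.normalizer (T : Set G)))) ≤ K) → Cfsg.IsPronormal K) := by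
  obtain ⟨P, rfl⟩ := hT
  have hT := sylowIn_of_sylow P
  have key : ∀ (K : Subgroup (G ⧸ A)) (S : Sylow p (G ⧸ A)), (S : Subgroup _) ≤ K → ∀ g,
      (S : Subgroup _) ≤ cj g K → g ∈ K := fun K S hS g hg => by
    obtain ⟨a, ha, e⟩ := Sylow_trans (pHall_subl hS le_top (sylowIn_top S))
      (pHall_subl (le_cj_iff.1 hg) le_top (pHallJsub (mem_top g⁻¹) (sylowIn_top S)))
    rw [cj_eq_iff, inv_inv, ← cj_mul, eq_comm, ← mem_norm, hQ] at e
    exact (mul_mem_cancel_right ha).1 (hS e)
  refine ⟨fun h => (prnX_norm_iff hT).2 (PrnX.norm h hT), fun h => prnX_of_normal hA ?_ hT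
    ((prnX_norm_iff hT).1 h) ?_⟩
  · rintro K ⟨S, hS⟩
    refine prn_iff.2 fun g => ?_
    obtain ⟨a, ha, e⟩ := Sylow_trans (M := K ⊔ cj g K)
      (pHall_subl (hS.trans le_sup_left) le_top (sylowIn_top S))
      (pHall_subl ((cj_mono g hS).trans le_sup_right) le_top (pHallJsub (mem_top g) (sylowIn_top S)))
    refine ⟨a, ha, ?_⟩
    rw [eq_comm, cj_eq_iff, ← cj_mul, eq_comm, ← mem_norm, hQ] at e
    rw [eq_comm, cj_eq_iff, ← cj_mul, cj_of_mem (hS e)]
  · rintro K ⟨S, hS⟩
    refine le_antisymm (le_normalizer_map _) fun g hg => map_mono le_normalizer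
      (key _ (S.mapSurjective (QuotientGroup.mk'_surjective A)) (map_mono hS) g ?_)
    rw [cj_of_norm hg]
    exact map_mono hS

end Cfsg.Agent.S4271
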