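import Cfsg.Statements.S4314
import Cfsg.Agent.S4130

set_option autoImplicit false
open Cfsg

namespace Cfsg.Agent.S4314

open Subgroup Cfsg.Agent.BG Cfsg.Agent.Gen2
open scoped commutatorElement

/-- Let `G` be a finite group every conjugacy class of which has size 1 or a prime. Then either `G` is nilpotent of class at most 2, or `G/Z(G)` is a non-abelian group of order `pq` for distinct primes `p, q` (a Frobenius group of order `pq`). -/
theorem result {G : Type*} [Group G] [Finite G]
    (h : ∀ x : G, (Subgroup.centralizer ({x} : Set G)).index = 1 ∨ ((Subgroup.centralizer ({x} : Set G)).index).Prime) :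
    Subgroup.upperCentralSeries G 2 = ⊤ ∨
      ∃ p q : ℕ, p.Prime ∧ q.Prime ∧ p ≠ q ∧ Nat.card (G ⧸ Subgroup.center G) = p * q ∧ ¬ IsMulCommutative (G ⧸ Subgroup.center G) := by
  obtain ⟨-, -, -, hc, h2, -, -⟩ := S4130.result (G := G) fun x => by
    rcases h x with e | e
    · rw [e]; exact squarefree_one
    · exact e.squarefree
  by_cases hZ : commutator G ≤ center G
  · refine Or.inl (eq_top_iff.2 fun x _ => Subgroup.mem_upperCentralSeries_succ_iff.2 fun y => ?_)
    rw [Subgroup.upperCentralSeries_one]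
    exact hZ (commutator_mem_commutator (mem_top x) (mem_top y))
  right
  obtain ⟨p, hp, e, he, hep, heZ⟩ : ∃ p : ℕ, p.Prime ∧ ∃ e ∈ commutator G, PiElt {p} e ∧
      e ∉ center G := by
    by_contra H
    push Not at H
    exact hZ (le_of_pelts H)
  have hU : (zpowers e).Normal := SolvStr.normal_of_le_of_isCyclic (zpowers_le.2 he)
  obtain ⟨k, hk⟩ := (p_natP hp).1 hep
  have h5 : Nat.card (zpowers e) ∣ p := by
    rw [Nat.card_zpowers, hk]
    have : k ≤ 1 := not_lt.1 fun e => hp.not_isUnit (h2 p (by
      rw [← sq]; exact (pow_dvd_pow p e).trans (hk ▸ Subgroup.orderOf_dvd_natCard _ he)))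
    simpa using pow_dvd_pow p this
  set F := centralizer ({e} : Set G) with hF
  have hFU : F = centralizer (zpowers e : Set G) := by rw [zpowers_eq_closure, centralizer_closure]
  have hFn : F.Normal := hFU ▸ inferInstance
  have hq : F.index.Prime := (h e).resolve_left fun e => heZ (cs_eq_one_iff.1 e)
  obtain ⟨y, hy⟩ : ∃ y, y ∉ F := by
    simpa [eq_top_iff'] using fun e => heZ (cent_eq_top_iff.1 e)
  set C := centralizer ({y} : Set G) with hC
  have hUC : zpowers e ⊓ C = ⊥ := (eq_bot_or_eq_of_card_dvd hp h5 inf_le_left).resolve_right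
    fun h0 => hy (mem_cent_comm.1 (h0.ge (mem_zpowers e)).2)
  have hr : C.index.Prime := (h y).resolve_left fun e => hy (center_le_centralizer _ (cs_eq_one_iff.1 e))
  have hmax : ∀ {A B : Subgroup G}, A.index.Prime → A ≤ B → ¬ B ≤ A → B = ⊤ := fun hA hAB hBA => by
    by_contra H
    exact hBA (eq_of_le_of_relIndex_dvd hA hAB le_top (by rw [relIndex_top_right])
      fun e => H (eq_top_iff.2 e)).ge
  have h6 : zpowers e ⊔ C = ⊤ := hmax hr le_sup_right fun h0 =>
    hy (mem_cent_comm.1 (h0 (mem_sup_left (mem_zpowers e))))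
  have h7 : F ⊓ C = center G := by
    refine le_antisymm (fun c hc => ?_) (le_inf (center_le_centralizer _) (center_le_centralizer _))
    have h8 : centralizer ({c * e} : Set G) ≤ F := fun g hg => by
      obtain ⟨u, hu, v, hv, rfl⟩ := mem_sup_of_normal_left.1 (h6.ge (mem_top g))
      have huF : F ≤ centralizer ({u} : Set G) := cent_le_cent_of_mem_zpowers hu
      have hu1 : u ∈ centralizer ({c * e} : Set G) :=
        mem_cent_comm.1 (huF (mul_mem hc.1 (self_mem_cent e)))
      have hv1 := mem_cent.1 ((mul_mem_cancel_left hu1).1 hg)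
      refine mul_mem (mem_cent_comm.1 (huF (self_mem_cent e))) (mem_cent.2
        (commutatorElement_eq_one_iff_mul_comm.1 (mem_bot.1 (hUC.le (mem_inf.2
          ⟨mul_mem (hU.conj_mem _ (mem_zpowers e) v) (inv_mem (mem_zpowers e)), ?_⟩)))))
      have : ⁅v, e⁆ = v * c⁻¹ * v⁻¹ * c := by
        calc ⁅v, e⁆ = v * c⁻¹ * v⁻¹ * (v * (c * e)) * v⁻¹ * e⁻¹ := by
              rw [commutatorElement_def]; group
          _ = _ := by rw [hv1]; group
      rw [this]
      exact mul_mem (mul_mem (mul_mem hv (inv_mem hc.2)) (inv_mem hv)) hc.2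
    have h9 : F ≤ centralizer ({c * e} : Set G) := by
      by_contra H
      exact hy ((hmax ((h _).resolve_left fun h0 => H (index_eq_one.1 h0 ▸ le_top)) h8 H).ge
        (mem_top y))
    refine cent_eq_top_iff.1 (hmax hq (fun g hg => mem_cent.2 (mul_right_cancel (b := e) ?_))
      fun h0 => hy (h0 (mem_cent_comm.1 hc.2)))
    rw [mul_assoc, mem_cent.1 (h9 hg), mul_assoc, mul_assoc, mem_cent.1 hg]
  have h10 : Nat.card (G ⧸ center G) = C.index * F.index := by
    rw [← index_eq_card, ← h7, ← relIndex_mul_index (inf_le_right (a := F)), inf_relIndex_right,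
      mul_comm]
    congr 1
    exact ((Nat.dvd_prime hq).1 (relIndex_dvd_index_of_normal F C)).resolve_left fun h0 =>
      hy (relIndex_eq_one.1 h0 (self_mem_cent y))
  have h11 : ¬ IsMulCommutative (G ⧸ center G) := fun h0 =>
    hZ (Normal.quotient_commutative_iff_commutator_le.1 h0)
  refine ⟨_, _, hr, hq, fun h0 => h11 ?_, h10, h11⟩
  have : Fact F.index.Prime := ⟨hq⟩
  exact IsPGroup.isMulCommutative_of_card_eq_prime_sq (p := F.index) (by rw [h10, h0, sq])

end Cfsg.Agent.S4314
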