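import Cfsg.Statements.S4321
import Cfsg.Agent.Gen2.CopClass
import Cfsg.Agent.S4035

set_option autoImplicit false
open Cfsg

namespace Cfsg.Agent.S4321

open Subgroup Cfsg.Agent.BG Cfsg.Agent.Gen2
open scoped commutatorElement

theorem key {G : Type*} [Group G] [Finite G] {p : ℕ} [hp : Fact p.Prime] {a b : G}
    (ha : ∃ k, orderOf a = p ^ k) (haZ : a ∉ center G) (hpa : ¬ p ∣ C1[a].index)
    (hc : ∀ g, g * a * g⁻¹ ∈ C1[a]) (hb : ∃ k, orderOf b = p ^ k) (hpb : p ∣ C1[b].index)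
    (h : ∀ w : G, p ∣ orderOf w → p ∣ C1[w].index → C1[w].index.Coprime C1[a].index) : False := by
  have hd : ∀ {u : G}, (∃ k, orderOf u = p ^ k) → u ∉ center G → p ∣ orderOf u :=
    fun ⟨k, hk⟩ hu => hk ▸ dvd_pow_self p fun e => hu (by
      rw [e, pow_zero, orderOf_eq_one_iff] at hk; rw [hk]; exact one_mem _)
  have hnc : ∀ {u : G}, p ∣ C1[u].index → u ∉ center G := fun h e =>
    hp.out.not_dvd_one (cs_eq_one_iff.2 e ▸ h)
  have h1 : a ∈ pCore p G := by
    have h2 : zpowers a ⊴ C1[a].normalCore := ⟨zpowers_le.2 hc,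
      (normalCore_le _).trans (cent1_le_norm_zpowers a)⟩
    rw [← Op_top]
    exact pcoreS_normal _ (BG.normal_top _) (pcore_max h2 (p_elt_zpowers.2 ((p_natP hp.out).2 ha))
      (mem_zpowers a))
  have h2 : ∀ u : G, (∃ k, orderOf u = p ^ k) → u ∈ C1[a] := fun u hu => by
    by_cases h3 : p ∣ C1[u].index
    · exact commute_of_pElt (h u (hd hu (hnc h3)) h3) hu hpa
    · obtain ⟨S, hS⟩ := exists_sylow_le_of_not_dvd_index _ h3
      exact mem_cent_comm.1 (hS (Solv.pCore_le_sylow S h1))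
  obtain ⟨P, hP⟩ := exists_sylow_le_of_not_dvd_index _ hpa
  obtain ⟨h3, H, h4, -, h5, h6⟩ := S4035.result (G := C1[a]) (p := p) (fun c hc' e => by
    rw [← Nat.card_coe_set_eq, card_carrier_mk, cs_subtype] at e
    obtain ⟨k, hk⟩ := ha
    have h3 : (orderOf a).Coprime (orderOf (c : G)) := by
      rw [hk, orderOf_coe]; exact (hc'.pow_right k).symm
    have h4 := cent_mul_of_coprime (Gen2.mem_cent.1 c.2).symm h3
    have h5 : p ∣ C1[a * c].index := by
      rw [h4, ← relIndex_mul_index inf_le_left, inf_comm, inf_relIndex_right]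
      exact e.mul_right _
    have h6 := h _ ((hd ⟨k, hk⟩ haZ).trans (orderOf_dvd_of_mem_zpowers
      (mem_zpowers_mul_left (Gen2.mem_cent.1 c.2).symm h3))) h5
    exact haZ (cs_eq_one_iff.1 (h6.symm.eq_one_of_dvd (h4 ▸ index_dvd_of_le inf_le_left))))
    (P.subtype hP)
  have h7 : ∀ u : G, (∃ k, orderOf u = p ^ k) → u ∈ (P : Subgroup G) := fun u hu =>
    mem_sylow_of_mem_normalizer P hu
      ((normal_subgroupOf_iff_le_normalizer hP).1 h3 (h2 u hu))
  have hn : (P : Subgroup G).Normal :=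
    ⟨fun u hu g => h7 _ (pElt_conj (pElt_of_mem P.isPGroup' hu) g)⟩
  have h8 : ∀ u ∈ (P : Subgroup G), p ∣ C1[u].index → u ∈ (center (G ⧸ ⁅(P : Subgroup G), (P : Subgroup G)⁆)).comap
      (QuotientGroup.mk' _) := fun u hu hpu => mem_center_iff.2 fun g => by
    obtain ⟨g, rfl⟩ := QuotientGroup.mk'_surjective _ g
    rw [← commutatorElement_eq_one_iff_mul_comm, ← map_commutatorElement]
    refine (QuotientGroup.eq_one_iff _).2 ?_
    obtain ⟨c, hc, d, hd', rfl⟩ := exists_mul_of_coprime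
      (h u (hd (pElt_of_mem P.isPGroup' hu) (hnc hpu)) hpu).symm g
    obtain ⟨s, hs, t, ht, e⟩ := mem_sup_of_normal_left.1 (h6.ge (mem_top ⟨c, hc⟩))
    have e1 : (t : G) * u = u * t := congrArg Subtype.val
      (commute_of_normal_of_disjoint _ _ h3 h4 (disjoint_iff.2 h5) ⟨u, hP hu⟩ t hu ht).symm.eq
    have : ⁅c * d, u⁆ = ⁅(s : G), u⁆ := by
      rw [show c = s * t from (congrArg Subtype.val e).symm]
      calc ⁅(s : G) * t * d, u⁆ = s * (t * (d * u) * d⁻¹) * (t : G)⁻¹ * (s : G)⁻¹ * u⁻¹ := by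
            rw [commutatorElement_def]; group
        _ = _ := by rw [Gen2.mem_cent.1 hd', mul_assoc (t : G), mul_inv_cancel_right, e1,
            commutatorElement_def]; group
    exact this ▸ commutator_mem_commutator hs hu
  have hz : ∀ u : G, ¬ p ∣ C1[u].index → (P : Subgroup G) ≤ C1[u] := fun u hu =>
    le_cent_of_coprime (by
      obtain ⟨k, hk⟩ := IsPGroup.iff_card.1 P.isPGroup'
      exact hk ▸ ((Nat.Prime.coprime_iff_not_dvd hp.out).2 hu).pow_left k)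
  have h9 : (P : Subgroup G) ≤ (center (G ⧸ ⁅(P : Subgroup G), (P : Subgroup G)⁆)).comap (QuotientGroup.mk' _) :=
    fun u hu => by
    by_cases h10 : p ∣ C1[u].index
    · exact h8 u hu h10
    refine (mul_mem_cancel_right (h8 b (h7 b hb) hpb)).1 (h8 _ (mul_mem hu (h7 b hb))
      (by_contra fun e => not_dvd_index_of_sylow_le P (fun s hs => mem_cent_comm.1 ?_) hpb))
    exact (mul_mem_cancel_left (mem_cent_comm.1 (hz u h10 hs))).1 (mem_cent_comm.1 (hz _ e hs))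
  obtain ⟨t, ht, hta⟩ := Nat.exists_prime_and_dvd fun e => haZ (cs_eq_one_iff.1 e)
  have : Fact t.Prime := ⟨ht⟩
  obtain ⟨T⟩ : Nonempty (Sylow t G) := inferInstance
  refine not_dvd_index_of_sylow_le T (fun g hg => Gen2.mem_cent.2 ?_) hta
  refine (coprime_cent_Phi (K := P) (A := T) le_normalizer_of_normal
    (IsPGroup.coprime_card_of_ne p t (fun e => hpa (e ▸ hta)) _ _ P.isPGroup' T.isPGroup')
    ((commutator_le.2 fun u hu s _ => (QuotientGroup.eq_one_iff _).1 ?_).trans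
      (der1_sub_Phi P.isPGroup'.isNilpotent)) hg a (h7 a ha)).symm
  change QuotientGroup.mk' _ _ = 1
  rw [map_commutatorElement, commutatorElement_eq_one_iff_mul_comm]
  exact (mem_center_iff.1 (h9 hu) _).symm

theorem walk {G : Type*} [Group G] [Finite G] {p : ℕ} [hp : Fact p.Prime]
    (hZ : ¬ p ∣ Nat.card (center G)) {a b : G}
    (ha : ∃ k, orderOf a = p ^ k) (ha1 : a ≠ 1) (hb : ∃ k, orderOf b = p ^ k)
    (hc : C1[a].index.Coprime C1[b].index) (h : C1[a * b].index.Coprime C1[a].index) :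
    ∃ t u : ℕ, t.Prime ∧ u.Prime ∧ t ∣ C1[a].index ∧ u ∣ C1[b].index ∧
      ∃ w : G, p ∣ orderOf w ∧ t ∣ C1[w].index ∧ u ∣ C1[w].index := by
  have haZ : a ∉ center G := fun e => by
    obtain ⟨k, hk⟩ := ha
    refine hZ ((dvd_pow_self p fun e => ha1 ?_).trans (hk ▸ Subgroup.orderOf_dvd_natCard _ e))
    rwa [e, pow_zero, orderOf_eq_one_iff] at hk
  have h1 := cs_le_cs_mul (x := a⁻¹) (y := a * b) (by rw [cent_inv]; exact h.symm)
  rw [inv_mul_cancel_left] at h1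
  have h2 : p ∣ C1[b].index := by_contra fun e => haZ (mem_center_of_coprime_cs hc h1 (by
    obtain ⟨k, hk⟩ := ha
    exact hk ▸ ((Nat.Prime.coprime_iff_not_dvd hp.out).2 e).pow_left k))
  by_contra H
  refine key ha haZ (fun e => hp.out.not_dvd_one (hc ▸ Nat.dvd_gcd e h2)) (fun g => ?_) hb h2
    fun w hw hpw => Nat.coprime_of_dvd fun t ht h3 h4 =>
      H ⟨t, p, ht, hp.out, h4, h2, w, hw, h3, hpw⟩
  have := le_cent_of_coprime (hc.symm.of_dvd_left (card_clStab_dvd b)) (comm_mem_clStab hc h1 g)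
  simpa [commutatorElement_def, mul_assoc] using mul_mem (inv_mem this) (self_mem_cent a)

/-- Let `G` be a finite group and `p` a prime not dividing the order of the centre of `G`. Consider the primes dividing the size of some conjugacy class of a `p`-singular element (an element of order divisible by `p`), two of them adjacent when their product divides such a class size. Then any two distinct such primes are joined by a path with at most 3 edges (the graph is connected of diameter at most 3). -/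
theorem result {G : Type*} [Group G] [Finite G] (p : ℕ) [Fact p.Prime]
    (hZ : ¬ p ∣ Nat.card ↥(Subgroup.center G)) (r s : ℕ) (hr : (r.Prime ∧ ∃ x : G, p ∣ orderOf x ∧ r ∣ (Subgroup.centralizer ({x} : Set G)).index)) (hs : (s.Prime ∧ ∃ x : G, p ∣ orderOf x ∧ s ∣ (Subgroup.centralizer ({x} : Set G)).index)) (hrs : r ≠ s) :
    (∃ x : G, p ∣ orderOf x ∧ r * s ∣ (Subgroup.centralizer ({x} : Set G)).index) ∨ (∃ t : ℕ, (t.Prime ∧ ∃ x : G, p ∣ orderOf x ∧ t ∣ (Subgroup.centralizer ({x} : Set G)).index) ∧ t ≠ r ∧ t ≠ s ∧ (∃ x : G, p ∣ orderOf x ∧ r * t ∣ (Subgroup.centralizer ({x} : Set G)).index) ∧ (∃ x : G, p ∣ orderOf x ∧ t * s ∣ (Subgroup.centralizer ({x} : Set G)).index)) ∨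
      (∃ t u : ℕ, (t.Prime ∧ ∃ x : G, p ∣ orderOf x ∧ t ∣ (Subgroup.centralizer ({x} : Set G)).index) ∧ (u.Prime ∧ ∃ x : G, p ∣ orderOf x ∧ u ∣ (Subgroup.centralizer ({x} : Set G)).index) ∧ t ≠ r ∧ u ≠ s ∧ t ≠ u ∧ (∃ x : G, p ∣ orderOf x ∧ r * t ∣ (Subgroup.centralizer ({x} : Set G)).index) ∧ (∃ x : G, p ∣ orderOf x ∧ t * u ∣ (Subgroup.centralizer ({x} : Set G)).index) ∧ (∃ x : G, p ∣ orderOf x ∧ u * s ∣ (Subgroup.centralizer ({x} : Set G)).index)) := by
  rename_i hp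
  obtain ⟨x, hx, hrx⟩ := hr.2
  obtain ⟨y, hy, hsy⟩ := hs.2
  have m : ∀ {r s n : ℕ}, r.Prime → s.Prime → r ≠ s → r ∣ n → s ∣ n → r * s ∣ n :=
    fun hr hs h => ((Nat.coprime_primes hr hs).2 h).mul_dvd_of_dvd_of_dvd
  set a := constt {p} x
  set b := constt {p} y
  have ha : ∃ k, orderOf a = p ^ k := (p_natP hp.out).1 (p_elt_constt _ x)
  have hb : ∃ k, orderOf b = p ^ k := (p_natP hp.out).1 (p_elt_constt _ y)
  have ha1 : a ≠ 1 := constt_ne_one hp.out rfl hx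
  have hb1 : b ≠ 1 := constt_ne_one hp.out rfl hy
  have hd : ∀ {u : G}, (∃ k, orderOf u = p ^ k) → u ≠ 1 → p ∣ orderOf u :=
    fun ⟨k, hk⟩ hu => hk ▸ dvd_pow_self p fun e => hu (by
      rwa [e, pow_zero, orderOf_eq_one_iff] at hk)
  obtain ⟨t, u, ht, hu, h1, h2, w, hw, h3, h4⟩ : ∃ t u : ℕ, t.Prime ∧ u.Prime ∧ t ∣ C1[a].index ∧
      u ∣ C1[b].index ∧ ∃ w : G, p ∣ orderOf w ∧ t ∣ C1[w].index ∧ u ∣ C1[w].index := by
    by_cases hc : C1[a].index.Coprime C1[b].index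
    swap
    · obtain ⟨t, ht, h1, h2⟩ := Nat.Prime.not_coprime_iff_dvd.1 hc
      exact ⟨t, t, ht, ht, h1, h2, a, hd ha ha1, h1, h1⟩
    have hab : Commute a b := by
      by_cases h1 : p ∣ C1[b].index
      · exact (Gen2.mem_cent.1 (commute_of_pElt hc.symm hb
          fun e => hp.out.not_dvd_one (hc ▸ Nat.dvd_gcd e h1))).symm
      · exact Gen2.mem_cent.1 (commute_of_pElt hc ha h1)
    by_cases h1 : C1[a * b].index.Coprime C1[a].index
    · exact walk hZ ha ha1 hb hc h1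
    by_cases h2 : C1[b * a].index.Coprime C1[b].index
    · obtain ⟨t, u, ht, hu, h1, h2, w, hw, h3, h4⟩ := walk hZ hb hb1 ha hc.symm h2
      exact ⟨u, t, hu, ht, h2, h1, w, hw, h4, h3⟩
    obtain ⟨t, ht, h3, h4⟩ := Nat.Prime.not_coprime_iff_dvd.1 h1
    obtain ⟨u, hu, h5, h6⟩ := Nat.Prime.not_coprime_iff_dvd.1 h2
    refine ⟨t, u, ht, hu, h4, h6, a * b, hd ((p_natP hp.out).1 (p_eltM hab (p_elt_constt _ x)
      (p_elt_constt _ y))) fun e => ?_, h3, hab.eq ▸ h5⟩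
    rw [e, cs_one] at h3
    exact ht.not_dvd_one h3
  replace h1 := h1.trans (index_dvd_of_le (cent1_le_constt _ x))
  replace h2 := h2.trans (index_dvd_of_le (cent1_le_constt _ y))
  by_contra H
  simp only [not_or, not_exists, not_and] at H
  obtain ⟨H1, H2, H3⟩ := H
  have h0 : ∀ t : ℕ, t.Prime → ∀ v w : G, p ∣ orderOf v → p ∣ orderOf w → r ∣ C1[v].index →
      t ∣ C1[v].index → t ∣ C1[w].index → ¬ s ∣ C1[w].index := fun t ht v w hv hw h1 h2 h3 h4 => by
    by_cases e1 : t = r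
    · exact H1 w hw (m hr.1 hs.1 hrs (e1 ▸ h3) h4)
    by_cases e2 : t = s
    · exact H1 v hv (m hr.1 hs.1 hrs h1 (e2 ▸ h2))
    exact H2 t ⟨ht, v, hv, h2⟩ e1 e2 ⟨v, hv, m hr.1 ht (Ne.symm e1) h1 h2⟩ w hw (m ht hs.1 e2 h3 h4)
  by_cases e1 : t = r
  · exact h0 u hu w y hw hy (e1 ▸ h3) h4 h2 hsy
  by_cases e2 : u = s
  · exact h0 t ht x w hx hw hrx h1 h3 (e2 ▸ h4)
  by_cases e3 : t = u
  · exact h0 t ht x y hx hy hrx h1 (e3 ▸ h2) hsy
  exact H3 t u ⟨ht, x, hx, h1⟩ ⟨hu, y, hy, h2⟩ e1 e2 e3 ⟨x, hx, m hr.1 ht (Ne.symm e1) hrx h1⟩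
    ⟨w, hw, m ht hu e3 h3 h4⟩ y hy (m hu hs.1 e2 h2 hsy)

end Cfsg.Agent.S4321
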