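import Cfsg.Statements.S4323
import Cfsg.Agent.Mart.B
import Cfsg.Agent.Transfer.Hol

set_option autoImplicit false
open Cfsg

namespace Cfsg.Agent.S4323

open Subgroup Cfsg.Agent.BG Cfsg.Agent.Transfer

/-- Let `q` be a prime and `A` a non-cyclic group of order `q²` acting by automorphisms on a finite group `G` of order prime to `q`, such that the fixed-point subgroup `C_G(a)` is abelian for every non-identity `a ∈ A`. Then `G` is solvable. -/
theorem result {A G : Type*} [Group A] [Finite A]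
    [Group G] [Finite G] [MulDistribMulAction A G] (q : ℕ) (hq : q.Prime) (hA : Nat.card A = q ^ 2) (hnc : ¬ IsCyclic A)
    (hcop : ¬ q ∣ Nat.card G) (h : ∀ a : A, a ≠ 1 → IsMulCommutative ↥(FixedPoints.subgroup (Subgroup.zpowers a) G)) :
    Group.IsSolvable G := by
  set φ : A →* MulAut G := MulDistribMulAction.toMulAut A G
  haveI := Fact.mk hq
  have iso : ∀ H : Subgroup G, Nonempty (H ≃* sdL φ H) := fun H =>
    isog_map_inj SemidirectProduct.inl_injective H
  have h1 : Abelem q (⊤ : Subgroup A) := abelemP.2 ⟨p2group_abelian (p := q) (by rw [card_top, hA]), fun x _ => by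
    obtain ⟨k, hk, e⟩ := (Nat.dvd_prime_pow hq).1 (hA ▸ orderOf_dvd_natCard x)
    refine orderOf_dvd_iff_pow_eq_one.1 ?_
    rw [e]
    rcases hk.lt_or_eq with hk | rfl
    · exact (pow_dvd_pow q (Nat.le_of_lt_succ hk)).trans (pow_one q).dvd
    · exact absurd (isCyclic_of_orderOf_eq_card x (e.trans hA.symm)) hnc⟩
  refine isog_sol (isog_symm (isog_trans isog_top (iso ⊤))) (Mart.amb (A := sdR φ ⊤) hq
    ⟨le_rfl, abelem_map _ h1, by rw [card_sdR, card_top, hA]⟩ (sdR_le_normalizer_top φ ⊤) ?_ ?_)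
  · rw [card_sdL, card_sdR, card_top, card_top, hA]
    exact (((Nat.Prime.coprime_iff_not_dvd hq).2 hcop).symm).pow_right 2
  · rintro _ ⟨a, -, rfl⟩ a1
    refine abelianS ?_ (isog_abelian (iso _) (h a fun e => a1 (by rw [e, map_one])))
    rintro _ ⟨⟨g, -, rfl⟩, hg⟩
    have h2 : a • g = g := (inr_mul_inl_eq_iff φ).1 (mem_cent1.1 hg).symm
    refine ⟨g, fun b => ?_, rfl⟩
    exact (show Subgroup.zpowers a ≤ MulAction.stabilizer A g from zpowers_le.2 h2) b.2

end Cfsg.Agent.S4323
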