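import Cfsg.Statements.S4330
import Cfsg.Agent.Cov.C
import Cfsg.Agent.Solv.Fitting
import Cfsg.Agent.Solv.MinNormal
import Cfsg.Agent.Loc.Syl

set_option autoImplicit false
open Pointwise
open Cfsg

namespace Cfsg.Agent.S4330
open Subgroup
open scoped IsMulCommutative

universe u

theorem main {p : ℕ} [hp : Fact p.Prime] (hp2 : p ≠ 2) (n : ℕ) : ∀ (G : Type u) [Group G] [Finite G],
    Nat.card G < n → Group.IsSolvable G → ∀ a : G,
    (∀ c : G, ∃ g : G, IsConj c g ∧ ∃ P : Subgroup G, IsPGroup p P ∧ a ∈ P ∧ g * a * g⁻¹ ∈ P) →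
    a ∈ pCore p G := by
  induction n with
  | zero => intro G _ _ h; omega
  | succ n ih =>
  intro G _ _ hn hG a h
  rcases subsingleton_or_nontrivial G with h0 | h0
  · rw [Subsingleton.elim a 1]; exact one_mem _
  obtain ⟨q, N, hq, Nn, N0, Nc, -, Nq, -⟩ := Solv.exists_normal_elementary G
  have sj := QuotientGroup.mk'_surjective N
  have h1 := ih (G ⧸ N) (by
      have := lt_mul_of_one_lt_left (Nat.card_pos (α := G ⧸ N)) (N.one_lt_card_iff_ne_bot.2 N0)
      rw [← index, N.card_mul_index] at this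
      rw [← index]; omega) inferInstance (QuotientGroup.mk' N a) fun c => by
    obtain ⟨c, rfl⟩ := sj c
    obtain ⟨g, h1, P, h2, h3, h4⟩ := h c
    exact ⟨_, (QuotientGroup.mk' N).map_isConj h1, P.map (QuotientGroup.mk' N), h2.map _,
      ⟨a, h3, rfl⟩, ⟨_, h4, by simp⟩⟩
  by_cases e : q = p
  · subst e
    rw [← Loc.comap_pCore_of_ker_isPGroup sj (by rw [QuotientGroup.ker_mk']; exact Nq)]
    exact h1
  haveI : Fact q.Prime := ⟨hq⟩
  set K := (pCore p (G ⧸ N)).comap (QuotientGroup.mk' N) with hK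
  haveI := Loc.pCore_normal' p (G ⧸ N)
  have hc : ∀ v : N, (MulAut.conjNormal a : MulAut N) v = v := by
    letI : MulDistribMulAction G N := MulDistribMulAction.compHom N (MulAut.conjNormal : G →* MulAut N)
    refine Cov.P_all hp2 _ N G (Nat.lt_succ_self _) ?_ K inferInstance (fun k hk => ?_) a h1 fun v => ?_
    · obtain ⟨j, hj⟩ := IsPGroup.iff_card.1 Nq
      rw [hj]; exact ((Nat.coprime_primes hq hp.out).2 e).pow_left _
    · obtain ⟨j, hj⟩ := Loc.isPGroup_pCore p (G ⧸ N) ⟨_, hk⟩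
      have : k ^ p ^ j ∈ N := (QuotientGroup.eq_one_iff _).1 (congrArg Subtype.val hj)
      refine ⟨j, fun v => Subtype.ext ?_⟩
      change k ^ p ^ j * v * (k ^ p ^ j)⁻¹ = v
      rw [mul_inv_eq_iff_eq_mul]
      exact congrArg Subtype.val (mul_comm (⟨_, this⟩ : N) v)
    · obtain ⟨g, h1, P, h2, h3, h4⟩ := h v
      obtain ⟨c, rfl⟩ := isConj_iff.1 h1
      have hN := Nn.conj_mem v v.2 c
      have := (IsPGroup.disjoint_of_ne p q (Ne.symm e) P N h2 Nq).le_bot
        (mem_inf.2 ⟨mul_mem h4 (inv_mem h3), by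
          have := mul_mem hN (Nn.conj_mem _ (inv_mem hN) a)
          simpa [mul_assoc] using this⟩)
      refine ⟨c⁻¹, Subtype.ext ?_⟩
      change c⁻¹ * a * c⁻¹⁻¹ * v * (c⁻¹ * a * c⁻¹⁻¹)⁻¹ = v
      have e := mem_bot.1 this
      calc _ = c⁻¹ * a * (c * v * c⁻¹) * a⁻¹ * c := by group
        _ = c⁻¹ * (c * v * c⁻¹ * a * (c * v * c⁻¹)⁻¹ * a⁻¹) * a * (c * v * c⁻¹) * a⁻¹ * c := by
          rw [e]; group
        _ = _ := by group
  set L := K ⊓ centralizer (N : Set G) with hL
  have aL : a ∈ L := ⟨h1, fun v hv => by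
    have : a * v * a⁻¹ = v := congrArg Subtype.val (hc ⟨v, hv⟩)
    rw [mul_inv_eq_iff_eq_mul] at this; exact this.symm⟩
  haveI : Group.IsNilpotent (pCore p (G ⧸ N)) := (Loc.isPGroup_pCore p (G ⧸ N)).isNilpotent
  haveI : Group.IsNilpotent L := Subgroup.isNilpotent_of_ker_le_center
    (((QuotientGroup.mk' N).comp L.subtype).codRestrict (pCore p (G ⧸ N)) fun x => x.2.1)
    fun x hx => mem_center_iff.2 fun y => Subtype.ext (y.2.2 x
      ((QuotientGroup.eq_one_iff _).1 (congrArg Subtype.val hx))).symm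
  obtain ⟨-, -, P, h2, h3, -⟩ := h 1
  have := Solv.le_pCore_of_isNilpotent (Q := P.subgroupOf L) (h2.comap_subtype) (x := ⟨a, aL⟩) h3
  exact Loc.le_pCore (N := (pCore p L).map L.subtype) inferInstance
    ((Loc.isPGroup_pCore p L).map _) ⟨_, this, rfl⟩

/-- Let G be a finite solvable group, p an odd prime and A a p-subgroup of G such that every conjugacy class of G contains an element g for which A is subnormal in the subgroup generated by A and its conjugate by g. Then A is contained in O_p(G). (The hypothesis that p is odd is needed.) -/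
theorem result {G : Type*} [Group G] [Finite G]
    (hG : Group.IsSolvable G) (p : ℕ) [Fact p.Prime] (hp : p ≠ 2) (A : Subgroup G) (hA : IsPGroup p A)
    (h : ∀ c : G, ∃ g : G, IsConj c g ∧ (A.subgroupOf (A ⊔ MulAut.conj g • A)).IsSubnormal) :
    A ≤ Cfsg.pCore p G := by
  intro a ha
  refine main hp _ G (Nat.lt_succ_self _) hG a fun c => ?_
  obtain ⟨g, h1, h2⟩ := h c
  set J := A ⊔ MulAut.conj g • A with hJ
  have h3 := Solv.le_pCore_of_isSubnormal h2 hA.comap_subtype
  have hg : IsPGroup p (MulAut.conj g • A : Subgroup G) := hA.map _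
  haveI := Loc.pCore_normal' p J
  have h4 := IsPGroup.to_sup_of_normal_left (Loc.isPGroup_pCore p J)
    (hg.comap_subtype (K := J))
  refine ⟨g, h1, _, h4.map J.subtype, ⟨⟨a, mem_sup_left ha⟩, mem_sup_left (h3 ha), rfl⟩,
    ⟨⟨_, mem_sup_right (smul_mem_pointwise_smul a (MulAut.conj g) A ha)⟩,
      mem_sup_right (smul_mem_pointwise_smul a (MulAut.conj g) A ha), rfl⟩⟩

end Cfsg.Agent.S4330
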