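import Cfsg.Statements.S4331
import Cfsg.Agent.BG.Base6
import Cfsg.Agent.Char.Burnside
import Cfsg.Agent.SolvStr.Subnormal

set_option autoImplicit false
open Cfsg

namespace Cfsg.Agent.S4331

open Subgroup Cfsg.Agent.BG

/-- `AΓL(1,9)` -/
@[ext] structure T where
  a : ZMod 3
  c : ZMod 3
  e : ZMod 3
  v : ZMod 3
  w : ZMod 3
  h : e * e = 1 ∧ a * a + c * c ≠ 0
  deriving DecidableEq

instance instFintypeT : Fintype T := Fintype.ofEquiv
  {t : ZMod 3 × ZMod 3 × ZMod 3 × ZMod 3 × ZMod 3 // t.2.2.1 * t.2.2.1 = 1 ∧ t.1 * t.1 + t.2.1 * t.2.1 ≠ 0}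
  ⟨fun t => ⟨_, _, _, t.1.2.2.2.1, t.1.2.2.2.2, t.2⟩, fun t => ⟨(t.a, t.c, t.e, t.v, t.w), t.h⟩, fun _ => rfl, fun _ => rfl⟩

theorem h1 : ∀ a c e a' c' e' : ZMod 3, e * e = 1 ∧ a * a + c * c ≠ 0 → e' * e' = 1 ∧ a' * a' + c' * c' ≠ 0 →
    e * e' * (e * e') = 1 ∧ (a * a' - e * c * c') * (a * a' - e * c * c') +
      (c * a' + e * a * c') * (c * a' + e * a * c') ≠ 0 := by decide +kernel

theorem h2 : ∀ a c e : ZMod 3, e * e = 1 ∧ a * a + c * c ≠ 0 → e * e = 1 ∧ (a * a + c * c) * a * ((a * a + c * c) * a) +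
    -e * (a * a + c * c) * c * (-e * (a * a + c * c) * c) ≠ 0 := by decide +kernel

instance instMulT : Mul T := ⟨fun x y => ⟨x.a * y.a - x.e * x.c * y.c, x.c * y.a + x.e * x.a * y.c, x.e * y.e,
  x.a * y.v - x.e * x.c * y.w + x.v, x.c * y.v + x.e * x.a * y.w + x.w, h1 _ _ _ _ _ _ x.h y.h⟩⟩

instance instOneT : One T := ⟨⟨1, 0, 1, 0, 0, by decide⟩⟩

instance instInvT : Inv T := ⟨fun x => ⟨(x.a * x.a + x.c * x.c) * x.a, -x.e * (x.a * x.a + x.c * x.c) * x.c, x.e,
  -(x.a * x.a + x.c * x.c) * (x.a * x.v + x.c * x.w), -x.e * (x.a * x.a + x.c * x.c) * (x.a * x.w - x.c * x.v),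
  h2 _ _ _ x.h⟩⟩

theorem mul_def (x y : T) : x * y = ⟨x.a * y.a - x.e * x.c * y.c, x.c * y.a + x.e * x.a * y.c, x.e * y.e,
  x.a * y.v - x.e * x.c * y.w + x.v, x.c * y.v + x.e * x.a * y.w + x.w, h1 _ _ _ _ _ _ x.h y.h⟩ := rfl

instance instGroupT : Group T := Group.ofLeftAxioms (fun x y z => by
    rcases (by decide : ∀ e : ZMod 3, e * e = 1 → e = 1 ∨ e = -1) _ x.h.1 with h | h <;>
      ext <;> simp only [mul_def, h] <;> ring)
  (by decide +kernel) (by decide +kernel)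

/-- the reflection -/
def s : T := ⟨1, 0, -1, 0, 0, by decide⟩

/-- the point stabilizer -/
def S : Subgroup T where
  carrier := {g | g.v = 0 ∧ g.w = 0}
  mul_mem' := by decide +kernel
  one_mem' := by decide
  inv_mem' := by decide +kernel

theorem h3 : ∀ g : T, g ^ 24 = 1 := by decide +kernel
theorem h4 : ∀ g : T, g.v = 0 ∧ g.w = 0 → g ^ 2 ^ 3 = 1 := by decide +kernel
theorem h5 : ∀ c : T, ∃ x : T, ((x * c * x⁻¹).v = 0 ∧ (x * c * x⁻¹).w = 0) ∨ x * c * x⁻¹ * s = s * (x * c * x⁻¹) := by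
  decide +kernel

/-- There is a finite solvable group G with a subgroup A of order 2 such that every conjugacy class of G contains an element g for which A is subnormal in the subgroup generated by A and g, and yet A is not contained in O_2(G). (So the corresponding criteria for odd primes fail at the prime 2, even for solvable groups.) -/
theorem result :
    ∃ (G : Type) (_ : Group G) (_ : Finite G) (A : Subgroup G), Group.IsSolvable G ∧ Nat.card A = 2 ∧
      (∀ c : G, ∃ g : G, IsConj c g ∧ (A.subgroupOf (A ⊔ Subgroup.zpowers g)).IsSubnormal) ∧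
      ¬ A ≤ Cfsg.pCore 2 G := by
  refine ⟨T, inferInstance, inferInstance, zpowers s, Char.isSolvable_of_two_primes (p := 2) (q := 3) fun r hr h => ?_,
    (Nat.card_zpowers s).trans (orderOf_eq_prime (by decide +kernel) (by decide +kernel)), fun c => ?_, fun h => ?_⟩
  · have := Fact.mk hr
    obtain ⟨g, rfl⟩ := exists_prime_orderOf_dvd_card' r h
    exact ((Nat.Prime.dvd_mul hr).1 (show _ ∣ 2 ^ 3 * 3 from orderOf_dvd_of_pow_eq_one (h3 g))).imp
      (fun h => (Nat.prime_dvd_prime_iff_eq hr Nat.prime_two).1 (hr.dvd_of_dvd_pow h))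
      (Nat.prime_dvd_prime_iff_eq hr Nat.prime_three).1
  · obtain ⟨x, hx⟩ := h5 c
    refine ⟨_, isConj_iff.2 ⟨x, rfl⟩, ?_⟩
    rcases hx with hx | hx
    · have hS : IsPGroup 2 S := fun g => ⟨3, Subtype.ext (h4 g g.2)⟩
      exact (nilpotent_subnormal (pgroup_nil (IsPGroup.sub hS (sup_le (zpowers_le.2 ⟨rfl, rfl⟩) (zpowers_le.2 hx))))
        le_sup_left).2
    · exact (normalYl (cents_norm (zpowers_le.2 (C_zpowers s ▸ mem_cent1.2 hx)))).subnormal.2
  rw [← Op_top] at h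
  let t : T := ⟨1, 0, 1, 0, 1, by decide⟩
  have h6 := mem_p_elt (pcore_pgroup _ _) (mul_mem (h (mem_zpowers s))
    ((pcore_normal _ _).conj_mem (mem_top t) (h (mem_zpowers s))))
  have := Fact.mk Nat.prime_three
  exact absurd (h6 3 Nat.prime_three (orderOf_eq_prime (by decide +kernel) (by decide +kernel)).symm.dvd) (by simp)

end Cfsg.Agent.S4331
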