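import Cfsg.Statements.S4332
import Cfsg.Agent.BG.Base6

set_option autoImplicit false
open Pointwise
open Cfsg

namespace Cfsg.Agent.S4332

open Subgroup Cfsg.Agent.BG Equiv Equiv.Perm

theorem hB : ∀ i j k : Fin 8, Commute (swap i j * swap j k) (swap j k * swap k i) ∧
    Commute (swap i j * swap j k) (swap j i * swap i k) := by
  unfold Commute SemiconjBy; decide +kernel

theorem hD {i j k x y z : Fin 8} (h : [i, j, k, x, y, z].Nodup) : Commute (swap i j * swap j k) (swap x y * swap y z) := by
  refine (Commute.mul_right ?_ ?_).mul_left (Commute.mul_right ?_ ?_) <;>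
    exact (disjoint_swap_swap (by grind)).commute

theorem key (c : Perm (Fin 8)) : ∃ i j k, [i, j, k].Nodup ∧
    Commute (swap i j * swap j k) (swap (c i) (c j) * swap (c j) (c k)) := by
  have inj : ∀ a b, c a = c b → a = b := fun a b h => c.injective h
  by_cases h : c.support.card ≤ 5
  · obtain ⟨i, j, k, hi, hj, hk, h⟩ := Finset.two_lt_card_iff.1 (show 2 < c.supportᶜ.card by
      rw [Finset.card_compl, Fintype.card_fin]; omega)
    simp only [Finset.mem_compl, notMem_support] at hi hj hk
    exact ⟨i, j, k, by grind, by rw [hi, hj, hk]⟩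
  obtain ⟨i, hi⟩ := Finset.card_pos.1 (show 0 < c.support.card by omega)
  obtain ⟨i, rfl⟩ := c.surjective i
  rw [apply_mem_support, mem_support] at hi
  by_cases h2 : c (c i) = i
  · obtain ⟨j, -, hj⟩ := Finset.exists_mem_notMem_of_card_lt_card (s := {i, c i}) (t := Finset.univ)
      (Finset.card_le_two.trans_lt (by simp))
    by_cases h3 : c j = j
    · exact ⟨i, c i, j, by grind, by rw [h2, h3]; exact (hB _ _ _).2⟩
    obtain ⟨k, -, hk⟩ := Finset.exists_mem_notMem_of_card_lt_card (s := {i, c i, j, c j, c.symm j}) (t := Finset.univ)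
      (Finset.card_le_five.trans_lt (by simp))
    by_cases h4 : c k = k
    · exact ⟨i, c i, k, by grind, by rw [h2, h4]; exact (hB _ _ _).2⟩
    have := c.apply_symm_apply j
    exact ⟨i, j, k, by grind, hD (by grind)⟩
  by_cases h3 : c (c (c i)) = i
  · exact ⟨i, c i, c (c i), by grind, by rw [h3]; exact (hB _ _ _).1⟩
  obtain ⟨k, hk', hk⟩ := Finset.exists_mem_notMem_of_card_lt_card (s := {i, c i, c (c i), c (c (c i)), c (c (c (c i)))})
    (t := c.support) (Finset.card_le_five.trans_lt (by omega))
  rw [mem_support] at hk'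
  exact ⟨c i, c (c (c i)), k, by grind, hD (by grind)⟩

/-- In the symmetric group of degree 8, let A be the subgroup generated by a 3-cycle. Then every conjugacy class contains an element g for which A is subnormal in the subgroup generated by A and its conjugate by g, although O_3 of the symmetric group of degree 8 is trivial. -/
theorem result
    (σ : Equiv.Perm (Fin 8)) (hσ : σ.IsThreeCycle) :
    (∀ c : Equiv.Perm (Fin 8), ∃ g : Equiv.Perm (Fin 8), IsConj c g ∧
      ((Subgroup.zpowers σ).subgroupOf (Subgroup.zpowers σ ⊔ MulAut.conj g • Subgroup.zpowers σ)).IsSubnormal) ∧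
    Cfsg.pCore 3 (Equiv.Perm (Fin 8)) = ⊥ := by
  refine ⟨fun c => ?_, by_contra fun h => ?_⟩
  · obtain ⟨i, j, k, h1, h2⟩ := key c
    have h3 : (swap i j * swap j k).IsThreeCycle := by
      rw [swap_comm i j, ← IsThreeCycle.inv_iff, mul_inv_rev, swap_inv, swap_inv]
      exact isThreeCycle_swap_mul_swap_same (by grind) (by grind) (by grind)
    obtain ⟨x, rfl⟩ := isConj_iff.1 (isConj_iff_cycleType_eq.2 (h3.cycleType.trans hσ.cycleType.symm))
    refine ⟨_, isConj_iff.2 ⟨x, rfl⟩, (normalYl (cents_norm ?_)).subnormal.2⟩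
    rw [swap_apply_apply, swap_apply_apply] at h2
    rw [cj_eq_smul, cj_zpowers, C_zpowers, C1_conj, zpowers_le, mem_cj, mem_cent1]
    exact Eq.trans (by group) (h2.symm.eq.trans (by group))
  have := Fact.mk Nat.prime_three
  rw [← Op_top] at h
  have := (pcore_normal {3} (⊤ : Subgroup (Perm (Fin 8)))).normal
  have h1 := pgroupS (alternatingGroup_le_of_normal (by simp) ((nontrivial_iff_ne_bot _).2 h)) (pcore_pgroup _ _) 2
    Nat.prime_two (by rw [nat_card_alternatingGroup]; simp; decide)
  simp at h1

end Cfsg.Agent.S4332
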