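import Cfsg.Statements.S4333
import Cfsg.Agent.Frob.Zipper

set_option autoImplicit false
open Pointwise
open Cfsg

namespace Cfsg.Agent.S4333

open Subgroup SolvStr Frob

universe u

theorem aux (n : ℕ) : ∀ (G : Type u) [Group G] [Finite G], Nat.card G = n → ∀ A : Subgroup G,
    (∀ a ∈ A, ∀ g : G, SubnIn A (A ⊔ MulAut.conj (g⁻¹ * a * g) • A)) → A.IsSubnormal := by
  induction n using Nat.strong_induction_on with
  | _ n ih =>
  intro G _ _ hn A h
  by_contra hns
  have h1 : ∀ H : Subgroup G, A ≤ H → H ≠ ⊤ → SubnIn A H := by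
    intro H hH hH'
    refine ⟨hH, ih _ (hn ▸ Solv.card_lt_of_ne_top hH') H rfl _ fun a ha g => ?_⟩
    have := (h a ha g).subgroupOf H
    rwa [show (g : G)⁻¹ * a * g = (g⁻¹ * a * g : H) from rfl,
      subgroupOf_sup hH (conj_smul_le_of_le hH _), ← conj_smul_subgroupOf hH] at this
  have hA : A ≠ ⊤ := fun h2 => hns (h2 ▸ IsSubnormal.top)
  obtain ⟨M, hM, hAM⟩ := (eq_top_or_exists_le_coatom _).resolve_left hA
  have h2 : normalClosure (A : Set G) ≤ M := by
    rw [normalClosure, closure_le]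
    intro x hx
    obtain ⟨a, ha, hax⟩ := Group.mem_conjugatesOfSet_iff.mp hx
    obtain ⟨g, rfl⟩ := isConj_iff.mp hax
    have h0 := h a ha g⁻¹
    rw [inv_inv] at h0
    set x := g * a * g⁻¹
    have h3 : A ⊔ MulAut.conj x • A ≠ ⊤ := fun h4 => hns (SubnIn.top_iff.mp (h4 ▸ h0))
    obtain ⟨K, hK, hK'⟩ := (eq_top_or_exists_le_coatom _).resolve_left h3
    have hMK := zipper A h1 hns hM hK hAM (le_sup_left.trans hK')
    have h4 : A ≤ MulAut.conj x⁻¹ • M := by
      rw [← Solv.conj_inv_smul_conj_smul x A, hMK]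
      exact Solv.conj_smul_mono _ (le_sup_right.trans hK')
    have h5 : IsCoatom (MulAut.conj x⁻¹ • M) :=
      ((OrderIso.isCoatom_iff (MulAut.conj x⁻¹).mapSubgroup M).2 hM :)
    have h6 : x⁻¹ ∈ normalizer (M : Set G) :=
      Solv.conj_smul_eq_self_iff.mp (zipper A h1 hns h5 hM h4 hAM)
    rcases hM.le_iff.1 le_normalizer with h7 | h7
    · exact (hns ((h1 M hAM hM.1).trans_isSubnormal (normalizer_eq_top_iff.1 h7).isSubnormal)).elim
    · exact inv_mem_iff.1 (h7 ▸ h6)
  exact hns ((h1 _ le_normalClosure (fun h3 => hM.1 (eq_top_iff.mpr (h3 ▸ h2)))).trans_isSubnormal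
    normalClosure_normal.isSubnormal)

/-- Let A be a subgroup of a finite group G. If A is subnormal in the subgroup generated by A and its conjugate by g⁻¹ a g, for every a ∈ A and every g ∈ G, then A is subnormal in G. (A sharpening of Wielandt's subnormality criterion: only conjugates of A by conjugates of elements of A are needed.) -/
theorem result {G : Type*} [Group G] [Finite G]
    (A : Subgroup G)
    (h : ∀ a ∈ A, ∀ g : G, (A.subgroupOf (A ⊔ MulAut.conj (g⁻¹ * a * g) • A)).IsSubnormal) :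
    A.IsSubnormal := by
  exact aux _ G rfl A fun a ha g => ⟨le_sup_left, h a ha g⟩

end Cfsg.Agent.S4333
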