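import Cfsg.Statements.S4334
import Cfsg.Agent.BG.Base6
import Cfsg.Agent.FG.Compl
import Cfsg.Agent.Transfer.Frobenius

set_option autoImplicit false
open Cfsg

namespace Cfsg.Agent.S4334

open Subgroup Cfsg.Agent.BG

theorem cent_of_Hall {G : Type*} [Group G] [Finite G] {ρ : Set ℕ} {X U A : Subgroup G}
    (hX : IsPiHallOf ρ X ⊤) (h : X ≤ C[U]) (hA : PiGrp ρ A) (hn : A ≤ N[U]) : A ≤ C[U] :=
  cent_of_coprime_relIndex (pnat_coprime hA ((pHall_subl (h.trans (cent_sub U)) le_top hX).idx.of_dvd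
    ((relIndex_dvd_of_norm (cent_norm U) hn).trans (relIndex_dvd_of_le_left _ h))))

/-- Let σ and τ be disjoint sets of primes with union π. Suppose a finite group G has a Hall π-subgroup H which is the direct product of a nilpotent σ-subgroup and a τ-subgroup (two elementwise-commuting subgroups generating H), and that the maximal τ-subgroups of G are pairwise conjugate. Then the maximal π-subgroups of G are pairwise conjugate. -/
theorem result {G : Type*} [Group G] [Finite G]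
    (σ τ π : Set ℕ) (hπ : π = σ ∪ τ) (hd : Disjoint σ τ) (H Hs Ht : Subgroup G) (hH : Cfsg.IsPiHall π H)
    (hs : Cfsg.IsPiSubgroup σ Hs) (ht : Cfsg.IsPiSubgroup τ Ht) (hsn : Group.IsNilpotent Hs)
    (hjoin : Hs ⊔ Ht = H) (hcomm : ∀ a ∈ Hs, ∀ b ∈ Ht, a * b = b * a) (hD : Cfsg.IsDPiGroup τ G) :
    Cfsg.IsDPiGroup π G := by
  have hH := pHall_top.2 hH
  have hc : Hs ≤ C[Ht] := le_cent_iff.2 hcomm
  have ht' : PiGrp σᶜ Ht := PiNat.mono ht hd.subset_compl_left
  have hD1 : IsComplIn Ht Hs H := IsComplIn.mk' (Or.inr (cents_norm hc)) ((sup_comm _ _).trans hjoin)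
    (pgroup_TI' ht' hs)
  have hT : IsPiHallOf τ Ht ⊤ := subHall_Hall hH (hπ ▸ Set.subset_union_right)
    (pHall_of_compl hD1 ht (PiNat.mono hs hd.subset_compl_right))
  have key : ∀ n, ∀ K : Subgroup G, PiGrp π K → #K < n → ∃ x, K ≤ cj x H := by
    intro n
    induction n with
    | zero => intro K _ h; omega
    | succ n ih =>
    intro K hK hn
    by_cases h0 : PiGrp τ K
    · obtain ⟨M, hM, h1, h2⟩ := maxgroup_exists (P := PiGrp τ) h0
      obtain ⟨g, rfl⟩ := hD Ht M ⟨ht, fun B hB h => (Hall_max hT h le_top hB).le⟩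
        ⟨h1, fun B hB h => (h2 B hB h).le⟩
      exact ⟨g, hM.trans (cj_mono g hD1.symm.sup.le |>.trans' (cj_mono g le_sup_right))⟩
    obtain ⟨p, hp, hpK, hpτ⟩ : ∃ p, p.Prime ∧ p ∣ #K ∧ p ∉ τ := by
      by_contra! h; exact h0 h
    have hpπ := hK p hp hpK
    have := Fact.mk hp
    have hd1 := nilpotent_pcoreC {p} hsn
    set S := piCoreOf {p} Hs
    set X := piCoreOf {p}ᶜ Hs ⊔ Ht
    have hSX : S ≤ C[X] := le_cent_sup (cents_symm hd1.cent) (hd1.lel.trans hc)
    have pX : PiGrp {p}ᶜ X := pgroupY (Or.inl (cents_norm (hd1.ler.trans hc))) (pcore_pgroup _ _) (pi_p'nat ht hpτ)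
    have hd2 : Dprod X S H := ⟨by rw [← hjoin, ← hd1.sup, sup_comm, ← sup_assoc], hSX,
      pgroup_TI' pX (pcore_pgroup _ _)⟩
    have hX := pHall_of_compl hd2.sdprod.compl pX (by simpa using pcore_pgroup {p} Hs)
    have hS : SylowIn p S ⊤ := subHall_Sylow hH hpπ (pHall_of_compl hd2.symm.sdprod.compl (pcore_pgroup _ _) pX)
    have hX' : IsPiHallOf (π ∩ {p}ᶜ) X ⊤ := subHall_Hall hH Set.inter_subset_left
      (pHall_congr (fun q hq h => by simp [hH.pi q hq h]) hX)
    have hL := FG.hasNormalPComplement_iff.1 (Transfer.hasNormalPComplement_of_forall_isPGroup (G := K) (p := p)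
      fun Q hQ _ g hg hc => by
        obtain ⟨x, -, hx⟩ := Sylow_subJ hS le_top (hQ.map K.subtype)
        refine zpowers_le.1 ((cents_map_inj K.subtype_injective).1 (cent_of_Hall (pHallJsub (mem_top x) hX')
          (centsS hx (C_cj x S ▸ cj_mono x (cents_symm hSX))) (PiNat.inter (pgroupS (map_subtype_le _) hK)
            (pgroup_map _ (p_elt_zpowers.2 ((p'nat_coprime hp).2 hc)))) (norms_map _ (zpowers_le.2 hg)))))
    have hLn := pcore_normal {p}ᶜ K
    obtain ⟨g, hg⟩ := ih _ (pgroupS hL.le hK) (by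
      have := proper_card (hL.le.lt_of_ne fun h => (p'natE hp).1 hL.pi (h.symm ▸ hpK)); omega)
    have hSn : cj g S ≤ N[Op' p K] := cents_norm (centsS (sub_normal_Hall (pHallJ g hX) (hd2.normall.cj g) hg hL.pi)
      (C_cj g X ▸ cj_mono g hSX))
    obtain ⟨Q, hQ⟩ := Sylow_exists p K
    obtain ⟨x, hx, hQx⟩ := Sylow_subJ (pHall_subl hSn le_top (pHallJsub (mem_top g) hS)) (hQ.le.trans hLn.norm) hQ.pg
    refine ⟨x * g, ?_⟩
    rw [← (compl_of_pHall hQ hL).sup, cj_mul]
    exact sup_le (hQx.trans (cj_mono x (cj_mono g hd2.ler))) ((cj_of_norm hx).ge.trans (cj_mono x hg))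
  intro A B hA hB
  obtain ⟨x, hx⟩ := key _ A hA.1 (Nat.lt_succ_self _)
  obtain ⟨y, hy⟩ := key _ B hB.1 (Nat.lt_succ_self _)
  refine ⟨y * x⁻¹, ?_⟩
  rw [← cj_def, hA.eq_of_le (pgroupJ x hH.pi) hx, hB.eq_of_le (pgroupJ y hH.pi) hy, cj_mul, cj_inv_cj]

end Cfsg.Agent.S4334
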