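import Cfsg.Statements.S4344
import Cfsg.Agent.Gen2.SylowNum

set_option autoImplicit false
open Cfsg

namespace Cfsg.Agent.S4344

/-- Let S be a finite non-abelian simple group, M a maximal subgroup of S and C a cyclic normal subgroup of M. If a Sylow p-subgroup P of S (for a prime p dividing the order of S) is contained in C, then the number of Sylow p-subgroups of S equals the index of M. -/
theorem result {S : Type*} [Group S] [Finite S]
    [IsSimpleGroup S] (hS : ¬ IsMulCommutative S) (p : ℕ) [Fact p.Prime] (hp : p ∣ Nat.card S)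
    (M : Subgroup S) (hM : IsCoatom M) (C : Subgroup S) (hCM : C ≤ M) (hCn : (C.subgroupOf M).Normal)
    (hC : IsCyclic C) (P : Sylow p S) (hP : (P : Subgroup S) ≤ C) :
    Nat.card (Sylow p S) = M.index := by
  rw [P.card_eq_index_normalizer]
  congr 1
  have h1 : M ≤ Subgroup.normalizer (C : Set S) := (Subgroup.normal_subgroupOf_iff_le_normalizer hCM).1 hCn
  have h2 : M ≤ Subgroup.normalizer ((P : Subgroup S) : Set S) := by
    intro g hg
    have h3 := (Loc.sylIn_of_sylow_le P hP).conj_of_mem_normalizer (h1 hg)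
    have h4 : (P : Subgroup S).map (MulAut.conj g).toMonoidHom ≤ P := by
      refine (Loc.sylIn_of_sylow_le P hP).le_of_normalizes h3.le h3.pg ?_
      intro x hx
      refine Subgroup.centralizer_le_normalizer _ ?_
      intro y hy
      have := hC.isMulCommutative.is_comm.comm (⟨y, hP hy⟩ : C) ⟨x, h3.le hx⟩
      exact congrArg Subtype.val this
    exact Loc.mem_normalizer_iff_cj.2 (h3.eq_of_le (Loc.sylIn_of_sylow_le P hP) h4)
  refine (hM.le_iff.1 h2).resolve_left ?_
  intro h
  rw [Subgroup.normalizer_eq_top_iff] at h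
  rcases h.eq_bot_or_eq_top with h | h
  · exact P.ne_bot_of_dvd_card hp h
  · apply hS
    have : C = ⊤ := top_le_iff.1 (h ▸ hP)
    subst this
    exact ⟨⟨fun x y => congrArg Subtype.val
      (hC.isMulCommutative.is_comm.comm (⟨x, trivial⟩ : (⊤ : Subgroup S)) ⟨y, trivial⟩)⟩⟩

end Cfsg.Agent.S4344
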