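import Cfsg.Statements.S4346
import Cfsg.Agent.Gen2.FixCount

set_option autoImplicit false
open Cfsg

namespace Cfsg.Agent.S4346

open Subgroup MulAction
open scoped Pointwise

theorem eq_or_eq_of_relIndex_prime {G : Type*} [Group G] {D U R : Subgroup G} {p : ℕ} (hp : p.Prime)
    (h : D.relIndex R = p) (h1 : D ≤ U) (h2 : U ≤ R) : U = D ∨ U = R := by
  have h3 := relIndex_mul_relIndex D U R h1 h2
  rw [h] at h3
  rcases hp.eq_one_or_self_of_dvd _ (Dvd.intro _ h3) with h4 | h4
  · exact Or.inl (le_antisymm (relIndex_eq_one.1 h4) h1)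
  · rw [h4] at h3
    exact Or.inr (le_antisymm h2 (relIndex_eq_one.1
      (Nat.eq_of_mul_eq_mul_left hp.pos (h3.trans (mul_one p).symm))))

section Part1

variable {S : Type*} [Group S] [Finite S] {p : ℕ} [hp : Fact p.Prime]

theorem card_inf {P Q : Sylow p S} (h : (Q : Subgroup S).relIndex P = p) :
    Nat.card ((Q : Subgroup S) ⊓ P : Subgroup S) * p = p ^ (Nat.card S).factorization p := by
  rw [← P.card_eq_multiplicity, ← Solv.card_inf_mul_relIndex (Q : Subgroup S) P, h]

theorem relIndex_of_le {D : Subgroup S} (hD : Nat.card D * p = p ^ (Nat.card S).factorization p)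
    {R : Sylow p S} (h : D ≤ R) : D.relIndex R = p := by
  rw [← R.card_eq_multiplicity, ← Solv.card_mul_relIndex h] at hD
  exact (Nat.eq_of_mul_eq_mul_left Nat.card_pos hD).symm

theorem inf_eq_of_le {D : Subgroup S} (hD : Nat.card D * p = p ^ (Nat.card S).factorization p)
    {R R' : Sylow p S} (h : D ≤ R) (h' : D ≤ R') (hne : R' ≠ R) :
    (R' : Subgroup S) ⊓ R = D := by
  refine (eq_or_eq_of_relIndex_prime hp.out (relIndex_of_le hD h) (le_inf h' h)
    inf_le_right).resolve_right fun h1 => hne ?_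
  exact Sylow.ext (R.is_maximal' R'.isPGroup' (inf_eq_right.1 h1))

theorem adj_of_le {D : Subgroup S} (hD : Nat.card D * p = p ^ (Nat.card S).factorization p)
    {R R' : Sylow p S} (h : D ≤ R) (h' : D ≤ R') (hne : R' ≠ R) :
    (R' : Subgroup S).relIndex R = p := by
  rw [← inf_relIndex_right, inf_eq_of_le hD h h' hne, relIndex_of_le hD h]

theorem le_of_adj {D : Subgroup S} (hD : Nat.card D * p = p ^ (Nat.card S).factorization p)
    {R R' T : Sylow p S} (h : D ≤ R) (h' : D ≤ R') (hne : R' ≠ R)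
    (hT : (T : Subgroup S).relIndex R = p) (hT' : (T : Subgroup S).relIndex R' = p) : D ≤ T := by
  have h1 := card_inf hT
  have h2 := card_inf hT'
  have h3 : Nat.card ((T : Subgroup S) ⊓ R : Subgroup S) = Nat.card D :=
    Nat.eq_of_mul_eq_mul_right hp.out.pos (h1.trans hD.symm)
  have h4 : Nat.card ((T : Subgroup S) ⊓ R' : Subgroup S) = Nat.card D :=
    Nat.eq_of_mul_eq_mul_right hp.out.pos (h2.trans hD.symm)
  rcases eq_or_eq_of_relIndex_prime hp.out (relIndex_of_le h1 (R := T) inf_le_left)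
    (le_sup_left : (T : Subgroup S) ⊓ R ≤ (T : Subgroup S) ⊓ R ⊔ (T : Subgroup S) ⊓ R')
    (sup_le inf_le_left inf_le_left) with h5 | h5
  · have h6 : (T : Subgroup S) ⊓ R' ≤ D := by
      rw [← inf_eq_of_le hD h h' hne]
      exact le_inf inf_le_right ((sup_eq_left.1 h5).trans inf_le_right)
    rw [← eq_of_le_of_card_ge h6 h4.ge]
    exact inf_le_left
  · have h6 : D ≤ normalizer ((T : Subgroup S) : Set S) := by
      rw [← h5]
      refine Solv.le_normalizer_sup (h.trans ?_) (h'.trans ?_)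
      · exact Gen2.le_normalizer_of_relIndex_eq R.isPGroup' inf_le_right
          (relIndex_of_le h1 inf_le_right)
      · exact Gen2.le_normalizer_of_relIndex_eq R'.isPGroup' inf_le_right
          (relIndex_of_le h2 inf_le_right)
    exact (Loc.sylIn_top T).le_of_normalizes le_top (R.isPGroup'.to_le h) h6

omit [Finite S] hp in
theorem relIndex_smul (g : S) (P Q : Sylow p S) :
    ((g • Q : Sylow p S) : Subgroup S).relIndex (g • P : Sylow p S) =
      (Q : Subgroup S).relIndex P :=
  Loc.relIndex_cj g _ _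

theorem ncard_adj_eq (P R : Sylow p S) :
    {Q : Sylow p S | (Q : Subgroup S).relIndex R = p}.ncard =
      {Q : Sylow p S | (Q : Subgroup S).relIndex P = p}.ncard := by
  obtain ⟨g, rfl⟩ := exists_smul_eq S P R
  symm
  refine Set.ncard_congr (fun Q _ => g • Q) (fun Q hQ => ?_) (fun a b _ _ h => ?_) (fun Q hQ => ?_)
  · exact (relIndex_smul g P Q).trans hQ
  · exact smul_left_cancel g h
  · refine ⟨g⁻¹ • Q, ?_, smul_inv_smul g Q⟩
    rw [Set.mem_ofPred_eq, ← relIndex_smul g, smul_inv_smul]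
    exact hQ

theorem sq_dvd (P : Sylow p S) : p ^ 2 ∣ Nat.card (Sylow p S) -
    ({Q : Sylow p S | (Q : Subgroup S).relIndex P = p}.ncard + 1) := by
  set A := {Q : Sylow p S | (Q : Subgroup S).relIndex P = p} with hA
  have hPA : P ∉ A := fun h => hp.out.one_lt.ne ((relIndex_self _).symm.trans h)
  rw [← Set.ncard_insert_of_notMem hPA, ← Set.ncard_univ, ← Set.ncard_sdiff (Set.subset_univ _)]
  refine Gen2.dvd_ncard_of_forall_dvd_orbit (G := (P : Subgroup S)) _ ?_ ?_
  · rintro g Q ⟨-, hQ⟩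
    have hg : (g : S) • P = P := Sylow.smul_eq_iff_mem_normalizer.2 (le_normalizer g.2)
    refine ⟨trivial, fun h => hQ ?_⟩
    rcases h with h | h
    · left
      exact smul_left_cancel (g : S) (h.trans hg.symm)
    · right
      have := relIndex_smul (g : S) P Q
      rw [hg] at this
      exact this.symm.trans h
  · rintro Q ⟨-, hQ⟩
    rw [Gen2.index_stabilizer_sylow P.isPGroup']
    obtain ⟨k, hk⟩ := P.isPGroup'.index ((Q : Subgroup S).subgroupOf P)
    change (Q : Subgroup S).relIndex P = p ^ k at hk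
    rw [hk]
    refine pow_dvd_pow _ ?_
    by_contra! h
    obtain rfl | rfl : k = 0 ∨ k = 1 := by omega
    · exact hQ (Or.inl ((Gen2.relIndex_sylow_eq_one_iff P Q).1 hk))
    · exact hQ (Or.inr (hk.trans (pow_one p)))

theorem line_ineq {D : Subgroup S} (hD : Nat.card D * p = p ^ (Nat.card S).factorization p)
    (P : Sylow p S) :
    {R : Sylow p S | D ≤ R}.ncard * ({Q : Sylow p S | (Q : Subgroup S).relIndex P = p}.ncard + 1 -
      {R : Sylow p S | D ≤ R}.ncard) ≤ Nat.card (Sylow p S) - {R : Sylow p S | D ≤ R}.ncard := by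
  classical
  have := Fintype.ofFinite (Sylow p S)
  set L : Finset (Sylow p S) := Finset.univ.filter fun R => D ≤ R with hL
  let A : Sylow p S → Finset (Sylow p S) := fun R =>
    Finset.univ.filter fun Q => (Q : Subgroup S).relIndex R = p
  have hA : ∀ R, (A R).card = {Q : Sylow p S | (Q : Subgroup S).relIndex P = p}.ncard := by
    intro R
    rw [← ncard_adj_eq P R, ← Set.ncard_coe_finset]
    simp [A]
  have hL' : {R : Sylow p S | D ≤ R}.ncard = L.card := by
    rw [← Set.ncard_coe_finset]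
    simp [hL]
  rw [hL', Nat.card_eq_fintype_card, ← Finset.card_univ_sdiff, ← smul_eq_mul, ← Finset.sum_const]
  calc _ ≤ ∑ R ∈ L, (A R \ L).card := Finset.sum_le_sum fun R hR => ?_
    _ = (L.biUnion fun R => A R \ L).card := (Finset.card_biUnion ?_).symm
    _ ≤ _ := Finset.card_le_card fun Q hQ => ?_
  · have h1 : (A R ∩ L).card < L.card := by
      refine Finset.card_lt_card ⟨Finset.inter_subset_right, fun h => ?_⟩
      have := (Finset.mem_filter.1 (Finset.mem_inter.1 (h hR)).1).2
      exact hp.out.one_lt.ne ((relIndex_self _).symm.trans this)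
    have h2 := Finset.card_sdiff_add_card_inter (A R) L
    rw [← hA R]
    omega
  · intro R hR R' hR' hne
    rw [Function.onFun, Finset.disjoint_left]
    intro T hT hT'
    rw [Finset.mem_sdiff] at hT hT'
    refine hT.2 (Finset.mem_filter.2 ⟨Finset.mem_univ _, ?_⟩)
    exact le_of_adj hD (Finset.mem_filter.1 hR).2 (Finset.mem_filter.1 hR').2 hne.symm
      (Finset.mem_filter.1 hT.1).2 (Finset.mem_filter.1 hT'.1).2
  · obtain ⟨R, -, h⟩ := Finset.mem_biUnion.1 hQ
    exact Finset.mem_sdiff.2 ⟨Finset.mem_univ _, (Finset.mem_sdiff.1 h).2⟩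

theorem line_dvd {D : Subgroup S} (hD : Nat.card D * p = p ^ (Nat.card S).factorization p)
    {P : Sylow p S} (hP : D ≤ P) : p ∣ ({R : Sylow p S | D ≤ R} \ {P}).ncard := by
  have hn := Gen2.le_normalizer_of_relIndex_eq P.isPGroup' hP (relIndex_of_le hD hP)
  refine Gen2.dvd_ncard_of_forall_dvd_orbit (G := (P : Subgroup S)) _ ?_ ?_
  · rintro g Q ⟨hQ, hQ'⟩
    have hg : (g : S) • P = P := Sylow.smul_eq_iff_mem_normalizer.2 (le_normalizer g.2)
    refine ⟨?_, fun h => hQ' (smul_left_cancel (g : S) (h.trans hg.symm))⟩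
    rw [Set.mem_ofPred_eq, ← Loc.cj_eq_of_mem_normalizer (hn g.2)]
    exact Loc.cj_mono _ hQ
  · rintro Q ⟨hQ, hQ'⟩
    rw [Gen2.index_stabilizer_sylow P.isPGroup', adj_of_le hD hP hQ hQ']

theorem card_eq_three [IsSimpleGroup S] (hS : ¬ IsMulCommutative S) [Fact (Nat.Prime 3)]
    (hn : Nat.card (Sylow 3 S) = 22) (P : Sylow 3 S) : Nat.card P = 3 := by
  set A := {Q : Sylow 3 S | (Q : Subgroup S).relIndex P = 3} with hA
  have h1 := sq_dvd P
  have hPA : P ∉ A := fun h => by simp [hA] at h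
  have h2 : A.ncard + 1 ≤ 22 := by
    rw [← Set.ncard_insert_of_notMem hPA, ← hn, ← Set.ncard_univ]
    exact Set.ncard_le_ncard (Set.subset_univ _)
  rw [hn, ← hA] at h1
  obtain ⟨Q, hQ⟩ : A.Nonempty := Set.nonempty_of_ncard_ne_zero (by omega)
  have hD := card_inf hQ
  set D := (Q : Subgroup S) ⊓ P with hD'
  set L := {R : Sylow 3 S | D ≤ R} with hL
  have hPL : P ∈ L := (inf_le_right : D ≤ P)
  have hQL : Q ∈ L := (inf_le_left : D ≤ Q)
  have hQP : Q ≠ P := fun h => hPA (h ▸ hQ)
  have h3 := line_ineq hD P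
  have h4 := line_dvd hD hPL
  have h5 : L \ {P} ⊆ A := fun R hR => adj_of_le hD hPL hR.1 hR.2
  have h6 := Set.ncard_le_ncard h5
  have h7 : 0 < (L \ {P}).ncard := (Set.ncard_pos).2 ⟨Q, hQL, hQP⟩
  have h8 := Set.ncard_sdiff_singleton_add_one hPL
  rw [hn, ← hA, ← hL, ← h8] at h3
  rw [← hL] at h4
  have h9 : A.ncard ≤ (L \ {P}).ncard := by
    by_contra! h
    generalize A.ncard = m at *
    generalize (L \ {P}).ncard = l at *
    obtain rfl | rfl | rfl : m = 3 ∨ m = 12 ∨ m = 21 := by omega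
    all_goals interval_cases l <;> omega
  have h10 := Set.eq_of_subset_of_ncard_le h5 h9
  have h11 : normalizer ((P : Subgroup S) : Set S) ≤ normalizer (D : Set S) := by
    intro g hg
    have hg' : g • P = P := Sylow.smul_eq_iff_mem_normalizer.2 hg
    have h12 : g • Q ∈ A := by
      have := relIndex_smul g P Q
      rw [hg'] at this
      exact this.trans hQ
    rw [← h10] at h12
    rw [Loc.mem_normalizer_iff_cj, hD', Loc.cj_inf, Loc.cj_eq_of_mem_normalizer hg]
    exact inf_eq_of_le hD hPL h12.1 h12.2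
  have h12 : (Q : Subgroup S) ≤ normalizer (D : Set S) :=
    Gen2.le_normalizer_of_relIndex_eq Q.isPGroup' hQL (relIndex_of_le hD hQL)
  have h13 := card_sylow_modEq_one 3 (normalizer (D : Set S))
  rw [Gen2.card_sylow_of_sylIn (Loc.sylIn_of_sylow_le P (le_normalizer.trans h11))] at h13
  have h14 := relIndex_mul_index h11
  rw [P.coe_coe, ← P.card_eq_index_normalizer, hn, ← P.coe_coe] at h14
  have h15 : (normalizer ((P : Subgroup S) : Set S)).relIndex (normalizer (D : Set S)) ≠ 1 := by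
    intro h
    have := (Loc.sylIn_top P).le_of_normalizes le_top Q.isPGroup' (h12.trans (relIndex_eq_one.1 h))
    exact hQP (Sylow.ext (Q.is_maximal' P.isPGroup' this).symm)
  have h16 : (normalizer (D : Set S)).index = 1 := by
    generalize (normalizer ((P : Subgroup S) : Set S)).relIndex (normalizer (D : Set S)) = a at *
    have := Nat.le_of_dvd (by norm_num) (Dvd.intro _ h14)
    unfold Nat.ModEq at h13
    interval_cases a <;> omega
  rw [index_eq_one, normalizer_eq_top_iff] at h16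
  have h17 : D = ⊥ := by
    rw [eq_bot_iff, ← Gen2.pCore_eq_bot_of_isSimpleGroup hS 3]
    exact Solv.le_pCore P.isPGroup'.to_inf_right
  rw [P.card_eq_multiplicity, ← hD, h17, card_bot]

end Part1

section Part2

variable {S : Type*} [Group S] [Finite S]

theorem fix_modEq_one {p : ℕ} [Fact p.Prime] {P : Sylow p S} (hP : Nat.card P = p) {c : S}
    (hc : c ∈ centralizer ((P : Subgroup S) : Set S)) :
    (fixedBy (Sylow p S) c).ncard ≡ 1 [MOD p] := by
  obtain ⟨x, hx, hxo⟩ := Gen2.exists_generator_of_card_prime hP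
  have hxP : x ∈ (P : Subgroup S) := hx ▸ mem_zpowers x
  have h1 := Gen2.ncard_fixedBy_modEq_of_commute (Ω := Sylow p S) (p := p) (k := 1) (x := x)
    (g := c) (by rw [pow_one, ← hxo, pow_orderOf_eq_one]) (hc x hxP)
  rwa [Gen2.fixedBy_sylow_of_zpowers_eq hx, Set.inter_eq_right.2 (Set.singleton_subset_iff.2
    (Gen2.mem_fixedBy_sylow.2 (centralizer_le_normalizer _ hc))), Set.ncard_singleton] at h1

theorem zpowers_eq_of_prime {q : ℕ} [Fact q.Prime] {Y : Subgroup S} (hY : Nat.card Y = q) {y : S}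
    (hy : y ∈ Y) (h1 : y ≠ 1) : zpowers y = Y ∧ orderOf y = q := by
  have h2 : orderOf y = q := by
    refine ((Fact.out : q.Prime).eq_one_or_self_of_dvd _ ?_).resolve_left
      (mt orderOf_eq_one_iff.1 h1)
    rw [← hY]
    exact Y.orderOf_dvd_natCard hy
  exact ⟨eq_of_le_of_card_ge (zpowers_le.2 hy) (by rw [Nat.card_zpowers, h2, hY]), h2⟩

theorem eq_one_of_not_mem_centralizer {q : ℕ} [Fact q.Prime] {Y : Subgroup S} (hY : Nat.card Y = q)
    {c : S} (hc : c ∉ centralizer (Y : Set S)) (y : S) (hy : y ∈ Y) (h : c * y = y * c) : y = 1 := by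
  by_contra h1
  rw [← (zpowers_eq_of_prime hY hy h1).1, Loc.centralizer_zpowers] at hc
  exact hc (Gen2.mem_cent.2 h)

omit [Finite S] in
theorem fix_modEq {Ω : Type*} [MulAction S Ω] [Finite Ω] {r : ℕ} (hr : r.Prime) {c : S}
    (hc : orderOf c = r) : Nat.card Ω ≡ (fixedBy Ω c).ncard [MOD r] :=
  have : Fact r.Prime := ⟨hr⟩
  Gen2.card_modEq_ncard_fixedBy (k := 1) (by rw [pow_one, ← hc, pow_orderOf_eq_one])

theorem fix_lt [IsSimpleGroup S] {p : ℕ} [Fact p.Prime] (hn : Nat.card (Sylow p S) ≠ 1) {r : ℕ}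
    (hr : r.Prime) {c : S} (hc : orderOf c = r) :
    (fixedBy (Sylow p S) c).ncard < Nat.card (Sylow p S) := by
  by_contra! h
  have := Gen2.eq_one_of_fixedBy_sylow hn c (Gen2.fixedBy_eq_univ_of_ncard h)
  rw [this, orderOf_one] at hc
  exact hr.one_lt.ne hc

theorem card_of_sylIn {q : ℕ} [hq : Fact q.Prime] {Y H : Subgroup S} (h : Loc.SylIn q Y H)
    (h1 : q ∣ Nat.card H) (h2 : ¬ q ^ 2 ∣ Nat.card H) : Nat.card Y = q := by
  rw [h.card_eq_pow]
  have h3 := (hq.out.pow_dvd_iff_le_factorization (k := 1) Nat.card_pos.ne').1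
    (by simpa using h1)
  have h4 := mt (hq.out.pow_dvd_iff_le_factorization (k := 2) Nat.card_pos.ne').2 h2
  rw [show (Nat.card H).factorization q = 1 by omega, pow_one]

variable [IsSimpleGroup S] [Fact (Nat.Prime 3)]

theorem step1 (hS : ¬ IsMulCommutative S) (hn : Nat.card (Sylow 3 S) = 22) (P : Sylow 3 S) :
    ∃ d, d ∣ 560 ∧ Nat.card (centralizer ((P : Subgroup S) : Set S)) = 3 * d ∧
      Nat.card S = 132 * d := by
  have hP := card_eq_three hS hn P
  obtain ⟨x, hx, hxo⟩ := Gen2.exists_generator_of_card_prime hP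
  have h1 := Gen2.card_cent_dvd_of_faithful (Ω := Sylow 3 S) (p := 3) (x := x) (m := 7)
    (Gen2.eq_one_of_fixedBy_sylow (by omega)) (by rw [← hxo, pow_orderOf_eq_one])
    (by rw [Gen2.fixedBy_sylow_of_zpowers_eq hx, Set.ncard_singleton, hn])
  rw [Gen2.fixedBy_sylow_of_zpowers_eq hx, Set.ncard_singleton, ← Loc.centralizer_zpowers, hx] at h1
  have hcyc : IsCyclic P := isCyclic_of_prime_card hP
  have hle : (P : Subgroup S) ≤ centralizer ((P : Subgroup S) : Set S) := le_centralizer _
  have h2 := Solv.card_mul_relIndex hle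
  have h3 := (Loc.sylIn_of_sylow_le P hle).not_dvd_relIndex
  have h4 := Gen2.relIndex_centralizer_dvd_sub_one hP
  have h5 := Gen2.relIndex_centralizer_ne_one hS (hP ▸ card_subgroup_dvd_card (P : Subgroup S)) P
  have h6 := (Nat.prime_two.eq_one_or_self_of_dvd _ h4).resolve_left h5
  have h7 := Solv.card_mul_relIndex (centralizer_le_normalizer ((P : Subgroup S) : Set S))
  have h8 := (normalizer ((P : Subgroup S) : Set S)).card_mul_index
  rw [P.coe_coe, ← P.card_eq_index_normalizer, hn, ← P.coe_coe] at h8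
  rw [hP] at h2
  refine ⟨_, ?_, h2.symm, by rw [← h8, ← h7, h6, ← h2]; ring⟩
  rw [← h2] at h1
  refine Nat.Coprime.dvd_of_dvd_mul_left (m := 3 ^ 9)
    (Nat.Coprime.pow_right _ ((Nat.Prime.coprime_iff_not_dvd Nat.prime_three).2 h3).symm) ?_
  exact (Dvd.intro_left _ rfl).trans (h1.trans (by norm_num [Nat.factorial]))

theorem step2 (hS : ¬ IsMulCommutative S) (hn : Nat.card (Sylow 3 S) = 22) {d : ℕ} (hd : d ∣ 560)
    (hc : Nat.card S = 132 * d) [Fact (Nat.Prime 11)] (Y : Sylow 11 S) :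
    Nat.card (Y : Subgroup S) = 11 ∧ centralizer ((Y : Subgroup S) : Set S) = Y ∧
      Nat.card (normalizer ((Y : Subgroup S) : Set S)) = 22 := by
  have hd11 : ¬ 11 ∣ d := fun h => absurd (h.trans hd) (by norm_num)
  have hY : Nat.card (Y : Subgroup S) = 11 := card_of_sylIn (Loc.sylIn_top Y) (by rw [card_top, hc]; omega)
    (by rw [card_top, hc]; omega)
  have hfix : ∀ y ∈ (Y : Subgroup S), y ≠ 1 → fixedBy (Sylow 3 S) y ⊆ ∅ := by
    intro y hy h1 P hP
    have h2 := orderOf_dvd_natCard _ (Gen2.mem_fixedBy_sylow.1 hP)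
    have h3 := (normalizer ((P : Subgroup S) : Set S)).card_mul_index
    rw [P.coe_coe, ← P.card_eq_index_normalizer, hn, ← P.coe_coe] at h3
    rw [(zpowers_eq_of_prime hY hy h1).2] at h2
    omega
  have hcyc : IsCyclic Y := isCyclic_of_prime_card hY
  have hle : (Y : Subgroup S) ≤ centralizer ((Y : Subgroup S) : Set S) := le_centralizer _
  have hC : centralizer ((Y : Subgroup S) : Set S) = Y := by
    refine le_antisymm (relIndex_eq_one.1 ?_) hle
    by_contra hne
    obtain ⟨r, hr, hrd⟩ := Nat.exists_prime_and_dvd hne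
    have hrp : r ≠ 11 := by
      rintro rfl
      exact (Loc.sylIn_of_sylow_le Y hle).not_dvd_relIndex hrd
    obtain ⟨c, hc, hco⟩ := Gen2.exists_mem_orderOf_eq_prime hr (hrd.trans (relIndex_dvd_card _ _))
    obtain ⟨y, hy, hyo⟩ := Gen2.exists_generator_of_card_prime hY
    have hyY : y ∈ (Y : Subgroup S) := hy ▸ mem_zpowers y
    have h1 := Gen2.ncard_fixedBy_modEq_of_commute (Ω := Sylow 3 S) (p := 11) (k := 1) (x := y)
      (g := c) (by rw [pow_one, ← hyo, pow_orderOf_eq_one]) (hc y hyY)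
    rw [Set.subset_empty_iff.1 (hfix y hyY (by rintro rfl; simp at hyo)), Set.inter_empty,
      Set.ncard_empty] at h1
    have h2 := fix_lt (p := 3) (by omega) hr hco
    have h3 := (Nat.modEq_iff_dvd' h2.le).1 (fix_modEq hr hco).symm
    rw [hn] at h2 h3
    unfold Nat.ModEq at h1
    obtain h | h : (fixedBy (Sylow 3 S) c).ncard = 0 ∨ (fixedBy (Sylow 3 S) c).ncard = 11 := by
      omega
    · rw [h] at h3
      rcases (Nat.Prime.dvd_mul hr).1 (show r ∣ 2 * 11 from h3) with h4 | h4
      · obtain rfl := (Nat.prime_dvd_prime_iff_eq hr Nat.prime_two).1 h4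
        have h6 := Gen2.four_dvd_card_sub_ncard_fixedBy (Ω := Sylow 3 S) hS (t := c)
          (by rw [← hco, pow_orderOf_eq_one])
        omega
      · exact hrp ((Nat.prime_dvd_prime_iff_eq hr Fact.out).1 h4)
    · rw [h] at h3
      exact hrp ((Nat.prime_dvd_prime_iff_eq hr Fact.out).1 h3)
  refine ⟨hY, hC, ?_⟩
  have h4 := Gen2.relIndex_centralizer_dvd_sub_one hY
  have h5 := Gen2.relIndex_centralizer_ne_one hS (hY ▸ card_subgroup_dvd_card (Y : Subgroup S)) Y
  have h7 := Solv.card_mul_relIndex (centralizer_le_normalizer ((Y : Subgroup S) : Set S))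
  have h8 : ¬ 5 ∣ Nat.card (normalizer ((Y : Subgroup S) : Set S)) := by
    intro h
    obtain ⟨c, hc, hco⟩ := Gen2.exists_mem_orderOf_eq_prime Nat.prime_five h
    have h9 : c ∉ centralizer ((Y : Subgroup S) : Set S) := by
      rw [hC]
      intro h'
      have := Subgroup.orderOf_dvd_natCard _ h'
      rw [hco, hY] at this
      omega
    have h10 := Gen2.card_mul_ncard_fixedBy_diff_le (Ω := Sylow 3 S) (Y : Subgroup S) hc
      (eq_one_of_not_mem_centralizer hY h9) ∅ (by simp) hfix
    have h11 := fix_modEq (Ω := Sylow 3 S) Nat.prime_five hco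
    rw [Set.sdiff_empty, hY, hn, Set.ncard_empty] at h10
    rw [hn] at h11
    unfold Nat.ModEq at h11
    obtain ⟨P, hP⟩ : (fixedBy (Sylow 3 S) c).Nonempty := Set.nonempty_of_ncard_ne_zero (by omega)
    have h12 := fix_modEq_one (card_eq_three hS hn P) (Gen2.mem_centralizer_of_coprime_sub_one
      (card_eq_three hS hn P) (Gen2.mem_fixedBy_sylow.1 hP) (by rw [hco]; norm_num))
    unfold Nat.ModEq at h12
    omega
  generalize (centralizer ((Y : Subgroup S) : Set S)).relIndex
    (normalizer ((Y : Subgroup S) : Set S)) = t at *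
  rw [hC, hY] at h7
  have := Nat.le_of_dvd (by norm_num) h4
  interval_cases t <;> omega

omit [Fact (Nat.Prime 3)] in
theorem step3 (hS : ¬ IsMulCommutative S) [Fact (Nat.Prime 11)] (Y : Sylow 11 S)
    (hY : Nat.card (Y : Subgroup S) = 11) (hC : centralizer ((Y : Subgroup S) : Set S) = Y)
    (hN : Nat.card (normalizer ((Y : Subgroup S) : Set S)) = 22) :
    Nat.card (Sylow 11 S) ≠ 12 := by
  intro hn
  obtain ⟨c, hc, hco⟩ := Gen2.exists_mem_orderOf_eq_prime Nat.prime_two
    (H := normalizer ((Y : Subgroup S) : Set S)) (by omega)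
  have h9 : c ∉ centralizer ((Y : Subgroup S) : Set S) := by
    rw [hC]
    intro h'
    have := Subgroup.orderOf_dvd_natCard _ h'
    rw [hco, hY] at this
    omega
  have h10 := Gen2.card_mul_ncard_fixedBy_diff_le (Ω := Sylow 11 S) (Y : Subgroup S) hc
    (eq_one_of_not_mem_centralizer hY h9) {Y} (fun y hy a ha => smul_left_cancel y
      (ha.trans (Sylow.smul_eq_iff_mem_normalizer.2 (le_normalizer hy)).symm))
    (fun y hy h1 => (Gen2.fixedBy_sylow_of_zpowers_eq (zpowers_eq_of_prime hY hy h1).1).subset)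
  have h11 := Set.ncard_sdiff_singleton_add_one (Gen2.mem_fixedBy_sylow.2 hc)
  have h6 := Gen2.four_dvd_card_sub_ncard_fixedBy (Ω := Sylow 11 S) hS (t := c)
    (by rw [← hco, pow_orderOf_eq_one])
  rw [hY, hn, Set.ncard_singleton] at h10
  omega

theorem step4 (hS : ¬ IsMulCommutative S) (hn : Nat.card (Sylow 3 S) = 22) (P : Sylow 3 S) {d : ℕ}
    (hd : d = 5 ∨ d = 16) (hC : Nat.card (centralizer ((P : Subgroup S) : Set S)) = 21 * d) :
    False := by
  have : Fact (Nat.Prime 7) := ⟨by norm_num⟩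
  have hP := card_eq_three hS hn P
  set C := centralizer ((P : Subgroup S) : Set S) with hC'
  obtain ⟨W, hW⟩ := Loc.exists_sylIn 7 C
  have hW7 : Nat.card W = 7 := card_of_sylIn hW (by omega) (by omega)
  have hfix : ∀ w ∈ W, w ≠ 1 → fixedBy (Sylow 3 S) w = {P} := by
    intro w hw h1
    have h2 := (zpowers_eq_of_prime hW7 hw h1).2
    have h3 := fix_modEq_one hP (hW.le hw)
    have h4 := fix_modEq (Ω := Sylow 3 S) Fact.out h2
    have h5 := fix_lt (p := 3) (by omega) Fact.out h2
    rw [hn] at h4 h5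
    unfold Nat.ModEq at h3 h4
    refine (Set.eq_of_subset_of_ncard_le (Set.singleton_subset_iff.2
      (Gen2.mem_fixedBy_sylow.2 (centralizer_le_normalizer _ (hW.le hw)))) ?_).symm
    rw [Set.ncard_singleton]
    omega
  have key : ∀ r, r = 2 ∨ r = 5 → ¬ r ∣ Nat.card (normalizer (W : Set S) ⊓ C : Subgroup S) := by
    intro r hr25 h
    have hr : r.Prime := by rcases hr25 with rfl | rfl <;> norm_num
    obtain ⟨c, hc, hco⟩ := Gen2.exists_mem_orderOf_eq_prime hr h
    have h1 := fix_modEq_one hP hc.2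
    have h2 := fix_modEq (Ω := Sylow 3 S) hr hco
    have h3 := fix_lt (p := 3) (by omega) hr hco
    have h4 : P ∈ fixedBy (Sylow 3 S) c :=
      Gen2.mem_fixedBy_sylow.2 (centralizer_le_normalizer _ hc.2)
    rw [hn] at h2 h3
    unfold Nat.ModEq at h1 h2
    by_cases h9 : c ∈ centralizer (W : Set S)
    · obtain ⟨w, hw, hwo⟩ := Gen2.exists_generator_of_card_prime hW7
      have hwW : w ∈ W := hw ▸ mem_zpowers w
      have h5 := Gen2.ncard_fixedBy_modEq_of_commute (Ω := Sylow 3 S) (p := 7) (k := 1) (x := w)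
        (g := c) (by rw [pow_one, ← hwo, pow_orderOf_eq_one]) (h9 w hwW)
      rw [hfix w hwW (by rintro rfl; simp at hwo),
        Set.inter_eq_right.2 (Set.singleton_subset_iff.2 h4), Set.ncard_singleton] at h5
      unfold Nat.ModEq at h5
      rcases hr25 with rfl | rfl <;> omega
    · have h10 := Gen2.card_mul_ncard_fixedBy_diff_le (Ω := Sylow 3 S) W hc.1
        (eq_one_of_not_mem_centralizer hW7 h9) {P} (fun y hy a ha => smul_left_cancel y
          (ha.trans (Sylow.smul_eq_iff_mem_normalizer.2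
            (centralizer_le_normalizer _ (hW.le hy))).symm))
        (fun y hy h1 => (hfix y hy h1).subset)
      have h11 := Set.ncard_sdiff_singleton_add_one h4
      rw [hW7, hn, Set.ncard_singleton] at h10
      rcases hr25 with rfl | rfl
      · have h6 := Gen2.four_dvd_card_sub_ncard_fixedBy (Ω := Sylow 3 S) hS (t := c)
          (by rw [← hco, pow_orderOf_eq_one])
        omega
      · omega
  have h2 := key 2 (Or.inl rfl)
  have h5 := key 5 (Or.inr rfl)
  have hcyc : IsCyclic P := isCyclic_of_prime_card hP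
  have h3 : 3 ∣ Nat.card (normalizer (W : Set S) ⊓ C : Subgroup S) := by
    rw [← hP]
    exact card_dvd_of_le (le_inf ((le_centralizer_iff.1 hW.le).trans (centralizer_le_normalizer _))
      (le_centralizer _))
  have h7 : 7 ∣ Nat.card (normalizer (W : Set S) ⊓ C : Subgroup S) := by
    rw [← hW7]
    exact card_dvd_of_le (le_inf le_normalizer hW.le)
  have h8 := Solv.card_inf_mul_relIndex (normalizer (W : Set S)) C
  have h9 := card_sylow_modEq_one 7 C
  rw [Gen2.card_sylow_of_sylIn hW] at h9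
  obtain ⟨k, hk⟩ : 21 ∣ Nat.card (normalizer (W : Set S) ⊓ C : Subgroup S) := by omega
  rw [hk, hC, mul_assoc] at h8
  rw [hk] at h2 h5
  have h10 := Nat.eq_of_mul_eq_mul_left (by norm_num) h8
  generalize (normalizer (W : Set S)).relIndex C = n at *
  have := Nat.le_of_dvd (by omega) (Dvd.intro_left _ h10)
  unfold Nat.ModEq at h9
  obtain rfl | rfl | rfl : n = 1 ∨ n = 8 ∨ n = 15 := by omega
  all_goals omega

end Part2

/-- No finite group has exactly 22 Sylow 3-subgroups. -/
theorem result {G : Type*} [Group G] [Finite G] : Nat.card (Sylow 3 G) ≠ 22 := by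
  intro h
  have : Fact (Nat.Prime 3) := ⟨Nat.prime_three⟩
  have : Fact (Nat.Prime 11) := ⟨by norm_num⟩
  obtain ⟨S, _, _, _, hS, hn⟩ := Gen2.exists_simple_of_card_sylow 3 G h (by norm_num)
    (fun h => by
      have := (Nat.Coprime.isPrimePow_dvd_mul (by norm_num : Nat.Coprime 2 11) h).1 (by norm_num)
      omega) (by
      intro d hd h
      have := Nat.le_of_dvd (by norm_num) hd
      interval_cases d <;> simp_all)
  obtain ⟨P⟩ : Nonempty (Sylow 3 S) := inferInstance
  obtain ⟨Y⟩ : Nonempty (Sylow 11 S) := inferInstance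
  obtain ⟨d, hd, h1, h2⟩ := step1 hS hn P
  obtain ⟨h3, h4, h5⟩ := step2 hS hn hd h2 Y
  have h6 := step3 hS Y h3 h4 h5
  have h7 := card_sylow_modEq_one 11 S
  have h8 := (normalizer ((Y : Subgroup S) : Set S)).card_mul_index
  rw [h5, Y.coe_coe, ← Y.card_eq_index_normalizer, h2] at h8
  unfold Nat.ModEq at h7
  have h9 : d % 11 = 2 := by omega
  have h10 : d ∈ Nat.divisors 560 := Nat.mem_divisors.2 ⟨hd, by norm_num⟩
  have h11 : ∀ d ∈ Nat.divisors 560, d % 11 = 2 → d = 2 ∨ d = 35 ∨ d = 112 := by decide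
  rcases h11 d h10 h9 with rfl | rfl | rfl
  · omega
  · exact step4 hS hn P (Or.inl rfl) h1
  · exact step4 hS hn P (Or.inr rfl) h1

end Cfsg.Agent.S4346
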