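import Cfsg.Statements.S4359
import Cfsg.Agent.Loc.Sims

set_option autoImplicit false
open Pointwise
open Cfsg

namespace Cfsg.Agent.S4359

/-- Let P be a subgroup of a finite group G and g an element such that P ∩ g⁻¹Pg is a normal subgroup of prime index p in g⁻¹Pg. Let n ≥ 1 and let K be the subgroup generated by P and its conjugates g⁻ⁱPgⁱ for i ≤ n. Suppose that g normalizes no non-identity normal subgroup of P and that P meets the center of K trivially. Then the order of P is pᵗ for some t with 1 ≤ t ≤ 3n and t ≠ 3n - 1. -/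
theorem result {G : Type*} [Group G] [Finite G]
    (P : Subgroup G) (g : G) (p : ℕ) (hp : p.Prime)
    (hN : ((P ⊓ MulAut.conj g⁻¹ • P).subgroupOf (MulAut.conj g⁻¹ • P)).Normal)
    (hidx : (P ⊓ MulAut.conj g⁻¹ • P).relIndex (MulAut.conj g⁻¹ • P) = p)
    (n : ℕ) (hn : 1 ≤ n) (K : Subgroup G) (hK : K = ⨆ i ∈ Finset.range (n + 1), MulAut.conj (g ^ i)⁻¹ • P)
    (h1 : ∀ Q : Subgroup G, Q ≤ P → (Q.subgroupOf P).Normal → MulAut.conj g • Q = Q → Q = ⊥)
    (h2 : P ⊓ (Subgroup.center K).map K.subtype = ⊥) :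
    ∃ t : ℕ, Nat.card P = p ^ t ∧ 1 ≤ t ∧ t ≤ 3 * n ∧ t ≠ 3 * n - 1 := by
  open Cfsg.Agent.Loc Subgroup in
  open scoped commutatorElement in
  simp only [conj_smul_eq_cj] at *
  have := Fact.mk hp
  have hR : pResidualOf p P = ⊥ := by
    refine h1 _ (pResidualOf_le p P) ((normal_subgroupOf_iff_le_normalizer (pResidualOf_le p P)).2
      (le_normalizer_pResidualOf p P)) (cj_eq_iff.2 (cj_eq_of_cj_le ?_).symm)
    rw [cj_pResidualOf, ← pResidualOf_eq_of_le (K := P ⊓ cj g⁻¹ P) (pResidualOf_le_of_forall_pow fun x hx =>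
      ⟨1, by rw [pow_one, ← hidx]; exact @pow_index_mem _ _ _ hN ⟨x, hx⟩⟩) inf_le_right]
    exact pResidualOf_mono inf_le_left
  obtain ⟨t, ht⟩ := (isPGroup_of_pResidualOf_eq_bot hR).exists_card_eq
  have h : SH p t P g⁻¹ := ⟨hp, ht, by
    have e := Solv.card_mul_relIndex (inf_le_left : P ⊓ cj g⁻¹ P ≤ P)
    rw [← card_cj g⁻¹ P, ← Solv.card_mul_relIndex (inf_le_right : P ⊓ cj g⁻¹ P ≤ _), hidx] at e
    exact Nat.eq_of_mul_eq_mul_left Nat.card_pos e, fun Q l1 l2 e =>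
      h1 Q l1 ((normal_subgroupOf_iff_le_normalizer l1).2 l2) (cj_eq_iff.2 e.symm)⟩
  obtain ⟨l, a1, a2, a3, -⟩ := h.main
  have := h.t_pos
  suffices 2 * l ≤ t + n from ⟨t, ht, by omega, by omega, by omega⟩
  by_contra hl
  have l1 : SH.I t P g⁻¹ (l - 1) (l - 1) ≤ P := by
    have := SH.I_eq (t := t) (P := P) (g := g⁻¹) 0
    rw [zpow_zero, cj_one] at this
    exact (SH.I_mono (by omega) (by omega)).trans this.le
  refine h.X_ne (l - 1) (le_bot_iff.1 (h2 ▸ le_inf l1 ?_))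
  rw [map_subtype_center, hK]
  refine le_inf (l1.trans (le_iSup₂_of_le 0 (by simp) (by rw [pow_zero, inv_one, cj_one]))) (le_centralizer_iff.1
    (iSup₂_le fun i hi => ?_))
  rw [← inv_pow, ← zpow_natCast, ← SH.I_eq (t := t)]
  have := Finset.mem_range.1 hi
  exact h.gen' (by omega) (by omega) fun k k1 k2 => commutator_eq_bot_iff_le_centralizer.1 (a3 _ _ (by omega) (by omega))

end Cfsg.Agent.S4359
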