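import Cfsg.Statements.S4370
import Cfsg.Agent.BG.Base6
import Cfsg.Agent.Loc.Rk1

set_option autoImplicit false
open Cfsg

namespace Cfsg.Agent.S4370

open Subgroup Cfsg.Agent.BG QuaternionGroup

theorem quat {n : ℕ} [NeZero n] (x : QuaternionGroup n) (hx : x ∉ center _) : ∃ y, C1[x] ≤ zpowers y := by
  have h0 : ∀ j : ZMod (2 * n), -j = j → j = 0 ∨ j = n := fun j h =>
    ((ZMod.neg_eq_self_iff j).1 h).imp_right fun h => by
      rw [← ZMod.natCast_zmod_val j, Nat.eq_of_mul_eq_mul_left two_pos h]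
  rcases x with i | i
  · refine ⟨a 1, fun g hg => ?_⟩
    rcases g with j | j
    · exact ⟨j.val, by simp only [zpow_natCast, a_one_pow, ZMod.natCast_zmod_val]⟩
    · have h : i = -i := by simpa [mem_cent1, sub_eq_add_neg] using hg
      refine (hx (mem_center_iff.2 fun g => ?_)).elim
      rcases g with k | k
      · simp [add_comm]
      · simp [sub_eq_add_neg, ← h]
  · refine ⟨xa i, fun g hg => ?_⟩
    rcases g with j | j
    · rcases h0 j (by simpa [mem_cent1, sub_eq_add_neg] using hg) with rfl | rfl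
      · exact one_mem _
      · exact xa_sq i ▸ pow_mem (mem_zpowers _) 2
    · have h : (n : ZMod (2 * n)) + i - j = n + j - i := by simpa [mem_cent1] using hg
      rcases h0 (j - i) (by linear_combination h) with h | h
      · rw [sub_eq_zero.1 h]; exact mem_zpowers _
      · rw [sub_eq_iff_eq_add'.1 h, ← xa_mul_a, ← xa_sq]
        exact mul_mem (mem_zpowers _) (pow_mem (mem_zpowers _) 2)

/-- Let G be a finite non-abelian nilpotent group. Then the centralizer of every non-central element of G is cyclic if and only if G is isomorphic to the direct product of a generalized quaternion group and a cyclic group of odd order. -/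
theorem result {G : Type*} [Group G] [Finite G] (hG : Group.IsNilpotent G)
    (hna : ¬ IsMulCommutative G) :
    (∀ x : G, x ∉ Subgroup.center G → IsCyclic (Subgroup.centralizer ({x} : Set G))) ↔
      ∃ (k m : ℕ), 1 ≤ k ∧ Odd m ∧ Nonempty (G ≃* QuaternionGroup (2 ^ k) × Multiplicative (ZMod m)) := by
  refine ⟨fun h => ?_, fun ⟨k, m, _, hm, ⟨e⟩⟩ x hx => ?_⟩
  · have h1 : ∀ A : Subgroup G, IsMulCommutative A → IsCyclic A := fun A hA => by
      by_cases h1 : A ≤ center G
      · obtain ⟨x, hx⟩ : ∃ x, x ∉ center G := by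
          by_contra! h2; exact hna ⟨⟨fun a b => mem_center_iff.1 (h2 b) a⟩⟩
        exact cyclicS (h1.trans (center_le_centralizer _)) (h x hx)
      · obtain ⟨x, h2, hx⟩ := SetLike.not_le_iff_exists.1 h1
        exact cyclicS (le_cent1_iff.2 (hA.cent h2)) (h x hx)
    have hn := Group.isNilpotent_top.2 hG
    have hD := nilpotent_pcoreC {2} hn
    have hT : Odd #(piCoreOf {2}ᶜ (⊤ : Subgroup G)) := pnat_odd.1 (pcore_pgroup _ _)
    have h2 : IsCyclic (piCoreOf {2}ᶜ (⊤ : Subgroup G)) := by_contra fun h2 => by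
      obtain ⟨p, hp, E, hE⟩ := noncyclic_p2Elem (Or.inl ⟨hT, nilpotentS le_top hn⟩) h2
      exact hE.not_cyclic hp one_lt_two (h1 E hE.abelian)
    have hS := Op_pgroup 2 (⊤ : Subgroup G)
    obtain h3 | ⟨-, k, hk, ⟨e⟩⟩ := ((Loc.rk1_or_exists hS).resolve_right fun ⟨A, _, hA, h3⟩ =>
      h3 (h1 A hA.1)).isCyclic_or_quaternion hS
    · exact (hna (isog_abelian (isog_symm isog_top) (cyclic_abelian (hD.cyclic h3 h2 (coprime_pcoreC _ _ _))))).elim
    let f := MonoidHom.noncommCoprod (Subgroup.subtype _) (Subgroup.subtype _)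
      fun (a : piCoreOf {2} (⊤ : Subgroup G)) (b : piCoreOf {2}ᶜ (⊤ : Subgroup G)) => mem_cent.1 (hD.cent b.2) a a.2
    refine ⟨k, _, hk, hT, ⟨(MulEquiv.ofBijective f ((Nat.bijective_iff_surjective_and_card f).2
      ⟨fun d => ?_, ?_⟩)).symm.trans (e.prodCongr (zmodCyclicMulEquiv h2).symm)⟩⟩
    · obtain ⟨a, ha, b, hb, e⟩ := hD.sdprod.mem (mem_top d)
      exact ⟨(⟨a, ha⟩, ⟨b, hb⟩), e.symm⟩
    · rw [Nat.card_prod, hD.card, card_top]
  obtain ⟨y, hy⟩ := quat (e x).1 fun h => hx (mem_center_iff.2 fun g => e.injective (by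
    rw [map_mul, map_mul]; exact Prod.ext (mem_center_iff.1 h _) (mul_comm _ _)))
  have : IsCyclic (zpowers y × Multiplicative (ZMod m)) := Group.isCyclic_prod_iff.2 ⟨inferInstance, inferInstance, by
    refine Nat.Coprime.coprime_dvd_left (card_subgroup_dvd_card _) ?_
    rw [Nat.card_eq_fintype_card, card, Nat.card_congr Multiplicative.toAdd, Nat.card_zmod]
    exact Nat.Coprime.mul_left ((Nat.coprime_two_left.2 hm).pow_left 2) ((Nat.coprime_two_left.2 hm).pow_left k)⟩
  refine isCyclic_of_injective (G' := zpowers y × Multiplicative (ZMod m))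
    ((((MonoidHom.fst _ _).comp (e.toMonoidHom.comp (Subgroup.subtype _))).codRestrict _ fun g => hy ?_).prod
      ((MonoidHom.snd _ _).comp (e.toMonoidHom.comp (Subgroup.subtype _)))) fun a b h => Subtype.ext (e.injective ?_)
  · exact congrArg Prod.fst ((map_mul e _ _).symm.trans ((congrArg e (mem_cent1.1 g.2)).trans (map_mul e _ _))) |>
      mem_cent1.2
  · exact Prod.ext (congrArg (·.1.1) h) (congrArg (·.2) h)

end Cfsg.Agent.S4370
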