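import Cfsg.Statements.S4377
import Cfsg.Agent.Gen.OrderType

set_option autoImplicit false
open Cfsg

namespace Cfsg.Agent.S4377

theorem aux (G : Type*) [Group G] [Finite G] {n : ℕ} (hn : n ≠ 0) :
    Nat.card {g : G // g ^ n = 1} = ∑ d ∈ n.divisors, Nat.card {g : G // orderOf g = d} := by
  classical
  have := Fintype.ofFinite G
  simp only [Nat.card_eq_fintype_card, Fintype.card_subtype]
  exact (sum_card_orderOf_eq_card_pow_eq_one hn).symm

/-- Two finite groups have the same number of elements of each order if and only if, for every n, they have the same number of elements g with gⁿ = 1. -/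
theorem result {G H : Type*} [Group G] [Finite G] [Group H] [Finite H] :
    (∀ n : ℕ, Nat.card {g : G // orderOf g = n} = Nat.card {h : H // orderOf h = n}) ↔
      ∀ n : ℕ, Nat.card {g : G // g ^ n = 1} = Nat.card {h : H // h ^ n = 1} := by
  constructor
  · intro h n
    obtain ⟨e, he⟩ := Gen.exists_equiv_of_orderType h
    exact Nat.card_congr (e.subtypeEquiv fun g => by
      rw [← orderOf_dvd_iff_pow_eq_one, ← orderOf_dvd_iff_pow_eq_one, he])
  · intro h n
    induction n using Nat.strong_induction_on with
    | _ n ih =>
    rcases eq_or_ne n 0 with rfl | hn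
    · have : IsEmpty {g : G // orderOf g = 0} := ⟨fun g => (orderOf_pos g.1).ne' g.2⟩
      have : IsEmpty {g : H // orderOf g = 0} := ⟨fun g => (orderOf_pos g.1).ne' g.2⟩
      rw [Nat.card_of_isEmpty, Nat.card_of_isEmpty]
    have h1 := h n
    rw [aux G hn, aux H hn, ← Nat.cons_self_properDivisors hn, Finset.sum_cons, Finset.sum_cons,
      Finset.sum_congr rfl fun d hd => ih d (Nat.mem_properDivisors.1 hd).2] at h1
    exact add_right_cancel h1

end Cfsg.Agent.S4377
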