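import Cfsg.Statements.S4381
import Cfsg.Agent.BG.S1c
import Cfsg.Agent.Transfer.Hol

set_option autoImplicit false
open Pointwise
open Cfsg

namespace Cfsg.Agent.S4381

open Subgroup Cfsg.Agent.BG Cfsg.Agent.Transfer

/-- Let the finite group A act by automorphisms on the finite group G with the orders of A and G coprime, and assume that A or G is solvable. Call a proper A-invariant subgroup of G maximal A-invariant when no A-invariant subgroup lies strictly between it and G. Then all maximal A-invariant subgroups of G are conjugate under elements of the fixed-point subgroup C_G(A) if and only if G is a p-group for some prime p and A leaves invariant no subgroup strictly between the Frattini subgroup of G and G. In that case, if G is nontrivial, the Frattini subgroup is the only maximal A-invariant subgroup (a trivial G has none). -/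
theorem result {A G : Type*} [Group A] [Finite A]
    [Group G] [Finite G] [MulDistribMulAction A G] (hcop : (Nat.card A).Coprime (Nat.card G)) (hsol : Group.IsSolvable A ∨ Group.IsSolvable G) :
    ((∀ M N : Subgroup G, (M ≠ ⊤ ∧ (∀ a : A, ∀ x ∈ M, a • x ∈ M) ∧ ∀ L : Subgroup G, M < L → (∀ a : A, ∀ x ∈ L, a • x ∈ L) → L = ⊤) → (N ≠ ⊤ ∧ (∀ a : A, ∀ x ∈ N, a • x ∈ N) ∧ ∀ L : Subgroup G, N < L → (∀ a : A, ∀ x ∈ L, a • x ∈ L) → L = ⊤) →
        ∃ c : G, (∀ a : A, a • c = c) ∧ N = MulAut.conj c • M) ↔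
      ((∃ p : ℕ, p.Prime ∧ IsPGroup p G) ∧ ∀ L : Subgroup G, frattini G < L → (∀ a : A, ∀ x ∈ L, a • x ∈ L) → L = ⊤)) ∧
    (((∃ p : ℕ, p.Prime ∧ IsPGroup p G) ∧ ∀ L : Subgroup G, frattini G < L → (∀ a : A, ∀ x ∈ L, a • x ∈ L) → L = ⊤) →
      ∀ M : Subgroup G, (M ≠ ⊤ ∧ (∀ a : A, ∀ x ∈ M, a • x ∈ M) ∧ ∀ L : Subgroup G, M < L → (∀ a : A, ∀ x ∈ L, a • x ∈ L) → L = ⊤) ↔ (M = frattini G ∧ M ≠ ⊤)) := by
  set φ : A →* MulAut G := MulDistribMulAction.toMulAut A G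
  have inv : ∀ H : Subgroup G, sdR φ ⊤ ≤ N[sdL φ H] ↔ ∀ a : A, ∀ x ∈ H, a • x ∈ H := fun H => by
    rw [sdR_le_normalizer]; exact ⟨fun h a => h a trivial, fun h a _ => h a⟩
  have co : (#(sdL φ ⊤)).Coprime #(sdR φ ⊤) := by
    rw [card_sdL, card_sdR, Subgroup.card_top, Subgroup.card_top]; exact hcop.symm
  have inj : Function.Injective (SemidirectProduct.inl (φ := φ)) := SemidirectProduct.inl_injective
  have hn := sdR_le_normalizer_top φ ⊤
  simp only [← inv]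
  have iF : sdR φ ⊤ ≤ N[sdL φ (frattini G)] := (inv _).2 fun a x hx =>
    characteristic_iff_le_comap.1 inferInstance (φ a) hx
  have phi : ∀ M : Subgroup G, (M ≠ ⊤ ∧ sdR φ ⊤ ≤ N[sdL φ M] ∧ ∀ L, M < L → sdR φ ⊤ ≤ N[sdL φ L] → L = ⊤) →
      frattini G ≤ M := fun M ⟨h1, h2, h3⟩ => by_contra fun h =>
    h1 (frattini_nongenerating (h3 _ (left_lt_sup.2 h) (by rw [sdL, Subgroup.map_sup]; exact normsY h2 iF)))
  have mx : ∀ L : Subgroup G, L ≠ ⊤ → sdR φ ⊤ ≤ N[sdL φ L] → ∃ M, L ≤ M ∧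
      (M ≠ ⊤ ∧ sdR φ ⊤ ≤ N[sdL φ M] ∧ ∀ L, M < L → sdR φ ⊤ ≤ N[sdL φ L] → L = ⊤) := fun L h1 h2 => by
    obtain ⟨M, lM, ⟨h1, h2⟩, h3⟩ := maxgroup_exists
      (P := fun M : Subgroup G => M ≠ ⊤ ∧ sdR φ ⊤ ≤ N[sdL φ M]) (A := L) ⟨h1, h2⟩
    exact ⟨M, lM, h1, h2, fun K lK iK => by_contra fun hK => lK.ne' (h3 K ⟨hK, iK⟩ lK.le)⟩
  refine (fun h2 h1 => ⟨h1 h2, h2⟩ : ∀ h2 : _, (_ → _) → _ ∧ _)
    (fun h M => ⟨fun hM => ⟨((phi M hM).eq_or_lt.resolve_right fun h' => hM.1 (h.2 M h' hM.2.1)).symm, hM.1⟩,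
      fun ⟨h1, h2⟩ => ⟨h2, h1 ▸ iF, h1 ▸ h.2⟩⟩)
    fun h2 => ⟨fun h => ?_, fun h M N hM hN => ⟨1, fun a => smul_one a, ?_⟩⟩
  · have hp : ∃ p : ℕ, p.Prime ∧ IsPGroup p G := by
      by_contra! hp
      obtain ⟨M, -, hM⟩ := mx ⊥ (fun h => hp 2 Nat.prime_two ((IsPGroup.of_bot.of_equiv
        (MulEquiv.subgroupCongr h)).of_equiv topEquiv)) (by rw [sdL, Subgroup.map_bot, norm_bot]; exact le_top)
      refine hM.1 (eq_top_iff.2 (le_of_Sylow_le fun p hp' _ => ?_))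
      have := Fact.mk hp'
      obtain ⟨P, hP, nP⟩ := coprime_Sylow_exists p hn co (hsol.imp
        (fun h => solvable_map _ (isog_sol isog_top h)) fun h => solvable_map _ (isog_sol isog_top h))
      obtain ⟨P, rfl⟩ := exists_eq_sdL φ hP.le
      have hP := (pHall_map_inj inj).1 hP
      obtain ⟨N, hN, hN'⟩ := mx P (by rintro rfl; exact hp p hp' (hP.pg.of_equiv topEquiv)) nP
      obtain ⟨c, -, rfl⟩ := h M N hM hN'
      exact ⟨cj c⁻¹ P, pHallJsub (mem_top _) hP, le_cj_iff.1 hN⟩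
    refine ⟨hp, fun L hL iL => by_contra fun h1 => ?_⟩
    obtain ⟨p, hp, hG⟩ := hp
    have := Fact.mk hp
    obtain ⟨M, hLM, hM⟩ := mx L h1 iL
    have h3 := (Phi_min (hG.to_subgroup ⊤)).1 Phi_top.le
    have nF : sdL φ (frattini G) ⊴ sdL φ ⊤ := normal_map _ (normal_top _)
    have hMn : M ⊴ ⊤ := sub_der1_normal (h3.1.trans (phi M hM)) le_top
    obtain ⟨W, hW, nW⟩ := Maschke_abelem (p := p) ((quotient_abelem_iff nF.norm).2
      ⟨by rw [← map_commutator]; exact map_mono h3.1, by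
        rintro _ ⟨x, -, rfl⟩; exact ⟨x ^ p, h3.2 x trivial, map_pow _ _ _⟩⟩)
      (quotient_pgroup _ ((p'nat_coprime hp).2 (co.symm.coprime_dvd_right (pgroup_pdiv
        ((hG.to_subgroup ⊤).map _) fun h => h1 (eq_top_iff.2 (((map_eq_bot_iff_of_injective _ inj).1 h).le.trans bot_le))))))
      (quotientS _ (map_mono le_top)) (quotient_norms _ hn) (quotient_norms _ hM.2.1)
    obtain ⟨U, h4, h5, rfl⟩ := inv_quotientS nF hW.ler
    obtain ⟨U, rfl⟩ := exists_eq_sdL φ h5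
    have h6 : sdL φ M ≤ N[sdL φ (frattini G)] := (map_mono le_top).trans nF.norm
    obtain ⟨N, hN, hN'⟩ := mx U (by
      rintro rfl
      have := (quotient_sub1 h6).1 ((inf_eq_left.2 hW.lel).symm.trans hW.inf)
      exact hL.not_ge (hLM.trans ((sdL_le_sdL φ).1 this))) (norms_of_quotient iF ⟨h4, h5.trans nF.norm⟩ nW)
    obtain ⟨c, -, rfl⟩ := h M N hM hN'
    rw [cj_eq_smul, hMn.cj_eq (mem_top c)] at hN
    refine hM.1 (eq_top_iff.2 ((sdL_le_sdL φ).1 ((quotientSGK nF.norm (map_mono (phi M hM))).1 ?_)))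
    exact hW.sup.ge.trans (sup_le le_rfl (quotientS _ (map_mono hN)))
  · rw [map_one, one_smul, ((h2 h M).1 hM).1, ((h2 h N).1 hN).1]

end Cfsg.Agent.S4381
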