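import Cfsg.Statements.S4385
import Cfsg.Agent.Loc.Sims4

set_option autoImplicit false
open Pointwise
open Cfsg

namespace Cfsg.Agent.S4385

/-- Let H be a subgroup of a finite group G whose largest normal 2-subgroup O_2(H) is nontrivial and such that H/O_2(H) is a dihedral group of order at least 4. Let P be a Sylow 2-subgroup of H and S a Sylow 2-subgroup of G containing P. Suppose y ∈ S lies outside P, normalizes P, has y² in the product of P with the centralizer of P in G, and normalizes no non-identity normal subgroup of H contained in P. Then P has order 4, 8 or 16, and H modulo its largest normal subgroup of odd order is isomorphic to the four-group, to the symmetric group of degree 4, or to the direct product of the symmetric group of degree 4 with a group of order 2. -/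
theorem result {G : Type*} [Group G] [Finite G]
    (H : Subgroup G) (hO : Cfsg.pCore 2 ↥H ≠ ⊥) (n : ℕ) (hn : 2 ≤ n) (hdih : Nonempty (↥H ⧸ Cfsg.pCore 2 ↥H ≃* DihedralGroup n))
    (P : Subgroup G) (hPH : P ≤ H) (hP : IsPGroup 2 P) (hPsyl : ¬ 2 ∣ P.relIndex H)
    (S : Sylow 2 G) (hPS : P ≤ (S : Subgroup G)) (y : G) (hyS : y ∈ (S : Subgroup G)) (hyP : y ∉ P)
    (hy2 : y ^ 2 ∈ P ⊔ Subgroup.centralizer (P : Set G)) (hyN : MulAut.conj y • P = P)
    (hyQ : ∀ Q : Subgroup G, Q ≤ P → (Q.subgroupOf H).Normal → MulAut.conj y • Q = Q → Q = ⊥) :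
    (Nat.card P = 4 ∨ Nat.card P = 8 ∨ Nat.card P = 16) ∧
    (Nonempty (↥H ⧸ Cfsg.oddCore ↥H ≃* Multiplicative (ZMod 2) × Multiplicative (ZMod 2)) ∨
     Nonempty (↥H ⧸ Cfsg.oddCore ↥H ≃* Equiv.Perm (Fin 4)) ∨
     Nonempty (↥H ⧸ Cfsg.oddCore ↥H ≃* Equiv.Perm (Fin 4) × Multiplicative (ZMod 2))) := by
  open Cfsg.Agent.Loc Subgroup in
  open scoped commutatorElement in
  obtain ⟨e⟩ := hdih
  simp only [conj_smul_eq_cj] at *
  have hy := mem_normalizer_iff_cj.2 hyN
  refine (sims_dih hn e (sylIn_of_not_dvd_relIndex hPH hP hPsyl) hy (fun N l1 l2 l3 => ?_) hO).imp_right And.right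
  have e2 : cj y N = cj y⁻¹ N := by
    rw [cj_eq_iff, cj_cj, ← mul_inv_rev, ← pow_two, eq_comm]
    exact cj_eq_of_mem_normalizer (inv_mem (sup_le (hPH.trans l2) ((centralizer_anti l1).trans
      (centralizer_le_normalizer _)) hy2))
  have l4 := cj_le_of_mem_normalizer (inv_mem hy) l1
  refine le_bot_iff.1 (le_sup_left.trans (hyQ (N ⊔ cj y⁻¹ N) (sup_le l1 l4) ((normal_subgroupOf_iff_le_normalizer
    ((sup_le l1 l4).trans hPH)).2 (le_normalizer_sup l2 (by rwa [← cj_normalizer, ← cj_le_iff]))) (by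
      rw [cj_sup, cj_cj_inv, e2, sup_comm])).le)

end Cfsg.Agent.S4385
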