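import Cfsg.Statements.S4387
import Cfsg.Agent.Solv.Frattini
import Cfsg.Agent.Gen2.Basic
import Cfsg.Agent.SolvStr.Frattini

set_option autoImplicit false
open Pointwise
open Cfsg

namespace Cfsg.Agent.S4387

open scoped Pointwise

/-- Let G be a non-trivial finite group in which any two maximal subgroups are conjugate. Then G is cyclic of prime-power order. -/
theorem result {G : Type*} [Group G] [Finite G] [Nontrivial G]
    (h : ∀ M N : Subgroup G, IsCoatom M → IsCoatom N → ∃ g : G, N = MulAut.conj g • M) :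
    IsCyclic G ∧ IsPrimePow (Nat.card G) := by
  obtain ⟨M, hM, -⟩ := SolvStr.exists_isCoatom_ge (bot_ne_top (α := Subgroup G))
  have h1 : ∃ g : G, ∀ x : G, x * g * x⁻¹ ∉ M := by
    by_contra h1
    push Not at h1
    exact hM.1 (Gen2.eq_top_of_forall_exists_conj_mem M h1)
  obtain ⟨g, hg⟩ := h1
  have h2 : Subgroup.zpowers g = ⊤ := by
    by_contra h2
    obtain ⟨N, hN, h3⟩ := SolvStr.exists_isCoatom_ge h2
    obtain ⟨x, rfl⟩ := h M N hM hN
    exact hg x⁻¹ (by simpa using Solv.mem_conj_smul.1 (h3 (Subgroup.mem_zpowers g)))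
  have hc : IsCyclic G := ⟨g, fun x => by
    show x ∈ Subgroup.zpowers g
    rw [h2]; trivial⟩
  refine ⟨hc, ?_⟩
  have : M.Normal := ⟨fun a ha x => by rwa [IsCyclic.isMulCommutative.is_comm.comm x a, mul_inv_cancel_right]⟩
  rw [isPrimePow_iff_unique_prime_dvd]
  have hp := Solv.prime_index_of_isCoatom hM
  refine ⟨M.index, ⟨hp, M.index_dvd_card⟩, fun q ⟨hq, hd⟩ => ?_⟩
  have h3 : (Subgroup.zpowers (g ^ q)).index = q := by
    refine Nat.eq_of_mul_eq_mul_left (Nat.card_pos (α := Subgroup.zpowers (g ^ q))) ?_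
    have h4 : orderOf g = Nat.card G := by rw [← Nat.card_zpowers, h2, Subgroup.card_top]
    rw [Subgroup.card_mul_index, Nat.card_zpowers, orderOf_pow_of_dvd hq.ne_zero (h4 ▸ hd), h4,
      Nat.div_mul_cancel hd]
  obtain ⟨N, hN, h4⟩ := SolvStr.exists_isCoatom_ge (H := Subgroup.zpowers (g ^ q)) fun h => by
    rw [h, Subgroup.index_top] at h3
    exact hq.one_lt.ne h3
  obtain ⟨x, rfl⟩ := h M N hM hN
  have := Subgroup.index_dvd_of_le h4
  rw [h3, Solv.index_conj_smul] at this
  exact ((Nat.prime_dvd_prime_iff_eq hp hq).1 this).symm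

end Cfsg.Agent.S4387
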