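import Cfsg.Statements.S4396
import Cfsg.Agent.Gen2.FrobFree
import Cfsg.Agent.Frob.Basic
import Cfsg.Agent.BG.Base4
import Cfsg.Agent.BMod.Defect

set_option autoImplicit false
open Cfsg

namespace Cfsg.Agent.S4396

open Subgroup Module Cfsg.Agent.BG Cfsg.Agent.Gen2.FrobFree

theorem exists_N {k V A : Type*} [Field k] [AddCommGroup V] [Module k V] [Group A] [Finite A]
    (ρ : Representation k A V) (F : Subgroup A) [F.Normal] (hnil : Group.IsNilpotent F)
    (hCF : ∀ v : V, (∀ f ∈ F, ρ f v = v) → v = 0) :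
    ∃ N : Subgroup A, N.Normal ∧ N ≤ F ∧ (Nat.card N : k) ≠ 0 ∧ ∀ v : V, (∀ f ∈ N, ρ f v = v) → v = 0 := by
  obtain ⟨p, hp⟩ := CharP.exists k
  rcases CharP.char_is_prime_or_zero k p with h | rfl
  swap
  · have := CharP.charP_to_charZero k
    exact ⟨F, inferInstance, le_rfl, Nat.cast_ne_zero.2 Nat.card_pos.ne', hCF⟩
  have := Fact.mk h
  have hD := nilpotent_pcoreC {p} hnil
  refine ⟨_, ((normal_top F).pcore {p}ᶜ).normal, pcore_sub _ _,
    by rw [Ne, CharP.cast_eq_zero_iff k p]; exact (p'natE h).1 (pcore_pgroup _ _), fun v hv => ?_⟩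
  by_contra h1
  let _ : DistribMulAction (piCoreOf {p} F) V :=
    { smul := fun u v => ρ u v
      one_smul := fun v => show ρ (1 : piCoreOf {p} F) v = v by simp
      mul_smul := fun a b v => show ρ (a * b : piCoreOf {p} F) v = ρ a (ρ b v) by simp
      smul_zero := fun u => map_zero (ρ u)
      smul_add := fun u => map_add (ρ u) }
  obtain ⟨w, h2, h3, h4⟩ := BMod.exists_fixed_ne_zero (PiNat.pg (pcore_pgroup {p} F)) (fun v : V => by
    rw [← Nat.cast_smul_eq_nsmul k, CharP.cast_eq_zero, zero_smul])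
    (Representation.invariants (ρ.comp (piCoreOf {p}ᶜ F).subtype)).toAddSubgroup (fun u w hw g => by
      show ρ g (ρ u w) = ρ u w
      rw [← Module.End.mul_apply, ← map_mul, ← mem_cent.1 (hD.cent g.2) u u.2, map_mul, Module.End.mul_apply]
      exact congrArg _ (hw g)) (fun g => hv g g.2) h1
  refine h3 (hCF w fun f hf => ?_)
  obtain ⟨a, ha, b, hb, rfl⟩ := (mem_sup_norml (cents_norm hD.cent)).1 (hD.sup ▸ hf)
  rw [map_mul, Module.End.mul_apply, show ρ b w = w from h2 ⟨b, hb⟩]
  exact h4 ⟨a, ha⟩

/-- Let the finite group A act faithfully and linearly on a finite-dimensional vector space V over a field k, and suppose A is a Frobenius group with nilpotent kernel F (every Frobenius kernel is nilpotent) and complement H such that F fixes no nonzero vector. Then V is free as a module for H: there is a subspace W with V the direct sum of the translates hW, h ∈ H. (No assumption on the characteristic of k.) -/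
theorem result {k V A : Type*} [Field k] [AddCommGroup V] [Module k V] [FiniteDimensional k V] [Group A] [Finite A] [DecidableEq A]
    (ρ : Representation k A V) (hρ : Function.Injective ρ)
    (Fk Hc : Subgroup A) [Fk.Normal] (hHc : Cfsg.IsFrobeniusComplement Hc) (hker : Cfsg.frobeniusKernel Hc = (Fk : Set A)) (hnil : Group.IsNilpotent ↥Fk)
    (hCF : ∀ v : V, (∀ f ∈ Fk, ρ f v = v) → v = 0) :
    ∃ W : Submodule k V, DirectSum.IsInternal (fun h : ↥Hc => W.map (ρ (h : A))) := by
  classical
  obtain ⟨N, hN, hNF, hNk, hNV⟩ := exists_N ρ Fk hnil hCF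
  have hd : ∀ x ∈ Fk, x ∈ Hc → x = 1 := fun x hx hx' =>
    (Frob.mem_frobeniusKernel.1 (hker ▸ hx : x ∈ frobeniusKernel Hc)).resolve_right fun h => h 1 (by simpa using hx')
  have hc : IsComplement' Fk Hc := isComplement'_of_card_mul_and_disjoint (by
    rw [← index_mul_card Hc, ← Frob.card_frobeniusKernel hHc, hker]; rfl) (disjoint_def.2 fun hx hx' => hd _ hx hx')
  have hFN : FN Fk N Hc := ⟨inferInstance, hN, hnil, hNF, hc.sup_eq_top, fun h hh h1 n hn e =>
    hd n (hNF hn) (Frob.mem_of_commute hHc hh h1 e.symm)⟩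
  obtain ⟨n, hn⟩ := (df hFN hNk ρ hNV).1
  let π : A →* Hc := hc.symm.QuotientMulEquiv.toMonoidHom.comp (QuotientGroup.mk' Fk)
  have hπ1 : ∀ f ∈ Fk, π f = 1 := fun f hf => by
    rw [MonoidHom.comp_apply, show QuotientGroup.mk' Fk f = 1 from (QuotientGroup.eq_one_iff f).2 hf, map_one]
  have hπ2 : ∀ h : Hc, π h = h := fun h => hc.symm.QuotientMulEquiv.symm.injective (by
    simp only [π, MonoidHom.comp_apply, MulEquiv.coe_toMonoidHom, MulEquiv.symm_apply_apply]; rfl)
  let _ := Fintype.ofFinite Hc
  let _ := Fintype.ofFinite N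
  obtain ⟨x, hx⟩ := exists_T_surjective (U := Fin n → k) (ρ.comp Hc.subtype) fun M hM => by
    have h1 := (df hFN hNk (ρ.linHom ((Representation.quotient (ρ.comp Hc.subtype) M hM).comp π)) fun ψ hψ => by
      refine LinearMap.ext fun v => ?_
      have h0 : ∑ m : N, ρ m v = 0 := hNV _ fun a ha => by
        rw [map_sum, ← Equiv.sum_comp (Equiv.mulLeft (⟨a, ha⟩ : N)) fun m : N => ρ m v]
        exact Finset.sum_congr rfl fun n _ => by simp
      have h2 : ∀ m : N, ψ (ρ m v) = ψ v := fun m => by
        have := DFunLike.congr_fun (hψ _ (inv_mem m.2)) v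
        rwa [Representation.linHom_apply, MonoidHom.comp_apply, hπ1 _ (inv_mem (hNF m.2)), map_one, inv_inv] at this
      have := congrArg ψ h0
      rw [map_sum, map_zero, Finset.sum_congr rfl fun m _ => h2 m, Finset.sum_const, Finset.card_univ,
        ← Nat.cast_smul_eq_nsmul k, ← Nat.card_eq_fintype_card] at this
      exact (smul_eq_zero.1 this).resolve_left hNk).2
    have e : (ρ.linHom ((Representation.quotient (ρ.comp Hc.subtype) M hM).comp π)).comp Hc.subtype =
        Representation.linHom (ρ.comp Hc.subtype) (Representation.quotient (ρ.comp Hc.subtype) M hM) :=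
      MonoidHom.ext fun h => LinearMap.ext fun ψ => by
        simp [Representation.linHom_apply, hπ2]
    rw [e, finrank_linearMap, hn, mul_assoc] at h1
    simpa using Nat.le_of_mul_le_mul_left h1 Nat.card_pos
  have hi : Function.Injective (T (ρ.comp Hc.subtype) x) :=
    (LinearMap.injective_iff_surjective_of_finrank_eq_finrank (by
      rw [hn, finrank_pi_fintype]; simp)).2 hx
  refine ⟨LinearMap.range x, (DirectSum.isInternal_submodule_iff_iSupIndep_and_iSup_eq_top _).2 ⟨?_, ?_⟩⟩
  · rw [iSupIndep_iff_finsetSum_eq_zero_imp_eq_zero]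
    intro s v hv h0 g hg
    have : ∀ i, ∃ u, i ∈ s → ρ (i : Hc) (x u) = v i := fun i => by
      by_cases hi : i ∈ s
      · obtain ⟨_, ⟨u, rfl⟩, e⟩ := hv i hi
        exact ⟨u, fun _ => e⟩
      · exact ⟨0, fun h => absurd h hi⟩
    choose u hu using this
    have h1 : T (ρ.comp Hc.subtype) x (fun i => if i ∈ s then u i else 0) = 0 := by
      rw [T_apply, ← h0, ← Finset.sum_subset (Finset.subset_univ s) fun i _ hi => by simp [hi]]
      exact Finset.sum_congr rfl fun i hi => by simp [hi, ← hu i hi]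
    have h2 := congrFun (hi (h1.trans (map_zero _).symm)) g
    simp only [hg, if_true, Pi.zero_apply] at h2
    rw [← hu g hg, h2, map_zero, map_zero]
  · rw [eq_top_iff]
    intro v _
    obtain ⟨f, rfl⟩ := hx v
    rw [T_apply]
    exact Submodule.sum_mem _ fun h _ => Submodule.mem_iSup_of_mem h ⟨_, ⟨f h, rfl⟩, rfl⟩

end Cfsg.Agent.S4396
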