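import Cfsg.Statements.S4400
import Cfsg.Agent.Gen2.SecRank

set_option autoImplicit false
open Cfsg

namespace Cfsg.Agent.S4400

open Subgroup BG Gen2

/-- Let S be a finite 2-group of sectional 2-rank at most 4, and let P and Q be normal non-abelian subgroups of S whose centres have order 2 and are different. Then P and Q commute elementwise and intersect trivially, and PQ contains its own centralizer in S. -/
theorem result {S : Type*} [Group S] [Finite S] (h2 : IsPGroup 2 S) (hr : Cfsg.SectionalPRankLE 2 4 S)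
    (P Q : Subgroup S) [P.Normal] [Q.Normal] (hP : ¬ IsMulCommutative ↥P) (hQ : ¬ IsMulCommutative ↥Q)
    (hZP : Nat.card ↥(Subgroup.center ↥P) = 2) (hZQ : Nat.card ↥(Subgroup.center ↥Q) = 2)
    (hne : (Subgroup.center ↥P).map P.subtype ≠ (Subgroup.center ↥Q).map Q.subtype) :
    ⁅P, Q⁆ = ⊥ ∧ P ⊓ Q = ⊥ ∧ Subgroup.centralizer ((P ⊔ Q : Subgroup S) : Set S) ≤ P ⊔ Q := by
  rw [← card_map_of_injective P.subtype_injective, map_subtype_center] at hZP
  rw [← card_map_of_injective Q.subtype_injective, map_subtype_center] at hZQ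
  rw [map_subtype_center, map_subtype_center] at hne
  obtain ⟨i, c⟩ := disj_of_Z (h2.to_subgroup ⊤) (normal_top P) (normal_top Q) hZP hZQ hne
  exact ⟨commG1'.2 c, i, sr_cent h2 hr hP hQ hZP hZQ c i⟩

end Cfsg.Agent.S4400
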