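import Cfsg.Statements.S4401
import Cfsg.Agent.Gen2.SecRank

set_option autoImplicit false
open Cfsg

namespace Cfsg.Agent.S4401

open Subgroup BG Gen2

/-- Let S be a finite 2-group of sectional 2-rank at most 4 and P a proper non-abelian subgroup whose centre has order 2. Let S₀ be the centralizer in S of Z(P) and suppose P is normal in S₀. Then either S₀ = S, or P has sectional 2-rank at most 2 and S₀ has index 2 in S. -/
theorem result {S : Type*} [Group S] [Finite S] (h2 : IsPGroup 2 S) (hr : Cfsg.SectionalPRankLE 2 4 S)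
    (P : Subgroup S) (hPlt : P ≠ ⊤) (hP : ¬ IsMulCommutative ↥P) (hZP : Nat.card ↥(Subgroup.center ↥P) = 2)
    (S₀ : Subgroup S) (hS₀ : S₀ = Subgroup.centralizer (((Subgroup.center ↥P).map P.subtype : Subgroup S) : Set S))
    (hPn : ∀ s ∈ S₀, ∀ x ∈ P, s * x * s⁻¹ ∈ P) :
    S₀ = ⊤ ∨ (Cfsg.SectionalPRankLE 2 2 ↥P ∧ S₀.index = 2) := by
  rw [← card_map_of_injective P.subtype_injective, map_subtype_center] at hZP
  rw [map_subtype_center] at hS₀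
  obtain ⟨z, z1, hz⟩ : ∃ z, z ≠ 1 ∧ ∀ x, x ∈ Z[P] ↔ x = 1 ∨ x = z := by
    obtain ⟨z, z1, hz⟩ := (Nat.card_eq_two_iff' (1 : Z[P])).1 hZP
    exact ⟨z, fun e => z1 (Subtype.ext e), fun x => ⟨fun hx => or_iff_not_imp_left.2 fun e =>
      congrArg Subtype.val (hz ⟨x, hx⟩ fun r => e (congrArg Subtype.val r)), by rintro (rfl | rfl); exacts [one_mem _, z.2]⟩⟩
  have zZ := (hz z).2 (.inr rfl)
  have zz : z * z = 1 := ((hz _).1 (mul_mem zZ zZ)).resolve_right (by simpa)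
  have m0 : ∀ s, s ∈ S₀ ↔ s * z * s⁻¹ = z := fun s => by
    rw [hS₀, mem_cent, mul_inv_eq_iff_eq_mul]
    exact ⟨fun r => (r z zZ).symm, fun r x hx => by rcases (hz x).1 hx with rfl | rfl <;> simp [r]⟩
  have nP : P ⊴ S₀ := ⟨hS₀ ▸ cents_symm inf_le_right, le_norm_iff.2 hPn⟩
  have ZJ : ∀ g, Z[cj g P] = cj g Z[P] := fun g => by rw [cj_inf, C_cj]
  have cZ : ∀ g, #Z[cj g P] = 2 := fun g => by rw [ZJ, card_cj, hZP]
  have na : ∀ g, ¬ IsMulCommutative (cj g P) := fun g r => hP (cj_inv_cj g P ▸ abelian_cj g⁻¹ r)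
  have b : ∀ g ∈ N[S₀], ∀ h ∈ N[S₀], g * z * g⁻¹ ≠ h * z * h⁻¹ → cj g P ⊓ cj h P = ⊥ ∧ cj h P ≤ C[cj g P] :=
    fun g hg h hh ne => disj_of_Z (h2.to_subgroup S₀) (cj_of_norm hg ▸ nP.cj g) (cj_of_norm hh ▸ nP.cj h) (cZ g) (cZ h)
      fun e => by
        rw [ZJ, ZJ] at e
        obtain ⟨x, hx, r⟩ := mem_cj'.1 (e.le (conj_mem_cj g zZ))
        rcases (hz x).1 hx with rfl | rfl
        · exact z1 (by simpa using r.symm)
        · exact ne r.symm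
  have b1 : ∀ h ∈ N[S₀], h * z * h⁻¹ ≠ z → P ⊓ cj h P = ⊥ ∧ cj h P ≤ C[P] := fun h hh ne => by
    simpa using b 1 (one_mem _) h hh (by simpa using ne.symm)
  have ex : ∀ X : Subgroup S, X ≠ ⊤ → ∃ g ∈ N[X], g ∉ X := fun X hX =>
    let ⟨g, hg, g0⟩ := SetLike.exists_of_lt (nilpotent_proper_norm (pgroup_nil (h2.to_subgroup ⊤)) hX.lt_top)
    ⟨g, hg.2, g0⟩
  refine or_iff_not_imp_left.2 fun hn => ?_
  obtain ⟨g, hg, g0⟩ := ex _ hn
  rw [m0] at g0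
  obtain ⟨i, c⟩ := b1 g hg g0
  have cen := sr_cent h2 hr hP (na g) hZP (cZ g) c i
  have d : ∀ h ∈ N[S₀], h * z * h⁻¹ = z ∨ h * z * h⁻¹ = g * z * g⁻¹ := fun h hh => by
    by_contra! r
    have l : cj h P ≤ C[P ⊔ cj g P] := cent_sup P _ ▸ le_inf (b1 h hh r.1).2 (b g hg h hh r.2.symm).2
    exact na h (abelian_iff.2 (l.trans (centS (l.trans cen))))
  refine ⟨sr_factor hr (h2.to_subgroup _) (na g) c i, index_eq_two_iff'.2 ⟨g⁻¹, fun s => ?_⟩⟩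
  suffices N[S₀] = ⊤ by
    rw [m0, m0, show g⁻¹ * s * z * (g⁻¹ * s)⁻¹ = z ↔ s * z * s⁻¹ = g * z * g⁻¹ by
      rw [eq_mul_inv_iff_mul_eq, ← inv_mul_eq_iff_eq_mul]; simp [mul_assoc]]
    rcases d s (this ▸ mem_top s) with r | r <;> simp [r, g0, Ne.symm g0]
  by_contra hn
  obtain ⟨h, hh, h0⟩ := ex _ hn
  have nQ : cj g P ⊴ S₀ := cj_of_norm hg ▸ nP.cj g
  have yQ := conj_mem_cj g zZ.1
  have C4 : ∀ x ∈ C[P ⊔ cj g P], x = 1 ∨ x = z ∨ x = g * z * g⁻¹ ∨ x = z * (g * z * g⁻¹) := fun x hx => by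
    obtain ⟨a, ha, b, hb, rfl⟩ := (mem_sup_norml (cents_norm (inf_le_left.trans (c.trans (centS inf_le_left))))).1
      (cent_dprod c ⟨cen hx, hx⟩)
    rw [ZJ] at hb
    obtain ⟨v, hv, rfl⟩ := mem_cj'.1 hb
    rcases (hz a).1 ha with r | r <;> rcases (hz v).1 hv with r' | r' <;> simp [r, r']
  have d' : ∀ s ∈ N[S₀], s * (g * z * g⁻¹) * s⁻¹ = z ∨ s * (g * z * g⁻¹) * s⁻¹ = g * z * g⁻¹ := fun s hs => by
    simpa [mul_assoc] using d _ (mul_mem hs hg)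
  have g1 : g * (g * z * g⁻¹) * g⁻¹ ≠ g * z * g⁻¹ := by simpa using g0
  have m1 : ∀ s, s * z * s⁻¹ = g * z * g⁻¹ → s ∈ N[S₀] := fun s e => (mul_mem_cancel_left (inv_mem hg)).1
    (le_normalizer ((m0 _).2 (by rw [mul_inv_rev, inv_inv, mul_assoc g⁻¹, mul_assoc, ← mul_assoc _ s⁻¹, e]; group)))
  have yy : g * z * g⁻¹ * (g * z * g⁻¹) = 1 := by rw [conj_mul, zz]; simp
  have y1 := mt (conj_eq_one_iff (a := g)).1 z1
  generalize ey : g * z * g⁻¹ = y at *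
  have zy := mem_cent.1 (c yQ) z zZ.1
  have f1 : ∀ s ∈ N[S₀], s * (z * y) * s⁻¹ = z * y := fun s hs => by
    have : s * z * s⁻¹ ≠ s * y * s⁻¹ := by simpa using Ne.symm g0
    rw [← conj_mul]
    rcases d s hs with r | r <;> rcases d' s hs with r' | r' <;> simp_all
  have hs : ∀ s ∈ N[S₀], h⁻¹ * s * h ∈ N[S₀] := fun s hs => by simpa using conj_mem_of_norm (inv_mem hh) hs
  have f2 : ∀ s ∈ N[S₀], s * (h * (z * y) * h⁻¹) * s⁻¹ = h * (z * y) * h⁻¹ := fun s r => by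
    nth_rw 2 [← f1 _ (hs s r)]; group
  have e : h * (z * y) * h⁻¹ = z * y := by
    rcases C4 _ (mem_cent.2 fun s r => mul_inv_eq_iff_eq_mul.1 (f2 s (le_normalizer (sup_le nP.1 nQ.1 r))))
      with r | r | r | r
    · exact absurd (by rw [← inv_eq_of_mul_eq_one_right zz, inv_eq_of_mul_eq_one_right (conj_eq_one_iff.1 r)])
        (Ne.symm g0)
    · exact absurd (ey.symm.trans (r ▸ f2 g hg)) g0
    · exact absurd (r ▸ f2 g hg) g1
    · exact r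
  have wN : h * z * h⁻¹ ∈ N[S₀] := conj_mem_of_norm hh (le_normalizer (nP.1 zZ.1))
  have k : ∀ s ∈ N[S₀], h * z * h⁻¹ * s * (h * z * h⁻¹)⁻¹ = s ∨ h * z * h⁻¹ * s * (h * z * h⁻¹)⁻¹ = z * y * s := by
    intro s r
    refine (d _ (hs s r)).imp (fun r => ?_) fun r => ?_
    · nth_rw 1 [← r]; group
    · rw [← e, ← r, mul_inv_rev, mul_inv_rev, inv_eq_of_mul_eq_one_right zz]; group
  have w1 : h * z * h⁻¹ ≠ z := fun r => h0 (le_normalizer ((m0 h).2 r))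
  have w2 : h * z * h⁻¹ ≠ y := mt (m1 h) h0
  have w3 : h * z * h⁻¹ ≠ z * y := fun r => by
    rw [← e, mul_left_inj, mul_right_inj, left_eq_mul] at r
    exact y1 r
  have w4 := mt (conj_eq_one_iff (a := h)).1 z1
  generalize h * z * h⁻¹ = w at *
  by_cases w0 : w ∈ S₀
  · have : ∀ X, X ⊴ S₀ → z * y ∉ X → w ∈ C[X] := fun X nX r => mem_cent.2 fun x hx =>
      (mul_inv_eq_iff_eq_mul.1 ((k x (le_normalizer (nX.1 hx))).resolve_right fun e =>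
        r ((mul_mem_cancel_right hx).1 (e ▸ nX.conj_mem w0 hx)))).symm
    have := C4 w (cent_sup P _ ▸ ⟨this P nP fun r => ?_, this _ nQ fun r => ?_⟩)
    · tauto
    · exact y1 (i.le ⟨(P.mul_mem_cancel_left zZ.1).1 r, yQ⟩)
    · exact z1 (i.le ⟨zZ.1, (mul_mem_cancel_right yQ).1 r⟩)
  rw [m0] at w0
  have i' := (b1 w wN w0).1
  refine hP (abelianS (fun x hx => (hz x).2 ?_) (center_abelian P))
  refine (k x (le_normalizer (nP.1 hx))).imp (fun r => i'.le ⟨hx, r.subst (conj_mem_cj w hx)⟩) fun r => ?_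
  have := mul_mem (conj_mem_cj w zZ.1) (conj_mem_cj w hx)
  rw [(d w wN).resolve_left w0, r, zy, ← mul_assoc, ← mul_assoc, yy, one_mul] at this
  exact (eq_inv_of_mul_eq_one_right (i'.le ⟨mul_mem zZ.1 hx, this⟩)).trans (inv_eq_of_mul_eq_one_right zz)

end Cfsg.Agent.S4401
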