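import Cfsg.Statements.S4402
import Cfsg.Agent.W128.B

set_option autoImplicit false
open Cfsg Subgroup Cfsg.Agent.BG Cfsg.Agent.W128

namespace Cfsg.Agent.S4402

/-- Let S be a finite 2-group of sectional 2-rank at most 4 and P a proper subgroup isomorphic to the wreath product of the dihedral group of order 8 by a group of order 2 (equivalently, to a Sylow 2-subgroup of the symmetric group of degree 8; order 128). Then Z(S) = Z(P) has order 2, P has index 2 in its normalizer N_S(P), N_S(P)/Z(S) is again isomorphic to that wreath product, and every elementary abelian subgroup V of order 16 that is normal in P satisfies N_S(V) = P. -/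
theorem result {S : Type*} [Group S] [Finite S] (h2 : IsPGroup 2 S) (hr : Cfsg.SectionalPRankLE 2 4 S)
    (P : Subgroup S) (hPlt : P ≠ ⊤) (hP : ∃ T : Sylow 2 (Equiv.Perm (Fin 8)), Nonempty (↥P ≃* ↥(T : Subgroup (Equiv.Perm (Fin 8))))) :
    Subgroup.center S = (Subgroup.center ↥P).map P.subtype ∧ Nat.card ↥(Subgroup.center S) = 2 ∧
    P.relIndex (Subgroup.normalizer (P : Set S)) = 2 ∧
    (∃ (_ : ((Subgroup.center S).subgroupOf (Subgroup.normalizer (P : Set S))).Normal) (T : Sylow 2 (Equiv.Perm (Fin 8))),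
      Nonempty (↥(Subgroup.normalizer (P : Set S)) ⧸ (Subgroup.center S).subgroupOf (Subgroup.normalizer (P : Set S)) ≃*
        ↥(T : Subgroup (Equiv.Perm (Fin 8))))) ∧
    ∀ V : Subgroup S, V ≤ P → (∀ g ∈ P, ∀ v ∈ V, g * v * g⁻¹ ∈ V) → Cfsg.IsElementaryAbelian 2 V → Nat.card ↥V = 16 →
      Subgroup.normalizer (V : Set S) = P := by
  classical
  obtain ⟨T, ⟨e0⟩⟩ := hP
  obtain ⟨e1⟩ := syl T
  let e : P ≃* W := e0.trans e1.symm
  let f : W →* S := P.subtype.comp e.symm.toMonoidHom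
  have hf : Function.Injective f := P.subtype_injective.comp e.symm.injective
  have hR : f.range = P := by
    ext x; exact ⟨by rintro ⟨w, rfl⟩; exact (e.symm w).2, fun hx => ⟨e ⟨x, hx⟩, by simp [f]⟩⟩
  let Φ : N[P] →* MulAut W := (MulAut.congr e).toMonoidHom.comp P.normalizerMonoidHom
  have R : ∀ n w, f (Φ n w) = n * f w * (n : S)⁻¹ := fun n w => by simp [f, Φ]
  have K : ∀ n : N[P], (∀ a ∈ A, Φ n a ∈ A) → (n : S) ∈ P := fun n h => hR.le (key (Φ n) hr hf h2 (R n) h)
  have nil : Group.IsNilpotent (⊤ : Subgroup S) := pgroup_nil (h2.to_subgroup ⊤)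
  obtain ⟨x, hx, nx⟩ := SetLike.exists_of_lt (nilpotent_proper_norm nil (lt_top_iff_ne_top.2 hPlt))
  have i2 : P.relIndex N[P] = 2 := relIndex_eq_two_iff_exists_notMem_and'.2
    ⟨x⁻¹, inv_mem hx.2, fun h => nx (inv_mem_iff.1 h), fun b hb => by
      rcases mA (Φ ⟨b, hb⟩) with h | h
      · exact .inr (K _ h)
      refine .inl (K ((⟨x, hx.2⟩ : N[P])⁻¹ * ⟨b, hb⟩) fun a ha => ?_)
      rw [map_mul, map_inv]
      exact (((mA (Φ ⟨x, hx.2⟩)).resolve_left fun h => nx (K _ h)) _ ((h _ dz.2.2.2.2.2.2.1).2 a ha)).1⟩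
  have zP : ∀ c ∈ center S, c = 1 ∨ c = f (k 15) := fun c hc => by
    obtain ⟨w, rfl⟩ : c ∈ f.range := hR.ge (K ⟨c, center_le_normalizer _ hc⟩ fun a ha => by
      rwa [hf (a₁ := Φ _ a) (a₂ := a) (by rw [R, ← mem_center_iff.1 hc, mul_inv_cancel_right])])
    exact (dZ w fun g => hf (by rw [map_mul, map_mul, mem_center_iff.1 hc])).imp (fun e => by rw [e, map_one]) (congrArg f)
  have : Nontrivial W := ⟨_, _, dz.2.1⟩
  have : Nontrivial S := hf.nontrivial
  have zS : f (k 15) ∈ center S := by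
    have := h2.center_nontrivial
    obtain ⟨⟨c, hc⟩, n⟩ := exists_ne (1 : center S)
    exact (zP c hc).resolve_left (fun e => n (Subtype.ext e)) ▸ hc
  have c2 : #(center S) = 2 := (Nat.card_eq_two_iff' 1).2 ⟨⟨_, zS⟩, fun e => dz.2.1 (hf ((congrArg Subtype.val e).trans
    (map_one f).symm)), fun c n => Subtype.ext ((zP c c.2).resolve_left fun e => n (Subtype.ext e))⟩
  have zz : ∀ w, w = 1 ∨ w = k 15 → f w ∈ center S := by
    rintro _ (rfl | rfl); exacts [map_one f ▸ one_mem _, zS]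
  refine ⟨le_antisymm (fun c hc => ?_) ?_, c2, i2, ⟨inferInstance, ?_⟩, fun V l hV eV cV => ?_⟩
  · refine ⟨⟨c, ?_⟩, mem_center_iff.2 fun g => Subtype.ext (mem_center_iff.1 hc g), rfl⟩
    rcases zP c hc with rfl | rfl
    exacts [one_mem _, hR.le ⟨_, rfl⟩]
  · rintro _ ⟨c, hc, rfl⟩
    obtain ⟨w, rfl⟩ := e.symm.surjective c
    exact zz w (dZ w fun g => e.symm.injective (by rw [map_mul, map_mul, mem_center_iff.1 hc]))
  · let X : SubMulAction (MulAut W) W := ⟨{j | J j}, fun φ j h => fJ φ j h⟩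
    let ψ : N[P] →* Equiv.Perm (Fin 8) := (Finite.equivFinOfCardEq (α := X) cJ).permCongrHom.toMonoidHom.comp
      ((MulAction.toPermHom (MulAut W) X).comp Φ)
    have hk : ∀ n, ψ n = 1 ↔ ∀ j, J j → Φ n j = j := fun n => by
      simp only [ψ, MonoidHom.comp_apply, MulEquiv.toMonoidHom_eq_coe, MonoidHom.coe_coe, map_eq_one_iff _ (MulEquiv.injective _)]
      exact ⟨fun h j hj => congrArg Subtype.val (congrArg (fun σ : Equiv.Perm X => σ ⟨j, hj⟩) h),
        fun h => Equiv.ext fun j => Subtype.ext (h j j.2)⟩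
    have ker : ψ.ker = (center S).subgroupOf N[P] := by
      ext n
      rw [MonoidHom.mem_ker, hk, mem_subgroupOf]
      refine ⟨fun h => ?_, fun h j _ => hf (by rw [R, ← mem_center_iff.1 h, mul_inv_cancel_right])⟩
      suffices hn : (n : S) ∈ f.range by
        obtain ⟨w, hw⟩ := hn
        exact hw ▸ zz w (dJ w fun j hj => hf (by rw [map_mul, map_mul, map_inv, hw, ← R, h j hj]))
      refine hR.ge (K n fun a ha => ?_)
      have := dJ (a⁻¹ * Φ n a) fun j hj => by
        have := h _ (fJ (MulAut.conj a) j hj)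
        simp only [MulAut.conj_apply, map_mul, map_inv, h j hj] at this
        rw [mul_inv_rev, inv_inv, mul_assoc, mul_assoc, ← mul_assoc (Φ n a), ← mul_assoc _ _ a, this]; group
      rw [← mul_mem_cancel_left (inv_mem ha)]
      rcases this with e | e <;> rw [e]
      exacts [one_mem _, dz.2.2.2.2.2.2.2.2.1]
    have cq := card_eq_card_quotient_mul_card_subgroup ψ.ker
    have cN := card_mul_relIndex (normG P)
    rw [Nat.card_congr e.toEquiv, i2, show Nat.card W = 128 from Nat.card_fin 128] at cN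
    rw [Nat.card_congr (QuotientGroup.quotientKerEquivRange ψ).toEquiv, ker,
      Nat.card_congr (subgroupOfEquivOfLe (center_le_normalizer _)).toEquiv, c2] at cq
    exact ⟨Sylow.ofCard ψ.range (Eq.trans (by omega) fac),
      ⟨(QuotientGroup.quotientMulEquivOfEq ker.symm).trans (QuotientGroup.quotientKerEquivRange ψ)⟩⟩
  have l' : P ≤ N[V] := fun g hg => mem_normalizer_fintype (hV g hg)
  refine (nilpotent_sub_norm (pgroup_nil (h2.to_subgroup _)) l' fun y hy => K ⟨y, hy.2⟩ ?_).symm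
  have hv : ∀ a ∈ V.comap f, Φ ⟨y, hy.2⟩ a ∈ V.comap f := fun a ha => by
    rw [mem_comap, R]; exact (hy.1 _).1 ha
  rcases ne16 (V.comap f) (fun v hv => hf (by rw [map_mul, map_one, ← pow_two, eV.2 _ hv]))
    (fun g v hv => by rw [mem_comap, map_mul, map_mul, map_inv]; exact hV _ (hR.le ⟨_, rfl⟩) _ hv)
    (fun u hu v hv => hf (by rw [map_mul, map_mul]; exact congrArg Subtype.val (eV.1.is_comm.comm ⟨_, hu⟩ ⟨_, hv⟩)))
    (by rw [← cV, ← card_map_of_injective hf, map_comap_eq_self (l.trans hR.ge)]) with e | e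
  · exact e ▸ hv
  rw [e] at hv
  refine (mA _).resolve_right fun h => dz.2.2.2.2.2.2.2.1 ?_
  simpa using (h _ (hv _ dz.2.2.2.2.2.2.1)).1

end Cfsg.Agent.S4402
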