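import Cfsg.Statements.S4403
import Cfsg.Agent.BG.Base6
import Cfsg.Agent.Sig.FStar
import Cfsg.Agent.Loc.Cpl
import Cfsg.Agent.Transfer.Abelian
import Mathlib.RingTheory.ZMod.UnitsCyclic

set_option autoImplicit false
open Cfsg

namespace Cfsg.Agent.S4403

open Subgroup Cfsg.Agent.BG

/-- Let K be a finite group, p a prime dividing its order with O_{p'}(K) = 1 (no nontrivial normal subgroup of order prime to p), and P a cyclic Sylow p-subgroup of K. Then either P is normal and self-centralizing in K with K/P cyclic of order dividing p − 1 (so K is the semidirect product of P by a group of automorphisms of P of order dividing p − 1), or the generalized Fitting subgroup F*(K) is a non-abelian simple group and p does not divide the index of F*(K) in K. -/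
theorem result {K : Type*} [Group K] [Finite K] (p : ℕ) [Fact p.Prime] (hp : p ∣ Nat.card K) (hO : Cfsg.pPrimeCore p K = ⊥)
    (P : Sylow p K) (hP : IsCyclic ↥(P : Subgroup K)) :
    ((P : Subgroup K).Normal ∧ Subgroup.centralizer ((P : Subgroup K) : Set K) = (P : Subgroup K) ∧
      (∀ (_ : (P : Subgroup K).Normal), IsCyclic (K ⧸ (P : Subgroup K))) ∧ (P : Subgroup K).index ∣ p - 1) ∨
    (IsSimpleGroup ↥(Cfsg.generalizedFittingSubgroup K) ∧ ¬ IsMulCommutative ↥(Cfsg.generalizedFittingSubgroup K) ∧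
      ¬ p ∣ (Cfsg.generalizedFittingSubgroup K).index) := by
  have hpp : p.Prime := Fact.out
  have hS := sylowIn_top P
  have hcyc : ∀ X : Subgroup K, IsPGroup p X → IsCyclic X := fun X hX => by
    obtain ⟨g, -, hg⟩ := Sylow_subJ hS le_top hX
    exact cyclicS hg (cyclicJ g hP)
  have hO' : Op' p (⊤ : Subgroup K) = ⊥ := (Op'_top p).trans hO
  have hF : fittingSubgroup K = Op p ⊤ := Fitting_top.symm.trans (Fitting_eq_pcore hO')
  by_cases hL : ∃ L : Subgroup K, Sig.CompIn L ⊤
  · obtain ⟨L, hL⟩ := hL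
    have h1 : ∀ M : Subgroup K, Sig.CompIn M ⊤ → p ∣ #M := fun M hM => by_contra fun h =>
      hM.ne_bot (eq_bot_iff.2 ((subnormal_pcore hM.subnIn ((p'natE hpp).2 h)).trans hO'.le))
    have h2 : Z[L] = ⊥ := by
      obtain ⟨A, hA⟩ := Sylow_exists p L
      have h3 : Z[L] ≤ Op p ⊤ := (Sig.center_le_fitIn hL.subnIn).trans (Sig.fitIn_top.trans hF).le
      exact eq_bot_iff.2 (le_trans (le_inf (le_inf (normal_sub_Hall hA (center_normal L)
        (pgroupS h3 (pcore_pgroup _ _))) (inf_le_left.trans hL.perfect.ge)) inf_le_right)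
        (Transfer.abelian_hall_inf (cyclic_abelian (hcyc A hA.pg)) hA.le hA.coprime).le)
    have h3 : ¬ p ∣ #C[L] := fun h => by
      obtain ⟨X, hX, cX⟩ := Cauchy_sub hpp (h1 L hL)
      obtain ⟨Y, hY, cY⟩ := Cauchy_sub hpp h
      have pXY := pgroup_sup (Or.inr (cents_norm (hY.trans (centS hX)))) (pgroup_of_card_p cX) (pgroup_of_card_p cY)
      rcases cyclic_pgroup_dprod_trivg pXY (hcyc _ pXY) le_sup_left le_sup_right
        (eq_bot_iff.2 ((inf_le_inf hX hY).trans h2.le)) with h | h
      · exact ne_bot_of_prime (cX ▸ hpp) h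
      · exact ne_bot_of_prime (cY ▸ hpp) h
    have h4 : layer K = L := by
      refine le_antisymm (Sig.layer_le_iff.2 fun M hM => ?_) (hL.le_layerIn.trans Sig.layerIn_top.le)
      have hM := Sig.compIn_top_iff.2 hM
      by_contra h
      exact h3 ((h1 M hM).trans (cardSg (commG1.1 (hM.commutator_eq_bot_of_ne hL (mt Eq.le h)))))
    have h5 : fittingSubgroup K = ⊥ := by
      have : fittingSubgroup K ≤ C[L] := by
        rw [← h4, ← Sig.layerIn_top, ← Sig.fitIn_top]; exact commG1'.1 Sig.commutator_layerIn_fitIn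
      exact trivg_of_pi (hF ▸ pcore_pgroup _ _) (pgroupS this ((p'natE hpp).2 h3))
    have h6 : generalizedFittingSubgroup K = L := by rw [generalizedFittingSubgroup, h4, h5, sup_bot_eq]
    have hn : L.Normal := h4 ▸ inferInstance
    rw [h6]
    refine Or.inr ⟨Loc.simple_of_compIn hL.qs h2, fun h => hL.ne_bot (hL.perfect.symm.trans (der1_eq_bot.2 h)),
      fun h => P.not_dvd_index (h.trans (index_dvd_of_le ?_))⟩
    have h7 : ⁅L ⊔ P, L ⊔ P⁆ = L := le_antisymm ((der_sup_le (norm_of_normal _ _)).trans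
      (sup_le le_rfl ((der1_eq_bot.2 (cyclic_abelian hP)).le.trans bot_le)))
      (hL.perfect.ge.trans (dergS le_sup_left))
    obtain ⟨Q⟩ : Nonempty (Sylow p (L ⊔ P : Subgroup K)) := inferInstance
    have : IsCyclic Q := isog_cyclic (isog_symm (isog_map_inj (subtype_injective _) _)) (hcyc _ (Q.2.map _))
    have h8 := Q.not_dvd_card_commutator_or_not_dvd_index_commutator
    rw [← card_map_subtype, ← relIndex_map_subtype, map_subtype_commutator, h7,
      relIndex_sup_norml (norm_of_normal _ _)] at h8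
    exact relIndex_eq_one.1 (pnat_1 (P.2.pi.of_dvd (relIndex_dvd_card _ _))
      ((p'natE hpp).2 (h8.resolve_left (not_not.2 (h1 L hL)))))
  have h1 : generalizedFittingSubgroup K = Op p ⊤ := by
    rw [generalizedFittingSubgroup, hF, ← Sig.layerIn_top, Sig.layerIn_eq_bot_iff.2 (not_exists.1 hL), bot_sup_eq]
  have h2 : C[Op p (⊤ : Subgroup K)] ≤ Op p ⊤ := h1 ▸ Sig.centralizer_fstar_le
  have h3 : Op p ⊤ = (P : Subgroup K) := le_antisymm (pcore_sub_Hall hS)
    ((sub_abelian_cent (cyclic_abelian hP) (pcore_sub_Hall hS)).trans h2)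
  have hn : (P : Subgroup K).Normal := h3 ▸ (pcore_normal _ _).normal
  rw [h3] at h2
  have hO1 := Ohm1_cyclic_pgroup_prime hP P.2 (P.ne_bot_of_dvd_card hp)
  have hOn : (omegaOne p (P : Subgroup K)).Normal := ((normal_top _).Ohm p).normal
  have h4 : C[omegaOne p (P : Subgroup K)] = P := by
    refine le_antisymm (le_of_pgroup_le fun q hq Q hQ hq' => ?_)
      (sub_abelian_cent (cyclic_abelian hP) (Ohm_sub _ _))
    have := Fact.mk hq
    rcases eq_or_ne q p with rfl | hne
    · exact sub_normal_Hall hS (normal_top _) le_top hq'.pi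
    exact (coprime_abelian_faithful_Ohm1 P.2 (norm_of_normal _ _) (pnat_coprime P.2.pi (p'group_of_ne hq' hne))
      (cyclic_abelian hP) hQ).trans h2
  generalize omegaOne p (P : Subgroup K) = W at hO1 hOn h4
  have hW : (#W).Prime := hO1 ▸ hpp
  refine Or.inl ⟨hn, le_antisymm h2 (cyclic_abelian hP).cent, fun _ => ?_, ?_⟩
  · have := prime_cyclic hW
    have h5 := ZMod.isCyclic_units_prime hW
    have h6 : IsCyclic (MulAut W) :=
      isCyclic_of_injective (IsCyclic.mulAutMulEquiv W).toMonoidHom (MulEquiv.injective _)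
    have h7 : (P : Subgroup K) = (MulAut.conjNormal (H := W)).ker := by
      rw [← h4]; ext g
      simp [MulEquiv.ext_iff, Subtype.ext_iff, mem_centralizer_iff, mul_inv_eq_iff_eq_mul, @eq_comm _ (g * _)]
    have := isCyclic_of_injective _ (QuotientGroup.kerLift_injective (MulAut.conjNormal (H := W)))
    exact isog_cyclic ⟨QuotientGroup.quotientMulEquivOfEq h7.symm⟩ this
  · have := relIndex_cent_prime_dvd (A := ⊤) hW (norm_of_normal _ _)
    rwa [h4, hO1, relIndex_top_right] at this

end Cfsg.Agent.S4403
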