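import Cfsg.Statements.S4404
import Cfsg.Agent.Rf3.A
import Cfsg.Agent.S0100
import Cfsg.Agent.S1450
import Cfsg.Agent.Solv.Hall

set_option autoImplicit false
open Cfsg

namespace Cfsg.Agent.S4404

open Subgroup Cfsg.Agent.Rf3
open scoped commutatorElement Pointwise

theorem fin {S : Type*} [Group S] [Finite S] {r : ℕ} (hr : r.Prime) {F C : Subgroup S}
    (hF : ∀ a ∈ F, a ^ r = 1) (h3 : Nat.card F = r ^ 3) (G0 : Subgroup F) (hi : G0.index ≤ r)
    (hC : ∀ g ∈ G0, (g : S) ∈ C) : ¬ IsCyclic ↥(F ⊓ C) := by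
  intro hc
  have h1 : Nat.card ↥(F ⊓ C) ∣ r := by
    rw [← IsCyclic.exponent_eq_card]
    exact Monoid.exponent_dvd_of_forall_pow_eq_one fun g => Subtype.ext (hF _ g.2.1)
  have h2 : G0.map F.subtype ≤ F ⊓ C := by
    rintro _ ⟨g, hg, rfl⟩; exact ⟨g.2, hC g hg⟩
  have h4 := card_le_of_le h2
  rw [card_map_of_injective F.subtype_injective] at h4
  have h5 := G0.card_mul_index
  have h6 := Nat.le_of_dvd hr.pos h1
  have h7 : r ^ 3 ≤ r * r := by
    rw [← h3, ← h5]; exact Nat.mul_le_mul (h4.trans h6) hi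
  have := hr.two_le
  nlinarith

theorem case3 {S M : Type*} [Group S] [Finite S] [CommGroup M] [Finite M]
    (h2 : ∀ m : M, m * m = 1) (ρ : S →* MulAut M) {T F : Subgroup S} (hT : IsPGroup 3 T)
    (hFT : F ≤ T) (hn : ∀ t ∈ T, ∀ f ∈ F, t * f * t⁻¹ ∈ F) (hc : ∀ a ∈ F, ∀ b ∈ F, a * b = b * a)
    (hF : ∀ a ∈ F, a ^ 3 = 1) {x : S} (hx : x ∈ T) (h3 : ρ x ^ 3 = 1)
    (h4 : Nat.card (W (ρ x)) = 4) :
    ∃ G0 : Subgroup F, G0.index ≤ 3 ∧ ∀ g ∈ G0, ∀ u ∈ W (ρ x), ρ g u = u := by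
  have : Fact (Nat.Prime 3) := ⟨by norm_num⟩
  obtain ⟨N, hN⟩ := (isNilpotent_iff_lowerCentralSeries T).1 hT.isNilpotent
  have cm : ∀ f ∈ F, ⁅f, x⁆ ∈ F := fun f hf => by
    have : ⁅f, x⁆ = f * (x * f⁻¹ * x⁻¹) := by simp only [commutatorElement_def]; group
    rw [this]; exact mul_mem hf (hn x hx _ (inv_mem hf))
  have key : ∀ k n, n + k = N → ∀ f ∈ F, f ∈ T.lowerCentralSeries n → Commute (ρ f) (ρ x) := by
    intro k
    induction k with
    | zero =>
      intro n e f _ hf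
      rw [add_zero] at e
      rw [e, hN, mem_bot] at hf
      rw [hf, map_one]; exact Commute.one_left _
    | succ k ih =>
      intro n e f hf hf'
      have c1 := ih (n + 1) (by omega) _ (cm f hf) (commutator_mem_commutator hf' hx)
      have c2 : Commute (ρ ⁅f, x⁆) (ρ f) := Commute.map (hc _ (cm f hf) _ hf) ρ
      have := lemA h2 h3 (by rw [← map_pow, hF f hf, map_one]) h4
        (by rw [map_commutatorElement, commutatorElement_def]; group) c1 c2
      rwa [map_commutatorElement, commutatorElement_eq_one_iff_commute] at this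
  have hcm : ∀ f : F, Commute (ρ f) (ρ x) := fun f => key N 0 (zero_add N) f f.2 (hFT f.2)
  obtain ⟨w, hw, w1⟩ := exists_ne_one h4
  obtain ⟨G0, hG0, hi⟩ := stab (ρ.comp F.subtype) w
  refine ⟨G0, ?_, fun g hg => ?_⟩
  · have hsub : (Set.range fun g => (ρ.comp F.subtype) g w) ⊆ (W (ρ x) : Set M) \ {1} := by
      rintro _ ⟨g, rfl⟩
      exact ⟨comm_mem (hcm g) hw, by simpa using w1⟩
    have := Set.ncard_le_ncard hsub
    rw [Set.ncard_sdiff_singleton_of_mem (one_mem _)] at this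
    have h5 : (W (ρ x) : Set M).ncard = 4 := h4
    omega
  · have e : ρ g w = w := (hG0 g).1 hg
    have e' : ρ g (ρ x w) = ρ x w := by
      change (ρ g * ρ x) w = _
      rw [(hcm g).eq, MulAut.mul_apply, e]
    exact three (K := (ρ g : M →* M).eqLocus (MonoidHom.id M)) h4 hw (app_mem le_rfl hw)
      e e' w1 (by simpa using w1) fun e => w1 (fpf h2 h3 hw e.symm)

/-- Let S be a finite solvable group and M a normal elementary abelian 2-subgroup of S. Suppose S contains an elementary abelian subgroup of order p³ for some odd prime p, and a cyclic 3-subgroup Q such that the cubes of the elements of Q centralize M and the commutator subgroup [Q, M] has order 4 (a four-group inside M). Then S contains an elementary abelian subgroup F of order r³, for some odd prime r, whose centralizer of [Q, M] in F — the subgroup C_F([Q, M]) — is not cyclic. -/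
theorem result {S : Type*} [Group S] [Finite S]
    [Group.IsSolvable S] (M : Subgroup S) [M.Normal] (hM : Cfsg.IsElementaryAbelian 2 M)
    (p : ℕ) (hp : p.Prime) (hp2 : p ≠ 2) (E : Subgroup S) (hE : Cfsg.IsElementaryAbelian p E) (hE3 : Nat.card ↥E = p ^ 3)
    (Q : Subgroup S) (hQc : IsCyclic ↥Q) (hQ3 : IsPGroup 3 ↥Q)
    (hQ1 : ∀ x ∈ Q, x ^ 3 ∈ Subgroup.centralizer (M : Set S)) (hQM : Nat.card ↥⁅Q, M⁆ = 4) :
    ∃ (r : ℕ) (F : Subgroup S), r.Prime ∧ r ≠ 2 ∧ Cfsg.IsElementaryAbelian r F ∧ Nat.card ↥F = r ^ 3 ∧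
      ¬ IsCyclic ↥(F ⊓ Subgroup.centralizer ((⁅Q, M⁆ : Subgroup S) : Set S)) := by
  have hMc : ∀ a ∈ M, ∀ b ∈ M, a * b = b * a := fun a ha b hb =>
    congrArg Subtype.val (hM.1.is_comm.comm (⟨a, ha⟩ : M) ⟨b, hb⟩)
  let : CommGroup M := { (inferInstance : Group M) with
    mul_comm := fun a b => Subtype.ext (hMc _ a.2 _ b.2) }
  have h2 : ∀ m : M, m * m = 1 := fun m => Subtype.ext (by
    have := hM.2 m m.2
    rwa [pow_two] at this)
  let ρ : S →* MulAut M := MulAut.conjNormal (H := M)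
  have hρ : ∀ (a : S) (w : M), ((ρ a w : M) : S) = a * w * a⁻¹ := fun a w => rfl
  obtain ⟨⟨x, hxQ⟩, hgen⟩ := hQc.exists_generator
  have hQ : Q = zpowers x := by
    apply le_antisymm
    · intro y hy
      obtain ⟨i, hi⟩ := hgen ⟨y, hy⟩
      exact ⟨i, congrArg Subtype.val hi⟩
    · exact zpowers_le.2 hxQ
  have h3 : ρ x ^ 3 = 1 := by
    rw [← map_pow]
    ext m
    rw [hρ, ← hQ1 x hxQ m m.2]; simp
  have hW : (W (ρ x)).map M.subtype = ⁅Q, M⁆ := by
    apply le_antisymm
    · rintro _ ⟨_, ⟨m, rfl⟩, rfl⟩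
      change (m : S)⁻¹ * (x * m * x⁻¹) ∈ _
      have : (m : S)⁻¹ * (x * m * x⁻¹) = ⁅x, (m : S)⁻¹⁆⁻¹ := by
        simp only [commutatorElement_def]; group
      rw [this]
      exact inv_mem (commutator_mem_commutator hxQ (inv_mem m.2))
    · refine commutator_le.2 fun q hq m hm => ?_
      have hq' : W (ρ q) ≤ W (ρ x) := by
        rw [hQ, zpowers_eq_closure] at hq
        induction hq using closure_induction with
        | mem a ha => rw [Set.mem_singleton_iff.1 ha]
        | one => rintro _ ⟨m, rfl⟩; rw [map_one]; change m⁻¹ * m ∈ _; simp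
        | mul a b _ _ ha hb => rw [map_mul]; exact (W_mul_le _ _).trans (sup_le ha hb)
        | inv a _ ha => rw [map_inv]; exact (W_inv_le _).trans ha
      refine ⟨_, hq' (gen_W (ρ q) ⟨m, hm⟩), ?_⟩
      change m⁻¹ * (q * m * q⁻¹) = _
      rw [hMc _ (inv_mem hm) _ (Subgroup.Normal.conj_mem inferInstance m hm q),
        commutatorElement_def]
  have h4 : Nat.card (W (ρ x)) = 4 := by
    rw [← hQM, ← hW, card_map_of_injective M.subtype_injective]
  have hcen : ∀ g : S, (∀ u ∈ W (ρ x), ρ g u = u) →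
      g ∈ centralizer ((⁅Q, M⁆ : Subgroup S) : Set S) := by
    intro g hg y hy
    rw [← hW] at hy
    obtain ⟨u, hu, rfl⟩ := hy
    have := congrArg Subtype.val (hg u hu)
    rw [hρ] at this
    exact (mul_inv_eq_iff_eq_mul.1 this).symm
  have f3 : Fact (Nat.Prime 3) := ⟨by norm_num⟩
  have cj : ∀ {r : ℕ} {A : Subgroup S} (g : S), IsElementaryAbelian r A →
      IsElementaryAbelian r (MulAut.conj g • A) := by
    intro r A g hA
    refine ⟨⟨⟨fun a b => Subtype.ext ?_⟩⟩, fun a ha => ?_⟩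
    · have := congrArg Subtype.val (hA.1.is_comm.comm (⟨_, Solv.mem_conj_smul.1 a.2⟩ : A)
        ⟨_, Solv.mem_conj_smul.1 b.2⟩)
      change g⁻¹ * a * g * (g⁻¹ * b * g) = g⁻¹ * b * g * (g⁻¹ * a * g) at this
      change (a : S) * b = b * a
      calc (a : S) * b = g * (g⁻¹ * a * g * (g⁻¹ * b * g)) * g⁻¹ := by group
        _ = _ := by rw [this]; group
    · have := hA.2 _ (Solv.mem_conj_smul.1 ha)
      rw [show g⁻¹ * a * g = g⁻¹ * a * g⁻¹⁻¹ by group, conj_pow] at this
      calc a ^ r = g * (g⁻¹ * a ^ r * g⁻¹⁻¹) * g⁻¹ := by group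
        _ = 1 := by rw [this]; group
  by_cases hrk : PRankLE 3 2 S
  · have hp3 : p ≠ 3 := by
      rintro rfl
      have := hrk E hE.1 hE.2
      rw [hE3] at this
      norm_num at this
    have hp5 : 5 ≤ p := hp.five_le_of_ne_two_of_ne_three hp2 hp3
    have := Fact.mk hp
    have hok := Solv.HallOK.of_isSolvable {3, p} S
    obtain ⟨H, hH, hQH⟩ := hok.exists_hall_ge (K := Q) fun q hq hd => by
      obtain ⟨k, hk⟩ := hQ3.exists_card_eq
      rw [hk] at hd
      exact Or.inl ((Nat.prime_dvd_prime_iff_eq hq (by norm_num)).1 (hq.dvd_of_dvd_pow hd))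
    obtain ⟨g, hg⟩ := hok.exists_conj_le hH (K := E) fun q hq hd => by
      rw [hE3] at hd
      exact Or.inr ((Nat.prime_dvd_prime_iff_eq hq hp).1 (hq.dvd_of_dvd_pow hd))
    have hodd : Odd (Nat.card H) := by
      rw [← Nat.not_even_iff_odd, even_iff_two_dvd]
      intro hd
      rcases hH.1 2 Nat.prime_two hd with h | h
      · norm_num at h
      · exact hp2 h.symm
    have h3H : 3 ∣ Nat.card H := by
      refine Dvd.dvd.trans ?_ (card_dvd_of_le hQH)
      obtain ⟨k, hk⟩ := hQ3.exists_card_eq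
      rw [hk]
      refine dvd_pow_self 3 ?_
      rintro rfl
      rw [pow_zero, card_eq_one] at hk
      rw [hk, commutator_bot_left, card_bot] at hQM
      norm_num at hQM
    have hrkH : PRankLE 3 2 H := fun A hA hA' => by
      rw [← card_map_of_injective (K := A) H.subtype_injective]
      refine hrk _ inferInstance ?_
      rintro _ ⟨a, ha, rfl⟩
      exact congrArg Subtype.val (hA' a ha)
    obtain ⟨T, N, hN, hNT⟩ := (S1450.result hodd 3 h3H hrkH).2.1 (Or.inl rfl)
    have hNp : IsPGroup p N := by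
      refine (IsPGroup.iff_card).2 ⟨_, (Nat.eq_prime_pow_of_unique_prime_dvd Nat.card_pos.ne'
        fun {q} hq hd => ?_)⟩
      rcases hH.1 q hq (hd.trans (card_subgroup_dvd_card N)) with h | h
      · exfalso
        rw [h, ← hNT.index_eq_card] at hd
        exact T.not_dvd_index hd
      · exact h
    have hEN : ∀ e (he : e ∈ MulAut.conj g • E), (⟨e, hg he⟩ : H) ∈ N := by
      intro e he
      rw [← QuotientGroup.eq_one_iff, ← orderOf_eq_one_iff]
      have a1 : orderOf ((⟨e, hg he⟩ : H) : H ⧸ N) ∣ p := orderOf_dvd_of_pow_eq_one (by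
        rw [← QuotientGroup.mk_pow, show (⟨e, hg he⟩ : H) ^ p = 1 from
          Subtype.ext ((cj g hE).2 e he)]; rfl)
      have a2 := orderOf_dvd_natCard ((⟨e, hg he⟩ : H) : H ⧸ N)
      obtain ⟨k, hk⟩ := T.isPGroup'.exists_card_eq
      rw [← index_eq_card, hNT.symm.index_eq_card, hk] at a2
      exact Nat.eq_one_of_dvd_coprimes
        (((Nat.coprime_primes hp (by norm_num)).2 hp3).pow_right k) a1 a2
    obtain ⟨U, hWU, hU16, hU⟩ := lemD h2 hp5 (H := (ρ.comp H.subtype).range)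
      (P := N.map (ρ.comp H.subtype)) (hodd.of_dvd_nat (card_range_dvd _)) (hNp.map _)
      (map_le_range _ _) (σ := ρ x) ⟨⟨x, hQH hxQ⟩, rfl⟩ (by
        rintro _ ⟨n, hn, rfl⟩
        refine ⟨_, hN.conj_mem n hn ⟨x, hQH hxQ⟩, ?_⟩
        rw [map_mul, map_mul, map_inv]; rfl) h3 h4
    have hEc : Nat.card ↥(MulAut.conj g • E) = p ^ 3 := by rw [Solv.card_conj_smul, hE3]
    obtain ⟨G0, hi, hG0⟩ := small hp5 (IsPGroup.of_card hEc) (ρ.comp (MulAut.conj g • E).subtype)
      hU16 fun e u hu => hU _ ⟨_, hEN e e.2, rfl⟩ u hu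
    exact ⟨p, _, hp, hp2, cj g hE, hEc, fin hp (cj g hE).2 hEc G0 (Nat.le_of_dvd hp.pos hi)
      fun e he => hcen e fun u hu => hG0 e he u (hWU hu)⟩
  · obtain ⟨T, hQT⟩ := hQ3.exists_le_sylow
    obtain ⟨F, hFn, hFc, hF3, hF27⟩ : ∃ F : Subgroup T, F.Normal ∧ IsMulCommutative F ∧
        (∀ a ∈ F, a ^ 3 = 1) ∧ Nat.card F = 3 ^ 3 := by
      by_contra! hall
      refine hrk fun A hA hA' => ?_
      have hAp : IsPGroup 3 A := fun a => ⟨1, Subtype.ext (by simpa using hA' a a.2)⟩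
      obtain ⟨T', hT'⟩ := hAp.exists_le_sylow
      obtain ⟨g, rfl⟩ := MulAction.exists_smul_eq S T' T
      have hle : MulAut.conj g • A ≤ ((g • T' : Sylow 3 S) : Subgroup S) :=
        Solv.conj_smul_mono g hT'
      have h1 := cj g (⟨hA, hA'⟩ : IsElementaryAbelian 3 A)
      have := h1.1
      have := S0100.result (by norm_num) (g • T').isPGroup' hall
        ((MulAut.conj g • A).subgroupOf _) inferInstance fun e he => Subtype.ext (h1.2 _ he)
      rwa [Nat.card_congr (subgroupOfEquivOfLe hle).toEquiv, Solv.card_conj_smul] at this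
    have hF3' : ∀ a ∈ F.map (T : Subgroup S).subtype, a ^ 3 = 1 := by
      rintro _ ⟨a, ha, rfl⟩
      exact congrArg Subtype.val (hF3 a ha)
    have hc : Nat.card ↥(F.map (T : Subgroup S).subtype) = 3 ^ 3 := by
      rw [card_map_of_injective (subtype_injective _), hF27]
    obtain ⟨G0, hi, hG0⟩ := case3 h2 ρ T.isPGroup' (map_subtype_le F) (by
      rintro t ht _ ⟨f, hf, rfl⟩
      exact ⟨_, hFn.conj_mem f hf ⟨t, ht⟩, rfl⟩) (by
      rintro _ ⟨a, ha, rfl⟩ _ ⟨b, hb, rfl⟩
      exact congrArg (fun z : F => ((z : T) : S)) (hFc.is_comm.comm (⟨a, ha⟩ : F) ⟨b, hb⟩))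
      hF3' (hQT hxQ) h3 h4
    exact ⟨3, _, by norm_num, by norm_num, ⟨inferInstance, hF3'⟩, hc,
      fin (by norm_num) hF3' hc G0 hi fun e he => hcen e (hG0 e he)⟩

end Cfsg.Agent.S4404
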