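import Cfsg.Statements.S4405
import Cfsg.Agent.Low.Minus4
import Mathlib

set_option autoImplicit false
open Cfsg

namespace Cfsg.Agent.S4405

open Subgroup

/-- Let G be a finite group of order 320 = 64·5 whose largest normal 2-subgroup H = O₂(G) equals the Fitting subgroup F(G) and is extraspecial of order 32 containing no elementary abelian subgroup of order 8 (so H is the central product of a quaternion group and a dihedral group of order 8). If T is an involution of G outside H whose centralizer in H contains an elementary abelian subgroup of order 4, then C_H(T) itself is elementary abelian of order 4. -/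
theorem result {G : Type*} [Group G] [Finite G]
    (hG : Nat.card G = 320) (hHF : Cfsg.pCore 2 G = Cfsg.fittingSubgroup G)
    (hex : Cfsg.IsExtraspecial 2 ↥(Cfsg.pCore 2 G)) (h32 : Nat.card ↥(Cfsg.pCore 2 G) = 32)
    (hminus : ∀ A : Subgroup G, A ≤ Cfsg.pCore 2 G → Cfsg.IsElementaryAbelian 2 A → Nat.card ↥A ≤ 4)
    (T : G) (hT : orderOf T = 2) (hTH : T ∉ Cfsg.pCore 2 G)
    (V : Subgroup G) (hV : V ≤ Cfsg.pCore 2 G ⊓ Subgroup.centralizer ({T} : Set G)) (hV4 : Nat.card ↥V = 4) (hVe : Cfsg.IsElementaryAbelian 2 V) :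
    Nat.card ↥(Cfsg.pCore 2 G ⊓ Subgroup.centralizer ({T} : Set G)) = 4 ∧
      Cfsg.IsElementaryAbelian 2 (Cfsg.pCore 2 G ⊓ Subgroup.centralizer ({T} : Set G)) := by
  classical
  set H := Cfsg.pCore 2 G with hH
  have hrk : ∀ A : Subgroup H, Cfsg.IsElementaryAbelian 2 A → Nat.card A ≤ 4 := fun A hA => by
    haveI := hA.1
    rw [← card_map_of_injective (f := H.subtype) H.subtype_injective]
    refine hminus _ (map_subtype_le _) ⟨inferInstance, ?_⟩
    rintro _ ⟨a, ha, rfl⟩
    rw [← map_pow, hA.2 a ha, map_one]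
  obtain ⟨z, h⟩ := Low.Min4.M4.of hex h32 hrk
  have hi : H.index = 10 := by
    have := H.index_mul_card
    rw [h32, hG] at this
    omega
  haveI : IsZGroup (G ⧸ H) := IsZGroup.of_squarefree (by
    rw [show Nat.card (G ⧸ H) = 2 * 5 from hi]
    exact (Nat.squarefree_mul (by norm_num)).2 ⟨Nat.prime_two.squarefree, Nat.prime_five.squarefree⟩)
  haveI := (Solv.isPGroup_pCore 2 G).isNilpotent
  haveI : Group.IsSolvable G := Group.isSolvable_of_ker_le_range H.subtype (QuotientGroup.mk' H) (by simp)
  have hC : centralizer (H : Set G) ≤ H := by rw [hHF]; exact Solv.centralizer_fitting_le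
  let Ψ : G →* Equiv.Perm h.Sg := h.Phi.comp MulAut.conjNormal
  have hk : Ψ.ker = H := by
    ext g
    rw [MonoidHom.mem_ker, MonoidHom.comp_apply, ← MonoidHom.mem_ker, h.ker_Phi]
    constructor
    · rintro ⟨x, hx⟩
      have : (x : G)⁻¹ * g ∈ H := hC fun y hy => by
        have := congrArg Subtype.val (DFunLike.congr_fun hx ⟨y, hy⟩)
        simp only [MulAut.conj_apply, coe_mul, coe_inv, MulAut.conjNormal_apply] at this
        calc y * ((x : G)⁻¹ * g) = (x : G)⁻¹ * (x * y * (x : G)⁻¹) * g := by group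
          _ = _ := by rw [this]; group
      simpa using mul_mem x.2 this
    · intro hg
      exact ⟨⟨g, hg⟩, MulEquiv.ext fun y => Subtype.ext rfl⟩
  have TT : T * T = 1 := by rw [← pow_two, ← hT, pow_orderOf_eq_one]
  have key : ∀ y ∈ H ⊓ centralizer ({T} : Set G), y ^ 2 = 1 := fun y ⟨hy, hc⟩ => by
    by_contra hn
    obtain ⟨s, t, hst, hs, ht⟩ := h.two_fixed (φ := MulAut.conjNormal T) (by rw [← map_mul, TT, map_one])
      (y := ⟨y, hy⟩) (fun e => hn (congrArg Subtype.val e)) (Subtype.ext (by
        simp [← mem_centralizer_singleton_iff.1 hc]))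
    haveI := Fintype.ofFinite h.Sg
    have c5 : Fintype.card h.Sg = 5 := by rw [← Nat.card_eq_fintype_card, h.card_Sg]
    have h1 : Ψ T ≠ 1 := fun e => hTH (hk ▸ e)
    have h2 := Equiv.Perm.two_le_card_support_of_ne_one h1
    have h3 : (Ψ T).support.card ≤ 3 := by
      have : (Ψ T).support ⊆ {s, t}ᶜ := fun x hx => by
        simp only [Finset.mem_compl, Finset.mem_insert, Finset.mem_singleton]
        rintro (rfl | rfl)
        exacts [Equiv.Perm.mem_support.1 hx hs, Equiv.Perm.mem_support.1 hx ht]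
      have := Finset.card_le_card this
      rwa [Finset.card_compl, Finset.card_pair hst, c5] at this
    have h4 : (Ψ T).support.card ≠ 3 := fun e => by
      have := (card_support_eq_three_iff.1 e).orderOf ▸ orderOf_map_dvd Ψ T
      omega
    have cr : Nat.card Ψ.range = 10 := by rw [← index_ker, hk, hi]
    have := Equiv.Perm.subgroup_eq_top_of_swap_mem (H := Ψ.range) (c5 ▸ Nat.prime_five)
      (by rw [c5, ← Nat.card_eq_fintype_card, cr]; norm_num) ⟨T, rfl⟩ (Equiv.Perm.card_support_eq_two.1 (by omega))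
    rw [this, card_top, Nat.card_perm, h.card_Sg] at cr
    simp [Nat.factorial] at cr
  have hE : Cfsg.IsElementaryAbelian 2 (H ⊓ centralizer ({T} : Set G)) := ⟨⟨⟨fun a b => Subtype.ext (by
    have i : ∀ x ∈ H ⊓ centralizer ({T} : Set G), x⁻¹ = x := fun x hx =>
      inv_eq_of_mul_eq_one_right (by rw [← pow_two, key x hx])
    rw [coe_mul, coe_mul, ← i _ (mul_mem a.2 b.2), mul_inv_rev, i _ a.2, i _ b.2])⟩⟩, key⟩
  exact ⟨le_antisymm (hminus _ inf_le_left hE) (hV4 ▸ card_le_of_le hV), hE⟩

end Cfsg.Agent.S4405
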