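import Cfsg.Statements.S4406
import Cfsg.Agent.Gen2.Basic

set_option autoImplicit false
open Cfsg

namespace Cfsg.Agent.S4406

set_option synthInstance.maxSize 2000 in
theorem key : ∀ a : alternatingGroup (Fin 4), a ^ 3 = 1 → a ≠ 1 →
    ∀ u : alternatingGroup (Fin 4), u ^ 2 = 1 → u ≠ 1 → ∀ v : alternatingGroup (Fin 4), v ^ 2 = 1 →
    v ≠ 1 → u ≠ v → (a * u * a⁻¹ = v ∧ a * v * a⁻¹ = u * v ∧ a * (u * v) * a⁻¹ = u) ∨
      (a⁻¹ * u * a⁻¹⁻¹ = v ∧ a⁻¹ * v * a⁻¹⁻¹ = u * v ∧ a⁻¹ * (u * v) * a⁻¹⁻¹ = u) := by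
  decide +kernel

theorem key2 : ∀ a : alternatingGroup (Fin 4), a ^ 4 = 1 → a ^ 2 = 1 := by decide +kernel

theorem key4 : Nat.card (alternatingGroup (Fin 4)) = 12 := by
  rw [nat_card_alternatingGroup]; simp [Nat.factorial]

theorem exists_mem {G H : Type*} [Group G] [Group H] [Finite G] (Q : Sylow 3 G) (f : H →* G)
    (hf : Function.Injective f) [f.range.Normal] (h : 3 ∣ Nat.card H) :
    ∃ a, f a ∈ (Q : Subgroup G) ∧ orderOf a = 3 := by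
  have := Finite.of_injective f hf
  obtain ⟨a, ha⟩ := exists_prime_orderOf_dvd_card' 3 h
  obtain ⟨c, hc⟩ := Gen2.exists_conj_mem_sylow Q (g := f a) ⟨1, by
    rw [orderOf_injective f hf, ha, pow_one]⟩
  obtain ⟨b, hb⟩ := (inferInstance : f.range.Normal).conj_mem _ ⟨a, rfl⟩ c
  refine ⟨b, hb ▸ hc, ?_⟩
  rw [← orderOf_injective f hf, hb, ← ha, ← orderOf_injective f hf]
  exact (MulAut.conj c).orderOf_eq _

/-- In the direct product P = A₄ × A₄, let X be the Sylow 2-subgroup, X₁ and X₂ its intersections with the two direct factors, Q a Sylow 3-subgroup and Q₁, Q₂ its intersections with the two factors. Then every subgroup B of X of order 4 either meets X₁ or X₂ nontrivially, or is normalized by one of the two subgroups of Q of order 3 other than Q₁ and Q₂. -/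
theorem result
    (X : Sylow 2 (↥(alternatingGroup (Fin 4)) × ↥(alternatingGroup (Fin 4))))
    (Q : Sylow 3 (↥(alternatingGroup (Fin 4)) × ↥(alternatingGroup (Fin 4))))
    (B : Subgroup (↥(alternatingGroup (Fin 4)) × ↥(alternatingGroup (Fin 4)))) (hBX : B ≤ (X : Subgroup _)) (hB4 : Nat.card ↥B = 4) :
    B ⊓ ((X : Subgroup _) ⊓ Subgroup.prod ⊤ ⊥) ≠ ⊥ ∨ B ⊓ ((X : Subgroup _) ⊓ Subgroup.prod ⊥ ⊤) ≠ ⊥ ∨
      ∃ R : Subgroup (↥(alternatingGroup (Fin 4)) × ↥(alternatingGroup (Fin 4))), R ≤ (Q : Subgroup _) ∧ Nat.card ↥R = 3 ∧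
        R ≠ (Q : Subgroup _) ⊓ Subgroup.prod ⊤ ⊥ ∧ R ≠ (Q : Subgroup _) ⊓ Subgroup.prod ⊥ ⊤ ∧ R ≤ Subgroup.normalizer (B : Set _) := by
  classical
  rw [or_iff_not_imp_left, or_iff_not_imp_left, not_not, not_not]
  intro h1 h2
  have h3 : ∀ x ∈ B, x ≠ 1 → x.1 ≠ 1 ∧ x.2 ≠ 1 := fun x hx h =>
    ⟨fun h3 => h (Subgroup.mem_bot.1 (h2.le ⟨hx, hBX hx, h3, trivial⟩)),
      fun h3 => h (Subgroup.mem_bot.1 (h1.le ⟨hx, hBX hx, trivial, h3⟩))⟩
  have h4 : ∀ x ∈ B, x ^ 4 = 1 := fun x hx =>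
    orderOf_dvd_iff_pow_eq_one.1 ((B.orderOf_dvd_natCard hx).trans hB4.dvd)
  have h5 : ∀ x ∈ B, x.1 ^ 2 = 1 ∧ x.2 ^ 2 = 1 := fun x hx =>
    ⟨key2 _ (congrArg Prod.fst (h4 x hx)), key2 _ (congrArg Prod.snd (h4 x hx))⟩
  have : Fintype B := Fintype.ofFinite B
  obtain ⟨x, y, hx, hy, hxy⟩ : ∃ x y : B, x ≠ 1 ∧ y ≠ 1 ∧ x ≠ y := by
    obtain ⟨x, hx, y, hy, h⟩ := Finset.one_lt_card.1 (show 1 < (Finset.univ.erase (1 : B)).card by
      rw [Finset.card_erase_of_mem (Finset.mem_univ _), Finset.card_univ,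
        ← Nat.card_eq_fintype_card, hB4]; norm_num)
    exact ⟨x, y, Finset.ne_of_mem_erase hx, Finset.ne_of_mem_erase hy, h⟩
  have hx' := h3 x x.2 fun h => hx (Subtype.ext h)
  have hy' := h3 y y.2 fun h => hy (Subtype.ext h)
  have hxy' := h3 _ (x⁻¹ * y).2 fun h => hxy (inv_mul_eq_one.1 (Subtype.ext h))
  have h6 : ∀ z : B, z = 1 ∨ z = x ∨ z = y ∨ z = x * y := by
    have h6 : x * y ≠ 1 := fun h => hxy (by
      rw [eq_inv_of_mul_eq_one_left h, inv_eq_iff_mul_eq_one, ← sq]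
      exact Subtype.ext (Prod.ext (h5 y y.2).1 (h5 y y.2).2))
    have h7 : ({1, x, y, x * y} : Finset B) = Finset.univ := Finset.eq_univ_of_card _ (by
      rw [← Nat.card_eq_fintype_card, hB4, Finset.card_eq_four]
      exact ⟨_, _, _, _, hx.symm, hy.symm, h6.symm, hxy, by simpa using hy, by simpa using hx, rfl⟩)
    intro z
    simpa using (h7 ▸ Finset.mem_univ z : z ∈ ({1, x, y, x * y} : Finset B))
  have : (MonoidHom.inl (alternatingGroup (Fin 4)) (alternatingGroup (Fin 4))).range.Normal :=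
    ⟨by rintro _ ⟨a, rfl⟩ g; exact ⟨g.1 * a * g.1⁻¹, Prod.ext rfl (by simp)⟩⟩
  have : (MonoidHom.inr (alternatingGroup (Fin 4)) (alternatingGroup (Fin 4))).range.Normal :=
    ⟨by rintro _ ⟨a, rfl⟩ g; exact ⟨g.2 * a * g.2⁻¹, Prod.ext (by simp) rfl⟩⟩
  have h7 : ∀ (f : alternatingGroup (Fin 4) →* alternatingGroup (Fin 4) × alternatingGroup (Fin 4))
      (u v : alternatingGroup (Fin 4)),
      (∃ a, f a ∈ (Q : Subgroup _) ∧ orderOf a = 3) → u ^ 2 = 1 → u ≠ 1 → v ^ 2 = 1 → v ≠ 1 →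
      u⁻¹ * v ≠ 1 → ∃ a, f a ∈ (Q : Subgroup _) ∧ orderOf a = 3 ∧
        a * u * a⁻¹ = v ∧ a * v * a⁻¹ = u * v ∧ a * (u * v) * a⁻¹ = u := by
    rintro f u v ⟨a, ha, ho⟩ h1 h2 h3 h4 h5
    rcases key a (ho ▸ pow_orderOf_eq_one a) (fun h => by simp [h] at ho) u h1 h2 v h3 h4
      (fun h => h5 (inv_mul_eq_one.2 h)) with h | h
    · exact ⟨a, ha, ho, h⟩
    · exact ⟨a⁻¹, map_inv f a ▸ inv_mem ha, by rwa [orderOf_inv], h⟩
  obtain ⟨a, ha, hao, ha'⟩ := h7 (MonoidHom.inl _ _) x.1.1 y.1.1 (exists_mem Q _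
    (fun _ _ h => congrArg Prod.fst h) (by rw [key4]; norm_num)) (h5 x x.2).1 hx'.1 (h5 y y.2).1
    hy'.1 hxy'.1
  obtain ⟨b, hb, hbo, hb'⟩ := h7 (MonoidHom.inr _ _) x.1.2 y.1.2 (exists_mem Q _
    (fun _ _ h => congrArg Prod.snd h) (by rw [key4]; norm_num)) (h5 x x.2).2 hx'.2 (h5 y y.2).2
    hy'.2 hxy'.2
  refine ⟨Subgroup.zpowers (a, b), Subgroup.zpowers_le.2 (by simpa using mul_mem ha hb), ?_,
    fun h => ?_, fun h => ?_, Subgroup.zpowers_le.2 (Subgroup.mem_normalizer_fintype fun z hz => ?_)⟩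
  · rw [Nat.card_zpowers, Prod.orderOf_mk, hao, hbo, Nat.lcm_self]
  · have : b = 1 := (h.le (Subgroup.mem_zpowers _)).2.2
    simp [this] at hbo
  · have : a = 1 := (h.le (Subgroup.mem_zpowers _)).2.1
    simp [this] at hao
  · rcases h6 ⟨z, hz⟩ with h | h | h | h <;> obtain rfl := congrArg Subtype.val h
    · rw [OneMemClass.coe_one, mul_one, mul_inv_cancel]; exact one_mem B
    · exact (Prod.ext ha'.1 hb'.1 : (a, b) * x.1 * (a, b)⁻¹ = y.1) ▸ y.2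
    · exact (Prod.ext ha'.2.1 hb'.2.1 : (a, b) * y.1 * (a, b)⁻¹ = (x * y).1) ▸ (x * y).2
    · exact (Prod.ext ha'.2.2 hb'.2.2 : (a, b) * (x * y).1 * (a, b)⁻¹ = x.1) ▸ x.2

end Cfsg.Agent.S4406
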