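import Cfsg.Statements.S4407
import Mathlib

set_option autoImplicit false
open Cfsg

namespace Cfsg.Agent.S4407

open Subgroup

theorem z2 (a : ZMod 2) : a = 0 ∨ a = 1 := by revert a; decide

section core
variable {M : Type*} [AddCommGroup M] [Module (ZMod 2) M] [Finite M]

theorem vv (v : M) : v + v = 0 := by
  rw [← two_smul (ZMod 2) v, show (2 : ZMod 2) = 0 from rfl, zero_smul]

theorem pair0 {B : Module.End (ZMod 2) M} (hB : B * B * B = 1) {u : M} (h1 : u ≠ 0) (h2 : B u ≠ u) {x y : ZMod 2}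
    (h : x • u + y • B u = 0) : x = 0 ∧ y = 0 := by
  rcases z2 x with rfl | rfl <;> rcases z2 y with rfl | rfl
  · simp
  · exact absurd (by simpa [show B u = 0 by simpa using h] using (LinearMap.congr_fun hB u).symm) h1
  · exact absurd (by simpa using h) h1
  · exact absurd (add_left_cancel (a := u) (by rw [vv]; simpa using h)) h2

theorem core {S : Type*} [Group S] (ρ : Representation (ZMod 2) S M)
    (hirr : ∀ N : Submodule (ZMod 2) M, (∀ s : S, ∀ m ∈ N, ρ s m ∈ N) → N = ⊥ ∨ N = ⊤) {f w z a b : S}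
    (ww : w * w = 1) (hz : f * w = w * f * z) (fa : f * a = a * f) (za : z * a = a * a * z) (zb : z * b = b * b * z)
    (fb : f * b = b * b * f) (wa : w * a = b * w) (wb : w * b = a * w) (zw : z * w = w * z)
    (a3 : a * a * a = 1) (b3 : b * b * b = 1) (ab : a * b = b * a) (gen : closure {a, b, f, w} = ⊤)
    (hC : ∀ m, ρ a m = m → ρ b m = m → m = 0) {m : M} (fm : ρ f m = m) (zm : ρ z m = m)
    (hu : m + ρ a m + ρ a (ρ a m) ≠ 0) :
    Nat.card M = 16 ∧ Nat.card {m : M // ρ z m = m ∧ ρ w m = m} = 2 ∧ Nat.card {m : M // ρ z m = m ∧ ρ f m = m} ≠ 2 := by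
  have r2 : ∀ {x y x' y' : S}, x * y = x' * y' → ∀ v, ρ x (ρ y v) = ρ x' (ρ y' v) := fun h v => by
    rw [← Module.End.mul_apply, ← map_mul, h, map_mul, Module.End.mul_apply]
  have r3 : ∀ {x y x' y' z' : S}, x * y = x' * y' * z' → ∀ v, ρ x (ρ y v) = ρ x' (ρ y' (ρ z' v)) := fun h v => by
    rw [← Module.End.mul_apply, ← map_mul, h, map_mul, map_mul, Module.End.mul_apply, Module.End.mul_apply]
  have c3 : ∀ {x : S}, x * x * x = 1 → ∀ v, ρ x (ρ x (ρ x v)) = v := fun h v => by
    rw [← Module.End.mul_apply, ← Module.End.mul_apply, ← map_mul, ← map_mul, h, map_one, Module.End.one_apply]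
  have W2 : ∀ v, ρ w (ρ w v) = v := fun v => by rw [← Module.End.mul_apply, ← map_mul, ww, map_one, Module.End.one_apply]
  obtain ⟨u, hu', au, fu, zu⟩ : ∃ u, u ≠ 0 ∧ ρ a u = u ∧ ρ f u = u ∧ ρ z u = u :=
    ⟨_, hu, by simp only [map_add, c3 a3]; abel, by simp only [map_add, r2 fa, fm],
      by simp only [map_add, r3 za, zm, c3 a3]; abel⟩
  clear hu fm zm
  have bv : ρ b (ρ w u) = ρ w u := by rw [← r2 wa, au]
  have fv : ρ f (ρ w u) = ρ w u := by rw [r3 hz, zu, fu]
  have zv : ρ z (ρ w u) = ρ w u := by rw [r2 zw, zu]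
  have wu := W2 u
  generalize hv : ρ w u = v at bv fv zv wu
  have hv' : v ≠ 0 := fun e => hu' (by rw [← wu, e, map_zero])
  have bb : ρ b (ρ b u) = u + ρ b u := by
    have := hC (u + ρ b u + ρ b (ρ b u)) (by simp only [map_add, r2 ab, au]) (by simp only [map_add, c3 b3]; abel)
    exact add_left_cancel (this.trans (vv _).symm)
  have aa : ρ a (ρ a v) = v + ρ a v := by
    have := hC (v + ρ a v + ρ a (ρ a v)) (by simp only [map_add, c3 a3]; abel) (by simp only [map_add, ← r2 ab, bv])
    exact add_left_cancel (this.trans (vv _).symm)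
  let g : (Fin 4 → ZMod 2) →ₗ[ZMod 2] M := Fintype.linearCombination (ZMod 2) ![u, ρ b u, v, ρ a v]
  have hg : ∀ x, g x = x 0 • u + x 1 • ρ b u + (x 2 • v + x 3 • ρ a v) := fun x => by
    simp [g, Fintype.linearCombination_apply, Fin.sum_univ_four, add_assoc]
  have inj : Function.Injective g := (injective_iff_map_eq_zero g).2 fun x hx => by
    rw [hg] at hx
    have e1 : x 0 • u + x 1 • ρ b u = x 2 • v + x 3 • ρ a v := add_right_cancel (hx.trans (vv _).symm)
    have e2 := hC (x 0 • u + x 1 • ρ b u) (by simp only [map_add, map_smul, r2 ab, au])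
      (by rw [e1]; simp only [map_add, map_smul, ← r2 ab, bv])
    obtain ⟨h0, h1⟩ := pair0 (by rw [← map_mul, ← map_mul, b3, map_one]) hu' (fun e => hu' (hC u au e)) e2
    obtain ⟨h2, h3⟩ := pair0 (by rw [← map_mul, ← map_mul, a3, map_one]) hv' (fun e => hv' (hC v e bv)) (e1 ▸ e2)
    ext i; fin_cases i <;> assumption
  have m0 : u ∈ g.range := ⟨![1, 0, 0, 0], by simp [hg]⟩
  have m1 : ρ b u ∈ g.range := ⟨![0, 1, 0, 0], by simp [hg]⟩
  have m2 : v ∈ g.range := ⟨![0, 0, 1, 0], by simp [hg]⟩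
  have m3 : ρ a v ∈ g.range := ⟨![0, 0, 0, 1], by simp [hg]⟩
  have surj : g.range = ⊤ := (hirr _ fun s => by
    have hs : s ∈ closure {a, b, f, w} := gen ▸ trivial
    have key : ∀ s, ρ s u ∈ g.range → ρ s (ρ b u) ∈ g.range → ρ s v ∈ g.range → ρ s (ρ a v) ∈ g.range →
        ∀ m ∈ g.range, ρ s m ∈ g.range := by
      rintro s h0 h1 h2 h3 _ ⟨x, rfl⟩
      simp only [hg, map_add, map_smul]
      exact add_mem (add_mem (Submodule.smul_mem _ _ h0) (Submodule.smul_mem _ _ h1))
        (add_mem (Submodule.smul_mem _ _ h2) (Submodule.smul_mem _ _ h3))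
    induction hs using closure_induction with
    | mem x hx =>
      rcases hx with rfl | rfl | rfl | rfl
      · exact key _ (by rwa [au]) (by rwa [r2 ab, au]) m3 (aa ▸ add_mem m2 m3)
      · exact key _ m1 (bb ▸ add_mem m0 m1) (by rwa [bv]) (by rwa [← r2 ab, bv])
      · exact key _ (by rwa [fu]) (by rw [r3 fb, fu, bb]; exact add_mem m0 m1) (by rwa [fv]) (by rwa [r2 fa, fv])
      · exact key _ (by rwa [hv]) (by rwa [r2 wb, hv]) (by rwa [wu]) (by rwa [r2 wa, wu])
    | one => simp
    | mul x y _ _ h1 h2 => intro m hm; rw [map_mul]; exact h1 _ (h2 m hm)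
    | inv x _ h1 =>
      intro m hm
      have : Function.Surjective ((ρ x).restrict h1) := Finite.surjective_of_injective fun p q e => Subtype.ext (by
        have := congrArg (fun t : g.range => ρ x⁻¹ t.1) e
        simpa [← Module.End.mul_apply, ← map_mul] using this)
      obtain ⟨p, hp⟩ := this ⟨m, hm⟩
      rw [← show ρ x p = m from congrArg Subtype.val hp, ← Module.End.mul_apply, ← map_mul, inv_mul_cancel, map_one]
      exact p.2).resolve_left fun e => hu' ((Submodule.mem_bot _).1 (e ▸ m0))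
  have bij : Function.Bijective g := ⟨inj, LinearMap.range_eq_top.1 surj⟩
  have uv : u ≠ v := fun e => hu' (hC u au (e ▸ bv))
  refine ⟨by rw [← Nat.card_eq_of_bijective g bij]; simp, ?_, fun h => ?_⟩
  · refine (Nat.card_eq_two_iff' ⟨0, by simp⟩).2 ⟨⟨u + v, by simp [zu, zv], by simp [hv, wu, add_comm]⟩,
      fun e => uv (add_right_cancel ((congrArg Subtype.val e).trans (vv v).symm)), fun ⟨p, h1, h2⟩ hp => Subtype.ext ?_⟩
    obtain ⟨x, rfl⟩ := bij.2 p
    have e1 : ρ z (g x) = g ![x 0 + x 1, x 1, x 2 + x 3, x 3] := by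
      simp only [hg, map_add, map_smul, zu, zv, r3 zb, r3 za, bb, aa]
      simp [add_smul]; abel
    have e2 : ρ w (g x) = g ![x 2, x 3, x 0, x 1] := by
      simp only [hg, map_add, map_smul, hv, wu, r2 wb, r2 wa]
      simp; abel
    have e3 := inj (e1.symm.trans h1)
    have e4 := inj (e2.symm.trans h2)
    have e5 : x ≠ 0 := fun e => hp (Subtype.ext (by simp [e]))
    have : x = ![1, 0, 1, 0] := by
      clear e1 e2 h1 h2 hp
      revert x; decide
    simp [this, hg]
  · obtain ⟨y, -, hy⟩ := (Nat.card_eq_two_iff' ⟨0, by simp⟩).1 h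
    exact uv (congrArg Subtype.val ((hy ⟨u, zu, fu⟩ fun e => hu' (congrArg Subtype.val e)).trans
      (hy ⟨v, zv, fv⟩ fun e => hv' (congrArg Subtype.val e)).symm))

end core

theorem gen9 {S : Type*} [Group S] [Finite S] {A K : Subgroup S} (hA9 : Nat.card A = 9) (h3 : ∀ a ∈ A, a ^ 3 = 1)
    (hK : K ≤ A) {c d : S} (hc : c ∈ K) (hd : d ∈ K) (c1 : c ≠ 1) (hcd : d ∉ zpowers c) : K = A := by
  haveI : Fact (Nat.Prime 3) := ⟨Nat.prime_three⟩
  have h1 : Nat.card (zpowers c) = 3 := by rw [Nat.card_zpowers, orderOf_eq_prime (h3 c (hK hc)) c1]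
  have h2 := card_dvd_of_le (zpowers_le.2 hc)
  obtain ⟨i, hi, e⟩ := (Nat.dvd_prime_pow Nat.prime_three (m := 2)).1 (by simpa [hA9] using card_dvd_of_le hK)
  refine eq_of_le_of_card_ge hK ?_
  interval_cases i
  · rw [h1, e] at h2; omega
  · exact absurd (eq_of_le_of_card_ge (zpowers_le.2 hc) (by rw [h1, e]; rfl) ▸ hd) hcd
  · omega

theorem fours {S : Type*} [Group S] [Finite S] {φ : DihedralGroup 4 →* S} (hφ : Function.Injective φ)
    (B : Subgroup S) (i : ZMod 4) : B = closure {φ (.r 2), φ (.sr i)} ↔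
      B ≤ φ.range ∧ Nat.card B = 4 ∧ (∀ b ∈ B, b ^ 2 = 1) ∧ φ (.sr (i + 1)) ∉ B := by
  let K : Subgroup (DihedralGroup 4) :=
    { carrier := {x | x = 1 ∨ x = .r 2 ∨ x = .sr i ∨ x = .sr (i + 2)}
      one_mem' := Or.inl rfl
      mul_mem' := fun {a b} => by simp only [Set.mem_setOf_eq]; revert a b i; decide
      inv_mem' := fun {a} => by simp only [Set.mem_setOf_eq]; revert a i; decide }
  have cK : Nat.card K = 4 := by
    show Nat.card {x : DihedralGroup 4 // x = 1 ∨ x = .r 2 ∨ x = .sr i ∨ x = .sr (i + 2)} = 4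
    rw [Nat.card_eq_fintype_card]
    clear K
    revert i; decide
  have e : closure {φ (.r 2), φ (.sr i)} = K.map φ := by
    rw [← Set.image_pair, ← MonoidHom.map_closure]
    congr 1
    refine le_antisymm ((closure_le _).2 ?_) ?_
    · rintro x (rfl | rfl)
      exacts [Or.inr (Or.inl rfl), Or.inr (Or.inr (Or.inl rfl))]
    · have h1 : DihedralGroup.r (2 : ZMod 4) ∈ closure {DihedralGroup.r 2, .sr i} := subset_closure (by simp)
      have h2 : DihedralGroup.sr i ∈ closure {DihedralGroup.r (2 : ZMod 4), .sr i} := subset_closure (by simp)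
      rintro x (rfl | rfl | rfl | rfl)
      exacts [one_mem _, h1, h2, mul_mem h2 h1]
  rw [e]
  constructor
  · rintro rfl
    refine ⟨map_le_range _ _, by rw [card_map_of_injective hφ, cK], ?_, ?_⟩
    · rintro _ ⟨x, hx, rfl⟩
      rw [← map_pow, show x ^ 2 = 1 by rcases hx with rfl | rfl | rfl | rfl <;> simp [pow_two]; decide, map_one]
    · rw [mem_map_iff_mem hφ]
      show ¬ (_ ∨ _ ∨ _ ∨ _)
      clear cK e K
      revert i; decide
  · rintro ⟨h1, h2, h3, h4⟩
    have hB : ∀ x, φ x ∈ B → x ^ 2 = 1 := fun x hx => hφ (by rw [map_pow, h3 _ hx, map_one])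
    by_cases h5 : φ (.sr (i + 3)) ∈ B
    · have : B ≤ zpowers (φ (.sr (i + 3))) := fun b hb => by
        obtain ⟨x, rfl⟩ := h1 hb
        have a1 := hB x hb
        have a2 := hB (x * .sr (i + 3)) (by rw [map_mul]; exact mul_mem hb h5)
        have a3 : x ≠ .sr (i + 1) := fun e => h4 (e ▸ hb)
        have a4 : x * .sr (i + 3) ≠ .sr (i + 1) := fun e => h4 (e ▸ by rw [map_mul]; exact mul_mem hb h5)
        have : x = 1 ∨ x = .sr (i + 3) := by
          clear hb h5 h4 hB cK e K
          revert x i; decide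
        rcases this with rfl | rfl
        · rw [map_one]; exact one_mem _
        · exact mem_zpowers _
      have := card_le_of_le this
      rw [h2, Nat.card_zpowers, orderOf_injective φ hφ, DihedralGroup.orderOf_sr] at this
      omega
    · refine eq_of_le_of_card_ge (fun b hb => ?_) (by rw [card_map_of_injective hφ, cK, h2])
      obtain ⟨x, rfl⟩ := h1 hb
      refine mem_map_of_mem φ (show _ ∨ _ ∨ _ ∨ _ from ?_)
      have a1 := hB x hb
      have a3 : x ≠ .sr (i + 1) := fun e => h4 (e ▸ hb)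
      have a4 : x ≠ .sr (i + 3) := fun e => h5 (e ▸ hb)
      clear hb h5 h4 hB cK e K
      revert x i; decide

/-- Let S be a finite group with a normal elementary abelian subgroup A of order 9 that is self-centralizing (C_S(A) = A), and a dihedral subgroup X of order 8 with S = AX. Let M be a finite-dimensional module for S over the field with two elements that is faithful and irreducible. Then M has 16 elements, and X contains exactly one subgroup B of order 4 and exponent 2 whose fixed points on M form a subspace with exactly 2 elements (equivalently, M is free of rank one over the group algebra of B). -/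
theorem result {S : Type*} [Group S] [Finite S]
    (A : Subgroup S) [A.Normal] (hA : Cfsg.IsElementaryAbelian 3 A) (hA9 : Nat.card ↥A = 9)
    (hAC : Subgroup.centralizer (A : Set S) = A) (X : Subgroup S) (hX : Nonempty (↥X ≃* DihedralGroup 4)) (hAX : A ⊔ X = ⊤)
    {M : Type*} [AddCommGroup M] [Module (ZMod 2) M] [Finite M] (ρ : Representation (ZMod 2) S M)
    (hfaith : Function.Injective ρ)
    (hirr : ∀ N : Submodule (ZMod 2) M, (∀ s : S, ∀ m ∈ N, ρ s m ∈ N) → N = ⊥ ∨ N = ⊤) (hM : Nontrivial M) :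
    Nat.card M = 16 ∧
      ∃! B : Subgroup S, B ≤ X ∧ Nat.card ↥B = 4 ∧ (∀ b ∈ B, b ^ 2 = 1) ∧
        Nat.card {m : M // ∀ b ∈ B, ρ b m = m} = 2 := by
  classical
  obtain ⟨e⟩ := hX
  let φ : DihedralGroup 4 →* S := X.subtype.comp e.symm.toMonoidHom
  have hφ : Function.Injective φ := X.subtype_injective.comp e.symm.injective
  have hr : φ.range = X := by
    rw [MonoidHom.range_comp, MonoidHom.range_eq_top.2 e.symm.surjective, ← MonoidHom.range_eq_map, range_subtype]
  have cm : ∀ a ∈ A, ∀ b ∈ A, a * b = b * a := fun a ha b hb =>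
    congrArg Subtype.val (hA.1.is_comm.comm (⟨a, ha⟩ : A) ⟨b, hb⟩)
  have i3 : ∀ a ∈ A, a⁻¹ = a * a := fun a ha => inv_eq_of_mul_eq_one_right (by rw [← pow_three, hA.2 a ha])
  have ne1 : ∀ a ∈ A, a = a⁻¹ → a = 1 := fun a ha h => by rw [i3 a ha] at h; exact left_eq_mul.1 h
  have cj : ∀ a ∈ A, ∀ s : S, s * a * s⁻¹ ∈ A := fun a ha s => Normal.conj_mem inferInstance a ha s
  have hinv : ∀ t : S, t * t = 1 → t ≠ 1 → ∃ d ∈ A, d ≠ 1 ∧ t * d * t⁻¹ = d⁻¹ := fun t h1 h2 => by
    have ti : t⁻¹ = t := inv_eq_of_mul_eq_one_right h1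
    have : t ∉ centralizer (A : Set S) := fun h => h2 (ne1 t (hAC ▸ h) ti.symm)
    rw [mem_centralizer_iff] at this
    push Not at this
    obtain ⟨c, hc, hn⟩ := this
    refine ⟨c * (t * c⁻¹ * t⁻¹), mul_mem hc (cj _ (inv_mem hc) t), fun e => hn ?_, ?_⟩
    · calc c * t = c * (t * c⁻¹ * t⁻¹) * (t * c) := by group
        _ = _ := by rw [e, one_mul]
    · calc _ = (t * c * t⁻¹) * (t * t) * c⁻¹ * (t * t)⁻¹ := by group
        _ = _ := by rw [h1]; group
  have mz : ∀ a ∈ A, a ≠ 1 → ∀ b ∈ zpowers a, b ≠ 1 → b = a ∨ b = a⁻¹ := fun a ha h1 b hb h2 => by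
    haveI : Fact (Nat.Prime 3) := ⟨Nat.prime_three⟩
    rw [mem_zpowers_iff_mem_range_orderOf, orderOf_eq_prime (hA.2 a ha) h1, Finset.mem_image] at hb
    obtain ⟨k, hk, rfl⟩ := hb
    rw [Finset.mem_range] at hk
    interval_cases k
    · simp at h2
    · simp
    · exact Or.inr (by rw [i3 a ha, pow_two])
  set z := φ (.r 2) with hz
  have zz : z * z = 1 := by rw [hz, ← map_mul]; exact map_one φ
  have zA : ∀ a ∈ A, z * a * z⁻¹ = a⁻¹ := by
    obtain ⟨d, hd, d1, e1⟩ := hinv z zz fun h => absurd (hφ (h.trans (map_one φ).symm)) (by decide)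
    let K : Subgroup S :=
      { carrier := {a | a ∈ A ∧ z * a * z⁻¹ = a⁻¹}
        one_mem' := ⟨one_mem _, by simp⟩
        mul_mem' := fun {a b} ha hb => ⟨mul_mem ha.1 hb.1, by
          rw [← conj_mul, ha.2, hb.2, cm a ha.1 b hb.1, mul_inv_rev]⟩
        inv_mem' := fun {a} ha => ⟨inv_mem ha.1, by rw [← conj_inv, ha.2]⟩ }
    have rr : φ (.r 1) * φ (.r 1) = z := by rw [← map_mul]; rfl
    generalize φ (.r 1) = r at rr
    have := gen9 (K := K) hA9 hA.2 (fun a ha => ha.1) (c := d) (d := r * d * r⁻¹) ⟨hd, e1⟩ ⟨cj d hd r, by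
      rw [conj_inv, ← e1, ← rr]; group⟩ d1 fun h => d1 (ne1 d hd (by
        rw [← e1, ← rr, show r * r * d * (r * r)⁻¹ = r * (r * d * r⁻¹) * r⁻¹ by group]
        rcases mz d hd d1 _ h (by simpa using d1) with h | h
        · rw [h, h]
        · rw [h, ← conj_inv, h, inv_inv]))
    exact fun a ha => (show a ∈ K from this ▸ ha).2
  have hC : ∀ m, (∀ a ∈ A, ρ a m = m) → m = 0 := by
    let N : Submodule (ZMod 2) M :=
      { carrier := {m | ∀ a ∈ A, ρ a m = m}
        zero_mem' := fun a _ => map_zero _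
        add_mem' := fun h1 h2 a ha => by rw [map_add, h1 a ha, h2 a ha]
        smul_mem' := fun c x h a ha => by rw [map_smul, h a ha] }
    rcases hirr N (fun s m hm a ha => by
      have := hm _ (cj a ha s⁻¹)
      rw [← Module.End.mul_apply, ← map_mul, show a * s = s * (s⁻¹ * a * s⁻¹⁻¹) by group, map_mul,
        Module.End.mul_apply, this]) with h | h
    · exact fun m hm => (Submodule.mem_bot _).1 (h ▸ (show m ∈ N from hm))
    · have : A = ⊥ := eq_bot_iff.2 fun a ha => hfaith (by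
        ext m; rw [map_one]; exact (h ▸ Submodule.mem_top : m ∈ N) a ha)
      simp [this] at hA9
  obtain ⟨m, m0, hm⟩ : ∃ m : M, m ≠ 0 ∧ ∀ x, ρ (φ x) m = m := by
    letI : MulAction (DihedralGroup 4) M := MulAction.compHom M (ρ.comp φ)
    haveI : Fact (Nat.Prime 2) := ⟨Nat.prime_two⟩
    obtain ⟨m, h1, h2⟩ := (IsPGroup.of_card (p := 2) (G := DihedralGroup 4) (n := 3) (by
      rw [DihedralGroup.nat_card]; rfl)).exists_fixed_point_of_prime_dvd_card_of_fixed_point M (a := 0) (by
        rw [Module.natCard_eq_pow_finrank (K := ZMod 2), Nat.card_zmod]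
        exact dvd_pow_self 2 Module.finrank_pos.ne') fun g => map_zero (ρ (φ g))
    exact ⟨m, h2.symm, h1⟩
  have main : ∀ (i : ZMod 4) (a : S), a ∈ A → a ≠ 1 → φ (.sr i) * a = a * φ (.sr i) →
      (∀ b, b = φ (.sr (i + 1)) * a * (φ (.sr (i + 1)))⁻¹ → b ∉ zpowers a ∧ φ (.sr i) * b = b * b * φ (.sr i) ∧
        φ (.sr (i + 1)) * a = b * φ (.sr (i + 1)) ∧ φ (.sr (i + 1)) * b = a * φ (.sr (i + 1))) ∧ (m + ρ a m + ρ a (ρ a m) ≠ 0 → Nat.card M = 16 ∧
      ∃! B : Subgroup S, B ≤ X ∧ Nat.card ↥B = 4 ∧ (∀ b ∈ B, b ^ 2 = 1) ∧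
        Nat.card {m : M // ∀ b ∈ B, ρ b m = m} = 2) := fun i a ha a1 fa => by
    have ww : φ (.sr (i + 1)) * φ (.sr (i + 1)) = 1 := by rw [← map_mul]; simp
    have fw : φ (.sr i) * φ (.sr (i + 1)) = φ (.sr (i + 1)) * φ (.sr i) * z := by
      simp only [hz, ← map_mul]; congr 1; clear ww fa; revert i; decide
    have zw : z * φ (.sr (i + 1)) = φ (.sr (i + 1)) * z := by
      simp only [hz, ← map_mul]; congr 1; clear ww fa fw; revert i; decide
    have hX : X ≤ closure {φ (.sr i), φ (.sr (i + 1))} := by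
      rw [← hr, ← Set.image_pair, ← MonoidHom.map_closure]
      rintro _ ⟨x, rfl⟩
      refine mem_map_of_mem φ ?_
      have h1 : DihedralGroup.sr i ∈ closure {DihedralGroup.sr i, .sr (i + 1)} := subset_closure (by simp)
      have h2 : DihedralGroup.sr (i + 1) ∈ closure {DihedralGroup.sr i, .sr (i + 1)} := subset_closure (by simp)
      have : ∃ k : Fin 4, x = (.sr i * .sr (i + 1)) ^ (k : ℕ) ∨ x = .sr i * (.sr i * .sr (i + 1)) ^ (k : ℕ) := by
        clear h1 h2 ww fa fw zw; revert x i; decide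
      obtain ⟨k, rfl | rfl⟩ := this
      exacts [pow_mem (mul_mem h1 h2) _, mul_mem h1 (pow_mem (mul_mem h1 h2) _)]
    have f1 := fours hφ (i := i)
    have f2 := fours hφ (i := i + 1)
    have f3 : φ (.sr (i + 1 + 1)) = φ (.sr i) * z := by
      simp only [hz, ← map_mul]; congr 1; clear ww fa fw zw hX f1 f2; revert i; decide
    have fzw : φ (.sr i) * z * φ (.sr (i + 1)) = φ (.sr (i + 1)) * φ (.sr i) := by
      simp only [hz, ← map_mul]; congr 1; clear ww fa fw zw hX f1 f2 f3; revert i; decide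
    have hsq : (φ (.sr i) * z * φ (.sr (i + 1))) ^ 2 ≠ 1 := fun e => by
      simp only [hz, ← map_mul, ← map_pow] at e
      have := hφ (e.trans (map_one φ).symm)
      clear ww fa fw zw hX f1 f2 f3 fzw e; revert i; decide
    have fX : φ (.sr i) ∈ X := hr.le ⟨_, rfl⟩
    rw [← hz, hr] at f1 f2
    rw [f3] at f2
    generalize φ (.sr i) = f at *
    generalize φ (.sr (i + 1)) = w at *
    have wi : w⁻¹ = w := inv_eq_of_mul_eq_one_right ww
    have hb := cj a ha w
    set b := w * a * w⁻¹ with hbd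
    have zc : ∀ a ∈ A, z * a = a * a * z := fun a ha => by rw [← i3 a ha, ← zA a ha]; group
    have wa : w * a = b * w := by rw [hbd]; group
    have wb : w * b = a * w := by rw [hbd, ← mul_assoc, ← mul_assoc, ww, one_mul, wi]
    have fb : f * b = b * b * f := by
      calc f * b = f * w * a * w := by rw [hbd, wi]; group
        _ = w * f * (z * a) * w := by rw [fw]; group
        _ = w * (f * a) * a * z * w := by rw [zc a ha]; group
        _ = w * (a * f) * a * z * w := by rw [← fa]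
        _ = w * a * (f * a) * z * w := by group
        _ = w * a * (a * f) * z * w := by rw [← fa]
        _ = w * a * a * (f * z * w) := by group
        _ = _ := by rw [fzw, hbd, conj_mul, wi]; group
    have nb : b ∉ zpowers a := fun h => a1 (by
      have : f * b = b * f := by
        obtain ⟨k, hk⟩ := h
        rw [← hk]; exact ((show Commute f a from fa).zpow_right k).eq
      rw [this, mul_left_inj, left_eq_mul, hbd] at fb
      simpa using fb)
    have hA' : closure {a, b} = A := gen9 (c := a) (d := b) hA9 hA.2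
      ((closure_le _).2 (by rintro x (rfl | rfl) <;> assumption))
      (subset_closure (by simp)) (subset_closure (by simp)) a1 nb
    refine ⟨fun c hc => hc ▸ ⟨nb, fb, wa, wb⟩, fun hu => ?_⟩
    have hmX : ∀ x ∈ X, ρ x m = m := fun x hx => by obtain ⟨y, rfl⟩ := hr.ge hx; exact hm y
    obtain ⟨c1, c2, c3⟩ := core ρ hirr ww fw fa (zc a ha) (zc b hb) fb wa wb zw (by rw [← pow_three', hA.2 a ha])
      (by rw [← pow_three', hA.2 b hb]) (cm a ha b hb) (eq_top_iff.2 (hAX.ge.trans (sup_le
        (hA'.ge.trans (closure_mono (by rintro x (rfl | rfl) <;> simp)))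
        (hX.trans (closure_mono (by rintro x (rfl | rfl) <;> simp)))))) (fun m h1 h2 => hC m fun c hc => by
          rw [← hA'] at hc
          induction hc using closure_induction with
          | mem x hx => rcases hx with rfl | rfl <;> assumption
          | one => simp
          | mul x y _ _ p q => rw [map_mul, Module.End.mul_apply, q, p]
          | inv x _ p => rw [← p, ← Module.End.mul_apply, ← map_mul, inv_mul_cancel, map_one, p]; rfl)
      (hmX f fX) (hm _) hu
    have cf : ∀ t : S, Nat.card {m : M // ∀ b ∈ closure {z, t}, ρ b m = m} =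
        Nat.card {m : M // ρ z m = m ∧ ρ t m = m} := fun t => Nat.card_congr (Equiv.subtypeEquivRight fun m =>
      ⟨fun h => ⟨h z (subset_closure (by simp)), h t (subset_closure (by simp))⟩, fun h c hc => by
        induction hc using closure_induction with
        | mem x hx => rcases hx with rfl | rfl; exacts [h.1, h.2]
        | one => simp
        | mul x y _ _ p q => rw [map_mul, Module.End.mul_apply, q, p]
        | inv x _ p => rw [← p, ← Module.End.mul_apply, ← map_mul, inv_mul_cancel, map_one, p]; rfl⟩)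
    obtain ⟨g1, g2, g3, -⟩ := (f2 _).1 rfl
    refine ⟨c1, closure {z, w}, ⟨g1, g2, g3, (cf w).trans c2⟩, fun B ⟨h1, h2, h3, h4⟩ => (f2 B).2 ⟨h1, h2, h3, fun h5 => ?_⟩⟩
    have := (f1 B).2 ⟨h1, h2, h3, fun h6 => ?_⟩
    · exact c3 (by rw [← cf, ← this, h4])
    · exact hsq (h3 _ (mul_mem h5 h6))
  obtain ⟨a, ha, a1, e1⟩ := hinv (φ (.sr 0) * z) (by rw [hz, ← map_mul, ← map_mul]; exact map_one φ)
    fun h => absurd (hφ ((map_mul φ _ _).trans (h.trans (map_one φ).symm))) (by decide)
  have fa : φ (.sr 0) * a = a * φ (.sr 0) := by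
    rw [mul_inv_rev, ← mul_assoc, mul_assoc _ z, mul_assoc _ (z * a), zA a ha, ← conj_inv, inv_inj] at e1
    exact mul_inv_eq_iff_eq_mul.1 e1
  by_cases hu : m + ρ a m + ρ a (ρ a m) = 0
  swap
  · exact (main 0 a ha a1 fa).2 hu
  obtain ⟨nb, fb, wa, wb⟩ := (main 0 a ha a1 fa).1 _ rfl
  have hb := cj a ha (φ (.sr (0 + 1)))
  generalize φ (.sr (0 + 1)) * a * (φ (.sr (0 + 1)))⁻¹ = b at *
  have ab := cm a ha b hb
  refine (main (0 + 1) (a * b) (mul_mem ha hb) (fun e => nb (eq_inv_of_mul_eq_one_right e ▸ inv_mem (mem_zpowers a)))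
    (by rw [← mul_assoc, wa, mul_assoc, wb, ← mul_assoc, ab])).2 fun h => m0 ?_
  have r2 : ∀ {x y x' y' : S}, x * y = x' * y' → ∀ v, ρ x (ρ y v) = ρ x' (ρ y' v) := fun h v => by
    rw [← Module.End.mul_apply, ← map_mul, h, map_mul, Module.End.mul_apply]
  have r3 : ∀ {x y x' y' z' : S}, x * y = x' * y' * z' → ∀ v, ρ x (ρ y v) = ρ x' (ρ y' (ρ z' v)) := fun h v => by
    rw [← Module.End.mul_apply, ← map_mul, h, map_mul, map_mul, Module.End.mul_apply, Module.End.mul_apply]
  have c3 : ∀ v, ρ b (ρ b (ρ b v)) = v := fun v => by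
    rw [← Module.End.mul_apply, ← Module.End.mul_apply, ← map_mul, ← map_mul, ← pow_three', hA.2 b hb, map_one,
      Module.End.one_apply]
  have h1 := congrArg (ρ (φ (.sr (0 + 1)))) hu
  have h2 := congrArg (ρ (φ (.sr 0))) h
  simp only [map_add, map_zero, r2 wa, hm] at h1
  simp only [map_add, map_zero, map_mul, Module.End.mul_apply, r2 fa, r3 fb, hm, r2 ab.symm, c3] at h h2
  have h3 := congrArg (ρ a) h1
  have h4 := congrArg (ρ a) h3
  simp only [map_add, map_zero] at h3 h4
  linear_combination (norm := module) hu + h1 + h + h2 - h1 - h3 - h4 - vv m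

end Cfsg.Agent.S4407
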