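import Cfsg.Statements.S4408
import Cfsg.Agent.Sig.Odd2
import Cfsg.Agent.BG.Constt

set_option autoImplicit false
open Cfsg

namespace Cfsg.Agent.S4408

open Subgroup BG

/-- Let S be a finite solvable group whose Fitting subgroup F(S) has odd order, and let I be an elementary abelian 2-subgroup of S of order 2ⁿ with n ≥ 1. Then F(S) contains subgroups A₁, …, Aₙ of prime order, each normalized by I, pairwise commuting and generating a subgroup A of order |A₁|⋯|Aₙ| (their internal direct product), such that no non-identity element of I centralizes A. -/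
theorem result {S : Type*} [Group S] [Finite S]
    [Group.IsSolvable S] (hF : Odd (Nat.card ↥(Cfsg.fittingSubgroup S)))
    (I : Subgroup S) (hI : Cfsg.IsElementaryAbelian 2 I) (n : ℕ) (hn : 1 ≤ n) (hIn : Nat.card ↥I = 2 ^ n) :
    ∃ f : Fin n → Subgroup S, (∀ i, (Nat.card ↥(f i)).Prime) ∧ (∀ i, f i ≤ Cfsg.fittingSubgroup S) ∧
      (∀ i, I ≤ Subgroup.normalizer ((f i) : Set S)) ∧ (∀ i j, i ≠ j → ∀ a ∈ f i, ∀ b ∈ f j, a * b = b * a) ∧
      Nat.card ↥(⨆ i, f i) = ∏ i, Nat.card ↥(f i) ∧ I ⊓ Subgroup.centralizer ((⨆ i, f i : Subgroup S) : Set S) = ⊥ := by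
  classical
  have : Fact (Nat.Prime 2) := ⟨Nat.prime_two⟩
  rw [← Fitting_top] at hF ⊢
  have oF := pnat_odd.2 hF
  obtain ⟨a, x, h, hA⟩ := Sig.thompson_dihedral hI (le_top.trans (Fitting_normal ⊤).2) oF hIn (eq_bot_iff.2
    ((inf_le_inf_left _ ((le_inf le_top le_rfl).trans (cent_sub_Fitting inferInstance))).trans
      (coprime_TI (Sig.cop_of_pp oF hI.pg).symm).le))
  choose y hy hp using fun i => exists_prime_order_pow (h i).2.2.1
  have l : ∀ i, zpowers (y i) ≤ zpowers (x i) := fun i => zpowers_le.2 (hy i)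
  have lF : ∀ i, zpowers (y i) ≤ fittingOf ⊤ := fun i => (l i).trans (zpowers_le.2 (h i).2.1)
  have inv : ∀ i, ∀ u ∈ zpowers (y i), a i * u * (a i)⁻¹ = u⁻¹ := fun i u hu => by
    obtain ⟨k, rfl⟩ := l i hu
    simp only [← conj_zpow, (h i).2.2.2.1, inv_zpow]
  have triv : ∀ i, ∀ u ∈ zpowers (y i), u ∈ C1[a i] → u = 1 := fun i u hu c => by
    have := inv i u hu
    rw [← mem_cent1.1 c, mul_inv_cancel_right, eq_inv_iff_mul_eq_one, ← pow_two, ← orderOf_dvd_iff_pow_eq_one] at this
    exact orderOf_eq_one_iff.1 (Nat.eq_one_of_dvd_coprimes (Nat.coprime_two_right.2 hF)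
      (orderOf_dvd_natCard _ (lF i hu)) this)
  have c : ∀ i j, j ≠ i → zpowers (a j) ≤ C[zpowers (y i)] := fun i j e =>
    (zpowers_le.2 ((C_zpowers _).ge ((h i).2.2.2.2.1 j e))).trans (centS (l i))
  have cm : Pairwise fun i j => ∀ u v, u ∈ zpowers (y i) → v ∈ zpowers (y j) → Commute u v := fun i j _ u v hu hv =>
    mem_cent.1 (zpowers_le.2 ((C_zpowers _).ge ((h i).2.2.2.2.2 j)) (l j hv)) u (l i hu)
  refine ⟨fun i => zpowers (y i), fun i => Nat.card_zpowers (y i) ▸ hp i, lF, fun i => hA.trans (iSup_le fun j => ?_),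
    fun i j e u hu v hv => cm e u v hu hv, ?_, eq_bot_iff.2 fun t ht => ?_⟩
  · rcases eq_or_ne j i with rfl | e
    · exact zpowers_le.2 (mem_norm_of_cj_le (by rintro _ ⟨u, hu, rfl⟩; exact (inv j u hu).symm.subst (motive := (· ∈ zpowers (y j))) (inv_mem hu)))
    · exact cents_norm (c i j e)
  · rw [← noncommPiCoprod_range (hcomm := cm), ← Nat.card_congr (MonoidHom.ofInjective
      (injective_noncommPiCoprod_of_iSupIndep fun i => disjoint_def.2 fun hu r => triv i _ hu
        ((iSup₂_le fun j e => (cents_symm (c j i e.symm)).trans (C_zpowers _).le : _ ≤ C1[a i]) r))).toEquiv, Nat.card_pi]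
  have k : ∀ s : Finset (Fin n), t ∈ ⨆ j ∈ s, zpowers (a j) → t = 1 := fun s => by
    induction s using Finset.induction_on with
    | empty => simp
    | insert i s hi ih =>
      intro r
      rw [Finset.iSup_insert] at r
      obtain ⟨b, hb, u, hu, rfl⟩ := (mem_sup_norml ((iSup₂_le fun j _ => zpowers_le.2 (h j).1).trans
        (sub_abelian_norm hI.abelian (zpowers_le.2 (h i).1)))).1 r
      have cb : b ∈ C[zpowers (y i)] := (mul_mem_cancel_right ((iSup₂_le fun j e => c i j (ne_of_mem_of_not_mem e hi)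
        : _ ≤ C[zpowers (y i)]) hu)).1 (centS (le_iSup (fun i => zpowers (y i)) i) ht.2)
      rcases (Invol.mem_zpowers_invol (by simpa [pow_two] using hI.pow (h i).1)).1 hb with rfl | rfl
      · exact ih (by simpa)
      · exact absurd (triv i _ (mem_zpowers _) (mem_cent1.2 (mem_cent.1 cb _ (mem_zpowers _)))) fun e => by
          simpa [e, Nat.not_prime_one] using hp i
  exact k Finset.univ (by simpa using hA ht.1)

end Cfsg.Agent.S4408
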