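import Cfsg.Statements.S4409
import Cfsg.Agent.Ng8.B

set_option autoImplicit false
open Cfsg

namespace Cfsg.Agent.S4409

open Subgroup Cfsg.Agent.Ng8

/-- Let S be a finite solvable group with O_{2'}(S) = 1 that contains a non-cyclic abelian subgroup of order 8, while no proper subgroup of S of 2-power index contains one. Then a Sylow 2-subgroup X of S is normal in S, and one of the following holds: X is abelian; X is extraspecial of order at least 32; X has a generalized quaternion subgroup X₀ of index 2 with X = X₀·C_X(X₀); or X is special with centre of order 4. -/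
theorem result {S : Type*} [Group S] [Finite S]
    [Group.IsSolvable S] (hO : Cfsg.pPrimeCore 2 S = ⊥)
    (h8 : ∃ A : Subgroup S, IsMulCommutative ↥A ∧ ¬ IsCyclic ↥A ∧ Nat.card ↥A = 8)
    (hmin : ∀ R : Subgroup S, R ≠ ⊤ → (∃ k : ℕ, R.index = 2 ^ k) →
      ¬ ∃ A : Subgroup S, A ≤ R ∧ IsMulCommutative ↥A ∧ ¬ IsCyclic ↥A ∧ Nat.card ↥A = 8)
    (X : Sylow 2 S) :
    (X : Subgroup S).Normal ∧
      (IsMulCommutative ↥X ∨
        (Cfsg.IsExtraspecial 2 ↥X ∧ 32 ≤ Nat.card ↥X) ∨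
        (∃ (X₀ : Subgroup S) (k : ℕ), X₀ ≤ (X : Subgroup S) ∧ X₀.relIndex (X : Subgroup S) = 2 ∧
          Nonempty (↥X₀ ≃* QuaternionGroup (2 ^ (k + 1))) ∧ X₀ ⊔ ((X : Subgroup S) ⊓ Subgroup.centralizer (X₀ : Set S)) = (X : Subgroup S)) ∨
        (Cfsg.IsSpecial 2 ↥X ∧ Nat.card ↥(Subgroup.center ↥X) = 4)) := by
  obtain ⟨H, hH⟩ := (Solv.HallOK.of_isSolvable {2}ᶜ S).exists_hall
  have hodd : Odd (Nat.card H) := by
    rw [← Nat.not_even_iff_odd, even_iff_two_dvd]
    exact fun hd => hH.1 2 Nat.prime_two hd rfl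
  have ho : ∀ g ∈ H, Odd (orderOf g) := fun g hg => hodd.of_dvd_nat (orderOf_dvd_natCard H hg)
  have hidx : ∀ R : Subgroup S, H ≤ R → ∃ k : ℕ, R.index = 2 ^ k := fun R hR =>
    ⟨_, Nat.eq_prime_pow_of_unique_prime_dvd index_ne_zero_of_finite fun {q} hq hd => by
      by_contra q2
      exact hH.2 q hq q2 (hd.trans (index_dvd_of_le hR))⟩
  have hC := Solv.centralizer_pCore_le (p := 2) hO
  have hOp := Solv.isPGroup_pCore 2 S
  obtain ⟨A, hAc, hAn, hA8⟩ := h8
  have hA : IsPGroup 2 A := IsPGroup.of_card (n := 3) hA8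
  have triv : (∀ g ∈ H, ∀ k ∈ pCore 2 S, g * k * g⁻¹ = k) → H = ⊥ := fun h =>
    eq_bot_iff.2 fun g hg => eq_one_of_odd hOp
      (hC fun k hk => (mul_inv_eq_iff_eq_mul.1 (h g hg k hk)).symm) (ho g hg)
  have hR : pCore 2 S ⊔ H = ⊤ := by
    by_contra hne
    have hg : Good (pCore 2 S) := Good.mono (hmin _ hne (hidx _ le_sup_right)) le_sup_left
    obtain ⟨g, hgH, hnt⟩ : ∃ g ∈ H, ∃ k ∈ pCore 2 S, g * k * g⁻¹ ≠ k := by
      by_contra! hall
      obtain ⟨k, hk⟩ := hidx H le_rfl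
      rw [triv hall, index_bot] at hk
      rw [Solv.pCore_eq_top_iff.2 (IsPGroup.of_card hk), top_sup_eq] at hne
      exact hne rfl
    exact normal_part hOp (fun K _ hK => Solv.le_pCore hK) hC hAc hAn hA8
      (K1 hOp hg (le_normalizer_of_normal (mem_top g)) (ho g hgH) hnt)
  have hXO : (X : Subgroup S) = pCore 2 S := by
    refine le_antisymm (relIndex_eq_one.1 ?_) (Solv.pCore_le_sylow X)
    have h1 : (pCore 2 S).relIndex X ∣ (pCore 2 S).index :=
      relIndex_dvd_index_of_le (Solv.pCore_le_sylow X)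
    rw [← relIndex_top_right, ← hR, relIndex_sup_left] at h1
    have h2 := h1.trans (relIndex_dvd_card _ H)
    obtain ⟨k, hk⟩ := X.isPGroup'.exists_card_eq
    have h3 := relIndex_dvd_card (pCore 2 S) (X : Subgroup S)
    rw [hk] at h3
    exact Nat.eq_one_of_dvd_coprimes ((Nat.coprime_two_right.2 hodd).pow_right k) h2 h3
  have hXn : (X : Subgroup S).Normal := hXO ▸ inferInstance
  refine ⟨hXn, ?_⟩
  by_cases hna : IsMulCommutative X
  · exact Or.inl hna
  have hAX : A ≤ X := by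
    obtain ⟨T, hT⟩ := hA.exists_le_sylow
    have := Sylow.unique_of_normal X hXn
    rwa [Subsingleton.elim T X] at hT
  have hgood : ∀ W : Subgroup S, W ≤ X → W ≠ X → (∀ g ∈ H, ∀ w ∈ W, g * w * g⁻¹ ∈ W) → Good W := by
    intro W hWX hne hI
    refine Good.mono (hmin (H ⊔ W) (fun e => hne (le_antisymm hWX fun x hx => ?_))
      (hidx _ le_sup_left)) le_sup_right
    obtain ⟨h, hh, w, hw, rfl⟩ := (FpC.mem_sup_iff hI).1 (e.symm ▸ mem_top x)
    rw [eq_one_of_odd X.isPGroup' ((mul_mem_cancel_right (hWX hw)).1 hx) (ho h hh), one_mul]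
    exact hw
  refine Or.inr (struct_part X.isPGroup' hodd (hXO ▸ hR) hgood
    (fun h => h ⟨A, hAX, hAc, hAn, hA8⟩) hna ?_)
  by_contra! hall
  have hb := triv (hXO ▸ hall)
  refine hgood A hAX (fun e => hna (e ▸ hAc)) (fun g hg w hw => ?_) ⟨A, le_rfl, hAc, hAn, hA8⟩
  rw [hb, mem_bot] at hg
  rw [hg]; simpa using hw

end Cfsg.Agent.S4409
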