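import Cfsg.Statements.S4410
import Cfsg.Agent.Solv.Fitting
import Cfsg.Agent.Sig.Core

set_option autoImplicit false
open Cfsg

namespace Cfsg.Agent.S4410

open Subgroup

section
variable {V : Type*} [AddCommGroup V] [Module (ZMod 2) V]

/-- `s` is the transvection `x ↦ x + φ x • v` -/
def Tv (s : V ≃ₗ[ZMod 2] V) (v : V) (φ : V →ₗ[ZMod 2] ZMod 2) : Prop :=
  (∀ x, s x = x + φ x • v) ∧ φ v = 0

lemma two_smul' (x : V) : x + x = 0 := by
  rw [← two_smul (ZMod 2), show (2 : ZMod 2) = 0 from rfl, zero_smul]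

lemma Tv.conj {s : V ≃ₗ[ZMod 2] V} {v φ} (h : Tv s v φ) (g : V ≃ₗ[ZMod 2] V) :
    Tv (g * s * g⁻¹) (g v) (φ ∘ₗ (g⁻¹ : V ≃ₗ[ZMod 2] V).toLinearMap) :=
  ⟨fun x => by simp [h.1], by simp [h.2]⟩

lemma Tv.sq {s : V ≃ₗ[ZMod 2] V} {v φ} (h : Tv s v φ) : s * s = 1 := by
  ext x
  simp [h.1, h.2, add_assoc, two_smul']

lemma eq_one_of_odd {G : Type*} [Group G] {u : G} (h : Odd (orderOf u)) (h4 : u ^ 4 = 1) : u = 1 := by
  have h1 := orderOf_dvd_of_pow_eq_one h4
  have h2 : (orderOf u).Coprime 4 := Nat.Coprime.pow_right 2 (Nat.coprime_two_right.mpr h)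
  exact orderOf_eq_one_iff.mp (Nat.Coprime.eq_one_of_dvd h2 h1)

lemma Tv.one {s s' : V ≃ₗ[ZMod 2] V} {v φ v' φ'} (h : Tv s v φ) (h' : Tv s' v' φ')
    (ho : Odd (orderOf (s * s'))) (hne : s ≠ s') : φ v' = 1 := by
  by_contra h1
  have h0 : φ v' = 0 := by revert h1; generalize φ v' = a; revert a; decide
  apply hne
  have h2 : ∀ x, (s * s') ((s * s') x) = x + (φ x * φ' v) • v' := by
    intro x
    simp only [LinearEquiv.mul_apply, h.1, h'.1, map_add, map_smul, h0, h.2, h'.2, smul_eq_mul,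
      mul_zero, add_zero, zero_smul, smul_zero, smul_add]
    linear_combination (norm := module) two_smul' (φ' x • v') + two_smul' (φ x • v)
  have h3 : s * s' = 1 := eq_one_of_odd ho (by
    ext x
    rw [show (s * s') ^ 4 = (s * s') * ((s * s') * ((s * s') * (s * s'))) by
      simp only [pow_succ, pow_zero, one_mul, mul_assoc]]
    simp only [LinearEquiv.mul_apply (s * s')]
    rw [h2, h2]
    simp [h0, add_assoc, two_smul'])
  rw [eq_inv_of_mul_eq_one_left h3, eq_comm, eq_inv_iff_mul_eq_one, h'.sq]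

end

/-- Let V be a finite-dimensional vector space over the field with two elements and S a solvable group of linear automorphisms of V with O₂(S) = 1. If P ∈ S has order 4 and (P − 1)³ = 0 on V, then the image of (P − 1)² has at least 4 elements; equivalently, in the decomposition of V into indecomposable modules for the cyclic group generated by P, at least two summands have dimension 3. -/
theorem result
    {V : Type*} [AddCommGroup V] [Module (ZMod 2) V] [Finite V]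
    (S : Subgroup (V ≃ₗ[ZMod 2] V)) (hS : Group.IsSolvable ↥S) (hO2 : Cfsg.pCore 2 ↥S = ⊥)
    (P : V ≃ₗ[ZMod 2] V) (hPS : P ∈ S) (hP4 : orderOf P = 4)
    (hcub : ((P : V →ₗ[ZMod 2] V) - LinearMap.id) ^ 3 = 0) :
    4 ≤ Nat.card ↥(LinearMap.range (((P : V →ₗ[ZMod 2] V) - LinearMap.id) ^ 2)) := by
  haveI : Finite (V ≃ₗ[ZMod 2] V) := Finite.of_injective (fun g => (g : V → V)) DFunLike.coe_injective
  by_contra hlt
  obtain ⟨t, ht⟩ : ∃ t, t = P * P := ⟨_, rfl⟩
  have hT : ∀ x, (((P : V →ₗ[ZMod 2] V) - LinearMap.id) ^ 2 : V →ₗ[ZMod 2] V) x = t x - x := by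
    intro x
    simp only [sq, Module.End.mul_apply, LinearMap.sub_apply, LinearMap.id_apply, map_sub,
      LinearEquiv.coe_coe, ht, LinearEquiv.mul_apply]
    linear_combination (norm := module) two_smul' (x - P x)
  have ht1 : t ≠ 1 := by
    intro h
    have := orderOf_dvd_of_pow_eq_one (show P ^ 2 = 1 by rw [sq, ← ht, h])
    rw [hP4] at this; omega
  have htt : t * t = 1 := by
    rw [← pow_orderOf_eq_one P, hP4, ht]; simp only [pow_succ, pow_zero, one_mul, mul_assoc]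
  have hr : Module.finrank (ZMod 2)
      (LinearMap.range (((P : V →ₗ[ZMod 2] V) - LinearMap.id) ^ 2)) ≤ 1 := by
    by_contra h
    apply hlt
    rw [Module.natCard_eq_pow_finrank (K := ZMod 2), Nat.card_zmod]
    exact Nat.pow_le_pow_right (n := 2) (by norm_num) (show 2 ≤ _ by omega)
  obtain ⟨⟨v, hv0⟩, hv⟩ := finrank_le_one_iff.mp hr
  have hv' : ∀ x, ∃ c : ZMod 2, t x = x + c • v := fun x => by
    obtain ⟨c, hc⟩ := hv ⟨_, x, rfl⟩
    have := congrArg Subtype.val hc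
    simp only [SetLike.mk_smul_mk, hT] at this
    exact ⟨c, by rw [this]; abel⟩
  have hvne : v ≠ 0 := by
    rintro rfl
    apply ht1; ext x
    obtain ⟨c, hc⟩ := hv' x
    simpa using hc
  obtain ⟨l, hl⟩ := Module.Projective.exists_dual_eq_one (ZMod 2) hvne
  let φ : V →ₗ[ZMod 2] ZMod 2 := l ∘ₗ ((t : V →ₗ[ZMod 2] V) - LinearMap.id)
  have hφ : ∀ x, t x = x + φ x • v := fun x => by
    obtain ⟨c, hc⟩ := hv' x
    simp [φ, hc, hl]
  have htv : Tv t v φ := by
    refine ⟨hφ, ?_⟩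
    by_contra h
    have h1 : φ v = 1 := (by decide : ∀ a : ZMod 2, ¬ a = 0 → a = 1) _ h
    have := hφ v
    rw [h1, one_smul, two_smul'] at this
    exact hvne (t.map_eq_zero_iff.mp this)
  have htS : t ∈ S := ht ▸ mul_mem hPS hPS
  -- the odd normal subgroup
  have hF : fittingSubgroup S ≤ pPrimeCore 2 S := by
    have := Solv.fitting_le_sup (G := S) (p := 2)
    rwa [hO2, bot_sup_eq] at this
  have hodd : ∀ y : S, y ∈ pPrimeCore 2 S → Odd (orderOf y.1) := by
    intro y hy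
    rw [Subgroup.orderOf_coe, ← Nat.coprime_two_right]
    exact (Sig.coprime_pPrimeCore (p := 2)).coprime_dvd_left (orderOf_dvd_natCard _ hy)
  have hN : (pPrimeCore 2 S).Normal := inferInstance
  let t' : S := ⟨t, htS⟩
  let P' : S := ⟨P, hPS⟩
  have hnc : ¬ ∀ y ∈ pPrimeCore 2 S, y * t' * y⁻¹ = t' := by
    intro h
    have h1 : t' ∈ fittingSubgroup S := Solv.centralizer_fitting_le fun y hy =>
      mul_inv_eq_iff_eq_mul.mp (h y (hF hy))
    exact ht1 (eq_one_of_odd (hodd t' (hF h1)) (by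
      show t ^ 4 = 1
      rw [show t ^ 4 = (t * t) * (t * t) by simp only [pow_succ, pow_zero, one_mul, mul_assoc],
        htt, one_mul]))
  push Not at hnc
  obtain ⟨y, hy, hys⟩ := hnc
  have htt' : t' * t' = 1 := Subtype.ext htt
  have hti : t'⁻¹ = t' := inv_eq_of_mul_eq_one_right htt'
  have hprod : ∀ a ∈ pPrimeCore 2 S, ∀ b ∈ pPrimeCore 2 S,
      Odd (orderOf ((a * t' * a⁻¹).1 * (b * t' * b⁻¹).1)) := by
    intro a ha b hb
    refine hodd (a * t' * a⁻¹ * (b * t' * b⁻¹)) ?_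
    have := mul_mem (mul_mem ha (hN.conj_mem _ (mul_mem (inv_mem ha) hb) t')) (inv_mem hb)
    rw [hti] at this
    simpa [mul_assoc] using this
  have hone : ∀ a ∈ pPrimeCore 2 S, ∀ b ∈ pPrimeCore 2 S, a * t' * a⁻¹ ≠ b * t' * b⁻¹ →
      φ (a.1⁻¹ (b.1 v)) = 1 := fun a ha b hb h =>
    (htv.conj a.1).one (htv.conj b.1) (hprod a ha b hb) (fun h1 => h (Subtype.ext h1))
  have hPt : P' * t' = t' * P' := Subtype.ext (by simp [P', t', ht, mul_assoc])
  have hPP : P' * P' = t' := Subtype.ext ht.symm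
  obtain ⟨s, hs⟩ : ∃ s, s = y * t' * y⁻¹ := ⟨_, rfl⟩
  have e1 : (P' * y * P'⁻¹) * t' * (P' * y * P'⁻¹)⁻¹ = P' * s * P'⁻¹ := by
    rw [hs]
    calc _ = P' * y * (P'⁻¹ * (t' * P')) * y⁻¹ * P'⁻¹ := by group
      _ = _ := by rw [← hPt]; group
  have e2 : (t' * y * t'⁻¹) * t' * (t' * y * t'⁻¹)⁻¹ = t' * s * t'⁻¹ := by rw [hs]; group
  have hcomm : t' * s * t'⁻¹ ≠ s := by
    intro h
    have h1 := hprod y hy 1 (one_mem _)
    rw [← hs] at h1 hys
    simp only [one_mul, inv_one, mul_one] at h1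
    have hss : s * s = 1 := by
      rw [hs]
      calc _ = y * (t' * t') * y⁻¹ := by group
        _ = 1 := by rw [htt']; group
    have h3 : (s * t') ^ 2 = 1 := by
      calc _ = s * (t' * s * t'⁻¹) := by rw [hti, sq]; group
        _ = 1 := by rw [h, hss]
    have h4 : s * t' = 1 := Subtype.ext (eq_one_of_odd h1 (by
      show ((s * t') ^ (2 * 2)).1 = 1
      rw [pow_mul, h3]; simp))
    exact hys (by rw [eq_inv_of_mul_eq_one_left h4, hti])
  have hy1 := hN.conj_mem _ hy P'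
  have hy2 := hN.conj_mem _ hy t'
  have a1 := hone y hy _ hy1 (by
    rw [e1, ← hs]; intro h
    apply hcomm
    rw [← hPP]
    calc _ = P' * (P' * s * P'⁻¹) * P'⁻¹ := by group
      _ = s := by rw [← h, ← h])
  have a2 := hone _ hy2 _ hy1 (by
    rw [e1, e2]; intro h
    apply hcomm
    calc t' * s * t'⁻¹ = P' * (P' * s * P'⁻¹) * P'⁻¹ := by rw [← hPP]; group
      _ = (P' * t') * s * (P' * t')⁻¹ := by rw [← h]; group
      _ = t' * (P' * s * P'⁻¹) * t'⁻¹ := by rw [hPt]; group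
      _ = (t' * t') * s * (t' * t')⁻¹ := by rw [← h]; group
      _ = s := by rw [htt']; group)
  have a3 := hone 1 (one_mem _) _ hy1 (by
    rw [e1]; intro h
    apply hys
    rw [← hs]
    calc s = P'⁻¹ * (P' * s * P'⁻¹) * P' := by group
      _ = P'⁻¹ * (t' * P') := by rw [← h]; group
      _ = t' := by rw [← hPt]; group)
  have a4 := hone y hy 1 (one_mem _) (by simpa using hys)
  generalize (P' * y * P'⁻¹).1 v = w at a1 a2 a3
  have hinv : t⁻¹ = t := inv_eq_of_mul_eq_one_right htt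
  have a5 : φ (t (y.1⁻¹ (t w))) = 1 := by
    rw [← a2]
    show _ = φ ((t * y.1 * t⁻¹)⁻¹ w)
    rw [mul_inv_rev, mul_inv_rev, inv_inv, hinv]; rfl
  simp only [OneMemClass.coe_one, inv_one, LinearEquiv.coe_one, id_eq] at a3 a4
  rw [hφ, hφ w, a3] at a5
  simp only [map_add, map_smul, htv.2, one_smul, a1, a4] at a5
  exact absurd a5 (by decide : ¬ ((1 : ZMod 2) + 1 + (1 + 1 : ZMod 2) • (0 : ZMod 2) = 1))

end Cfsg.Agent.S4410
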