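import Cfsg.Statements.S4414
import Cfsg.Agent.Elu.Wt

set_option autoImplicit false
open Cfsg

namespace Cfsg.Agent.S4414

/-- Let S be a finite solvable group whose order is divisible only by the primes 2, p, q (p, q distinct odd primes), with a Sylow system S₂, S_p, S_q (pairwise permutable Sylow subgroups) such that: S_p is a minimal normal subgroup of S of order p or p²; S_q has order q and [S_p, S_q] = S_p; and O₂(S) = 1. Let E be an irreducible module for S over the field with two elements on which S_p acts faithfully, and E₀ the subspace of fixed points of S₂. Then either E₀ has at least 8 elements, or E₀ has exactly 4 elements and S_q does not leave E₀ invariant. -/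
theorem result {S : Type*} [Group S] [Finite S]
    [Group.IsSolvable S] (p q : ℕ) (hp : p.Prime) (hq : q.Prime) (hp2 : p ≠ 2) (hq2 : q ≠ 2) (hpq : p ≠ q)
    (hπ : ∀ r : ℕ, r.Prime → r ∣ Nat.card S → r = 2 ∨ r = p ∨ r = q)
    (S₂ : Sylow 2 S) (Sp : Sylow p S) (Sq : Sylow q S)
    (h2q : Nat.card ↥((S₂ : Subgroup S) ⊔ (Sq : Subgroup S)) = Nat.card ↥S₂ * Nat.card ↥Sq)
    (h2p : Nat.card ↥((S₂ : Subgroup S) ⊔ (Sp : Subgroup S)) = Nat.card ↥S₂ * Nat.card ↥Sp)
    (hpq' : Nat.card ↥((Sp : Subgroup S) ⊔ (Sq : Subgroup S)) = Nat.card ↥Sp * Nat.card ↥Sq)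
    (hSpN : (Sp : Subgroup S).Normal) (hSpmin : ∀ N : Subgroup S, N.Normal → N ≤ (Sp : Subgroup S) → N = ⊥ ∨ N = (Sp : Subgroup S))
    (hSpcard : Nat.card ↥Sp = p ∨ Nat.card ↥Sp = p ^ 2)
    (hSq : Nat.card ↥Sq = q) (hcomm : ⁅(Sp : Subgroup S), (Sq : Subgroup S)⁆ = (Sp : Subgroup S))
    (hO2 : Cfsg.pCore 2 S = ⊥)
    {E : Type*} [AddCommGroup E] [Module (ZMod 2) E] [Finite E] (ρ : Representation (ZMod 2) S E) (hE : Nontrivial E)
    (hirr : ∀ N : Submodule (ZMod 2) E, (∀ s : S, ∀ m ∈ N, ρ s m ∈ N) → N = ⊥ ∨ N = ⊤)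
    (hfaith : ∀ x ∈ (Sp : Subgroup S), ρ x = 1 → x = 1) :
    8 ≤ Nat.card {v : E // ∀ s ∈ (S₂ : Subgroup S), ρ s v = v} ∨
      (Nat.card {v : E // ∀ s ∈ (S₂ : Subgroup S), ρ s v = v} = 4 ∧
        ∃ x ∈ (Sq : Subgroup S), ∃ v : E, (∀ s ∈ (S₂ : Subgroup S), ρ s v = v) ∧ ¬ ∀ s ∈ (S₂ : Subgroup S), ρ s (ρ x v) = ρ x v) := by
  have := Fact.mk hp
  have := Fact.mk hq
  have hc : IsMulCommutative (Sp : Subgroup S) := by
    rcases hSpcard with h | h
    · exact (isCyclic_of_prime_card h).isMulCommutative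
    · exact ⟨⟨(IsPGroup.commGroupOfCardEqPrimeSq h).mul_comm⟩⟩
  have hcard : Nat.card (Sp : Subgroup S) = p ∨ Nat.card (Sp : Subgroup S) = p ^ 2 := hSpcard
  have hodd : Odd (Nat.card (Sp : Subgroup S)) := by
    rcases hcard with h | h <;> rw [h]
    · exact hp.odd_of_ne_two hp2
    · exact (hp.odd_of_ne_two hp2).pow
  have key := Elu.Wt.fix_bound ρ hodd S₂.isPGroup' hq2 Sq.isPGroup'
  obtain ⟨h1, h2⟩ := key hcomm (by
    let N : Submodule (ZMod 2) E := ⨅ x ∈ (Sp : Subgroup S), LinearMap.eqLocus (ρ x) LinearMap.id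
    have hN : ∀ w, w ∈ N ↔ ∀ x ∈ (Sp : Subgroup S), ρ x w = w := fun w => by simp [N, LinearMap.mem_eqLocus]
    rcases hirr N (fun s m hm => (hN _).2 fun x hx => by
      have := (hN _).1 hm (s⁻¹ * x * s⁻¹⁻¹) (hSpN.conj_mem x hx _)
      rw [← Module.End.mul_apply, ← map_mul]
      conv_rhs => rw [← this, ← Module.End.mul_apply, ← map_mul]
      congr 2; group) with h | h
    · exact fun w hw => (Submodule.mem_bot _).1 (h ▸ (hN w).2 hw)
    · have : (Sp : Subgroup S) = ⊥ := eq_bot_iff.2 fun x hx => hfaith x hx (LinearMap.ext fun w =>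
        (hN w).1 (h ▸ Submodule.mem_top) x hx)
      rw [this, Subgroup.card_bot] at hcard
      have := hp.two_le
      rcases hcard with h | h <;> nlinarith)
  by_cases h8 : 8 ≤ Nat.card {v : E // ∀ s ∈ (S₂ : Subgroup S), ρ s v = v}
  · exact Or.inl h8
  refine Or.inr ⟨?_, ?_⟩
  · let N : Submodule (ZMod 2) E := ⨅ x ∈ (S₂ : Subgroup S), LinearMap.eqLocus (ρ x) LinearMap.id
    have hN : ∀ w, w ∈ N ↔ ∀ x ∈ (S₂ : Subgroup S), ρ x w = w := fun w => by simp [N, LinearMap.mem_eqLocus]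
    have e : Nat.card {v : E // ∀ s ∈ (S₂ : Subgroup S), ρ s v = v} = 2 ^ Module.finrank (ZMod 2) N := by
      rw [← Nat.card_congr (Equiv.subtypeEquivRight hN), Module.natCard_eq_pow_finrank (K := ZMod 2), Nat.card_zmod]
    rw [e] at h1 h8 ⊢
    have a := (Nat.pow_le_pow_iff_right one_lt_two).1 (show 2 ^ 2 ≤ _ from h1)
    have b := (Nat.pow_lt_pow_iff_right one_lt_two).1 (show _ < 2 ^ 3 from not_le.1 h8)
    rw [show Module.finrank (ZMod 2) N = 2 by omega]; rfl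
  · by_contra! h
    exact h8 (h2 h)

end Cfsg.Agent.S4414
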