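import Cfsg.Statements.S4420
import Cfsg.Agent.Gen2.Cyc

set_option autoImplicit false
open Cfsg

namespace Cfsg.Agent.S4420

theorem aux {H : Type*} [Group H] {A : Subgroup H} (hD : ∀ x : H, x ∉ A → x ^ 2 = 1) {x b : H}
    (hx : x ∉ A) (hb : b ∈ A) : x * b * x⁻¹ = b⁻¹ := by
  have h1 := hD x hx
  have h2 := hD (x * b) (by rwa [A.mul_mem_cancel_right hb])
  rw [sq, mul_eq_one_iff_eq_inv] at h1
  rw [← h1, eq_inv_iff_mul_eq_one, ← h2, sq, mul_assoc]

theorem aux2 {H : Type*} [Group H] (h : ∀ x : H, x ^ 2 = 1) : IsMulCommutative H := by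
  have h3 : ∀ x : H, x⁻¹ = x := fun x => by rw [inv_eq_iff_mul_eq_one, ← pow_two, h x]
  exact ⟨⟨fun x y => by rw [← h3 (x * y), mul_inv_rev, h3, h3]⟩⟩

/-- Structure of groups in which every element outside some proper subgroup has square 1. Let H be a finite group with a proper subgroup A such that every element outside A has square 1. Then H has an abelian normal subgroup B of index 2 such that every element outside B is an involution inverting every element of B; and if H is not an elementary abelian 2-group, B is the only abelian normal subgroup of index 2 with this property. -/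
theorem result {H : Type*} [Group H] [Finite H] (A : Subgroup H) (hA : A ≠ ⊤) (hD : ∀ x : H, x ∉ A → x ^ 2 = 1) :
    ∃ B : Subgroup H, B.Normal ∧ IsMulCommutative ↥B ∧ B.index = 2 ∧
      (∀ x : H, x ∉ B → x ^ 2 = 1 ∧ ∀ b ∈ B, x * b * x⁻¹ = b⁻¹) ∧
      (¬ (IsMulCommutative H ∧ ∀ x : H, x ^ 2 = 1) →
        ∀ B' : Subgroup H, B'.Normal → IsMulCommutative ↥B' → B'.index = 2 →
          (∀ x : H, x ∉ B' → x ^ 2 = 1 ∧ ∀ b ∈ B', x * b * x⁻¹ = b⁻¹) → B' = B) := by
  obtain ⟨B, hB, hAB⟩ := (eq_top_or_exists_le_coatom A).resolve_left hA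
  have h1 : ∀ x : H, x ∉ B → x ^ 2 = 1 := fun x hx => hD x fun h => hx (hAB h)
  have h2 : B.Normal := ⟨fun b hb x => by
    by_cases hx : x ∈ B
    · exact mul_mem (mul_mem hx hb) (inv_mem hx)
    · rw [aux h1 hx hb]; exact inv_mem hb⟩
  obtain ⟨t, -, ht⟩ := SetLike.exists_of_lt hB.lt_top
  refine ⟨B, h2, Gen2.isMulCommutative_of_forall fun a ha b hb => ?_, ?_,
    fun x hx => ⟨h1 x hx, fun b hb => aux h1 hx hb⟩, fun h B' _ _ h3 h4 => ?_⟩
  · rw [← inv_inj, ← aux h1 ht (mul_mem ha hb), mul_inv_rev, ← aux h1 ht ha, ← aux h1 ht hb]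
    group
  · have h3 : B ⊔ Subgroup.zpowers t = ⊤ := hB.2 _ (left_lt_sup.2 fun h => ht (h (Subgroup.mem_zpowers t)))
    rw [← Subgroup.relIndex_top_right, ← h3, Subgroup.relIndex_sup_left]
    have := B.relIndex_dvd_card (Subgroup.zpowers t)
    rw [Nat.card_zpowers, orderOf_eq_prime (h1 t ht) (fun h => ht (h ▸ one_mem B))] at this
    refine ((Nat.dvd_prime Nat.prime_two).1 this).resolve_left fun h => ht ?_
    exact Subgroup.relIndex_eq_one.1 h (Subgroup.mem_zpowers t)
  · by_contra h5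
    have h6 : ¬ B ≤ B' := fun h6 => by
      rw [hB.2 _ (lt_of_le_of_ne h6 (Ne.symm h5)), Subgroup.index_top] at h3
      omega
    obtain ⟨y, hy, hy'⟩ := SetLike.not_le_iff_exists.1 h6
    have h7 : ∀ x : H, x ^ 2 = 1 := fun x => by
      by_contra h7
      have hx : x ∈ B := by_contra fun h => h7 (h1 x h)
      have hx' : x ∈ B' := by_contra fun h => h7 (h4 x h).1
      have h8 := (h4 y hy').2 x hx'
      have h9 : y * x = x * y := by
        rw [← inv_inj, ← aux h1 ht (mul_mem hy hx), mul_inv_rev, ← aux h1 ht hy, ← aux h1 ht hx]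
        group
      rw [h9, mul_inv_cancel_right, eq_inv_iff_mul_eq_one, ← sq] at h8
      exact h7 h8
    exact h ⟨aux2 h7, h7⟩

end Cfsg.Agent.S4420
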