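import Cfsg.Statements.S4452
import Cfsg.Agent.CH.Count

set_option autoImplicit false
open Cfsg

namespace Cfsg.Agent.S4452

open Cfsg.Agent.BG Cfsg.Agent.PF Cfsg.Agent.PF.CH

/-- Let the finite group G be the product of a normal subgroup K and a solvable subgroup H of coprime orders, and let N = N_G(H). Then the number of irreducible characters of G of degree coprime to the order of H equals the number of irreducible characters of N of degree coprime to the order of H. (The two sets are in fact in a canonical bijection; only the equality of their sizes is stated here.) -/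
theorem result {G : Type*} [Group G] [Finite G] (K H : Subgroup G) [K.Normal] (hKH : K ⊔ H = ⊤) (hcop : (Nat.card K).Coprime (Nat.card H)) (hsolv : Group.IsSolvable H) : Nat.card {χ : Cfsg.IrrCharacter G // (Cfsg.charDegree (χ : G → ℂ)).Coprime (Nat.card H)} = Nat.card {η : Cfsg.IrrCharacter (Subgroup.normalizer (H : Set G)) // (Cfsg.charDegree (η : Subgroup.normalizer (H : Set G) → ℂ)).Coprime (Nat.card H)} := by
  have h : Sdprod K H ⊤ := ⟨hKH, norm_of_normal K H, coprime_TI hcop⟩
  have h' := sdprod_modr h (normG H)
  rw [inf_top_eq, inf_comm, coprime_norm_cent h.norm hcop] at h'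
  have e := card_coprime_deg h hcop
  rw [card_IrrFix_eq hsolv K h.norm hcop, ← IrrFix_of_cent (S := H) (centsC.1 inf_le_right),
    ← card_coprime_deg h' (coprimeSg inf_le_left hcop), card_filter_Irr', card_filter_Irr'] at e
  simp only [deg_ez] at e
  rw [← e]
  refine Nat.card_congr (Equiv.ofBijective (fun χ => ⟨⟨_, χ.1.2.comp_equiv Subgroup.topEquiv⟩, χ.2⟩)
    ⟨fun a b e => Subtype.ext (Subtype.ext (funext fun g =>
      congrFun (congrArg (fun x => x.1.1) e) ⟨g, trivial⟩)), fun χ =>
      ⟨⟨⟨_, χ.1.2.comp_equiv Subgroup.topEquiv.symm⟩, χ.2⟩, rfl⟩⟩)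

end Cfsg.Agent.S4452
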