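import Cfsg.Statements.S4466
import Cfsg.Agent.CH.Lin
import Cfsg.Agent.Block.Blich
import Cfsg.Agent.CharDeep.Extend

set_option autoImplicit false
open Cfsg

namespace Cfsg.Agent.S4466

open Cfsg.Agent.Char Cfsg.Agent.CharDeep Cfsg.Agent.Block Cfsg.Agent.Transfer Subgroup

theorem card_sylow {G : Type*} [Group G] [Finite G] {χ : G → ℂ} (hχ : IsIrrCharacter G χ)
    (hk : charKer χ = ⊥) (hZ : center G = ⊥) {p : ℕ} [hp : Fact p.Prime] (hd : charDegree χ = p)
    (P : Sylow p G) : Nat.card P = p := by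
  haveI := Fintype.ofFinite P
  have hP : p ∣ Nat.card P := P.dvd_card_of_dvd_card (hd ▸ hχ.charDegree_dvd_card)
  have hab : ∀ a b : P, a * b = b * a := by
    by_contra hc
    have hr := hχ.isCharacter.restrict P
    obtain ⟨θ, hθ, h0, h1⟩ : ∃ θ, IsIrrCharacter P θ ∧ classInner (fun x : P => χ x) θ ≠ 0 ∧
        θ 1 ≠ 1 := by
      by_contra h
      push Not at h
      refine hc fun a b => commutatorElement_eq_one_iff_mul_comm.1 (Subtype.ext (mem_bot.1
        (hk ▸ hχ.isCharacter.mem_charKer.2 (CH.apply_eq_of_constituents hr fun θ hθ h0 =>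
          hθ.apply_one_eq_one_iff.1 (h θ hθ h0) _
            (commutator_mem_commutator (mem_top _) (mem_top _))))))
    obtain ⟨k, hk'⟩ := IsPGroup.iff_card.1 P.2
    obtain ⟨j, -, hj⟩ := (Nat.dvd_prime_pow hp.out).1 (hk' ▸ hθ.charDegree_dvd_card)
    have e := eq_of_constituent_of_re_le hr hθ h0 (by
      rw [hθ.apply_one_eq_charDegree, OneMemClass.coe_one, hχ.apply_one_eq_charDegree, hd, hj]
      rcases j with _ | j
      · exact absurd (by simp [hθ.apply_one_eq_charDegree, hj]) h1
      · exact_mod_cast Nat.le_self_pow j.succ_ne_zero p)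
    haveI : Nontrivial P := Finite.one_lt_card_iff_nontrivial.1
      (hp.out.one_lt.trans_le (Nat.le_of_dvd Nat.card_pos hP))
    haveI := P.2.center_nontrivial
    obtain ⟨z, hz⟩ := exists_ne (1 : center P)
    have := hθ.isCharacter.mem_charCenter.1 (hθ.center_le_charCenter z.2)
    rw [← e] at this
    have := hχ.isCharacter.charCenter_le_center hk (hχ.isCharacter.mem_charCenter.2 this)
    exact hz (Subtype.ext (Subtype.ext (mem_bot.1 (hZ ▸ this))))
  haveI := Fintype.ofFinite G
  refine Nat.dvd_antisymm ((card_dvd_deg_of_vanish hχ.isCharacter fun x hx h1 => ?_).trans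
    hd.dvd) hP
  refine (hχ.eq_zero_or_mem_charCenter x ?_).resolve_right fun h =>
    h1 (mem_bot.1 (hZ ▸ hχ.isCharacter.charCenter_le_center hk h))
  rw [hd, hp.out.coprime_iff_not_dvd]
  refine fun h => P.not_dvd_index (h.trans (index_dvd_of_le fun y hy => ?_))
  exact mem_centralizer_singleton_iff.2 (congrArg Subtype.val (hab ⟨y, hy⟩ ⟨x, hx⟩))

theorem simple {G : Type*} [Group G] [Finite G] [IsSimpleGroup G]
    (h : ∀ χ : IrrCharacter G, charDegree χ.1 ≠ 1 → (charDegree χ.1).Prime) (a b : G) :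
    a * b = b * a := by
  classical
  haveI := Fintype.ofFinite G
  by_contra hab
  have hZ : center G = ⊥ := (normal_of_characteristic (center G)).eq_bot_or_eq_top.resolve_right
    fun h => hab (mem_center_iff.1 (h ▸ mem_top b) a)
  have hC : commutator G = ⊤ := (commutator_normal ⊤ ⊤).eq_bot_or_eq_top.resolve_left fun h => by
    rw [← commutator_def, commutator_eq_bot_iff_center_eq_top, hZ] at h
    exact bot_ne_top h
  have hk : ∀ χ : IrrCharacter G, χ ≠ irrOne G → charKer χ.1 = ⊥ := fun χ h =>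
    χ.2.charKer_eq_bot_of_simple fun e => h (Subtype.ext e)
  have h1 : ∀ χ : IrrCharacter G, χ ≠ irrOne G → (charDegree χ.1).Prime := fun χ hχ =>
    h χ fun e => hχ (Subtype.ext (χ.2.eq_one_of_forall_eq fun g =>
      χ.2.apply_one_eq_one_iff.1 (by simp [χ.2.apply_one_eq_charDegree, e]) g (hC ▸ mem_top g)))
  have h2 : ∀ χ : IrrCharacter G, charDegree χ.1 ≠ 2 := fun χ e => by
    have hχ : χ ≠ irrOne G := by
      rintro rfl
      simp [charDegree] at e
    obtain ⟨P⟩ : Nonempty (Sylow 2 G) := inferInstance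
    have hP := card_sylow χ.2 (hk χ hχ) hZ e P
    have h6 := IsCyclic.normalizer_le_centralizer (P := P)
      ((Nat.minFac_eq_two_iff _).2 (hP ▸ card_subgroup_dvd_card _)) (isCyclic_of_prime_card hP)
    have hc := MonoidHom.ker_transferSylow_isComplement' P h6
    rcases (MonoidHom.normal_ker (MonoidHom.transferSylow P h6)).eq_bot_or_eq_top with h | h <;>
      rw [h] at hc
    · have := hc.card_mul_card
      rw [hP, card_bot, one_mul] at this
      exact hab ((isCyclic_of_prime_card this.symm).isMulCommutative.1.1 a b)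
    · rw [isComplement'_top_left.1 hc, card_bot] at hP
      omega
  obtain ⟨ψ, hψ, hmax⟩ := (Finset.univ.erase (irrOne G)).exists_max_image (fun χ => charDegree χ.1)
    (by
      obtain ⟨χ, hχ, e⟩ := exists_irr_apply_ne (commutatorElement_eq_one_iff_mul_comm.not.2 hab)
      exact ⟨⟨χ, hχ⟩, by simpa using fun h => e (by rw [show χ = _ from congrArg Subtype.val h]; rfl)⟩)
  set p := charDegree ψ.1
  have hp : p.Prime := h1 ψ (Finset.ne_of_mem_erase hψ)
  haveI := Fact.mk hp
  obtain ⟨P⟩ : Nonempty (Sylow p G) := inferInstance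
  have hP : Nat.card P = p := card_sylow ψ.2 (hk ψ (Finset.ne_of_mem_erase hψ)) hZ rfl P
  have hpG : p ∣ Nat.card G := ψ.2.charDegree_dvd_card
  have hlt : ∀ χ : IrrCharacter G, χ ≠ irrOne G → charDegree χ.1 ≠ p → charDegree χ.1 + 1 < p :=
    fun χ hχ e => by
      have a1 := hmax χ (by simpa using hχ)
      have a2 := (h1 χ hχ).eq_two_or_odd.resolve_left (h2 χ)
      have a3 := hp.eq_two_or_odd.resolve_left (h2 ψ)
      omega
  obtain ⟨x, hx⟩ := exists_prime_orderOf_dvd_card' (G := P) p hP.symm.dvd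
  have hx1 : (x : G) ≠ 1 := fun e => hp.one_lt.ne (by
    rw [← hx, show x = 1 from Subtype.ext e, orderOf_one])
  have hF : Frob p (P : Subgroup G) := by
    haveI := (isCyclic_of_prime_card hP).isMulCommutative
    refine ⟨⟨P, rfl⟩, fun a b => mul_comm' a b, fun y hy h1 n _ hn z hz => ?_⟩
    obtain ⟨k, hk⟩ : (⟨z, hz⟩ : P) ∈ zpowers ⟨y, hy⟩ :=
      mem_zpowers_of_prime_card hP fun e => h1 (congrArg Subtype.val e)
    rw [← show y ^ k = z from congrArg Subtype.val hk]
    exact (Commute.zpow_left (hn y rfl) k).eq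
  obtain ⟨φ, hφ, hφp⟩ : ∃ φ : IrrCharacter G, φ ≠ irrOne G ∧ charDegree φ.1 ≠ p := by
    by_contra hc
    push Not at hc
    have := sum_charDegree_sq (G := G)
    rw [← Finset.add_sum_erase _ _ (Finset.mem_univ (irrOne G)),
      show charDegree (irrOne G).1 = 1 by simp [charDegree]] at this
    exact hp.one_lt.ne' (Nat.dvd_one.1 ((Nat.dvd_add_left (Finset.dvd_sum fun χ hχ =>
      hc χ (Finset.ne_of_mem_erase hχ) ▸ dvd_pow_self _ two_ne_zero)).1 (this ▸ hpG)))
  obtain ⟨M, _⟩ := exists_pMod p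
  obtain ⟨X, Y, c, d, δ, ζ, hB⟩ := hF.exists_fb (M := M) (by
    have := hF.card_le_deg φ.2.isCharacter fun e => hx1 (mem_bot.1 (hk φ hφ ▸ e x.2))
    have := hlt φ hφ hφp
    omega)
  have hX : X = {irrOne G} := Finset.eq_singleton_iff_unique_mem.2 ⟨hB.one, fun χ hχ => by
    by_contra h0
    have hv : ∀ y ∈ (P : Subgroup G), y ≠ 1 → χ.1 y = c χ := fun y hy h1 =>
      (hB.valX χ hχ).2 y y (isPPart_self (orderOf_eq_pow_of_mem P.2 hy)) hy h1
    have hx' : orderOf (x : G) = p ^ 1 := by simpa using hx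
    have hd := factorization_deg_lt_of_mem_principal hpG ((hB.blk χ).2 (.inl hχ))
    refine hx1 (mem_bot.1 (hk χ h0 ▸ χ.2.isCharacter.mem_charKer.2 (CH.apply_eq_of_rat
      χ.2.isCharacter hp hx' (fun m hm => ?_) (hlt χ h0 fun e => ?_))))
    · rw [hv _ x.2 hx1, hv _ (pow_mem x.2 m) fun e => hp.one_lt.ne' ?_]
      exact Nat.eq_one_of_dvd_coprimes hm (by simpa [hx'] using orderOf_dvd_of_pow_eq_one e) dvd_rfl
    · rw [P.card_eq_multiplicity] at hP
      rw [e, hp.factorization_self, Nat.pow_right_injective hp.two_le (hP.trans (pow_one p).symm)]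
        at hd
      omega⟩
  obtain ⟨η, hη⟩ : Y.Nonempty := Finset.card_pos.1 (by have := hB.two; omega)
  have := hB.deg hη
  rw [hX, Finset.sum_singleton, hB.a_one, show charDegree (irrOne G).1 = 1 by simp [charDegree]]
    at this
  have h3 := h1 η fun e => Finset.disjoint_left.1 hB.disj hB.one (e ▸ hη)
  exact h3.one_lt.ne' (Nat.dvd_one.1 (Int.natCast_dvd_natCast.1
    ⟨-(Y.card * d - δ), by push_cast at this ⊢; linarith⟩))

theorem aux.{u} (n : ℕ) : ∀ (G : Type u) [Group G] [Finite G], Nat.card G = n →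
    (∀ χ : IrrCharacter G, charDegree χ.1 ≠ 1 → (charDegree χ.1).Prime) → Group.IsSolvable G := by
  induction n using Nat.strong_induction_on with | _ n ih => ?_
  intro G _ _ hn h
  by_cases hs : IsSimpleGroup G
  · exact Group.isSolvable_of_comm (simple h)
  rcases subsingleton_or_nontrivial G with h0 | h0
  · infer_instance
  obtain ⟨N, hN, h1, h2⟩ : ∃ N : Subgroup G, N.Normal ∧ N ≠ ⊥ ∧ N ≠ ⊤ := by
    by_contra hc
    push Not at hc
    exact hs ⟨fun N hN => or_iff_not_imp_left.2 (hc N hN)⟩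
  haveI := Fintype.ofFinite G
  haveI := Fintype.ofFinite N
  haveI := ih _ (hn ▸ card_lt_of_ne_top h2) N rfl fun θ hθ => by
    obtain ⟨χ, hχ, h0⟩ := exists_irr_over N θ.2
    have hd := (charDegree_dvd_mul_index N θ.2 hχ h0).1
    by_cases e : charDegree χ = 1
    · exact absurd (Nat.dvd_one.1 (e ▸ hd)) hθ
    · exact ((Nat.dvd_prime (h ⟨χ, hχ⟩ e)).1 hd).resolve_left hθ ▸ h ⟨χ, hχ⟩ e
  haveI := ih _ (by
    have := N.card_mul_index
    have := N.one_lt_card_iff_ne_bot.2 h1
    have := Nat.card_pos (α := G ⧸ N)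
    rw [index] at *
    nlinarith) (G ⧸ N) rfl fun θ => h ⟨_, θ.2.inflate⟩
  exact Group.isSolvable_of_ker_le_range N.subtype (QuotientGroup.mk' N) (by simp)

/-- If every irreducible character of the finite group G of degree greater than one has prime degree, then G is solvable. -/
theorem result {G : Type*} [Group G] [Finite G] (h : ∀ χ : Cfsg.IrrCharacter G, Cfsg.charDegree (χ : G → ℂ) ≠ 1 → (Cfsg.charDegree (χ : G → ℂ)).Prime) : Group.IsSolvable G := by
  exact aux _ G rfl h

end Cfsg.Agent.S4466
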