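import Cfsg.Statements.S4512
import Cfsg.Agent.Block.Galois
import Cfsg.Agent.Block.Klein

set_option autoImplicit false
open Cfsg

namespace Cfsg.Agent.S4512

open Cfsg.Agent.Block Cfsg.Agent.BMod Cfsg.Agent.Char MonoidAlgebra


/-- If G is a finite group with a Sylow 2-subgroup that is a Klein four-group and a single conjugacy class of involutions, then its principal 2-block (relative to a maximal ideal M of the algebraic integers containing 2) has 2-regular rank 3: the restrictions of its irreducible characters to the elements of odd order span a space of dimension 3 (it has three irreducible Brauer characters). -/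
theorem result {G : Type*} [Group G] [Finite G] (M : Ideal Cfsg.AlgInt) (hM : Cfsg.IsPModular 2 M) (P : Sylow 2 G)
    (hP : Nat.card P = 4) (hexp : ∀ x : P, x * x = 1)
    (hone : ∀ s t : G, orderOf s = 2 → orderOf t = 2 → IsConj s t) :
    Cfsg.blockRank 2 (Cfsg.principalBlock M G) = 3 := by
  classical
  have : PMod 2 M := ⟨hM⟩
  have := Fintype.ofFinite G
  have : Nontrivial P := Finite.one_lt_card_iff_nontrivial.1 (by omega)
  have hK : IsKleinFour P := ⟨hP, (Monoid.exponent_eq_prime_iff Nat.prime_two).2 fun g hg =>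
    orderOf_eq_prime (by rw [pow_two, hexp]) hg⟩
  obtain ⟨δ, h4, h1, h2⟩ := klein_block (M := M) hK hone
  have hB := (isPBlock_principalBlock (M := M) (G := G)).isBlockUnion
  set s : ℂ := (Nat.card G : ℂ)⁻¹ * ∑ g : G, if 2 ∣ orderOf g then 1 else 0 with hs
  have hδ : ∀ χ ∈ principalBlock M G, (δ χ : ℂ) * δ χ = 1 := fun χ hχ => by
    rcases (h1 χ hχ).1 with h | h <;> simp [h]
  have hc : ∀ χ ∈ principalBlock M G, ctr 2 (χ : G → ℂ) χ = 1 - s := fun χ hχ => by
    rw [← χ.2.classInner_self, classInner_eq_sum_inv _ (irr_gen χ), ctr_eq_sum _ (irr_gen χ), hs,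
      ← mul_sub, ← Finset.sum_sub_distrib]
    congr 1
    refine Finset.sum_congr rfl fun g _ => ?_
    split_ifs with h
    · rw [(h1 χ hχ).2.2 g h, (h1 χ hχ).2.2 g⁻¹ (by rwa [orderOf_inv]), hδ χ hχ, sub_self]
    · rw [sub_zero]
  have hcard : (Finset.univ.filter (· ∈ principalBlock M G)).card = 4 := by
    rw [← card_eq_filter, Nat.card_coe_set_eq, h4]
  have h3 : 4 * s = 1 := by
    have h5 := classInner_sum_irr (fun χ => if χ ∈ principalBlock M G then (δ χ : ℂ) else 0)
      (irrOne G)
    have h6 : (δ (irrOne G) : ℂ) = 1 := by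
      obtain ⟨x, hx⟩ := exists_prime_orderOf_dvd_card' (G := G) 2
        ((show 2 ∣ Nat.card P by omega).trans (Subgroup.card_subgroup_dvd_card _))
      exact ((h1 _ irrOne_mem_principalBlock).2.2 x hx.symm.dvd).symm
    rw [if_pos irrOne_mem_principalBlock, h6, coe_irrOne, classInner_one_right] at h5
    rw [← h5, hs, mul_left_comm, Finset.mul_sum]
    congr 1
    refine Finset.sum_congr rfl fun g _ => ?_
    simp only [Finset.sum_apply, Pi.smul_apply, smul_eq_mul, ite_mul, zero_mul]
    rw [← Finset.sum_filter]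
    split_ifs with h
    · rw [Finset.sum_congr rfl fun χ hχ => (show (δ χ : ℂ) * (χ : G → ℂ) g = 1 by
        rw [(h1 χ (Finset.mem_filter.1 hχ).2).2.2 g h, hδ χ (Finset.mem_filter.1 hχ).2])]
      simp [hcard]
    · rw [← finsum_mem_eq_filter, h2 g h, mul_zero]
  have h7 := blockRank_eq_sum hB
  rw [← Finset.sum_filter, Finset.sum_congr rfl fun χ hχ => hc χ (Finset.mem_filter.1 hχ).2,
    Finset.sum_const, hcard, nsmul_eq_mul] at h7
  have : (blockRank 2 (principalBlock M G) : ℂ) = (3 : ℕ) := by
    rw [h7]; push_cast; linear_combination -h3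
  exact_mod_cast this

end Cfsg.Agent.S4512
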