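import Cfsg.Statements.S4518
import Cfsg.Agent.Block.Count

set_option autoImplicit false
open Cfsg

namespace Cfsg.Agent.S4518

open Cfsg.Agent.Block Cfsg.Agent.BMod Cfsg.Agent.Char MonoidAlgebra


/-- Let N be a normal subgroup of the finite group G whose index is not divisible by the prime p, and let k be coprime to the order of G with k ^ (p ^ e) ≡ 1 modulo the order of G for some e (so g ↦ g ^ k induces a field automorphism of p-power order on character values). If an irreducible character χ of G satisfies χ (g ^ k) = χ g for all g, then every irreducible constituent θ of the restriction of χ to N satisfies θ (n ^ k) = θ n for all n. -/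
theorem result {G : Type*} [Group G] [Fintype G] (p : ℕ) [Fact p.Prime] (N : Subgroup G) [N.Normal] [Fintype N] (hidx : ¬ p ∣ N.index) (k e : ℕ) (hk : Nat.Coprime k (Nat.card G)) (hke : k ^ (p ^ e) ≡ 1 [MOD Nat.card G]) (χ : Cfsg.IrrCharacter G) (hχ : ∀ g : G, (χ : G → ℂ) (g ^ k) = (χ : G → ℂ) g) (θ : Cfsg.IrrCharacter N) (hθ : Cfsg.classInner (fun n : N => (χ : G → ℂ) n) (θ : N → ℂ) ≠ 0) : ∀ n : N, (θ : N → ℂ) (n ^ k) = (θ : N → ℂ) n := by
  classical
  have hk' : k.Coprime (Nat.card N) := hk.coprime_dvd_right N.card_subgroup_dvd_card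
  have h0 : LiesOver N χ θ := liesOver_iff.2 hθ
  have hσ : powPerm k hk' ^ p ^ e = 1 := powPerm_pow_eq_one hk' fun n => by
    rw [pow_eq_pow_iff_modEq.2 (hke.of_dvd ((orderOf_dvd_natCard n).trans N.card_subgroup_dvd_card)),
      pow_one]
  have h1 := sum_eq_sum_fixed_of_pow (F := ZMod p) _ hσ
    (fun ψ => if LiesOver N χ ψ then 1 else 0) fun ψ => by
      rw [powPerm_apply, ← liesOver_powIrr hk hk' (θ := ψ), (powIrr_eq_iff hk).2 hχ]
  have h2 : ¬ p ∣ {ψ : IrrCharacter N | LiesOver N χ ψ}.ncard := by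
    rw [ncard_liesOver h0]
    exact fun h => hidx (h.trans (Subgroup.index_dvd_of_le (CharDeep.le_inertia N θ.2.isClassFunction)))
  rw [Finset.sum_boole, ← Set.ncard_coe_finset, Finset.coe_filter_univ] at h1
  rw [← ZMod.natCast_eq_zero_iff, h1] at h2
  obtain ⟨ψ, -, h3⟩ := Finset.exists_ne_zero_of_sum_ne_zero h2
  have h4 : powIrr k hk' ψ = ψ := by_contra fun h => h3 (if_neg h)
  have h5 : LiesOver N χ ψ := by_contra fun h => h3 (by simp [h])
  obtain ⟨g, rfl⟩ := h5.exists_conj h0
  rw [← powIrr_eq_iff hk', ← conjIrr_powIrr, h4]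

end Cfsg.Agent.S4518
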