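import Cfsg.Statements.S4520
import Cfsg.Agent.Block.Galois

set_option autoImplicit false
open Cfsg

namespace Cfsg.Agent.S4520

open Cfsg.Agent.Block Cfsg.Agent.BMod Cfsg.Agent.Char MonoidAlgebra


/-- Let N be a normal subgroup of odd index in the finite group G, M a maximal ideal of the algebraic integers containing 2, and k coprime to the order of G with k ^ (2 ^ e) ≡ 1 modulo the order of G for some e and g ^ k = g⁻¹ for every element g of odd order. Let θ be an irreducible character of N and χ an irreducible character of G over θ, both unchanged by composing with g ↦ g ^ k. Then χ lies in the principal 2-block of G if and only if θ lies in the principal 2-block of N. -/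
theorem result {G : Type*} [Group G] [Fintype G] (M : Ideal Cfsg.AlgInt) (hM : Cfsg.IsPModular 2 M) (N : Subgroup G) [N.Normal] [Fintype N] (hidx : Odd N.index) (k e : ℕ) (hk : Nat.Coprime k (Nat.card G)) (hke : k ^ (2 ^ e) ≡ 1 [MOD Nat.card G]) (hk₂ : ∀ g : G, Odd (orderOf g) → g ^ k = g⁻¹) (θ : Cfsg.IrrCharacter N) (hθ : ∀ n : N, (θ : N → ℂ) (n ^ k) = (θ : N → ℂ) n) (χ : Cfsg.IrrCharacter G) (hχ : ∀ g : G, (χ : G → ℂ) (g ^ k) = (χ : G → ℂ) g) (hover : Cfsg.classInner (fun n : N => (χ : G → ℂ) n) (θ : N → ℂ) ≠ 0) : χ ∈ Cfsg.principalBlock M G ↔ θ ∈ Cfsg.principalBlock M N := by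
  have : PMod 2 M := ⟨hM⟩
  have hl : LiesOver N χ θ := liesOver_iff.2 hover
  constructor
  · intro h
    have h1 : Covers N (principalBlock M G) (principalBlock M N) :=
      ⟨irrOne G, irrOne_mem_principalBlock, irrOne N, irrOne_mem_principalBlock,
        liesOver_iff.2 (by rw [coe_irrOne, coe_irrOne, isIrrCharacter_one.classInner_self]; simp)⟩
    obtain ⟨g, hg⟩ := h1.mem_orbN isPBlock_principalBlock isPBlock_principalBlock.isBlockUnion h hl
    have := sameBlock_conjIrr g⁻¹ (θ := irrOne N) hg
    rwa [conjIrr_inv_conjIrr] at this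
  · intro h
    have hB := isPBlock_blockOf (M := M) χ
    have h1 : Covers N (blockOf M (χ : G → ℂ)) (principalBlock M N) :=
      ⟨χ, mem_blockOf_self χ, θ, h, hl⟩
    obtain ⟨D, hD⟩ := exists_isDefectGroup (p := 2) hB
    obtain ⟨Q⟩ : Nonempty (Sylow 2 N) := inferInstance
    have h2 := card_inf_eq_of_cover (top_le_normalizer_of_normal N) le_top (isPrim_eB hB)
      (isPrim_eS isPBlock_principalBlock) ((covers_iff_eS hB
        isPBlock_principalBlock.isBlockUnion).1 h1)
      ((isDefectGroup_iff_isDef_eS isPBlock_principalBlock).1 (isDefectGroup_principal Q))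
      ((isDefectGroup_iff_isDef hB).1 hD)
    rw [Subgroup.card_map_of_injective N.subtype_injective, Q.card_eq_multiplicity] at h2
    have h3 : 2 ^ (Nat.card N).factorization 2 ≤ 2 ^ blockDefect 2 (blockOf M (χ : G → ℂ)) := by
      rw [← h2, ← hD.card_eq hB]
      exact Subgroup.card_le_of_le inf_le_left
    have h4 := (Nat.pow_le_pow_iff_right one_lt_two).1 h3
    have h5 := factorization_card_add_index 2 N
    rw [Nat.factorization_eq_zero_of_not_dvd (Nat.two_dvd_ne_zero.2 (Nat.odd_iff.1 hidx))] at h5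
    have h6 := blockDefect_le 2 (blockOf M (χ : G → ℂ))
    obtain ⟨ψ, hψ, ho⟩ := exists_not_dvd_of_full (p := 2) (IsPBlock.nonempty hB) (by omega)
    have h7 : powIrr k hk χ = χ := Subtype.ext (funext hχ)
    rw [← eq_principal_of_stable hB hψ (hB.powIrr_mem k hk (mem_blockOf_self χ)
      (by rw [h7]; exact mem_blockOf_self χ) hψ) ho fun x hx => by
        rw [powIrr_apply, hk₂ x (Nat.odd_iff.2 (Nat.two_dvd_ne_zero.1 hx))]]
    exact mem_blockOf_self χ

end Cfsg.Agent.S4520
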