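import Cfsg.Statements.S4521
import Cfsg.Agent.Block.Count
import Cfsg.Agent.BMod.Central
import Mathlib.GroupTheory.NoncommCoprod

set_option autoImplicit false
open Cfsg

namespace Cfsg.Agent.S4521

open Cfsg.Agent.Block Cfsg.Agent.BMod Cfsg.Agent.Char MonoidAlgebra


/-- Let the finite group G be generated by subgroups U₁ and U₂ that commute elementwise and whose intersection is a p-group, and let M be a maximal ideal of the algebraic integers containing the prime p. If the irreducible character χ of G has the irreducible constituents ψ₁ on U₁ and ψ₂ on U₂, then χ lies in the principal block of G if and only if ψ₁ and ψ₂ lie in the principal blocks of U₁ and U₂. -/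
theorem result {G : Type*} [Group G] [Fintype G] (p : ℕ) [Fact p.Prime] (M : Ideal Cfsg.AlgInt) (hM : Cfsg.IsPModular p M) (U₁ U₂ : Subgroup G) [Fintype U₁] [Fintype U₂] (hcomm : ∀ u ∈ U₁, ∀ v ∈ U₂, u * v = v * u) (hgen : U₁ ⊔ U₂ = ⊤) (hZ : IsPGroup p ↥(U₁ ⊓ U₂)) (χ : Cfsg.IrrCharacter G) (ψ₁ : Cfsg.IrrCharacter U₁) (ψ₂ : Cfsg.IrrCharacter U₂) (h₁ : Cfsg.classInner (fun u : U₁ => (χ : G → ℂ) u) (ψ₁ : U₁ → ℂ) ≠ 0) (h₂ : Cfsg.classInner (fun u : U₂ => (χ : G → ℂ) u) (ψ₂ : U₂ → ℂ) ≠ 0) : χ ∈ Cfsg.principalBlock M G ↔ (ψ₁ ∈ Cfsg.principalBlock M U₁ ∧ ψ₂ ∈ Cfsg.principalBlock M U₂) := by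
  classical
  have : PMod p M := ⟨hM⟩
  have hp : p.Prime := Fact.out
  let f : U₁ × U₂ →* G := U₁.subtype.noncommCoprod U₂.subtype fun u v => hcomm u u.2 v v.2
  have hf0 : ∀ x, f x = x.1 * x.2 := fun _ => rfl
  have hf : Function.Surjective f := by
    rw [← MonoidHom.range_eq_top, eq_top_iff, ← hgen, sup_le_iff]
    exact ⟨fun u hu => ⟨(⟨u, hu⟩, 1), by simp [hf0]⟩, fun u hu => ⟨(1, ⟨u, hu⟩), by simp [hf0]⟩⟩
  have hker : ∀ x ∈ f.ker, (x.1 : G) ∈ U₂ ∧ (x.2 : G) = (x.1 : G)⁻¹ := fun x hx => by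
    have : (x.2 : G) = (x.1 : G)⁻¹ := eq_inv_of_mul_eq_one_right hx
    exact ⟨by simpa [this] using U₂.inv_mem x.2.2, this⟩
  have hk : IsPGroup p f.ker := by
    rintro ⟨x, hx⟩
    obtain ⟨k, hk⟩ := hZ ⟨x.1, x.1.2, (hker x hx).1⟩
    have h1 : (x.1 : G) ^ p ^ k = 1 := congrArg Subtype.val hk
    exact ⟨k, Subtype.ext (Prod.ext (Subtype.ext h1) (Subtype.ext (by simp [(hker x hx).2, h1])))⟩
  have hC : ∀ g : U₁ × U₂, ¬ p ∣ orderOf g → g ∈ Subgroup.centralizer (f.ker : Set (U₁ × U₂)) :=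
    fun g _ x hx => Prod.ext (Subtype.ext (hcomm _ g.1.2 _ (hker x hx).1).symm)
      (Subtype.ext (hcomm _ (by rw [(hker x hx).2]; exact U₁.inv_mem x.1.2) _ g.2.2))
  obtain ⟨φ₁, φ₂, h3, h4, h⟩ := exists_prod_of_isIrr (χ.2.comp_of_surjective f hf)
  have h5 : φ₁ = ψ₁ := by
    have : (fun u : U₁ => (χ : G → ℂ) u) = φ₂ 1 • φ₁ := funext fun u => by
      simpa [hf0, mul_comm] using congrFun h (u, 1)
    rw [this, classInner_smul_left] at h₁
    exact h3.eq_of_classInner_ne_zero ψ₁.2 (right_ne_zero_of_mul h₁)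
  have h6 : φ₂ = ψ₂ := by
    have : (fun u : U₂ => (χ : G → ℂ) u) = φ₁ 1 • φ₂ := funext fun u => by
      simpa [hf0] using congrFun h (1, u)
    rw [this, classInner_smul_left] at h₂
    exact h4.eq_of_classInner_ne_zero ψ₂.2 (right_ne_zero_of_mul h₂)
  rw [mem_principal_iff_sum, mem_principal_iff_sum, mem_principal_iff_sum,
    ← sum_regular_map hf hk hC, ← mul_ne_zero_iff, Finset.sum_mul_sum, Fintype.sum_prod_type]
  refine Eq.congr_left (Finset.sum_congr rfl fun u _ => Finset.sum_congr rfl fun v _ => ?_) |>.not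
  have : ∀ a b, p ∣ Nat.lcm a b ↔ p ∣ a ∨ p ∣ b := fun a b =>
    ⟨fun h => hp.dvd_mul.1 (h.trans (Nat.lcm_dvd_mul a b)), fun h => h.elim
      (·.trans (Nat.dvd_lcm_left a b)) (·.trans (Nat.dvd_lcm_right a b))⟩
  simp only [congrFun h, Prod.orderOf, this, h5, h6]
  by_cases h1 : p ∣ orderOf u <;> by_cases h2 : p ∣ orderOf v <;> simp [h1, h2]

end Cfsg.Agent.S4521
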