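import Cfsg.Statements.S4528
import Cfsg.Agent.Block.Tame

set_option autoImplicit false
open Cfsg

namespace Cfsg.Agent.S4528

open Cfsg.Agent.Block Cfsg.Agent.BMod Cfsg.Agent.Char MonoidAlgebra


/-- Let B be a 2-block of the finite group G (relative to a maximal ideal M of the algebraic integers containing 2) whose defect group D is dihedral of order 2 ^ n with n ≥ 3. Then B contains exactly 2 ^ (n - 2) + 3 irreducible characters, its 2-regular rank (the number of irreducible Brauer characters) is between 1 and 3, exactly four of its members have height zero, and every member has height at most one. -/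
theorem result {G : Type*} [Group G] [Finite G] (M : Ideal Cfsg.AlgInt) (hM : Cfsg.IsPModular 2 M) (B : Set (Cfsg.IrrCharacter G)) (hB : Cfsg.IsPBlock M B) (D : Subgroup G) (hD : Cfsg.IsDefectGroup 2 M B D) (n : ℕ) (hn : 3 ≤ n) (hdih : Nonempty (D ≃* DihedralGroup (2 ^ (n - 1)))) : Nat.card B = 2 ^ (n - 2) + 3 ∧ 1 ≤ Cfsg.blockRank 2 B ∧ Cfsg.blockRank 2 B ≤ 3 ∧ Nat.card {χ : Cfsg.IrrCharacter G // χ ∈ B ∧ Cfsg.blockHeight 2 B (χ : G → ℂ) = 0} = 4 ∧ ∀ χ ∈ B, Cfsg.blockHeight 2 B (χ : G → ℂ) ≤ 1 := by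
  haveI : PMod 2 M := ⟨hM⟩
  have := Fintype.ofFinite G
  obtain ⟨m, rfl⟩ := Nat.exists_eq_add_of_le' hn
  obtain ⟨x, v, z, h, h1⟩ := Tame.mc_dihedral (m := m) hdih.some
  obtain ⟨ε, a, J, K, h2, -, -, h3, -⟩ := Tame.tame h hB hD Finset.univ
    fun r _ _ _ => ⟨r, by simp, 1, one_mem _, by simp⟩
  obtain rfl := h3 h1
  refine ⟨h2.card_eq, blockRank_pos (IsPBlock.nonempty hB), (h2.rank_le hB h.ord_z.symm.dvd).1,
    h2.card_zero m.succ_ne_zero, fun χ hχ => ?_⟩
  rcases h2.height χ hχ with e | e | e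
  exacts [by omega, e.le, by simp at e]

end Cfsg.Agent.S4528
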