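import Cfsg.Statements.S4530
import Cfsg.Agent.Block.Tame

set_option autoImplicit false
open Cfsg

namespace Cfsg.Agent.S4530

open Cfsg.Agent.Block Cfsg.Agent.BMod Cfsg.Agent.Char MonoidAlgebra


/-- Let B be a 2-block of the finite group G (relative to a maximal ideal M of the algebraic integers containing 2) whose defect group D is generalized quaternion of order 2 ^ n, n ≥ 3. Then its 2-regular rank l is between 1 and 3, the number of irreducible characters in B is l + 2 ^ (n - 2) + 2, exactly four members have height zero, and every other member has height one or height n - 2; when n ≥ 4 exactly 2 ^ (n - 2) - 1 members have height one. -/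
theorem result {G : Type*} [Group G] [Finite G] (M : Ideal Cfsg.AlgInt) (hM : Cfsg.IsPModular 2 M) (B : Set (Cfsg.IrrCharacter G)) (hB : Cfsg.IsPBlock M B) (D : Subgroup G) (hD : Cfsg.IsDefectGroup 2 M B D) (n : ℕ) (hn : 3 ≤ n) (hq : Nonempty (D ≃* QuaternionGroup (2 ^ (n - 2)))) : 1 ≤ Cfsg.blockRank 2 B ∧ Cfsg.blockRank 2 B ≤ 3 ∧ Nat.card B = Cfsg.blockRank 2 B + 2 ^ (n - 2) + 2 ∧ Nat.card {χ : Cfsg.IrrCharacter G // χ ∈ B ∧ Cfsg.blockHeight 2 B (χ : G → ℂ) = 0} = 4 ∧ (∀ χ ∈ B, Cfsg.blockHeight 2 B (χ : G → ℂ) = 0 ∨ Cfsg.blockHeight 2 B (χ : G → ℂ) = 1 ∨ Cfsg.blockHeight 2 B (χ : G → ℂ) = n - 2) ∧ (4 ≤ n → Nat.card {χ : Cfsg.IrrCharacter G // χ ∈ B ∧ Cfsg.blockHeight 2 B (χ : G → ℂ) = 1} = 2 ^ (n - 2) - 1) := by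
  haveI : PMod 2 M := ⟨hM⟩
  have := Fintype.ofFinite G
  obtain ⟨m, rfl⟩ := Nat.exists_eq_add_of_le' hn
  obtain ⟨x, v, z, h, h1⟩ := Tame.mc_quaternion (m := m) hq.some
  obtain ⟨ε, a, J, K, h4, h5, h6, -⟩ := Tame.tame h hB hD ∅ fun r hr h4 h5 =>
    absurd ((h1 r hr h4).symm.trans h5) h.z_ne
  have h8 := h4.card_eq
  rw [Finset.card_empty] at h5 h6
  rw [show m + 3 - 2 = m + 1 from rfl]
  exact ⟨by omega, (h4.rank_le hB h.ord_z.symm.dvd).1, by omega, h4.card_zero m.succ_ne_zero,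
    fun χ hχ => (h4.height χ hχ).imp_right (.imp_right And.left), fun _ => h4.card_one (by omega)⟩

end Cfsg.Agent.S4530
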