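import Cfsg.Statements.S4531
import Cfsg.Agent.Block.TameSolv

set_option autoImplicit false
open Cfsg

namespace Cfsg.Agent.S4531

open Cfsg.Agent.Block Cfsg.Agent.BMod Cfsg.Agent.Char MonoidAlgebra


/-- Let the finite group G have a 2-block B (relative to a maximal ideal M of the algebraic integers containing 2) of 2-regular rank three (three irreducible Brauer characters) whose defect group D is dihedral of order 2 ^ n with n ≥ 3 or semidihedral. Then the centre of G has odd order and G is not solvable. -/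
theorem result {G : Type*} [Group G] [Finite G] (M : Ideal Cfsg.AlgInt) (hM : Cfsg.IsPModular 2 M) (B : Set (Cfsg.IrrCharacter G)) (hB : Cfsg.IsPBlock M B) (D : Subgroup G) (hD : Cfsg.IsDefectGroup 2 M B D) (hD' : (∃ n : ℕ, 3 ≤ n ∧ Nonempty (D ≃* DihedralGroup (2 ^ (n - 1)))) ∨ Cfsg.IsQuasiDihedral D) (hl : Cfsg.blockRank 2 B = 3) : Odd (Nat.card (Subgroup.center G)) ∧ ¬ Group.IsSolvable G := by
  haveI : PMod 2 M := ⟨hM⟩
  have := Fintype.ofFinite G
  obtain ⟨x, v, z, m, h, y, hy, h1, h2⟩ : ∃ x v z m, Tame.MC D x v z m ∧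
      ∃ y ∈ D, y ∉ Subgroup.zpowers x ∧ y * y = 1 := by
    rcases hD' with ⟨n, hn, ⟨e⟩⟩ | h
    · obtain ⟨m, rfl⟩ := Nat.exists_eq_add_of_le' hn
      obtain ⟨x, v, z, h, h1⟩ := Tame.mc_dihedral (m := m) e
      obtain ⟨y, hy, h2⟩ := h.ex
      exact ⟨x, v, z, m, h, y, hy, h2, h1 y hy h2⟩
    · obtain ⟨x, v, z, m, h, y, hy, h1, h2, -⟩ := Tame.mc_qd h
      exact ⟨x, v, z, m, h, y, hy, h1, h2⟩
  refine ⟨h.odd_center hB hD hy h1 h2 hl, fun _ => ?_⟩
  have := Tame.rank_le_two_of_solv PLocal.pSolv_of_isSolvable h hB hD hy h1 h2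
  omega

end Cfsg.Agent.S4531
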