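import Cfsg.Statements.S4541
import Cfsg.Agent.BMod.Par
-- import your own Cfsg.Agent.* helpers here

set_option autoImplicit false
open Cfsg

namespace Cfsg.Agent.S4541

open Cfsg.Agent.BMod Cfsg.Agent.Block Cfsg.Agent.Transfer Cfsg.Agent.Char Cfsg.Agent.CharDeep

/-- Let B be a 2-block of the finite group G (relative to a maximal ideal M of the algebraic integers containing 2), u a 2-element, and b a block of the centralizer of u inducing B (a subsection (u, b)), of defect q and 2-regular rank l; write s for the integer square root of l and k₀(B) for the number of members of B of height zero. If s is odd then k₀(B) ≤ s·2 ^ q, and otherwise (s + 1)·k₀(B) ≤ l·2 ^ q; in particular k₀(B) ≤ 2 ^ q when l ≤ 3. -/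
theorem result {G : Type*} [Group G] [Finite G] (M : Ideal Cfsg.AlgInt) (hM : Cfsg.IsPModular 2 M) (B : Set (Cfsg.IrrCharacter G)) (hB : Cfsg.IsPBlock M B) (u : G) (hu : ∃ j : ℕ, orderOf u = 2 ^ j) (b : Set (Cfsg.IrrCharacter ↥(Subgroup.centralizer ({u} : Set G)))) (hb : Cfsg.IsInducedBlock M (Subgroup.centralizer ({u} : Set G)) b B) : (Odd (Nat.sqrt (Cfsg.blockRank 2 b)) → Nat.card {χ : Cfsg.IrrCharacter G // χ ∈ B ∧ Cfsg.blockHeight 2 B (χ : G → ℂ) = 0} ≤ Nat.sqrt (Cfsg.blockRank 2 b) * 2 ^ Cfsg.blockDefect 2 b) ∧ (¬ Odd (Nat.sqrt (Cfsg.blockRank 2 b)) → (Nat.sqrt (Cfsg.blockRank 2 b) + 1) * Nat.card {χ : Cfsg.IrrCharacter G // χ ∈ B ∧ Cfsg.blockHeight 2 B (χ : G → ℂ) = 0} ≤ Cfsg.blockRank 2 b * 2 ^ Cfsg.blockDefect 2 b) ∧ (Cfsg.blockRank 2 b ≤ 3 → Nat.card {χ : Cfsg.IrrCharacter G // χ ∈ B ∧ Cfsg.blockHeight 2 B (χ : G → ℂ) = 0} ≤ 2 ^ Cfsg.blockDefect 2 b) := by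
  haveI : PMod 2 M := ⟨hM⟩
  have := Fintype.ofFinite (Subgroup.centralizer ({u} : Set G))
  classical
  have h := isSub_centralizer hu
  obtain ⟨a, ha, hodd⟩ := h.exists_av hb
  set S := Finset.univ.filter fun ψ => ψ ∈ B ∧ blockHeight 2 B ψ.1 = 0 with hS
  rw [show Nat.card {χ : IrrCharacter G // χ ∈ B ∧ blockHeight 2 B χ.1 = 0} = S.card from
    card_eq_filter {χ | χ ∈ B ∧ blockHeight 2 B χ.1 = 0}]
  obtain ⟨ψ, hψ⟩ := exists_height_zero 2 (IsPBlock.nonempty hb.2.1)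
  obtain ⟨χ, hχ, hmin⟩ := S.exists_min_image a ⟨ψ, by simpa [hS] using hψ⟩
  obtain ⟨-, hχ, h0⟩ := Finset.mem_filter.1 hχ
  have h1 := ha.card_le h hb hχ h0
  have h2 := (Finset.card_nsmul_le_sum _ _ _ hmin).trans ((Finset.sum_le_sum_of_subset_of_nonneg
    (fun ψ hψ => by simp_all) fun ψ _ _ => ha.nonneg h ψ).trans_eq (ha.sum_eq h hb))
  obtain ⟨m, hm⟩ := Int.eq_ofNat_of_zero_le (ha.nonneg h χ)
  have h3 := hodd χ hχ h0
  rw [hm] at h1 h2 h3
  rw [nsmul_eq_mul] at h2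
  rw [← hS] at h1
  norm_cast at h1 h2 h3
  have h4 := Nat.sqrt_le (blockRank 2 b)
  have h5 := Nat.lt_succ_sqrt (blockRank 2 b)
  have key : Odd (Nat.sqrt (blockRank 2 b)) →
      S.card ≤ Nat.sqrt (blockRank 2 b) * 2 ^ blockDefect 2 b := fun h6 => by
    generalize Nat.sqrt (blockRank 2 b) = s at *
    generalize 2 ^ blockDefect 2 b = q at *
    by_cases h7 : m ≤ s
    · nlinarith
    have h8 : s + 2 ≤ m := by
      rw [Nat.odd_iff] at h3 h6
      omega
    refine Nat.le_of_mul_le_mul_right (c := s + 2) ?_ (by omega)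
    have := Nat.mul_le_mul_left q (show blockRank 2 b ≤ s * (s + 2) by
      simp only [Nat.succ_eq_add_one] at h5; nlinarith)
    nlinarith
  refine ⟨key, fun h6 => ?_, fun h6 => ?_⟩
  · generalize Nat.sqrt (blockRank 2 b) = s at *
    generalize 2 ^ blockDefect 2 b = q at *
    by_cases h7 : s + 1 ≤ m
    · nlinarith
    obtain ⟨t, rfl⟩ : ∃ t, s = m + 1 + t := Nat.exists_eq_add_of_le (by
      rw [Nat.odd_iff] at h3 h6
      omega)
    have := Nat.mul_le_mul_left q h4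
    nlinarith [Nat.mul_le_mul_left (m + 1 + t + 1) h1, Nat.zero_le (q * t), Nat.zero_le (q * t * t),
      Nat.zero_le (q * m * t)]
  · have h7 : Nat.sqrt (blockRank 2 b) = 1 := by
      have := blockRank_pos (p := 2) (IsPBlock.nonempty hb.1)
      rw [eq_comm, Nat.eq_sqrt]
      omega
    simpa [h7] using key

end Cfsg.Agent.S4541
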