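import Cfsg.Statements.S4550
import Cfsg.Agent.Block.Count
import Cfsg.Agent.Block.Flat

set_option autoImplicit false
open Cfsg

namespace Cfsg.Agent.S4550

open Cfsg.Agent.Block Cfsg.Agent.BMod Cfsg.Agent.Char MonoidAlgebra


/-- Let G be a finite group of even order and M a maximal ideal of the algebraic integers containing 2. Let k be a natural number with g ^ k = g ^ 3 for every 2-element g and g ^ k = g for every element g of odd order (such k exist); an irreducible character χ is unchanged by g ↦ g ^ k exactly when it is fixed by the field automorphism that cubes the 2-power roots of unity and fixes the roots of unity of odd order. Then the number of members χ of the principal 2-block of odd degree with χ (g ^ k) = χ g for all g is even. -/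
theorem result {G : Type*} [Group G] [Finite G] (M : Ideal Cfsg.AlgInt) (hM : Cfsg.IsPModular 2 M) (hev : Even (Nat.card G)) (k : ℕ) (hk₁ : ∀ g : G, (∃ j : ℕ, orderOf g = 2 ^ j) → g ^ k = g ^ 3) (hk₂ : ∀ g : G, Odd (orderOf g) → g ^ k = g) : Even (Nat.card {χ : Cfsg.IrrCharacter G // χ ∈ Cfsg.principalBlock M G ∧ Odd (Cfsg.charDegree (χ : G → ℂ)) ∧ ∀ g : G, (χ : G → ℂ) (g ^ k) = (χ : G → ℂ) g}) := by
  classical
  have : PMod 2 M := ⟨hM⟩
  have hk : k.Coprime (Nat.card G) := coprime_card_of_pow_ne fun g hg h => by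
    rcases hg.eq_two_or_odd' with h2 | h2
    · rw [hk₁ g ⟨1, h2⟩, ← orderOf_dvd_iff_pow_eq_one, h2] at h
      omega
    · rw [hk₂ g h2] at h
      rw [h, orderOf_one] at hg
      exact Nat.not_prime_one hg
  have h3 : ∀ g : G, g ^ k ^ 2 ^ Nat.card G = g := fun g => by
    have h1 : ∀ m, pPart 2 g ^ k ^ m = pPart 2 g ^ 3 ^ m := fun m => by
      induction m with
      | zero => simp
      | succ m ih => rw [pow_succ, pow_mul, ih, ← pow_mul, mul_comm, pow_mul,
          hk₁ _ (isPPart_pPart 2 g).orderOf_eq, ← pow_mul, pow_succ']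
    have h2 : ∀ m, regPart 2 g ^ k ^ m = regPart 2 g := fun m => by
      induction m with
      | zero => simp
      | succ m ih => rw [pow_succ, pow_mul, ih, hk₂ _ (Nat.odd_iff.2 (Nat.two_dvd_ne_zero.1
          (not_dvd_orderOf_regPart 2 g)))]
    obtain ⟨j, hj⟩ := (isPPart_pPart 2 g).orderOf_eq
    have h4 := Nat.ModEq.pow_totient (x := 3) (n := 2 ^ (Nat.card G + 1))
      (Nat.Coprime.pow_right _ (by norm_num))
    rw [Nat.totient_prime_pow_succ Nat.prime_two] at h4
    have h5 : j ≤ Nat.card G + 1 := by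
      have := orderOf_le_card (x := pPart 2 g)
      have := Nat.lt_two_pow_self (n := j)
      omega
    conv_lhs => rw [← pPart_mul_regPart 2 g, (commute_pPart_regPart 2 g).mul_pow, h1, h2]
    rw [(pow_eq_pow_iff_modEq (m := 1)).2 (by rw [hj]; simpa using h4.of_dvd (pow_dvd_pow 2 h5)),
      pow_one, pPart_mul_regPart]
  have h1 := sum_red_deg_sq_of_dvd (isPBlock_principalBlock (M := M)).isBlockUnion hev.two_dvd
  rw [sum_eq_sum_fixed_of_pow (p := 2) (powPerm k hk) (powPerm_pow_eq_one hk h3) _ fun χ => by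
    simp only [powPerm_apply, powIrr_mem_principal (M := M), charDegree_powIrr]] at h1
  rw [even_iff_two_dvd, ← natCast_F_eq_zero_iff (M := M), Nat.card_eq_fintype_card,
    Fintype.card_subtype, ← Finset.sum_boole]
  refine Eq.trans (Finset.sum_congr rfl fun χ _ => ?_) h1
  rw [← powIrr_eq_iff hk, powPerm_apply]
  rcases Nat.even_or_odd (charDegree (χ : G → ℂ)) with h | h
  · simp [Nat.not_odd_iff_even.2 h, (natCast_F_eq_zero_iff (M := M) _).2 h.two_dvd]
  · have : (charDegree (χ : G → ℂ) : F M) = 1 := by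
      obtain ⟨m, hm⟩ := h
      rw [hm, Nat.cast_add, (natCast_F_eq_zero_iff (M := M) _).2 (dvd_mul_right 2 m)]; simp
    by_cases h' : powIrr k hk χ = χ <;> simp [h, h', this]

end Cfsg.Agent.S4550
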