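import Cfsg.Statements.S4553
import Cfsg.Agent.Block.Dade2
import Cfsg.Agent.Transfer.Residual
import Mathlib.GroupTheory.FiniteAbelian.Duality
import Mathlib.RingTheory.RootsOfUnity.AlgebraicallyClosed

set_option autoImplicit false
open Cfsg

namespace Cfsg.Agent.S4553

open Cfsg.Agent.Block Cfsg.Agent.BMod Cfsg.Agent.Char MonoidAlgebra

open Dade CharDeep

theorem card_hom {Q : Type*} [Group Q] [Finite Q] [IsCyclic Q] {p : ℕ} (h : p ∣ Nat.card Q) :
    Nat.card {μ : Q →* ℂˣ // μ ^ p = 1} = p := by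
  letI := IsCyclic.commGroup (α := Q)
  haveI : NeZero (Monoid.exponent Q : ℂ) := ⟨Nat.cast_ne_zero.2 Monoid.exponent_ne_zero_of_finite⟩
  obtain ⟨e⟩ := CommGroup.monoidHom_mulEquiv_of_hasEnoughRootsOfUnity Q ℂ
  refine Eq.trans ?_ ((IsCyclic.card_powMonoidHom_ker Q p).trans (Nat.gcd_eq_right h))
  exact Nat.card_congr (e.toEquiv.subtypeEquiv fun μ => by
    rw [MonoidHom.mem_ker, powMonoidHom_apply, MulEquiv.toEquiv_eq_coe, EquivLike.coe_coe,
      ← map_pow, e.map_eq_one_iff])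

/-- Let G be a finite group, p a prime, P a Sylow p-subgroup, N the p-residual of G (the subgroup generated by the elements of order prime to p, the smallest normal subgroup with G/N a p-group), and M a maximal ideal of the algebraic integers containing p; suppose G/N is cyclic and nontrivial. Let k be a natural number with g ^ k = g ^ (1 + p) for every p-element g and g ^ k = g for every element g of order prime to p (so that χ (g ^ k) is the image of χ g under the field automorphism that raises p-power roots of unity to the power 1 + p and fixes the roots of unity of order prime to p). Then the number of members χ of the principal block of G of degree prime to p with χ (g ^ k) = χ g for all g equals p times the number of members θ of the principal block of N of degree prime to p that are invariant under conjugation by P and satisfy θ (n ^ k) = θ n for all n. -/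
theorem result {G : Type*} [Group G] [Finite G] (p : ℕ) [Fact p.Prime] (M : Ideal Cfsg.AlgInt) (hM : Cfsg.IsPModular p M) (P : Sylow p G) (N : Subgroup G) [hN : N.Normal] (hNres : N = Cfsg.pResidual p G) (hcyc : IsCyclic (G ⧸ N)) (hnt : N ≠ ⊤) (k : ℕ) (hk₁ : ∀ g : G, (∃ j : ℕ, orderOf g = p ^ j) → g ^ k = g ^ (1 + p)) (hk₂ : ∀ g : G, Nat.Coprime (orderOf g) p → g ^ k = g) : Nat.card {χ : Cfsg.IrrCharacter G // χ ∈ Cfsg.principalBlock M G ∧ ¬ p ∣ Cfsg.charDegree (χ : G → ℂ) ∧ ∀ g : G, (χ : G → ℂ) (g ^ k) = (χ : G → ℂ) g} = p * Nat.card {θ : Cfsg.IrrCharacter ↥N // θ ∈ Cfsg.principalBlock M ↥N ∧ ¬ p ∣ Cfsg.charDegree (θ : ↥N → ℂ) ∧ (∀ x ∈ (P : Subgroup G), ∀ n : ↥N, (θ : ↥N → ℂ) ⟨x * n * x⁻¹, hN.conj_mem n n.2 x⟩ = (θ : ↥N → ℂ) n) ∧ ∀ n : ↥N, (θ : ↥N → ℂ) (n ^ k) = (θ : ↥N → ℂ) n} := by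
  classical
  haveI : PMod p M := ⟨hM⟩
  have := Fintype.ofFinite G
  have hp : p.Prime := Fact.out
  have hreg : ∀ g : G, ¬ p ∣ orderOf g → g ∈ N := fun g hg =>
    hNres ▸ Transfer.mem_pResidual_of_coprime (hp.coprime_iff_not_dvd.2 hg).symm
  have hpow : ∀ (l : G ⧸ N →* ℂˣ) (g : G), l (g ^ k : G) = l g ^ (1 + p) := fun l g => by
    obtain ⟨x, hx⟩ := exists_isPPart p g
    have h1 : ((x⁻¹ * g : G) : G ⧸ N) = 1 := (QuotientGroup.eq_one_iff _).2 (hreg _ hx.not_dvd)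
    have h2 : (g : G ⧸ N) = x := by
      rw [← mul_inv_cancel_left x g, QuotientGroup.mk_mul, h1, mul_one]
    rw [QuotientGroup.mk_pow, h2, ← QuotientGroup.mk_pow, hk₁ x hx.orderOf_eq,
      QuotientGroup.mk_pow, map_pow]
  obtain ⟨a, ha⟩ : ∃ a, N.index = p ^ a := IsPGroup.exists_card_eq fun g => by
    induction g using QuotientGroup.induction_on with | H g => ?_
    obtain ⟨x, hx⟩ := exists_isPPart p g
    obtain ⟨j, hj⟩ := hx.orderOf_eq
    have h1 : ((x⁻¹ * g : G) : G ⧸ N) = 1 := (QuotientGroup.eq_one_iff _).2 (hreg _ hx.not_dvd)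
    refine ⟨j, ?_⟩
    rw [← mul_inv_cancel_left x g, QuotientGroup.mk_mul, h1, mul_one, ← QuotientGroup.mk_pow, ← hj,
      pow_orderOf_eq_one, QuotientGroup.mk_one]
  have hcop : ∀ {d : ℕ}, ¬ p ∣ d → N.index.Coprime d := fun h =>
    ha ▸ Nat.Coprime.pow_left _ (hp.coprime_iff_not_dvd.2 h)
  have hk : k.Coprime (Nat.card G) := coprime_card_of_pow_ne fun g hg h => by
    have h1 : g ≠ 1 := by rintro rfl; simp [Nat.not_prime_one] at hg
    by_cases h2 : orderOf g = p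
    · rw [hk₁ g ⟨1, by simpa using h2⟩, pow_add, ← h2, pow_orderOf_eq_one] at h
      exact h1 (by simpa using h)
    · exact h1 ((hk₂ g ((Nat.coprime_primes hg hp).2 h2)).symm.trans h)
  obtain ⟨σ, hσ⟩ := exists_ringEquiv_apply_pow hk
  have hdet : ∀ θ : IrrCharacter N, ¬ p ∣ detOrder θ.1 := fun θ h => by
    obtain ⟨v, m, hm, hvm⟩ := Nat.exists_eq_pow_mul_and_not_dvd (Nat.card_pos (α := G)).ne' p
      hp.ne_one
    rw [detOrder_eq_orderOf_detHom θ.2.isCharacter] at h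
    refine hm (h.trans (orderOf_dvd_of_pow_eq_one (MonoidHom.ker_eq_top_iff.1 ?_)))
    subst hNres
    rw [eq_top_iff, ← Transfer.pResidual_pResidual]
    refine Transfer.pResidual_le_iff.2 fun n hn => ?_
    have h1 : orderOf n ∣ m := (hn.pow_right v).dvd_of_dvd_mul_left
      (hvm ▸ Subgroup.orderOf_coe n ▸ orderOf_dvd_natCard _)
    rw [MonoidHom.mem_ker, MonoidHom.pow_apply, ← map_pow, orderOf_dvd_iff_pow_eq_one.1 h1, map_one]
  have htop : N ⊔ P = ⊤ := by
    rw [← Subgroup.index_eq_one]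
    exact Nat.eq_one_of_dvd_coprimes (hcop P.not_dvd_index) (Subgroup.index_dvd_of_le le_sup_left)
      (Subgroup.index_dvd_of_le le_sup_right)
  have hex : ∀ θ : {θ : Cfsg.IrrCharacter ↥N // θ ∈ Cfsg.principalBlock M ↥N ∧ ¬ p ∣ Cfsg.charDegree (θ : ↥N → ℂ) ∧ (∀ x ∈ (P : Subgroup G), ∀ n : ↥N, (θ : ↥N → ℂ) ⟨x * n * x⁻¹, hN.conj_mem n n.2 x⟩ = (θ : ↥N → ℂ) n) ∧ ∀ n : ↥N, (θ : ↥N → ℂ) (n ^ k) = (θ : ↥N → ℂ) n},
      ∃ χ, Ext χ θ.1 ∧ ∀ g, χ (g ^ k) = χ g := fun ⟨θ, _, h1, h2, h3⟩ => by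
    obtain ⟨χ, ⟨h4, h5, h6⟩, h7⟩ := exists_extension_of_coprime N θ.2 (inertia_eq_top_iff N |>.1
      (eq_top_iff.2 (htop ▸ sup_le (le_inertia N θ.2.isClassFunction) fun x hx =>
        (mem_inertia' N).2 (h2 x hx)))) (deg_cast_irr θ).symm
      (hcop fun h => (hp.dvd_mul.1 h).elim (hdet θ) h1)
    refine ⟨χ, ⟨h4.isCharacter, h5⟩, fun g => congrFun (h7 _ (h4.isCharacter.comp_pow hk)
      (fun n => (h5 (n ^ k)).trans (h3 n)) (hcop fun h => hdet θ (h6 ▸ h.trans ?_))) g⟩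
    refine orderOf_dvd_of_pow_eq_one (funext fun g => ?_)
    have h8 := detChar_gal h4.isCharacter (σ : ℂ →+* ℂ) g
    simp only [RingHom.coe_coe, ← hσ χ h4.isGeneralizedCharacter] at h8
    rw [Pi.pow_apply, h8, ← map_pow, ← Pi.pow_apply, detOrder, pow_orderOf_eq_one]
    exact map_one σ
  choose E hE hE' using hex
  have hinj : ∀ θ (l l' : G ⧸ N →* ℂˣ), ((fun g : G => l g * E θ g) = fun g : G => l' g * E θ g) →
      l = l' := fun θ l l' h => MonoidHom.ext fun g => Units.ext (congrFun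
    (gallagher_inj N (hE θ).ch (hE θ).irr' (isIrrCharacter_hom l) (isIrrCharacter_hom l') h) g)
  have hm : ∀ θ (l : G ⧸ N →* ℂˣ), Ext (fun g : G => l g * E θ g) θ.1 := fun θ l =>
    (hE θ).mul_hom (lam := l.comp (QuotientGroup.mk' N)) fun n hn => by
      simp [(QuotientGroup.eq_one_iff n).2 hn]
  have hpN : p ∣ Nat.card (G ⧸ N) := by
    rw [← N.index_eq_card, ha]
    refine dvd_pow_self p ?_
    rintro rfl
    exact hnt (Subgroup.index_eq_one.1 ha)
  refine Eq.trans ?_ (congrArg (· * _) (card_hom hpN))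
  rw [← Nat.card_prod]
  symm
  refine Nat.card_congr (Equiv.ofBijective (fun x => ⟨⟨_, (hm x.2 x.1).irr⟩, ?_, ?_, fun g => ?_⟩)
    ⟨fun x y h => ?_, fun ⟨χ, h1, h2, h3⟩ => ?_⟩)
  · have h1 := ((hm x.2 x.1).red_om x.2.2.1 (center_mem_fix (idem_mem_center (principalBlock M G)) N)
      (fun g hg => blockCoeff_eq_zero_of_dvd isPBlock_principalBlock.isBlockUnion
        (by_contra fun h => hg (hreg g h))) isPBlock_principalBlock.idem_mem_OG).2
    by_contra h2
    rw [show om _ _ = 0 from om_idem_of_notMem h2, au_idem] at h1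
    simp at h1
  · rw [deg_eq_of_eq (((hm x.2 x.1).res 1).trans (deg_cast_irr _).symm)]
    exact x.2.2.2.1
  · simp only [hE', hpow, pow_add, ← MonoidHom.pow_apply _ p, x.1.2]
    simp
  · have h1 := congrArg (fun z => z.1.1) h
    have h2 : x.2 = y.2 := Subtype.ext (Subtype.ext (funext fun n =>
      ((hm x.2 x.1).res n).symm.trans ((congrFun h1 n).trans ((hm y.2 y.1).res n))))
    refine Prod.ext (Subtype.ext (hinj y.2 _ _ ?_)) h2
    simpa only [h2] using h1
  · have h4 := isIrr_res_of_coprime N χ.2 (hcop h2).symm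
    have h5 : Ext χ.1 ⟨_, h4⟩ := ⟨χ.2.isCharacter, fun _ => rfl⟩
    let θ : {θ : Cfsg.IrrCharacter ↥N // θ ∈ Cfsg.principalBlock M ↥N ∧ ¬ p ∣ Cfsg.charDegree (θ : ↥N → ℂ) ∧ (∀ x ∈ (P : Subgroup G), ∀ n : ↥N, (θ : ↥N → ℂ) ⟨x * n * x⁻¹, hN.conj_mem n n.2 x⟩ = (θ : ↥N → ℂ) n) ∧ ∀ n : ↥N, (θ : ↥N → ℂ) (n ^ k) = (θ : ↥N → ℂ) n} :=
      ⟨⟨_, h4⟩, mem_principal_of_over h1 h5.liesOver, h2, fun x _ n => χ.2.isClassFunction _ _,
        fun n => h3 n⟩
    obtain ⟨l, h6, h7⟩ := exists_hom_of_res_eq N (hE θ).ch (hE θ).irr' χ.2.isCharacter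
      fun n => ((hE θ).res n).symm
    replace h6 : N ≤ l.ker := h6
    refine ⟨(⟨QuotientGroup.lift N l h6, ?_⟩, θ), Subtype.ext (Subtype.ext h7.symm)⟩
    have h8 := hinj θ (QuotientGroup.lift N l h6 ^ (1 + p)) (QuotientGroup.lift N l h6)
      (funext fun g => by
        rw [MonoidHom.pow_apply, ← hpow]
        conv_lhs => rw [← hE']
        exact (congrFun h7 _).symm.trans ((h3 g).trans (congrFun h7 _)))
    refine MonoidHom.ext fun g => ?_
    have h9 := DFunLike.congr_fun h8 g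
    rw [MonoidHom.pow_apply, pow_add, pow_one] at h9
    exact mul_eq_left.1 h9

end Cfsg.Agent.S4553
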