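import Cfsg.Statements.S4560
import Mathlib
import Cfsg.Agent.Char.FS
import Cfsg.Agent.Char.Second
import Cfsg.Agent.Char.Orth

set_option autoImplicit false
open Cfsg

namespace Cfsg.Agent.S4560

open MulAction Char Equiv

section
variable {G Ω : Type*} [Group G] [Fintype G] [MulAction G Ω] [Fintype Ω]

theorem moment {k : ℕ} (h : IsMultiplyPretransitive G Ω k) (hk : k ≤ Fintype.card Ω)
    (σ : Perm (Fin k)) :
    ∑ g : G, Nat.card {e : Fin k ↪ Ω // ∀ i, g • e i = e (σ i)} = Nat.card G := by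
  classical
  obtain ⟨e0⟩ : Nonempty (Fin k ↪ Ω) := Function.Embedding.nonempty_of_card_le (by simpa using hk)
  rw [← Nat.card_sigma, Nat.card_congr (orbitProdStabilizerEquivGroup G e0).symm, orbit_eq_univ,
    Nat.card_prod, Nat.card_congr (Equiv.Set.univ _)]
  have : (Σ g : G, {e : Fin k ↪ Ω // ∀ i, g • e i = e (σ i)}) ≃
      Σ e : Fin k ↪ Ω, {g : G // ∀ i, g • e i = e (σ i)} :=
    ⟨fun x => ⟨x.2.1, x.1, x.2.2⟩, fun x => ⟨x.2.1, x.1, x.2.2⟩, fun _ => rfl, fun _ => rfl⟩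
  rw [Nat.card_congr this, Nat.card_sigma, Finset.sum_congr rfl
    (g := fun _ => Nat.card (stabilizer G e0)) fun e _ => ?_]
  · simp
  · obtain ⟨a, rfl⟩ := exists_smul_eq G e0 e
    obtain ⟨b, hb⟩ := exists_smul_eq G e0 (σ.toEmbedding.trans (a • e0))
    refine Nat.card_congr (((Equiv.mulRight a).trans (Equiv.mulLeft b⁻¹)).subtypeEquiv fun g => ?_)
    simp only [Equiv.trans_apply, Equiv.coe_mulRight, Equiv.coe_mulLeft, mem_stabilizer_iff,
      mul_smul, inv_smul_eq_iff, hb]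
    exact ⟨fun h => Function.Embedding.ext h, fun h i => DFunLike.congr_fun h i⟩

variable (Ω) in
/-- Number of fixed points. -/
noncomputable def f (g : G) : ℕ := Nat.card (fixedBy Ω g)

variable (Ω) in
/-- Number of points in 2-cycles. -/
noncomputable def u (g : G) : ℕ := Nat.card {a : Ω // g • g • a = a ∧ g • a ≠ a}

omit [Fintype G] in
theorem c0 (k : ℕ) (g : G) : Nat.card {e : Fin k ↪ Ω // ∀ i, g • e i = e ((1 : Perm (Fin k)) i)} =
    (f Ω g).descFactorial k := by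
  classical
  refine (Nat.card_congr (Equiv.codRestrict (Fin k) (fixedBy Ω g))).trans ?_
  rw [Nat.card_eq_fintype_card,
    Fintype.card_embedding_eq, f, Nat.card_eq_fintype_card, Fintype.card_fin]

omit [Fintype G] in
theorem c1 (k : ℕ) (g : G) : Nat.card {e : Fin (k + 2) ↪ Ω // ∀ i, g • e i = e (swap 0 1 i)} =
    u Ω g * (f Ω g).descFactorial k := by
  classical
  have s1 : ∀ i : Fin k, swap (0 : Fin (k + 2)) 1 i.succ.succ = i.succ.succ := fun i =>
    swap_apply_of_ne_of_ne (Fin.succ_ne_zero _) (Fin.succ_succ_ne_one _)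
  rw [← c0, u, ← Nat.card_prod]
  refine Nat.card_congr (Equiv.ofBijective (fun e => (⟨e.1 0, by
      rw [e.2, e.2]; simp, by rw [e.2]; simp⟩, ⟨⟨fun i => e.1 i.succ.succ, fun i j h =>
        Fin.succ_injective _ (Fin.succ_injective _ (e.1.injective h))⟩,
      fun i => (e.2 _).trans (congrArg e.1 (s1 i))⟩)) ⟨fun e e' h => ?_, fun ⟨a, e⟩ => ?_⟩)
  · have h0 : e.1 0 = e'.1 0 := congrArg (fun x => x.1.1) h
    refine Subtype.ext (Function.Embedding.ext (Fin.forall_fin_succ.2 ⟨h0,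
      Fin.forall_fin_succ.2 ⟨?_, fun i => congrArg (fun x => x.2.1 i) h⟩⟩))
    have := congrArg (g • ·) h0
    simpa [e.2, e'.2] using this
  · have he : ∀ i, g • e.1 i = e.1 i := e.2
    refine ⟨⟨⟨Fin.cons a.1 (Fin.cons (g • a.1) e.1), ?_⟩, ?_⟩, rfl⟩
    · rw [Fin.cons_injective_iff, Fin.cons_injective_iff, Fin.range_cons]
      refine ⟨?_, ?_, e.1.injective⟩
      · rintro (h | ⟨i, h⟩)
        · exact a.2.2 h.symm
        · exact a.2.2 (h ▸ he i)
      · rintro ⟨i, h⟩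
        exact a.2.2 (a.2.1.symm.trans (h ▸ he i)).symm
    · refine Fin.forall_fin_succ.2 ⟨by simp, Fin.forall_fin_succ.2 ⟨?_, fun i => ?_⟩⟩
      · simpa using a.2.1
      · rw [s1]; exact he i

omit [Fintype G] in
theorem c2 (g : G) : Nat.card {e : Fin 4 ↪ Ω // ∀ i, g • e i = e ((swap 0 1 * swap 2 3 : Perm (Fin 4)) i)}
    + 2 * u Ω g = u Ω g * u Ω g := by
  classical
  have s0 : (swap 0 1 * swap 2 3 : Perm (Fin 4)) 0 = 1 := by decide
  have s1 : (swap 0 1 * swap 2 3 : Perm (Fin 4)) 1 = 0 := by decide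
  have s2 : (swap 0 1 * swap 2 3 : Perm (Fin 4)) 2 = 3 := by decide
  have s3 : (swap 0 1 * swap 2 3 : Perm (Fin 4)) 3 = 2 := by decide
  have h : Nat.card {e : Fin 4 ↪ Ω // ∀ i, g • e i = e ((swap 0 1 * swap 2 3 : Perm (Fin 4)) i)} =
      Nat.card (Σ a : {a : Ω // g • g • a = a ∧ g • a ≠ a},
        {c : {a : Ω // g • g • a = a ∧ g • a ≠ a} // c.1 ≠ a.1 ∧ c.1 ≠ g • a.1}) := by
    refine Nat.card_congr (Equiv.ofBijective (fun e => ⟨⟨e.1 0, by
      rw [e.2, e.2, s0, s1], by rw [e.2, s0]; simp⟩, ⟨e.1 2, by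
      rw [e.2, e.2, s2, s3], by rw [e.2, s2]; simp⟩, by simp, by
        show e.1 2 ≠ g • e.1 0
        rw [e.2, s0]; simp⟩)
      ⟨fun e e' h => ?_, fun ⟨a, c, h1, h2⟩ => ?_⟩)
    · have h0 : e.1 0 = e'.1 0 := congrArg (fun x => x.1.1) h
      have h2 : e.1 2 = e'.1 2 := congrArg (fun x => x.2.1.1) h
      have h1 := congrArg (g • ·) h0
      have h3 := congrArg (g • ·) h2
      simp only [e.2, e'.2, s0, s2] at h1 h3
      refine Subtype.ext (Function.Embedding.ext fun i => ?_)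
      fin_cases i <;> assumption
    · have h3 : g • c.1 ≠ a.1 := fun e => h2 (by rw [← e, c.2.1])
      have h4 : g • c.1 ≠ g • a.1 := fun e => h1 (by simpa using e)
      refine ⟨⟨⟨![a.1, g • a.1, c.1, g • c.1], fun i j => ?_⟩, fun i => ?_⟩, rfl⟩
      · fin_cases i <;> fin_cases j <;>
          simp [a.2.2, c.2.2, h1, h2, h3, a.2.2.symm, c.2.2.symm, h1.symm, h2.symm, h3.symm]
      · fin_cases i
        exacts [rfl, a.2.1, rfl, c.2.1]
  rw [h, Nat.card_sigma, u, Nat.card_eq_fintype_card, mul_comm 2, ← smul_eq_mul, ← smul_eq_mul,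
    ← Finset.card_univ, ← Finset.sum_const, ← Finset.sum_const, ← Finset.sum_add_distrib]
  refine Finset.sum_congr rfl fun a _ => ?_
  let b : {a : Ω // g • g • a = a ∧ g • a ≠ a} := ⟨g • a.1, by rw [a.2.1], by
    rw [a.2.1]; exact a.2.2.symm⟩
  have hab : a ≠ b := fun e => a.2.2 (congrArg Subtype.val e).symm
  rw [← Finset.card_pair hab, Nat.card_eq_fintype_card, Fintype.card_subtype,
    ← Finset.card_sdiff_add_card_eq_card (Finset.subset_univ {a, b})]
  congr 2
  ext c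
  simp [b, Subtype.ext_iff]

omit [Fintype G] in
theorem f_sq (g : G) : f Ω (g * g) = f Ω g + u Ω g := by
  classical
  rw [f, f, u, ← Nat.card_sum]
  refine Nat.card_congr ((Equiv.sumCompl fun a : fixedBy Ω (g * g) => g • a.1 = a.1).symm.trans
    (Equiv.sumCongr ⟨fun a => ⟨a.1.1, a.2⟩, fun a => ⟨⟨a.1, by
      have : g • a.1 = a.1 := a.2
      rw [mem_fixedBy, mul_smul, this, this]⟩, a.2⟩, fun _ => rfl, fun _ => rfl⟩
    ⟨fun a => ⟨a.1.1, by rw [← mul_smul]; exact a.1.2, a.2⟩, fun a => ⟨⟨a.1, by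
      rw [mem_fixedBy, mul_smul]; exact a.2.1⟩, a.2.2⟩, fun _ => rfl, fun _ => rfl⟩))

theorem irr (h : IsMultiplyPretransitive G Ω 4) (hk : 4 ≤ Fintype.card Ω) :
    IsIrrCharacter G (fun g => ((f Ω g : ℂ) ^ 2 - 3 * f Ω g + u Ω g) / 2) ∧
    IsIrrCharacter G (fun g => ((f Ω g : ℂ) ^ 2 - 3 * f Ω g + 2 - u Ω g) / 2) := by
  have ht : ∀ k, k ≤ 4 → IsMultiplyPretransitive G Ω k := fun k hk' =>
    isMultiplyPretransitive_of_le hk' (by simpa using hk)
  have m0 : ∀ k, k ≤ 4 → ∑ g : G, ((f Ω g).descFactorial k : ℂ) = Nat.card G := fun k hk' => by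
    rw [← moment (ht k hk') (hk'.trans hk) 1]; simp only [c0, Nat.cast_sum]
  have m1 : ∀ k, k + 2 ≤ 4 → ∑ g : G, (u Ω g * (f Ω g).descFactorial k : ℂ) = Nat.card G :=
    fun k hk' => by
      rw [← moment (ht _ hk') (hk'.trans hk) (swap 0 1)]; simp only [c1, Nat.cast_sum, Nat.cast_mul]
  have m2 : ∑ g : G, (u Ω g * u Ω g - 2 * u Ω g : ℂ) = Nat.card G := by
    rw [← moment h hk (swap 0 1 * swap 2 3), Nat.cast_sum]
    refine Finset.sum_congr rfl fun g _ => ?_
    have := congrArg (Nat.cast (R := ℂ)) (c2 (Ω := Ω) g)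
    rw [Nat.cast_add, Nat.cast_mul, Nat.cast_mul, Nat.cast_two] at this
    linear_combination -this
  have d : ∀ (a k : ℕ), (a.descFactorial k : ℂ) = ∏ i ∈ Finset.range k, ((a : ℂ) - i) := fun a k => by
    rw [← descPochhammer_eval_eq_descFactorial ℂ, descPochhammer_eval_eq_prod_range]
  have a0 := m0 0 (by omega)
  have a1 := m0 1 (by omega)
  have a2 := m0 2 (by omega)
  have a3 := m0 3 (by omega)
  have a4 := m0 4 (by omega)
  have b0 := m1 0 (by omega)
  have b1 := m1 1 (by omega)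
  have b2 := m1 2 (by omega)
  simp only [d, Finset.prod_range_succ, Finset.prod_range_zero] at a0 a1 a2 a3 a4 b0 b1 b2
  have hG : (Nat.card G : ℂ) ≠ 0 := Nat.cast_ne_zero.2 Nat.card_pos.ne'
  have hπ := isCharacter_card_fixedBy (G := G) Ω
  have hf1 : f Ω (1 : G) = Fintype.card Ω := by simp [f]
  have hu1 : u Ω (1 : G) = 0 := by simp [u]
  have hk' : (4 : ℝ) ≤ Fintype.card Ω := by exact_mod_cast hk
  constructor
  · refine IsGeneralizedCharacter.isIrrCharacter_of_pos ?_ ?_ ?_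
    · convert (hπ.symSq.isGeneralizedCharacter.sub hπ.isGeneralizedCharacter).sub
        hπ.isGeneralizedCharacter using 1
      ext g
      have := f_sq (Ω := Ω) g
      simp only [f] at this
      simp only [symSq, Pi.sub_apply, this, f]; push_cast; ring
    · rw [classInner, inv_mul_eq_one₀ hG]
      simp only [map_div₀, map_sub, map_add, map_mul, map_pow, map_natCast, map_ofNat]
      have := congrArg₂ (· + ·) (congrArg₂ (· + ·) (congrArg₂ (· + ·) a4 (congrArg (-2 * ·) a2))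
        (congrArg₂ (· + ·) (congrArg (4 * ·) a1) (congrArg (2 * ·) b2)))
        (congrArg₂ (· + ·) (congrArg₂ (· + ·) (congrArg (-4 * ·) b1) (congrArg (2 * ·) b0)) m2)
      simp only [Finset.mul_sum, ← Finset.sum_add_distrib] at this
      rw [eq_comm, ← mul_left_inj' (by norm_num : (4 : ℂ) ≠ 0), Finset.sum_mul]
      refine (Finset.sum_congr rfl fun g _ => ?_).trans (this.trans (by ring))
      push_cast; ring
    · rw [hf1, hu1]
      have : ((((Fintype.card Ω : ℕ) : ℂ) ^ 2 - 3 * (Fintype.card Ω : ℕ) + (0 : ℕ)) / 2) =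
        (((Fintype.card Ω : ℝ) ^ 2 - 3 * Fintype.card Ω) / 2 : ℝ) := by push_cast; ring
      rw [this, Complex.ofReal_re]; nlinarith
  · refine IsGeneralizedCharacter.isIrrCharacter_of_pos ?_ ?_ ?_
    · convert (hπ.altSq.isGeneralizedCharacter.sub hπ.isGeneralizedCharacter).add
        isGeneralizedCharacter_one using 1
      ext g
      have := f_sq (Ω := Ω) g
      simp only [f] at this
      simp only [altSq, Pi.sub_apply, Pi.add_apply, this, f]; push_cast; ring
    · rw [classInner, inv_mul_eq_one₀ hG]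
      simp only [map_div₀, map_sub, map_add, map_mul, map_pow, map_natCast, map_ofNat]
      have := congrArg₂ (· + ·) (congrArg₂ (· + ·) (congrArg₂ (· + ·) a4 (congrArg (2 * ·) a2))
        (congrArg₂ (· + ·) (congrArg₂ (· + ·) (congrArg (-4 * ·) a1) (congrArg (4 * ·) a0))
          (congrArg (-2 * ·) b2)))
        (congrArg₂ (· + ·) (congrArg₂ (· + ·) (congrArg (4 * ·) b1) (congrArg (-2 * ·) b0)) m2)
      simp only [Finset.mul_sum, ← Finset.sum_add_distrib] at this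
      rw [eq_comm, ← mul_left_inj' (by norm_num : (4 : ℂ) ≠ 0), Finset.sum_mul]
      refine (Finset.sum_congr rfl fun g _ => ?_).trans (this.trans (by ring))
      push_cast; ring
    · rw [hf1, hu1]
      have : ((((Fintype.card Ω : ℕ) : ℂ) ^ 2 - 3 * (Fintype.card Ω : ℕ) + 2 - (0 : ℕ)) / 2) =
        (((Fintype.card Ω : ℝ) ^ 2 - 3 * Fintype.card Ω + 2) / 2 : ℝ) := by push_cast; ring
      rw [this, Complex.ofReal_re]; nlinarith

end

theorem key {n : ℕ} (hn : 7 ≤ n) (x : alternatingGroup (Fin n))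
    (h : (f (Fin n) x.1 ≤ 3 ∧ u (Fin n) x.1 = 0) ∨ (f (Fin n) x.1 = 1 ∧ u (Fin n) x.1 = 2)) :
    ∃ χ : IrrCharacter (alternatingGroup (Fin n)), (χ : alternatingGroup (Fin n) → ℂ) x = 0 ∧
      ∃ ψ : IrrCharacter (Perm (Fin n)), ∀ x : alternatingGroup (Fin n),
        (ψ : Perm (Fin n) → ℂ) x = (χ : alternatingGroup (Fin n) → ℂ) x := by
  haveI := alternatingGroup.isMultiplyPretransitive (Fin n)
  obtain ⟨a1, a2⟩ := irr (G := alternatingGroup (Fin n)) (Ω := Fin n)
    (isMultiplyPretransitive_of_le (n := Nat.card (Fin n) - 2) (by simp; omega) (by omega))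
    (by simp; omega)
  obtain ⟨b1, b2⟩ := irr (Perm.isMultiplyPretransitive (Fin n) 4) (by simp; omega)
  have e1 : f (Fin n) x = f (Fin n) x.1 := rfl
  have e2 : u (Fin n) x = u (Fin n) x.1 := rfl
  by_cases hh : u (Fin n) x.1 = 0 ∧ (f (Fin n) x.1 = 1 ∨ f (Fin n) x.1 = 2)
  · refine ⟨⟨_, a2⟩, ?_, ⟨_, b2⟩, fun _ => rfl⟩
    rcases hh with ⟨h1, h2 | h2⟩ <;> simp only [e1, e2, h1, h2] <;> norm_num
  · refine ⟨⟨_, a1⟩, ?_, ⟨_, b1⟩, fun _ => rfl⟩
    have : (u (Fin n) x.1 = 0 ∧ (f (Fin n) x.1 = 0 ∨ f (Fin n) x.1 = 3)) ∨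
      (f (Fin n) x.1 = 1 ∧ u (Fin n) x.1 = 2) := by omega
    rcases this with ⟨h1, h2 | h2⟩ | ⟨h2, h1⟩ <;> simp only [e1, e2, h1, h2] <;> norm_num

theorem mk {n : ℕ} (m : Multiset ℕ) (h1 : m.sum ≤ n) (h2 : n ≤ m.sum + 3) (h3 : ∀ a ∈ m, 3 ≤ a)
    (h4 : Even (m.sum + m.card)) : ∃ x : alternatingGroup (Fin n), orderOf x = m.lcm ∧
      f (Fin n) x.1 ≤ 3 ∧ u (Fin n) x.1 = 0 := by
  obtain ⟨g, rfl⟩ := (Perm.exists_with_cycleType_iff (Fin n) (m := m)).2
    ⟨by simpa using h1, fun a ha => (by omega : 2 ≤ 3).trans (h3 a ha)⟩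
  refine ⟨⟨g, by rw [Perm.mem_alternatingGroup, Perm.sign_of_cycleType, h4.neg_one_pow]⟩,
    by rw [Perm.lcm_cycleType, ← Subgroup.orderOf_coe], ?_, ?_⟩
  · have := g.card_fixedPoints
    have e : f (Fin n) g = Fintype.card (Function.fixedPoints g) := Nat.card_eq_fintype_card
    rw [Fintype.card_fin] at this
    simp only [e]; omega
  · rw [u, Nat.card_eq_zero]
    refine Or.inl ⟨fun ⟨a, ha1, ha2⟩ => ?_⟩
    have hc := Perm.isCycle_cycleOf g ha2
    have h5 := (hc.pow_eq_one_iff' (n := 2) (x := a) (by rwa [Perm.cycleOf_apply_self])).2 (by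
      rw [Perm.cycleOf_pow_apply_self]; exact ha1)
    have h6 := Nat.le_of_dvd two_pos (orderOf_dvd_of_pow_eq_one h5)
    rw [hc.orderOf] at h6
    have := h3 (g.cycleOf a).support.card (by
      rw [Perm.cycleType_def]
      exact Multiset.mem_map_of_mem _ (Finset.mem_def.1 ((Perm.cycleOf_mem_cycleFactorsFinset_iff
        (f := g)).2 (Perm.mem_support.2 ha2))))
    omega

/-- For n ≥ 7 the alternating group on n letters has an irreducible character that vanishes at some 2-element and is the restriction of an irreducible character of the symmetric group, and an irreducible character that vanishes at some element of order 3 and is the restriction of an irreducible character of the symmetric group. -/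
theorem result (n : ℕ) (hn : 7 ≤ n) : (∃ χ : Cfsg.IrrCharacter (alternatingGroup (Fin n)), (∃ x : alternatingGroup (Fin n), (∃ j : ℕ, orderOf x = 2 ^ j) ∧ (χ : alternatingGroup (Fin n) → ℂ) x = 0) ∧ ∃ ψ : Cfsg.IrrCharacter (Equiv.Perm (Fin n)), ∀ x : alternatingGroup (Fin n), (ψ : Equiv.Perm (Fin n) → ℂ) x = (χ : alternatingGroup (Fin n) → ℂ) x) ∧ (∃ χ : Cfsg.IrrCharacter (alternatingGroup (Fin n)), (∃ y : alternatingGroup (Fin n), orderOf y = 3 ∧ (χ : alternatingGroup (Fin n) → ℂ) y = 0) ∧ ∃ ψ : Cfsg.IrrCharacter (Equiv.Perm (Fin n)), ∀ x : alternatingGroup (Fin n), (ψ : Equiv.Perm (Fin n) → ℂ) x = (χ : alternatingGroup (Fin n) → ℂ) x) := by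
  haveI := Fact.mk Nat.prime_two
  constructor
  · have : ∃ x : alternatingGroup (Fin n), (∃ j : ℕ, orderOf x = 2 ^ j) ∧
        ((f (Fin n) x.1 ≤ 3 ∧ u (Fin n) x.1 = 0) ∨ (f (Fin n) x.1 = 1 ∧ u (Fin n) x.1 = 2)) := by
      rcases hn.eq_or_lt with rfl | hn
      · refine ⟨⟨swap 0 1 * swap 1 2 * swap 2 3 * swap 4 5, Perm.mem_alternatingGroup.2 (by decide)⟩,
          ⟨2, orderOf_eq_prime_pow (by decide) (by decide)⟩, Or.inr ⟨?_, ?_⟩⟩
        · rw [f, Nat.card_eq_fintype_card]; decide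
        · rw [u, Nat.card_eq_fintype_card]; decide
      · have pw : ∀ m : Multiset ℕ, (∀ a ∈ m, a ∣ 2 ^ 3) → ∃ j, m.lcm = 2 ^ j := fun m hm => by
          obtain ⟨j, -, h⟩ := (Nat.dvd_prime_pow Nat.prime_two).1 (Multiset.lcm_dvd.2 hm)
          exact ⟨j, h⟩
        rcases Nat.even_or_odd' (n / 4) with ⟨k, hk | hk⟩
        · obtain ⟨x, h1, h2⟩ := mk (n := n) (Multiset.replicate (2 * k) 4) (by simp; omega)
            (by simp; omega) (fun a ha => by rw [Multiset.eq_of_mem_replicate ha]; omega)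
            (by simp [Nat.even_iff]; omega)
          exact ⟨x, h1 ▸ pw _ fun a ha => by rw [Multiset.eq_of_mem_replicate ha]; norm_num, Or.inl h2⟩
        · have hm : ∀ a ∈ 8 ::ₘ Multiset.replicate (2 * k - 1) 4, a = 8 ∨ a = 4 := fun a ha =>
            (Multiset.mem_cons.1 ha).imp_right Multiset.eq_of_mem_replicate
          obtain ⟨x, h1, h2⟩ := mk (n := n) (8 ::ₘ Multiset.replicate (2 * k - 1) 4)
            (by simp; omega) (by simp; omega) (fun a ha => by rcases hm a ha with h | h <;> omega)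
            (by simp [Nat.even_iff]; omega)
          exact ⟨x, h1 ▸ pw _ fun a ha => by rcases hm a ha with h | h <;> norm_num [h], Or.inl h2⟩
    obtain ⟨x, h1, h2⟩ := this
    obtain ⟨χ, h3, h4⟩ := key hn x h2
    exact ⟨χ, ⟨x, h1, h3⟩, h4⟩
  · obtain ⟨x, h1, h2⟩ := mk (n := n) (Multiset.replicate (n / 3) 3) (by simp; omega)
      (by simp; omega) (fun a ha => by rw [Multiset.eq_of_mem_replicate ha])
      (by simp [Nat.even_iff]; omega)
    obtain ⟨χ, h3, h4⟩ := key hn x (Or.inl h2)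
    refine ⟨χ, ⟨x, h1.trans (Nat.dvd_antisymm (Multiset.lcm_dvd.2 fun a ha => ?_)
      (Multiset.dvd_lcm (Multiset.mem_replicate.2 ⟨by omega, rfl⟩))), h3⟩, h4⟩
    rw [Multiset.eq_of_mem_replicate ha]

end Cfsg.Agent.S4560
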