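import Cfsg.Statements.S4563
import Cfsg.Agent.CH.FullRam
import Cfsg.Agent.CharDeep.Clifford

set_option autoImplicit false
open Cfsg

namespace Cfsg.Agent.S4563

open Cfsg.Agent.BG Cfsg.Agent.PF Cfsg.Agent.PF.CH

/-- Let χ be an irreducible character of the finite group H that is fully ramified over the normal subgroup Z: the restriction of χ to Z is e times an irreducible character of Z with e ^ 2 equal to the index of Z. If K is a proper normal subgroup of H containing Z and χ is induced from a character of K, then H/K is solvable; in particular, if K is solvable then so is H. -/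
theorem result {H : Type*} [Group H] [Fintype H] (Z : Subgroup H) [Z.Normal] (χ : Cfsg.IrrCharacter H) (hfr : ∃ (θ : Cfsg.IrrCharacter ↥Z) (e : ℕ), e ^ 2 = Z.index ∧ ∀ z : ↥Z, (χ : H → ℂ) z = (e : ℂ) * (θ : ↥Z → ℂ) z) (K : Subgroup H) [K.Normal] [Fintype K] (hZK : Z ≤ K) (hK : K ≠ ⊤) (φ : ↥K → ℂ) (hφ : Cfsg.IsCharacter ↥K φ) (hind : Cfsg.indFun K φ = (χ : H → ℂ)) : Group.IsSolvable (H ⧸ K) ∧ (Group.IsSolvable ↥K → Group.IsSolvable H) := by
  obtain ⟨θ, e, h, he⟩ := fr_of Z χ hfr
  have h1 : ext K φ ∈ Irr K := ext_mem_Irr.2 (CharDeep.isIrr_of_isIrr_indFun K hφ (hind ▸ χ.2))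
  have h2 : Group.IsSolvable (H ⧸ K) := by
    refine Solv.isSolvable_of_forall_exists_hall fun p hp _ => ?_
    haveI := Fact.mk hp
    obtain ⟨S⟩ : Nonempty (Sylow p H) := inferInstance
    obtain ⟨M, hM⟩ := h.compl_of_ind hZK S h1 (by rw [Ind_ext, hind, he])
    refine ⟨M, (Solv.isPiHall_compl_singleton_iff hp).2 ⟨?_, ?_⟩⟩
    · rw [← hM.index_eq_card]
      exact ((Nat.Prime.coprime_iff_not_dvd hp).2
        (S.mapSurjective (QuotientGroup.mk'_surjective K)).not_dvd_index).symm
    · rw [hM.symm.index_eq_card]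
      exact (S.isPGroup'.map _).exists_card_eq
  exact ⟨h2, fun _ => Solv.isSolvable_of_normal_of_quotient K⟩

end Cfsg.Agent.S4563
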