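import Cfsg.Statements.S4565
import Cfsg.Agent.CH.FullRam

set_option autoImplicit false
open Cfsg

namespace Cfsg.Agent.S4565

open Cfsg.Agent.BG Cfsg.Agent.PF Cfsg.Agent.PF.CH

/-- Let χ be an irreducible character of the finite group H that is fully ramified over the normal subgroup Z: the restriction of χ to Z is e times an irreducible character of Z with e ^ 2 equal to the index of Z. If Z ≠ H, then H/Z has no cyclic subgroup that is its own centralizer. -/
theorem result {H : Type*} [Group H] [Finite H] (Z : Subgroup H) [Z.Normal] (χ : Cfsg.IrrCharacter H) (hfr : ∃ (θ : Cfsg.IrrCharacter ↥Z) (e : ℕ), e ^ 2 = Z.index ∧ ∀ z : ↥Z, (χ : H → ℂ) z = (e : ℂ) * (θ : ↥Z → ℂ) z) (hZ : Z ≠ ⊤) (C : Subgroup (H ⧸ Z)) (hC : IsCyclic C) : Subgroup.centralizer (C : Set (H ⧸ Z)) ≠ C := by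
  intro hc
  obtain ⟨θ, e, h, -⟩ := fr_of Z χ hfr
  obtain ⟨a, rfl⟩ := (Subgroup.isCyclic_iff_exists_zpowers_eq_top _).1 hC
  obtain ⟨x, rfl⟩ := QuotientGroup.mk'_surjective Z a
  have key : ∀ y : H, y * x * y⁻¹ * x⁻¹ ∈ Z → y ∈ Z ⊔ Subgroup.zpowers x := by
    intro y hy
    have h1 : QuotientGroup.mk' Z y ∈ Subgroup.zpowers (QuotientGroup.mk' Z x) := by
      rw [← hc, Loc.centralizer_zpowers, Subgroup.mem_centralizer_singleton_iff, ← mul_inv_eq_one]
      rw [← QuotientGroup.eq_one_iff] at hy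
      simpa [mul_assoc] using hy
    obtain ⟨n, hn⟩ := h1
    have : y * (x ^ n)⁻¹ ∈ Z := by
      refine (QuotientGroup.eq_one_iff _).1 ?_
      simp only [QuotientGroup.mk'_apply] at hn
      simp [← hn]
    simpa using Subgroup.mul_mem_sup this (Subgroup.zpow_mem_zpowers x n)
  have hx := h.no_good le_rfl (normal_top Z) h.irr (by rw [dot_Irr_self h.irr]; exact one_ne_zero)
    (Subgroup.mem_top x) (h.inv trivial) fun y _ _ => key y
  refine hZ (eq_top_iff.2 fun y _ => (sup_le le_rfl (Subgroup.zpowers_le.2 hx) : _ ≤ Z) (key y ?_))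
  exact Z.mul_mem (Subgroup.Normal.conj_mem inferInstance x hx y) (Z.inv_mem hx)

end Cfsg.Agent.S4565
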