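import Cfsg.Statements.S4566
import Cfsg.Agent.Char.Misc

set_option autoImplicit false
open Cfsg

namespace Cfsg.Agent.S4566

open Cfsg.Agent.Char

/-- Let N be a central subgroup of the finite group G, ψ a faithful irreducible (hence degree-one) character of N, and χ an irreducible character of G whose restriction to N contains ψ. If g ∈ G and some x ∈ G has commutator x⁻¹ g⁻¹ x g in N but different from 1, then χ g = 0. -/
theorem result {G : Type*} [Group G] [Fintype G] (N : Subgroup G) [Fintype N] (hN : N ≤ Subgroup.center G) (ψ : Cfsg.IrrCharacter ↥N) (hfaith : ∀ n : ↥N, (ψ : ↥N → ℂ) n = (ψ : ↥N → ℂ) 1 → n = 1) (χ : Cfsg.IrrCharacter G) (hover : Cfsg.classInner (fun n : ↥N => (χ : G → ℂ) n) (ψ : ↥N → ℂ) ≠ 0) (g x : G) (hcomm : x⁻¹ * g⁻¹ * x * g ∈ N) (hne : x⁻¹ * g⁻¹ * x * g ≠ 1) : (χ : G → ℂ) g = 0 := by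
  obtain ⟨lam, hlam⟩ := χ.2.exists_hom_of_le_center N hN
  have hres : (fun n : N => (χ : G → ℂ) n) = (χ : G → ℂ) 1 • fun n : N => (lam n : ℂ) := by
    ext n
    have := hlam n 1
    rw [mul_one] at this
    simp [this, mul_comm]
  rw [hres, classInner_smul_left] at hover
  have hψ : (fun n : N => (lam n : ℂ)) = ψ.1 :=
    (isIrrCharacter_hom lam).eq_of_classInner_ne_zero ψ.2 (right_ne_zero_of_mul hover)
  set z : N := ⟨_, hcomm⟩ with hz
  have h1 : (lam z : ℂ) ≠ 1 := by
    intro h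
    apply hne
    have := hfaith z (by rw [← hψ]; simp [h])
    exact congrArg Subtype.val this
  have h2 := hlam z g⁻¹
  have h3 : (χ : G → ℂ) ((z : G) * g⁻¹) = (χ : G → ℂ) g⁻¹ := by
    have := χ.2.isClassFunction.apply_inv_mul_mul g⁻¹ x
    rw [← this]
    congr 1
    simp [hz]
  rw [h3] at h2
  have h4 : (χ : G → ℂ) g⁻¹ = 0 := by
    by_contra h
    apply h1
    exact mul_right_cancel₀ h (h2.symm.trans (one_mul _).symm)
  rw [χ.2.apply_inv] at h4
  simpa using h4

end Cfsg.Agent.S4566
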