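import Cfsg.Statements.S4567
import Cfsg.Agent.Block.Over

set_option autoImplicit false
open Cfsg

namespace Cfsg.Agent.S4567

open Cfsg.Agent.Block Cfsg.Agent.Char MonoidAlgebra

open Cfsg.Agent.CharDeep Subgroup
open scoped ComplexConjugate

theorem special_iff {G : Type*} [Group G] {N : Subgroup G} (hN : N ≤ center G) (g : G) :
    (∀ x : G, x⁻¹ * g⁻¹ * x * g ∈ N → x * g = g * x) ↔ ∀ n ∈ N, IsConj (n * g) g → n = 1 := by
  constructor
  · intro h n hn hc
    obtain ⟨c, hc⟩ := isConj_iff.mp hc
    have h1 : n * g = c⁻¹ * g * c := by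
      rw [mul_assoc c⁻¹, eq_inv_mul_iff_mul_eq, ← mul_inv_eq_iff_eq_mul, hc]
    have h2 := mem_center_iff.mp (hN hn)
    have h3 := h c (by
      have : c⁻¹ * g⁻¹ * c * g = n⁻¹ := by
        rw [eq_inv_iff_mul_eq_one, mul_assoc, h2, h1]; group
      rw [this]; exact inv_mem hn)
    rw [mul_assoc, ← h3] at h1
    simpa using h1
  · intro h x hx
    have h2 := mem_center_iff.mp (hN (inv_mem hx))
    have := h _ (inv_mem hx) (isConj_iff.mpr ⟨x, by rw [← h2]; group⟩)
    rw [inv_eq_one] at this
    calc x * g = g * x * (x⁻¹ * g⁻¹ * x * g) := by group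
      _ = _ := by rw [this, mul_one]

/-- Let N be a central subgroup of the finite group G and ψ a faithful irreducible (hence degree-one) character of N. Call a coset g N special when every x ∈ G whose commutator x⁻¹ g⁻¹ x g lies in N actually commutes with g (this depends only on the coset). Then the number of irreducible characters of G whose restriction to N contains ψ equals the number of conjugacy classes of G/N consisting of special cosets. -/
theorem result {G : Type*} [Group G] [Fintype G] (N : Subgroup G) [N.Normal] [Fintype N] (hN : N ≤ Subgroup.center G) (ψ : Cfsg.IrrCharacter ↥N) (hfaith : ∀ n : ↥N, (ψ : ↥N → ℂ) n = (ψ : ↥N → ℂ) 1 → n = 1) : Nat.card {χ : Cfsg.IrrCharacter G // Cfsg.classInner (fun n : ↥N => (χ : G → ℂ) n) (ψ : ↥N → ℂ) ≠ 0} = Nat.card {C : ConjClasses (G ⧸ N) // ∃ g : G, ConjClasses.mk (g : G ⧸ N) = C ∧ ∀ x : G, x⁻¹ * g⁻¹ * x * g ∈ N → x * g = g * x} := by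
  classical
  have hc : ∀ n ∈ N, ∀ x : G, x * n * x⁻¹ = n := fun n hn x => by
    rw [mem_center_iff.mp (hN hn) x]; simp
  simp only [special_iff hN]
  have hinv : ∀ g, conjN N g ψ.1 = ψ.1 := fun g => funext fun n =>
    congrArg ψ.1 (Subtype.ext (hc n n.2 g))
  obtain ⟨l, hl⟩ := ψ.2.exists_hom_of_comm fun a b => Subtype.ext (mem_center_iff.mp (hN b.2) a)
  have hconj : ∀ m ∈ N, ∀ a b : G, IsConj a b → IsConj (m * a) (m * b) := fun m hm a b h => by
    obtain ⟨c, rfl⟩ := isConj_iff.mp h
    exact isConj_iff.mpr ⟨c, by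
      conv_rhs => rw [← hc m hm c]
      group⟩
  set S := Finset.univ.filter
    (fun χ : IrrCharacter G => classInner (fun n : N => χ.1 n) ψ.1 ≠ 0) with hS
  let f : ConjClasses (G ⧸ N) → ℂ := fun C => if ∃ g : G, ConjClasses.mk (g : G ⧸ N) = C ∧
    ∀ n ∈ N, IsConj (n * g) g → n = 1 then 1 else 0
  have key : ∀ g : G, ∑ χ ∈ S, χ.1 g * conj (χ.1 g) =
      Nat.card (centralizer ({(g : G ⧸ N)} : Set (G ⧸ N))) • f (ConjClasses.mk (g : G ⧸ N)) := by
    intro g
    apply mul_left_cancel₀ (natCard_cast_ne_zero (G := G))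
    rw [sum_over_formula N ψ.2, (inertia_eq_top_iff N).2 hinv, index_top]
    let A : Subgroup N :=
      { carrier := {n | IsConj (n * g) g}
        one_mem' := by simpa only [Set.mem_ofPred_eq, coe_one, one_mul] using IsConj.refl g
        mul_mem' := fun {a b} ha hb => by
          simpa only [Set.mem_ofPred_eq, coe_mul, mul_assoc] using (hconj a a.2 _ _ hb).trans ha
        inv_mem' := fun {a} ha => by
          simpa using (hconj _ (inv_mem a.2) _ _ ha).symm }
    have h1 : ∑ x, conj (indFun N ψ.1 x) * (if IsConj (x * g) g then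
        (Nat.card (centralizer ({x * g} : Set G)) : ℂ) else 0) =
        N.index * Nat.card (centralizer ({g} : Set G)) * conj (∑ a : A, ψ.1 a) := by
      rw [← Finset.sum_subtype (Finset.univ.filter (· ∈ A)) (by simp), Finset.sum_filter, map_sum,
        Finset.mul_sum, ← Finset.sum_subset (Finset.subset_univ (Finset.univ.filter (· ∈ N)))
          (fun x _ hx => by rw [indFun_normal_of_not_mem N _ (by simpa using hx)]; simp),
        Finset.sum_subtype (p := (· ∈ N)) _ (by simp)]
      refine Finset.sum_congr rfl fun n _ => ?_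
      have e1 := congrFun (res_indFun_of_invariant N hinv) n
      have e2 : centralizer ({n * g} : Set G) = centralizer {g} := by
        ext x
        simp only [mem_centralizer_singleton_iff]
        rw [← mul_assoc, mem_center_iff.mp (hN n.2) x, mul_assoc, mul_assoc, mul_left_cancel_iff]
      simp only [e1, e2]
      by_cases h : n ∈ A
      · rw [if_pos h, if_pos (show IsConj (n * g) g from h)]; simp; ring
      · rw [if_neg h, if_neg (show ¬ IsConj (n * g) g from h)]; simp
    rw [h1]
    by_cases hg : ∀ n ∈ N, IsConj (n * g) g → n = 1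
    · have e1 : A = ⊥ := (eq_bot_iff_forall _).mpr fun n hn => Subtype.ext (hg n n.2 hn)
      have e2 : f (ConjClasses.mk (g : G ⧸ N)) = 1 := if_pos ⟨g, rfl, hg⟩
      have e3 : centralizer ({g} : Set G) =
          (centralizer ({(g : G ⧸ N)} : Set (G ⧸ N))).comap (QuotientGroup.mk' N) := by
        ext x
        simp only [mem_centralizer_singleton_iff, mem_comap, QuotientGroup.mk'_apply,
          ← QuotientGroup.mk_mul]
        refine ⟨fun h => by rw [h], fun h => (special_iff hN g).2 hg x ?_⟩
        simpa [mul_assoc] using QuotientGroup.eq.mp h.symm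
      have e4 : ∑ a : A, ψ.1 a = 1 := by
        haveI : Unique A := e1 ▸ inferInstance
        rw [Fintype.sum_unique, Subsingleton.elim (default : A) 1, hl]; simp
      have e5 : Nat.card (centralizer ({g} : Set G)) =
          Nat.card (centralizer ({(g : G ⧸ N)} : Set (G ⧸ N))) * Nat.card N := by
        have a1 := (centralizer ({g} : Set G)).card_mul_index
        have a2 := (centralizer ({(g : G ⧸ N)} : Set (G ⧸ N))).card_mul_index
        rw [e3, index_comap_of_surjective _ (QuotientGroup.mk'_surjective N), ← e3,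
          card_eq_card_quotient_mul_card_subgroup N, ← a2, mul_right_comm] at a1
        exact Nat.eq_of_mul_eq_mul_right (Nat.pos_of_ne_zero index_ne_zero_of_finite) a1
      rw [e2, e4, e5, ← N.index_mul_card, hl]
      simp; ring
    · have e2 : f (ConjClasses.mk (g : G ⧸ N)) = 0 := by
        refine if_neg ?_
        rintro ⟨g', h2, h3⟩
        refine hg fun n hn h => h3 n hn ?_
        obtain ⟨c, h4⟩ := isConj_iff.mp (ConjClasses.mk_eq_mk_iff_isConj.mp h2.symm)
        obtain ⟨c, rfl⟩ := QuotientGroup.mk_surjective c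
        have h5 := QuotientGroup.eq.mp h4
        obtain ⟨m, hm, rfl⟩ : ∃ m ∈ N, g' = m * (c * g * c⁻¹) :=
          ⟨_, h5, by rw [← mem_center_iff.mp (hN h5)]; simp [mul_assoc]⟩
        have h6 : IsConj g (c * g * c⁻¹) := isConj_iff.mpr ⟨c, rfl⟩
        rw [← mul_assoc, mem_center_iff.mp (hN hm), mul_assoc]
        exact hconj m hm _ _ (((hconj n hn _ _ h6).symm.trans h).trans h6)
      have e4 : ∑ a : A, ψ.1 a = 0 := by
        push Not at hg
        obtain ⟨n, hn, h2, h3⟩ := hg
        rw [hl]
        refine sum_hom_units_eq_zero ((Units.coeHom ℂ).comp (l.comp A.subtype)) fun h => h3 ?_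
        have := DFunLike.congr_fun h ⟨⟨n, hn⟩, h2⟩
        exact congrArg Subtype.val (hfaith ⟨n, hn⟩ (by rw [hl]; simpa using this))
      rw [e2, e4]; simp
  have k1 : ∑ g : G, ∑ χ ∈ S, χ.1 g * conj (χ.1 g) = Nat.card G * S.card := by
    rw [Finset.sum_comm, Finset.sum_congr rfl fun χ _ => by
      rw [← card_mul_classInner, χ.2.classInner_self]]
    simp [mul_comm]
  haveI := Fintype.ofFinite (ConjClasses (G ⧸ N))
  simp_rw [key] at k1
  have k2 := CharDeep.sum_comp_of_surjective (QuotientGroup.mk' N)
    (QuotientGroup.mk'_surjective N) fun q =>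
      Nat.card (centralizer ({q} : Set (G ⧸ N))) • f (ConjClasses.mk q)
  simp only [QuotientGroup.mk'_apply] at k2
  rw [k2, sum_card_centralizer_smul, QuotientGroup.ker_mk', nsmul_eq_mul, ← mul_assoc, ← Nat.cast_mul,
    mul_comm (Nat.card N), ← card_eq_card_quotient_mul_card_subgroup, Finset.sum_boole] at k1
  rw [Nat.card_eq_fintype_card, Nat.card_eq_fintype_card, Fintype.card_subtype,
    Fintype.card_subtype]
  exact_mod_cast (mul_left_cancel₀ (natCard_cast_ne_zero (G := G)) k1).symm

end Cfsg.Agent.S4567
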