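import Cfsg.Statements.S4574
import Cfsg.Agent.CharDeep.Avg

set_option autoImplicit false
open Cfsg

namespace Cfsg.Agent.S4574

open Cfsg.Agent.Char Cfsg.Agent.CharDeep

/-- Let χ be an irreducible character of the finite group G, of degree d, and let Z(χ) be the set of elements g with |χ g| = d (the centre of χ). Then χ vanishes on at least (d ^ 2 - 1) · |Z(χ)| elements of G, with equality when every value |χ g| is 0, 1 or d. -/
theorem result {G : Type*} [Group G] [Fintype G] [DecidableEq G] (χ : G → ℂ) (hχ : Cfsg.IsIrrCharacter G χ) : (Cfsg.charDegree χ ^ 2 - 1) * (Finset.univ.filter (fun g : G => ‖χ g‖ = (Cfsg.charDegree χ : ℝ))).card ≤ (Finset.univ.filter (fun g : G => χ g = 0)).card ∧ ((∀ g : G, ‖χ g‖ = 0 ∨ ‖χ g‖ = 1 ∨ ‖χ g‖ = (Cfsg.charDegree χ : ℝ)) → (Cfsg.charDegree χ ^ 2 - 1) * (Finset.univ.filter (fun g : G => ‖χ g‖ = (Cfsg.charDegree χ : ℝ))).card = (Finset.univ.filter (fun g : G => χ g = 0)).card) := by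
  classical
  have h1 := sum_norm_sq_add_card_le hχ (charCenter χ)
  have hZ : ∀ x, x ∈ charCenter χ ↔ ‖χ x‖ = charDegree χ := fun x => by
    rw [hχ.isCharacter.mem_charCenter, hχ.isCharacter.norm_apply_one]
  simp only [hZ] at h1
  set Z := Finset.univ.filter fun g : G => ‖χ g‖ = (charDegree χ : ℝ) with hZdef
  set O := Finset.univ.filter fun g : G => χ g = 0 with hO
  set S := Finset.univ.filter fun g : G => ¬ ‖χ g‖ = (charDegree χ : ℝ) ∧ χ g ≠ 0 with hS
  have hd := hχ.charDegree_pos
  have h2 : ∑ x ∈ Z, ‖χ x‖ ^ 2 = (charDegree χ : ℝ) ^ 2 * Z.card := by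
    rw [Finset.sum_congr rfl (g := fun _ => (charDegree χ : ℝ) ^ 2)
      (fun x hx => by rw [(Finset.mem_filter.1 hx).2]), Finset.sum_const, nsmul_eq_mul, mul_comm]
  have hO' : O = (Finset.univ.filter fun g : G => ¬ ‖χ g‖ = (charDegree χ : ℝ)).filter
      fun g => χ g = 0 := by
    ext g
    simp only [hO, Finset.mem_filter, Finset.mem_univ, true_and, iff_and_self]
    intro h h'
    rw [h, norm_zero] at h'
    have : charDegree χ = 0 := by exact_mod_cast h'.symm
    omega
  have h3 : Z.card + (O.card + S.card) = Nat.card G := by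
    rw [hO', hS, ← Finset.filter_filter, Finset.card_filter_add_card_filter_not,
      Finset.card_filter_add_card_filter_not, Finset.card_univ, Nat.card_eq_fintype_card]
  have h4 : (Z.card : ℝ) + (O.card + S.card) = Nat.card G := by exact_mod_cast h3
  have hd2 : 1 ≤ charDegree χ ^ 2 := Nat.one_le_pow _ _ hd
  refine ⟨?_, fun h => ?_⟩
  · have : (((charDegree χ ^ 2 - 1) * Z.card : ℕ) : ℝ) ≤ O.card := by
      push_cast [Nat.cast_sub hd2]
      linarith
    exact_mod_cast this
  · have h5 := hχ.sum_norm_sq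
    rw [← Finset.sum_filter_add_sum_filter_not Finset.univ
      (fun g => ‖χ g‖ = (charDegree χ : ℝ)), h2,
      ← Finset.sum_filter_add_sum_filter_not _ (fun g => χ g = 0), Finset.sum_eq_zero
        (fun g hg => by simp [(Finset.mem_filter.1 hg).2]), Finset.filter_filter,
      Finset.sum_congr rfl (g := fun _ => (1 : ℝ)) (fun g hg => by
        obtain ⟨-, h1, h2⟩ := Finset.mem_filter.1 hg
        rcases h g with h | h | h
        · exact absurd (norm_eq_zero.1 h) h2
        · rw [h, one_pow]
        · exact absurd h h1), Finset.sum_const, nsmul_eq_mul, mul_one] at h5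
    have : (((charDegree χ ^ 2 - 1) * Z.card : ℕ) : ℝ) = O.card := by
      push_cast [Nat.cast_sub hd2]
      linarith
    exact_mod_cast this

end Cfsg.Agent.S4574
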