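import Cfsg.Statements.S4575
import Cfsg.Agent.BMod.Par
-- import your own Cfsg.Agent.* helpers here

set_option autoImplicit false
open Cfsg

namespace Cfsg.Agent.S4575

open Cfsg.Agent.BMod Cfsg.Agent.Block Cfsg.Agent.Transfer Cfsg.Agent.Char Cfsg.Agent.CharDeep

/-- Let B be a 2-block of the finite group G (relative to a maximal ideal M of the algebraic integers containing 2) of defect d with defect group D. Let z be an element of D commuting with every element of D, and let b be a block of the centralizer of z with defect group D that induces B (a major subsection (z, b)). If the number of irreducible characters in B exceeds the 2-regular rank of b by at most three, then B contains at most 2 ^ d irreducible characters. -/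
theorem result {G : Type*} [Group G] [Finite G] (M : Ideal Cfsg.AlgInt) (hM : Cfsg.IsPModular 2 M) (B : Set (Cfsg.IrrCharacter G)) (hB : Cfsg.IsPBlock M B) (D : Subgroup G) (hD : Cfsg.IsDefectGroup 2 M B D) (z : G) (hzD : z ∈ D) (hzc : ∀ d ∈ D, d * z = z * d) (b : Set (Cfsg.IrrCharacter ↥(Subgroup.centralizer ({z} : Set G)))) (hb : Cfsg.IsInducedBlock M (Subgroup.centralizer ({z} : Set G)) b B) (hbD : Cfsg.IsDefectGroup 2 M b (D.subgroupOf (Subgroup.centralizer ({z} : Set G)))) (h : Nat.card B ≤ Cfsg.blockRank 2 b + 3) : Nat.card B ≤ 2 ^ Cfsg.blockDefect 2 B := by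
  haveI : PMod 2 M := ⟨hM⟩
  have := Fintype.ofFinite (Subgroup.centralizer ({z} : Set G))
  classical
  have hs := isSub_centralizer (p := 2) (x := z) (by
    simpa using IsPGroup.iff_orderOf.1 (IsDefectGroup.isPGroup hD) ⟨z, hzD⟩)
  have hd : blockDefect 2 b = blockDefect 2 B := by
    rw [← IsDefectGroup.factorization_card hb.1 hbD, ← IsDefectGroup.factorization_card hB hD,
      Nat.card_congr (Subgroup.subgroupOfEquivOfLe fun d hd =>
        Subgroup.mem_centralizer_singleton_iff.2 (hzc d hd)).toEquiv]
  obtain ⟨χ, hχ⟩ := IsPBlock.nonempty hB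
  by_cases h0 : blockDefect 2 B = 0
  · rw [h0, eq_singleton_of_defect_zero hB h0 hχ]
    simp
  obtain ⟨a, ha, hodd⟩ := hs.exists_av hb
  by_contra! hk
  have h1 : ∀ χ ∈ Finset.univ.filter (· ∈ B), 3 ≤ 2 ^ blockDefect 2 b - a χ := fun χ hχ => by
    have hχ := (Finset.mem_filter.1 hχ).2
    by_cases h1 : blockHeight 2 B χ.1 = 0
    · have h2 := ha.card_le_compl hs hb hd hχ h1 (hd ▸ h0)
      have h3 := (Int.even_pow.2 ⟨even_two, hd ▸ h0⟩ : Even (2 ^ blockDefect 2 b : ℤ)).sub_odd
        (hodd χ hχ h1)
      have h4 : 1 < 2 ^ blockDefect 2 b - a χ := lt_of_mul_lt_mul_left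
        (lt_of_lt_of_le (by rw [mul_one, hd]; exact_mod_cast hk) h2) (by positivity)
      rw [Int.odd_iff] at h3
      omega
    · have := ha.four_le_compl hs hb hd hχ h1
      omega
  have h2 := Finset.card_nsmul_le_sum _ _ _ h1
  rw [Finset.sum_sub_distrib, ha.sum_eq hs hb, Finset.sum_const, ← card_eq_filter, hd] at h2
  zify at h hk
  simp only [nsmul_eq_mul] at h2
  nlinarith [(by positivity : (0 : ℤ) < 2 ^ blockDefect 2 B)]

end Cfsg.Agent.S4575
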