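import Cfsg.Statements.S4580
import Cfsg.Agent.Block.Galois
import Cfsg.Agent.CharDeep.Gallagher

set_option autoImplicit false
open Cfsg

namespace Cfsg.Agent.S4580

open Cfsg.Agent.Block Cfsg.Agent.BMod Cfsg.Agent.Char MonoidAlgebra


/-- Let N be a normal subgroup of the finite group G, M a maximal ideal of the algebraic integers containing 2, and θ a real-valued irreducible character of N of odd degree that extends to G (some irreducible character of G restricts to θ). Then θ has an extension to G lying in the principal 2-block of G. -/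
theorem result {G : Type*} [Group G] [Finite G] (N : Subgroup G) [N.Normal] (M : Ideal Cfsg.AlgInt) (hM : Cfsg.IsPModular 2 M) (θ : Cfsg.IrrCharacter N) (hreal : ∀ n : N, ((θ : N → ℂ) n).im = 0) (hodd : Odd (Cfsg.charDegree (θ : N → ℂ))) (hext : ∃ η : Cfsg.IrrCharacter G, ∀ n : N, (η : G → ℂ) n = (θ : N → ℂ) n) :
    ∃ η : Cfsg.IrrCharacter G, (∀ n : N, (η : G → ℂ) n = (θ : N → ℂ) n) ∧ η ∈ Cfsg.principalBlock M G := by
  have : PMod 2 M := ⟨hM⟩
  obtain ⟨η, hη⟩ := hext
  have hN : IsIrrCharacter N (fun n : N => (η : G → ℂ) n) := by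
    rw [show (fun n : N => (η : G → ℂ) n) = θ from funext hη]; exact θ.2
  obtain ⟨lam, hl1, hl2⟩ := CharDeep.exists_hom_of_res_eq N η.2.isCharacter hN
    (barIrr η).2.isCharacter fun n => by
      rw [barIrr_apply, hη, Complex.conj_eq_iff_im.2 (hreal n)]
  obtain ⟨m, hm⟩ : ∃ m, ordCompl[2] (Nat.card G) = 2 * m + 1 :=
    Nat.odd_iff.2 (Nat.two_dvd_ne_zero.1 (Nat.not_dvd_ordCompl Nat.prime_two Nat.card_pos.ne'))
  have key : ∀ x : G, ¬ 2 ∣ orderOf x → lam x ^ (2 * m + 1) = 1 := fun x hx => by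
    rw [← hm, ← map_pow, orderOf_dvd_iff_pow_eq_one.1, map_one]
    have h1 := orderOf_dvd_natCard x
    rw [← Nat.ordProj_mul_ordCompl_eq_self (Nat.card G) 2] at h1
    exact ((Nat.Coprime.pow_right _ ((Nat.Prime.coprime_iff_not_dvd Nat.prime_two).2
      hx).symm)).dvd_of_dvd_mul_left h1
  refine ⟨⟨_, η.2.mul_hom (lam ^ (m + 1))⟩, fun n => by simp [hl1 n n.2, hη],
    mem_principal_of_real ?_ fun x hx => ?_⟩
  · rw [deg_eq_of_eq (n := charDegree (θ : N → ℂ)) (by
      simp only [map_one, Units.val_one, mul_one]; rw [deg_cast_irr]; exact hη 1)]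
    exact Nat.two_dvd_ne_zero.2 (Nat.odd_iff.1 hodd)
  · have h1 := congrFun hl2 x
    rw [barIrr_apply'] at h1
    have h2 : ((lam x : ℂˣ) : ℂ) ^ (2 * m + 1) = 1 := by
      rw [← Units.val_pow_eq_pow_val, key x hx, Units.val_one]
    have h3 : ((lam x : ℂˣ) : ℂ) ≠ 0 := Units.ne_zero _
    simp only [h1, MonoidHom.pow_apply, map_inv, inv_pow, Units.val_inv_eq_inv_val,
      Units.val_pow_eq_pow_val]
    field_simp
    linear_combination (-(η : G → ℂ) x * (lam x : ℂ)) * h2

end Cfsg.Agent.S4580
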