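import Cfsg.Statements.S4581
import Cfsg.Agent.Block.McK7

set_option autoImplicit false
open Cfsg

namespace Cfsg.Agent.S4581



open Cfsg.Agent.PF Cfsg.Agent.PF.CH Cfsg.Agent.BG

/-- Let G be a finite solvable group, P a Sylow 2-subgroup and N its normalizer. Then G and N have the same number of real-valued irreducible characters of odd degree; and every odd-degree irreducible character of G is real-valued exactly when the derived subgroup of P equals the Frattini subgroup of P and P is its own normalizer in G. -/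
theorem result {G : Type*} [Group G] [Finite G] [Group.IsSolvable G] (P : Sylow 2 G) :
    Nat.card {χ : Cfsg.IrrCharacter G // (∀ g : G, ((χ : G → ℂ) g).im = 0) ∧ Odd (Cfsg.charDegree (χ : G → ℂ))} =
      Nat.card {ψ : Cfsg.IrrCharacter (Subgroup.normalizer ((P : Subgroup G) : Set G)) // (∀ g, ((ψ : Subgroup.normalizer ((P : Subgroup G) : Set G) → ℂ) g).im = 0) ∧ Odd (Cfsg.charDegree (ψ : Subgroup.normalizer ((P : Subgroup G) : Set G) → ℂ))} ∧
    ((∀ χ : Cfsg.IrrCharacter G, Odd (Cfsg.charDegree (χ : G → ℂ)) → ∀ g : G, ((χ : G → ℂ) g).im = 0) ↔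
      (commutator (P : Subgroup G) = frattini (P : Subgroup G) ∧ Subgroup.normalizer ((P : Subgroup G) : Set G) = (P : Subgroup G))) := by
  classical
  have hr := relP_sylow (L := (⊥ : Subgroup G)) P
  rw [bot_sup_eq] at hr
  have hi := (sylowIn_top P).not_dvd
  have hν := one_mem_IrrFix (L := ⊥) (P := (P : Subgroup G)) (norm_of_normal _ _)
  have h1 := hr.mckay (pSol_of_sol Nat.prime_two) (normal_top ⊥) le_top hi hν
  have h2 := hr.mckay_real (normal_top ⊥) le_top hi hν (star_one' ⊥)
  rw [top_inf_eq, OverP_bot, OverP_bot] at h1 h2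
  have hs : ∀ {χ : G → ℂ}, star χ = χ ↔ ∀ g, (χ g).im = 0 := fun {χ} => by
    simp only [funext_iff, Pi.star_apply, ← Complex.conj_eq_iff_im]; rfl
  have ho : ∀ {n : ℕ}, ¬ 2 ∣ n ↔ Odd n := fun {n} => by rw [Nat.odd_iff, Nat.two_dvd_ne_zero]
  constructor
  · rw [Finset.filter_filter, Finset.filter_filter, card_filter_top, card_filter_Irr'] at h2
    refine (Nat.card_congr (Equiv.subtypeEquivRight fun χ => ?_)).trans
      (h2.trans (Nat.card_congr (Equiv.subtypeEquivRight fun χ => ?_)))
    · rw [hs, ho, and_comm]; rfl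
    · rw [hs, ho, and_comm, deg_ez]
      refine and_congr_left fun _ => ⟨fun h g => by simpa using h g, fun h g => ?_⟩
      by_cases hg : g ∈ N[(P : Subgroup G)]
      · rw [ez_of_mem χ hg, h]
      · rw [CF_zero (Irr_CF (ez_irr χ)) hg, Complex.zero_im]
  have key : ∀ H : Subgroup G, (∀ χ ∈ Irr H, ¬ 2 ∣ deg χ → star χ = χ) ↔
      (((Irr H).filter fun χ => ¬ 2 ∣ deg χ).filter fun χ => star χ = χ).card =
        ((Irr H).filter fun χ => ¬ 2 ∣ deg χ).card := fun H => by
    rw [Finset.card_filter_eq_iff]; simp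
  have h3 := all_real_iff (pHall_subl (normG (P : Subgroup G)) le_top (sylowIn_top P)) le_rfl
  rw [key, ← h1, ← h2, ← key, Phi, ← Subgroup.map_subtype_commutator,
    (Subgroup.map_injective (Subgroup.subtype_injective _)).eq_iff] at h3
  rw [← h3]
  exact ⟨fun h χ a b => hs.2 (h ⟨χ, mem_Irr_top.1 a⟩ (ho.1 b)),
    fun h χ a => hs.1 (h χ.1 (mem_Irr_top.2 χ.2) (ho.2 a))⟩

end Cfsg.Agent.S4581
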