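import Cfsg.Statements.S4582
import Cfsg.Agent.Invol.Transfer

set_option autoImplicit false
open Cfsg

namespace Cfsg.Agent.S4582

open scoped commutatorElement in
open Subgroup in

/-- Let N be a normal subgroup of the finite group G, P a Sylow 2-subgroup of G and Q = P ∩ N. Suppose that P/QP' and Q/Q' are elementary abelian (every square of an element of P lies in the subgroup generated by Q and the derived subgroup of P, and every square of an element of Q lies in the derived subgroup of Q), and that the commutator factor group N/N' has odd order. Then P/P' is elementary abelian. -/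
theorem result {G : Type*} [Group G] [Finite G] (N : Subgroup G) [N.Normal] (P : Sylow 2 G)
    (hP : ∀ x ∈ (P : Subgroup G), x ^ 2 ∈ ((P : Subgroup G) ⊓ N) ⊔ ⁅(P : Subgroup G), (P : Subgroup G)⁆)
    (hQ : ∀ x ∈ (P : Subgroup G) ⊓ N, x ^ 2 ∈ ⁅(P : Subgroup G) ⊓ N, (P : Subgroup G) ⊓ N⁆)
    (hodd : Odd (Nat.card (Abelianization N))) :
    ∀ x ∈ (P : Subgroup G), x ^ 2 ∈ ⁅(P : Subgroup G), (P : Subgroup G)⁆ := by
  intro x hx
  let H : Subgroup G := N ⊔ P
  have hPH : (P : Subgroup G) ≤ H := le_sup_right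
  let φ : (P : Subgroup G).subgroupOf H →* Abelianization P :=
    Abelianization.of.comp (subgroupOfEquivOfLe hPH).toMonoidHom
  have hk : ∀ y : P, Abelianization.of y = 1 ↔ (y : G) ∈ ⁅(P : Subgroup G), (P : Subgroup G)⁆ :=
    fun y => by
    rw [← MonoidHom.mem_ker, Abelianization.ker_of, ← map_subtype_commutator]
    exact ⟨fun h => ⟨y, h, rfl⟩, fun ⟨z, hz, e⟩ => Subtype.ext (e : (z : G) = y) ▸ hz⟩
  have hA : IsPGroup 2 (Abelianization P) := P.2.to_quotient _
  let V := MonoidHom.transfer φ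
  have h1 : ∀ g, MonoidHom.transfer ((powMonoidHom 2).comp φ) g = V g ^ 2 := fun g => by
    have : Fintype (Quotient (MulAction.orbitRel (zpowers g) (H ⧸ (P : Subgroup G).subgroupOf H))) :=
      Fintype.ofFinite _
    simp only [V, MonoidHom.transfer_eq_prod_quotient_orbitRel_zpowers_quot, ← Finset.prod_pow]
    rfl
  have h2 : (N ⊓ P ⊔ ⁅(P : Subgroup G), (P : Subgroup G)⁆) ≤ V.ker.map H.subtype := by
    refine sup_le (fun n hn => ⟨⟨n, hPH hn.2⟩, ?_, rfl⟩) (commutator_le.2 fun a ha b hb =>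
      ⟨⁅(⟨a, hPH ha⟩ : H), (⟨b, hPH hb⟩ : H)⁆, ?_, rfl⟩)
    · let f := Abelianization.lift (V.comp (inclusion (le_sup_left : N ≤ H)))
      obtain ⟨k, hk⟩ := hA (V ⟨n, hPH hn.2⟩)
      have h3 : V ⟨n, hPH hn.2⟩ ^ Nat.card (Abelianization N) = 1 := by
        rw [show V ⟨n, hPH hn.2⟩ = f (Abelianization.of ⟨n, hn.1⟩) from rfl, ← map_pow,
          pow_card_eq_one', map_one]
      exact orderOf_eq_one_iff.1 (Nat.eq_one_of_dvd_coprimes
        (Nat.Coprime.pow_left k (Nat.coprime_two_left.2 hodd)) (orderOf_dvd_of_pow_eq_one hk)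
        (orderOf_dvd_of_pow_eq_one h3))
    · exact (map_commutatorElement V _ _).trans (commutatorElement_eq_one_iff_mul_comm.2
        (mul_comm _ _))
  have h3 := Invol.transfer_eq_pow_of ((powMonoidHom 2).comp φ) ⟨⟨x, hPH hx⟩, hx⟩ fun k g hg => by
    obtain ⟨y, hy, n, hn, e⟩ := mem_sup_of_normal_right.1 ((sup_comm N P).le g.2)
    let a : P := ⟨_, hg⟩
    let b : P := ⟨y, hy⟩⁻¹ * ⟨x, hx⟩ ^ k * ⟨y, hy⟩
    have h3 : ((b⁻¹ * a : P) : G) ∈ N := by
      have h3 := N.mul_mem (‹N.Normal›.conj_mem _ (N.inv_mem hn) (b⁻¹ : P)) hn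
      convert h3 using 1
      simp [a, b, ← e, mul_assoc]
    have h4 := (hk ((b⁻¹ * a) ^ 2)).2 (commutator_mono inf_le_left inf_le_left
      (hQ _ ⟨(b⁻¹ * a).2, h3⟩))
    change Abelianization.of a ^ 2 = (Abelianization.of (⟨x, hx⟩ : P) ^ 2) ^ k
    rw [map_pow, map_mul, map_inv, mul_pow, inv_pow, inv_mul_eq_one] at h4
    rw [← h4, ← pow_mul, mul_comm, pow_mul]
    simp only [b, map_mul, map_inv, inv_mul_cancel_comm, map_pow]
  obtain ⟨z, hz, e⟩ := h2 (inf_comm N P ▸ hP x hx)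
  rw [h1, ← map_pow, show (_ : H) ^ 2 = z from Subtype.ext e.symm, hz] at h3
  obtain ⟨k, hk'⟩ := hA (Abelianization.of (⟨x, hx⟩ ^ 2 : P))
  have h4 : ¬ 2 ∣ ((P : Subgroup G).subgroupOf H).index := fun h =>
    P.not_dvd_index (h.trans (relIndex_dvd_index_of_le hPH))
  exact (hk (⟨x, hx⟩ ^ 2)).1 (orderOf_eq_one_iff.1 (Nat.eq_one_of_dvd_coprimes
    (Nat.Coprime.pow_left k ((Nat.Prime.coprime_iff_not_dvd Nat.prime_two).2 h4))
    (orderOf_dvd_of_pow_eq_one hk') (orderOf_dvd_of_pow_eq_one h3.symm)))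

end Cfsg.Agent.S4582
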