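import Cfsg.Statements.S4583
import Cfsg.Agent.Block.Count2

set_option autoImplicit false
open Cfsg

namespace Cfsg.Agent.S4583

open Cfsg.Agent.Block Cfsg.Agent.BMod Cfsg.Agent.Char MonoidAlgebra


/-- Let N be a normal subgroup of the finite group G, p a prime, M a maximal ideal of the algebraic integers containing p, and P a Sylow p-subgroup of G. Let θ be an irreducible character of N of degree prime to p lying in the principal p-block of N, and suppose θ extends to the subgroup NP (some irreducible character of NP restricts to θ). Then some irreducible character χ of G of degree prime to p in the principal p-block of G lies over θ (θ is a constituent of the restriction of χ to N). -/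
theorem result {G : Type*} [Group G] [Finite G] (N : Subgroup G) [N.Normal] (p : ℕ) [Fact p.Prime] (M : Ideal Cfsg.AlgInt) (hM : Cfsg.IsPModular p M) (P : Sylow p G)
    (θ : Cfsg.IrrCharacter N) (hθ : θ ∈ Cfsg.principalBlock M N) (hdeg : ¬ p ∣ Cfsg.charDegree (θ : N → ℂ))
    (hext : ∃ η : Cfsg.IrrCharacter ↥(N ⊔ (P : Subgroup G)), ∀ n : N, (η : ↥(N ⊔ (P : Subgroup G)) → ℂ) (Subgroup.inclusion le_sup_left n) = (θ : N → ℂ) n) :
    ∃ χ : Cfsg.IrrCharacter G, χ ∈ Cfsg.principalBlock M G ∧ ¬ p ∣ Cfsg.charDegree (χ : G → ℂ) ∧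
      haveI := Fintype.ofFinite N; Cfsg.classInner (fun n : N => (χ : G → ℂ) n) (θ : N → ℂ) ≠ 0 := by
  classical
  have : PMod p M := ⟨hM⟩
  have := Fintype.ofFinite G
  set H := N ⊔ (P : Subgroup G)
  obtain ⟨η, hη⟩ := hext
  have hNH : N ≤ H := le_sup_left
  have h0 := isPBlock_principalBlock (M := M) (G := H)
  have hθ' : subIrr hNH θ ∈ principalBlock M (N.subgroupOf H) := by
    rw [← image_mapIrr_principalBlock (Subgroup.subgroupOfEquivOfLe hNH).symm]
    exact ⟨θ, hθ, rfl⟩
  have h1 : (fun n : N.subgroupOf H => (η : H → ℂ) n) = subIrr hNH θ :=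
    funext fun n => hη ⟨n, n.2⟩
  have hη0 : η ∈ principalBlock M H := by
    obtain ⟨χ, h2, h3⟩ := Covers.exists_liesOver (N := N.subgroupOf H) ⟨_, irrOne_mem_principalBlock, _,
      irrOne_mem_principalBlock, liesOver_iff.2 (ne_of_eq_of_ne (irrOne _).2.classInner_self
        one_ne_zero)⟩ h0 isPBlock_principalBlock hθ'
    refine h0.mem_of_sameBlock h2 (sameBlock_of_liesOver (fun g hg => ?_) h3 (liesOver_iff.2 ?_))
    · obtain ⟨k, hk⟩ := P.isPGroup'.exists_card_eq
      obtain ⟨j, -, hj⟩ := (Nat.dvd_prime_pow Fact.out).1 (hk ▸ (show N.relIndex H ∣ Nat.card P from by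
        rw [Subgroup.relIndex_sup_left]; exact Subgroup.relIndex_dvd_card _ _))
      exact mem_of_regular_of_index hj hg
    · rw [h1, (subIrr hNH θ).2.classInner_self]; exact one_ne_zero
  have h2 : charDegree (η : H → ℂ) = charDegree (θ : N → ℂ) :=
    deg_eq_of_eq ((hη 1).trans (deg_cast_irr θ).symm)
  have h3 := blockDefect_eq_of_not_dvd (p := p) (irrOne_mem_principalBlock (M := M) (G := G))
    (by rw [deg_eq_of_eq (n := 1) (by simp)]; simp [(Fact.out : p.Prime).ne_one])
  obtain ⟨χ, h4, h5, a, h6, h7⟩ := exists_height_zero_of_lamS (M := M) isPBlock_principalBlock η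
    (by rw [IsPBlock.lamS_eq h0 hη0 irrOne_mem_principalBlock]
        exact lamS_one_eB_principal P le_sup_right)
    (by rw [h2, Nat.factorization_eq_zero_of_not_dvd hdeg, h3, zero_add,
      ← factorization_card_of_isSylowIn (Transfer.isSylowIn_of_sylow_le P le_sup_right),
      P.card_eq_multiplicity, Nat.factorization_pow_self Fact.out])
  refine ⟨χ, h4, fun h => ?_, ?_⟩
  · have := deg_add_defect p h4
    have := (Fact.out : p.Prime).factorization_pos_of_dvd (deg_ne_zero χ.2) h
    omega
  rw [CharDeep.classInner_indFun_left _ _ χ.2.isClassFunction, ← conj_classInner] at h6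
  obtain ⟨ψ, h8, h9⟩ := (χ.2.isCharacter.restrict H).exists_add_of_classInner_ne_zero η.2
    (fun h => h7 (by rw [h, map_zero, eq_comm, Nat.cast_eq_zero] at h6; simp [h6]))
  have h10 : (fun n : N => (χ : G → ℂ) n) = θ.1 + fun n => ψ (Subgroup.inclusion hNH n) :=
    funext fun n => (congrFun h9 (Subgroup.inclusion hNH n)).trans (by simp [hη])
  obtain ⟨m, hm⟩ := (h8.comp (Subgroup.inclusion hNH)).exists_nat_classInner θ.2.isCharacter
  change LiesOver N χ θ
  rw [liesOver_iff, h10, classInner_add_left, hm, θ.2.classInner_self, add_comm]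
  exact Nat.cast_add_one_ne_zero m

end Cfsg.Agent.S4583
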