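import Cfsg.Statements.S4584
import Cfsg.Agent.Block.Over
import Cfsg.Agent.Gen2.RankOne

set_option autoImplicit false
open Cfsg

namespace Cfsg.Agent.S4584

open Cfsg.Agent.Block Cfsg.Agent.Char MonoidAlgebra

open Cfsg.Agent.CharDeep Subgroup
open scoped ComplexConjugate commutatorElement

/-- Let p be a prime and P a group of order p^4. Then the derived subgroup P' has order p if and only if the centre Z(P) has index p^2 in P. -/
theorem result {P : Type*} [Group P] [Finite P] (p : ℕ) [Fact p.Prime] (hP : Nat.card P = p ^ 4) :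
    Nat.card (commutator P) = p ↔ (Subgroup.center P).index = p ^ 2 := by
  classical
  have hp : p.Prime := Fact.out
  have hG : IsPGroup p P := IsPGroup.of_card hP
  constructor
  · intro h
    haveI := Fintype.ofFinite P
    haveI : Nontrivial (commutator P) := Finite.one_lt_card_iff_nontrivial.mp (h ▸ hp.one_lt)
    obtain ⟨c, hc⟩ := exists_ne (1 : commutator P)
    obtain ⟨χ, hχ, h1⟩ := exists_irr_apply_ne (g := (c : P)) (by simpa using hc)
    have hsub : ∀ K : Subgroup P, K ⊓ commutator P = ⊥ ∨ commutator P ≤ K := fun K => by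
      haveI : Fact (Nat.card (commutator P)).Prime := ⟨h ▸ hp⟩
      rcases (K.subgroupOf (commutator P)).eq_bot_or_eq_top_of_prime_card with h | h
      · exact Or.inl (disjoint_iff.mp (subgroupOf_eq_bot.mp h))
      · exact Or.inr (subgroupOf_eq_top.mp h)
    have h2 : commutator P ≤ center P := by
      refine (hsub _).resolve_left fun h3 => ?_
      have := Loc.inf_centralizer_ne_bot (hG.to_subgroup ⊤) (hG.to_subgroup (commutator P))
        le_normalizer_of_normal ((commutator P).nontrivial_iff_ne_bot.mp ‹_›)
      exact this (by rwa [inf_comm, coe_top, centralizer_univ])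
    have h3 := (hsub (charKer χ)).resolve_right fun h => h1 (hχ.isCharacter.mem_charKer.mp (h c.2))
    obtain ⟨l, hl⟩ := hχ.exists_hom_of_le_center _ le_rfl
    have h4 : ∀ x, x ∉ center P → χ x = 0 := fun x hx => by
      obtain ⟨g, hg⟩ := not_forall.mp (mt mem_center_iff.mpr hx)
      have e1 : ⁅g, x⁆ ∈ commutator P := commutator_mem_commutator (mem_top g) (mem_top x)
      have e2 := hl ⟨_, h2 e1⟩ x
      rw [show ((⟨⁅g, x⁆, _⟩ : center P) : P) * x = g * x * g⁻¹ by
        simp [commutatorElement_def], hχ.isClassFunction] at e2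
      by_contra h5
      have e3 : (l ⟨_, h2 e1⟩ : ℂ) = 1 := mul_right_cancel₀ h5 (by rw [← e2, one_mul])
      have e4 := hl ⟨_, h2 e1⟩ 1
      rw [e3, one_mul, mul_one] at e4
      have : ⁅g, x⁆ ∈ charKer χ ⊓ commutator P := ⟨hχ.isCharacter.mem_charKer.mpr e4, e1⟩
      rw [h3, mem_bot] at this
      exact hg (commutatorElement_eq_one_iff_mul_comm.mp this)
    have h5 := hχ.sum_norm_sq
    rw [← Finset.sum_subset (Finset.subset_univ (Finset.univ.filter (· ∈ center P)))
      (fun x _ hx => by rw [h4 x (by simpa using hx)]; simp),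
      Finset.sum_congr rfl fun x hx => by
        rw [hχ.isCharacter.mem_charCenter.mp (hχ.center_le_charCenter (Finset.mem_filter.mp hx).2),
          hχ.isCharacter.norm_apply_one], Finset.sum_const, ← Fintype.card_subtype,
      ← Nat.card_eq_fintype_card, nsmul_eq_mul, ← (center P).card_mul_index] at h5
    have h6 : charDegree χ ^ 2 = (center P).index :=
      Nat.eq_of_mul_eq_mul_left Nat.card_pos (by exact_mod_cast h5)
    obtain ⟨a, -, ha⟩ := (Nat.dvd_prime_pow hp).mp (hP ▸ hχ.charDegree_dvd_card)
    have h7 : (center P).index < p ^ 4 := by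
      rw [← hP, ← (center P).card_mul_index]
      exact lt_mul_left (Nat.pos_of_ne_zero index_ne_zero_of_finite)
        (lt_of_lt_of_le (h ▸ hp.one_lt) (card_le_of_le h2))
    have h8 : a ≠ 0 := by
      rintro rfl
      exact h1 (hχ.apply_one_eq_one_iff.mp (by rw [hχ.apply_one_eq_charDegree, ha]; simp) _ c.2)
    rw [← h6, ha, ← pow_mul] at h7 ⊢
    have := (Nat.pow_lt_pow_iff_right hp.one_lt).mp h7
    congr 1; omega
  · intro h
    have h1 := Gen2.card_commutator_dvd_of_cs (hG.to_subgroup _) fun x hx => by
      have h2 : center P ≤ centralizer {x} := center_le_centralizer _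
      have h3 : centralizer ({x} : Set P) = center P := by
        refine (eq_of_le_of_card_ge h2 ?_).symm
        have a := (center P).card_mul_index
        rw [← (centralizer ({x} : Set P)).card_mul_index,
          Nat.dvd_antisymm (h ▸ index_dvd_of_le h2) hx, h] at a
        exact (Nat.eq_of_mul_eq_mul_right (pow_pos hp.pos 2) a).ge
      have h4 : centralizer ({x} : Set P) = ⊤ := centralizer_eq_top_iff_subset.mpr (by
        simpa using h3.le (mem_centralizer_singleton_iff.mpr rfl))
      rw [h4, index_top] at hx
      exact hp.not_dvd_one ((dvd_pow_self p two_ne_zero).trans hx)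
    refine ((Nat.dvd_prime hp).mp h1).resolve_left fun h2 => ?_
    rw [card_eq_one, commutator_eq_bot_iff_center_eq_top] at h2
    rw [h2, index_top] at h
    exact hp.not_dvd_one (h ▸ dvd_pow_self p two_ne_zero)

end Cfsg.Agent.S4584
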