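import Cfsg.Statements.S4585
import Cfsg.Agent.PGrp.MaxClassP
import Mathlib.Tactic.Group

set_option autoImplicit false
open Cfsg

namespace Cfsg.Agent.S4585
open scoped commutatorElement

open Subgroup BG PGrp

/-- Let p be a prime and P a group of order p^4. Then P' has index p^2 in P if and only if P has maximal nilpotency class, that is, nilpotency class exactly 3. -/
theorem result {P : Type*} [Group P] [Finite P] (p : ℕ) [Fact p.Prime] (hP : Nat.card P = p ^ 4) :
    (commutator P).index = p ^ 2 ↔ Group.nilpotencyClass P = 3 := by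
  refine ⟨fun h => ?_, fun h => (index_commutator_of_class (n := 1) hP h).1⟩
  have hp := (Fact.out : p.Prime)
  have hG := IsPGroup.of_card hP
  have := hG.isNilpotent
  have hc : #(commutator P) = p ^ 2 := by
    have := (commutator P).card_mul_index
    rw [h, hP, show p ^ 4 = p ^ 2 * p ^ 2 by ring] at this
    exact Nat.eq_of_mul_eq_mul_right (pow_pos hp.pos 2) this
  refine le_antisymm (not_lt.1 fun h4 => ?_) (not_lt.1 fun h2 => ?_)
  · have := pow_le_card_lcs hG 3 1 h4
    rw [top_lowerCentralSeries_one, hc, Nat.pow_le_pow_iff_right hp.one_lt] at this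
    omega
  have hZ : commutator P ≤ center P := by
    have := Subgroup.lowerCentralSeries_eq_bot_iff_nilpotencyClass_le.2 (Nat.le_of_lt_succ h2)
    exact cent_top (G := P) ▸ commG1.1 this
  obtain ⟨a, ha⟩ : ∃ a, a ∉ center P := by
    by_contra! h
    rw [← der_top, commG1.2 fun g _ => cent_top (G := P) ▸ h g, card_bot] at hc
    exact (Nat.one_lt_pow (by simp) hp.one_lt).ne hc
  have hne : center P ⊔ zpowers a ≠ ⊤ := fun e => ha (cent_top (G := P) ▸ e ▸
    le_cent_sup (centsC.1 (center_le_centralizer _)) (abelian_iff.1 inferInstance) (mem_zpowers a))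
  have h1 := mul_card_le_of_lt hG (left_lt_sup.2 (mt zpowers_le.1 ha) : center P < center P ⊔ zpowers a)
  have h3 := mul_card_le_of_lt hG (lt_top_iff_ne_top.2 hne)
  have h4 := card_le_card hZ
  have h5 := (center P ⊔ zpowers a).card_mul_index
  rw [card_top, hP] at h3
  have h6 : #(center P ⊔ zpowers a) = p ^ 3 := le_antisymm
    (Nat.le_of_mul_le_mul_left (h3.trans_eq (pow_succ' p 3)) hp.pos)
    ((pow_succ' p 2).trans_le ((Nat.mul_le_mul_left p (hc ▸ h4)).trans h1))
  have h7 : #(center P) ≤ p ^ 2 := Nat.le_of_mul_le_mul_left (h1.trans_eq (h6.trans (pow_succ' p 2))) hp.pos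
  have hi : (center P ⊔ zpowers a).index = p := by
    rw [h6, hP, pow_succ p 3] at h5; exact Nat.eq_of_mul_eq_mul_left (pow_pos hp.pos 3) h5
  have := normal_of_index_eq hG hi
  obtain ⟨x, hx⟩ : ∃ x, x ∉ center P ⊔ zpowers a := by
    by_contra! h; exact hne ((eq_top_iff' _).2 h)
  have e := commutator_eq_zpowers le_rfl (sup_zpowers_eq_top hi hx)
  have hxa : ⁅x, a⁆ ∈ center P := hZ (e ▸ mem_zpowers _)
  have hap : a ^ p ∈ center P := by
    have h8 : (center P).relIndex (center P ⊔ zpowers a) = p := by
      have := card_mul_relIndex (le_sup_left : center P ≤ center P ⊔ zpowers a)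
      rw [h6, le_antisymm h7 (hc ▸ h4), pow_succ p 2] at this
      exact Nat.eq_of_mul_eq_mul_left (pow_pos hp.pos 2) this
    exact h8 ▸ pow_relIndex_mem _ (mem_sup_right (mem_zpowers a))
  have : ⁅x, a⁆ ^ p = 1 := by
    rw [← commutator_pow_right (commute_of_mem_center hxa a)]
    exact commutatorElement_eq_one_iff_commute.2 (commute_of_mem_center hap x).symm
  have := orderOf_dvd_of_pow_eq_one this
  rw [← Nat.card_zpowers, ← e, hc] at this
  exact absurd ((Nat.pow_dvd_pow_iff_le_right hp.one_lt).1 (this.trans (pow_one p).symm.dvd)) (by omega)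

end Cfsg.Agent.S4585
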