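import Cfsg.Statements.S4586
import Cfsg.Agent.Block.Over

set_option autoImplicit false
open Cfsg

namespace Cfsg.Agent.S4586

open Cfsg.Agent.Block Cfsg.Agent.Char MonoidAlgebra

open Subgroup

theorem core {G : Type*} [Group G] [Finite G] (N : Subgroup G) [hN : N.Normal] {x : G}
    (hx : N ⊔ zpowers x = ⊤) :
    Nat.card N * Nat.card (commutator N) = Nat.card (commutator G) *
      Nat.card {n : N // x * n * x⁻¹ * (n : G)⁻¹ ∈ (commutator N).map N.subtype} := by
  set D := (commutator N).map N.subtype with hD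
  haveI : D.Normal := ConjAct.normal_of_characteristic_of_normal
  have hc : ∀ a ∈ N, ∀ b ∈ N, (a : G ⧸ D) * b = b * a := fun a ha b hb => by
    rw [← QuotientGroup.mk_mul, ← QuotientGroup.mk_mul, QuotientGroup.eq]
    refine ⟨_, commutator_mem_commutator (mem_top (⟨b, hb⟩ : N)⁻¹) (mem_top (⟨a, ha⟩ : N)⁻¹), ?_⟩
    simp [commutatorElement_def, mul_assoc]
  have hm : ∀ n : N, x * n * x⁻¹ * (n : G)⁻¹ ∈ N := fun n =>
    mul_mem (hN.conj_mem _ n.2 x) (inv_mem n.2)
  let f : N →* G ⧸ D := MonoidHom.mk' (fun n => ((x * n * x⁻¹ * (n : G)⁻¹ : G) : G ⧸ D)) fun a b => by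
    have := hc _ (hm b) _ (inv_mem a.2)
    simp only [coe_mul, QuotientGroup.mk_mul, QuotientGroup.mk_inv, mul_inv_rev] at this ⊢
    rw [mul_assoc _ (a : G ⧸ D)⁻¹, ← this]; group
  have hDG : D ≤ commutator G := by
    rw [hD, map_subtype_commutator]; exact commutator_mono le_top le_top
  have h1 : f.range.comap (QuotientGroup.mk' D) = commutator G := by
    set M := f.range.comap (QuotientGroup.mk' D)
    have hDM : D ≤ M := fun d hd => ⟨1, by simp [(QuotientGroup.eq_one_iff _).mpr hd]⟩
    apply le_antisymm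
    · rintro g ⟨n, hn⟩
      have := hDG (QuotientGroup.eq.mp hn)
      exact (mul_mem_cancel_left (inv_mem
        (commutator_mem_commutator (mem_top x) (mem_top (n : G))))).mp this
    · haveI : M.Normal := by
        rw [← normalizer_eq_top_iff, eq_top_iff, ← hx, sup_le_iff, zpowers_le]
        refine ⟨fun a ha => mem_normalizer_fintype ?_, mem_normalizer_fintype ?_⟩
        · rintro g ⟨n, hn⟩
          refine ⟨n, ?_⟩
          change ((_ : G) : G ⧸ D) = (g : G ⧸ D) at hn
          change ((_ : G) : G ⧸ D) = a * g * (a : G ⧸ D)⁻¹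
          rw [← hn, hc a ha _ (hm n)]; simp
        · rintro g ⟨n, hn⟩
          refine ⟨⟨_, hN.conj_mem _ n.2 x⟩, ?_⟩
          change ((_ : G) : G ⧸ D) = (g : G ⧸ D) at hn
          change ((_ : G) : G ⧸ D) = x * g * (x : G ⧸ D)⁻¹
          rw [← hn]; simp [mul_assoc]
      have key : ∀ y : G, (∀ a ∈ N, (a : G ⧸ M) * y = y * a) → ((x : G ⧸ M) * y = y * x) →
          ∀ g : G, (g : G ⧸ M) * y = y * g := fun y h1 h2 g => by
        have : N ⊔ zpowers x ≤ (centralizer {(y : G ⧸ M)}).comap (QuotientGroup.mk' M) :=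
          sup_le (fun a ha => mem_centralizer_singleton_iff.mpr (h1 a ha))
            (zpowers_le.mpr (mem_centralizer_singleton_iff.mpr h2))
        exact mem_centralizer_singleton_iff.mp (this (hx ▸ mem_top g))
      have k1 : ∀ a ∈ N, (x : G ⧸ M) * a = a * x := fun a ha => by
        rw [← mul_inv_eq_one, mul_inv_rev, ← mul_assoc]
        exact (QuotientGroup.eq_one_iff (x * a * x⁻¹ * a⁻¹)).mpr ⟨⟨a, ha⟩, rfl⟩
      have k2 : ∀ a ∈ N, ∀ g : G, (g : G ⧸ M) * a = a * g := fun a ha =>
        key a (fun b hb => congrArg (QuotientGroup.map D M (MonoidHom.id G) hDM) (hc b hb a ha))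
          (k1 a ha)
      have k3 := key x (fun a ha => (k1 a ha).symm) rfl
      refine commutator_le.mpr fun g _ h _ => (QuotientGroup.eq_one_iff _).mp ?_
      have := key h (fun a ha => (k2 a ha h).symm) (k3 h).symm g
      simp only [commutatorElement_def, QuotientGroup.mk_mul, QuotientGroup.mk_inv, this]
      group
  have h2 : Nat.card {n : N // x * n * x⁻¹ * (n : G)⁻¹ ∈ D} = Nat.card f.ker :=
    Nat.card_congr (Equiv.subtypeEquivRight fun n => (QuotientGroup.eq_one_iff _).symm)
  have h3 := f.ker.card_mul_index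
  have h4 := (commutator G).card_mul_index
  have h5 := f.range.card_mul_index
  rw [index_ker] at h3
  rw [← index_comap_of_surjective _ (QuotientGroup.mk'_surjective D), h1] at h5
  rw [card_eq_card_quotient_mul_card_subgroup D, ← h5, mul_right_comm] at h4
  rw [h2, ← h3, Nat.eq_of_mul_eq_mul_right (Nat.pos_of_ne_zero index_ne_zero_of_finite) h4,
    show Nat.card D = _ from card_map_of_injective N.subtype_injective]
  ring

/-- Let p be a prime, P a finite p-group and N a normal subgroup of P of index p. For x ∈ P write c(x) for the number of elements n of N whose commutator x n x⁻¹ n⁻¹ lies in the derived subgroup N' (so c(x)/#N' is the order of the centralizer of x acting on N/N'). Then [P : P'] = p² if and only if c(x) = p·#N' for every x ∈ P outside N, and also if and only if c(x) = p·#N' for some x ∈ P outside N. -/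
theorem result {P : Type*} [Group P] [Finite P] (p : ℕ) [Fact p.Prime] (hP : IsPGroup p P) (N : Subgroup P) [N.Normal] (hN : N.index = p) :
    ((commutator P).index = p ^ 2 ↔ ∀ x : P, x ∉ N →
        Nat.card {n : N // x * n * x⁻¹ * (n : P)⁻¹ ∈ (commutator N).map N.subtype} = p * Nat.card (commutator N)) ∧
    ((commutator P).index = p ^ 2 ↔ ∃ x : P, x ∉ N ∧
        Nat.card {n : N // x * n * x⁻¹ * (n : P)⁻¹ ∈ (commutator N).map N.subtype} = p * Nat.card (commutator N)) := by
  have hp : p.Prime := Fact.out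
  have key : ∀ x : P, x ∉ N → ((commutator P).index = p ^ 2 ↔
      Nat.card {n : N // x * n * x⁻¹ * (n : P)⁻¹ ∈ (commutator N).map N.subtype} =
        p * Nat.card (commutator N)) := fun x hx => by
    have h1 := core N (x := x) (by
      have h := index_dvd_of_le (le_sup_left : N ≤ N ⊔ zpowers x)
      rw [hN] at h
      refine index_eq_one.mp (((Nat.dvd_prime hp).mp h).resolve_right fun h2 => hx ?_)
      have h3 := relIndex_mul_index (le_sup_left : N ≤ N ⊔ zpowers x)
      rw [h2, hN] at h3
      exact relIndex_eq_one.mp (Nat.eq_of_mul_eq_mul_right hp.pos (h3.trans (one_mul _).symm))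
        (mem_sup_right (mem_zpowers x)))
    have h2 := (commutator P).card_mul_index
    rw [← N.card_mul_index, hN] at h2
    have a : 0 < Nat.card (commutator P) := Nat.card_pos
    have b : 0 < Nat.card (commutator N) := Nat.card_pos
    have c := hp.pos
    constructor
    · intro h
      rw [h] at h2
      refine Nat.eq_of_mul_eq_mul_left (Nat.mul_pos a c) ?_
      rw [mul_right_comm, ← h1, mul_right_comm, ← h2]; ring
    · intro h
      rw [h] at h1
      refine Nat.eq_of_mul_eq_mul_left (Nat.mul_pos a b) ?_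
      rw [mul_right_comm, h2, mul_right_comm, h1]; ring
  obtain ⟨x, hx⟩ : ∃ x, x ∉ N := by
    by_contra h
    push Not at h
    rw [(eq_top_iff' N).mpr h, index_top] at hN
    exact hp.ne_one hN.symm
  exact ⟨⟨fun h y hy => (key y hy).1 h, fun h => (key x hx).2 (h x hx)⟩,
    ⟨fun h => ⟨x, hx, (key x hx).1 h⟩, fun ⟨y, hy, h⟩ => (key y hy).2 h⟩⟩

end Cfsg.Agent.S4586
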