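import Cfsg.Statements.S4588
import Cfsg.Agent.S4698
-- import your own Cfsg.Agent.* helpers here

set_option autoImplicit false
open Cfsg

namespace Cfsg.Agent.S4588

open Cfsg.Agent.BMod Cfsg.Agent.Block Cfsg.Agent.Transfer Cfsg.Agent.Char Cfsg.Agent.CharDeep

/-- Let G be a finite group, p a prime and M a maximal ideal of the algebraic integers containing p. If some p-element x of G (possibly x = 1) has centralizer whose order has p-part at most p², then the principal p-block of G contains at most p² irreducible characters of degree prime to p. -/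
theorem result {G : Type*} [Group G] [Finite G] (p : ℕ) [Fact p.Prime] (M : Ideal Cfsg.AlgInt) (hM : Cfsg.IsPModular p M)
    (hx : ∃ x : G, (∃ k : ℕ, orderOf x = p ^ k) ∧ (Nat.card (Subgroup.centralizer ({x} : Set G))).factorization p ≤ 2) :
    Nat.card {χ : Cfsg.IrrCharacter G // χ ∈ Cfsg.principalBlock M G ∧ ¬ p ∣ Cfsg.charDegree (χ : G → ℂ)} ≤ p ^ 2 := by
  haveI : PMod p M := ⟨hM⟩
  obtain ⟨x, hx, h⟩ := hx
  by_cases h1 : x = 1
  · subst h1
    rw [Subgroup.centralizer_eq_top_iff_subset.2 (by simp), Subgroup.card_top] at h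
    have h2 := (blockDefect_le p (principalBlock M G)).trans h
    exact (Nat.card_le_card_of_injective (fun χ => (⟨χ.1, χ.2.1⟩ : principalBlock M G))
      fun _ _ h => Subtype.ext (Subtype.mk.inj h)).trans
      ((S4698.small isPBlock_principalBlock h2).trans (Nat.pow_le_pow_right hM.1.pos h2))
  have h2 := isSub_centralizer hx
  have := Fintype.ofFinite G
  have := Fintype.ofFinite (Subgroup.centralizer ({x} : Set G))
  have hb := isPBlock_principalBlock (M := M) (G := Subgroup.centralizer ({x} : Set G))
  obtain ⟨D, hD⟩ := exists_isDefectGroup (p := p) hb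
  have h3 := (blockDefect_le p (principalBlock M (Subgroup.centralizer ({x} : Set G)))).trans h
  have := normal_of_sup_centralizer (sup_centralizer_of_le_center h2.zpowers_le)
  obtain ⟨y, -, hy⟩ := S4698.exists_gen (IsDefectGroup.card_eq hb hD) h3
    (IsDefectGroup.le_of_normal hb hD h2.pgroup (Subgroup.mem_zpowers _)) (by simpa using h1)
  refine le_trans ?_ (((kw_of_quot hb hD h2.pgroup h2.zpowers_le hy).card_height_zero_le h2
    ((isInducedBlock_principal_iff (h2.inducedBlockDefined hb)).2 rfl)).trans
    (Nat.pow_le_pow_right hM.1.pos h3))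
  exact Nat.card_le_card_of_injective (fun χ => ⟨χ.1, χ.2.1, height_eq_zero_of_not_dvd _ χ.2.2⟩)
    fun _ _ h => Subtype.ext (Subtype.mk.inj h)

end Cfsg.Agent.S4588
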