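import Cfsg.Statements.S4602
import Cfsg.Agent.PLocal.PSolv
import Cfsg.Agent.Solv.CoprimeSylow
import Cfsg.Agent.Loc.Cpl

set_option autoImplicit false
open Cfsg

namespace Cfsg.Agent.S4602

open Subgroup Loc

theorem not_dvd_index_of_forall {G : Type*} [Group G] [Finite G] {q : ℕ} [Fact q.Prime] {K : Subgroup G}
    (Q : Sylow q G) (h : (Q : Subgroup G) ≤ K) : ¬ q ∣ K.index :=
  fun hd => Q.not_dvd_index (hd.trans (index_dvd_of_le h))

theorem of_not_dvd {G : Type*} [Group G] [Finite G] (p q : ℕ) [Fact p.Prime] [Fact q.Prime] {K : Subgroup G}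
    (P : Sylow p G) (hP : (P : Subgroup G) ≤ normalizer (K : Set G)) (hK : (Nat.card K).Coprime p) (h : ¬ q ∣ K.index) :
    ∃ Q : Sylow q G, (P : Subgroup G) ≤ Subgroup.normalizer ((Q : Subgroup G) : Set G) := by
  obtain ⟨Q, hQ, hn⟩ := Solv.exists_invariant_sylIn hP (PLocal.coprime_card_of_isPGroup P.isPGroup' hK)
    (Or.inl (PLocal.isSolvable_of_isPGroup P.isPGroup')) q
  have h1 : SylIn q Q ⊤ := hQ.of_not_dvd le_top (by rwa [relIndex_top_right])
  obtain ⟨S, hS⟩ := h1.exists_sylow_top
  exact ⟨S, hS ▸ hn⟩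

theorem le_core {G : Type*} [Group G] [Finite G] (p q : ℕ) [Fact p.Prime] [Fact q.Prime] (hpq : p ≠ q)
    (hsolv : IsPSolvable p G) {Q : Subgroup G} (hQ : IsPGroup q Q)
    (h : Q.map (QuotientGroup.mk' (pPrimeCore p G)) ≤
      centralizer (pCore p (G ⧸ pPrimeCore p G) : Set (G ⧸ pPrimeCore p G))) : Q ≤ pPrimeCore p G := by
  have h1 := h.trans (PLocal.centralizer_pCore_le_of_pSolv (PLocal.pSolv_quotient hsolv _)
    (Solv.pPrimeCore_quotient_pPrimeCore p G))
  have h2 : Q.map (QuotientGroup.mk' (pPrimeCore p G)) = ⊥ := by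
    have hd := IsPGroup.disjoint_of_ne q p hpq.symm _ _ (hQ.map (QuotientGroup.mk' (pPrimeCore p G)))
      (Solv.isPGroup_pCore p (G ⧸ pPrimeCore p G))
    exact eq_bot_iff.2 (le_trans (le_inf le_rfl h1) hd.le_bot)
  rw [Subgroup.map_eq_bot_iff, QuotientGroup.ker_mk'] at h2
  exact h2

/-- Let G be a finite p-solvable group and q a prime different from p. Some Sylow p-subgroup of G normalizes some Sylow q-subgroup of G if and only if q does not divide the order of G/O_{p'}(G), the quotient by the largest normal subgroup of order prime to p. -/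
theorem result {G : Type*} [Group G] [Finite G] (p q : ℕ) [Fact p.Prime] [Fact q.Prime] (hpq : p ≠ q) (hsolv : Cfsg.IsPSolvable p G) :
    (∃ (P : Sylow p G) (Q : Sylow q G), (P : Subgroup G) ≤ Subgroup.normalizer ((Q : Subgroup G) : Set G)) ↔ ¬ q ∣ (Cfsg.pPrimeCore p G).index := by
  constructor
  · rintro ⟨P, Q, h⟩
    refine not_dvd_index_of_forall Q (le_core p q hpq hsolv Q.isPGroup' ?_)
    set f := QuotientGroup.mk' (pPrimeCore p G)
    have hf : Function.Surjective f := QuotientGroup.mk'_surjective _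
    have h1 : pCore p (G ⧸ pPrimeCore p G) ≤ normalizer (((Q : Subgroup G).map f : Subgroup _) : Set _) :=
      (Solv.pCore_le_sylow (P.mapSurjective hf)).trans
        ((map_mono h).trans (le_normalizer_map f))
    have hd := IsPGroup.disjoint_of_ne q p hpq.symm _ _ (Q.isPGroup'.map f)
      (Solv.isPGroup_pCore p (G ⧸ pPrimeCore p G))
    rw [← commutator_eq_bot_iff_le_centralizer]
    refine eq_bot_iff.2 (le_trans (le_inf ?_ ?_) hd.le_bot)
    · exact Solv.commutator_le_of_le_normalizer h1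
    · exact commutator_le_right _ _
  · intro h
    obtain ⟨P⟩ : Nonempty (Sylow p G) := inferInstance
    obtain ⟨Q, hQ⟩ := of_not_dvd p q P (K := pPrimeCore p G) le_normalizer_of_normal
      (Solv.coprime_card_pPrimeCore p G) h
    exact ⟨P, Q, hQ⟩

end Cfsg.Agent.S4602
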