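import Cfsg.Statements.S4601
import Cfsg.Agent.S4602

set_option autoImplicit false
open Cfsg

namespace Cfsg.Agent.S4601

open Subgroup Loc

universe u

theorem hyp_map {G G' : Type*} [Group G] [Finite G] [Group G'] (p q : ℕ) [Fact q.Prime] {f : G →* G'}
    (hf : Function.Surjective f)
    (h : ∀ y : G, (∃ k : ℕ, orderOf y = q ^ k) → ¬ p ∣ (Subgroup.centralizer ({y} : Set G)).index) :
    ∀ y : G', (∃ k : ℕ, orderOf y = q ^ k) → ¬ p ∣ (Subgroup.centralizer ({y} : Set G')).index := by
  rintro y ⟨k, hk⟩ hd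
  haveI : Finite G' := Finite.of_surjective f hf
  obtain ⟨Q', hQ'⟩ := (isPGroup_zpowers_of_orderOf hk).exists_le_sylow
  obtain ⟨Q, rfl⟩ := Sylow.mapSurjective_surjective hf q Q'
  obtain ⟨x, hx, rfl⟩ := hQ' (mem_zpowers y)
  refine h x (exists_orderOf_of_isPGroup Q.isPGroup' hx) (hd.trans ?_)
  refine (index_dvd_of_le ?_).trans (index_map_dvd _ hf)
  rintro _ ⟨c, hc, rfl⟩
  rw [SetLike.mem_coe, mem_centralizer_singleton_iff] at hc
  rw [mem_centralizer_singleton_iff, ← map_mul, ← map_mul, hc]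

theorem exists_cent {G : Type*} [Group G] [Finite G] {p : ℕ} [Fact p.Prime] {M : Subgroup G} (h : ¬ p ∣ M.index) :
    ∃ P : Sylow p G, (P : Subgroup G) ≤ M := by
  obtain ⟨T, hT⟩ := exists_sylIn p M
  obtain ⟨S, hS⟩ := (hT.of_not_dvd le_top (by rwa [relIndex_top_right])).exists_sylow_top
  exact ⟨S, hS ▸ hT.le⟩

theorem main (p q : ℕ) [Fact p.Prime] [Fact q.Prime] (n : ℕ) : ∀ (G : Type u) [Group G] [Finite G],
    Nat.card G = n → IsPSolvable q G →
    (∀ y : G, (∃ k : ℕ, orderOf y = q ^ k) → ¬ p ∣ (Subgroup.centralizer ({y} : Set G)).index) →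
    ∃ (P : Sylow p G) (Q : Sylow q G), (P : Subgroup G) ≤ Subgroup.normalizer ((Q : Subgroup G) : Set G) := by
  induction n using Nat.strong_induction_on with
  | _ n ih =>
  intro G _ _ hn hs h
  by_cases hpq : p = q
  · subst hpq
    obtain ⟨P⟩ : Nonempty (Sylow p G) := inferInstance
    exact ⟨P, P, le_normalizer⟩
  rcases subsingleton_or_nontrivial G with hG | hG
  · obtain ⟨P⟩ : Nonempty (Sylow p G) := inferInstance
    obtain ⟨Q⟩ : Nonempty (Sylow q G) := inferInstance
    exact ⟨P, Q, fun x _ => by rw [Subsingleton.elim x 1]; exact one_mem _⟩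
  have key : ∀ (K : Subgroup G) [K.Normal], K ≠ ⊥ → ∃ (P : Sylow p G) (M : Subgroup G), K ≤ M ∧
      (P : Subgroup G) ≤ normalizer (M : Set G) ∧ ¬ q ∣ M.index ∧ IsPGroup q (M.map (QuotientGroup.mk' K)) := by
    intro K _ hK
    have hf : Function.Surjective (QuotientGroup.mk' K) := QuotientGroup.mk'_surjective _
    obtain ⟨P', Q', h'⟩ := ih _ (hn ▸ Solv.card_quotient_lt hK) (G ⧸ K) rfl (PLocal.pSolv_quotient hs K)
      (hyp_map p q hf h)
    obtain ⟨P, rfl⟩ := Sylow.mapSurjective_surjective hf p P'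
    refine ⟨P, (Q' : Subgroup (G ⧸ K)).comap (QuotientGroup.mk' K), Solv.le_comap_mk' K _, ?_, ?_, ?_⟩
    · refine le_trans ?_ (le_normalizer_comap _)
      exact map_le_iff_le_comap.1 h'
    · rw [index_comap_of_surjective _ hf]; exact Q'.not_dvd_index
    · rw [map_comap_eq_self_of_surjective hf]; exact Q'.isPGroup'
  rcases PLocal.core_ne_bot_of_pSolv hs with hK | hK
  · obtain ⟨P, M, h1, h2, h3, h4⟩ := key _ hK
    have h5 : IsPGroup q M := by
      have := h4.comap_of_ker_isPGroup (QuotientGroup.mk' (pCore q G))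
        (by rw [QuotientGroup.ker_mk']; exact Solv.isPGroup_pCore q G)
      rwa [Solv.comap_map_mk', sup_eq_left.2 h1] at this
    obtain ⟨S, hS⟩ := ((sylIn_self h5).of_not_dvd le_top (by rwa [relIndex_top_right])).exists_sylow_top
    exact ⟨P, S, hS ▸ h2⟩
  · obtain ⟨P, M, h1, h2, h3, h4⟩ := key _ hK
    set K := pPrimeCore q G
    have hKc : (Nat.card K).Coprime q := Solv.coprime_card_pPrimeCore q G
    have hR : SylIn p ((P : Subgroup G) ⊓ K) K := (sylIn_top P).inf_normal' le_top le_normalizer_of_normal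
    obtain ⟨Q0, hQ0⟩ := exists_sylIn q M
    obtain ⟨R0, hR0, hn0⟩ := Solv.exists_invariant_sylIn (A := Q0) (K := K) le_normalizer_of_normal
      (PLocal.coprime_card_of_isPGroup hQ0.pg hKc) (Or.inl (PLocal.isSolvable_of_isPGroup hQ0.pg)) p
    have hc0 : Q0 ≤ centralizer (R0 : Set G) := by
      intro y hy
      have hz : IsPGroup q (zpowers y) := hQ0.pg.to_le (zpowers_le.2 hy)
      obtain ⟨S, hS⟩ := exists_cent (h y (exists_orderOf_of_isPGroup hQ0.pg hy))
      have hS1 : SylIn p ((S : Subgroup G) ⊓ K) K := (sylIn_top S).inf_normal' le_top le_normalizer_of_normal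
      have h6 := Solv.sylIn_inf_centralizer (A := zpowers y) (K := K) le_normalizer_of_normal
        (PLocal.coprime_card_of_isPGroup hz hKc) (Or.inl (PLocal.isSolvable_of_isPGroup hz)) hR0
        ((zpowers_le.2 hy).trans hn0)
      rw [centralizer_zpowers] at h6
      have h7 := card_le_of_isPGroup h6 (Q := (S : Subgroup G) ⊓ K) (le_inf inf_le_right (inf_le_left.trans hS))
        hS1.pg
      rw [hS1.card_eq hR0] at h7
      have h8 : R0 ⊓ centralizer {y} = R0 := eq_of_le_of_card_ge inf_le_left h7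
      intro r hr
      have : r ∈ centralizer ({y} : Set G) := (h8.ge hr).2
      exact mem_centralizer_singleton_iff.1 this
    obtain ⟨k, hk, hkR⟩ := hR0.exists_conj hR
    have hQ1 : SylIn q (cj k Q0) M := hQ0.conj_of_mem (h1 hk)
    have hc1 : cj k Q0 ≤ centralizer (((P : Subgroup G) ⊓ K : Subgroup G) : Set G) := by
      rw [← hkR, ← cj_centralizer]; exact cj_mono k hc0
    set R := (P : Subgroup G) ⊓ K
    have hRM : SylIn p R M := by
      refine hR.of_not_dvd h1 ?_
      rw [← PLocal.card_map_mk']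
      obtain ⟨m, hm⟩ := h4.exists_card_eq
      rw [hm]
      intro hd
      exact hpq ((Nat.prime_dvd_prime_iff_eq Fact.out Fact.out).1 ((Fact.out : p.Prime).dvd_of_dvd_pow hd))
    set C := M ⊓ centralizer (R : Set G)
    obtain ⟨T, hT⟩ := exists_sylIn p C
    have hTR : T ≤ R := hRM.le_of_normalizes (hT.le.trans inf_le_left) hT.pg
      (le_normalizer_of_le_centralizer (hT.le.trans inf_le_right))
    have hTC : T ≤ centralizer (C : Set G) := hTR.trans (le_centralizer_iff.1 inf_le_right)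
    have hD := ppIn_sup_of_central hT hTC
    have hQD : cj k Q0 ≤ Sig.ppIn p C := by
      refine Solv.le_of_le_sup_of_coprime (H := T) (Sig.le_normalizer_ppIn (le_normalizer_of_le hT.le)) ?_ ?_
      · rw [hD]; exact le_inf hQ1.le hc1
      · exact IsPGroup.coprime_card_of_ne q p (Ne.symm hpq) _ _ hQ1.pg hT.pg
    have hPC : (P : Subgroup G) ≤ normalizer (C : Set G) :=
      le_normalizer_inf h2 (le_normalizer_centralizer (le_normalizer_inf le_normalizer le_normalizer_of_normal))
    obtain ⟨S, hS⟩ := (hQ1.of_not_dvd le_top (by rwa [relIndex_top_right])).exists_sylow_top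
    obtain ⟨Q, hQ⟩ := S4602.of_not_dvd p q P (K := Sig.ppIn p C) (Sig.le_normalizer_ppIn hPC)
      Sig.coprime_ppIn (S4602.not_dvd_index_of_forall S (hS ▸ hQD))
    exact ⟨P, Q, hQ⟩

/-- Let p and q be primes and G a finite group that is p-solvable or q-solvable, in which no q-element has conjugacy class size divisible by p. Then some Sylow p-subgroup of G normalizes some Sylow q-subgroup of G. -/
theorem result {G : Type*} [Group G] [Finite G] (p q : ℕ) [Fact p.Prime] [Fact q.Prime] (hsolv : Cfsg.IsPSolvable p G ∨ Cfsg.IsPSolvable q G)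
    (h : ∀ y : G, (∃ k : ℕ, orderOf y = q ^ k) → ¬ p ∣ (Subgroup.centralizer ({y} : Set G)).index) :
    ∃ (P : Sylow p G) (Q : Sylow q G), (P : Subgroup G) ≤ Subgroup.normalizer ((Q : Subgroup G) : Set G) := by
  rcases hsolv with hs | hs
  · by_cases hpq : p = q
    · subst hpq
      obtain ⟨P⟩ : Nonempty (Sylow p G) := inferInstance
      exact ⟨P, P, le_normalizer⟩
    refine (S4602.result p q hpq hs).2 ?_
    obtain ⟨Q⟩ : Nonempty (Sylow q G) := inferInstance
    refine S4602.not_dvd_index_of_forall Q (S4602.le_core p q hpq hs Q.isPGroup' ?_)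
    rintro _ ⟨y, hy, rfl⟩
    have hf : Function.Surjective (QuotientGroup.mk' (pPrimeCore p G)) := QuotientGroup.mk'_surjective _
    obtain ⟨S, hS⟩ := exists_cent (h y (exists_orderOf_of_isPGroup Q.isPGroup' hy))
    intro z hz
    obtain ⟨s, hs, rfl⟩ := Solv.pCore_le_sylow (S.mapSurjective hf) hz
    rw [← map_mul, ← map_mul, mem_centralizer_singleton_iff.1 (hS hs)]
  · exact main p q _ G rfl hs h

end Cfsg.Agent.S4601
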