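import Cfsg.Statements.S4604
import Cfsg.Agent.Block.Count
import Cfsg.Agent.BMod.Rank2

set_option autoImplicit false
open Cfsg

namespace Cfsg.Agent.S4604

open Cfsg.Agent.Block Cfsg.Agent.BMod Cfsg.Agent.Char MonoidAlgebra

lemma dvd_sum_pow {R ι : Type*} [CommRing R] {p : ℕ} (hp : p.Prime) (n : ℕ) (s : Finset ι)
    (a : ι → R) : (p : R) ∣ (∑ i ∈ s, a i) ^ p ^ n - ∑ i ∈ s, a i ^ p ^ n := by
  classical
  induction s using Finset.induction_on with
  | empty => simp [hp.ne_zero]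
  | insert i s hi ih =>
    obtain ⟨r, hr⟩ := exists_add_pow_prime_pow_eq hp (a i) (∑ i ∈ s, a i) n
    rw [Finset.sum_insert hi, Finset.sum_insert hi, hr]
    obtain ⟨c, hc⟩ := ih
    exact ⟨c + a i * (∑ i ∈ s, a i) * r, by linear_combination hc⟩

lemma aux {G : Type*} [Group G] [Finite G] {p : ℕ} (hp : p.Prime) (n : ℕ) (χ : IrrCharacter G)
    (x : G) : ∃ γ : AlgInt, (χ : G → ℂ) x ^ p ^ n - (χ : G → ℂ) (x ^ p ^ n) = p * γ := by
  obtain ⟨m, ζ, -, h2, h3⟩ := χ.2.isCharacter.exists_eigenvalues x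
  obtain ⟨γ, h⟩ := dvd_sum_pow (R := AlgInt) hp n Finset.univ fun i =>
    ⟨ζ i, IsIntegral.of_pow (orderOf_pos x) (h2 i ▸ isIntegral_one)⟩
  refine ⟨γ, ?_⟩
  have h4 := h3 1
  have h5 := h3 (p ^ n : ℕ)
  simp only [zpow_one, zpow_natCast] at h4 h5
  rw [h4, h5]
  simpa using congrArg Subtype.val h

lemma aux2 {G : Type*} [Group G] [Finite G] {p : ℕ} [hp : Fact p.Prime] {x x' : G}
    (hx : ∃ k : ℕ, orderOf (x * x'⁻¹) = p ^ k) (hc : Commute (x * x'⁻¹) x') :
    x ^ p ^ (Nat.card G).factorization p = x' ^ p ^ (Nat.card G).factorization p := by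
  obtain ⟨k, hk⟩ := hx
  have : (x * x'⁻¹) ^ p ^ (Nat.card G).factorization p = 1 := by
    rw [← orderOf_dvd_iff_pow_eq_one, hk]
    exact pow_dvd_pow _ ((hp.out.pow_dvd_iff_le_factorization Nat.card_pos.ne').1
      (hk ▸ orderOf_dvd_natCard _))
  conv_lhs => rw [← inv_mul_cancel_right x x', hc.mul_pow, this, one_mul]

/-- Let G be a finite group, p a prime and p^a the p-part of the order of G. Let x, y ∈ G and let x′, y′ be their p-regular parts: x′ has order prime to p, commutes with x·x′⁻¹, and x·x′⁻¹ has p-power order (likewise for y). Then x′ and y′ are conjugate in G if and only if for every irreducible character χ of G the algebraic integer χ(x)^(p^a) − χ(y)^(p^a) is p times an algebraic integer. -/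
theorem result {G : Type*} [Group G] [Finite G] (p : ℕ) [Fact p.Prime] (x y x' y' : G)
    (hx : (∃ k : ℕ, orderOf (x * x'⁻¹) = p ^ k) ∧ Commute (x * x'⁻¹) x' ∧ ¬ p ∣ orderOf x')
    (hy : (∃ k : ℕ, orderOf (y * y'⁻¹) = p ^ k) ∧ Commute (y * y'⁻¹) y' ∧ ¬ p ∣ orderOf y') :
    IsConj x' y' ↔ ∀ χ : Cfsg.IrrCharacter G, ∃ γ : Cfsg.AlgInt,
      (χ : G → ℂ) x ^ (p ^ (Nat.card G).factorization p) - (χ : G → ℂ) y ^ (p ^ (Nat.card G).factorization p) = (p : ℂ) * (γ : ℂ) := by
  classical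
  have hp : p.Prime := Fact.out
  refine ⟨fun h χ => ?_, fun h => ?_⟩
  · obtain ⟨a, ha⟩ := aux hp ((Nat.card G).factorization p) χ x
    obtain ⟨b, hb⟩ := aux hp ((Nat.card G).factorization p) χ y
    rw [aux2 hx.1 hx.2.1, χ.2.isClassFunction.apply_eq_of_isConj (h.pow _)] at ha
    rw [aux2 hy.1 hy.2.1] at hb
    exact ⟨a - b, by push_cast; linear_combination ha - hb⟩
  obtain ⟨M, _⟩ := exists_pmod' p
  have h1 : ∀ χ : IrrCharacter G, red M ((χ : G → ℂ) x') = red M ((χ : G → ℂ) y') := fun χ => by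
    obtain ⟨γ, h⟩ := h χ
    have h2 := congrArg (red M) h
    rw [red_mul (natCast_mem _ _) (algInt_mem_O _ _), red_p, zero_mul, red_sub (pow_mem (irr_mem_O _ _) _)
      (pow_mem (irr_mem_O _ _) _), red_pow (irr_mem_O _ _), red_pow (irr_mem_O _ _),
      ← sub_pow_char_pow, pow_eq_zero_iff (pow_pos hp.pos _).ne', sub_eq_zero] at h2
    rw [← red_apply_mul_eq χ.2.isCharacter hx.1 hx.2.1, ← red_apply_mul_eq χ.2.isCharacter hy.1 hy.2.1,
      inv_mul_cancel_right, inv_mul_cancel_right, h2]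
  obtain ⟨c, hc, h2⟩ := exists_rho_eq_sum' (p := p) (M := M) (θ := fun g => if IsConj x' g then 1 else 0)
    (isClassFunction_iff_isConj.2 fun a b hab => if_congr ⟨fun h => h.trans hab,
      fun h => h.trans hab.symm⟩ rfl rfl) fun g _ => by split_ifs; exacts [one_mem _, zero_mem _]
  have h3 : ∀ g, ¬ p ∣ orderOf g → red M (if IsConj x' g then 1 else 0) =
      ∑ χ : IrrCharacter G, red M (c χ) * red M ((χ : G → ℂ) g) := fun g hg => by
    have := congrFun h2 g
    simp only [Finset.sum_apply, Pi.smul_apply, rho_apply_of_not_dvd _ hg, smul_eq_mul] at this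
    rw [this, red_sum _ fun χ _ => mul_mem (hc χ) (irr_mem_O _ _)]
    exact Finset.sum_congr rfl fun χ _ => red_mul (hc χ) (irr_mem_O _ _)
  have h4 := h3 x' hx.2.2
  simp only [h1] at h4
  rw [← h3 y' hy.2.2, if_pos (IsConj.refl _)] at h4
  by_contra h5
  simp [h5, -isConj_iff] at h4

end Cfsg.Agent.S4604
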