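import Cfsg.Statements.S4606
import Cfsg.Agent.Hz.G
-- import your own Cfsg.Agent.* helpers here

set_option autoImplicit false
open Cfsg

namespace Cfsg.Agent.S4606

open Cfsg.Agent.Block Cfsg.Agent.BMod Cfsg.Agent.Transfer

/-- Let G be a finite group, p a prime, M a maximal ideal of the algebraic integers containing p, and B a p-block of G with defect group D. Suppose the number of irreducible characters in B exceeds the p-regular rank of B (the number of irreducible Brauer characters in B) by exactly one. If B is the principal block, or if G is p-solvable, then D is elementary abelian. -/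
theorem result {G : Type*} [Group G] [Finite G] (p : ℕ) [Fact p.Prime] (M : Ideal Cfsg.AlgInt) (hM : Cfsg.IsPModular p M) (B : Set (Cfsg.IrrCharacter G)) (hB : Cfsg.IsPBlock M B) (D : Subgroup G) (hD : Cfsg.IsDefectGroup p M B D)
    (hk : Nat.card B = Cfsg.blockRank p B + 1) (hB0 : B = Cfsg.principalBlock M G ∨ Cfsg.IsPSolvable p G) :
    Cfsg.IsElementaryAbelian p D := by
  classical
  haveI : PMod p M := ⟨hM⟩
  have := Fintype.ofFinite G
  obtain ⟨e, hm⟩ := exists_isMax hB hD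
  have h1 := card_eq_sum_rank_bu hB hm
  rw [hk, ← Finset.add_sum_erase _ _ one_mem_tv, rank_bu_one hB hm, add_right_inj] at h1
  have pos : ∀ r ∈ (tv p D e).erase 1, 1 ≤ blockRank p (bu p D e r) := fun r hr =>
    blockRank_pos (IsPBlock.nonempty (isPBlock_bu hm.pair (mem_of_mem_tv (Finset.mem_of_mem_erase hr))))
  have c1 : ((tv p D e).erase 1).card ≤ 1 := by simpa [← h1] using Finset.card_nsmul_le_sum _ _ 1 pos
  have rep : ∀ x ∈ D, x ≠ 1 → ∃ r ∈ (tv p D e).erase 1, IsConj x r := fun x hx x1 => by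
    obtain ⟨r, hr, h⟩ := exists_tv_rep (p := p) (e := e) hx
    exact ⟨r, Finset.mem_erase.2 ⟨by rintro rfl; exact x1 (isConj_one_left.1 h.isConj), hr⟩, h.isConj⟩
  have cj : ∀ x ∈ D, ∀ y ∈ D, x ≠ 1 → y ≠ 1 → IsConj x y := fun x hx y hy x1 y1 => by
    obtain ⟨r, hr, h⟩ := rep x hx x1
    obtain ⟨s, hs, h'⟩ := rep y hy y1
    exact h.trans (Finset.card_le_one.1 c1 s hs r hr ▸ h'.symm)
  have pD := IsDefectGroup.isPGroup hD
  refine ⟨?_, fun a ha => Hz3.expo_of pD cj ha⟩
  rcases hB0 with rfl | hs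
  swap
  · exact Hz3.comm_of_pSolv _ G rfl hs D pD cj
  obtain ⟨P, rfl⟩ : ∃ P : Sylow p G, (P : Subgroup G) = D := by
    obtain ⟨Q⟩ := (inferInstance : Nonempty (Sylow p G))
    exact ⟨Sylow.ofCard D (by
      rw [IsDefectGroup.card_eq hB hD, ← IsDefectGroup.card_eq hB (isDefectGroup_principal Q),
        Q.card_eq_multiplicity]), rfl⟩
  have inP : ∀ x : G, x ≠ 1 → (∃ k, orderOf x = p ^ k) → ∃ y ∈ (P : Subgroup G), y ≠ 1 ∧ IsConj x y := by
    rintro x x1 ⟨k, hk⟩
    obtain ⟨Q, hQ⟩ := (IsPGroup.of_card (G := Subgroup.zpowers x) (by rw [Nat.card_zpowers, hk])).exists_le_sylow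
    obtain ⟨g, rfl⟩ := MulAction.exists_smul_eq G Q P
    exact ⟨g * x * g⁻¹, Subgroup.smul_mem_pointwise_smul x (MulAut.conj g) _ (hQ (Subgroup.mem_zpowers x)),
      by simpa using x1, isConj_iff.2 ⟨g, rfl⟩⟩
  refine Hz3.OneCl.comm ⟨fun x y x1 y1 hx hy => ?_, fun x x1 hx => ?_⟩ P
  · obtain ⟨a, ha, a1, e1⟩ := inP x x1 hx
    obtain ⟨b, hb, b1, e2⟩ := inP y y1 hy
    exact (e1.trans (cj a ha b hb a1 b1)).trans e2.symm
  obtain ⟨a, ha, a1, e1⟩ := inP x x1 hx
  obtain ⟨r, hr, e2⟩ := rep a ha a1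
  obtain ⟨g, hg⟩ := isConj_iff.1 (e1.trans e2)
  have i := induced_bu hB hm (mem_of_mem_tv (Finset.mem_of_mem_erase hr))
  have e3 := (isInducedBlock_principal_iff (p := p) ⟨_, i⟩).1 i
  have e4 := Finset.single_le_sum (f := fun r => blockRank p (bu p P e r)) (fun _ _ => Nat.zero_le _) hr
  have e5 := Hz3.compl_of_rank (e3 ▸ le_antisymm (h1 ▸ e4) (pos r hr) :)
  refine hasNormalPComplement_of_injective e5 (((MulAut.conj g).toMonoidHom.comp (Subgroup.subtype _)).codRestrict _
    fun c => ?_) fun a b h => Subtype.ext ((MulAut.conj g).injective (congrArg Subtype.val h))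
  rintro _ ⟨n, rfl⟩
  have : Commute x c := c.2 x rfl
  exact ((show MulAut.conj g x = r from hg) ▸ (this.map (MulAut.conj g)) : Commute r _).zpow_left n

end Cfsg.Agent.S4606
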