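import Cfsg.Statements.S4733
import Cfsg.Agent.BMod.Rank
-- import your own Cfsg.Agent.* helpers here

set_option autoImplicit false
open Cfsg

namespace Cfsg.Agent.S4733

open Cfsg.Agent.BMod Cfsg.Agent.Block Cfsg.Agent.Transfer Cfsg.Agent.Char Cfsg.Agent.CharDeep

/-- Let p be a prime, M a maximal ideal of the algebraic integers containing p, and B a p-block of the finite group G with k irreducible characters and p-regular rank l (the number of irreducible Brauer characters). Then l ≤ k, and the following are equivalent: B has defect 0; k = l = 1; k = l. -/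
theorem result {G : Type*} [Group G] [Finite G] (p : ℕ) [Fact p.Prime] (M : Ideal Cfsg.AlgInt) (hM : Cfsg.IsPModular p M) (B : Set (Cfsg.IrrCharacter G)) (hB : Cfsg.IsPBlock M B) : Cfsg.blockRank p B ≤ Nat.card B ∧ (Cfsg.blockDefect p B = 0 ↔ (Nat.card B = 1 ∧ Cfsg.blockRank p B = 1)) ∧ (Cfsg.blockDefect p B = 0 ↔ Nat.card B = Cfsg.blockRank p B) := by
  classical
  haveI : PMod p M := ⟨hM⟩
  have := Fintype.ofFinite G
  have hp : p.Prime := Fact.out
  obtain ⟨a, h1, h2, h3, h4, h5, h6⟩ := exists_ctrZ (p := p) hB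
  obtain ⟨ψ, hψ, h0⟩ := exists_height_zero p (IsPBlock.nonempty hB)
  have hA : blockDefect p B = 0 → Nat.card B = 1 ∧ blockRank p B = 1 := fun hd => by
    have hs : B = {ψ} := by
      rw [IsPBlock.eq_blockOf hB hψ]
      exact (blockOf_eq_singleton_iff ψ).2 ((blockDefect_eq_zero_iff hB hψ).1 hd)
    have h7 := h3 ψ hψ
    have h8 := h6 ψ hψ ψ hψ
    rw [hd] at h4 h7
    rw [h0] at h8
    simp only [hs, Set.mem_singleton_iff, Finset.sum_ite_eq', Finset.mem_univ, if_true, pow_zero,
      one_mul] at h4 h7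
    have h9 : a ψ ψ ≠ 0 := fun h => by simp [h] at h8
    have h10 : a ψ ψ = 1 := mul_left_cancel₀ h9 (by rw [← sq, h7, mul_one])
    refine ⟨by rw [hs]; simp, ?_⟩
    rw [hs]
    exact_mod_cast h4.symm.trans h10
  have hC : Nat.card B = blockRank p B → blockDefect p B = 0 := fun hk => by
    have hq : (0 : ℤ) < p ^ blockDefect p B := pow_pos (by exact_mod_cast hp.pos) _
    have hle : ∀ χ ∈ Finset.univ.filter (· ∈ B), a χ χ ≤ p ^ blockDefect p B := fun χ hχ => by
      have hχ' : χ ∈ B := by simpa using hχ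
      have h7 := Finset.single_le_sum (f := fun η => if η ∈ B then a χ η ^ 2 else 0)
        (fun η _ => by split_ifs; exacts [sq_nonneg _, le_rfl]) (Finset.mem_univ χ)
      rw [h3 χ hχ', if_pos hχ'] at h7
      by_contra h8
      nlinarith
    have h7 := (Finset.sum_eq_sum_iff_of_le hle).1 (by
      rw [Finset.sum_filter, h4, Finset.sum_const, ← card_eq_filter, hk, nsmul_eq_mul, mul_comm])
      ψ (by simpa using hψ)
    have h8 := h6 ψ hψ ψ hψ
    rw [h0, h7] at h8
    by_contra hd
    exact (h8.1 (pow_dvd_pow _ (by omega))) rfl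
  exact ⟨blockRank_le_card p B, ⟨hA, fun h => hC (h.1.trans h.2.symm)⟩,
    ⟨fun h => (hA h).1.trans (hA h).2.symm, hC⟩⟩

end Cfsg.Agent.S4733
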