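import Cfsg.Statements.S4607
import Cfsg.Agent.BMod.SymLoc
import Cfsg.Agent.S4733
-- import your own Cfsg.Agent.* helpers here

set_option autoImplicit false
open Cfsg

namespace Cfsg.Agent.S4607

open Cfsg.Agent.BMod Cfsg.Agent.Block Cfsg.Agent.Transfer Cfsg.Agent.Char Cfsg.Agent.CharDeep

/-- Let G be a finite group, p a prime, M a maximal ideal of the algebraic integers containing p, and B a p-block of G with defect group D. Then B contains exactly two irreducible characters if and only if D has order 2. -/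
theorem result {G : Type*} [Group G] [Finite G] (p : ℕ) [Fact p.Prime] (M : Ideal Cfsg.AlgInt) (hM : Cfsg.IsPModular p M) (B : Set (Cfsg.IrrCharacter G)) (hB : Cfsg.IsPBlock M B) (D : Subgroup G) (hD : Cfsg.IsDefectGroup p M B D) : Nat.card B = 2 ↔ Nat.card D = 2 := by
  haveI : PMod p M := ⟨hM⟩
  have := Fintype.ofFinite G
  have h2 := IsDefectGroup.card_eq hB hD
  obtain ⟨h3, h4, h5⟩ := S4733.result p M hM B hB
  have h6 := blockRank_pos (p := p) (IsPBlock.nonempty hB)
  refine ⟨fun hk => ?_, fun hk => ?_⟩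
  · rw [h2, ← card_eq_of_le_four hB (by omega) (by omega), hk]
  · obtain ⟨e, hm⟩ := exists_isMax hB hD
    have : Fact (Nat.Prime 2) := ⟨Nat.prime_two⟩
    have hc : IsCyclic D := isCyclic_of_prime_card hk
    have hab := le_centralizer_of_cyclic hc
    rw [((hm.nil_iff_of_comm hab).2 fun t ht v hv => ?_).card_eq hB hD,
      card_irr_of_comm fun a b => Subtype.ext (hab b.2 a a.2), hk]
    obtain ⟨y, -, hy⟩ := (Nat.card_eq_two_iff' (1 : D)).1 hk
    by_cases h1 : v = 1
    · simp [h1]
    exact (mul_inv_eq_iff_eq_mul.1 (congrArg Subtype.val ((hy ⟨_,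
      (Subgroup.mem_normalizer_iff.1 ht.1 v).1 hv⟩ (by simpa using h1)).trans
      (hy ⟨v, hv⟩ (by simpa using h1)).symm))).symm

end Cfsg.Agent.S4607
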