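import Cfsg.Statements.S4608
import Cfsg.Agent.CK.Blk

set_option autoImplicit false
open Cfsg

namespace Cfsg.Agent.S4608

open Cfsg.Agent.BMod Cfsg.Agent.Block Cfsg.Agent.Transfer Cfsg.Agent.Char Cfsg.Agent.CharDeep

/-- Let G be a finite group, p a prime, M a maximal ideal of the algebraic integers containing p, and B a p-block of G with defect group D. If B has p-regular rank one and exactly five irreducible characters, then D is cyclic of order 5, or D has order 8 and is non-abelian (dihedral or quaternion). -/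
theorem result {G : Type*} [Group G] [Finite G] (p : ℕ) [Fact p.Prime] (M : Ideal Cfsg.AlgInt) (hM : Cfsg.IsPModular p M) (B : Set (Cfsg.IrrCharacter G)) (hB : Cfsg.IsPBlock M B) (D : Subgroup G) (hD : Cfsg.IsDefectGroup p M B D)
    (hl : Cfsg.blockRank p B = 1) (hk : Nat.card B = 5) :
    (Nat.card D = 5) ∨ (Nat.card D = 8 ∧ ¬ IsMulCommutative D) := by
  classical
  haveI : PMod p M := ⟨hM⟩
  have := Fintype.ofFinite G
  have h2 := IsDefectGroup.card_eq hB hD
  obtain ⟨i, hi⟩ := exists_onePt (IsPBlock.isBlockUnion hB) hl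
  obtain ⟨⟨J, l, h1⟩, h3, h4⟩ := hi.exists_symLoc hB
  have h5 := CK.finrank_le_eight h1 (hk ▸ h3)
  obtain ⟨φ, d, -, -, h6, h7⟩ := rank_one hB hl
  rw [finsum_mem_eq_filter, ← h2] at h7
  have h8 := sum_sq_eq_or (Finset.univ.filter (· ∈ B)) (z := fun χ => d χ) fun χ hχ h => by
    simpa [Nat.cast_eq_zero.1 h, rho_apply_one, χ.2.apply_one_ne_zero] using
      congrFun (h6 χ (Finset.mem_filter.1 hχ).2) 1
  rw [← card_eq_filter, hk, show ∑ χ ∈ Finset.univ.filter (· ∈ B), (d χ : ℤ) ^ 2 = Nat.card D by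
    exact_mod_cast h7] at h8
  refine h8.imp (by omega) fun h8 => ⟨by omega, fun hab => ?_⟩
  have h9 : Nat.card D = 8 := by omega
  obtain rfl : p = 2 := by
    have hp : p.Prime := Fact.out
    rcases Nat.eq_zero_or_pos (blockDefect p B) with h | h
    · rw [h, h9] at h2
      simp at h2
    exact (Nat.prime_dvd_prime_iff_eq hp Nat.prime_two).1 (hp.dvd_of_dvd_pow (n := 3)
      ((dvd_pow_self p h.ne').trans (h2.symm.trans h9).dvd))
  obtain ⟨e, hm⟩ := exists_isMax hB hD
  exact CK.not_abelian_eight hB hm (fun x hx y hy => congrArg Subtype.val (hab.1.1 (⟨y, hy⟩ : D) ⟨x, hx⟩))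
    h9 hl hk

end Cfsg.Agent.S4608
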