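import Cfsg.Statements.S4611
import Cfsg.Agent.Block.PSolv
import Cfsg.Agent.Char.Burnside

set_option autoImplicit false
open Cfsg

namespace Cfsg.Agent.S4611

open Cfsg.Agent.Block Cfsg.Agent.BMod Cfsg.Agent.Char MonoidAlgebra


/-- Let G be a finite solvable group and π a nonempty set of primes, each dividing the order of G; fix for each p in π a maximal ideal M p of the algebraic integers containing p. Then the only irreducible character lying in the principal p-block for every p in π is the principal character if and only if G is generated by the subgroups O_{p'}(G), p in π (the largest normal subgroups of order prime to p). -/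
theorem result {G : Type*} [Group G] [Finite G] [Group.IsSolvable G] (π : Set ℕ) (hπ : ∀ p ∈ π, p.Prime ∧ p ∣ Nat.card G) (hne : π.Nonempty) (M : ℕ → Ideal Cfsg.AlgInt) (hM : ∀ p ∈ π, Cfsg.IsPModular p (M p)) :
    (∀ χ : Cfsg.IrrCharacter G, (∀ p ∈ π, χ ∈ Cfsg.principalBlock (M p) G) → (χ : G → ℂ) = fun _ => 1) ↔
      ⨆ p ∈ π, Cfsg.pPrimeCore p G = ⊤ := by
  have key : ∀ χ : IrrCharacter G, (∀ p ∈ π, χ ∈ principalBlock (M p) G) ↔
      ⨆ p ∈ π, pPrimeCore p G ≤ charKer (χ : G → ℂ) := fun χ => by
    simp only [iSup_le_iff]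
    refine forall₂_congr fun p hp => ?_
    have := Fact.mk (hπ p hp).1
    have : PMod p (M p) := ⟨hM p hp⟩
    rw [principalBlock_psolv PLocal.pSolv_of_isSolvable]
    exact forall₂_congr fun n _ => χ.2.isCharacter.mem_charKer.symm
  simp only [key]
  refine ⟨fun h => ?_, fun h χ hχ => ?_⟩
  · have : (⨆ p ∈ π, pPrimeCore p G).Normal := inferInstance
    refine eq_top_iff.2 fun g _ => (QuotientGroup.eq_one_iff g).1 (eq_one_of_forall_irr fun χ hχ => ?_)
    have := h (infl _ (QuotientGroup.mk'_surjective _) ⟨χ, hχ⟩) fun n hn =>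
      (infl _ _ _).2.isCharacter.mem_charKer.2 (by simp [(QuotientGroup.eq_one_iff n).2 hn])
    exact (congrFun this g).trans (congrFun this 1).symm
  · exact χ.2.charKer_eq_top_iff.1 (top_le_iff.1 (h ▸ hχ))

end Cfsg.Agent.S4611
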