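import Cfsg.Statements.S4613
import Cfsg.Agent.Mult.Fo5
import Cfsg.Agent.ChAut.TwNode
import Cfsg.Agent.ChAut.Fix

set_option autoImplicit false
open Cfsg

namespace Cfsg.Agent.S4613

open Cfsg.Agent.Chev Cfsg.Agent.ChAut Cfsg.Agent.Mult MulAction
open scoped Pointwise

theorem mem_of_conj_mul {G : Type*} [Group G] [Finite G] {p : ℕ} [hp : Fact p.Prime] {α : MulAut G}
    (hα : ¬ p ∣ orderOf α) {u : G} {k : ℕ} (hu : u ^ p ^ k = 1) (h : α u = u) {K : Subgroup (MulAut G)}
    (hK : MulAut.conj u * α ∈ K) : α ∈ K := by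
  have hc : Commute (MulAut.conj u) α := MulEquiv.ext fun x => by simp [h]
  have := pow_mem hK (p ^ k)
  rw [hc.mul_pow, ← map_pow, hu, map_one, one_mul] at this
  obtain ⟨j, hj⟩ := exists_pow_eq_self_of_coprime
    (Nat.Coprime.pow_left k ((Nat.Prime.coprime_iff_not_dvd hp.out).2 hα))
  exact hj ▸ pow_mem this j

theorem fold_case {D : Cfsg.Lie.ChevalleyDatum} [Good D] [Conn D] {F : Type} [Field F] [Finite F] {p : ℕ}
    [Fact p.Prime] [CharP F p] {S : Sym D} {Γ : Subgroup (GL D.Idx F)} (h : (adS D F).Fold S Γ) [IsSimpleGroup Γ]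
    (α : MulAut Γ) (hα : ¬ p ∣ orderOf α) (U : Sylow p Γ) (hfix : ∀ x ∈ (U : Subgroup Γ), α x = x) : α = 1 := by
  have c := Sys.adCover D F
  obtain ⟨P, hP⟩ := exists_sylow_UP h c (adS_mult D F) p
  obtain ⟨z, rfl⟩ := exists_smul_eq Γ P U
  set θ := (MulAut.conj z)⁻¹ * α * MulAut.conj z with hθ
  have h1 : ∀ x : Γ, (x : GL D.Idx F) ∈ (adS D F).UP → θ x = x := fun x hx => by
    have := hfix (MulAut.conj z x) (by
      rw [Sylow.coe_subgroup_smul, hP]; exact Subgroup.smul_mem_pointwise_smul _ _ _ hx)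
    rw [hθ, MulAut.mul_apply, MulAut.mul_apply, this]
    simp [mul_assoc]
  have h2 : orderOf θ = orderOf α := by
    rw [hθ, ← inv_inv (MulAut.conj z), inv_inv (MulAut.conj z)⁻¹, ← MulAut.conj_apply]
    exact MulEquiv.orderOf_eq _ _
  obtain ⟨g, hg⟩ := exists_std h c (adS_mult D F) θ
  have h3 : (g : GL D.Idx F) ∈ (adS D F).B := (mem_B_iff_norm h c g.2).2 fun u hu hu' => by
    have := (hg.up ⟨u, hu'⟩).2 hu
    rwa [MulAut.mul_apply, h1 _ hu] at this
  obtain ⟨u, hu, y, hy, e⟩ := Sys.mem_B_iff.1 (inv_mem h3)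
  have hu' := h.stable.mem_of_mul_H hu hy (e ▸ inv_mem g.2)
  have hy' : y ∈ Γ := (Γ.mul_mem_cancel_left hu').1 (e ▸ inv_mem g.2)
  have h4 : MulAut.conj (⟨u, hu'⟩ : Γ)⁻¹ * θ ∈ stdGrp (adS D F) Γ := by
    have := mul_mem (mem_stdGrp.2 ((std_conj_iff h c ⟨y, hy'⟩).2 hy)) (mem_stdGrp.2 hg)
    rwa [← mul_assoc, ← map_mul, show ⟨y, hy'⟩ * g = (⟨u, hu'⟩ : Γ)⁻¹ from Subtype.ext (by
      rw [← inv_inv g]; push_cast; rw [e]; simp)] at this
  obtain ⟨k, hk⟩ := isPGroup_UP c p ⟨u, hu⟩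
  have h5 := mem_of_conj_mul (h2 ▸ hα) (k := k) (by
    rw [inv_pow, inv_eq_one]; exact Subtype.ext (by simpa using congrArg Subtype.val hk)) (h1 _ (inv_mem hu)) h4
  have h6 := Std.eq_one h c h5 (Fold.gen_of_simple h c) fun i u hu => h1 u (Sys.U_mono _ (fun r hr => hr.1) hu)
  rwa [hθ, mul_assoc, inv_mul_eq_one, eq_comm, mul_eq_right] at h6

theorem ro_case {G : Type*} [Group G] [Finite G] [IsSimpleGroup G] {p : ℕ} [Fact p.Prime] (h : RO p G)
    (α : MulAut G) (hα : ¬ p ∣ orderOf α) (U : Sylow p G) (hfix : ∀ x ∈ (U : Subgroup G), α x = x) : α = 1 := by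
  have hs : ∀ (g : G) (P : Sylow p G), α • g • P = α g • α • P := fun g P => by
    rw [Sylow.smul_def, Sylow.smul_def, ← mul_smul, ← mul_smul]
    congr 1
    ext x
    simp
  have h1 : α • U = U := Sylow.ext (by
    refine (Subgroup.eq_of_le_of_card_ge (fun x hx => ?_) (Sylow.card_eq_multiplicity (α • U) ▸
      (Sylow.card_eq_multiplicity U).ge)).symm
    rw [← hfix x hx]
    exact Subgroup.smul_mem_pointwise_smul _ _ _ hx)
  have h2 : ∀ P : Sylow p G, α • P = P := fun P => by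
    by_cases e : P = U
    · rw [e, h1]
    obtain ⟨u, hu, e'⟩ := h.tr U (α • P) P (fun h => e (smul_left_cancel α (h.trans h1.symm))) e
    obtain ⟨k, hk⟩ := U.isPGroup' ⟨u, hu⟩
    exact mem_of_conj_mul (K := stabilizer _ P) hα (k := k) (congrArg Subtype.val hk) (hfix u hu) (by
      rw [mem_stabilizer_iff, mul_smul]; exact e')
  rcases (toPermHom G (Sylow p G)).normal_ker.eq_bot_or_eq_top with e | e
  · refine MulEquiv.ext fun g => (inv_mul_eq_one.1 (e.le (Equiv.ext fun P => ?_))).symm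
    have := hs g P
    rw [h2, h2] at this
    simp [mul_smul, ← this]
  · have : (U : Subgroup G).Normal := Subgroup.normalizer_eq_top_iff.1 (eq_top_iff.2 fun g _ =>
      Sylow.smul_eq_iff_mem_normalizer.1 (congrArg (· U) (e.ge (Subgroup.mem_top g) : toPermHom G (Sylow p G) g = 1)))
    exact MulEquiv.ext fun g => hfix g ((this.eq_bot_or_eq_top.resolve_left (h.ne U)).ge (Subgroup.mem_top g))

/-- Let G be a finite simple group of Lie type in characteristic p and α an automorphism of G of order prime to p that fixes some Sylow p-subgroup of G elementwise. Then α is the identity. -/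
theorem result {G : Type*} [Group G] [Finite G] [IsSimpleGroup G] (p : ℕ) [Fact p.Prime] (hG : Cfsg.IsLieTypeChar p G) (α : MulAut G) (hα : ¬ p ∣ orderOf α) (U : Sylow p G) (hfix : ∀ x ∈ (U : Subgroup G), α x = x) : α = 1 := by
  rcases lieType_cases hG with ⟨D, _, _, F, _, _, _, S, Γ, h, -, ⟨e⟩⟩ | h
  · have := e.symm.isSimpleGroup
    have := fold_case h (MulAut.congr e α) (by rwa [MulEquiv.orderOf_eq]) (U.mapSurjective (f := e.toMonoidHom) e.surjective) (by
      rintro _ ⟨x, hx, rfl⟩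
      simp [hfix x hx])
    exact (MulAut.congr e).map_eq_one_iff.1 this
  · exact ro_case h α hα U hfix

end Cfsg.Agent.S4613
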