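import Cfsg.Statements.S4620
import Cfsg.Agent.Loc.Syl
import Cfsg.Agent.Solv.MinNormal
import Cfsg.Agent.Solv.Core

set_option autoImplicit false
open scoped Pointwise
open Cfsg

namespace Cfsg.Agent.S4620

open Subgroup Loc

/-- elementwise trivial-intersection property of all Sylow subgroups -/
def TI (p : ℕ) (H : Type*) [Group H] : Prop :=
  ∀ S : Subgroup H, SylIn p S ⊤ → ∀ g x : H, x ∈ S → g * x * g⁻¹ ∈ S → x ≠ 1 → g ∈ normalizer (S : Set H)

theorem TI.sub {H : Type*} [Group H] [Finite H] {p : ℕ} [Fact p.Prime] (h : TI p H) (N : Subgroup H) [N.Normal] :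
    TI p N := by
  intro S hS g x hx hgx hx1
  have h1 : SylIn p (S.map N.subtype) N := by
    have := hS.map N.subtype
    rwa [← MonoidHom.range_eq_map, range_subtype] at this
  obtain ⟨T, hT, hST⟩ := exists_sylIn_ge (H := ⊤) le_top h1.pg
  have h2 : T ⊓ N = S.map N.subtype :=
    h1.max _ inf_le_right (hT.pg.to_le inf_le_left) (le_inf hST h1.le)
  have h3 := h T hT g x (hST ⟨x, hx, rfl⟩) (hST ⟨_, hgx, rfl⟩) (by simpa using hx1)
  have h4 : (g : H) ∈ normalizer ((S.map N.subtype : Subgroup H) : Set H) := by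
    rw [← h2]
    exact le_normalizer_inf (L := zpowers (g : H)) (zpowers_le.2 h3) le_normalizer_of_normal (mem_zpowers _)
  have h5 : (g : H) ∈ (normalizer (S : Set N)).map N.subtype := by
    rw [map_subtype_normalizer]; exact ⟨h4, g.2⟩
  obtain ⟨g', hg', e⟩ := h5
  rwa [← Subtype.ext e]

theorem syl_ne {H : Type*} [Group H] [Finite H] {p : ℕ} [Fact p.Prime] (hOp' : pPrimeCore p H = ⊥)
    {K : Subgroup H} [K.Normal] (hK : K ≠ ⊥) {S : Subgroup H} (hS : SylIn p S K) : S ≠ ⊥ := by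
  refine hS.ne_bot ?_
  by_contra hd
  exact hK (Solv.eq_bot_of_pPrimeCore_eq_bot hOp' ((Nat.Prime.coprime_iff_not_dvd Fact.out).2 hd).symm)

theorem cent_eq {H : Type*} [Group H] [Finite H] {p : ℕ} [Fact p.Prime] (h : TI p H) (hOp : pCore p H = ⊥)
    (hOp' : pPrimeCore p H = ⊥) {K : Subgroup H} [K.Normal] (hK : K ≠ ⊥) : centralizer (K : Set H) = ⊥ := by
  by_contra hC
  obtain ⟨S, hS⟩ := exists_sylIn p (⊤ : Subgroup H)
  have h1 := syl_ne hOp' hC (hS.inf_normal' le_top le_normalizer_of_normal)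
  obtain ⟨⟨x, hx, hxC⟩, hx1⟩ := ne_bot_iff_exists_ne_one.1 h1
  have h2 : K ≤ normalizer (S : Set H) := fun k hk =>
    h S hS k x hx (by rw [hxC k hk]; simpa using hx) (fun e => hx1 (Subtype.ext e))
  have h3 := hS.inf_normal' (N := K) le_top le_normalizer_of_normal
  refine syl_ne hOp' hK h3 (eq_bot_iff.2 ?_)
  rw [← hOp]
  refine le_trans (le_pCoreOf h3.le (le_normalizer_inf h2 le_normalizer) h3.pg) ?_
  exact Solv.map_subtype_pCore_le K

theorem exists_min {H : Type*} [Group H] [Finite H] [Nontrivial H] {p : ℕ} [Fact p.Prime] (h : TI p H)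
    (hOp : pCore p H = ⊥) (hOp' : pPrimeCore p H = ⊥) :
    ∃ N : Subgroup H, N.Normal ∧ N ≠ ⊥ ∧ ∀ K : Subgroup H, K.Normal → K ≠ ⊥ → N ≤ K := by
  obtain ⟨N, hN, h0, hmin⟩ := Solv.exists_minimal_normal H
  refine ⟨N, hN, h0, fun K hK hK0 => ?_⟩
  rcases hmin (N ⊓ K) inferInstance inf_le_left with h1 | h1
  · refine absurd (eq_bot_iff.2 ?_) h0
    rw [← cent_eq h hOp hOp' hK0, ← commutator_eq_bot_iff_le_centralizer, eq_bot_iff, ← h1]
    exact commutator_le_inf N K
  · exact inf_eq_left.1 h1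

/-- Let H be a finite group with no nontrivial normal p-subgroup and no nontrivial normal subgroup of order prime to p, whose Sylow p-subgroup P is nontrivial and a trivial-intersection set (P meets its conjugates by elements outside N_H(P) trivially). Then H has a unique minimal normal subgroup N; N is non-abelian simple with trivial centralizer in H (so H embeds in Aut(N)), and a Sylow p-subgroup of N is again a nontrivial trivial-intersection set in N. -/
theorem result {H : Type*} [Group H] [Finite H] (p : ℕ) [Fact p.Prime] (hOp : Cfsg.pCore p H = ⊥) (hOp' : Cfsg.pPrimeCore p H = ⊥) (P : Sylow p H) (hP1 : (P : Subgroup H) ≠ ⊥)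
    (hTI : ∀ g : H, g ∉ Subgroup.normalizer ((P : Subgroup H) : Set H) → (P : Subgroup H) ⊓ (MulAut.conj g • (P : Subgroup H)) = ⊥) :
    ∃ N : Subgroup H, N.Normal ∧ N ≠ ⊥ ∧ (∀ K : Subgroup H, K.Normal → K ≠ ⊥ → N ≤ K) ∧
      IsSimpleGroup N ∧ ¬ IsMulCommutative N ∧ Subgroup.centralizer (N : Set H) = ⊥ ∧
      ∀ Q : Sylow p N, (Q : Subgroup N) ≠ ⊥ ∧
        ∀ n : N, n ∉ Subgroup.normalizer ((Q : Subgroup N) : Set N) → (Q : Subgroup N) ⊓ (MulAut.conj n • (Q : Subgroup N)) = ⊥ := by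
  have hTI' : TI p H := by
    intro S hS g x hx hgx hx1
    obtain ⟨c, -, hc⟩ := (sylIn_top P).exists_conj hS
    by_contra hg
    have h1 : c⁻¹ * g * c ∉ normalizer ((P : Subgroup H) : Set H) := by
      intro h; apply hg
      rw [← hc, ← cj_normalizer]; exact mem_cj.2 h
    have h2 : c⁻¹ * (g * x * g⁻¹) * c ∈ (P : Subgroup H) ⊓ (MulAut.conj (c⁻¹ * g * c) • (P : Subgroup H)) := by
      refine ⟨mem_cj.1 (hc ▸ hgx), ?_⟩
      rw [conj_smul_eq_cj]
      refine mem_cj.2 ?_
      have : c⁻¹ * x * c ∈ (P : Subgroup H) := mem_cj.1 (hc ▸ hx)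
      convert this using 1; group
    rw [hTI _ h1, mem_bot] at h2
    apply hx1
    calc x = g⁻¹ * c * (c⁻¹ * (g * x * g⁻¹) * c) * c⁻¹ * g := by group
      _ = 1 := by rw [h2]; group
  haveI : Nontrivial H := by
    obtain ⟨x, hx⟩ := ne_bot_iff_exists_ne_one.1 hP1
    exact ⟨x, 1, by simpa using hx⟩
  obtain ⟨N, hN, h0, hmin⟩ := exists_min hTI' hOp hOp'
  haveI : Nontrivial N := (nontrivial_iff_ne_bot N).2 h0
  have hNp : pCore p N = ⊥ := by
    have := Solv.map_subtype_pCore_le (p := p) N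
    rwa [hOp, le_bot_iff, map_eq_bot_iff_of_injective _ N.subtype_injective] at this
  have hNp' : pPrimeCore p N = ⊥ := by
    have := Solv.map_subtype_pPrimeCore_le (p := p) N
    rwa [hOp', le_bot_iff, map_eq_bot_iff_of_injective _ N.subtype_injective] at this
  have hC := cent_eq hTI' hOp hOp' h0
  refine ⟨N, hN, h0, hmin, ?_, ?_, hC, fun Q => ⟨?_, fun n hn => ?_⟩⟩
  · obtain ⟨L, hL, hL0, hLmin⟩ := exists_min (hTI'.sub N) hNp hNp'
    haveI : L.Characteristic := by
      rw [characteristic_iff_le_comap]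
      intro φ
      refine hLmin _ inferInstance ?_
      intro h
      apply hL0
      rw [← map_comap_eq_self_of_surjective (f := φ.toMonoidHom) φ.surjective L, h, Subgroup.map_bot]
    have h1 : N ≤ L.map N.subtype := hmin _ inferInstance
      (by rwa [Ne, map_eq_bot_iff_of_injective _ N.subtype_injective])
    refine ⟨fun K hK => ?_⟩
    by_cases hK0 : K = ⊥
    · exact Or.inl hK0
    · refine Or.inr (eq_top_iff.2 fun x _ => hLmin K hK hK0 ?_)
      obtain ⟨y, hy, e⟩ := h1 x.2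
      rwa [← Subtype.ext e]
  · intro hc
    apply h0
    rw [eq_bot_iff, ← hC]
    intro x hx y hy
    exact congrArg Subtype.val (hc.is_comm.comm (⟨y, hy⟩ : N) ⟨x, hx⟩)
  · exact syl_ne (K := ⊤) hNp' top_ne_bot (sylIn_top Q)
  · rw [eq_bot_iff]
    rintro y ⟨hy1, hy2⟩
    by_contra hy
    rw [conj_smul_eq_cj] at hy2
    refine hn (hTI'.sub N Q (sylIn_top Q) n _ (mem_cj.1 hy2) (by rw [show n * (n⁻¹ * y * n) * n⁻¹ = y by group]; exact hy1) ?_)
    intro e
    apply hy
    rw [mem_bot]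
    calc y = n * (n⁻¹ * y * n) * n⁻¹ := by group
      _ = 1 := by rw [e]; group

end Cfsg.Agent.S4620
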