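import Cfsg.Statements.S4625
import Cfsg.Agent.Mult.Fo5
import Cfsg.Agent.ChAut.Fix

set_option autoImplicit false
open Cfsg

namespace Cfsg.Agent.S4625

open Cfsg.Agent.Chev Cfsg.Agent.ChAut Cfsg.Agent.Mult MulAction
open scoped Pointwise


/-- Let G be a finite simple group of Lie type in characteristic 2, not counting the Tits group ²F₄(2)′. Then a Sylow 2-subgroup P of G has P/P' elementary abelian: the square of every element of P lies in the derived subgroup of P. -/
theorem result {G : Type*} [Group G] [Finite G] [IsSimpleGroup G] (hG : Cfsg.IsLieTypeChar 2 G) (P : Sylow 2 G) :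
    ∀ x : (P : Subgroup G), x ^ 2 ∈ commutator (P : Subgroup G) := by
  have key : ∀ x ∈ (P : Subgroup G), x ^ 2 ∈ ⁅(P : Subgroup G), (P : Subgroup G)⁆ := by
    rcases lieType_cases hG with ⟨D, _, _, F, _, _, _, S, Γ, h, hs, ⟨e⟩⟩ | h
    · have c := Sys.adCover D F
      obtain ⟨Q, hQ⟩ := exists_sylow_UP h c (adS_mult D F) 2
      obtain ⟨z, hz⟩ := exists_smul_eq Γ (P.mapSurjective (f := e.toMonoidHom) e.surjective) Q
      let f : G →* GL D.Idx F := Γ.subtype.comp ((MulAut.conj z).toMonoidHom.comp e.toMonoidHom)
      have hf : Function.Injective f := Γ.subtype_injective.comp ((MulAut.conj z).injective.comp e.injective)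
      have h1 : (P : Subgroup G).map f = (adS D F).UP ⊓ Γ := by
        rw [← Subgroup.subgroupOf_map_subtype, ← hQ, ← hz, ← Subgroup.map_map, ← Subgroup.map_map]
        rfl
      intro x hx
      have := (hs rfl).sq_mem h (h1.le (Subgroup.mem_map_of_mem f hx))
      rwa [← h1, ← Subgroup.map_commutator, ← map_pow, Subgroup.mem_map_iff_mem hf] at this
    · exact h.sq rfl P
  intro x
  have := key x x.2
  rw [← Subgroup.map_subtype_commutator] at this
  exact (Subgroup.mem_map_iff_mem (P : Subgroup G).subtype_injective).1 this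

end Cfsg.Agent.S4625
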