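import Cfsg.Statements.S4646
import Cfsg.Agent.BMod.Rank2
import Cfsg.Agent.BMod.Dict3
import Cfsg.Agent.Transfer.Frobenius
-- import your own Cfsg.Agent.* helpers here

set_option autoImplicit false
open Cfsg

namespace Cfsg.Agent.S4646

open Cfsg.Agent.BMod Cfsg.Agent.Block Cfsg.Agent.Transfer Cfsg.Agent.Char Cfsg.Agent.CharDeep

/-- For a finite group G, a prime p and a maximal ideal M of the algebraic integers containing p: the principal block of G is nilpotent if and only if its p-regular rank is 1 (the trivial Brauer character is its only irreducible Brauer character). -/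
theorem result {G : Type*} [Group G] [Finite G] (p : ℕ) [Fact p.Prime] (M : Ideal Cfsg.AlgInt) (hM : Cfsg.IsPModular p M) : Cfsg.IsNilpotentBlock p M (Cfsg.principalBlock M G) ↔ Cfsg.blockRank p (Cfsg.principalBlock M G) = 1 := by
  haveI : PMod p M := ⟨hM⟩
  have hp : p.Prime := Fact.out
  have h1 : IsNilpotentBlock p M (principalBlock M G) ↔ HasNormalPComplement p G := by
    rw [isNilpotentBlock_iff, nil_top_iff]
    constructor
    · rintro ⟨-, h⟩
      refine hasNormalPComplement_of_forall_isPGroup fun Q hQ _ g hg hc => ?_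
      obtain ⟨e, he⟩ := exists_isPrinc (F M) (Subgroup.centralizer (Q : Set G))
      refine h Q e ⟨hQ, he.1⟩ (IsPrinc.mul_br he hQ isPrinc_eB.1.idem (eB_mem_fix _ _)
        (eB_mem_fix _ _) isPrinc_eB.2) g (mem_NP.2 ⟨hg, IsPrinc.cj_eq he
          (normalizer_le_normalizer_centralizer Q hg)⟩) ?_
      exact (Nat.Prime.coprime_iff_not_dvd hp).1 hc.symm
    · intro h
      exact ⟨isPBlock_principalBlock, fun R g hR _ x hx hx' =>
        mem_centralizer_of_hasNormalPComplement h hR.1 (NP_le_normalizer hx)
          ((Nat.Prime.coprime_iff_not_dvd hp).2 hx').symm⟩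
  rw [h1]
  constructor
  · intro h
    refine blockRank_eq_one irrOne_mem_principalBlock fun χ hχ => ⟨(χ : G → ℂ) 1, fun g hg => ?_⟩
    have h2 := mem_pPrimeCore_of_complement h hg
    rw [← kerOf_principalBlock (M := M), mem_kerOf] at h2
    rw [h2 χ hχ, irrOne_apply, mul_one]
  · intro h
    have h2 : ∀ g : G, (orderOf g).Coprime p → g ∈ pPrimeCore p G := fun g hg => by
      rw [← kerOf_principalBlock (M := M), mem_kerOf]
      intro χ hχ
      have hg' := (Nat.Prime.coprime_iff_not_dvd hp).1 hg.symm
      have := congrFun (rho_eq_smul_of_rank_one h hχ irrOne_mem_principalBlock) g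
      rw [Pi.smul_apply, rho_apply_of_not_dvd _ hg', rho_apply_of_not_dvd _ hg'] at this
      simpa using this
    refine hasNormalPComplement_iff_mul_coprime.2 fun x y hx hy => ?_
    exact Nat.Coprime.coprime_dvd_left (Subgroup.orderOf_dvd_natCard _
      (Subgroup.mul_mem _ (h2 x hx) (h2 y hy))) coprime_card_pPrimeCore

end Cfsg.Agent.S4646
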