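import Cfsg.Statements.S4691
import Cfsg.Agent.BMod.Dict3
-- import your own Cfsg.Agent.* helpers here

set_option autoImplicit false
open Cfsg

namespace Cfsg.Agent.S4691

open Cfsg.Agent.BMod Cfsg.Agent.Block Cfsg.Agent.Transfer

/-- Fix a prime p and a maximal ideal M of the algebraic integers containing p. A finite group G has a normal p-complement if and only if its principal p-block is nilpotent. -/
theorem result {G : Type*} [Group G] [Fintype G] (p : ℕ) [Fact p.Prime] (M : Ideal Cfsg.AlgInt) (hM : Cfsg.IsPModular p M) : Cfsg.HasNormalPComplement p G ↔ Cfsg.IsNilpotentBlock p M (Cfsg.principalBlock M G) := by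
  haveI : PMod p M := ⟨hM⟩
  have hp : p.Prime := Fact.out
  rw [isNilpotentBlock_iff, and_iff_right isPBlock_principalBlock, nil_top_iff]
  constructor
  · intro h R g hg _ x hx hx'
    exact mem_centralizer_of_hasNormalPComplement h hg.1 hx.1 (hp.coprime_iff_not_dvd.2 hx').symm
  · intro h
    refine hasNormalPComplement_of_forall_isPGroup fun Q hQ _ g hg hc => ?_
    have h1 := isPrinc_eS (M := M) (Subgroup.centralizer (Q : Set G))
    exact h Q _ ⟨hQ, h1.1⟩ (h1.mul_br hQ isPrinc_eB.1.idem (eB_mem_fix _ _) (eB_mem_fix _ _)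
      isPrinc_eB.2) g ⟨hg, h1.cj_eq (normalizer_le_normalizer_centralizer Q hg)⟩
      (hp.coprime_iff_not_dvd.1 hc.symm)

end Cfsg.Agent.S4691
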