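import Cfsg.Statements.S4741
import Cfsg.Agent.Block.Robinson

set_option autoImplicit false
open Cfsg

namespace Cfsg.Agent.S4741

open Cfsg.Agent.Block Cfsg.Agent.BMod Cfsg.Agent.Char MonoidAlgebra


/-- Let p be a prime, M a maximal ideal of the algebraic integers containing p, and D a subgroup of the finite group G. Let x₁, …, x_r be pairwise non-conjugate elements of G such that D is a Sylow p-subgroup of the centralizer of each xᵢ, and such that for any conjugates g of some xᵢ and h of some xⱼ the element g h⁻¹ is never a non-identity p-element. Then there are r distinct p-blocks B₁, …, B_r of G, each having D as a defect group, such that for every choice of characters χᵢ ∈ Bᵢ of height zero the determinant of the r × r matrix (χᵢ(xⱼ)) does not lie in the local ideal at M. -/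
theorem result {G : Type*} [Group G] [Finite G] (p : ℕ) [Fact p.Prime] (M : Ideal Cfsg.AlgInt) (hM : Cfsg.IsPModular p M) (D : Subgroup G) {r : ℕ} (x : Fin r → G) (hx : ∀ i j : Fin r, IsConj (x i) (x j) → i = j) (hD : ∀ i : Fin r, ∃ S : Sylow p ↥(Subgroup.centralizer ({x i} : Set G)), (S : Subgroup ↥(Subgroup.centralizer ({x i} : Set G))).map (Subgroup.centralizer ({x i} : Set G)).subtype = D) (hsep : ∀ i j : Fin r, ∀ g h : G, IsConj (x i) g → IsConj (x j) h → ∀ k : ℕ, 0 < k → orderOf (g * h⁻¹) ≠ p ^ k) : ∃ B : Fin r → Set (Cfsg.IrrCharacter G), Function.Injective B ∧ (∀ i : Fin r, Cfsg.IsPBlock M (B i) ∧ Cfsg.IsDefectGroup p M (B i) D) ∧ ∀ χ : Fin r → Cfsg.IrrCharacter G, (∀ i : Fin r, χ i ∈ B i ∧ Cfsg.blockHeight p (B i) (χ i : G → ℂ) = 0) → ¬ Cfsg.MemLocalIdeal M (Matrix.det (Matrix.of fun i j : Fin r => (χ i : G → ℂ) (x j))) := by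
  classical
  have : PMod p M := ⟨hM⟩
  obtain ⟨S⟩ : Nonempty (Sylow p G) := inferInstance
  obtain ⟨w, hw, h⟩ := red_card_pairs' (M := M) S D
  have hxD : ∀ i, Transfer.IsSylowIn p D (Subgroup.centralizer {x i}) := fun i =>
    Transfer.isSylowIn_iff_exists_sylow.2 (hD i)
  set a := (Nat.card G).factorization p with ha
  set d := (Nat.card D).factorization p with hd
  have hfac : ∀ i, (Subgroup.centralizer ({x i} : Set G)).index.factorization p = a - d := by
    intro i
    have := factorization_card_add_index p (Subgroup.centralizer ({x i} : Set G))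
    have := factorization_card_of_isSylowIn (hxD i)
    omega
  have hcard : ∀ i j, Nat.card {yz : G × G // IsConj (x i) yz.1 ∧ IsConj (x j) yz.2 ∧
      yz.2 * yz.1⁻¹ ∈ (S : Subgroup G)} =
        if i = j then (Subgroup.centralizer ({x i} : Set G)).index else 0 := by
    intro i j
    have key : ∀ y z, IsConj (x i) y → IsConj (x j) z → z * y⁻¹ ∈ (S : Subgroup G) → z = y := by
      intro y z hy hz hS
      obtain ⟨k, hk⟩ := orderOf_eq_pow_of_mem S.isPGroup' hS
      rcases k.eq_zero_or_pos with rfl | h0
      · exact mul_inv_eq_one.1 (by simpa using hk)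
      · exact (hsep j i z y hz hy k h0 hk).elim
    split_ifs with hij
    · subst hij
      rw [← ncard_isConj, ← Nat.card_coe_set_eq]
      refine Nat.card_congr ⟨fun yz => ⟨yz.1.1, yz.2.1⟩, fun y => ⟨(y, y), y.2, y.2, by simp⟩,
        fun yz => Subtype.ext (Prod.ext rfl (key _ _ yz.2.1 yz.2.2.1 yz.2.2.2).symm),
        fun y => rfl⟩
    · rw [Nat.card_eq_zero]
      exact Or.inl ⟨fun yz => hij (hx i j (yz.2.1.trans
        (key _ _ yz.2.1 yz.2.2.1 yz.2.2.2 ▸ yz.2.2.1.symm)))⟩
  obtain ⟨f, hf, hdet⟩ := exists_det_submatrix_ne_zero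
    ((Matrix.of fun B i => red M (centralChar (rep B.1 : G → ℂ) (x i)⁻¹)).transpose *
      Matrix.diagonal w) (Matrix.of fun B i => red M (centralChar (rep B.1 : G → ℂ) (x i))) (by
      have : (Matrix.of fun (B : {B // IsPBlock M B ∧ IsDefectGroup p M B D}) i =>
          red M (centralChar (rep B.1 : G → ℂ) (x i)⁻¹)).transpose * Matrix.diagonal w *
          (Matrix.of fun (B : {B // IsPBlock M B ∧ IsDefectGroup p M B D}) i => red M (centralChar (rep B.1 : G → ℂ) (x i))) =
          Matrix.diagonal fun i =>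
            (((Subgroup.centralizer ({x i} : Set G)).index / p ^ (a - d) : ℕ) : F M) := by
        ext i j
        simp only [Matrix.mul_apply, Matrix.of_apply, Matrix.transpose_apply,
          Matrix.diagonal_apply, mul_ite, mul_zero, Finset.sum_ite_eq', Finset.mem_univ, if_true]
        rw [← (h _ _ (hxD i) (hxD j)).2, hcard]
        split_ifs <;> simp
      rw [this, Matrix.det_diagonal, Finset.prod_ne_zero_iff]
      intro i _
      rw [Ne, natCast_F_eq_zero_iff, ← hfac i]
      exact Nat.not_dvd_ordCompl Fact.out (index_centralizer_ne_zero _))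
  refine ⟨fun i => (f i).1, fun i j H => hf (Subtype.ext H), fun i => (f i).2, fun χ hχ => ?_⟩
  set A : Matrix (Fin r) (Fin r) (O M) := Matrix.of fun i j => ⟨(χ i : G → ℂ) (x j), irr_mem_O _ _⟩
  have hA : (Matrix.of fun i j : Fin r => (χ i : G → ℂ) (x j)).det = (A.det : ℂ) := by
    rw [← Subring.coe_subtype, RingHom.map_det]; rfl
  rw [hA, ← res_eq_zero_iff, RingHom.map_det]
  have hu : ∀ i, red M ((χ i : G → ℂ) 1 / (p : ℂ) ^ (a - d)) ≠ 0 := by
    intro i
    rw [← deg_cast_irr, ← Nat.cast_pow, red_natCast_div_ne_zero_iff (deg_ne_zero (χ i).2)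
      (pow_ne_zero _ (Fact.out : p.Prime).ne_zero), Nat.Prime.factorization_pow Fact.out]
    have := deg_add_defect p (hχ i).1
    have := (f i).2.2.factorization_card (f i).2.1
    have := (hχ i).2
    have := factorization_card_add_index p D
    simp only [Finsupp.single_eq_same] at *
    omega
  have hv : ∀ j, red M ((p : ℂ) ^ (a - d) / (Subgroup.centralizer ({x j} : Set G)).index) ≠ 0 := by
    intro j
    rw [← Nat.cast_pow, red_natCast_div_ne_zero_iff (pow_ne_zero _ (Fact.out : p.Prime).ne_zero)
      (index_centralizer_ne_zero _), Nat.Prime.factorization_pow Fact.out, hfac]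
    simp
  have h3 : (res M).mapMatrix A = Matrix.diagonal (fun i => red M ((χ i : G → ℂ) 1 /
      (p : ℂ) ^ (a - d))) * ((Matrix.of fun B i => red M (centralChar (rep B.1 : G → ℂ) (x i))).submatrix
        f id) * Matrix.diagonal fun j =>
          red M ((p : ℂ) ^ (a - d) / (Subgroup.centralizer ({x j} : Set G)).index) := by
    ext i j
    simp only [RingHom.mapMatrix_apply, Matrix.map_apply, Matrix.mul_diagonal, Matrix.diagonal_mul,
      Matrix.submatrix_apply, Matrix.of_apply, id, A]
    rw [← red_of_mem, ← (sameBlock_iff_red (χ i).2 (rep (f i).1).2).1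
      ((f i).2.1.sameBlock (hχ i).1 (IsPBlock.rep_mem (f i).2.1)),
      ← red_mul (mem_O_of_red_ne_zero (hu i)) (centralChar_mem_O (χ i).2 _), ← red_mul
      (mul_mem (mem_O_of_red_ne_zero (hu i)) (centralChar_mem_O (χ i).2 _))
      (mem_O_of_red_ne_zero (hv j)), centralChar]
    congr 1
    have := (χ i).2.apply_one_ne_zero
    have := natCast_p_ne_zero M
    have : ((Subgroup.centralizer ({x j} : Set G)).index : ℂ) ≠ 0 := by
      exact_mod_cast index_centralizer_ne_zero _
    field_simp
  rw [h3, Matrix.det_mul, Matrix.det_mul, Matrix.det_diagonal, Matrix.det_diagonal]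
  exact mul_ne_zero (mul_ne_zero (Finset.prod_ne_zero_iff.2 fun i _ => hu i) hdet)
    (Finset.prod_ne_zero_iff.2 fun i _ => hv i)

end Cfsg.Agent.S4741
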