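import Cfsg.Statements.S4743
import Cfsg.Agent.Block.Count2

set_option autoImplicit false
open Cfsg

namespace Cfsg.Agent.S4743

open Cfsg.Agent.Block Cfsg.Agent.BMod Cfsg.Agent.Char MonoidAlgebra

lemma aux {G : Type*} [Group G] [Finite G] {p q : ℕ} [hp : Fact p.Prime] [hq : Fact q.Prime]
    (hC : ∀ g : G, g ≠ 1 → (∃ k : ℕ, orderOf g = p ^ k) →
      ¬ q ∣ Nat.card (Subgroup.centralizer ({g} : Set G)))
    (h : ∀ χ : IrrCharacter G, (charDegree (χ : G → ℂ)).factorization q ≠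
      (Nat.card G).factorization q) (N : Subgroup G) [hN : N.Normal] (h1 : p ∣ Nat.card N) :
    q ∣ Nat.card N := by
  obtain ⟨z, hz⟩ := exists_prime_orderOf_dvd_card' p h1
  rw [← Subgroup.orderOf_coe] at hz
  obtain ⟨a, b, ha, hb, h2, h3⟩ := exists_pair_of_no_defect_zero (hC z (fun h => hp.out.ne_one
    (by rw [← hz, h, orderOf_one])) ⟨1, by simpa using hz⟩) h
  obtain ⟨c, rfl⟩ := isConj_iff.1 ha
  obtain ⟨d, rfl⟩ := isConj_iff.1 hb
  exact dvd_trans (by_contra fun h => h2 (eq_one_of_orderOf_pow_of_not_dvd h3 h))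
    (Subgroup.orderOf_dvd_natCard _ (N.mul_mem (hN.conj_mem _ z.2 c) (N.inv_mem (hN.conj_mem _ z.2 d))))

lemma aux2 {G : Type*} [Group G] [Finite G] {p q : ℕ} [hp : Fact p.Prime] [hq : Fact q.Prime]
    (hpq : p ≠ q) (h : ∀ N : Subgroup G, N.Normal → (p ∣ Nat.card N ↔ q ∣ Nat.card N))
    (hs : IsPSolvable p G) : ¬ p ∣ Nat.card G := by
  obtain ⟨n, H, h0, h1, h2, h3, h4⟩ := hs
  rw [← Subgroup.card_top, ← h1]
  suffices ∀ i, ¬ p ∣ Nat.card (H i) from this _
  intro i
  induction i using Fin.induction with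
  | zero => rw [h0]; simp [hp.out.ne_one]
  | succ i ih =>
    have h5 := Subgroup.relIndex_mul_relIndex ⊥ _ _ bot_le (h2 (Fin.castSucc_le_succ i))
    simp only [Subgroup.relIndex_bot_left] at h5
    rcases h4 i with ⟨m, hm⟩ | hm
    · rw [h _ (h3 _), ← h5, hm, hq.out.dvd_mul, not_or]
      exact ⟨mt (h _ (h3 _)).2 ih, fun h => hpq
        ((Nat.prime_dvd_prime_iff_eq hq.out hp.out).1 (hq.out.dvd_of_dvd_pow h)).symm⟩
    · rw [← h5, hp.out.dvd_mul, not_or]
      exact ⟨ih, (Nat.Prime.coprime_iff_not_dvd hp.out).1 hm.symm⟩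

/-- Let p ≠ q be primes dividing the order of the finite group G, suppose the centralizer of every non-identity p-element has order prime to q, and suppose G is p-solvable or q-solvable. Then G has an irreducible character of p-defect zero or an irreducible character of q-defect zero. -/
theorem result {G : Type*} [Group G] [Finite G] (p q : ℕ) [Fact p.Prime] [Fact q.Prime] (hppq : p ≠ q) (hpG : p ∣ Nat.card G) (hqG : q ∣ Nat.card G) (hC : ∀ g : G, g ≠ 1 → (∃ k : ℕ, orderOf g = p ^ k) → ¬ q ∣ Nat.card ↥(Subgroup.centralizer ({g} : Set G))) (hsolv : Cfsg.IsPSolvable p G ∨ Cfsg.IsPSolvable q G) : (∃ χ : Cfsg.IrrCharacter G, (Cfsg.charDegree (χ : G → ℂ)).factorization p = (Nat.card G).factorization p) ∨ (∃ χ : Cfsg.IrrCharacter G, (Cfsg.charDegree (χ : G → ℂ)).factorization q = (Nat.card G).factorization q) := by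
  by_contra! h
  have h1 : ∀ N : Subgroup G, N.Normal → (p ∣ Nat.card N ↔ q ∣ Nat.card N) := fun N _ =>
    ⟨aux hC h.2 N, aux (not_dvd_centralizer_symm hC) h.1 N⟩
  exact hsolv.elim (aux2 hppq h1 · hpG) (aux2 hppq.symm (fun N hN => (h1 N hN).symm) · hqG)

end Cfsg.Agent.S4743
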