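import Cfsg.Statements.S4746
import Cfsg.Agent.Block.Count2

set_option autoImplicit false
open Cfsg

namespace Cfsg.Agent.S4746

open Cfsg.Agent.Block Cfsg.Agent.BMod Cfsg.Agent.Char MonoidAlgebra


/-- Let p be an odd prime and G a finite group of even order divisible by p in which the centralizer of every non-identity p-element has odd order. Then G has an irreducible character of p-defect zero or an irreducible character of even degree. -/
theorem result {G : Type*} [Group G] [Finite G] (p : ℕ) [Fact p.Prime] (hp2 : p ≠ 2) (hpG : p ∣ Nat.card G) (h2G : 2 ∣ Nat.card G) (hC : ∀ g : G, g ≠ 1 → (∃ k : ℕ, orderOf g = p ^ k) → Odd (Nat.card ↥(Subgroup.centralizer ({g} : Set G)))) : (∃ χ : Cfsg.IrrCharacter G, (Cfsg.charDegree (χ : G → ℂ)).factorization p = (Nat.card G).factorization p) ∨ ∃ χ : Cfsg.IrrCharacter G, Even (Cfsg.charDegree (χ : G → ℂ)) := by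
  by_contra! h
  obtain ⟨t, u, -, h1, h2, h3⟩ := exists_inverted h2G hC h.1
  obtain ⟨M, _⟩ := exists_pmod' 2
  have h4 := congrArg (red M) (sum_irr_degree_mul h1)
  have h5 := congrArg (red M) (sum_irr_mul_conj_of_isConj (IsConj.refl u))
  have h6 : ∀ n : ℕ, Odd n → (n : F M) = 1 := by
    rintro _ ⟨m, rfl⟩
    rw [Nat.cast_add, (natCast_F_eq_zero_iff (M := M) _).2 (dvd_mul_right 2 m)]; simp
  simp only [fun χ : IrrCharacter G => (χ.2.isCharacter.apply_inv u).symm, ← h3,
    fun χ : IrrCharacter G => χ.2.isClassFunction u t] at h5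
  rw [red_sum _ fun χ _ => mul_mem (irr_mem_O _ _) (irr_mem_O _ _)] at h4 h5
  simp only [red_mul (irr_mem_O _ _) (irr_mem_O _ _)] at h4 h5
  simp only [← deg_cast_irr, red_natCast, ← sq,
    fun χ => h6 _ (Nat.not_even_iff_odd.1 (h.2 χ)), one_mul, h6 _ (hC u h1 h2), red_zero] at h4 h5
  rw [← sum_pow_char 2, h4] at h5
  simp at h5

end Cfsg.Agent.S4746
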