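import Cfsg.Statements.S4748
import Cfsg.Agent.BG.Base6
import Cfsg.Agent.PLocal.PSolv
import Cfsg.Agent.Solv.Core
import Mathlib.Analysis.Fourier.FiniteAbelian.PontryaginDuality
import Mathlib.RingTheory.RootsOfUnity.AlgebraicallyClosed
import Mathlib.Tactic.Group

set_option autoImplicit false
open scoped Pointwise
open Cfsg

namespace Cfsg.Agent.S4748
open scoped commutatorElement

open Subgroup Cfsg.Agent.BG

variable {G : Type*} [Group G] [Finite G] {R : Type*} [Ring R] [Algebra ℂ R] {P Q K : Subgroup G}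

theorem indep {ι M : Type*} [Monoid M] (act : M → R →ₗ[ℂ] R) (X : ι → R) (l : ι → M →* ℂ) (hl : Function.Injective l)
    (h0 : ∀ i, X i ≠ 0) (h : ∀ i q, act q (X i) = l i q • X i) : LinearIndependent ℂ X := by
  classical
  rw [linearIndependent_iff']
  intro s c e i hi
  have k := linearIndependent_iff'.1 ((linearIndependent_monoidHom M ℂ).comp l hl) s
  obtain ⟨f, hf⟩ := not_forall.1 (mt (Module.forall_dual_apply_eq_zero_iff ℂ (X i)).1 (h0 i))
  have := k (fun j => c j * f (X j)) (funext fun q => by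
    have := congrArg (fun v => f (act q v)) e
    simp only [map_sum, map_smul, h, smul_eq_mul, map_zero] at this
    simp only [Finset.sum_apply, Pi.smul_apply, Function.comp, smul_eq_mul, Pi.zero_apply]
    rw [← this]
    exact Finset.sum_congr rfl fun j _ => by ring) i hi
  exact (mul_eq_zero.1 this).resolve_right hf

theorem eig (ρ : G →* R) (hρ : Function.Injective ρ) (a : G) (h : ¬ Q ≤ C1[a]) (Z : Subgroup G) (hd : ⁅Q, Q⁆ ≤ Z)
    (hZ : Z ≤ C[Q]) (ha : Z ≤ C1[a]) : ∃ (X : R) (l : Q →* ℂ), X ≠ 0 ∧ l ≠ 1 ∧ (∀ q : Q, q.1 ∈ Z → l q = 1) ∧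
      ∀ q : Q, ρ q * X * ρ q.1⁻¹ = l q • X := by
  classical
  have := Fintype.ofFinite Q
  have := Fintype.ofFinite (Additive (Abelianization Q))
  let π : Q →* Abelianization Q := Abelianization.of
  let e : AddChar (Additive (Abelianization Q)) ℂ → R := fun ψ =>
    ∑ q : Q, ψ (.ofMul (π q⁻¹)) • (ρ q * ρ a * ρ q.1⁻¹)
  let l : AddChar (Additive (Abelianization Q)) ℂ → Q →* ℂ := fun ψ =>
    ⟨⟨fun q => ψ (.ofMul (π q)), by simp⟩, fun x y => by simp [AddChar.map_add_eq_mul]⟩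
  have he : ∀ ψ (r : Q), ρ r * e ψ * ρ r.1⁻¹ = l ψ r • e ψ := fun ψ r => by
    simp only [e, Finset.mul_sum, Finset.sum_mul, Finset.smul_sum]
    refine Fintype.sum_equiv (Equiv.mulLeft r) _ _ fun q => ?_
    simp only [Equiv.coe_mulLeft, mul_smul_comm, smul_mul_assoc, smul_smul, coe_mul, mul_inv_rev, map_mul, mul_assoc]
    congr 1
    show _ = l ψ r * (ψ (.ofMul (π q⁻¹ * π r⁻¹)))
    rw [ofMul_mul, AddChar.map_add_eq_mul, mul_left_comm]
    show _ = _ * (l ψ r * l ψ r⁻¹)
    rw [← map_mul, mul_inv_cancel, map_one, mul_one]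
  have cz : ∀ z ∈ Z, ρ z * ρ a * ρ z⁻¹ = ρ a := fun z hz => by
    rw [← map_mul, ← map_mul, mem_cent1.1 (ha hz), mul_inv_cancel_right]
  by_contra n
  push Not at n
  have e0 : ∀ ψ, ψ ≠ 0 → e ψ = 0 := fun ψ hψ => by_contra fun k => by
    obtain ⟨q, hq⟩ := n (e ψ) (l ψ) k (fun h => hψ (AddChar.ext _ _ fun x => by
      obtain ⟨q, hq⟩ := QuotientGroup.mk_surjective (Additive.toMul x)
      have := DFunLike.congr_fun h q
      exact (congrArg ψ (congrArg Additive.ofMul hq).symm).trans this)) fun z hz => by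
        have k1 : ρ z * e ψ * ρ z.1⁻¹ = e ψ := by
          simp only [e, Finset.mul_sum, Finset.sum_mul, mul_smul_comm, smul_mul_assoc, ← map_mul]
          refine Finset.sum_congr rfl fun q _ => ?_
          have c1 : (q : G) * z = z * q := hZ hz q q.2
          have c2 : (z : G) * a = a * z := mem_cent1.1 (ha hz)
          congr 2
          calc _ = (z * q) * a * ((z : G) * q)⁻¹ := by group
            _ = q * (z * a) * z.1⁻¹ * q.1⁻¹ := by rw [← c1]; group
            _ = _ := by rw [c2]; group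
        rw [he] at k1
        exact smul_left_injective ℂ k (k1.trans (one_smul _ _).symm)
    exact hq (he ψ q)
  have s1 : ∑ ψ, e ψ = e 0 := Finset.sum_eq_single _ (fun ψ _ => e0 ψ) (by simp)
  have s2 : ∑ ψ, e ψ = (∑ q : Q, if π q⁻¹ = 1 then (Fintype.card (Additive (Abelianization Q)) : ℂ) else 0) • ρ a := by
    simp only [e]
    rw [Finset.sum_comm, Finset.sum_smul]
    refine Finset.sum_congr rfl fun q _ => ?_
    rw [← Finset.sum_smul, AddChar.sum_apply_eq_ite]
    by_cases k : π q⁻¹ = 1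
    · have : (q : G) ∈ Z := hd (by
        have : q ∈ _root_.commutator Q := by simpa using (QuotientGroup.eq_one_iff _).1 k
        exact Q.map_subtype_commutator ▸ ⟨q, this, rfl⟩)
      rw [cz _ this]; simp [k]
    · rw [if_neg k, if_neg (by simpa using k)]; simp
  have s3 : (∑ q : Q, if π q⁻¹ = 1 then (Fintype.card (Additive (Abelianization Q)) : ℂ) else 0) ≠ 0 := by
    rw [← Finset.sum_filter, Finset.sum_const, nsmul_eq_mul]
    exact mul_ne_zero (Nat.cast_ne_zero.2 (Finset.card_ne_zero.2 ⟨1, by simp⟩)) (Nat.cast_ne_zero.2 Fintype.card_ne_zero)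
  refine h fun q hq => mem_cent1.2 (mul_inv_eq_iff_eq_mul.1 (hρ ?_))
  have := he 0 ⟨q, hq⟩
  rw [← s1, s2, mul_smul_comm, smul_mul_assoc, show l 0 ⟨q, hq⟩ = 1 from rfl, one_smul] at this
  rw [map_mul, map_mul]
  exact smul_right_injective R s3 this

theorem bound [Module.Finite ℂ R] [Nontrivial R] (ρ : G →* R) (hρ : Function.Injective ρ) (hn : P ≤ N[Q])
    (hc : (#Q).Coprime #P) (hs : Group.IsSolvable Q) (hQ : ⁅Q, P⁆ = Q) (h1 : Q ≠ ⊥) (hd : P ≤ C[⁅Q, Q⁆])
    (sp : ∀ a ∈ P, a ≠ 1 → Q ⊓ C1[a] ≤ C[P]) : #P < Module.finrank ℂ R := by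
  classical
  have d : ⁅Q, Q⁆ ≤ Q ⊓ C[P] := le_inf (commg_subl (normG Q)) (centsC.1 hd)
  have hZ : Q ⊓ C[P] ≤ C[Q] := by
    refine commG1'.1 ?_
    nth_rw 1 [← hQ]
    refine three_subgroup (by rw [commG1'.2 inf_le_right, commutator_bot_left]) (commG1.2 ?_)
    exact (commutator_mono inf_le_left le_rfl).trans (centsC.1 hd)
  obtain ⟨a, ha, na⟩ : ∃ a ∈ P, ¬ Q ≤ C1[a] := by
    by_contra k
    push Not at k
    exact h1 (hQ ▸ commG1.2 fun q hq a ha => (mem_cent1.1 (k a ha hq)).symm)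
  obtain ⟨X, l, X0, l1, lZ, hX⟩ := eig ρ hρ a na _ d hZ fun z hz => mem_cent1.2 (hz.2 a ha).symm
  let c : P → Q →* Q := fun b => MonoidHom.mk' (fun q => ⟨b.1⁻¹ * q * b, by
    simpa using conj_mem_of_norm (inv_mem (hn b.2)) q.2⟩) fun x y => Subtype.ext (by simp [mul_assoc])
  have key : ∀ b : P, l.comp (c b) = l → b = 1 := fun b hb => by_contra fun b1 => l1 (MonoidHom.ext fun q => by
    have hb' : zpowers b.1 ≤ P := zpowers_le.2 b.2
    have k : Q ≤ l.toHomUnits.ker.map Q.subtype := by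
      refine (coprime_cent_prod (hb'.trans hn) (coprimegS hb' hc) hs).ge.trans
        (sup_le (commutator_le.2 fun x hx y hy => ?_) fun x hx => ⟨⟨x, hx.1⟩, Units.ext (lZ _ ⟨hx.1, sp b b.2
        (fun e => b1 (Subtype.ext e)) ⟨hx.1, mem_cent1.2 (hx.2 _ (mem_zpowers _)).symm⟩⟩), rfl⟩)
      have : ∀ y ∈ zpowers b.1, ∀ (hy : y ∈ P) (q : Q), l (c ⟨y, hy⟩ q) = l q := fun y hy => by
        obtain ⟨n, rfl⟩ := mem_powers_iff_mem_zpowers.2 hy
        induction n with
        | zero => intro _ q; congr 1; ext; simp [c]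
        | succ n ih =>
          intro _ q
          refine Eq.trans ?_ ((DFunLike.congr_fun hb _).trans
            (ih (mem_powers_iff_mem_zpowers.1 ⟨n, rfl⟩) (pow_mem b.2 n) q))
          exact congrArg l (Subtype.ext (by simp [c, pow_succ, mul_assoc]))
      refine ⟨⟨x, hx⟩ * c ⟨y⁻¹, inv_mem (hb' hy)⟩ ⟨x, hx⟩⁻¹, Units.ext ?_, by simp [c, commutatorElement_def, mul_assoc]⟩
      show l _ = 1
      rw [map_mul, this _ (inv_mem hy), ← map_mul, mul_inv_cancel, map_one]
    obtain ⟨r, hr, e⟩ := k q.2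
    rw [← Subtype.ext e]
    exact congrArg Units.val hr)
  have cc : ∀ a b : P, (c a).comp (c b) = c (b * a) := fun a b => MonoidHom.ext fun q => Subtype.ext (by simp [c, mul_assoc])
  have c1 : c 1 = MonoidHom.id Q := MonoidHom.ext fun q => Subtype.ext (by simp [c])
  have li := indep (fun q : Q => (LinearMap.mulRight ℂ (ρ q.1⁻¹)).comp (LinearMap.mulLeft ℂ (ρ q)))
    (fun i : Option P => i.elim 1 fun b => ρ b * X * ρ b.1⁻¹) (fun i => i.elim 1 fun b => l.comp (c b)) ?_ ?_ ?_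
  · have := Fintype.ofFinite P
    have := li.fintype_card_le_finrank
    rw [Fintype.card_option, ← Nat.card_eq_fintype_card] at this
    exact this
  · have t : ∀ a : P, l.comp (c a) ≠ 1 := fun a e => l1 (by
      rw [← l.comp_id, ← c1, ← inv_mul_cancel a, ← cc, ← MonoidHom.comp_assoc, e, MonoidHom.one_comp])
    rintro (_ | a) (_ | b) e
    exacts [rfl, absurd e.symm (t b), absurd e (t a), congrArg some (eq_of_inv_mul_eq_one (key _ (by
      rw [← cc, ← MonoidHom.comp_assoc, show l.comp (c b) = l.comp (c a) from e.symm, MonoidHom.comp_assoc, cc,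
        inv_mul_cancel, c1, l.comp_id])))]
  · rintro (_ | b) e
    · exact one_ne_zero e
    refine X0 ?_
    have : ρ b.1⁻¹ * (ρ b * X * ρ b.1⁻¹) * ρ b = X := by
      simp only [← mul_assoc, ← map_mul, inv_mul_cancel, map_one, one_mul]
      rw [mul_assoc, ← map_mul, inv_mul_cancel, map_one, mul_one]
    rw [← this, show ρ b * X * ρ b.1⁻¹ = 0 from e, mul_zero, zero_mul]
  · rintro (_ | b) q
    · show ρ q * 1 * ρ q.1⁻¹ = (1 : ℂ) • 1
      rw [mul_one, ← map_mul, mul_inv_cancel, map_one, one_smul]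
    show ρ q * (ρ b * X * ρ b.1⁻¹) * ρ q.1⁻¹ = l (c b q) • (ρ b * X * ρ b.1⁻¹)
    rw [← smul_mul_assoc, ← mul_smul_comm, ← hX]
    simp only [← mul_assoc, ← map_mul]
    rw [mul_assoc _ (ρ _) (ρ _), mul_assoc _ (ρ _) (ρ _), ← map_mul, ← map_mul]
    congr 2 <;> simp [c, mul_assoc]

/-- Let G be a finite p-solvable group whose Sylow p-subgroup P meets each conjugate g P g⁻¹ with g outside N_G(P) trivially, and let χ be a faithful character of G (χ g = χ 1 only for g = 1) whose degree d satisfies d² ≤ |P|. Then P is normal in G. -/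
theorem result {G : Type*} [Group G] [Finite G] (p : ℕ) [Fact p.Prime] (hsolv : Cfsg.IsPSolvable p G) (P : Sylow p G) (hTI : ∀ g : G, g ∉ Subgroup.normalizer ((P : Subgroup G) : Set G) → (P : Subgroup G) ⊓ (MulAut.conj g • (P : Subgroup G)) = ⊥) (χ : G → ℂ) (hχ : Cfsg.IsCharacter G χ) (hfaith : ∀ g : G, χ g = χ 1 → g = 1) (hdeg : Cfsg.charDegree χ ^ 2 ≤ Nat.card ↥(P : Subgroup G)) : (P : Subgroup G).Normal := by
  classical
  by_contra nn
  obtain ⟨n, ρ, rfl⟩ := hχ
  have hρ : Function.Injective ρ := (injective_iff_map_eq_one ρ).2 fun g e => hfaith g (by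
    simp [Representation.character, e])
  have ti : ∀ g a, a ∈ (P : Subgroup G) → a ≠ 1 → g * a * g⁻¹ ∈ (P : Subgroup G) → g ∈ N[(P : Subgroup G)] :=
    fun g a ha a1 h => by_contra fun k => a1 (by
      have : g * a * g⁻¹ ∈ (⊥ : Subgroup G) := hTI g k ▸ ⟨h, smul_mem_pointwise_smul a _ _ ha⟩
      simpa using this)
  have hO : pCore p G = ⊥ := by
    by_contra k
    obtain ⟨a, ha, a1⟩ := (bot_or_exists_ne_one _).resolve_left k
    have := Solv.pCore_le_sylow P
    exact nn (normalizer_eq_top_iff.1 (eq_top_iff.2 fun g _ => ti g a (this ha) a1 (this (Normal.conj_mem inferInstance a ha g))))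
  have P1 : (P : Subgroup G) ≠ ⊥ := fun e => nn (e ▸ inferInstance)
  have hC := PLocal.centralizer_pPrimeCore_le_of_pSolv hsolv hO
  set K := pPrimeCore p G
  have hK : (P : Subgroup G) ≤ N[K] := by rw [normalizer_eq_top]; exact le_top
  have co : (#K).Coprime #(P : Subgroup G) := by
    obtain ⟨k, hk⟩ := P.isPGroup'.exists_card_eq
    rw [hk]; exact (Solv.coprime_card_pPrimeCore p G).pow_right k
  have nC : ¬ K ≤ C[(P : Subgroup G)] := fun e => P1 (by
    rw [← inf_eq_right.2 ((centsC.1 e).trans hC), coprime_TI co])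
  obtain ⟨Q, ⟨h1, h2, h3, h4⟩, mn⟩ := exists_minimal_of_wellFoundedLT
    (fun Q : Subgroup G => Q ≤ K ∧ (P : Subgroup G) ≤ N[Q] ∧ Group.IsSolvable Q ∧ ¬ Q ≤ C[(P : Subgroup G)]) (by
      by_contra k
      push Not at k
      refine nC (le_of_Sylow_le fun q hq _ => ?_)
      have := Fact.mk hq
      obtain ⟨S, a, b⟩ := coprime_Sylow_exists q hK co (.inl (pgroup_sol P.isPGroup'))
      exact ⟨S, a, k S a.le b (pgroup_sol a.pg)⟩)
  have co' := coprimeSg h1 co
  have Q1 : Q ≠ ⊥ := fun e => h4 (e ▸ bot_le)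
  have n0 : n ≠ 0 := by
    rintro rfl
    obtain ⟨a, -, a1⟩ := (bot_or_exists_ne_one _).resolve_left P1
    exact a1 (hρ (Subsingleton.elim _ _))
  have := NeZero.mk n0
  have k := bound ρ hρ h2 co' h3 (le_antisymm (commg_subl h2) (mn ⟨(commg_subl h2).trans h1, commg_normr _ _,
      solvableS (commg_subl h2) h3, fun e => h4 (centsC.1 (coprime_commGG1P h2 co' (commG1.2 e)))⟩ (commg_subl h2))) Q1
    (centsC.1 (by_contra fun e => (sol_der1_proper h3 Q1).2 (mn ⟨(commg_subl (normG Q)).trans h1, norms_der h2,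
      solvableS (commg_subl (normG Q)) h3, e⟩ (commg_subl (normG Q))))) fun a ha a1 x hx =>
      ((coprime_norm_cent h2 co').le ⟨hx.1, ti x a ha a1 (by rwa [mem_cent1.1 hx.2, mul_inv_cancel_right])⟩).2
  rw [Module.finrank_linearMap, Module.finrank_fin_fun] at k
  have : charDegree ρ.character = n := by simp [charDegree]
  rw [this, sq] at hdeg
  omega

end Cfsg.Agent.S4748
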