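import Cfsg.Statements.S4750
import Cfsg.Agent.Isa.K3

set_option autoImplicit false
open scoped Pointwise
open Cfsg

namespace Cfsg.Agent.S4750

open Cfsg.Agent.PF Cfsg.Agent.PF.CH Cfsg.Agent.BG

open scoped Cfsg.Agent.BG _root_.Classical commutatorElement

/-- Let P be a Sylow p-subgroup of the finite group G that meets each conjugate g P g⁻¹ with g outside N_G(P) trivially, χ a character of G with χ(1)² ≤ |P|, and H a subgroup of G containing N_G(P). Then the inner product of χ with itself over G equals the inner product over H of the restriction of χ to H. -/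
theorem result {G : Type*} [Group G] [Fintype G] [DecidableEq G] (p : ℕ) [Fact p.Prime] (P : Sylow p G) (hTI : ∀ g : G, g ∉ Subgroup.normalizer ((P : Subgroup G) : Set G) → (P : Subgroup G) ⊓ (MulAut.conj g • (P : Subgroup G)) = ⊥) (χ : G → ℂ) (hχ : Cfsg.IsCharacter G χ) (hdeg : Cfsg.charDegree χ ^ 2 ≤ Nat.card ↥(P : Subgroup G)) (H : Subgroup G) [Fintype ↥H] (hH : Subgroup.normalizer ((P : Subgroup G) : Set G) ≤ H) : Cfsg.classInner χ χ = Cfsg.classInner (fun h : ↥H => χ h) (fun h : ↥H => χ h) := by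
  have h1 := isChar_top.2 hχ
  have h2 := h1.mul h1.star
  have h3 : ∀ K : Subgroup G, dot K χ χ = dot K (χ * star χ) (one ⊤) := fun K => by
    rw [dot_mul_left, star_star]; exact dot_congr (fun _ _ => rfl) fun g _ => by simp [one_of_mem]
  rw [← dot_top, ← dot_eq_classInner, h3, h3 H, CF_eq_sum_Irr h2.mem_CF, dot_sum_left, dot_sum_left]
  refine Finset.sum_congr rfl fun ψ hψ => ?_
  rw [dot_smul_left, dot_smul_left]
  refine mul_eq_mul_left_iff.2 (or_iff_not_imp_right.2 fun e => ?_)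
  rcases eq_or_ne ψ (one ⊤) with rfl | e'
  · rw [dot_one_one le_rfl le_rfl, dot_one_one le_top le_top]
  have a1 := dot_Irr_ne hψ (one_mem_Irr ⊤) e'
  have a2 := h2.sub_of_dot_ne_zero (one_mem_Irr ⊤) (h3 ⊤ ▸ fun e' => e (by
    rw [eq_zero_of_nrm h1.mem_CF (by rw [nrm_eq_re, e', Complex.zero_re]), zero_mul, dot_zero_left]))
  have a3 := a2.deg_le_of_dot_ne_zero hψ (by rwa [dot_sub_left, dot_eq_zero_comm.1 a1, sub_zero])
  have a4 := a2.deg_add (isChar_one ⊤)
  rw [sub_add_cancel, h1.deg_mul h1.star, deg_star, deg_one, ← sq] at a4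
  have a5 := sum_eq_zero_of_TI (N := H) P.isPGroup' (Subgroup.le_normalizer.trans hH) (fun g u b1 b2 b3 => by
      obtain ⟨x, b4, b5⟩ := Sylow_Jsub (pHall_subl (Subgroup.le_normalizer.trans hH) le_top (sylowIn_top P))
        (Subgroup.zpowers_le.2 b3) (p_elt_zpowers.2 (by
          simpa using (p_eltJ (g := g⁻¹)).2 (mem_p_elt P.isPGroup'.pi b1))).pg
      refine (H.mul_mem_cancel_right (inv_mem b4)).1 (hH (by_contra fun b6 => b2 ((hTI _ b6).le ⟨b1, ?_⟩)))
      exact ⟨_, b5 ⟨_, Subgroup.mem_zpowers _, rfl⟩, by simp [mul_assoc]⟩)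
    (mem_Irr_top.1 hψ) (by simpa [dot_top, Char.classInner_def, one_of_mem] using a1)
    (lt_of_lt_of_le (show deg ψ < deg χ ^ 2 by omega) hdeg)
  rw [a1, dot_eq_classInner, Char.classInner_def]
  simp [one_of_mem, a5]

end Cfsg.Agent.S4750
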