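import Cfsg.Statements.S4755
import Cfsg.Agent.Block.Cod

set_option autoImplicit false
open Cfsg

namespace Cfsg.Agent.S4755

open Cfsg.Agent.Block Cfsg.Agent.Char MonoidAlgebra


/-- Let x, y be non-identity elements of the finite group G such that χ(x' y') = χ(x') χ(y') for all conjugates x' of x, y' of y and every irreducible character χ. Then the conjugacy class of x y is the set of all products of a conjugate of x with a conjugate of y; every irreducible character of degree greater than 1 vanishes at x y; and the conjugacy class of x y is the coset of the commutator subgroup containing x y. -/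
theorem result {G : Type*} [Group G] [Finite G] (x y : G) (hx : x ≠ 1) (hy : y ≠ 1) (h : ∀ (a b : G) (χ : Cfsg.IrrCharacter G), (χ : G → ℂ) (a * x * a⁻¹ * (b * y * b⁻¹)) = (χ : G → ℂ) (a * x * a⁻¹) * (χ : G → ℂ) (b * y * b⁻¹)) : (∀ z : G, IsConj (x * y) z ↔ ∃ a b : G, z = a * x * a⁻¹ * (b * y * b⁻¹)) ∧ (∀ χ : Cfsg.IrrCharacter G, (χ : G → ℂ) 1 ≠ 1 → (χ : G → ℂ) (x * y) = 0) ∧ (∀ z : G, IsConj (x * y) z ↔ (x * y)⁻¹ * z ∈ commutator G) := by
  letI := Fintype.ofFinite G
  have h1 : ∀ (a b : G) (χ : IrrCharacter G), χ.1 (a * x * a⁻¹ * (b * y * b⁻¹)) = χ.1 x * χ.1 y :=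
    fun a b χ => by rw [h, χ.2.isClassFunction, χ.2.isClassFunction]
  have h2 : ∀ χ : IrrCharacter G, χ.1 1 ≠ 1 → χ.1 x * χ.1 y = 0 := fun χ hχ => by
    have h2 := χ.2.sum_mul_conj_eq (1 * x * 1⁻¹) y
    simp only [h1, Finset.sum_const, Finset.card_univ, ← Nat.card_eq_fintype_card] at h2
    have h3 := χ.2.apply_one_ne_zero
    have h4 := CharDeep.card_ne_zero' G
    simp only [one_mul, inv_one, mul_one, nsmul_eq_mul] at h2
    rw [eq_div_iff h3, mul_assoc, mul_assoc _ (χ.1 x)] at h2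
    exact by_contra fun h5 => hχ (mul_left_cancel₀ h5 ((mul_left_cancel₀ h4 h2).trans (mul_one _).symm))
  have h3 : ∀ χ : IrrCharacter G, χ.1 1 ≠ 1 → χ.1 (x * y) = 0 := fun χ hχ => by
    simpa [h2 χ hχ] using h1 1 1 χ
  refine ⟨(conj_mul_conj_iff x y).2 fun a b χ => ?_, h3, fun z => ⟨fun hz => ?_, fun hz => ?_⟩⟩
  · by_cases h4 : χ.1 1 = 1
    · rw [h4, one_mul, h1]
    · rw [h1, h2 χ h4, mul_zero]
  · obtain ⟨c, rfl⟩ := isConj_iff.1 hz
    simpa [commutatorElement_def, mul_assoc, commutator_def] using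
      Subgroup.commutator_mem_commutator (Subgroup.mem_top (x * y)⁻¹) (Subgroup.mem_top c)
  · refine isConj_of_vanish (fun χ => χ.1 1 = 1) rfl h3 fun χ hχ => ?_
    rw [← mul_inv_cancel_left (x * y) z]
    exact χ.2.isCharacter.apply_mul_of_apply_eq' (χ.2.apply_one_eq_one_iff.1 hχ _ hz) _

end Cfsg.Agent.S4755
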