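import Cfsg.Statements.S4756
import Cfsg.Agent.Isa.J4

set_option autoImplicit false
open Cfsg

namespace Cfsg.Agent.S4756

open Cfsg.Agent.PF Cfsg.Agent.PF.CH Cfsg.Agent.BG

open scoped Cfsg.Agent.BG ComplexConjugate commutatorElement Classical

theorem lin_mul_of {G : Type*} [Group G] [Finite G] {χ : G → ℂ} (h : χ ∈ Irr (⊤ : Subgroup G))
    (h1 : deg χ = 1) (x y : G) : χ (x * y) = χ x * χ y := by
  obtain ⟨l, rfl⟩ := Irr_exists_lin h (by rw [Irr_apply_one h, h1, Nat.cast_one])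
  exact lin_map_mul l trivial trivial

theorem conj_of_vanish {G : Type*} [Group G] [Finite G] {g d : G}
    (h : ∀ χ ∈ Irr (⊤ : Subgroup G), deg χ ≠ 1 → χ g = 0) (hd : d ∈ ⁅(⊤ : Subgroup G), (⊤ : Subgroup G)⁆) :
    orderOf (g * d) = orderOf g := by
  by_contra h0
  have h1 := sum_Irr_mul_conj_eq_zero (H := ⊤) (g := g) (h := g * d) fun x _ e =>
    h0 (by rw [← e, orderOf_conj'])
  have h2 : ∀ χ ∈ Irr (⊤ : Subgroup G), χ g * conj (χ (g * d)) = (‖χ g‖ ^ 2 : ℝ) := fun χ hχ => by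
    by_cases e : deg χ = 1
    · rw [lin_mul_of hχ e, cfker_apply ((deg_eq_one_iff hχ).1 e hd), Irr_apply_one hχ, e, Nat.cast_one,
        mul_one, Complex.mul_conj']
      simp
    · simp [h χ hχ e]
  rw [Finset.sum_congr rfl h2, ← Complex.ofReal_sum, Complex.ofReal_eq_zero,
    Finset.sum_eq_zero_iff_of_nonneg fun _ _ => by positivity] at h1
  simpa using h1 _ (one_mem_Irr ⊤)

/-- For a finite group G the following are equivalent. (1) χ(x y) = χ(x) χ(y) for every irreducible character χ and all non-identity elements x, y of prime power orders for two different primes. (2) G is a p-group for some prime p, or G is abelian, or for some prime p: G = A P with P a normal Sylow p-subgroup and A a nontrivial cyclic subgroup of order prime to p such that, with C = C_P(A) and D = [A, P], one has P = C D, C abelian, D normal in G, C ∩ D = 1, and A acts fixed-point-freely on D (no non-identity element of A centralizes a non-identity element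 of D). -/
theorem result {G : Type*} [Group G] [Finite G] : (∀ (x y : G) (χ : Cfsg.IrrCharacter G), x ≠ 1 → y ≠ 1 → (∃ p q a b : ℕ, p.Prime ∧ q.Prime ∧ p ≠ q ∧ orderOf x = p ^ a ∧ orderOf y = q ^ b) → (χ : G → ℂ) (x * y) = (χ : G → ℂ) x * (χ : G → ℂ) y) ↔ ((∃ p : ℕ, p.Prime ∧ IsPGroup p G) ∨ IsMulCommutative G ∨ ∃ (p : ℕ) (_ : Fact p.Prime) (P : Sylow p G) (A : Subgroup G), (P : Subgroup G).Normal ∧ IsCyclic ↥A ∧ A ≠ ⊥ ∧ (Nat.card ↥A).Coprime p ∧ A ⊔ (P : Subgroup G) = ⊤ ∧ IsMulCommutative ↥((P : Subgroup G) ⊓ Subgroup.centralizer (A : Set G)) ∧ (⁅A, (P : Subgroup G)⁆).Normal ∧ ((P : Subgroup G) ⊓ Subgroup.centralizer (A : Set G)) ⊔ ⁅A, (P : Subgroup G)⁆ = (P : Subgroup G) ∧ ((P : Subgroup G) ⊓ Subgroup.centralizer (A : Set G)) ⊓ ⁅A, (P : Subgroup G)⁆ = ⊥ ∧ ∀ a ∈ A, a ≠ 1 → ∀ d ∈ ⁅A, (P : Subgroup G)⁆, a * d = d * a → d = 1) := by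
  classical
  constructor
  · intro h
    refine or_iff_not_imp_left.2 fun h1 => or_iff_not_imp_left.2 fun h2 => ?_
    obtain ⟨D, hD⟩ : ∃ D : Subgroup G, D = ⁅(⊤ : Subgroup G), (⊤ : Subgroup G)⁆ := ⟨_, rfl⟩
    have key : ∀ x y : G, x ≠ 1 → y ≠ 1 → (∃ p q a b : ℕ, p.Prime ∧ q.Prime ∧ p ≠ q ∧
        orderOf x = p ^ a ∧ orderOf y = q ^ b) → ∀ d ∈ D, orderOf (x * y * d) = orderOf (x * y) :=
      fun x y hx hy hc d hd => conj_of_vanish (fun χ hχ e => by
        have h3 : ∀ g : G, χ (x * (g * y * g⁻¹)) = χ x * χ y := fun g => by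
          have := h x (g * y * g⁻¹) ⟨χ, mem_Irr_top.1 hχ⟩ hx (by simpa using hy)
            (by rwa [orderOf_conj'])
          exact this.trans (congrArg _ ((Irr_CF hχ).2 g trivial y))
        have h4 := Irr_sum_conj hχ (a := x) (b := y) trivial trivial
        simp only [h3, Finset.sum_const, card_fs, nsmul_eq_mul] at h4
        have h5 := h3 1
        rw [one_mul, inv_one, mul_one] at h5
        rw [h5]
        by_contra h6
        refine e (Nat.cast_injective (R := ℂ) ?_)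
        rw [← Irr_apply_one hχ, Nat.cast_one]
        refine mul_right_cancel₀ (mul_ne_zero (Nat.cast_ne_zero.2 (cardG_pos (⊤ : Subgroup G)).ne') h6) ?_
        rw [one_mul]; exact h4.trans (mul_assoc ..)) (hD ▸ hd)
    have nD : D ⊴ ⊤ := hD ▸ der_normal ⊤
    have h3 : D ≠ ⊥ := fun e => h2 (by
      have := der1_eq_bot.1 (hD ▸ e)
      exact ⟨⟨fun a b => congrArg Subtype.val (this.1.1 ⟨a, trivial⟩ ⟨b, trivial⟩)⟩⟩)
    obtain ⟨p, hp, h4⟩ := exists_prime_dvd_card h3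
    have := Fact.mk hp
    have h5 : PiGrp {p} D := fun q hq h5 => by_contra fun e => by
      obtain ⟨x, a1, a2⟩ := Cauchy hp h4
      obtain ⟨y, b1, b2⟩ := Cauchy hq h5
      have := key x y (fun e => hp.one_lt.ne (by rw [← a2, e, orderOf_one]))
        (fun e => hq.one_lt.ne (by rw [← b2, e, orderOf_one]))
        ⟨p, q, 1, 1, hp, hq, Ne.symm e, by simpa, by simpa⟩ _ (inv_mem (mul_mem a1 b1))
      rw [mul_inv_cancel, orderOf_one, eq_comm, orderOf_eq_one_iff] at this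
      exact e (by rw [← b2, eq_inv_of_mul_eq_one_right this, orderOf_inv, a2]; rfl)
    obtain ⟨P⟩ : Nonempty (Sylow p G) := inferInstance
    have h6 := normal_sub_Hall (sylowIn_top P) nD h5
    have nP : (P : Subgroup G) ⊴ ⊤ := sub_der1_normal (hD ▸ h6) le_top
    obtain ⟨A, a1, a2⟩ := sdprod_Hall_exists (sylowIn_top P) nP
    have h7 : IsMulCommutative A := der1_eq_bot.1 (le_bot_iff.1 (a1.inf ▸
      le_inf ((hD ▸ dergS le_top : ⁅A, A⁆ ≤ D).trans h6) (der_sub A)))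
    have h8 : Semiregular D A := semiregular_of_prime fun Y b1 b2 => by
      obtain ⟨y, b3, b4⟩ := Cauchy b2 dvd_rfl
      refine (Subgroup.eq_bot_iff_forall _).2 fun x hx => by_contra fun e => ?_
      obtain ⟨k, hk⟩ := (p_natP hp).1 (mem_p_elt h5 hx.1)
      have b5 : p ≠ #Y := fun e => (mem_p_elt a2.pi (b1 b3)) p hp (by rw [b4, e]) rfl
      have b6 : Commute x y := (hx.2 y b3).symm
      have := key x y e (fun e => b2.one_lt.ne (by rw [← b4, e, orderOf_one]))
        ⟨p, _, k, 1, hp, b2, b5, hk, by simpa⟩ _ (inv_mem hx.1)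
      rw [b6.eq, mul_inv_cancel_right, ← b6.eq, b6.orderOf_mul_eq_mul_orderOf_of_coprime
        (pnat_coprime (mem_p_elt h5 hx.1) (mem_p_elt a2.pi (b1 b3))), eq_comm,
        mul_eq_right₀ (orderOf_pos y).ne', orderOf_eq_one_iff] at this
      exact e this
    have h9 : A ≠ ⊥ := fun e => h1 ⟨p, hp, by
      have e' : (P : Subgroup G) = ⊤ := by rw [← a1.sup, e, sup_bot_eq]
      exact (e' ▸ P.isPGroup').of_equiv Subgroup.topEquiv⟩
    have c1 := pnat_coprime h5 a2.pi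
    have c2 : D ⊓ C[A] = ⊥ := cent_semiregular h8 le_rfl h9
    have c3 : ⁅A, (P : Subgroup G)⁆ = D := le_antisymm (hD ▸ Subgroup.commutator_mono le_top le_top) (by
      rw [← coprime_cent_prod (le_top.trans nD.norm) c1 (pgroup_sol h5.pg), c2, sup_bot_eq, commGC]
      exact Subgroup.commutator_mono le_rfl h6)
    refine ⟨p, this, P, A, nP.normal, by_contra fun e => h3 (le_bot_iff.1 (coprime_abelian_gen_cent1 h7 e
      (le_top.trans nD.norm) c1 fun a b1 b2 => (h8 a b1 b2).le)), h9, (p'nat_coprime hp).1 a2.pi,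
      (sup_comm ..).trans a1.sup, der1_eq_bot.1 (le_bot_iff.1 (c2 ▸ le_inf (hD ▸ dergS le_top)
      ((der_sub _).trans inf_le_right))), c3 ▸ nD.normal, ?_, ?_, fun a b1 b2 d b3 b4 => ?_⟩
    · rw [sup_comm, commGC]
      exact coprime_cent_prod (le_top.trans nP.norm) (pnat_coprime (sylowIn_top P).pi a2.pi)
        (pgroup_sol P.isPGroup')
    · rw [c3, inf_assoc, inf_comm _ D, c2, inf_bot_eq]
    · exact (h8 a b1 b2).le ⟨c3 ▸ b3, mem_cent1.2 b4.symm⟩
  rintro h x y χ hx hy ⟨p, q, a, b, hp, hq, hpq, h1, h2⟩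
  have hχ := mem_Irr_top.2 χ.2
  by_cases h0 : deg χ.1 = 1
  · exact lin_mul_of hχ h0 x y
  have e1 : PiElt {p} x := by rw [PiElt, h1]; exact pnat_pow_self hp a
  have e2 : PiElt {q} y := by rw [PiElt, h2]; exact pnat_pow_self hq b
  rcases h with ⟨r, hr, h⟩ | h | ⟨r, hr, P, A, nP, a1, a2, a3, a4, a5, a6, a7, a8, a9⟩
  · have := Fact.mk hr
    have h3 : ∀ {p} {x : G}, PiElt {p} x → x ≠ 1 → r = p := fun {p x} h3 h4 => by
      obtain ⟨k, hk⟩ := IsPGroup.iff_orderOf.1 h x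
      exact h3 r hr (hk ▸ dvd_pow_self r fun e => h4 (by rwa [e, pow_zero, orderOf_eq_one_iff] at hk))
    exact (hpq ((h3 e1 hx).symm.trans (h3 e2 hy))).elim
  · exact (h0 ((deg_eq_one_iff hχ).2 ((der1_eq_bot.2 inferInstance).trans_le bot_le))).elim
  obtain ⟨D, hD⟩ : ∃ D, D = ⁅A, (P : Subgroup G)⁆ := ⟨_, rfl⟩
  rw [← hD] at a6 a7 a8 a9
  have b1 : ⁅(⊤ : Subgroup G), (⊤ : Subgroup G)⁆ ≤ D := by
    have : D ⊔ (A ⊔ ↑P ⊓ C[A]) = ⊤ := by rw [sup_left_comm, sup_comm D, a7, a4]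
    rw [← this]
    refine (der_sup_le (le_top.trans (normal_top D).norm)).trans_eq ?_
    rw [der_sup_cent inf_le_right, der1_eq_bot.2 (cyclic_abelian a1), der1_eq_bot.2 a5, sup_bot_eq,
      sup_bot_eq]
  have b2 : ∀ g, g ∉ (P : Subgroup G) → χ.1 g = 0 := fun g hg => by
    refine irr_reg_off_ker_0 (normal_top D) hχ (fun e => h0 ((deg_eq_one_iff hχ).2 (b1.trans e)))
      ((Subgroup.eq_bot_iff_forall _).2 fun d hd => ?_)
    have b3 := (p_elt_constt {r}ᶜ g)
    obtain ⟨k, -, b4⟩ := SchurZassenhaus_sub (K := P) (A := A) (B := Subgroup.zpowers (constt {r}ᶜ g))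
      (le_top.trans (normal_top _).norm) (by rw [sup_comm, a4]; exact le_top)
      (pnat_coprime (sylowIn_top P).pi ((p'nat_coprime hr.out).2 a3))
      (pnat_coprime (sylowIn_top P).pi (p_elt_zpowers.2 b3)) (.inl (pgroup_sol P.isPGroup'))
    have b5 := a9 _ (mem_cj.1 (b4 (Subgroup.mem_zpowers _))) (fun e => hg (mem_normal_Hall (sylowIn_top P)
      (normal_top _) trivial (by simpa using constt1P.1 (by simpa [mul_eq_one_iff_eq_inv, inv_mul_eq_iff_eq_mul] using e : constt {r}ᶜ g = 1)))) (k⁻¹ * d * k)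
      (by simpa using a6.conj_mem d hd.1 k⁻¹) (by
        have := mem_cent1.1 (cent1_le_constt {r}ᶜ g hd.2)
        simp only [mul_assoc, mul_inv_cancel_left, mul_right_inj]
        rw [← mul_assoc, ← this, mul_assoc])
    simpa [mul_eq_one_iff_eq_inv, inv_mul_eq_iff_eq_mul] using b5
  have b3 : ∀ {p} {x : G}, PiElt {p} x → x ≠ 1 → x ∈ (P : Subgroup G) → r = p := fun {p x} h3 h4 h5 =>
    by_contra fun e => h4 (p_elt_eq_one (mem_p_elt (sylowIn_top P).pi h5) (pi_pnat h3 (Ne.symm e)))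
  have b4 : ∀ {p q} {x y : G}, p ≠ q → PiElt {p} x → PiElt {q} y → x * y ∈ (P : Subgroup G) →
      x ∈ (P : Subgroup G) := fun {p q x y} h3 h4 h5 h6 => by
    rw [← QuotientGroup.eq_one_iff] at h6 ⊢
    refine p_elt_eq_one (π := {p}) (piElt_hom (QuotientGroup.mk' _) h4) ?_
    rw [QuotientGroup.mk_mul] at h6
    rw [eq_inv_of_mul_eq_one_left h6]
    exact piElt_inv (pi_pnat (piElt_hom (QuotientGroup.mk' _) h5) h3.symm)
  have b5 : x * y ∉ (P : Subgroup G) := fun e => by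
    have b5 := b4 hpq e1 e2 e
    exact hpq ((b3 e1 hx b5).symm.trans (b3 e2 hy ((Subgroup.mul_mem_cancel_left _ b5).1 e)))
  rw [b2 _ b5, eq_comm, mul_eq_zero]
  exact or_iff_not_imp_left.2 fun e => b2 _ fun e' => b5 (mul_mem (by_contra fun e'' => e (b2 _ e'')) e')

end Cfsg.Agent.S4756
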