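import Cfsg.Statements.S4757
import Cfsg.Agent.Char.Misc
import Cfsg.Agent.Solv.Core

set_option autoImplicit false
open Cfsg

namespace Cfsg.Agent.S4757

open Cfsg.Agent.Char Subgroup in

/-- Let u ≠ 1 be an element of the finite group G and c a complex number such that every non-principal irreducible character χ satisfies χ(1) − χ(u) = c or χ(u) = 0. Then the following are equivalent: (a) u has order 2, G is generated by u together with O(G), the largest normal subgroup of G of odd order, and the centralizer of u is {1, u}; (b) G is not perfect; (c) c = 2. -/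
theorem result {G : Type*} [Group G] [Finite G] (u : G) (hu : u ≠ 1) (c : ℂ) (hyp : ∀ χ : Cfsg.IrrCharacter G, (χ : G → ℂ) ≠ (fun _ => (1 : ℂ)) → ((χ : G → ℂ) 1 - (χ : G → ℂ) u = c ∨ (χ : G → ℂ) u = 0)) : ((orderOf u = 2 ∧ Subgroup.zpowers u ⊔ Cfsg.oddCore G = ⊤ ∧ Subgroup.centralizer ({u} : Set G) = Subgroup.zpowers u) ↔ commutator G ≠ ⊤) ∧ (commutator G ≠ ⊤ ↔ c = 2) := by
  classical
  have h0 := sum_irr_degree_mul hu
  have hone : ∀ χ : IrrCharacter G, χ ≠ irrOne G → χ.1 1 - χ.1 u = c ∨ χ.1 u = 0 :=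
    fun χ h => hyp χ fun e => h (Subtype.ext e)
  -- real nonnegativity
  have key : ∀ (s : Finset (IrrCharacter G)) (d : ℕ), c = d → irrOne G ∉ s →
      (∀ χ ∈ s, d ≤ charDegree χ.1) → ∃ m : ℕ, ∑ χ ∈ s, χ.1 1 * χ.1 u = m ∧
        (m = 0 → ∀ χ ∈ s, χ.1 u = 0) := fun s d hd h1 h2 => by
    refine ⟨∑ χ ∈ s, if χ.1 u = 0 then 0 else charDegree χ.1 * (charDegree χ.1 - d), ?_,
      fun h χ hχ => ?_⟩
    · push_cast
      refine Finset.sum_congr rfl fun χ hχ => ?_
      split_ifs with h
      · simp [h]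
      · rw [Nat.cast_sub (h2 χ hχ), ← hd, ← (hone χ (ne_of_mem_of_not_mem hχ h1)).resolve_right h,
          ← χ.2.apply_one_eq_charDegree]
        ring
    · by_contra e
      have h3 := Finset.sum_eq_zero_iff.1 h χ hχ
      have h4 := (hone χ (ne_of_mem_of_not_mem hχ h1)).resolve_right e
      rw [if_neg e, mul_eq_zero, or_iff_right χ.2.charDegree_pos.ne'] at h3
      rw [χ.2.apply_one_eq_charDegree, hd, show charDegree χ.1 = d by have := h2 χ hχ; omega,
        sub_eq_self] at h4
      exact e h4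
  have h1 : ∀ d : ℕ, c = d → ¬ ∀ χ : IrrCharacter G, χ ≠ irrOne G → d ≤ charDegree χ.1 :=
    fun d hd h => by
    obtain ⟨m, hm, -⟩ := key (Finset.univ.erase (irrOne G)) d hd (by simp)
      fun χ hχ => h χ (Finset.ne_of_mem_erase hχ)
    rw [← Finset.add_sum_erase _ _ (Finset.mem_univ (irrOne G)), hm] at h0
    simp only [irrOne_apply, mul_one] at h0
    exact absurd (by exact_mod_cast h0) (by omega : 1 + m ≠ 0)
  have hlin : ∀ lam : G →* ℂˣ, lam ≠ 1 → 1 - (lam u : ℂ) = c := fun lam h => by
    simpa using hyp ⟨_, isIrrCharacter_hom lam⟩ fun e => h (by ext g; exact congrFun e g)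
  have hc0 : c ≠ 0 := fun e => h1 0 (by simp [e]) fun _ _ => Nat.zero_le _
  have hl2 : ∀ lam : G →* ℂˣ, lam ≠ 1 → (lam u : ℂ) = -1 := fun lam h => by
    have h2 := hlin lam h
    have h3 : (lam u : ℂ) ≠ 1 := fun e => hc0 (by rw [← h2, e, sub_self])
    by_cases h4 : lam * lam = 1
    · have h5 : (lam u : ℂ) * lam u = 1 := by
        rw [← Units.val_mul, ← MonoidHom.mul_apply, h4]; rfl
      exact (mul_self_eq_one_iff.1 h5).resolve_left h3
    · have h5 := (hlin _ h4).trans h2.symm
      simp [Units.val_eq_one.not.1 h3] at h5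
  have hex : commutator G ≠ ⊤ → ∃ lam : G →* ℂˣ, lam ≠ 1 := fun h => by
    have h2 := one_lt_index_of_ne_top h
    rw [← card_hom_units_complex, Finite.one_lt_card_iff_nontrivial] at h2
    exact exists_ne 1
  have hbc : commutator G ≠ ⊤ → c = 2 := fun h => by
    obtain ⟨lam, h2⟩ := hex h
    rw [← hlin lam h2, hl2 lam h2]; norm_num
  refine ⟨⟨fun ⟨h2, h3, _⟩ e => ?_, fun h => ?_⟩, hbc, fun h e => h1 2 (by simp [h]) fun χ hχ => ?_⟩
  · have h4 : commutator G ≤ oddCore G := by
      rw [← Normal.quotient_commutative_iff_commutator_le]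
      have : IsCyclic (G ⧸ oddCore G) := ⟨u, fun g => by
        obtain ⟨g, rfl⟩ := QuotientGroup.mk_surjective g
        obtain ⟨_, ⟨k, rfl⟩, n, hn, rfl⟩ := mem_sup_of_normal_right.1 (h3.ge (mem_top g))
        exact ⟨k, by simp [(QuotientGroup.eq_one_iff n).2 hn]⟩⟩
      infer_instance
    exact Solv.not_dvd_card_pPrimeCore 2 G (h2.symm.dvd.trans (Subgroup.orderOf_dvd_natCard _ (h4 (e.ge (mem_top u)))))
  · obtain ⟨lam, h2⟩ := hex h
    have hu' : ∀ mu : G →* ℂˣ, mu = 1 ∨ mu = lam := fun mu => by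
      by_contra! h3
      have h4 := hl2 (mu * lam⁻¹) fun e => h3.2 (mul_inv_eq_one.1 e)
      simp [hl2 mu h3.1, hl2 lam h2] at h4
      norm_num at h4
    let ξ : IrrCharacter G := ⟨_, isIrrCharacter_hom lam⟩
    have h3 : ξ ≠ irrOne G := fun e => h2 (by ext g; exact congrFun (congrArg Subtype.val e) g)
    have h4 : ξ.1 u = -1 := hl2 lam h2
    have hs : ∀ F : IrrCharacter G → ℂ, ∑ χ, F χ = F (irrOne G) + (F ξ +
        ∑ χ ∈ (Finset.univ.erase (irrOne G)).erase ξ, F χ) := fun F => by
      rw [Finset.add_sum_erase _ _ (by simpa), Finset.add_sum_erase _ _ (by simp)]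
    obtain ⟨m, hm, h5⟩ := key ((Finset.univ.erase (irrOne G)).erase ξ) 2 (by simp [hbc h])
      (by simp) fun χ hχ => by
      by_contra h5
      have := χ.2.charDegree_pos
      obtain ⟨mu, e⟩ := χ.2.isCharacter.exists_hom_of_apply_one (by
        rw [χ.2.apply_one_eq_charDegree, show charDegree χ.1 = 1 by omega, Nat.cast_one])
      rcases hu' mu with rfl | rfl
      · exact Finset.ne_of_mem_erase (Finset.mem_of_mem_erase hχ) (Subtype.ext e)
      · exact Finset.ne_of_mem_erase hχ (Subtype.ext e)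
    rw [hs, hm, h4] at h0
    have h6 := sum_irr_mul_conj_of_isConj (IsConj.refl u)
    rw [hs, Finset.sum_eq_zero fun χ hχ => by
      rw [h5 (by simpa [ξ] using h0) χ hχ, zero_mul], h4] at h6
    have h7 : Nat.card (centralizer ({u} : Set G)) = 2 := by
      apply Nat.cast_injective (R := ℂ)
      rw [← h6]; norm_num
    have h8 : zpowers u ≤ centralizer {u} := zpowers_le.2 (mem_centralizer_singleton_iff.2 rfl)
    have h9 : orderOf u = 2 := ((Nat.dvd_prime Nat.prime_two).1
      (h7 ▸ Nat.card_zpowers u ▸ card_dvd_of_le h8)).resolve_left fun e =>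
        hu (orderOf_eq_one_iff.1 e)
    have h10 : centralizer {u} = zpowers u :=
      (eq_of_le_of_card_ge h8 (by rw [h7, Nat.card_zpowers, h9])).symm
    refine ⟨h9, ?_, h10⟩
    have h11 : u ∉ commutator G := fun e => by
      rw [ξ.2.apply_one_eq_one_iff.1 (by simp [ξ]) u e] at h4
      simp only [ξ, map_one, Units.val_one] at h4
      norm_num at h4
    have hu2 : u * u = 1 := by rw [← pow_two, ← h9, pow_orderOf_eq_one]
    have h12 : Odd (Nat.card (commutator G)) :=
      MonoidHom.FixedPointFree.odd_card_of_involutive (φ := MulAut.conjNormal u) (fun g hg => by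
        have h12 : (g : G) ∈ centralizer {u} := mem_centralizer_singleton_iff.2
          (mul_inv_eq_iff_eq_mul.1 (congrArg Subtype.val hg)).symm
        rw [h10, mem_zpowers_iff_mem_range_orderOf, h9] at h12
        obtain ⟨k, hk, e⟩ := Finset.mem_image.1 h12
        have : k < 2 := Finset.mem_range.1 hk
        interval_cases k
        · exact Subtype.ext (by simpa using e.symm)
        · exact absurd (pow_one u ▸ e ▸ g.2) h11) fun g => by
        rw [← MulAut.mul_apply, ← map_mul, hu2, map_one, MulAut.one_apply]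
    have h13 : (commutator G).index = 2 := by
      rw [← card_hom_units_complex, Nat.card_eq_two_iff]
      exact ⟨1, lam, h2.symm, Set.eq_univ_of_forall hu'⟩
    rw [eq_top_iff]
    intro g _
    have h14 := Solv.le_pPrimeCore (p := 2) (Nat.coprime_two_right.2 h12)
    by_cases hg : g ∈ commutator G
    · exact mem_sup_right (h14 hg)
    · rw [← mul_inv_cancel_left u g]
      exact mul_mem (mem_sup_left (mem_zpowers u)) (mem_sup_right (h14
        ((mul_mem_iff_of_index_two h13).2 (by simp [hg, h11]))))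
  · by_contra h2
    have := χ.2.charDegree_pos
    exact hχ (Subtype.ext (funext fun g => by
      have h3 : χ.1 1 = 1 := by
        rw [χ.2.apply_one_eq_charDegree, show charDegree χ.1 = 1 by omega, Nat.cast_one]
      rw [χ.2.apply_one_eq_one_iff.1 h3 g (e.ge (mem_top g)), h3]; rfl))

end Cfsg.Agent.S4757
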