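import Cfsg.Statements.S4759
import Cfsg.Agent.DadeX.C

set_option autoImplicit false
open Cfsg

namespace Cfsg.Agent.S4759

open Cfsg.Agent.DadeX Cfsg.Agent.BG Subgroup Cfsg.Agent.Char Cfsg.Agent.CharDeep

/-- Let G be a finite group that is the semidirect product of a normal extraspecial 2-subgroup E and a complement H acting faithfully on E (no non-identity element of H centralizes E), and suppose H has a normal subgroup K of odd order with [E, K] = E. Then every faithful irreducible character θ of E (there is exactly one) extends to G: some irreducible character of G restricts to θ on E. -/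
theorem result {G : Type*} [Group G] [Finite G] (E H : Subgroup G) [E.Normal] (hE : Cfsg.IsExtraspecial 2 ↥E) (hEH : E ⊓ H = ⊥) (hEHtop : E ⊔ H = ⊤) (hfaith : ∀ h ∈ H, (∀ e ∈ E, h * e = e * h) → h = 1) (K : Subgroup G) (hKH : K ≤ H) (hKn : ∀ h ∈ H, ∀ k ∈ K, h * k * h⁻¹ ∈ K) (hKodd : Odd (Nat.card ↥K)) (hEK : ⁅E, K⁆ = E) (θ : Cfsg.IrrCharacter ↥E) (hθ : ∀ e : ↥E, (θ : ↥E → ℂ) e = (θ : ↥E → ℂ) 1 → e = 1) : ∃ χ : Cfsg.IrrCharacter G, ∀ e : ↥E, (χ : G → ℂ) e = (θ : ↥E → ℂ) e := by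
  obtain ⟨⟨pg, -, hc⟩, h2⟩ := hE
  obtain ⟨z, hz1, hz⟩ := (Nat.card_eq_two_iff' (1 : center E)).1 h2
  have zz : z * z = 1 := by rw [← pow_two, ← h2, pow_card_eq_one']
  have mz : ∀ e : E, e ∈ center E → e.1 = 1 ∨ e.1 = z := fun e he => by
    by_cases c : (⟨e, he⟩ : center E) = 1
    · exact .inl (congrArg (fun y : center E => (y : G)) c)
    · exact .inr (congrArg (fun y : center E => (y : G)) (hz _ c))
  have xs : XS E z := ⟨z.1.2, fun e => hz1 (Subtype.ext (Subtype.ext e)), congrArg (fun y : center E => (y : G)) zz, pg,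
    fun e he => (congrArg Subtype.val (mem_center_iff.1 z.2 ⟨e, he⟩)).symm, fun e he f hf => by
      rcases mz ((⟨f, hf⟩ : E) * ⟨e, he⟩ * ⟨f, hf⟩⁻¹ * ⟨e, he⟩⁻¹) (hc ▸ commutator_mem_commutator (mem_top _) (mem_top _))
        with c | c
      · exact .inl (mul_inv_eq_one.1 c)
      · exact .inr (mul_inv_eq_iff_eq_mul.1 c),
    fun e he c => mz ⟨e, he⟩ (mem_center_iff.2 fun f => Subtype.ext (mul_inv_eq_iff_eq_mul.1 (c f f.2)))⟩
  have nE : ∀ X : Subgroup G, X ≤ N[E] := fun X => le_top.trans (normalizer_eq_top E).ge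
  have st : St E H K z := ⟨xs, nE H, fun x a b => mem_bot.1 (hEH.le ⟨a, b⟩), hKH, le_norm_iff.2 hKn, hKodd, by
    refine le_trans (le_inf inf_le_left (commG1.1 ?_)) xs.cenZ
    rw [commGC, ← hEK]
    nth_rewrite 2 [hEK]
    refine three_subgroup ?_ (commG1.2 (((commutator_mono inf_le_left le_rfl).trans xs.comZ).trans (xs.Zc (nE K))))
    rw [commG1'.2 inf_le_right, commutator_bot_left]⟩
  obtain ⟨χ, hg⟩ := st.ext
  rw [hEHtop] at hg
  have h1 := xs.gd_of_irr θ.2 fun e => xs.z1 (congrArg Subtype.val (hθ _ e))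
  refine ⟨⟨χ, (xs.irr le_top hg).comp_equiv topEquiv.symm⟩, fun e => ?_⟩
  exact (xs.uniq (hg.mono le_top) h1 e.2).trans (extendByZero_coe _ _ e)

end Cfsg.Agent.S4759
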