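import Cfsg.Statements.S4762
import Cfsg.Agent.Block.Over
import Cfsg.Agent.Solv.Fitting
import Cfsg.Agent.Solv.Frattini
import Cfsg.Agent.Char.Burnside

set_option autoImplicit false
open Cfsg

namespace Cfsg.Agent.S4762

open Cfsg.Agent.Block Cfsg.Agent.Char MonoidAlgebra

open Cfsg.Agent.CharDeep Subgroup
open scoped ComplexConjugate commutatorElement

theorem dvd_iff {G : Type*} [Group G] [Finite G] {p : ℕ} [hp : Fact p.Prime] (h : IsPGroup p G)
    (χ : IrrCharacter G) : p ∣ charDegree χ.1 ↔ ¬ ∀ n ∈ commutator G, χ.1 n = χ.1 1 := by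
  rw [← χ.2.apply_one_eq_one_iff, χ.2.apply_one_eq_charDegree, Nat.cast_eq_one]
  obtain ⟨n, hn⟩ := h.exists_card_eq
  obtain ⟨k, -, hk⟩ := (Nat.dvd_prime_pow hp.out).mp (hn ▸ χ.2.charDegree_dvd_card)
  rw [hk]
  rcases k with _ | k
  · simpa using hp.out.ne_one
  · simp [dvd_pow_self, hp.out.ne_one]

/-- Let p be a prime and G a finite nilpotent group. Then G has exactly one irreducible complex character of degree divisible by p if and only if p = 2 and G is an extraspecial 2-group. -/
theorem result {G : Type*} [Group G] [Finite G] [Group.IsNilpotent G] (p : ℕ) [Fact p.Prime] : Nat.card {χ : Cfsg.IrrCharacter G // p ∣ Cfsg.charDegree (χ : G → ℂ)} = 1 ↔ (p = 2 ∧ Cfsg.IsExtraspecial 2 G) := by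
  classical
  have hp : p.Prime := Fact.out
  haveI := Fintype.ofFinite G
  constructor
  · intro h
    obtain ⟨⟨χ, hχ⟩, hu⟩ := Nat.card_eq_one_iff_exists.mp h
    have hu' : ∀ ψ : IrrCharacter G, p ∣ charDegree ψ.1 → ψ = χ := fun ψ hψ =>
      congrArg Subtype.val (hu ⟨ψ, hψ⟩)
    have hG : IsPGroup p G := by
      obtain ⟨P⟩ : Nonempty (Sylow p G) := inferInstance
      haveI : (P : Subgroup G).Normal := Sylow.normal_of_normalizerCondition
        Group.normalizerCondition_of_isNilpotent P
      haveI := Fintype.ofFinite P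
      obtain ⟨θ, hθ, h1⟩ := exists_irr_under (P : Subgroup G) χ.2
      have h2 : p ∣ charDegree θ := ((Nat.Prime.dvd_mul hp).mp
        (hχ.trans (charDegree_dvd_mul_index _ hθ χ.2 h1).2)).resolve_left P.not_dvd_index
      have h3 : ∀ g, conjN (P : Subgroup G) g θ = θ := by
        rw [← inertia_eq_top_iff, eq_top_iff, ← Solv.pCore_sup_pPrimeCore_eq_top (p := p),
          Solv.pCore_eq_of_normal P]
        refine sup_le (le_inertia _ hθ.isClassFunction) fun g hg => (mem_inertia' _).2 fun n => ?_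
        congr 1
        have := Solv.pPrimeCore_le_centralizer_pCore hg n ((Solv.pCore_eq_of_normal P).ge n.2)
        exact Subtype.ext (by simp [← this])
      obtain ⟨k, hk⟩ := P.isPGroup'.exists_card_eq
      obtain ⟨χ₀, h4, h5, -⟩ := exists_extension_of_coprime_card (P : Subgroup G) hθ h3 (by
        rw [hk]; exact ((hp.coprime_iff_not_dvd.mpr P.not_dvd_index).symm).pow_right _)
      have h5' : (fun n : P => χ₀ n) = θ := funext h5
      have h6 : ∀ β, IsIrrCharacter (G ⧸ (P : Subgroup G)) β → (fun g : G => β g * χ₀ g) = χ.1 :=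
        fun β hβ => congrArg Subtype.val (hu' ⟨_, gallagher_irr _ h4.isCharacter (h5' ▸ hθ) hβ⟩ (by
          have : charDegree (fun g : G => β g * χ₀ g) = charDegree β * charDegree θ :=
            charDegree_eq_of_apply_one (by
              rw [QuotientGroup.mk_one, hβ.apply_one_eq_charDegree, Nat.cast_mul,
                ← hθ.apply_one_eq_charDegree, ← h5 1]; rfl)
          exact this ▸ h2.mul_left _))
      have h7 : (P : Subgroup G) = ⊤ := by
        rw [eq_top_iff]
        intro g _
        rw [← QuotientGroup.eq_one_iff]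
        refine eq_one_of_forall_irr fun β hβ => ?_
        rw [gallagher_inj _ h4.isCharacter (h5' ▸ hθ) hβ isIrrCharacter_one
          ((h6 _ hβ).trans (h6 _ isIrrCharacter_one).symm)]
      exact (h7 ▸ P.isPGroup').of_equiv topEquiv
    have h1 : ∑ χ ∈ Finset.univ.filter (fun χ : IrrCharacter G =>
        ∀ n ∈ commutator G, χ.1 n = χ.1 1), χ.1 1 ^ 2 = (commutator G).index := by
      convert sum_irr_filter_ker_degree_sq (commutator G)
    have h2 := sum_irr_degree_sq (G := G)
    rw [← Finset.sum_filter_add_sum_filter_not _ (fun χ : IrrCharacter G =>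
      ∀ n ∈ commutator G, χ.1 n = χ.1 1), h1, show Finset.univ.filter _ = {χ} from by
        ext ψ
        simp only [Finset.mem_filter, Finset.mem_univ, true_and, ← dvd_iff hG, Finset.mem_singleton]
        exact ⟨hu' ψ, fun h => h ▸ hχ⟩, Finset.sum_singleton, χ.2.apply_one_eq_charDegree] at h2
    have h3 : (commutator G).index + charDegree χ.1 ^ 2 = Nat.card G := by exact_mod_cast h2
    obtain ⟨n, hn⟩ := hG.exists_card_eq
    obtain ⟨b, hb⟩ := (hG.to_subgroup (commutator G)).exists_card_eq
    obtain ⟨a, -, ha⟩ := (Nat.dvd_prime_pow hp).mp (hn ▸ χ.2.charDegree_dvd_card)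
    have h4 := (commutator G).index_mul_card
    have hi : 0 < (commutator G).index := Nat.pos_of_ne_zero index_ne_zero_of_finite
    have hd := χ.2.charDegree_pos
    obtain ⟨c, hc⟩ : ∃ c, Nat.card (commutator G) = c + 1 :=
      Nat.exists_eq_succ_of_ne_zero Nat.card_pos.ne'
    have h5 : (commutator G).index * c = charDegree χ.1 ^ 2 := by rw [hc] at h4; nlinarith
    have hc0 : c ≠ 0 := by rintro rfl; exact (pow_pos hd 2).ne (by simpa using h5)
    have hb0 : b ≠ 0 := by rintro rfl; rw [pow_zero, hc] at hb; omega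
    obtain ⟨j, -, hj⟩ := (Nat.dvd_prime_pow hp).mp
      (show c ∣ p ^ (a * 2) from by rw [pow_mul, ← ha, ← h5]; exact Dvd.intro_left _ rfl)
    have h6 : p ∣ c + 1 := by rw [← hc, hb]; exact dvd_pow_self _ hb0
    have hc1 : c = 1 := by
      rcases j with _ | j
      · simpa using hj
      · exact absurd ((Nat.dvd_add_right (hj ▸ dvd_pow_self p j.succ_ne_zero)).mp h6)
          hp.not_dvd_one
    subst hc1
    obtain rfl : p = 2 := (Nat.prime_dvd_prime_iff_eq hp Nat.prime_two).mp h6
    have h7 : commutator G ≤ center G := fun x hx => mem_center_iff.mpr fun g => by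
      by_cases h1 : x = 1
      · simp [h1]
      obtain ⟨y, -, hy⟩ := (Nat.card_eq_two_iff' (1 : commutator G)).mp hc
      have e1 := hy ⟨x, hx⟩ (by simpa using h1)
      have e2 := hy ⟨_, (inferInstance : (commutator G).Normal).conj_mem x hx g⟩ (by simpa using h1)
      exact mul_inv_eq_iff_eq_mul.mp (congrArg Subtype.val (e2.trans e1.symm))
    have h8 : commutator G = center G := by
      refine eq_of_le_of_card_ge h7 ?_
      have := χ.2.charDegree_sq_le_index_center
      have h9 := (center G).index_mul_card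
      refine Nat.le_of_mul_le_mul_left ?_ hi
      rw [h4, ← h9]
      exact Nat.mul_le_mul_right _ (by omega)
    refine ⟨rfl, ⟨hG, le_antisymm (Solv.frattini_le_of_commutator_le (p := 2) h7 fun x => ?_)
      (h8 ▸ Solv.commutator_le_frattini), h8⟩, h8 ▸ hc⟩
    refine mem_center_iff.mpr fun g => ?_
    have e1 : ⁅x, g⁆ ∈ commutator G := commutator_mem_commutator (mem_top x) (mem_top g)
    have e2 : ⁅x, g⁆ ^ 2 = 1 := by
      have := pow_card_eq_one' (x := (⟨_, e1⟩ : commutator G))
      rw [hc] at this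
      exact congrArg Subtype.val this
    have e3 := mem_center_iff.mp (h7 e1) x
    calc g * x ^ 2 = ⁅x, g⁆ ^ 2 * g * x ^ 2 := by rw [e2, one_mul]
      _ = ⁅x, g⁆ * x * g * x := by simp [sq, commutatorElement_def, mul_assoc]
      _ = _ := by rw [← e3]; simp [sq, commutatorElement_def, mul_assoc]
  · rintro ⟨rfl, ⟨hG, -, h1⟩, h2⟩
    obtain ⟨z, hz1, hz⟩ := (Nat.card_eq_two_iff' (1 : center G)).mp h2
    have hz2 : z * z = 1 := by rw [← sq, ← h2, pow_card_eq_one']
    have h3 : ∀ χ : IrrCharacter G, 2 ∣ charDegree χ.1 → ∀ x, χ.1 (z * x) = - χ.1 x := by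
      intro χ hχ x
      obtain ⟨l, hl⟩ := χ.2.exists_hom_of_le_center _ le_rfl
      rw [hl]
      have : (l z : ℂ) * l z = 1 := by rw [← Units.val_mul, ← map_mul, hz2]; simp
      rcases mul_self_eq_one_iff.mp this with h | h
      · refine absurd (fun n hn => ?_) ((dvd_iff hG χ).1 hχ)
        by_cases hn1 : n = 1
        · rw [hn1]
        · have := hz ⟨n, h1 ▸ hn⟩ (by simpa using hn1)
          rw [show n = z * 1 by simp [← this], hl, h, one_mul]
      · rw [h]; ring
    have h4 : ∀ χ : IrrCharacter G, 2 ∣ charDegree χ.1 → ∀ x, x ∉ center G → χ.1 x = 0 := by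
      intro χ hχ x hx
      obtain ⟨g, hg⟩ := not_forall.mp (mt mem_center_iff.mpr hx)
      have := hz ⟨⁅g, x⁆, h1 ▸ commutator_mem_commutator (mem_top g) (mem_top x)⟩
        (by simpa [commutatorElement_eq_one_iff_mul_comm] using hg)
      have e := h3 χ hχ x
      rw [← this, show ((⟨⁅g, x⁆, _⟩ : center G) : G) * x = g * x * g⁻¹ by
        simp [commutatorElement_def], χ.2.isClassFunction] at e
      linear_combination e / 2
    obtain ⟨χ, hχ, h5⟩ := exists_irr_apply_ne (g := (z : G)) (by simpa using hz1)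
    have h6 : 2 ∣ charDegree χ := (dvd_iff hG ⟨χ, hχ⟩).2 fun h => h5 (h _ (h1.ge z.2))
    refine Nat.card_eq_one_iff_exists.mpr ⟨⟨⟨χ, hχ⟩, h6⟩, fun ψ => Subtype.ext (Subtype.ext ?_)⟩
    refine ψ.1.2.eq_of_classInner_ne_zero hχ fun h => ?_
    have := card_mul_classInner ψ.1.1 χ
    rw [h, mul_zero, ← Finset.sum_subset (Finset.subset_univ {1, (z : G)}) (fun x _ hx => by
      rw [h4 _ ψ.2 x fun hx' => hx (by
        by_cases h1 : x = 1
        · simp [h1]
        · simp [← hz ⟨x, hx'⟩ (by simpa using h1)]), zero_mul]),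
      Finset.sum_pair (show (1 : G) ≠ z from fun h => hz1 (Subtype.ext h.symm)), ← mul_one (z : G), h3 _ ψ.2, show χ (z * 1) = - χ 1 from h3 ⟨χ, hχ⟩ h6 1,
      map_neg, hχ.isCharacter.conj_apply_one] at this
    exact mul_ne_zero ψ.1.2.apply_one_ne_zero hχ.apply_one_ne_zero (by linear_combination -this / 2)

end Cfsg.Agent.S4762
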