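import Cfsg.Statements.S4763
import Cfsg.Agent.S4452
import Cfsg.Agent.CharDeep.Extend

set_option autoImplicit false
open Cfsg

namespace Cfsg.Agent.S4763

open Cfsg.Agent.Char Cfsg.Agent.CharDeep Subgroup in

/-- Let p be a prime and G a finite group that is not nilpotent and has a normal p-complement (a normal subgroup of order prime to p and index a power of p). If G has exactly one irreducible complex character of degree divisible by p, then G has exactly one conjugacy class whose size is divisible by p. -/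
theorem result {G : Type*} [Group G] [Finite G] (p : ℕ) [Fact p.Prime] (hnil : ¬ Group.IsNilpotent G) (N : Subgroup G) [N.Normal] (hN : (Nat.card N).Coprime p) (hidx : ∃ k : ℕ, N.index = p ^ k) (hone : Nat.card {χ : Cfsg.IrrCharacter G // p ∣ Cfsg.charDegree (χ : G → ℂ)} = 1) : Nat.card {C : ConjClasses G // p ∣ Nat.card C.carrier} = 1 := by
  classical
  have hp : p.Prime := Fact.out
  have := Fintype.ofFinite G
  have := Fintype.ofFinite N
  obtain ⟨k, hk⟩ := hidx
  obtain ⟨P⟩ : Nonempty (Sylow p G) := inferInstance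
  obtain ⟨j, hj⟩ := P.2.exists_card_eq
  have hcop : (Nat.card N).Coprime (Nat.card P) := hj ▸ hN.pow_right j
  have hsup : N ⊔ P = ⊤ := index_eq_one.1 (Nat.eq_one_of_dvd_coprimes
    (((Nat.Prime.coprime_iff_not_dvd hp).2 P.not_dvd_index).pow_left k)
    (hk ▸ index_dvd_of_le le_sup_left) (index_dvd_of_le le_sup_right))
  obtain ⟨hu, ⟨χ₀, hχ₀⟩⟩ := Nat.card_eq_one_iff_unique.1 hone
  have huniq : ∀ χ ψ, IsIrrCharacter G χ → IsIrrCharacter G ψ → p ∣ charDegree χ →
      p ∣ charDegree ψ → χ = ψ := fun χ ψ h1 h2 h3 h4 =>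
    congrArg (·.1.1) (hu.elim ⟨⟨χ, h1⟩, h3⟩ ⟨⟨ψ, h2⟩, h4⟩)
  have hpk : ∀ d, d ∣ p ^ k → d ≠ 1 → p ∣ d := fun d h1 h2 => by
    obtain ⟨i, -, rfl⟩ := (Nat.dvd_prime_pow hp).1 h1
    exact dvd_pow_self p (by rintro rfl; exact h2 (pow_zero p))
  have hab : ∀ a b : G ⧸ N, a * b = b * a := by
    by_contra h1
    obtain ⟨β, hβ⟩ := not_forall.1 (comm_iff_forall_irr_apply_one.not.1 h1)
    have h2 : p ∣ charDegree β.1 := hpk _ (hk ▸ β.2.charDegree_dvd_card) fun e =>
      hβ (by rw [β.2.apply_one_eq_charDegree, e, Nat.cast_one])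
    have : Nontrivial N := by
      by_contra h3
      rw [(N.nontrivial_iff_ne_bot.not_left.1 h3), index_bot] at hk
      exact hnil (IsPGroup.of_card hk).isNilpotent
    obtain ⟨n, hn⟩ := exists_ne (1 : N)
    obtain ⟨θ, hθ, h3⟩ := exists_irr_apply_ne hn
    have h4 : ∀ m : N, β.1 ((m : G) : G ⧸ N) = β.1 1 := fun m => by
      rw [(QuotientGroup.eq_one_iff _).2 m.2]
    by_cases hinv : ∀ g, conjN N g θ = θ
    · obtain ⟨χ, hχ, e, -⟩ := exists_extension_of_coprime_card N hθ hinv
        (hk ▸ (hN.pow_right k).symm)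
      have h5 := huniq _ _ (gallagher_irr N hχ.isCharacter (funext e ▸ hθ) β.2) β.2.inflate
        (by
          rw [charDegree_eq_of_apply_one (n := charDegree β.1 * charDegree χ) (by
            simp [β.2.apply_one_eq_charDegree, hχ.apply_one_eq_charDegree])]
          exact h2.mul_right _) h2
      have h6 : ∀ m : N, θ m = 1 := fun m => by
        have := congrFun h5 m
        rwa [h4, e, mul_eq_left₀ β.2.apply_one_ne_zero] at this
      exact h3 (by rw [h6, h6])
    · obtain ⟨χ, hχ, e⟩ := exists_irr_over N hθ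
      obtain ⟨m, hm⟩ := (hχ.isCharacter.restrict N).exists_nat_classInner hθ.isCharacter
      have h5 := huniq _ _ hχ β.2.inflate (by
        rw [charDegree_eq_of_apply_one (n := m * (inertia N θ).index * charDegree θ) (by
          rw [apply_one_eq_mul_index N hχ hθ e, hm, hθ.apply_one_eq_charDegree]; push_cast; rfl)]
        exact ((hpk _ (hk ▸ index_dvd_of_le (le_inertia N hθ.isClassFunction)) fun e' =>
          hinv ((inertia_eq_top_iff N).1 (index_eq_one.1 e'))).mul_left _).mul_right _) h2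
      exact h3 ((hχ.isCharacter.restrict N).apply_eq_of_classInner_ne_zero hθ e
        (by rw [h5]; exact (h4 n).trans (h4 1).symm))
  set D := normalizer ((P : Subgroup G) : Set G)
  have hD : D ≤ centralizer (P : Set G) := fun g hg x hx => by
    have h1 : g * x * g⁻¹ * x⁻¹ ∈ N ⊓ P := ⟨(QuotientGroup.eq_one_iff _).1 (by
      simp only [QuotientGroup.mk_mul, QuotientGroup.mk_inv, hab (g : G ⧸ N) x]; simp),
      mul_mem ((mem_normalizer_iff.1 hg x).1 hx) ((P : Subgroup G).inv_mem hx)⟩
    rw [(disjoint_of_coprime_natCard hcop).eq_bot, mem_bot, mul_inv_eq_one] at h1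
    exact (mul_inv_eq_iff_eq_mul.1 h1).symm
  have hj0 : j ≠ 0 := by
    rintro rfl
    have h1 := hχ₀.trans χ₀.2.charDegree_dvd_card
    rw [← P.1.card_mul_index, hj, pow_zero, one_mul] at h1
    exact P.not_dvd_index h1
  have hc : ∀ d : ℕ, d.Coprime (Nat.card P) ↔ ¬ p ∣ d := fun d => by
    rw [hj, Nat.coprime_pow_right_iff (by omega), Nat.coprime_comm, hp.coprime_iff_not_dvd]
  have h1 := S4452.result N P hsup hcop (by have := P.2.isNilpotent; infer_instance)
  have h2 : ∀ η : IrrCharacter D, ¬ p ∣ charDegree η.1 := fun η e =>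
    P.not_dvd_index ((e.trans (charDegree_dvd_index_of_abelian ((P : Subgroup G).subgroupOf D)
      (fun a ha b _ => Subtype.ext (hD b.2 a ha)) η.2)).trans
        (relIndex_dvd_index_of_le le_normalizer))
  simp only [hc] at h1
  rw [Nat.card_congr (Equiv.subtypeUnivEquiv h2), card_irr_eq_card_conjClasses] at h1
  have hcar : ∀ g : G, Nat.card (ConjClasses.mk g).carrier = (centralizer {g}).index := fun g => by
    rw [← card_isConj_eq_index]
    exact Nat.card_congr (Equiv.subtypeEquivRight fun y => by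
      rw [ConjClasses.mem_carrier_iff_mk_eq, ConjClasses.mk_eq_mk_iff_isConj, isConj_comm])
  have h3 : Nat.card (ConjClasses D) = Nat.card {C : ConjClasses G // ¬ p ∣ Nat.card C.carrier} := by
    refine Nat.card_congr (Equiv.ofBijective (fun C => ⟨C.map D.subtype, ?_⟩) ⟨?_, ?_⟩)
    · obtain ⟨a, rfl⟩ := ConjClasses.mk_surjective C
      rw [show (ConjClasses.mk a).map D.subtype = ConjClasses.mk (a : G) from rfl, hcar]
      exact fun e => P.not_dvd_index (e.trans (index_dvd_of_le fun x hx =>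
        mem_centralizer_singleton_iff.2 (hD a.2 x hx)))
    · rintro ⟨a⟩ ⟨b⟩ e
      obtain ⟨c, e'⟩ := isConj_iff.1 (ConjClasses.mk_eq_mk_iff_isConj.1 (congrArg Subtype.val e))
      obtain ⟨n, hn, e''⟩ := P.conj_eq_normalizer_conj_of_mem_centralizer a c⁻¹ (hD a.2)
        (by rw [inv_inv]; exact e' ▸ hD b.2)
      rw [inv_inv] at e''
      exact ConjClasses.mk_eq_mk_iff_isConj.2 (isConj_iff.2 ⟨⟨n, hn⟩⁻¹, Subtype.ext
        (by simpa using e''.symm.trans e')⟩)
    · rintro ⟨C, hC⟩
      obtain ⟨g, rfl⟩ := ConjClasses.mk_surjective C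
      rw [hcar] at hC
      obtain ⟨Q⟩ : Nonempty (Sylow p (centralizer ({g} : Set G))) := inferInstance
      let Q' : Sylow p G := (Q.2.map (centralizer ({g} : Set G)).subtype).toSylow (by
        rw [index_map_subtype]
        exact fun e => ((Nat.Prime.dvd_mul hp).1 e).elim Q.not_dvd_index hC)
      obtain ⟨c, hc⟩ := MulAction.exists_smul_eq G Q' P
      refine ⟨ConjClasses.mk ⟨c * g * c⁻¹, centralizer_le_normalizer _ fun x hx => ?_⟩,
        Subtype.ext (ConjClasses.mk_eq_mk_iff_isConj.2 (isConj_iff.2 ⟨c, rfl⟩).symm)⟩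
      rw [← hc] at hx
      obtain ⟨_, ⟨y, -, rfl⟩, rfl⟩ := hx
      simp [mul_assoc, ← mem_centralizer_singleton_iff.1 y.2]
      simp [← mul_assoc, mem_centralizer_singleton_iff.1 y.2]
  have h4 := Nat.card_congr (Equiv.sumCompl fun χ : IrrCharacter G => p ∣ charDegree χ.1)
  have h5 := Nat.card_congr (Equiv.sumCompl fun C : ConjClasses G => p ∣ Nat.card C.carrier)
  rw [Nat.card_sum] at h4 h5
  rw [card_irr_eq_card_conjClasses] at h4
  omega

end Cfsg.Agent.S4763
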