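import Cfsg.Statements.S4768
import Cfsg.Agent.Isa.J1

set_option autoImplicit false
open Cfsg

namespace Cfsg.Agent.S4768

open Cfsg.Agent.PF Cfsg.Agent.PF.CH Cfsg.Agent.BG

theorem aux.{u} (p : ℕ) [hp : Fact p.Prime] (m : ℕ) : ∀ (G : Type u) [Group G] [Finite G], Nat.card G = m →
    IsPSolvable p G → ∀ P : Sylow p G, derivedSeries ↥(P : Subgroup G)
      (Nat.card {χ : IrrCharacter G // p ∣ charDegree (χ : G → ℂ)} + 1) = ⊥ := by
  induction m using Nat.strong_induction_on with
  | _ m ih =>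
  intro G _ _ hm hG P
  rcases subsingleton_or_nontrivial G with h0 | h0
  · exact Subsingleton.elim _ _
  obtain ⟨N, h1, h2⟩ := exists_min_normal hG
  have : N.Normal := NormalIn.normal ⟨le_top, h1.norm⟩
  have hf := QuotientGroup.mk'_surjective N
  have h3 := ih _ (hm ▸ by
    rw [Subgroup.card_eq_card_quotient_mul_card_subgroup N]
    exact lt_mul_of_one_lt_right Nat.card_pos (cardG_gt1 h1.ne)) (G ⧸ N) rfl
    (Solv.isPSolvable_quotient hG N) (P.mapSurjective hf)
  have key : ∀ k, derivedSeries ↥((P.mapSurjective hf : Sylow p (G ⧸ N)) : Subgroup (G ⧸ N)) k = ⊥ →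
      (derivedSeries ↥(P : Subgroup G) k).map (P : Subgroup G).subtype ≤ N := fun k hk => by
    have := map_derivedSeries_eq ((QuotientGroup.mk' N).subgroupMap_surjective (P : Subgroup G)) k
    erw [hk, Subgroup.map_eq_bot_iff] at this
    rintro _ ⟨x, hx, rfl⟩
    exact (QuotientGroup.eq_one_iff _).1 (congrArg Subtype.val (this hx))
  have h4 := key _ h3
  obtain ⟨F, hF⟩ : ∃ F : {χ : IrrCharacter (G ⧸ N) // p ∣ charDegree (χ : G ⧸ N → ℂ)} →
      {χ : IrrCharacter G // p ∣ charDegree (χ : G → ℂ)}, ∀ χ, (F χ).1 = Block.infl _ hf χ.1 :=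
    ⟨fun χ => ⟨Block.infl _ hf χ.1, by rw [Block.charDegree_infl]; exact χ.2⟩, fun _ => rfl⟩
  have Fi : Function.Injective F := fun a b e =>
    Subtype.ext (Block.infl_injective _ hf (by rw [← hF, ← hF, e]))
  have h5 := Nat.card_le_card_of_injective F Fi
  have mono : ∀ {a b}, a ≤ b → derivedSeries ↥(P : Subgroup G) a = ⊥ →
      derivedSeries ↥(P : Subgroup G) b = ⊥ := fun h e =>
    le_bot_iff.1 (e ▸ derivedSeries_antitone _ h)
  have inj : ∀ {A : Subgroup (P : Subgroup G)}, A.map (P : Subgroup G).subtype ≤ ⊥ → A = ⊥ := fun h =>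
    (Subgroup.map_eq_bot_iff_of_injective _ (Subgroup.subtype_injective _)).1 (le_bot_iff.1 h)
  rcases h2 with h2 | h2
  swap
  · refine mono (Nat.succ_le_succ h5) (inj ?_)
    rw [← pgroup_TI' h2 (sylowIn_top P).pi]
    exact le_inf h4 (Subgroup.map_subtype_le _)
  have step : ∀ k, (derivedSeries ↥(P : Subgroup G) k).map (P : Subgroup G).subtype ≤ N →
      derivedSeries ↥(P : Subgroup G) (k + 1) = ⊥ := fun k hk => inj (by
    rw [derivedSeries_succ, Subgroup.map_commutator, ← der1_eq_bot.2 (minnormal_abelian h1 h2)]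
    exact dergS hk)
  rcases h5.lt_or_eq with h5 | h5
  · exact mono (by omega) (step _ h4)
  have Fs := (Fi.bijective_of_nat_card_le h5.ge).2
  have h6 := der_le_of_p'_off hG (normal_top N) h2 h1.ne (sylowIn_top P) fun χ hχ h6 h7 => h6 (by
    obtain ⟨ψ, e⟩ := Fs ⟨⟨χ, mem_Irr_top.1 hχ⟩, h7⟩
    have := (Block.mem_range_infl hf).1 ⟨ψ.1, (hF ψ).symm.trans (congrArg Subtype.val e)⟩
    exact fun g hg => (Irr_mem_cfker hχ).2 (this g (by simpa using hg)))
  rcases Nat.eq_zero_or_pos (Nat.card {χ : IrrCharacter G // p ∣ charDegree (χ : G → ℂ)}) with h7 | h7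
  · have h8 := ((Block.ito_psolv hG P).2 fun χ h8 => by
      have := Nat.card_pos_iff.2 ⟨⟨(⟨χ, h8⟩ : {χ : IrrCharacter G // p ∣ charDegree (χ : G → ℂ)})⟩,
        inferInstance⟩
      omega).2
    refine mono (Nat.le_add_left 1 _) (inj ?_)
    rw [derivedSeries_one, Subgroup.map_subtype_commutator, der1_eq_bot.2 h8]
  · refine mono (a := 1 + 1) (by omega) (step 1 ?_)
    rwa [derivedSeries_one, Subgroup.map_subtype_commutator]

/-- Let p be a prime, G a finite p-solvable group and P a Sylow p-subgroup of G. If n is the number of irreducible complex characters of G whose degree is divisible by p, then the (n+1)-st term of the derived series of P is trivial. (The p-solvable case has a direct inductive proof.) -/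
theorem result {G : Type*} [Group G] [Finite G] (p : ℕ) [Fact p.Prime] (hG : Cfsg.IsPSolvable p G) (P : Sylow p G) : derivedSeries ↥(P : Subgroup G) (Nat.card {χ : Cfsg.IrrCharacter G // p ∣ Cfsg.charDegree (χ : G → ℂ)} + 1) = ⊥ := by
  exact aux p _ G rfl hG P

end Cfsg.Agent.S4768
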