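import Cfsg.Statements.S4781
import Cfsg.Agent.Classical.Nd3

set_option autoImplicit false
open Cfsg

namespace Cfsg.Agent.S4781

open Cfsg.Agent.PF Cfsg.Agent.PF.CH Cfsg.Agent.BG Cfsg.Agent.PF.CH.Nd
open scoped commutatorElement

theorem main {X β : Type*} [Group X] [Finite X] {G : Subgroup X} (hs : Group.IsSolvable G) (nd : ND G)
    (c : ℕ → β) (hc : ∀ ξ ∈ Irr G, ∀ q r, q.Prime → r.Prime → q ∣ deg ξ → r ∣ deg ξ → c q = c r)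
    (hd : ∀ v, ¬ ∀ ξ ∈ Irr G, ∀ q, q.Prime → q ∣ deg ξ → c q = v) :
    ∃ f d, 1 ≠ f ∧ 1 ≠ d ∧ f ≠ d ∧ (∃ η ∈ Irr G, deg η = f) ∧ (∃ η ∈ Irr G, deg η = d) ∧
      ∀ χ ∈ Irr G, deg χ = 1 ∨ deg χ = f ∨ deg χ = d := by
  have ne1 : ∀ {q n : ℕ}, q.Prime → q ∣ n → n ≠ 1 := fun hq h e => hq.one_lt.ne' (Nat.dvd_one.1 (e ▸ h))
  have one' : ∀ η ∈ Irr G, ¬ ∀ χ ∈ Irr G, deg χ ≠ 1 → ¬ (deg χ).Coprime (deg η) := fun η hη h =>
    hd (c (deg η).minFac) fun ξ hξ q hq h1 => by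
      obtain ⟨s, h2, h3, h4⟩ := Nat.Prime.not_coprime_iff_dvd.1 (h ξ hξ (ne1 hq h1))
      exact (hc ξ hξ q s hq h2 h1 h3).trans
        (hc η hη s _ h2 (Nat.minFac_prime (ne1 h2 h4)) h4 (Nat.minFac_dvd _))
  have h0 : ¬ ⁅G, G⁆ ≤ ⊥ := fun e => hd (c 0) fun ξ hξ q hq h1 =>
    (ne1 hq h1 ((deg_eq_one_iff hξ).2 (e.trans bot_le))).elim
  obtain ⟨K, -, hK⟩ := exists_mono (R := ⁅G, G⁆) (normal_bot G) h0
  rcases hK.dich (quotient_sol _ hs) with h3 | ⟨h3, h4⟩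
  · obtain ⟨Z, l, f, h4, h5, h6, -⟩ := hK.central h3
    have h7 : deg ((f : ℂ) • lin l) = f := deg_eq_of (by simp)
    refine (one' _ h6.top fun χ hχ h1 h2 => ?_).elim
    have h8 := nd χ hχ _ (fr_mul_irr h6 (Irr_isChar hχ) (Res_irr_of_coprime h4 hχ
      (by rw [← h6.sq]; exact (h7 ▸ h2 :).pow_right 2))) h1
    rw [(Irr_isChar h6.top).deg_mul (Irr_isChar hχ), h7] at h8
    exact h5.ne' ((Nat.mul_eq_right (Irr_deg_pos hχ).ne').1 (h8 (Dvd.intro_left _ rfl)).symm)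
  obtain ⟨N, hN⟩ : ∃ N, N = K ⊔ ⁅G, G⁆ := ⟨_, rfl⟩
  rw [← hN] at h3 h4
  have f1 := mt Subgroup.relIndex_eq_one.1 h3.lt.not_ge
  have hp := Nat.minFac_prime (mt Subgroup.relIndex_eq_one.1 h3.ltN.not_ge)
  obtain ⟨η, hη, hf⟩ := frob_cor h3 h4 (one_mem_Irr N) (by rw [PF.deg_one]; exact one_dvd _)
  rw [PF.deg_one, mul_one] at hf
  have van : ∀ ψ ∈ Irr N, deg ψ ≠ 1 → vo ψ ≤ K := fun ψ hψ h1 =>
    (frob_dich h3 h4 hψ).resolve_left fun ⟨χ, h5, h6⟩ => h1 ((Nat.mul_eq_left (BG.relIndex_pos _ _).ne').1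
      (h6 ▸ hf ▸ (nd η hη χ h5 (hf ▸ f1) (h6 ▸ hf ▸ dvd_mul_right _ _)).symm))
  have cs : ∀ χ ∈ Irr G, ∃ ψ ∈ Irr N, (⁅N, N⁆ ≤ cfker χ ↔ deg ψ = 1) ∧
      ∃ e, e ∣ N.relIndex G ∧ deg χ = e * deg ψ := fun χ hχ => by
    obtain ⟨ψ, h5, h6⟩ := exists_constt_Res h3.lt.le hχ
    exact ⟨ψ, h5, (cfker_Res_constt_iff h3.normal (der_sub N) (h3.normal.comm h3.normal).norm hχ h5
      h6).trans (deg_eq_one_iff h5).symm, deg_dvd h3.normal h5 hχ h6⟩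
  have a1 : ∀ χ ∈ Irr G, ⁅N, N⁆ ≤ cfker χ → deg χ ≠ 1 → deg χ = deg η := fun χ hχ h1 h2 => by
    obtain ⟨ψ, h5, h6, e, h7, h8⟩ := cs χ hχ
    exact nd χ hχ η hη h2 (by rwa [h8, h6.1 h1, mul_one, hf])
  have a2 : ∀ χ ∈ Irr G, ¬ ⁅N, N⁆ ≤ cfker χ → (K.relIndex N).minFac ∣ deg χ := fun χ hχ h1 => by
    obtain ⟨ψ, h5, h6, e, h7, h8⟩ := cs χ hχ
    exact h8 ▸ (hp.dvd_of_dvd_pow ((Nat.minFac_dvd _).trans (relIndex_dvd_of_vo
      (h3.normalN.subl h3.ltN.le h3.lt.le) h5 (van ψ h5 (mt h6.2 h1))))).mul_left _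
  have cop : ∀ χ ∈ Irr G, ¬ ⁅N, N⁆ ≤ cfker χ → (deg χ).Coprime (N.relIndex G) := fun χ hχ h1 => by
    by_contra h2
    obtain ⟨s, h5, h6, h7⟩ := Nat.Prime.not_coprime_iff_dvd.1 h2
    refine hd (c (K.relIndex N).minFac) fun ξ hξ q hq h8 => ?_
    by_cases h9 : ⁅N, N⁆ ≤ cfker ξ
    · exact (hc η hη q s hq h5 (a1 ξ hξ h9 (ne1 hq h8) ▸ h8) (hf ▸ h7)).trans
        (hc χ hχ s _ h5 hp h6 (a2 χ hχ h1))
    · exact hc ξ hξ q _ hq hp h8 (a2 ξ hξ h9)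
  obtain ⟨d, hd2⟩ := Core.cd2 ⟨hs, nd, h3.normal, h3.normalN, h3.ltN, h3.lt, h4, hK.nle,
    fun Y hY h1 => hN ▸ sup_le le_sup_right (hK.max _ (hY.sup hK.normal) (right_lt_sup.2 h1)), van, cop⟩
  have a3 : ∀ χ ∈ Irr G, ¬ ⁅N, N⁆ ≤ cfker χ → deg χ = d := fun χ hχ h1 => by
    obtain ⟨ψ, h5, h6, e, h7, h8⟩ := cs χ hχ
    rw [h8, Nat.eq_one_of_dvd_coprimes (cop χ hχ h1) (h8 ▸ dvd_mul_right _ _) h7, one_mul]
    exact (hd2 ψ h5).resolve_left (mt h6.2 h1)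
  obtain ⟨χ, hχ, h1⟩ : ∃ χ ∈ Irr G, ¬ ⁅N, N⁆ ≤ cfker χ := by
    by_contra! h1
    exact one' η hη fun χ hχ h2 h5 => h2 (Nat.Coprime.eq_one_of_dvd h5 (a1 χ hχ (h1 χ hχ) h2).dvd)
  refine ⟨deg η, d, hf ▸ Ne.symm f1, (a3 χ hχ h1 ▸ ne1 hp (a2 χ hχ h1)).symm, fun e => f1 ?_, ⟨η, hη, rfl⟩,
    ⟨χ, hχ, a3 χ hχ h1⟩, fun ξ hξ => or_iff_not_imp_left.2 fun h2 => ?_⟩
  · exact Nat.Coprime.eq_one_of_dvd (cop χ hχ h1).symm (by rw [a3 χ hχ h1, ← e, hf])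
  · by_cases h5 : ⁅N, N⁆ ≤ cfker ξ
    exacts [.inl (a1 ξ hξ h5 h2), .inr (a3 ξ hξ h5)]

/-- Let G be a finite solvable group in which no irreducible complex character degree a with 1 < a divides a larger irreducible character degree, and suppose the character degree graph of G (primes dividing some degree, distinct primes adjacent when their product divides a degree) has exactly two connected components. Then G has exactly three distinct irreducible character degrees. -/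
theorem result {G : Type*} [Group G] [Finite G] [Group.IsSolvable G] (hnd : ∀ a ∈ Cfsg.charDegrees G, ∀ b ∈ Cfsg.charDegrees G, 1 < a → a < b → ¬ a ∣ b) (htwo : Nat.card ((Cfsg.degreeGraph G).induce (Cfsg.degreePrimes G)).ConnectedComponent = 2) : Nat.card ↥(Cfsg.charDegrees G) = 3 := by
  classical
  set Γ := (Cfsg.degreeGraph G).induce (Cfsg.degreePrimes G)
  have hm {ξ : G → ℂ} (hξ : ξ ∈ Irr (⊤ : Subgroup G)) : deg ξ ∈ charDegrees G :=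
    ⟨⟨ξ, mem_Irr_top.1 hξ⟩, rfl⟩
  have hv {q : ℕ} {ξ : G → ℂ} (hq : q.Prime) (hξ : ξ ∈ Irr (⊤ : Subgroup G)) (h1 : q ∣ deg ξ) :
      q ∈ Cfsg.degreePrimes G := ⟨hq, _, hm hξ, h1⟩
  obtain ⟨f, d, h1, h2, h3, ⟨η, h4, rfl⟩, ⟨ζ, h5, rfl⟩, h6⟩ := main (G := (⊤ : Subgroup G)) inferInstance
    (fun χ hχ ψ hψ h1 h2 => by_contra fun h3 => hnd _ (hm hχ) _ (hm hψ)
      (lt_of_le_of_ne (Irr_deg_pos hχ) (Ne.symm h1))
      (lt_of_le_of_ne (Nat.le_of_dvd (Irr_deg_pos hψ) h2) h3) h2)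
    (fun q => if h : q ∈ Cfsg.degreePrimes G then some (Γ.connectedComponentMk ⟨q, h⟩) else none)
    (fun ξ hξ q r hq hr h1 h2 => by
      rw [dif_pos (hv hq hξ h1), dif_pos (hv hr hξ h2)]
      by_cases e : q = r
      · subst e; rfl
      · exact congrArg some (SimpleGraph.ConnectedComponent.connectedComponentMk_eq_of_adj
          ⟨e, hq, hr, _, hm hξ, ((Nat.coprime_primes hq hr).2 e).mul_dvd_of_dvd_of_dvd h1 h2⟩))
    (fun v h => by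
      have k : ∀ c : Γ.ConnectedComponent, some c = v := fun c => by
        induction c using SimpleGraph.ConnectedComponent.ind with
        | _ q =>
        obtain ⟨hq, _, ⟨χ, rfl⟩, h1⟩ := q.2
        have := h χ (mem_Irr_top.2 χ.2) q hq h1
        rwa [dif_pos q.2] at this
      obtain ⟨a, b, h1, -⟩ := Nat.card_eq_two_iff.1 htwo
      exact h1 (Option.some.inj ((k a).trans (k b).symm)))
  rw [Nat.card_coe_set_eq, Set.ncard_eq_three]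
  refine ⟨_, _, _, h1, h2, h3, Set.Subset.antisymm ?_ ?_⟩
  · rintro _ ⟨χ, rfl⟩
    exact h6 χ (mem_Irr_top.2 χ.2)
  · rintro _ (rfl | rfl | rfl)
    exacts [PF.deg_one (⊤ : Subgroup G) ▸ hm (one_mem_Irr _), hm h4, hm h5]

end Cfsg.Agent.S4781
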