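import Cfsg.Statements.S4784
import Cfsg.Agent.Block.Cod
import Cfsg.Agent.CharDeep.MGroup

set_option autoImplicit false
open Cfsg

namespace Cfsg.Agent.S4784

open Cfsg.Agent.Block Cfsg.Agent.Char MonoidAlgebra


/-- Let H be a subgroup of the finite group G and consider the permutation character of G on the cosets of H (the function induced from the principal character of H). Then exactly one irreducible constituent of it is real-valued with Frobenius–Schur indicator +1 (namely the principal character) if and only if the normal core of H has odd index in G. -/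
theorem result {G : Type*} [Group G] [Fintype G] (H : Subgroup G) : Nat.card {χ : Cfsg.IrrCharacter G // Cfsg.classInner (Cfsg.indFun H (fun _ : H => (1 : ℂ))) (χ : G → ℂ) ≠ 0 ∧ (∀ g : G, (starRingEnd ℂ) ((χ : G → ℂ) g) = (χ : G → ℂ) g) ∧ (Nat.card G : ℂ)⁻¹ * ∑ g : G, (χ : G → ℂ) (g * g) = 1} = 1 ↔ Odd H.normalCore.index := by
  classical
  have h0 : classInner (indFun H fun _ => 1) (irrOne G).1 = 1 := by
    rw [CharDeep.classInner_indFun_left _ _ (irrOne G).2.isClassFunction]
    exact isIrrCharacter_one.classInner_self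
  have h1 : fsInd (irrOne G).1 = 1 := by
    simp [fsInd, ← Nat.card_eq_fintype_card, CharDeep.card_ne_zero' G]
  refine ⟨fun h => by_contra fun hodd => ?_, fun h => Nat.card_eq_one_iff_unique.2 ⟨?_,
    ⟨⟨irrOne G, h0.trans_ne one_ne_zero, by simp, h1⟩⟩⟩⟩
  · obtain ⟨m, h2, h3⟩ := (CharDeep.isCharacter_indFun H isCharacter_one).exists_nat_coeff
    obtain ⟨t, ht⟩ := exists_prime_orderOf_dvd_card' (G := G ⧸ H.normalCore) 2
      (Nat.not_odd_iff_even.1 hodd).two_dvd
    obtain ⟨t, rfl⟩ := QuotientGroup.mk_surjective t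
    have h4 : t * t ∈ H.normalCore := by
      rw [← QuotientGroup.eq_one_iff, QuotientGroup.mk_mul, ← sq, ← ht, pow_orderOf_eq_one]
    have h5 : t ∉ H.normalCore := fun h5 => by
      rw [(QuotientGroup.eq_one_iff t).2 h5, orderOf_one] at ht; omega
    rw [Subgroup.normalCore_eq_ker] at h4 h5
    have h6 : ∑ g : G, Nat.card (MulAction.fixedBy (G ⧸ H) g) <
        ∑ g : G, Nat.card (MulAction.fixedBy (G ⧸ H) (g * g)) := by
      have h6 : ∀ g : G, MulAction.fixedBy (G ⧸ H) g ⊆ MulAction.fixedBy (G ⧸ H) (g * g) :=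
        fun g c hc => by rw [MulAction.mem_fixedBy] at hc ⊢; rw [mul_smul, hc, hc]
      refine Finset.sum_lt_sum (fun g _ => Set.ncard_le_ncard (h6 g)) ⟨t, Finset.mem_univ _,
        Set.ncard_lt_ncard ⟨h6 t, fun h7 => h5 (Equiv.ext fun c => h7 (Equiv.congr_fun h4 c))⟩⟩
    have h7 : (∑ g : G, Nat.card (MulAction.fixedBy (G ⧸ H) g) : ℂ) = Nat.card G := by
      rw [show (irrOne G).1 = fun _ => 1 from rfl, classInner_one_right,
        inv_mul_eq_one₀ (CharDeep.card_ne_zero' G)] at h0
      simp only [h0, CharDeep.indFun_one_eq_card_fixedBy]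
    have h8 : (∑ g : G, Nat.card (MulAction.fixedBy (G ⧸ H) (g * g)) : ℂ) =
        Nat.card G * ∑ χ, m χ * fsInd χ.1 := by
      simp only [← CharDeep.indFun_one_eq_card_fixedBy, h3, Finset.sum_apply, Pi.smul_apply, fsInd,
        smul_eq_mul, Finset.mul_sum]
      rw [Finset.sum_comm]
      exact Finset.sum_congr rfl fun _ _ => Finset.sum_congr rfl fun _ _ => by
        have := CharDeep.card_ne_zero' G
        field_simp
    have h9 : (∑ χ, m χ * fsInd χ.1).re ≤ 1 := by
      rw [← Finset.add_sum_erase _ _ (Finset.mem_univ (irrOne G)), ← h2, h0, h1, one_mul,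
        Complex.add_re, Complex.one_re, add_le_iff_nonpos_right, Complex.re_sum]
      refine Finset.sum_nonpos fun χ hχ => ?_
      by_cases h9 : m χ = 0
      · simp [h9]
      rcases χ.2.fsInd_eq with h10 | h10 | h10
      · simp [h10]
      · refine absurd (congrArg Subtype.val ((Nat.card_eq_one_iff_unique.1 h).1.elim
          ⟨χ, h2 χ ▸ Nat.cast_ne_zero.2 h9, fun g => Complex.conj_eq_iff_im.2 (by_contra fun h11 => ?_),
            h10⟩ ⟨irrOne G, h0.trans_ne one_ne_zero, by simp, h1⟩)) (Finset.ne_of_mem_erase hχ)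
        exact one_ne_zero (h10.symm.trans (χ.2.fsInd_eq_zero ⟨g, h11⟩))
      · simp [h10]
    have h10 := congrArg Complex.re h8
    rw [← Nat.cast_sum, Nat.cast_inj] at h7
    rw [← Nat.cast_sum, Complex.natCast_re, ← Complex.ofReal_natCast (Nat.card G), Complex.re_ofReal_mul] at h10
    rw [h7, ← Nat.cast_lt (α := ℝ), h10] at h6
    have : (0 : ℝ) < Nat.card G := Nat.cast_pos.2 Nat.card_pos
    nlinarith
  have h2 : ∀ χ : IrrCharacter G, classInner (indFun H fun _ => 1) χ.1 ≠ 0 →
      (∀ g, starRingEnd ℂ (χ.1 g) = χ.1 g) → χ = irrOne G := fun χ h2 h3 => by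
    obtain ⟨φ, h4, h5⟩ := χ.2.exists_quotient H.normalCore fun g hg =>
      (CharDeep.isCharacter_indFun H isCharacter_one).apply_eq_of_classInner_ne_zero χ.2 h2
        (CharDeep.indFun_apply_eq_of_normal H _ _ H.normalCore_le (fun _ _ => rfl) hg)
    have h6 := h4.eq_one_of_real_of_odd h fun g => by
      obtain ⟨g, rfl⟩ := QuotientGroup.mk_surjective g
      rw [h5]; exact Complex.conj_eq_iff_im.1 (h3 g)
    exact Subtype.ext (funext fun g => by rw [← h5, h6]; rfl)
  exact ⟨fun a b => Subtype.ext ((h2 _ a.2.1 a.2.2.1).trans (h2 _ b.2.1 b.2.2.1).symm)⟩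

end Cfsg.Agent.S4784
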