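import Cfsg.Statements.S4796
import Cfsg.Agent.Block.Cod

set_option autoImplicit false
open Cfsg

namespace Cfsg.Agent.S4796

open Cfsg.Agent.Block Cfsg.Agent.Char MonoidAlgebra


/-- Let G be a finite group with a faithful irreducible complex character χ whose codegree #G / χ(1) is a prime p (for a faithful character the kernel is trivial, so the codegree is #G / χ(1)). Then either G is cyclic of order p, or G is a Frobenius group whose Frobenius kernel has order p: some proper non-trivial subgroup H satisfies H ∩ gHg⁻¹ = 1 for every element g outside H, and the set of elements lying in no conjugate of H, together with the identity, has exactly p elements. -/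
theorem result {G : Type*} [Group G] [Finite G] (χ : Cfsg.IrrCharacter G) (hfaith : ∀ g : G, (χ : G → ℂ) g = (χ : G → ℂ) 1 → g = 1) (p : ℕ) (hp : p.Prime) (hcod : Nat.card G = p * Cfsg.charDegree (χ : G → ℂ)) : (IsCyclic G ∧ Nat.card G = p) ∨ ∃ H : Subgroup G, Cfsg.IsFrobeniusComplement H ∧ Nat.card ↥(Cfsg.frobeniusKernel H) = p := by
  haveI := Fact.mk hp
  obtain ⟨P, _, h1, h2, h3, h4⟩ := prime_cod χ.2 hp hcod
  by_cases h5 : charDegree χ.1 = 1
  · rw [h5, mul_one] at hcod
    exact Or.inl ⟨isCyclic_of_prime_card hcod, hcod⟩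
  obtain ⟨H, hH⟩ := Subgroup.exists_right_complement'_of_coprime (N := P) (by
    rw [h1, h2]; exact (Nat.coprime_of_lt_prime χ.2.charDegree_pos.ne' h3 hp))
  have h6 : IsFrobeniusComplement H := by
    refine Frob.isFrobeniusComplement_iff.2 ⟨fun h6 => h5 ?_, fun h6 => hp.one_lt.ne' ?_,
      fun g x hx hx1 hg => ?_⟩
    · rw [← h2, hH.symm.index_eq_card, h6, Subgroup.card_bot]
    · rw [← h1, ← hH.index_eq_card, h6, Subgroup.index_top]
    obtain ⟨⟨k, n⟩, rfl⟩ := hH.symm.2 g
    by_contra h6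
    have h7 : (k : G)⁻¹ * x * k ∈ H := mul_mem (mul_mem (inv_mem k.2) hx) k.2
    have h8 := Subgroup.disjoint_def.1 hH.disjoint (x := ((k : G)⁻¹ * x * k)⁻¹ *
      ((k * n : G)⁻¹ * x * (k * n))) (by
        rw [show ((k : G)⁻¹ * x * k)⁻¹ * ((k * n : G)⁻¹ * x * (k * n)) =
          ((k : G)⁻¹ * x * k)⁻¹ * (n : G)⁻¹ * ((k : G)⁻¹ * x * k)⁻¹⁻¹ * n by group]
        exact mul_mem (Subgroup.Normal.conj_mem ‹_› _ (inv_mem n.2) _) n.2) (mul_mem (inv_mem h7) hg)
    have h9 := Subgroup.disjoint_def.1 hH.disjoint ((h4 n n.2 fun h9 =>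
      h6 (by simp [h9])).le (Subgroup.mem_centralizer_singleton_iff.2 (by
        rw [inv_mul_eq_one] at h8; nth_rw 2 [h8]; group))) h7
    exact hx1 (by rwa [mul_eq_one_iff_eq_inv, mul_eq_left] at h9)
  exact Or.inr ⟨H, h6, by rw [Frob.card_frobeniusKernel h6, hH.index_eq_card, h1]⟩

end Cfsg.Agent.S4796
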