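import Cfsg.Statements.S4797
import Cfsg.Agent.Block.Cod
import Cfsg.Agent.SolvStr.Supersolvable
import Cfsg.Agent.Solv.Frattini

set_option autoImplicit false
open Cfsg

namespace Cfsg.Agent.S4797

open Cfsg.Agent.Block Cfsg.Agent.Char MonoidAlgebra

theorem aux {H : Type*} [Group H] [Finite H] {φ : H → ℂ} (hφ : IsIrrCharacter H φ) {p : ℕ}
    (hp : p.Prime) (h4 : Nat.card H = p * charDegree φ) : commutator H ≠ ⊤ := fun h5 => by
  obtain ⟨P, _, h6, h7, h8, h9⟩ := prime_cod hφ hp h4
  haveI := Fact.mk hp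
  haveI := isCyclic_of_prime_card h6
  obtain ⟨x, hx, hx1⟩ := (Subgroup.bot_or_exists_ne_one P).resolve_left fun h10 =>
    hp.one_lt.ne (by rw [← h6, h10, Subgroup.card_bot])
  have h10 := SolvStr.commutator_le_centralizer_of_isCyclic P
  have h11 : P = ⊤ := top_le_iff.1 (h5.ge.trans (h10.trans ((Subgroup.centralizer_le
    (Set.singleton_subset_iff.2 hx)).trans (h9 x hx hx1).le)))
  rw [h5, h11] at h10
  exact hx1 (Subgroup.mem_bot.1 (((Subgroup.commutator_eq_bot_iff_le_centralizer.2 h10).symm.trans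
    h5).ge trivial))

/-- The codegree of an irreducible complex character χ of a finite group G is [G : ker χ] / χ(1), where ker χ is the set of elements at which χ takes the value χ(1). A non-trivial finite group is perfect if and only if no irreducible complex character of it has prime codegree. -/
theorem result {G : Type*} [Group G] [Finite G] [Nontrivial G] : commutator G = ⊤ ↔ ∀ χ : Cfsg.IrrCharacter G, ¬ ((Nat.card G / (Nat.card {g : G // (χ : G → ℂ) g = (χ : G → ℂ) 1} * Cfsg.charDegree (χ : G → ℂ)))).Prime := by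
  refine ⟨fun h χ hp => ?_, fun h => by_contra fun hc => ?_⟩
  · obtain ⟨_, φ, h1, h2, h3⟩ := exists_faithful_quot χ.2
    refine aux φ.2 hp (by rw [h3, cod_mul, Subgroup.index_eq_card]) ?_
    rw [commutator_def, ← Subgroup.map_top_of_surjective _ (QuotientGroup.mk'_surjective _),
      ← Subgroup.map_commutator, ← commutator_def, h]
  obtain ⟨M, hM, h1⟩ := (eq_top_or_exists_le_coatom _).resolve_left hc
  haveI := Subgroup.Normal.of_commutator_le G h1
  have h2 := Solv.prime_index_of_isCoatom hM
  obtain ⟨g, hg⟩ : ∃ g, g ∉ M := by simpa [Subgroup.eq_top_iff'] using hM.1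
  obtain ⟨χ, h3, h4, h5⟩ := exists_irr_apply_ne_of_not_mem M hg
  have h6 : charKer χ = M := by_contra fun h6 => h5 (h3.isCharacter.mem_charKer.1 ((hM.2 _
    (lt_of_le_of_ne (fun n hn => h3.isCharacter.mem_charKer.2 (h4 n hn)) (Ne.symm h6))).ge trivial))
  refine h ⟨χ, h3⟩ ?_
  rwa [cod_eq, h6, charDegree_eq_of_apply_one (n := 1) (by
    simpa using h3.apply_one_eq_one_iff.2 fun n hn => h4 n (h1 hn)), Nat.div_one]

end Cfsg.Agent.S4797
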