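import Cfsg.Statements.S4798
import Cfsg.Agent.Block.Cod

set_option autoImplicit false
open Cfsg

namespace Cfsg.Agent.S4798

open Cfsg.Agent.Block Cfsg.Agent.Char MonoidAlgebra


/-- Let p be a prime and χ a faithful irreducible complex character of the finite group G (χ(g) = χ(1) only for g = 1), so that its codegree is #G / χ(1). Then #G / χ(1) is a power of p if and only if χ is induced from a character of a Sylow p-subgroup of G. -/
theorem result {G : Type*} [Group G] [Fintype G] (p : ℕ) [Fact p.Prime] (χ : Cfsg.IrrCharacter G) (hfaith : ∀ g : G, (χ : G → ℂ) g = (χ : G → ℂ) 1 → g = 1) : (∃ k : ℕ, Nat.card G = p ^ k * Cfsg.charDegree (χ : G → ℂ)) ↔ ∃ (P : Sylow p G) (θ : ↥(P : Subgroup G) → ℂ), Cfsg.IsCharacter ↥(P : Subgroup G) θ ∧ (χ : G → ℂ) = Cfsg.indFun (P : Subgroup G) θ := by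
  classical
  have hp : p.Prime := Fact.out
  refine ⟨fun ⟨k, hk⟩ => ?_, fun ⟨P, θ, h1, h2⟩ => ?_⟩
  · obtain ⟨P⟩ : Nonempty (Sylow p G) := inferInstance
    obtain ⟨m, h1, h2⟩ := (χ.2.isCharacter.restrict (P : Subgroup G)).exists_nat_coeff
    obtain ⟨a, ha⟩ := IsPGroup.iff_card.1 P.2
    have h3 : charDegree χ.1 = ∑ θ, m θ * charDegree θ.1 := by
      have h3 := congrFun h2 1
      simp only [Finset.sum_apply, Pi.smul_apply, smul_eq_mul, OneMemClass.coe_one,
        χ.2.apply_one_eq_charDegree] at h3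
      rw [Finset.sum_congr rfl fun θ _ => by rw [θ.2.apply_one_eq_charDegree]] at h3
      exact_mod_cast h3
    have h4 : (P : Subgroup G).index ∣ charDegree χ.1 :=
      (Nat.Coprime.pow_right k (hp.coprime_iff_not_dvd.2 P.not_dvd_index).symm).dvd_of_dvd_mul_left
        (hk ▸ Subgroup.index_dvd_card _)
    obtain ⟨d, hd⟩ := h4
    obtain ⟨b, -, rfl⟩ := (Nat.dvd_prime_pow hp).1 (show d ∣ p ^ a from Nat.dvd_of_mul_dvd_mul_left
      (Nat.pos_of_ne_zero Subgroup.index_ne_zero_of_finite) (by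
        rw [← hd, ← ha, Subgroup.index_mul_card]; exact χ.2.charDegree_dvd_card))
    obtain ⟨θ, h5, h6⟩ : ∃ θ, m θ ≠ 0 ∧ charDegree θ.1 ≤ p ^ b := by
      by_contra h5
      refine P.not_dvd_index (Nat.dvd_of_mul_dvd_mul_right (pow_pos hp.pos b) ?_)
      rw [← hd, h3, ← pow_succ']
      refine Finset.dvd_sum fun θ _ => ?_
      by_cases h6 : m θ = 0
      · simp [h6]
      obtain ⟨c, -, hc⟩ := (Nat.dvd_prime_pow hp).1 (ha ▸ θ.2.charDegree_dvd_card)
      exact (pow_dvd_pow p ((Nat.pow_lt_pow_iff_right hp.one_lt).1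
        (hc ▸ not_le.1 fun h7 => h5 ⟨θ, h6, h7⟩))).trans (hc ▸ dvd_mul_left _ _)
    refine ⟨P, θ.1, θ.2.isCharacter, (CharDeep.eq_of_constituent_of_re_le
      (CharDeep.isCharacter_indFun _ θ.2.isCharacter) χ.2 ?_ ?_).symm⟩
    · rw [Ne, classInner_eq_zero_comm, CharDeep.classInner_indFun_right _ _ χ.2.isClassFunction, h1]
      exact Nat.cast_ne_zero.2 h5
    · rw [CharDeep.indFun_one, θ.2.apply_one_eq_charDegree, χ.2.apply_one_eq_charDegree, hd,
        ← Nat.cast_mul, Complex.natCast_re, Complex.natCast_re]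
      exact_mod_cast Nat.mul_le_mul_left _ h6
  have h3 := CharDeep.isIrr_of_isIrr_indFun _ h1 (h2 ▸ χ.2)
  obtain ⟨d, hd⟩ := h3.charDegree_dvd_card
  obtain ⟨a, ha⟩ := IsPGroup.iff_card.1 P.2
  obtain ⟨b, -, rfl⟩ := (Nat.dvd_prime_pow hp).1 (ha ▸ Dvd.intro_left _ hd.symm)
  refine ⟨b, ?_⟩
  rw [charDegree_eq_of_apply_one (n := (P : Subgroup G).index * charDegree θ) (by
    rw [h2, CharDeep.indFun_one, h3.apply_one_eq_charDegree, Nat.cast_mul]),
    ← (P : Subgroup G).card_mul_index, hd]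
  ring

end Cfsg.Agent.S4798
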