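import Cfsg.Statements.S4802
import Cfsg.Agent.Block.Cod

set_option autoImplicit false
open Cfsg

namespace Cfsg.Agent.S4802

open Cfsg.Agent.Block Cfsg.Agent.Char MonoidAlgebra


/-- Let N < M be normal subgroups of the finite group G and g ∈ M ∖ N. Then the conjugacy class of g is exactly M ∖ N if and only if every irreducible complex character of G whose kernel contains N takes the same value at all elements of M ∖ N, and every irreducible complex character of G whose kernel does not contain N vanishes at g. -/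
theorem result {G : Type*} [Group G] [Finite G] (N M : Subgroup G) [N.Normal] [M.Normal] (hNM : N < M) (g : G) (hgM : g ∈ M) (hgN : g ∉ N) : {h : G | IsConj g h} = (M : Set G) \ (N : Set G) ↔ ((∀ χ : Cfsg.IrrCharacter G, (∀ x ∈ N, (χ : G → ℂ) x = (χ : G → ℂ) 1) → ∀ x ∈ M, x ∉ N → ∀ y ∈ M, y ∉ N → (χ : G → ℂ) x = (χ : G → ℂ) y) ∧ (∀ χ : Cfsg.IrrCharacter G, (∃ x ∈ N, (χ : G → ℂ) x ≠ (χ : G → ℂ) 1) → (χ : G → ℂ) g = 0)) := by
  refine ⟨fun h => ⟨fun χ _ x hx hxN y hy hyN => ?_, fun χ hχ => ?_⟩, fun ⟨h1, h2⟩ => Set.ext fun y =>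
    ⟨fun hy => ?_, fun hy => ?_⟩⟩
  · rw [← χ.2.isClassFunction.apply_eq_of_isConj (h.ge ⟨hx, hxN⟩),
      ← χ.2.isClassFunction.apply_eq_of_isConj (h.ge ⟨hy, hyN⟩)]
  · exact χ.2.apply_eq_zero_of_coset_conj N hχ fun n hn => h.ge
      ⟨mul_mem hgM (hNM.le hn), fun h3 => hgN ((mul_mem_cancel_right hn).1 h3)⟩
  · obtain ⟨c, rfl⟩ := isConj_iff.1 hy
    exact ⟨Subgroup.Normal.conj_mem ‹_› g hgM c, fun h3 => hgN (by
      simpa [mul_assoc] using Subgroup.Normal.conj_mem ‹N.Normal› _ h3 c⁻¹)⟩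
  · exact isConj_of_vanish (fun χ => ∀ x ∈ N, χ.1 x = χ.1 1) (fun _ _ => rfl)
      (fun χ hχ => h2 χ (by simpa using hχ)) fun χ hχ => h1 χ hχ y hy.1 hy.2 g hgM hgN

end Cfsg.Agent.S4802
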