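import Cfsg.Statements.S4807
import Cfsg.Agent.Block.McK6

set_option autoImplicit false
open Cfsg

namespace Cfsg.Agent.S4807



open Cfsg.Agent.PF Cfsg.Agent.PF.CH Cfsg.Agent.BG

/-- Let p be a prime and G a finite p-solvable group, L a normal subgroup of G, S a Sylow p-subgroup of G and P the subgroup generated by L and S (so P/L is a Sylow p-subgroup of G/L), and let ν be an irreducible complex character of L that is invariant under conjugation by every element of P. Let N be the normalizer of P in G (it contains L). Then the number of irreducible characters of G of degree prime to p lying over ν (restriction to L not orthogonal to ν) equals the number of irreducible characters of N of degree prime to p lying over ν. -/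
theorem result {G : Type*} [Group G] [Finite G] (p : ℕ) [Fact p.Prime] (hG : Cfsg.IsPSolvable p G) (L : Subgroup G) [L.Normal] (S : Sylow p G) (P : Subgroup G) (hP : P = L ⊔ (S : Subgroup G)) (hLN : L ≤ (Subgroup.normalizer ((P : Subgroup G) : Set G))) (ν : Cfsg.IrrCharacter ↥L) (hν : ∀ x ∈ P, Cfsg.IsConjCharOf L x (ν : ↥L → ℂ) (ν : ↥L → ℂ)) : Nat.card {χ : Cfsg.IrrCharacter G // ¬ p ∣ Cfsg.charDegree (χ : G → ℂ) ∧ (∑ᶠ l : ↥L, (χ : G → ℂ) (l : G) * (starRingEnd ℂ) ((ν : ↥L → ℂ) l)) ≠ 0} = Nat.card {ψ : Cfsg.IrrCharacter ↥(Subgroup.normalizer ((P : Subgroup G) : Set G)) // ¬ p ∣ Cfsg.charDegree (ψ : ↥(Subgroup.normalizer ((P : Subgroup G) : Set G)) → ℂ) ∧ (∑ᶠ l : ↥L, (ψ : ↥(Subgroup.normalizer ((P : Subgroup G) : Set G)) → ℂ) (Subgroup.inclusion hLN l) * (starRingEnd ℂ) ((ν : ↥L → ℂ) l)) ≠ 0} := by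
  classical
  subst hP
  have h := (relP_sylow S).mckay (pSol_of hG Fact.out) (normal_top L) le_top
    (not_dvd_relIndex le_sup_right le_rfl le_top (sylowIn_top S).not_dvd)
    ((ez_mem_IrrFix (norm_of_normal _ _) ν).2 hν)
  rw [top_inf_eq, OverP, OverP, card_filter_top, card_filter_Irr'] at h
  simp only [dot_ez_ne, deg_ez] at h
  refine h.trans (Nat.card_congr (Equiv.subtypeEquivRight fun ψ => and_congr_right fun _ => ?_))
  rw [finsum_congr fun l => by rw [ez_of_mem ψ (hLN l.2)]]
  rfl

end Cfsg.Agent.S4807
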