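import Cfsg.Statements.S4808
import Cfsg.Agent.Block.Cod
import Cfsg.Agent.BMod.Rank2

set_option autoImplicit false
open Cfsg

namespace Cfsg.Agent.S4808

open Cfsg.Agent.Block Cfsg.Agent.Char MonoidAlgebra


/-- The codegree of an irreducible complex character χ of a finite group G is [G : ker χ] / χ(1), where ker χ is the set of elements at which χ takes the value χ(1). A prime divides the order of G if and only if it divides the codegree of some irreducible complex character of G. -/
theorem result {G : Type*} [Group G] [Finite G] (p : ℕ) (hp : p.Prime) : p ∣ Nat.card G ↔ ∃ χ : Cfsg.IrrCharacter G, p ∣ (Nat.card G / (Nat.card {g : G // (χ : G → ℂ) g = (χ : G → ℂ) 1} * Cfsg.charDegree (χ : G → ℂ))) := by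
  classical
  refine ⟨fun h => by_contra fun hc => ?_, fun ⟨χ, h⟩ => h.trans (cod_dvd χ)⟩
  haveI := Fact.mk hp
  obtain ⟨M, _⟩ := BMod.exists_pmod' p
  obtain ⟨x, hx⟩ := exists_prime_orderOf_dvd_card' p h
  have h1 := sum_irr_degree_mul (g := x) (by rintro rfl; exact hp.one_lt.ne (by simpa using hx))
  rw [Finset.sum_congr rfl (g := fun χ : IrrCharacter G =>
    ((if χ.1 x = χ.1 1 then charDegree χ.1 ^ 2 else 0 : ℕ) : ℂ)) fun χ _ => ?_, ← Nat.cast_sum,
    Nat.cast_eq_zero, Finset.sum_eq_zero_iff] at h1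
  · simpa [(irrOne G).2.charDegree_pos.ne'] using h1 (irrOne G) (Finset.mem_univ _)
  split_ifs with h2
  · rw [h2, χ.2.apply_one_eq_charDegree]; push_cast; ring
  obtain ⟨_, φ, h3, h4, h5⟩ := exists_faithful_quot χ.2
  rw [← h3 x, apply_eq_zero_of_defect_zero (p := p) (χ := φ) (g := (x : G ⧸ _)) ?_ ?_ M, mul_zero, Nat.cast_zero]
  · have h6 := cod_mul χ
    rw [h5, ← Subgroup.index_eq_card, ← h6, Nat.factorization_mul (left_ne_zero_of_mul
      (h6 ▸ Subgroup.index_ne_zero_of_finite)) χ.2.charDegree_pos.ne', Finsupp.add_apply,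
      Nat.factorization_eq_zero_of_not_dvd fun h7 => hc ⟨χ, h7⟩, zero_add]
  · rw [orderOf_eq_prime (p := p) (by rw [← QuotientGroup.mk_pow, ← hx, pow_orderOf_eq_one]; rfl)
      fun h6 => h2 (by rw [← h3, h6, ← h3 1]; rfl)]

end Cfsg.Agent.S4808
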