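import Cfsg.Statements.S4813
import Cfsg.Agent.Isa.I6
import Cfsg.Agent.S4466

set_option autoImplicit false
open Cfsg

namespace Cfsg.Agent.S4813

open Cfsg.Agent.PF Cfsg.Agent.PF.CH Cfsg.Agent.BG


/-- If every irreducible complex character of the finite group G of degree greater than one has prime degree, then G has at most three distinct irreducible character degrees. -/
theorem result {G : Type*} [Group G] [Finite G] (hprime : ∀ d ∈ Cfsg.charDegrees G, d = 1 ∨ d.Prime) : Nat.card ↥(Cfsg.charDegrees G) ≤ 3 := by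
  have hpr {ξ : G → ℂ} (hξ : ξ ∈ Irr (⊤ : Subgroup G)) : deg ξ = 1 ∨ (deg ξ).Prime :=
    hprime _ ⟨⟨ξ, mem_Irr_top.1 hξ⟩, rfl⟩
  have := Cfsg.Agent.S4466.result (G := G) fun χ h => (hprime _ ⟨χ, rfl⟩).resolve_left h
  have hs : Group.IsSolvable (⊤ : Subgroup G) := inferInstance
  obtain ⟨f, p, hp, ⟨η, hη, hf⟩, h⟩ := manz hs
  have h1 : Cfsg.charDegrees G ⊆ ({1, f, p} : Finset ℕ) := by
    rintro _ ⟨χ, rfl⟩
    have hχ := mem_Irr_top.2 χ.2
    change deg χ.1 ∈ _
    simp only [Finset.coe_insert, Finset.coe_singleton, Set.mem_insert_iff, Set.mem_singleton_iff]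
    by_cases e : deg χ.1 = 1
    · exact .inl e
    obtain ⟨ξ, hξ, h2, h3⟩ := (h _ hχ).resolve_left e
    have h4 := (hpr hξ).resolve_left fun e' => e (Nat.dvd_one.1 (e' ▸ h2))
    have h5 := ((Nat.dvd_prime h4).1 h2).resolve_left e
    rw [h5]
    rcases h3 with h3 | h3
    · have h6 := (hf ▸ hpr hη).resolve_left fun e' => h3 (by simp [e'])
      exact .inr (.inl (by_contra fun e' => h3 ((Nat.coprime_primes h4 h6).2 e')))
    · exact .inr (.inr ((Nat.prime_dvd_prime_iff_eq hp h4).1 h3).symm)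
  exact (Set.ncard_le_ncard h1 (Finset.finite_toSet _)).trans (by
    rw [Set.ncard_coe_finset]; exact Finset.card_le_three)

end Cfsg.Agent.S4813
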