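import Cfsg.Statements.S4814
import Cfsg.Agent.Block.Cod

set_option autoImplicit false
open Cfsg

namespace Cfsg.Agent.S4814

open Cfsg.Agent.Block Cfsg.Agent.Char MonoidAlgebra


/-- Let G be a finite group such that the sum, over the irreducible complex characters χ of G, of 1/χ(1)² is less than 2. Then every element of G is a product of two commutators. -/
theorem result {G : Type*} [Group G] [Finite G]
    (h : ∑ᶠ χ : Cfsg.IrrCharacter G, 1 / ‖(χ : G → ℂ) 1‖ ^ 2 < (2 : ℝ)) (g : G) :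
    ∃ a b c d : G, (a * b * a⁻¹ * b⁻¹) * (c * d * c⁻¹ * d⁻¹) = g := by
  classical
  letI := Fintype.ofFinite G
  by_contra hc
  have h1 := card_subtype_eq_sum_irr fun w : G × G × G × G =>
    g⁻¹ * (w.1 * w.2.1 * w.1⁻¹ * w.2.1⁻¹) * (w.2.2.1 * w.2.2.2 * w.2.2.1⁻¹ * w.2.2.2⁻¹)
  haveI : IsEmpty {w : G × G × G × G // g⁻¹ * (w.1 * w.2.1 * w.1⁻¹ * w.2.1⁻¹) *
      (w.2.2.1 * w.2.2.2 * w.2.2.1⁻¹ * w.2.2.2⁻¹) = 1} := ⟨fun w => hc ⟨_, _, _, _,
    (inv_mul_eq_one.1 ((mul_assoc _ _ _).symm.trans w.2)).symm⟩⟩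
  rw [@Nat.card_of_isEmpty _ this, Finset.sum_congr rfl
      (g := fun χ : IrrCharacter G => (Nat.card G : ℂ) ^ 4 * (χ.1 g⁻¹ / χ.1 1 ^ 3)) fun χ _ => by
        have := χ.2.apply_one_ne_zero
        simp only [Fintype.sum_prod_type, sum_apply_mul_comm χ.2, ← Finset.mul_sum]
        field_simp, ← Finset.mul_sum, Nat.cast_zero, mul_zero, eq_comm,
    mul_eq_zero_iff_left (pow_ne_zero _ (CharDeep.card_ne_zero' G)),
    ← Finset.add_sum_erase _ _ (Finset.mem_univ (irrOne G)), add_eq_zero_iff_neg_eq] at h1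
  rw [finsum_eq_sum_of_fintype, ← Finset.add_sum_erase _ _ (Finset.mem_univ (irrOne G))] at h
  have h2 := (congrArg norm h1).trans_le ((norm_sum_le _ _).trans (Finset.sum_le_sum
    (g := fun χ : IrrCharacter G => 1 / ‖χ.1 1‖ ^ 2) fun χ _ => by
      have h3 := norm_pos_iff.2 χ.2.apply_one_ne_zero
      rw [norm_div, norm_pow, div_le_div_iff₀ (by positivity) (by positivity)]
      nlinarith [χ.2.isCharacter.norm_apply_le g⁻¹, pow_pos h3 2]))
  simp only [irrOne_apply, norm_one, one_pow, div_one, norm_neg] at h h2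
  linarith

end Cfsg.Agent.S4814
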