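import Cfsg.Statements.S4825
import Cfsg.Agent.Block.Count

set_option autoImplicit false
open Cfsg

namespace Cfsg.Agent.S4825

open Cfsg.Agent.Block Cfsg.Agent.BMod Cfsg.Agent.Char MonoidAlgebra


/-- Let p be a prime, G a finite group with Sylow p-subgroup P, M a maximal ideal of the algebraic integers containing p, and B a p-block of G with defect group P. Let N be a normal subgroup of G not containing P and θ an irreducible character of N. Then the number of irreducible characters in B of degree prime to p lying over θ (having θ as a constituent on restriction to N) is either 0 or at least 2, and when p ≤ 3 it is divisible by p. -/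
theorem result {G : Type*} [Group G] [Fintype G] (p : ℕ) [Fact p.Prime] (P : Sylow p G) (M : Ideal Cfsg.AlgInt) (hM : Cfsg.IsPModular p M) (B : Set (Cfsg.IrrCharacter G)) (hB : Cfsg.IsPBlock M B) (hBP : Cfsg.IsDefectGroup p M B P) (N : Subgroup G) [N.Normal] [Fintype N] (hPN : ¬ (P : Subgroup G) ≤ N) (θ : Cfsg.IrrCharacter N) :
    (Nat.card {χ : Cfsg.IrrCharacter G // χ ∈ B ∧ ¬ p ∣ Cfsg.charDegree (χ : G → ℂ) ∧ Cfsg.classInner (fun n : N => (χ : G → ℂ) n) (θ : N → ℂ) ≠ 0} = 0 ∨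
      2 ≤ Nat.card {χ : Cfsg.IrrCharacter G // χ ∈ B ∧ ¬ p ∣ Cfsg.charDegree (χ : G → ℂ) ∧ Cfsg.classInner (fun n : N => (χ : G → ℂ) n) (θ : N → ℂ) ≠ 0}) ∧
    (p ≤ 3 → p ∣ Nat.card {χ : Cfsg.IrrCharacter G // χ ∈ B ∧ ¬ p ∣ Cfsg.charDegree (χ : G → ℂ) ∧ Cfsg.classInner (fun n : N => (χ : G → ℂ) n) (θ : N → ℂ) ≠ 0}) := by
  classical
  have : PMod p M := ⟨hM⟩
  have hp : p.Prime := Fact.out
  obtain ⟨u, hu, huN⟩ := SetLike.not_le_iff_exists.1 hPN
  have ho := orderOf_eq_pow_of_mem P.isPGroup' hu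
  have h0 : blockCoeff (B ∩ overSet N {θ}) u = 0 := by
    rw [← coeff_idem, ← idem_mul_idem, ← overSet_orbN, (isInv_orbN _).idem_overSet, coeff_mul_sum]
    refine Finset.sum_eq_zero fun h _ => ?_
    by_cases hh : p ∣ orderOf h
    · rw [coeff_idem, blockCoeff_eq_zero_of_dvd hB.isBlockUnion hh, zero_mul]
    rw [(idemS_mem_Zc N _).2 _ fun hN => huN ?_, mul_zero]
    rw [← QuotientGroup.eq_one_iff]
    refine eq_one_of_orderOf_pow_of_not_dvd (p := p) ((isPPart_self ho).map
      (QuotientGroup.mk' N)).orderOf_eq fun h' => hh ?_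
    rw [← QuotientGroup.eq.2 hN] at h'
    exact h'.trans (orderOf_map_dvd (QuotientGroup.mk' N) h)
  have h1 := sum_red_deg_sq (M := M) ho h0
  rw [Nat.card_eq_fintype_card, Fintype.card_subtype]
  set s := Finset.univ.filter fun χ : IrrCharacter G => χ ∈ B ∧ ¬ p ∣ charDegree (χ : G → ℂ) ∧
    classInner (fun n : N => (χ : G → ℂ) n) (θ : N → ℂ) ≠ 0
  have h2 : ∑ χ ∈ s, (charDegree (χ : G → ℂ) : F M) ^ 2 = 0 := by
    rw [← h1, Finset.sum_filter]
    refine Finset.sum_congr rfl fun χ _ => ?_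
    by_cases h : p ∣ charDegree (χ : G → ℂ)
    · simp [h, (natCast_F_eq_zero_iff (M := M) _).2 h]
    · simp [h, overSet, liesOver_iff]
  have h3 : ∀ χ ∈ s, (charDegree (χ : G → ℂ) : F M) ≠ 0 := fun χ h => by
    rw [Ne, natCast_F_eq_zero_iff]; exact (Finset.mem_filter.1 h).2.2.1
  refine ⟨?_, fun h => ?_⟩
  · by_contra! h
    obtain ⟨χ, hχ⟩ := Finset.card_eq_one.1 (show s.card = 1 by omega)
    rw [hχ, Finset.sum_singleton] at h2
    exact h3 χ (by simp [hχ]) (pow_eq_zero_iff two_ne_zero |>.1 h2)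
  · rw [← natCast_F_eq_zero_iff (M := M), ← h2, Finset.card_eq_sum_ones, Nat.cast_sum]
    refine Finset.sum_congr rfl fun χ hχ => ?_
    have h4 := (Finset.mem_filter.1 hχ).2.2.1
    rw [← Nat.cast_pow, CharP.natCast_eq_natCast (F M) p]
    have := hp.two_le
    generalize charDegree (χ : G → ℂ) = n at h4
    rw [Nat.ModEq, Nat.pow_mod]
    interval_cases p
    · rw [Nat.two_dvd_ne_zero.1 h4]
    · have : n % 3 = 1 ∨ n % 3 = 2 := by omega
      rcases this with h | h <;> rw [h]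

end Cfsg.Agent.S4825
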