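import Cfsg.Statements.S4828
import Cfsg.Agent.BMod.Central2
-- import your own Cfsg.Agent.* helpers here

set_option autoImplicit false
open Cfsg

namespace Cfsg.Agent.S4828

open Cfsg.Agent.BMod Cfsg.Agent.Block Cfsg.Agent.Transfer Cfsg.Agent.Char Cfsg.Agent.CharDeep

/-- Let p be a prime, M a maximal ideal of the algebraic integers containing p, and (Q, e) a Brauer pair of the finite group G (Q a p-subgroup, e a block of C_G(Q)). Then (Q, e) is a maximal Brauer pair of some block of G if and only if e contains an irreducible character θ such that θ takes the value θ(1) at every element of Z(Q) = Q ∩ C_G(Q), the p-part of θ(1) times the p-part of the order of Z(Q) equals the p-part of the order of C_G(Q) (θ has defect zero as a character of C_G(Q)/Z(Q)), and every element of N_G(Q) of p-power order that stabilizes e lies in Q·C_G(Q) (the stabilizer of e in N_G(Q) has index prime to p over Q·C_G(Q)). -/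
theorem result {G : Type*} [Group G] [Finite G] (p : ℕ) [Fact p.Prime] (M : Ideal Cfsg.AlgInt) (hM : Cfsg.IsPModular p M) (Q : Subgroup G) (e : Set (Cfsg.IrrCharacter (Subgroup.centralizer (Q : Set G)))) (he : Cfsg.IsBrauerPair p M Q e) :
    (∃ B : Set (Cfsg.IrrCharacter G), Cfsg.IsMaximalBrauerPair p M B Q e) ↔
      ∃ θ ∈ e, (∀ z : Subgroup.centralizer (Q : Set G), (z : G) ∈ Q → (θ : Subgroup.centralizer (Q : Set G) → ℂ) z = (θ : Subgroup.centralizer (Q : Set G) → ℂ) 1) ∧
        (Cfsg.charDegree (θ : Subgroup.centralizer (Q : Set G) → ℂ)).factorization p + (Nat.card ↥(Q ⊓ Subgroup.centralizer (Q : Set G))).factorization p = (Nat.card (Subgroup.centralizer (Q : Set G))).factorization p ∧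
        (∀ g : G, g ∈ Subgroup.normalizer (Q : Set G) → Cfsg.StabilizesBlock (Subgroup.centralizer (Q : Set G)) e g → (∃ k : ℕ, orderOf g = p ^ k) → g ∈ Q ⊔ Subgroup.centralizer (Q : Set G)) := by
  haveI : PMod p M := ⟨hM⟩
  have hpair := IsBrauerPair.isPair he
  have hQC : (Q ⊓ Subgroup.centralizer (Q : Set G)) ≤ Subgroup.centralizer (Q : Set G) :=
    inf_le_right
  have h1 := factorization_card_add_index p
    ((Q ⊓ Subgroup.centralizer (Q : Set G)).subgroupOf (Subgroup.centralizer (Q : Set G)))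
  rw [Nat.card_congr (Subgroup.subgroupOfEquivOfLe hQC).toEquiv] at h1
  constructor
  · rintro ⟨B, hB⟩
    have hm := IsMaximalBrauerPair.isMax hB
    have hd := (isDefectGroup_subgroupOf_iff he.2 hQC).2 hm.isDef_centralizer
    have := normal_of_sup_centralizer (sup_centralizer_of_le_center (inf_subgroupOf_le_center Q))
    obtain ⟨θ, hθ, hk, hdeg, -⟩ := (rc_of_center (IsDefectGroup.isPGroup hd)
      (inf_subgroupOf_le_center Q)).exists_ker he.2 hd
    refine ⟨θ, hθ, fun z hz => hk z ⟨hz, z.2⟩, by omega, fun g hg hs ⟨k, hk⟩ => ?_⟩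
    exact mem_of_pow_mem_of_not_dvd NP_le_normalizer_sup hm.not_dvd_inertial
      ((mem_NP_iff he.2).2 ⟨hg, hs⟩) (n := k) (by rw [← hk, pow_orderOf_eq_one]; exact one_mem _)
  · rintro ⟨θ, hθ, -, hdeg, h⟩
    have hd := (isDefectGroup_subgroupOf_iff he.2 hQC).1
      (isDef_centralizer_of_deg he.1 he.2 hθ (by omega))
    obtain ⟨B, hB⟩ := IsBrauerPair.exists_block he
    refine ⟨B, isMax_iff.2 ⟨hB.2.1, he.2, isMax_of_isDef_NP (isPrim_eB hB.2.1) hpair
      (IsBrauerPairOf.mul_br hB) ?_⟩⟩
    obtain ⟨D, hD⟩ := hpair.exists_isDef hpair.centralizer_le_NP le_rfl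
    have hQD : Q ≤ D := le_trans (le_inf le_rfl hpair.le_NP)
      (hpair.inf_le_of_isDef NP_le_normalizer hD)
    have h2 := hD.inf_of_stable hpair.centralizer_le_NP NP_le_normalizer_centralizer hpair.2
      mem_fix_NP
    have h3 : Q ⊓ Subgroup.centralizer (Q : Set G) = D ⊓ Subgroup.centralizer (Q : Set G) :=
      Subgroup.eq_of_le_of_card_ge (inf_le_inf_right _ hQD) (h2.card_eq hd).le
    have h4 : D ≤ Q := fun x hx => by
      have h5 := (mem_NP_iff he.2).1 (hD.le hx)
      have h6 := h x h5.1 h5.2 (orderOf_eq_pow_of_mem hD.pgroup hx)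
      obtain ⟨u, hu, c, hc, rfl⟩ : ∃ u ∈ Q, ∃ c ∈ Subgroup.centralizer (Q : Set G), u * c = x := by
        have h7 : x ∈ ((Q ⊔ Subgroup.centralizer (Q : Set G) : Subgroup G) : Set G) := h6
        rwa [Subgroup.coe_mul_of_right_le_normalizer_left _ _ (centralizer_le_normalizer' Q)] at h7
      have : c ∈ D := by simpa using mul_mem (inv_mem (hQD hu)) hx
      exact mul_mem hu (h3.ge ⟨this, hc⟩).1
    exact le_antisymm h4 hQD ▸ hD

end Cfsg.Agent.S4828
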