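import Cfsg.Statements.S4837
import Cfsg.Agent.Block.Gagola

set_option autoImplicit false
open Cfsg

namespace Cfsg.Agent.S4837

open Cfsg.Agent.Block Cfsg.Agent.Char MonoidAlgebra


/-- Let G be a finite group of order greater than 2 with an irreducible character χ nonzero on exactly two conjugacy classes, and let N be the set of elements where χ is nonzero, given as a nontrivial normal p-subgroup of G for the prime p. Then for every nonidentity x in N the centralizer C_G(x) is a Sylow p-subgroup of G, and for every irreducible character λ ≠ 1 of N the stabilizer of λ in G (its inertia group) is a Sylow p-subgroup of G. -/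
theorem result {G : Type*} [Group G] [Finite G] (hG : 2 < Nat.card G) (χ : Cfsg.IrrCharacter G) (hχ : Nat.card {C : ConjClasses G // ∃ g ∈ C.carrier, (χ : G → ℂ) g ≠ 0} = 2) (p : ℕ) [Fact p.Prime] (N : Subgroup G) [N.Normal] (hN : ∀ g : G, g ∈ N ↔ (χ : G → ℂ) g ≠ 0) (hNp : IsPGroup p N) (hN1 : N ≠ ⊥) :
    (∀ x ∈ N, x ≠ 1 → ∃ P : Sylow p G, Subgroup.centralizer ({x} : Set G) = P) ∧
      (∀ μ : Cfsg.IrrCharacter N, (μ : N → ℂ) ≠ (fun _ => (1 : ℂ)) → ∃ P : Sylow p G, ∀ g : G, g ∈ (P : Subgroup G) ↔ ∀ n n' : N, (n' : G) = g * n * g⁻¹ → (μ : N → ℂ) n' = (μ : N → ℂ) n) := by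
  classical
  obtain ⟨N', h⟩ := exists_gag hG χ hχ
  obtain rfl := h.eq_of_supp hN
  refine ⟨fun x hx hx1 => h.exists_sylow_of_index hNp (h.index_centralizer hx hx1), fun μ hμ => ?_⟩
  letI := Fintype.ofFinite G
  letI := Fintype.ofFinite N
  have h1 : ∀ ν : IrrCharacter N, ν ≠ irrOne N → classInner (fun n : N => χ.1 n) ν.1 ≠ 0 :=
    fun ν hν => by
      obtain ⟨ψ, hψ, h1⟩ := CharDeep.exists_irr_over N ν.2
      by_cases h2 : (⟨ψ, hψ⟩ : IrrCharacter G) = χ
      · rw [← h2]; exact h1
      rw [show (fun n : N => ψ n) = ψ 1 • (irrOne N).1 from funext fun n => by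
        simpa using h.ker _ h2 n n.2, classInner_smul_left, classInner_irr, if_neg hν.symm,
        mul_zero] at h1
      exact absurd rfl h1
  have hμ' : μ ≠ irrOne N := fun h2 => hμ (by rw [h2]; rfl)
  have h2 := Finset.card_eq_sum_card_fiberwise (s := Finset.univ) (t := Finset.univ.erase (irrOne N))
    (f := fun g : G => (⟨CharDeep.conjN N g μ.1, CharDeep.isIrr_conjN N μ.2 g⟩ : IrrCharacter N))
    fun g _ => Finset.mem_coe.2 (Finset.mem_erase.2 ⟨fun h2 => hμ (CharDeep.conjN_injective N g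
      (congrArg Subtype.val h2)), Finset.mem_univ _⟩)
  rw [Finset.sum_congr rfl (g := fun _ => Nat.card (CharDeep.inertia N μ.1)) fun ν hν => by
    obtain ⟨b, hb⟩ := CharDeep.exists_conjN_eq N χ.2 μ.2 ν.2 (h1 μ hμ')
      (h1 ν (Finset.ne_of_mem_erase hν))
    rw [← CharDeep.card_filter_conjN_eq N μ.1 b, hb]
    exact congrArg _ (Finset.ext fun g => by simp [Subtype.ext_iff]), Finset.sum_const,
    Finset.card_erase_of_mem (Finset.mem_univ _), Finset.card_univ, Finset.card_univ,
    ← Nat.card_eq_fintype_card, ← Nat.card_eq_fintype_card, card_irr_of_comm fun a b =>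
      Subtype.ext (h.comm a.2 b.2), ← (CharDeep.inertia N μ.1).index_mul_card, smul_eq_mul] at h2
  obtain ⟨P, hP⟩ := h.exists_sylow_of_index hNp (T := CharDeep.inertia N μ.1) (by
    rw [Nat.eq_of_mul_eq_mul_right Nat.card_pos h2]; exact Nat.sub_add_cancel Nat.card_pos)
  refine ⟨P, fun g => ?_⟩
  rw [← hP, CharDeep.mem_inertia']
  exact ⟨fun h3 n n' h4 => by rw [← h3 n]; exact congrArg _ (Subtype.ext h4), fun h3 n => h3 n _ rfl⟩

end Cfsg.Agent.S4837
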