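import Cfsg.Statements.S4838
import Cfsg.Agent.Block.Gagola

set_option autoImplicit false
open Cfsg

namespace Cfsg.Agent.S4838

open Cfsg.Agent.Block Cfsg.Agent.Char MonoidAlgebra


/-- Let G be a finite group of order greater than 2 with an irreducible character χ nonzero on exactly two conjugacy classes, N the normal p-subgroup of elements where χ is nonzero, and P a Sylow p-subgroup of G. Then (a) for every x outside N the centralizer of x in G has the same order as the centralizer of xN in G/N; (b) the centre of P lies in N, and equals N exactly when P is normal in G; (c) N, viewed inside P, is a term of the upper central series of P. -/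
theorem result {G : Type*} [Group G] [Finite G] (hG : 2 < Nat.card G) (χ : Cfsg.IrrCharacter G) (hχ : Nat.card {C : ConjClasses G // ∃ g ∈ C.carrier, (χ : G → ℂ) g ≠ 0} = 2) (p : ℕ) [Fact p.Prime] (N : Subgroup G) [N.Normal] (hN : ∀ g : G, g ∈ N ↔ (χ : G → ℂ) g ≠ 0) (hNp : IsPGroup p N) (hN1 : N ≠ ⊥) (P : Sylow p G) :
    (∀ x : G, x ∉ N → Nat.card (Subgroup.centralizer ({x} : Set G)) = Nat.card (Subgroup.centralizer ({(x : G ⧸ N)} : Set (G ⧸ N)))) ∧
      ((Subgroup.center ↥(P : Subgroup G)).map (P : Subgroup G).subtype ≤ N ∧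
        ((Subgroup.center ↥(P : Subgroup G)).map (P : Subgroup G).subtype = N ↔ (P : Subgroup G).Normal)) ∧
      (∃ i : ℕ, Subgroup.upperCentralSeries ↥(P : Subgroup G) i = N.subgroupOf (P : Subgroup G)) := by
  obtain ⟨N', h⟩ := exists_gag hG χ hχ
  obtain rfl := h.eq_of_supp hN
  have hNP : N ≤ P := hNp.le_sylow_of_normal P
  obtain ⟨x, hx, hx1⟩ := (Subgroup.bot_or_exists_ne_one N).resolve_left h.ne
  refine ⟨fun x hx => h.card_centralizer_quot hx, ⟨h.center_le hNp P, fun h1 => ?_, fun h1 => ?_⟩, ?_⟩
  · rw [← P.3 ((h.isPGroup_centralizer hNp hx hx1).to_le (H := Subgroup.centralizer (N : Set G))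
      (Subgroup.centralizer_le (Set.singleton_subset_iff.2 hx))) fun a ha b hb => ?_]
    · infer_instance
    obtain ⟨c, hc, rfl⟩ := h1.ge hb
    exact congrArg Subtype.val (Subgroup.mem_center_iff.1 hc ⟨a, ha⟩).symm
  · refine le_antisymm (h.center_le hNp P) (h.le_of_normal _ fun h2 => ?_)
    haveI : Nontrivial P := (Subgroup.nontrivial_iff_ne_bot _).2 fun h3 => hN1 (le_bot_iff.1 (h3 ▸ hNP))
    rw [Subgroup.map_eq_bot_iff_of_injective _ (Subgroup.subtype_injective _)] at h2
    exact (Subgroup.nontrivial_iff_ne_bot _).1 P.2.center_nontrivial h2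
  by_contra h1
  have h2 : ∀ i, Subgroup.upperCentralSeries P i ≤ N.subgroupOf P := fun i => by
    induction i with
    | zero => exact bot_le
    | succ i ih =>
      intro z hz
      by_contra hzN
      refine h1 ⟨i, Subgroup.map_injective (Subgroup.subtype_injective _) ?_⟩
      rw [Subgroup.map_subgroupOf_eq_of_le hNP]
      refine h.eq_of_commutator hNp P z.2 hzN (Subgroup.map_le_iff_le_comap.2 ih) fun y hy => ?_
      exact ⟨_, inv_mem (Subgroup.mem_upperCentralSeries_succ_iff.1 hz ⟨y, hy⟩), by
        simp [mul_assoc, commutatorElement_def]⟩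
  haveI := P.2.isNilpotent
  exact h1 ⟨_, le_antisymm (h2 (Group.nilpotencyClass P))
    (le_top.trans Subgroup.upperCentralSeries_nilpotencyClass.ge)⟩

end Cfsg.Agent.S4838
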