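import Cfsg.Statements.S4839
import Cfsg.Agent.Block.Gagola

set_option autoImplicit false
open Cfsg

namespace Cfsg.Agent.S4839

open scoped Pointwise
open Cfsg.Agent.Block Cfsg.Agent.Char MonoidAlgebra


/-- Let G be a finite group of order greater than 2 with an irreducible character χ nonzero on exactly two conjugacy classes, and let N be the normal p-subgroup of elements where χ is nonzero. Then N is the whole p-core O_p(G) if and only if G is a doubly transitive Frobenius group with kernel N: G has a Frobenius complement H whose Frobenius kernel is N and whose order is one less than that of N. -/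
theorem result {G : Type*} [Group G] [Finite G] (hG : 2 < Nat.card G) (χ : Cfsg.IrrCharacter G) (hχ : Nat.card {C : ConjClasses G // ∃ g ∈ C.carrier, (χ : G → ℂ) g ≠ 0} = 2) (p : ℕ) [Fact p.Prime] (N : Subgroup G) [N.Normal] (hN : ∀ g : G, g ∈ N ↔ (χ : G → ℂ) g ≠ 0) (hNp : IsPGroup p N) (hN1 : N ≠ ⊥) :
    N = Cfsg.pCore p G ↔ ∃ H : Subgroup G, Cfsg.IsFrobeniusComplement H ∧ Cfsg.frobeniusKernel H = (N : Set G) ∧ Nat.card H + 1 = Nat.card N := by
  obtain ⟨N', h⟩ := exists_gag hG χ hχ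
  obtain rfl := h.eq_of_supp hN
  obtain ⟨b, hb⟩ := IsPGroup.iff_card.1 hNp
  obtain ⟨x, hx, hx1⟩ := (Subgroup.bot_or_exists_ne_one N).resolve_left h.ne
  refine ⟨fun hO => ?_, fun ⟨H, _, h1, h2⟩ => le_antisymm (Solv.le_pCore hNp) fun y hy => ?_⟩
  · have h1 := h.not_dvd_index hNp hO
    obtain ⟨H, hH⟩ := Subgroup.exists_right_complement'_of_coprime (N := N)
      (hb ▸ Nat.Coprime.pow_left b ((Nat.Prime.coprime_iff_not_dvd Fact.out).2 h1))
    have h2 : ∀ y ∈ N, y ≠ 1 → Subgroup.centralizer ({y} : Set G) = N := fun y hy hy1 =>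
      (hNp.toSylow h1).3 (h.isPGroup_centralizer hNp hy hy1) fun a ha b hb => by
        rw [Set.mem_singleton_iff.1 hb]; exact h.comm hy ha
    have h3 : Nat.card H + 1 = Nat.card N := by
      rw [← h.index_centralizer hx hx1, h2 x hx hx1, hH.symm.index_eq_card]
    have h4 : ∀ y ∈ N, y ∈ H → y = 1 := fun y hy hy' => Subgroup.disjoint_def.1 hH.disjoint hy hy'
    refine ⟨H, ⟨fun h5 => ?_, fun h5 => hx1 (h4 x hx (h5 ▸ trivial)), fun g hg => ?_⟩,
      Set.ext fun y => ⟨fun hy => by_contra fun hyN => ?_, fun hy => or_iff_not_imp_left.2 ?_⟩, h3⟩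
    · rw [← hH.card_mul_card, ← h3, h5, Subgroup.card_bot] at hG; omega
    · obtain ⟨⟨n, k⟩, rfl⟩ := hH.2 g
      refine (Subgroup.eq_bot_iff_forall _).2 fun y ⟨hy, z, hz, hyz⟩ => h4 y ((h2 n n.2 ?_).le ?_) hy
      · exact fun h5 => hg (by simp [h5])
      replace hyz : n.1 * k * z * (n.1 * k)⁻¹ = y := hyz
      have h5 := h4 (n * (k * z * (k : G)⁻¹) * (n : G)⁻¹ * (k * z * (k : G)⁻¹)⁻¹) (by
        rw [mul_assoc, mul_assoc, ← mul_assoc (k * z * (k : G)⁻¹)]
        exact mul_mem n.2 (h.normal.conj_mem _ (inv_mem n.2) _)) (mul_mem (by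
          rw [show n.1 * (k.1 * z * (k : G)⁻¹) * (n : G)⁻¹ = y by rw [← hyz]; group]; exact hy) (inv_mem (mul_mem (mul_mem k.2 hz) (inv_mem k.2))))
      rintro _ rfl
      rw [mul_inv_eq_one] at h5
      rw [← hyz, show n.1 * k * z * (n.1 * k)⁻¹ = n * (k * z * (k : G)⁻¹) * (n : G)⁻¹ by group, h5]
      exact mul_inv_eq_iff_eq_mul.1 h5
    · obtain ⟨⟨k, n⟩, rfl⟩ := hH.symm.2 y
      obtain ⟨c, hc⟩ := isConj_iff.1 (h.isConj_mul (g := k)
        (fun h5 => hyN (mul_mem h5 n.2)) n.2)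
      exact (hy.resolve_left fun h5 => hyN (h5 ▸ one_mem N)) c ⟨k, k.2, hc⟩
    · rintro hy1 g ⟨z, hz, rfl⟩
      exact hy1 (by rw [h4 z (by simpa [mul_assoc] using h.normal.conj_mem _ hy g⁻¹) hz]; exact map_one (MulAut.conj g))
  by_contra hyN
  obtain ⟨hy1, g, z, hz, rfl⟩ : y ≠ 1 ∧ ∃ g, y ∈ MulAut.conj g • H := by
    simpa [frobeniusKernel] using fun h3 : y ∈ frobeniusKernel H => hyN (h1.le h3)
  obtain ⟨k, hk⟩ := IsPGroup.iff_orderOf.1 (Solv.isPGroup_pCore p G) ⟨_, hy⟩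
  rw [← Subgroup.orderOf_coe] at hk
  replace hk : orderOf z = p ^ k := ((MulAut.conj g).orderOf_eq z).symm.trans hk
  have h3 := hk ▸ H.orderOf_dvd_natCard hz
  rcases k with _ | k
  · exact hy1 (by rw [orderOf_eq_one_iff.1 hk]; exact map_one (MulAut.conj g))
  exact (Fact.out : p.Prime).one_lt.ne' (Nat.dvd_one.1 ((Nat.dvd_add_right
    ((dvd_pow_self p k.succ_ne_zero).trans h3)).1 (h2 ▸ h.dvd_card hNp)))

end Cfsg.Agent.S4839
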