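import Cfsg.Statements.S4840
import Cfsg.Agent.Isa.K9
import Cfsg.Agent.Block.Gagola

set_option autoImplicit false
open Cfsg

namespace Cfsg.Agent.S4840


open Subgroup

/-- Let G be a finite solvable group of order greater than 2 with an irreducible character nonzero on exactly two conjugacy classes. Then there is exactly one prime p with O_p(G) ≠ 1, and the quotient G/O_p(G) has a normal p-complement and commutative Sylow p-subgroups. -/
theorem result {G : Type*} [Group G] [Finite G] [hs : Group.IsSolvable G] (hG : 2 < Nat.card G) (χ : Cfsg.IrrCharacter G) (hχ : Nat.card {C : ConjClasses G // ∃ g ∈ C.carrier, (χ : G → ℂ) g ≠ 0} = 2) :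
    ∃ p : ℕ, p.Prime ∧ (∀ q : ℕ, q.Prime → (Cfsg.pCore q G ≠ ⊥ ↔ q = p)) ∧
      Cfsg.HasNormalPComplement p (G ⧸ Cfsg.pCore p G) ∧ ∀ Q : Sylow p (G ⧸ Cfsg.pCore p G), IsMulCommutative (Q : Subgroup (G ⧸ Cfsg.pCore p G)) := by
  obtain ⟨N, h⟩ := Block.exists_gag hG χ hχ
  obtain ⟨p, hp, hpN⟩ := h.exists_prime
  have := Fact.mk hp
  have hNn := h.normal
  have hNp : IsPGroup p N := fun x => ⟨1, Subtype.ext (by simpa using hpN x x.2)⟩
  have hle : N ≤ pCore p G := Solv.le_pCore hNp
  have hO : pCore p G ≠ ⊥ := fun e => h.ne (le_bot_iff.1 (e ▸ hle))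
  have hnt : Nontrivial N := (nontrivial_iff_ne_bot N).2 h.ne
  refine ⟨p, hp, fun q hq => ⟨fun hne => ?_, fun e => e ▸ hO⟩, ?_⟩
  · have := Fact.mk hq
    by_contra hqp
    have h1 : IsPGroup q N := (Solv.isPGroup_pCore q G).to_le (h.le_of_normal _ hne)
    have h2 := IsPGroup.disjoint_of_ne q p hqp N N h1 hNp
    exact h.ne (disjoint_self.1 h2)
  have hOp := Solv.isPGroup_pCore p G
  have hC : N ≤ centralizer (pCore p G : Set G) := by
    have hK : pCore p G ⊓ centralizer (pCore p G : Set G) ≠ ⊥ := by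
      have : Nontrivial (pCore p G) := (nontrivial_iff_ne_bot _).2 hO
      have := hOp.center_nontrivial
      obtain ⟨⟨z, hz⟩, hz1⟩ := exists_ne (1 : center (pCore p G))
      refine ne_bot_iff_exists_ne_one.2 ⟨⟨z, mem_inf.2 ⟨z.2, fun r hr => ?_⟩⟩, fun e => hz1 ?_⟩
      · exact congrArg Subtype.val (mem_center_iff.1 hz ⟨r, hr⟩)
      · have e' : (z : G) = 1 := congrArg Subtype.val e
        exact Subtype.ext (Subtype.ext e')
    exact (h.le_of_normal _ hK).trans inf_le_right
  let _ : CommGroup N := { (inferInstance : Group N) with mul_comm := fun a b => Subtype.ext (h.comm a.2 b.2) }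
  let φ : G ⧸ pCore p G →* MulAut N := QuotientGroup.lift _ (MulAut.conjNormal (H := N)) fun g hg => by
    ext x
    simp only [MulAut.conjNormal_apply, MulAut.one_apply]
    rw [mul_inv_eq_iff_eq_mul]
    exact hC x.2 g hg
  refine Isa.K9.main (V := N) (fun v => Subtype.ext (by simpa using hpN v v.2)) φ (Solv.pCore_quotient_pCore p G)
    (fun g v hv hg => ?_) ?_
  · obtain ⟨g, rfl⟩ := QuotientGroup.mk_surjective g
    have h1 : g * v * g⁻¹ = v := congrArg Subtype.val hg
    have h2 : g ∈ centralizer ({(v : G)} : Set G) := mem_centralizer_singleton_iff.2 (mul_inv_eq_iff_eq_mul.1 h1)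
    obtain ⟨k, hk⟩ := Gen2.pElt_of_mem (h.isPGroup_centralizer hNp v.2 fun e => hv (Subtype.ext e)) h2
    obtain ⟨l, -, hl⟩ := (Nat.dvd_prime_pow hp).1 (hk ▸ orderOf_map_dvd (QuotientGroup.mk' (pCore p G)) g)
    exact ⟨l, hl⟩
  · obtain ⟨v, hv⟩ := exists_ne (1 : N)
    have hv1 : (v : G) ≠ 1 := fun e => hv (Subtype.ext e)
    obtain ⟨c, hc⟩ := (h.isPGroup_centralizer hNp v.2 hv1).exists_card_eq
    obtain ⟨d, hd⟩ := hOp.exists_card_eq
    refine ⟨c, d, ?_⟩
    rw [← h.index_centralizer v.2 hv1, Nat.add_sub_cancel, ← hc, ← hd, card_mul_index, mul_comm]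
    exact (pCore p G).card_mul_index

end Cfsg.Agent.S4840
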