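import Cfsg.Statements.S4843
import Cfsg.Agent.Block.Over
import Cfsg.Agent.Solv.Fitting
import Cfsg.Agent.Char.Burnside

set_option autoImplicit false
open Cfsg

namespace Cfsg.Agent.S4843

open Cfsg.Agent.Block Cfsg.Agent.Char MonoidAlgebra

open Cfsg.Agent.CharDeep Subgroup
open scoped ComplexConjugate

theorem key {G : Type*} [Group G] [Finite G] {χ : G → ℂ} (hχ : IsCharacter G χ) (k : ℕ)
    (hk : Nat.Coprime k (Nat.card G)) (hirr : IsIrrCharacter G (fun g => χ g * χ (g ^ k)))
    (N : Subgroup G) [hN : N.Normal] {x : G} (hx : x ∈ N)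
    (hc : ∀ n ∈ N, χ ((n * x) ^ k) ≠ 0 → n * x = x * n) : ‖χ (x ^ k)‖ = ‖χ (1 ^ k)‖ := by
  haveI := Fintype.ofFinite N
  have hψ := hχ.comp_pow hk
  obtain ⟨d, τ, hτ⟩ := hχ.prod hψ
  let D : G →* G × G := (MonoidHom.id G).prod (MonoidHom.id G)
  haveI : Representation.IsIrreducible (τ.comp D) :=
    isIrreducible_of_isIrrCharacter _ (by rw [character_comp, hτ]; exact hirr)
  obtain ⟨c, hc'⟩ := exists_eq_smul_of_comm (τ.comp D) (∑ n : N, τ (((n : G) ^ k)⁻¹, n)) fun g => by
    rw [Finset.sum_mul, Finset.mul_sum]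
    refine (Fintype.sum_equiv (MulAut.conjNormal g : MulAut N).toEquiv _ _ fun n => ?_).symm
    simp only [MonoidHom.comp_apply, ← map_mul]
    congr 1
    simp [D, conj_pow]
    group
  have h1 : ∀ y z : G, ∑ n : N, χ (((n : G) ^ k)⁻¹ * y) * χ ((n * z) ^ k) = c * (χ y * χ (z ^ k)) :=
    fun y z => by
      have := congrArg (fun T => LinearMap.trace ℂ _ (T * τ (y, z))) hc'
      simp only [Finset.sum_mul, map_sum, ← map_mul, smul_mul_assoc, map_smul] at this
      change ∑ n : N, τ.character _ = c • τ.character _ at this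
      simpa [hτ] using this
  have h2 := h1 1 1
  have h3 := h1 (x ^ k)⁻¹ x
  have h4 : ∑ n : N, χ (((n : G) ^ k)⁻¹ * (x ^ k)⁻¹) * χ ((n * x) ^ k) =
      ∑ n : N, χ (((n : G) ^ k)⁻¹ * 1) * χ ((n * 1) ^ k) := by
    refine Fintype.sum_equiv (Equiv.mulRight ⟨x, hx⟩) _ _ fun n => ?_
    by_cases h : χ ((n * x) ^ k) = 0
    · simp [h]
    · have : Commute (n : G) x := hc n n.2 h
      simp [this.mul_pow, (this.pow_pow k k).eq]
  have h5 : c ≠ 0 := by
    rintro rfl
    simp only [mul_one, hχ.apply_inv, zero_mul, Complex.conj_mul'] at h2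
    have h6 : ∑ n : N, ‖χ ((n : G) ^ k)‖ ^ 2 = 0 := by exact_mod_cast h2
    have := (Finset.sum_eq_zero_iff_of_nonneg fun _ _ => by positivity).mp h6 1 (Finset.mem_univ _)
    apply hirr.apply_one_ne_zero
    simpa using this
  have h6 := mul_left_cancel₀ h5 (h3.symm.trans (h4.trans h2))
  have h7 := congrArg norm h6
  simp only [hχ.apply_inv, norm_mul, Complex.norm_conj, one_pow] at h7 ⊢
  exact (mul_self_inj_of_nonneg (norm_nonneg _) (norm_nonneg _)).mp h7

/-- Let G be a finite group with a faithful irreducible character χ (taking the value χ(1) only at the identity) and let k be prime to the order of G, so that g ↦ χ(g^k) is a Galois conjugate of χ. If the pointwise product g ↦ χ(g)·χ(g^k) is again an irreducible character, then the Fitting subgroup of G equals its centre. -/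
theorem result {G : Type*} [Group G] [Finite G] (χ : Cfsg.IrrCharacter G) (hfaith : ∀ g : G, (χ : G → ℂ) g = (χ : G → ℂ) 1 → g = 1) (k : ℕ) (hk : Nat.Coprime k (Nat.card G)) (hirr : Cfsg.IsIrrCharacter G (fun g => (χ : G → ℂ) g * (χ : G → ℂ) (g ^ k))) : Cfsg.fittingSubgroup G = Subgroup.center G := by
  have hψ := χ.2.comp_pow hk
  have hker : charKer (fun g => χ.1 (g ^ k)) = ⊥ := (eq_bot_iff_forall _).mpr fun g hg => by
    have := hfaith _ (by simpa using hψ.isCharacter.mem_charKer.mp hg)
    exact (powCoprime hk.symm).injective (by simpa using this)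
  refine le_antisymm ?_ Solv.center_le_fitting
  set F := fittingSubgroup G
  let N : Subgroup G :=
    { carrier := {x | x ∈ F ∧ ∀ y ∈ F, x * y * x⁻¹ * y⁻¹ ∈ center G}
      one_mem' := ⟨one_mem _, by simp⟩
      mul_mem' := fun {a b} ha hb => ⟨mul_mem ha.1 hb.1, fun y hy => by
        have := mul_mem ((inferInstance : (center G).Normal).conj_mem _ (hb.2 y hy) a) (ha.2 y hy)
        convert this using 1; group⟩
      inv_mem' := fun {a} ha => ⟨inv_mem ha.1, fun y hy => by
        have := (inferInstance : (center G).Normal).conj_mem _ (inv_mem (ha.2 y hy)) a⁻¹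
        convert this using 1; group⟩ }
  haveI : N.Normal := ⟨fun x hx g => ⟨(inferInstance : F.Normal).conj_mem _ hx.1 g, fun y hy => by
    have := (inferInstance : (center G).Normal).conj_mem _
      (hx.2 _ ((inferInstance : F.Normal).conj_mem _ hy g⁻¹)) g
    convert this using 1; group⟩⟩
  have h1 : N ≤ center G := fun x hx => by
    rw [← hψ.charCenter_eq_center hker, hψ.isCharacter.mem_charCenter]
    refine key χ.2.isCharacter k hk hirr N hx fun n hn h => ?_
    obtain ⟨l, hl⟩ := hψ.exists_hom_of_le_center _ le_rfl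
    have h4 := hψ.isClassFunction.apply_mul_comm x n
    have h7 : n * x * n⁻¹ * x⁻¹ ∈ center G := hn.2 x hx.1
    have h8 := hl ⟨_, h7⟩ (x * n)
    simp only [show n * x * n⁻¹ * x⁻¹ * (x * n) = n * x by group] at h8
    rw [h4] at h8
    have h9 : (l ⟨_, h7⟩ : ℂ) = 1 := mul_right_cancel₀ h (by rw [← h8, one_mul])
    have h10 := hl ⟨_, h7⟩ 1
    rw [h9, one_mul, mul_one] at h10
    have := hψ.isCharacter.mem_charKer.mpr h10
    rwa [hker, mem_bot, mul_inv_eq_one, mul_inv_eq_iff_eq_mul] at this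
  have h2 : ∀ i, ∀ x ∈ Subgroup.upperCentralSeries F i, (x : G) ∈ center G := by
    intro i
    induction i with
    | zero => intro x hx; rw [Subgroup.upperCentralSeries_zero, mem_bot] at hx; simp [hx]
    | succ i ih =>
      intro x hx
      exact h1 ⟨x.2, fun y hy => ih _ (Subgroup.mem_upperCentralSeries_succ_iff.mp hx ⟨y, hy⟩)⟩
  obtain ⟨i, hi⟩ := (Solv.isNilpotent_of_le_fitting (le_refl F)).nilpotent
  exact fun x hx => h2 i ⟨x, hx⟩ (hi ▸ mem_top _)

end Cfsg.Agent.S4843
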