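import Cfsg.Statements.S4845
import Cfsg.Agent.CH.Berger

set_option autoImplicit false
open Cfsg

namespace Cfsg.Agent.S4845

universe u

open Cfsg.Agent.Char Cfsg.Agent.CharDeep Subgroup
open scoped commutatorElement

section
variable {G : Type*} [Group G] [Finite G] {χ : G → ℂ} {p : ℕ}

theorem mem_cc (hχ : IsIrrCharacter G χ) {x : G} (h : ∀ g, g * x * g⁻¹ * x⁻¹ ∈ charKer χ) :
    x ∈ charCenter χ := by
  have := hχ.isClassFunction.normal_charKer
  obtain ⟨φ, hφ, e⟩ := hχ.exists_quotient (charKer χ) fun g hg => hχ.isCharacter.mem_charKer.1 hg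
  rw [← show (fun g => φ (QuotientGroup.mk' _ g)) = χ from funext e,
    CH.Berger.charCenter_comp (QuotientGroup.mk'_surjective _)]
  refine hφ.center_le_charCenter (mem_center_iff.2 fun g => ?_)
  obtain ⟨g, rfl⟩ := QuotientGroup.mk_surjective g
  simpa [mul_inv_eq_one, mul_inv_eq_iff_eq_mul] using (QuotientGroup.eq_one_iff _).2 (h g)

theorem vanish (hχ : IsIrrCharacter G χ) (h : commutator G ≤ charCenter χ) {x : G}
    (hx : x ∉ charCenter χ) : χ x = 0 := by
  by_contra h0
  refine hx (mem_cc hχ fun g => ?_)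
  obtain ⟨ω, -, hω⟩ := h (commutator_mem_commutator (mem_top g) (mem_top x))
  have h1 := hω x
  rw [commutatorElement_def, inv_mul_cancel_right, hχ.isClassFunction,
    right_eq_mul₀ h0] at h1
  exact fun y => (hω y).trans (by rw [h1, one_mul])

theorem sq_eq (hχ : IsIrrCharacter G χ) (h : commutator G ≤ charCenter χ) :
    charDegree χ ^ 2 = (charCenter χ).index := by
  classical
  have := Fintype.ofFinite G
  have h5 := hχ.sum_norm_sq
  rw [← Finset.sum_subset (Finset.subset_univ (Finset.univ.filter (· ∈ charCenter χ)))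
    (fun x _ hx => by rw [vanish hχ h (by simpa using hx)]; simp),
    Finset.sum_congr rfl fun x hx => by
      rw [hχ.isCharacter.mem_charCenter.mp (Finset.mem_filter.mp hx).2,
        hχ.isCharacter.norm_apply_one], Finset.sum_const, ← Fintype.card_subtype,
    ← Nat.card_eq_fintype_card, nsmul_eq_mul, ← (charCenter χ).card_mul_index] at h5
  exact Nat.eq_of_mul_eq_mul_left Nat.card_pos (by exact_mod_cast h5)

theorem relIndex_dvd (hχ : IsIrrCharacter G χ) (h : charKer χ ≤ center G)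
    (hp : ∀ a ∈ charKer χ, a ^ p = 1) : (center G).relIndex (charCenter χ) ∣ p := by
  obtain ⟨lam, hl⟩ := exists_hom_charCenter hχ.apply_one_ne_zero
  have : Finite lam.range := Finite.of_surjective _ lam.rangeRestrict_surjective
  have : IsCyclic lam.range := isCyclic_of_injective_ringHom
    ((Units.coeHom ℂ).comp lam.range.subtype) (Units.val_injective.comp Subtype.val_injective)
  obtain ⟨⟨_, w, rfl⟩, hw⟩ := IsCyclic.exists_generator (α := lam.range)
  have h1 : (charCenter χ).map (QuotientGroup.mk' (center G)) ≤ zpowers ((w : G) : G ⧸ center G) := by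
    rintro _ ⟨x, hx, rfl⟩
    obtain ⟨k, hk⟩ := hw ⟨_, ⟨x, hx⟩, rfl⟩
    refine ⟨k, QuotientGroup.eq.2 (h fun y => ?_)⟩
    have h1 := hl ((w ^ k)⁻¹ * ⟨x, hx⟩) y
    rwa [map_mul, map_inv, map_zpow, show lam w ^ k = lam ⟨x, hx⟩ from congrArg Subtype.val hk,
      inv_mul_cancel, Units.val_one, one_mul] at h1
  have h2 : (w : G) ^ p ∈ center G := mem_center_iff.2 fun g => by
    have h2 := inv_mem (hχ.isCharacter.commutator_mem_charKer w.2 g)
    have h3 := (Commute.mul_pow (mem_center_iff.1 (h h2) w).symm p).trans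
      (by rw [hp _ h2, one_mul])
    rw [show ((w : G) * g * (w : G)⁻¹ * g⁻¹)⁻¹ * w = g * w * g⁻¹ by group, conj_pow] at h3
    exact mul_inv_eq_iff_eq_mul.1 h3
  conv_lhs => rw [← QuotientGroup.ker_mk' (center G), relIndex_ker]
  refine (card_dvd_of_le h1).trans ?_
  rw [Nat.card_zpowers, orderOf_dvd_iff_pow_eq_one, ← QuotientGroup.mk_pow,
    QuotientGroup.eq_one_iff]
  exact h2

theorem le_index (hχ : IsIrrCharacter G χ) (A : Subgroup G) (h : ⁅A, A⁆ ≤ charKer χ) :
    charDegree χ ≤ A.index := by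
  have := hχ.isClassFunction.normal_charKer
  obtain ⟨φ, hφ, e⟩ := hχ.exists_quotient (charKer χ) fun g hg => hχ.isCharacter.mem_charKer.1 hg
  rw [← show charDegree φ = charDegree χ from charDegree_eq_of_apply_one
    ((e 1).trans hχ.apply_one_eq_charDegree)]
  refine (hφ.charDegree_le_index_of_comm (A.map (QuotientGroup.mk' _)) ?_).trans
    (Nat.le_of_dvd (Nat.pos_of_ne_zero index_ne_zero_of_finite)
      (index_map_dvd _ (QuotientGroup.mk'_surjective _)))
  rintro _ ⟨a, ha, rfl⟩ _ ⟨b, hb, rfl⟩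
  rw [← commutatorElement_eq_one_iff_mul_comm, ← map_commutatorElement]
  exact (QuotientGroup.eq_one_iff _).2 (h (commutator_mem_commutator ha hb))

/-- Nonlinear irreducible characters of equal degree have equal kernels. -/
def SK (G : Type*) [Group G] : Prop := ∀ χ ψ : G → ℂ, IsIrrCharacter G χ → IsIrrCharacter G ψ →
  charDegree χ ≠ 1 → charDegree χ = charDegree ψ → charKer χ ≤ charKer ψ

theorem deg_iff (hχ : IsIrrCharacter G χ) : charDegree χ = 1 ↔ commutator G ≤ charKer χ := by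
  rw [← Nat.cast_inj (R := ℂ), ← hχ.apply_one_eq_charDegree, Nat.cast_one, hχ.apply_one_eq_one_iff]
  exact forall₂_congr fun g _ => hχ.isCharacter.mem_charKer.symm

theorem SK.lt (h : SK G) (hχ : IsIrrCharacter G χ) (h1 : charDegree χ ≠ 1) :
    charKer χ < commutator G := by
  refine lt_of_le_of_ne (fun g hg => ?_) fun e => h1 ((deg_iff hχ).2 e.ge)
  by_contra h2
  obtain ⟨ψ, hψ, h3, h4⟩ := exists_irr_apply_ne_of_not_mem _ h2
  have h5 := hψ.apply_one_eq_one_iff.2 h3
  have h6 := hχ.mul_of_apply_one hψ.isCharacter h5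
  have h7 := h6.isCharacter.mem_charKer.1 (h χ _ hχ h6 h1 (charDegree_eq_of_apply_one (by
    rw [Pi.mul_apply, h5, mul_one, hχ.apply_one_eq_charDegree])).symm hg)
  rw [Pi.mul_apply, Pi.mul_apply, hχ.isCharacter.mem_charKer.1 hg] at h7
  exact h4 (mul_left_cancel₀ hχ.apply_one_ne_zero h7)

variable [hp : Fact p.Prime]

theorem central_of_card (hG : IsPGroup p G) {K N : Subgroup G} [K.Normal] [N.Normal] (h : K ≤ N)
    (hi : K.relIndex N ∣ p) {x : G} (hx : x ∈ N) (g : G) : g * x * g⁻¹ * x⁻¹ ∈ K := by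
  let f := QuotientGroup.mk' K
  have h1 : Nat.card (N.map f) ∣ p := by rwa [← relIndex_ker, QuotientGroup.ker_mk']
  have := ‹N.Normal›.map f (QuotientGroup.mk'_surjective K)
  have h2 : N.map f ≤ centralizer (⊤ : Subgroup (G ⧸ K)) := by
    by_cases h0 : N.map f = ⊥
    · exact h0.le.trans bot_le
    have h3 := Loc.inf_centralizer_ne_bot ((hG.to_quotient K).to_subgroup ⊤)
      ((hG.to_quotient K).to_subgroup _) le_normalizer_of_normal h0
    rw [← inf_eq_left]
    refine eq_of_le_of_card_ge inf_le_left ((Nat.le_of_dvd hp.out.pos h1).trans ?_)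
    exact Nat.le_of_dvd Nat.card_pos (Loc.dvd_card_of_isPGroup
      ((hG.to_quotient K).to_subgroup _) h3)
  have h3 := h2 ⟨x, hx, rfl⟩ (f g) (mem_top _)
  rw [← QuotientGroup.eq_one_iff]
  change f _ = 1
  simp only [map_mul, map_inv, h3]
  simp

theorem eq_of_cyclic [h : IsCyclic G] (A B : Subgroup G) (hA : Nat.card A = p)
    (hB : Nat.card B = p) : A = B := by
  let := h.commGroup
  have h6 : ∀ A : Subgroup G, Nat.card A = p → A = (powMonoidHom p : G →* G).ker := fun A e =>
    eq_of_le_of_card_ge (fun y hy => orderOf_dvd_iff_pow_eq_one.1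
      (e ▸ Subgroup.orderOf_dvd_natCard _ hy)) (by
      rw [IsCyclic.card_powMonoidHom_ker, e]
      exact Nat.gcd_le_right _ hp.out.pos)
  exact (h6 A hA).trans (h6 B hB).symm

theorem parity {a b c d : ℕ} (ha : ∃ i, a = p ^ i) (hb : ∃ i, b = p ^ i) (hc : c ∣ p)
    (hd : d ∣ p) (h : c * a ^ 2 = d * b ^ 2) : a = b := by
  obtain ⟨i, rfl⟩ := ha
  obtain ⟨j, rfl⟩ := hb
  obtain ⟨k, hk, rfl⟩ := (Nat.dvd_prime_pow hp.out).1 (pow_one p ▸ hc)
  obtain ⟨l, hl, rfl⟩ := (Nat.dvd_prime_pow hp.out).1 (pow_one p ▸ hd)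
  simp only [← pow_mul, ← pow_add] at h
  rw [show i = j by have := Nat.pow_right_injective hp.out.two_le h; omega]

end

theorem not_sq_dvd {p : ℕ} [hp : Fact p.Prime] (n : ℕ) : ∀ (G : Type u) [Group G] [Finite G],
    Nat.card G = n → IsPGroup p G → SK G → ¬ p ^ 2 ∣ Nat.card (commutator G) := by
  induction n using Nat.strong_induction_on with
  | _ n ih =>
  intro G _ _ hn hG h hd
  have hpp := hp.out
  have h0 : commutator G ≠ ⊥ := fun e => by
    rw [e, card_bot, Nat.dvd_one, Nat.pow_eq_one] at hd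
    exact hd.elim hpp.ne_one (by omega)
  obtain ⟨⟨z, hz'⟩, hz⟩ := exists_prime_orderOf_dvd_card' p (Loc.dvd_card_of_isPGroup
    (hG.to_subgroup _) (Loc.inf_centralizer_ne_bot (hG.to_subgroup ⊤)
      (hG.to_subgroup (commutator G)) le_normalizer_of_normal h0))
  rw [Subgroup.orderOf_mk] at hz
  rw [coe_top, centralizer_univ] at hz'
  set L := zpowers z
  have hL : L ≤ center G := zpowers_le.2 hz'.2
  have hLG : L ≤ commutator G := zpowers_le.2 hz'.1
  have hLc : Nat.card L = p := by rw [Nat.card_zpowers, hz]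
  have : L.Normal := ⟨fun n hn g => by rwa [mem_center_iff.1 (hL hn) g, mul_inv_cancel_right]⟩
  have h1 := Solv.card_mul_relIndex hLG
  obtain ⟨j, hj⟩ := (hG.to_subgroup (commutator G)).exists_card_eq
  have h2 : Nat.card (commutator G) = p ^ 2 := by
    have h2 := ih _ (hn ▸ Solv.card_quotient_lt (N := L) (by
      rintro e; rw [e, card_bot] at hLc; exact hpp.ne_one hLc.symm)) (G ⧸ L) rfl
      (hG.to_quotient L) fun φ ψ hφ hψ e1 e2 g hg => by
        obtain ⟨g, rfl⟩ := QuotientGroup.mk_surjective g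
        exact hψ.isCharacter.mem_charKer.2 (hψ.inflate.isCharacter.mem_charKer.1
          (h _ _ hφ.inflate hψ.inflate e1 e2 (hφ.inflate.isCharacter.mem_charKer.2
            (hφ.isCharacter.mem_charKer.1 hg))))
    rw [commutator_def, ← map_top_of_surjective _ (QuotientGroup.mk'_surjective L),
      ← map_commutator, ← relIndex_ker, QuotientGroup.ker_mk', ← commutator_def] at h2
    rw [hj] at hd ⊢
    rw [le_antisymm (not_lt.1 fun e => h2 (Nat.dvd_of_mul_dvd_mul_left hpp.pos (by
      rw [← pow_succ', ← hLc, h1, hLc, hj]; exact pow_dvd_pow p e)))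
      ((Nat.pow_dvd_pow_iff_le_right hpp.one_lt).1 hd)]
  have hsub : ∀ K < commutator G, Nat.card K ∣ p := fun K hK => by
    obtain ⟨i, hi, e⟩ := (Nat.dvd_prime_pow hpp).1 (h2 ▸ card_dvd_of_le hK.le)
    have h3 := Solv.card_lt_of_lt hK
    rw [h2, e, Nat.pow_lt_pow_iff_right hpp.one_lt] at h3
    exact e ▸ (pow_dvd_pow p (by omega : i ≤ 1)).trans (pow_one p).dvd
  have hge : ∀ K < commutator G, L ≤ K → K = L := fun K hK e =>
    (eq_of_le_of_card_ge e (hLc ▸ Nat.le_of_dvd hpp.pos (hsub K hK))).symm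
  have h3 : L.relIndex (commutator G) = p :=
    Nat.eq_of_mul_eq_mul_left hpp.pos (by rw [← pow_two, ← h2, ← h1, hLc])
  obtain ⟨w, hw, hwL⟩ := SetLike.not_le_iff_exists.1 fun e =>
    hpp.ne_one (h3 ▸ relIndex_eq_one.2 e)
  obtain ⟨φ, hφ, hφ1, hφ2⟩ := exists_irr_apply_ne_of_not_mem L hwL
  have hφ3 : charDegree φ ≠ 1 := fun e => hφ2 (hφ.isCharacter.mem_charKer.1 ((deg_iff hφ).1 e hw))
  have hφ4 := hge _ (h.lt hφ hφ3) fun g hg => hφ.isCharacter.mem_charKer.2 (hφ1 g hg)
  obtain ⟨χ, hχ, hχ1⟩ := exists_irr_apply_ne (g := z) (by rintro rfl; exact hpp.ne_one (hz ▸ orderOf_one))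
  have hχ2 : charDegree χ ≠ 1 := fun e =>
    hχ1 (hχ.isCharacter.mem_charKer.1 ((deg_iff hχ).1 e hz'.1))
  have hne : charDegree φ ≠ charDegree χ := fun e => hχ1 (hχ.isCharacter.mem_charKer.1
    (h _ _ hφ hχ hφ3 e (hφ4.ge (mem_zpowers z))))
  have hpow : ∀ {ψ}, IsIrrCharacter G ψ → ∃ i, charDegree ψ = p ^ i := fun hψ => by
    obtain ⟨k, hk⟩ := hG.exists_card_eq
    obtain ⟨i, -, e⟩ := (Nat.dvd_prime_pow hpp).1 (hk ▸ hψ.charDegree_dvd_card)
    exact ⟨i, e⟩
  have hrel : ∀ {ψ}, IsIrrCharacter G ψ → charDegree ψ ≠ 1 →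
      (center G).relIndex (charCenter ψ) ∣ p := fun {ψ} hψ e => by
    have := hψ.isClassFunction.normal_charKer
    have h4 := hsub _ (h.lt hψ e)
    refine relIndex_dvd hψ (fun x hx => mem_center_iff.2 fun g => ?_) fun a ha =>
      orderOf_dvd_iff_pow_eq_one.1 ((Subgroup.orderOf_dvd_natCard _ ha).trans h4)
    simpa [mul_inv_eq_one, mul_inv_eq_iff_eq_mul] using
      central_of_card hG bot_le (by rwa [relIndex_bot_left]) hx g
  have h4 := sq_eq hφ fun x hx => mem_cc hφ (hφ4 ▸ central_of_card hG hLG h3.dvd hx)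
  have h5 := relIndex_mul_index hφ.center_le_charCenter
  by_cases h6 : commutator G ≤ charCenter χ
  · exact hne (parity (hpow hφ) (hpow hχ) (hrel hφ hφ3) (hrel hχ hχ2) (by
      rw [h4, h5, sq_eq hχ h6, relIndex_mul_index hχ.center_le_charCenter]))
  have h7 : ¬ commutator G ≤ center G := fun e => h6 (e.trans hχ.center_le_charCenter)
  let C := centralizer (commutator G : Set G)
  have h8 : ⁅C, C⁆ ≤ L := by
    have h8 : ⁅⁅(⊤ : Subgroup G), C⁆, C⁆ = ⊥ := by
      rw [commutator_eq_bot_iff_le_centralizer, le_centralizer_iff]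
      exact centralizer_le (commutator_mono le_rfl le_top)
    have h9 := commutator_commutator_eq_bot_of_rotate (H₁ := C) (H₂ := C) (H₃ := ⊤)
      (by rwa [Subgroup.commutator_comm C ⊤]) h8
    rw [commutator_eq_bot_iff_le_centralizer, coe_top, centralizer_univ] at h9
    rw [← hge (commutator G ⊓ center G) (inf_lt_left.2 h7) (le_inf hLG hL)]
    exact le_inf (commutator_mono le_top le_top) h9
  have h9 : C.index ≤ p := by
    have h9 : L ⊔ zpowers w = commutator G := by
      by_contra e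
      exact hwL ((hge _ (lt_of_le_of_ne (sup_le hLG (zpowers_le.2 hw)) e) le_sup_left).le
        (mem_sup_right (mem_zpowers w)))
    have h10 : centralizer {w} ≤ C := by
      rw [le_centralizer_iff, ← h9]
      exact sup_le (hL.trans (center_le_centralizer _))
        (zpowers_le.2 fun x hx => mem_centralizer_singleton_iff.1 hx)
    refine (index_antitone h10).trans ?_
    rw [← card_isConj_eq_index, ← hLc]
    refine Nat.card_le_card_of_injective (fun y => (⟨y.1 * w⁻¹, ?_⟩ : L)) fun a b e =>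
      Subtype.ext (mul_right_cancel (congrArg Subtype.val e))
    obtain ⟨g, hg⟩ := isConj_iff.1 y.2
    exact hg ▸ central_of_card hG hLG h3.dvd hw g
  have h10 := (le_index hφ C (hφ4 ▸ h8)).trans h9
  have h11 := hχ.charDegree_sq_le_index_center
  have h12 := Nat.le_of_dvd hpp.pos (hrel hφ hφ3)
  rw [← h5, ← h4] at h11
  obtain ⟨a, ha⟩ := hpow hφ
  obtain ⟨b, hb⟩ := hpow hχ
  rw [ha] at h10 h11 hφ3 hne
  rw [hb] at h11 hχ2 hne
  have h13 := (Nat.pow_le_pow_iff_right hpp.one_lt).1 (h10.trans (pow_one p).ge)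
  have h14 := h11.trans (Nat.mul_le_mul_right _ h12)
  rw [← pow_mul, ← pow_mul, ← pow_succ', Nat.pow_le_pow_iff_right hpp.one_lt] at h14
  have : a ≠ 0 := by rintro rfl; exact hφ3 (pow_zero p)
  have : b ≠ 0 := by rintro rfl; exact hχ2 (pow_zero p)
  exact hne (by rw [show a = b by omega])

/-- Let p be a prime and P a finite non-commutative p-group. Then every two irreducible characters of P of the same degree greater than 1 are Galois conjugate (one is obtained from the other by composing with g ↦ g^k for some k prime to the order of P) if and only if the centre of P is cyclic and the derived subgroup of P has order p. -/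
theorem result {P : Type*} [Group P] [Finite P] (p : ℕ) [Fact p.Prime] (hP : IsPGroup p P) (hna : ¬ IsMulCommutative P) :
    (∀ χ ψ : Cfsg.IrrCharacter P, Cfsg.charDegree (χ : P → ℂ) ≠ 1 → Cfsg.charDegree (χ : P → ℂ) = Cfsg.charDegree (ψ : P → ℂ) → ∃ k : ℕ, Nat.Coprime k (Nat.card P) ∧ ∀ g : P, (ψ : P → ℂ) g = (χ : P → ℂ) (g ^ k)) ↔
      (IsCyclic (Subgroup.center P) ∧ Nat.card (commutator P) = p) := by
  have hp : p.Prime := Fact.out
  have h0 : commutator P ≠ ⊥ := fun e => hna ((commutator_eq_bot_iff P).1 e)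
  constructor
  · intro H
    have h : SK P := fun χ ψ hχ hψ e1 e2 g hg => by
      obtain ⟨k, -, hk⟩ := H ⟨χ, hχ⟩ ⟨ψ, hψ⟩ e1 e2
      refine hψ.isCharacter.mem_charKer.2 ((hk g).trans (Eq.trans ?_ (hk 1).symm))
      rw [one_pow]
      exact hχ.isCharacter.mem_charKer.1 (pow_mem hg k)
    obtain ⟨j, hj⟩ := (hP.to_subgroup (commutator P)).exists_card_eq
    have h1 := not_sq_dvd _ P rfl hP h
    have h2 := Loc.dvd_card_of_isPGroup (hP.to_subgroup _) h0
    have h3 : Nat.card (commutator P) = p := by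
      rw [hj] at h1 h2 ⊢
      rw [Nat.pow_dvd_pow_iff_le_right hp.one_lt] at h1
      have : j ≠ 0 := by rintro rfl; exact hp.ne_one (Nat.dvd_one.1 h2)
      rw [show j = 1 by omega, pow_one]
    obtain ⟨χ, hχ⟩ := not_forall.1 (comm_iff_forall_irr_apply_one.not.1 fun e => hna ⟨⟨e⟩⟩)
    have h4 := h.lt χ.2 fun e => hχ (by rw [χ.2.apply_one_eq_charDegree, e, Nat.cast_one])
    refine ⟨χ.2.isCyclic_center (card_eq_one.1 ?_), h3⟩
    exact ((Nat.dvd_prime hp).1 (h3 ▸ card_dvd_of_le h4.le)).resolve_right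
      (h3 ▸ Solv.card_lt_of_lt h4).ne
  · rintro ⟨hc, h3⟩
    have h1 : commutator P ≤ center P := fun x hx => mem_center_iff.2 fun g => by
      simpa [mul_inv_eq_one, mul_inv_eq_iff_eq_mul] using
        central_of_card hP bot_le (by rw [relIndex_bot_left, h3]) hx g
    obtain ⟨z, hz⟩ := IsCyclic.exists_generator (α := center P)
    have key : ∀ χ : IrrCharacter P, charDegree χ.1 ≠ 1 → (∀ x ∉ center P, χ.1 x = 0) ∧
        ∃ ζ : ℂ, IsPrimitiveRoot ζ (orderOf z) ∧ ∀ k : ℕ, χ.1 (z ^ k) = ζ ^ k * χ.1 1 := by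
      intro χ hχ
      have := χ.2.isClassFunction.normal_charKer
      have hk : charKer χ.1 = ⊥ := by
        by_contra e
        have h4 := Loc.inf_centralizer_ne_bot (hP.to_subgroup ⊤) (hP.to_subgroup (charKer χ.1))
          le_normalizer_of_normal e
        rw [coe_top, centralizer_univ] at h4
        refine hχ ((deg_iff χ.2).2 fun x hx => ?_)
        obtain ⟨⟨a, ha⟩, h5⟩ := exists_prime_orderOf_dvd_card' p
          (Loc.dvd_card_of_isPGroup (hP.to_subgroup _) h4)
        exact zpowers_le.2 ha.1 ((eq_of_cyclic ((commutator P).subgroupOf (center P))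
          ((zpowers a).subgroupOf _) (by rw [Solv.card_subgroupOf h1, h3]) (by
          rw [Solv.card_subgroupOf (zpowers_le.2 ha.2), Nat.card_zpowers, ← h5,
            Subgroup.orderOf_mk])).le (x := ⟨x, h1 hx⟩) hx)
      refine ⟨fun x hx => vanish χ.2 (h1.trans χ.2.center_le_charCenter)
        (by rwa [χ.2.charCenter_eq_center hk]), ?_⟩
      obtain ⟨lam, hl⟩ := χ.2.exists_hom_of_le_center _ le_rfl
      have h4 : Function.Injective lam := (injective_iff_map_eq_one _).2 fun a ha =>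
        Subtype.ext (mem_bot.1 (hk.le fun y => by rw [hl, ha, Units.val_one, one_mul]))
      refine ⟨lam z, IsPrimitiveRoot.coe_units_iff.2
        (orderOf_injective lam h4 z ▸ IsPrimitiveRoot.orderOf _), fun k => ?_⟩
      simpa using hl (z ^ k) 1
    intro χ ψ e1 e2
    obtain ⟨h4, ζ, hζ, h5⟩ := key χ e1
    obtain ⟨h6, ξ, hξ, h7⟩ := key ψ (e2 ▸ e1)
    have : NeZero (orderOf z) := ⟨(orderOf_pos z).ne'⟩
    obtain ⟨k, -, hk, rfl⟩ := (hζ.isPrimitiveRoot_iff).1 hξ
    obtain ⟨j, hj⟩ := hP.exists_card_eq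
    have h8 : k.Coprime (Nat.card P) := hj ▸ (hk.coprime_dvd_right (by
      rw [orderOf_eq_card_of_forall_mem_zpowers hz, ← h3]; exact card_dvd_of_le h1)).pow_right j
    refine ⟨k, h8, fun g => ?_⟩
    by_cases hg : g ∈ center P
    · obtain ⟨i, hi⟩ := mem_powers_iff_mem_zpowers.2 (hz ⟨g, hg⟩)
      rw [← show (z : P) ^ i = g from congrArg Subtype.val hi, ← pow_mul, h5, h7, ← pow_mul,
        mul_comm k, χ.2.apply_one_eq_charDegree, ψ.2.apply_one_eq_charDegree, e2]
    · rw [h6 g hg, h4 _ fun e => hg ?_]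
      obtain ⟨m, hm⟩ := exists_pow_eq_self_of_coprime (h8.coprime_dvd_right (orderOf_dvd_natCard g))
      exact hm ▸ pow_mem e m

end Cfsg.Agent.S4845
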