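import Cfsg.Statements.S4850
import Cfsg.Agent.Mult.NonVan3
import Cfsg.Agent.SolvStr.Subnormal

set_option autoImplicit false
open Cfsg

namespace Cfsg.Agent.S4850



/-- Let p be a prime and G a finite solvable group whose vanishing elements (elements at which some irreducible character is zero) of order divisible by p all have the same order, with at least one such element. Let P be a Sylow p-subgroup of G. Then the derived subgroup of P is subnormal in G and the image of P in G/O_p(G) is cyclic. -/
theorem result {G : Type*} [Group G] [Finite G] [hs : Group.IsSolvable G] (p : ℕ) [Fact p.Prime] (b : ℕ) (hvo : {n : ℕ | p ∣ n ∧ ∃ (g : G) (χ : Cfsg.IrrCharacter G), orderOf g = n ∧ (χ : G → ℂ) g = 0} = {b}) (P : Sylow p G) :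
    ((commutator ↥(P : Subgroup G)).map (P : Subgroup G).subtype).IsSubnormal ∧ IsCyclic ↥((P : Subgroup G).map (QuotientGroup.mk' (Cfsg.pCore p G))) := by
  have key : ∀ g : G, Mult.NV.Van g → p ∣ orderOf g → orderOf g = b := by
    rintro g ⟨χ, h2, h3⟩ hd
    rw [← Set.mem_singleton_iff, ← hvo]
    exact ⟨hd, g, ⟨χ, h2⟩, rfl, h3⟩
  have h4 := Mult.NV.card_map_dvd (fun g g' a b c d => (key g a b).trans (key g' c d).symm) P
  haveI hc := isCyclic_of_card_dvd_prime h4
  refine ⟨?_, hc⟩
  have hle : (commutator (P : Subgroup G)).map (P : Subgroup G).subtype ≤ pCore p G := by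
    rw [Subgroup.map_subtype_commutator, Subgroup.commutator_le]
    intro x hx y hy
    rw [← QuotientGroup.eq_one_iff, ← QuotientGroup.mk'_apply, map_commutatorElement,
      commutatorElement_eq_one_iff_mul_comm]
    exact congrArg Subtype.val (hc.isMulCommutative.is_comm.comm
      ⟨_, Subgroup.mem_map_of_mem _ hx⟩ ⟨_, Subgroup.mem_map_of_mem _ hy⟩)
  haveI := (Solv.isPGroup_pCore p G).isNilpotent
  exact Subgroup.IsSubnormal.trans hle (SolvStr.isSubnormal_of_isNilpotent _)
    (Subgroup.Normal.isSubnormal inferInstance)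

end Cfsg.Agent.S4850
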