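import Cfsg.Statements.S4862
import Cfsg.Agent.Isa.J3

set_option autoImplicit false
open Cfsg

namespace Cfsg.Agent.S4862

open Cfsg.Agent.PF Cfsg.Agent.PF.CH Cfsg.Agent.BG


/-- Let p be an odd prime and G a finite group such that the subgroup generated by the p-elements of G is solvable and every real-valued irreducible complex character of G has degree prime to p. Let K be the subgroup generated by the 2-elements of G and P a Sylow p-subgroup of G. Then every normal subgroup M of G contained in K and in the derived subgroup of P is centralized by K. -/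
theorem result {G : Type*} [Group G] [Finite G] (p : ℕ) [Fact p.Prime] (hp : p ≠ 2) (hsolv : Group.IsSolvable ↥(Subgroup.closure {g : G | ∃ k : ℕ, orderOf g = p ^ k})) (hreal : ∀ χ : Cfsg.IrrCharacter G, (∀ g : G, ((χ : G → ℂ) g).im = 0) → ¬ p ∣ Cfsg.charDegree (χ : G → ℂ)) (P : Sylow p G) (M : Subgroup G) (hM : M.Normal) (hMK : M ≤ (Subgroup.closure {g : G | ∃ k : ℕ, orderOf g = 2 ^ k})) (hMP : M ≤ ⁅(P : Subgroup G), (P : Subgroup G)⁆) : (Subgroup.closure {g : G | ∃ k : ℕ, orderOf g = 2 ^ k}) ≤ Subgroup.centralizer (M : Set G) := by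
  refine (Subgroup.closure_le _).2 fun s ⟨k, hk⟩ => ?_
  have hP := sylowIn_top P
  have pM : IsPGroup p M := hP.pg.to_le (hMP.trans (der_sub _))
  have nM := fun A => norm_of_normal M A
  by_cases h : ⁅M, Subgroup.zpowers s⁆ ≤ ⁅M, M⁆
  · refine coprime_cent_Phi (nM _) ?_ (h.trans (der1_sub_Phi (pgroup_nil pM))) (Subgroup.mem_zpowers s)
    rw [Nat.card_zpowers, hk]
    exact ((p'nat_coprime Nat.prime_two).1 (p'group_of_ne pM hp)).pow_right k
  obtain ⟨t, h1, θ, h2, h3, h4, h5⟩ := exists_inverted (nM ⊤ trivial) hk h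
  have h6 := Subgroup.zpowers_le.2 (norm_inertia (Subgroup.mem_top t) h5)
  obtain ⟨R, h7, h8⟩ := Sylow_superset (p := 2) (le_sup_right : _ ≤ ⊤ ⊓ inertia θ ⊔ Subgroup.zpowers t)
    ((IsPGroup.of_card ((Nat.card_zpowers s).trans hk)).to_le (Subgroup.zpowers_le.2 h1))
  have h9 := Sylow_setI_normal (normalYl h6) h7
  obtain ⟨χ, h10, h11, h12⟩ := exists_real_over (normal_top M) h2 h3 trivial h5 h9.le
    (normsI h6 (normsG h8) (Subgroup.mem_zpowers t))
    ((pgroup_TI' (p'group_of_ne pM hp) h9.pi).le.trans bot_le)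
    fun h => h9.not_dvd (h.trans (Subgroup.relIndex_dvd_of_le_left _ le_sup_right))
  obtain ⟨μ, h13, h14, h15⟩ := exists_lin_below Fact.out hP.pi le_top (Irr_isChar h10)
    (real_hyp hreal χ h10 h11)
  have MP := hMP.trans (der_sub _)
  have h16 := Res_irr_of_one MP h13 h15
  refine (h4 ((cfker_Res_constt_iff (normal_top M) le_rfl (nM _) h10 h2 h12).1
    ((cfker_Res_constt_iff (normal_top M) le_rfl (nM _) h10 h16 (dot_ne_zero_trans MP le_top
      (Irr_isChar h10) h13 (Irr_isChar h16) h14 (dot_ne_of_Res h16 rfl))).2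
      (le_cfker_Res le_rfl (hMP.trans ((Irr_apply_one_iff h13).1 h15)))))).elim

end Cfsg.Agent.S4862
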