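import Cfsg.Statements.S4864
import Cfsg.Agent.Isa.J3

set_option autoImplicit false
open Cfsg

namespace Cfsg.Agent.S4864

open Cfsg.Agent.PF Cfsg.Agent.PF.CH Cfsg.Agent.BG

theorem conj_norm {Y : Type*} [Group Y] [Finite Y] {p : ℕ} [Fact p.Prime] {P : Subgroup Y}
    (hP : SylowIn p P ⊤) {x g : Y} (hx : x ∈ C[P]) (hy : g * x * g⁻¹ ∈ C[P]) :
    ∃ n ∈ N[P], n * x * n⁻¹ = g * x * g⁻¹ := by
  obtain ⟨c, h1, h2⟩ := Sylow_trans (pHall_subl (K := C1[g * x * g⁻¹]) (by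
      rintro _ ⟨y, hy, rfl⟩
      exact mem_cent1.2 (by simpa [mul_assoc] using congrArg (· * g⁻¹) (hx y hy))) le_top (pHallJsub (Subgroup.mem_top g) hP))
    (pHall_subl (le_cent1_iff.2 hy) le_top hP)
  refine ⟨c * g, mem_norm_of_cj_le (by rw [BG.cj_mul, ← h2]), ?_⟩
  rw [show c * g * x * (c * g)⁻¹ = c * (g * x * g⁻¹) * c⁻¹ by group, mem_cent1.1 h1, mul_inv_cancel_right]

theorem core {Y : Type*} [Group Y] [Finite Y] {p : ℕ} [hp : Fact p.Prime] {K P : Subgroup Y} [K.Normal]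
    (hi : ¬ 2 ∣ K.relIndex ⊤) (hK : PiGrp {p}ᶜ K) (hP : SylowIn p P ⊤)
    (hd : ∀ χ ∈ Irr (⊤ : Subgroup Y), star χ = χ → ¬ p ∣ deg χ) {x : Y} (hx : IsConj x x⁻¹) :
    ∃ y ∈ N[P], IsConj x y := by
  obtain ⟨f, hf, -⟩ := real_bij hp.out hP hi (by rw [pgroup_TI' hK hP.pi, norm_bot]; exact le_top) hd
  have h1 {a : N[P]} (h : IsConj a a⁻¹) : (a : Y) ∈ C[P] := by
    refine ((coprime_norm_cent (norm_of_normal K P) (pnat_coprime' hK hP.pi)).le ⟨(QuotientGroup.eq_one_iff _).1 ?_, a.2⟩).2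
    exact Block.eq_one_of_isConj_inv (by
      rw [← Subgroup.index, ← Subgroup.relIndex_top_right]
      exact Nat.odd_iff.2 (Nat.two_dvd_ne_zero.1 hi))
      (((QuotientGroup.mk' K).comp N[P].subtype).map_isConj h.symm)
  have h2 {Z : Type _} [Group Z] {a b : Z} (h : IsConj a a⁻¹) (e : ConjClasses.mk b = ConjClasses.mk a) :
      IsConj b b⁻¹ := by
    obtain ⟨c, rfl⟩ := isConj_iff.1 (ConjClasses.mk_eq_mk_iff_isConj.1 e)
    have : IsConj b (c * b * c⁻¹) := isConj_iff.2 ⟨c, rfl⟩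
    exact this.trans (h.trans (isConj_iff.2 ⟨c⁻¹, by group⟩))
  obtain ⟨F, hF⟩ : ∃ F : {C : ConjClasses N[P] // ∀ g, ConjClasses.mk g = C → IsConj g g⁻¹} →
      {C : ConjClasses Y // ∀ g, ConjClasses.mk g = C → IsConj g g⁻¹},
      ∀ C, (F C).1 = ConjClasses.map N[P].subtype C.1 :=
    ⟨fun C => ⟨_, fun g e => by
      obtain ⟨⟨a⟩, h⟩ := C
      exact h2 (N[P].subtype.map_isConj (h a rfl)) e⟩, fun _ => rfl⟩
  have h3 : Function.Injective F := by
    rintro ⟨⟨a⟩, ha⟩ ⟨⟨b⟩, hb⟩ e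
    have e := congrArg Subtype.val e
    rw [hF, hF] at e
    obtain ⟨g, hg⟩ := isConj_iff.1 (ConjClasses.mk_eq_mk_iff_isConj.1 e)
    obtain ⟨n, h4, h5⟩ := conj_norm hP (h1 (ha a rfl)) (hg ▸ h1 (hb b rfl) : g * a * g⁻¹ ∈ _)
    exact Subtype.ext (ConjClasses.mk_eq_mk_iff_isConj.2 (isConj_iff.2 ⟨⟨n, h4⟩,
      Subtype.ext (h5.trans hg)⟩))
  obtain ⟨⟨⟨a⟩, ha⟩, e⟩ := (h3.bijective_of_nat_card_le (by
    rw [← Char.card_real_irr_eq_card_real_classes, ← Char.card_real_irr_eq_card_real_classes,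
      Nat.card_eq_of_bijective f hf]
    exact Nat.card_le_card_of_injective (fun ξ => ⟨ξ.1, ξ.2.1⟩) fun a b e =>
      Subtype.ext (Subtype.mk.inj e))).2 ⟨ConjClasses.mk x, fun g => h2 hx⟩
  exact ⟨a, a.2, (ConjClasses.mk_eq_mk_iff_isConj.1 ((hF _).symm.trans (congrArg Subtype.val e))).symm⟩

theorem core' {G : Type*} [Group G] [Finite G] {p : ℕ} [hp : Fact p.Prime] {P : Subgroup G}
    (hP : SylowIn p P ⊤) (hs : Group.IsSolvable (gen p G))
    (hd : ∀ χ ∈ Irr (⊤ : Subgroup G), star χ = χ → ¬ p ∣ deg χ) {x : G} (hx : IsConj x x⁻¹) :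
    ∃ y ∈ N[P], IsConj x y := by
  have sQ := Sylow_setI_normal (normal_top (gen 2 G)) hP
  obtain ⟨Q, hQ⟩ : ∃ Q, Q = gen 2 G ⊓ P := ⟨_, rfl⟩
  have : Q.Normal := NormalIn.normal (by
    rw [hQ, ← normal_Hall_pcore sQ ⟨inf_le_left, gen2_norm hs hd hP⟩]; exact (normal_top _).pcore _)
  obtain ⟨f, hf⟩ : ∃ f, f = QuotientGroup.mk' Q := ⟨_, rfl⟩
  have s : Function.Surjective f := hf ▸ QuotientGroup.mk'_surjective Q
  have k : f.ker = Q := hf ▸ QuotientGroup.ker_mk' Q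
  have e := Subgroup.map_top_of_surjective _ s
  have := (gen_normal (p := 2) (X := G)).map _ s
  obtain ⟨y, h1, h2⟩ := core (K := (gen 2 G).map f) (P := P.map f) (p := p) (x := f x) (fun h => not_dvd_gen (p := 2) (X := G)
    (h.trans (by rw [← e]; exact relIndex_map_dvd f (H := gen 2 G) (M := ⊤) le_top))) (p'group_of_Hall_bot (by
      have := pHall_map f sQ
      rwa [← hQ, (Subgroup.map_eq_bot_iff _).2 k.ge] at this))
    (by rw [← e]; exact pHall_map _ hP) (fun χ h1 h2 => by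
      rw [← e] at h1
      have := hd _ (pb_irr h1) (by rw [pb, ← Res_star]; exact congrArg _ (funext fun y => congrFun h2 (f y)))
      rwa [pb, deg_Res, deg, map_one] at this)
    (by rw [← map_inv]; exact f.map_isConj hx)
  obtain ⟨g, rfl⟩ := isConj_iff.1 h2
  obtain ⟨g, rfl⟩ := s g
  refine ⟨g * x * g⁻¹, ?_, isConj_iff.2 ⟨g, rfl⟩⟩
  rw [← Subgroup.comap_map_eq_self (f := f) (H := P) (k.le.trans (hQ ▸ inf_le_right)),
    ← Subgroup.comap_normalizer_eq_of_surjective _ s]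
  simpa using h1

/-- Let p be a prime and G a finite group such that the subgroup generated by the p-elements of G is solvable and every real-valued irreducible complex character of G has degree prime to p. Then the normalizer of a Sylow p-subgroup of G contains an element of every real conjugacy class of G: every element conjugate to its inverse is conjugate to an element of that normalizer. -/
theorem result {G : Type*} [Group G] [Finite G] (p : ℕ) [Fact p.Prime] (hsolv : Group.IsSolvable ↥(Subgroup.closure {g : G | ∃ k : ℕ, orderOf g = p ^ k})) (hreal : ∀ χ : Cfsg.IrrCharacter G, (∀ g : G, ((χ : G → ℂ) g).im = 0) → ¬ p ∣ Cfsg.charDegree (χ : G → ℂ)) (P : Sylow p G) (x : G) (hx : IsConj x x⁻¹) : ∃ y ∈ Subgroup.normalizer ((P : Subgroup G) : Set G), IsConj x y := by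
  exact core' (sylowIn_top P) hsolv (real_hyp hreal) hx

end Cfsg.Agent.S4864
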