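import Cfsg.Statements.S4866
import Cfsg.Agent.Block.Over

set_option autoImplicit false
open Cfsg

namespace Cfsg.Agent.S4866

open Cfsg.Agent.Block Cfsg.Agent.Char MonoidAlgebra

open Cfsg.Agent.CharDeep Subgroup

theorem iter_aux {G X : Type*} [Group G] [MulAction G X] (i : X → X) (hi : ∀ x, i (i x) = x)
    (hc : ∀ (g : G) x, i (g • x) = g • i x) {g : G} {m : ℕ} (hm : Odd m)
    (hg : ∀ x : X, g ^ m • x = x) (x : X) : g • i x = x ↔ i x = x ∧ g • x = x := by
  refine ⟨fun h => ?_, fun h => by rw [h.1, h.2]⟩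
  have h1 : (g ^ 2) • x = x := by
    have h2 : g • x = i x := by rw [← congrArg i h, hc, hi]
    rw [sq, mul_smul, h2, h]
  obtain ⟨k, rfl⟩ := hm
  have h2 : g • x = x := by
    have := hg x
    rwa [pow_succ', mul_smul, pow_mul, MulAction.mem_stabilizer_iff.mp
      (pow_mem (MulAction.mem_stabilizer_iff.mpr h1) k)] at this
  refine ⟨?_, h2⟩
  rwa [← hc, h2] at h

/-- Let K be a normal subgroup of odd index in the finite group G. Then G has as many orbits on the real-valued irreducible complex characters of K (acting by conjugation) as it has orbits on the conjugacy classes of K that are real in K; equivalently, the number of G-orbits of real-valued irreducible characters of K equals the number of G-conjugacy classes of elements of K that are conjugate in K to their inverses. -/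
theorem result {G : Type*} [Group G] [Finite G] (K : Subgroup G) [K.Normal] (hodd : Odd K.index) : Nat.card (Quot (fun θ η : {θ : Cfsg.IrrCharacter ↥K // (∀ k : ↥K, ((θ : ↥K → ℂ) k).im = 0)} => ∃ g : G, ∀ k k' : ↥K, (k' : G) = g * (k : G) * g⁻¹ → (η.1 : ↥K → ℂ) k' = (θ.1 : ↥K → ℂ) k)) = Nat.card (Quot (fun x y : {x : ↥K // IsConj x x⁻¹} => ∃ g : G, (y.1 : G) = g * x.1 * g⁻¹)) := by
  classical
  haveI := Fintype.ofFinite G
  letI a1 : MulAction G (IrrCharacter K) :=
    { smul := fun g θ => ⟨conjN K g⁻¹ θ.1, isIrr_conjN K θ.2 _⟩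
      one_smul := fun θ => Subtype.ext (show conjN K 1⁻¹ θ.1 = _ by simp)
      mul_smul := fun g h θ => Subtype.ext (show conjN K (g * h)⁻¹ θ.1 = _ by
        rw [mul_inv_rev, conjN_mul]; rfl) }
  letI a2 : MulAction G (ConjClasses K) :=
    { smul := fun g C => ConjClasses.map (MulAut.conjNormal g : MulAut K).toMonoidHom C
      one_smul := fun C => by
        obtain ⟨x, rfl⟩ := ConjClasses.mk_surjective C
        show ConjClasses.mk (MulAut.conjNormal 1 x) = _
        simp
      mul_smul := fun g h C => by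
        obtain ⟨x, rfl⟩ := ConjClasses.mk_surjective C
        show ConjClasses.mk (MulAut.conjNormal (g * h) x) = _
        rw [map_mul]; rfl }
  have s1 : ∀ (g : G) (θ : IrrCharacter K) (x : K),
    (g • θ).1 x = θ.1 (MulAut.conjNormal g⁻¹ x) := fun _ _ _ => rfl
  have s2 : ∀ (g : G) (x : K),
    g • ConjClasses.mk x = ConjClasses.mk (MulAut.conjNormal g x) := fun _ _ => rfl
  let i1 : IrrCharacter K → IrrCharacter K := fun θ => ⟨fun x => θ.1 x⁻¹, θ.2.inv⟩
  let i2 : ConjClasses K → ConjClasses K := Quotient.map' (·⁻¹) fun a b h => by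
    obtain ⟨c, rfl⟩ := isConj_iff.mp h
    exact isConj_iff.mpr ⟨c, by group⟩
  have s3 : ∀ x, i2 (ConjClasses.mk x) = ConjClasses.mk x⁻¹ := fun _ => rfl
  have c1 : ∀ (g : G) x, i1 (g • x) = g • i1 x := fun g θ => Subtype.ext (funext fun x => by
    simp only [i1, s1, map_inv])
  have c2 : ∀ (g : G) x, i2 (g • x) = g • i2 x := fun g C => by
    obtain ⟨x, rfl⟩ := ConjClasses.mk_surjective C
    simp only [s2, s3, map_inv]
  let X : SubMulAction G (IrrCharacter K) :=
    ⟨{θ | i1 θ = θ}, fun g θ h => show i1 _ = _ by rw [c1, h]⟩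
  let Y : SubMulAction G (ConjClasses K) :=
    ⟨{θ | i2 θ = θ}, fun g θ h => show i2 _ = _ by rw [c2, h]⟩
  have key : ∀ g : G, Nat.card (MulAction.fixedBy X g) = Nat.card (MulAction.fixedBy Y g) := by
    intro g
    have hg : ∀ x : K, IsConj x (MulAut.conjNormal (g ^ K.index) x) := fun x =>
      isConj_iff.mpr ⟨⟨_, K.pow_index_mem g⟩, rfl⟩
    have e1 := iter_aux i1 (fun θ => by simp [i1]) c1 hodd (g := g) (fun θ => Subtype.ext
      (funext fun x => by
        rw [s1, θ.2.isClassFunction.apply_eq_of_isConj (hg _)]; simp))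
    have e2 := iter_aux i2 (fun C => by
      obtain ⟨x, rfl⟩ := ConjClasses.mk_surjective C
      simp [s3]) c2 hodd (g := g⁻¹) (fun C => by
      obtain ⟨x, rfl⟩ := ConjClasses.mk_surjective C
      rw [s2, ConjClasses.mk_eq_mk_iff_isConj.mpr (hg _)]; simp)
    have := card_irr_fixed_eq_card_classes (G := K) (fun x => (MulAut.conjNormal g⁻¹ x)⁻¹)
      (fun χ hχ => (isIrr_conjN K hχ.inv g⁻¹))
    refine Eq.trans (Nat.card_congr ?_) (this.trans (Nat.card_congr ?_))
    · refine (Equiv.subtypeSubtypeEquivSubtypeExists _ _).trans (Equiv.subtypeEquivRight fun θ => ?_)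
      refine Iff.trans ?_ ((e1 θ).symm.trans (Subtype.ext_iff.trans funext_iff))
      exact ⟨fun ⟨h, h'⟩ => ⟨h, congrArg Subtype.val h'⟩, fun h => ⟨h.1, Subtype.ext h.2⟩⟩
    · refine (Equiv.subtypeEquivRight fun C => ?_).trans
        (Equiv.subtypeSubtypeEquivSubtypeExists _ _).symm
      obtain ⟨x, rfl⟩ := ConjClasses.mk_surjective C
      have e3 : (∀ y, ConjClasses.mk y = ConjClasses.mk x →
          IsConj y (MulAut.conjNormal g⁻¹ y)⁻¹) ↔ g⁻¹ • i2 (ConjClasses.mk x) = ConjClasses.mk x := by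
        refine ⟨fun h => ?_, fun h y hy => ?_⟩
        · rw [s3, s2, map_inv]; exact ConjClasses.mk_eq_mk_iff_isConj.mpr (h x rfl).symm
        · rw [← hy, s3, s2, map_inv] at h; exact (ConjClasses.mk_eq_mk_iff_isConj.mp h).symm
      rw [e3, e2]
      exact ⟨fun h => ⟨h.1, Subtype.ext (inv_smul_eq_iff.mp h.2).symm⟩,
        fun ⟨h, h'⟩ => ⟨h, inv_smul_eq_iff.mpr (congrArg Subtype.val h').symm⟩⟩
  have k2 : Nat.card (MulAction.orbitRel.Quotient G X) =
      Nat.card (MulAction.orbitRel.Quotient G Y) := by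
    have := classInner_card_fixedBy_one (G := G) X
    simp_rw [key] at this
    exact_mod_cast this.symm.trans (classInner_card_fixedBy_one (G := G) Y)
  refine Eq.trans (Nat.card_congr ?_) (k2.trans (Nat.card_congr (Equiv.symm ?_)))
  · refine Quot.congr (Equiv.subtypeEquivRight fun θ => ?_) fun θ η => ?_
    · change _ ↔ i1 θ = θ
      simp only [i1, Subtype.ext_iff, funext_iff, θ.2.apply_inv, Complex.conj_eq_iff_im]
    · refine Iff.trans ?_ MulAction.orbitRel_apply.symm
      refine ⟨fun ⟨g, h⟩ => ⟨g⁻¹, Subtype.ext (Subtype.ext (funext fun x => ?_))⟩,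
        fun ⟨g, h⟩ => ⟨g⁻¹, fun k k' e => ?_⟩⟩
      · exact h x _ (by simp)
      · have := congrFun (congrArg (fun z : X => z.1.1) h) k
        exact (congrArg η.1.1 (Subtype.ext e)).trans this
  · refine Equiv.ofBijective (Quot.map (fun x => ⟨ConjClasses.mk x.1,
      ConjClasses.mk_eq_mk_iff_isConj.mpr x.2.symm⟩) fun x y ⟨g, h⟩ => ?_) ⟨?_, ?_⟩
    · refine MulAction.orbitRel_apply.mpr ⟨g⁻¹, Subtype.ext ?_⟩
      refine (s2 _ _).trans (congrArg _ (Subtype.ext ?_))
      simp [h, mul_assoc]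
    · rintro ⟨x⟩ ⟨y⟩ h
      obtain ⟨g, h⟩ := MulAction.orbitRel_apply.mp (Quotient.exact h)
      obtain ⟨c, hc⟩ := isConj_iff.mp (ConjClasses.mk_eq_mk_iff_isConj.mp
        ((s2 _ _).symm.trans (congrArg Subtype.val h)))
      refine (Quot.sound ⟨c * g, ?_⟩).symm
      rw [← hc]; simp [mul_assoc]
    · rintro ⟨⟨C, hC⟩⟩
      obtain ⟨x, rfl⟩ := ConjClasses.mk_surjective C
      exact ⟨Quot.mk _ ⟨x, (ConjClasses.mk_eq_mk_iff_isConj.mp hC).symm⟩, rfl⟩

end Cfsg.Agent.S4866
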