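import Cfsg.Statements.S4870
import Cfsg.Agent.Block.Over2

set_option autoImplicit false
open Cfsg

namespace Cfsg.Agent.S4870

open Cfsg.Agent.Block Cfsg.Agent.Char MonoidAlgebra

open Cfsg.Agent.CharDeep

/-- Let G be a finite group with a non-abelian minimal normal subgroup N, and let φ be an irreducible complex character of N with stabilizer I in G (the elements g with φ(g n g⁻¹) = φ(n) for all n ∈ N) such that φ extends to an irreducible character of I. Put d = φ(1)·[G : I]. Then the number of linear characters of G is at most [G : I] times the number of irreducible characters of G of degree d. -/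
theorem result {G : Type*} [Group G] [Finite G] (N : Subgroup G) (hN : N.Normal) (hN1 : N ≠ ⊥) (hmin : ∀ M : Subgroup G, M.Normal → M ≤ N → M = ⊥ ∨ M = N) (hna : ¬ IsMulCommutative ↥N) (φ : Cfsg.IrrCharacter ↥N) (I : Subgroup G) (hI : ∀ g : G, g ∈ I ↔ ∀ n n' : ↥N, (n' : G) = g * (n : G) * g⁻¹ → (φ : ↥N → ℂ) n' = (φ : ↥N → ℂ) n) (hNI : N ≤ I) (hext : ∃ ψ : Cfsg.IrrCharacter ↥I, ∀ n : ↥N, (ψ : ↥I → ℂ) (Subgroup.inclusion hNI n) = (φ : ↥N → ℂ) n) : Nat.card {χ : Cfsg.IrrCharacter G // Cfsg.charDegree (χ : G → ℂ) = 1} ≤ I.index * Nat.card {χ : Cfsg.IrrCharacter G // Cfsg.charDegree (χ : G → ℂ) = Cfsg.charDegree (φ : ↥N → ℂ) * I.index} := by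
  classical
  haveI := Fintype.ofFinite G
  have hT : I = inertia N φ.1 := by
    ext g
    rw [hI, mem_inertia']
    exact ⟨fun h n => h n _ rfl, fun h n n' e => (congrArg φ.1 (Subtype.ext e)).trans (h n)⟩
  obtain ⟨ψ, hψ⟩ := hext
  obtain ⟨h1, h2⟩ := ind_hom_mul N φ.2 hT hNI ψ.2.isCharacter hψ
  have h3 := fun l : G →* ℂˣ => fun n hn => hom_eq_one_of_min N hmin hna l (n := n) hn
  have h4 : Nat.card {χ : IrrCharacter G // charDegree χ.1 = 1} =
      Nat.card (⊤ : Subgroup (G →* ℂˣ)) := by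
    rw [Subgroup.card_top, Nat.card_congr (linearIrrEquiv G)]
    refine Nat.card_congr (Equiv.subtypeEquivRight fun χ => ?_)
    rw [χ.2.apply_one_eq_charDegree, Nat.cast_eq_one]
  rw [h4]
  refine card_le_index_mul I ⊤ (fun l => ⟨⟨_, (h1 l.1 (h3 l.1)).2⟩, charDegree_eq_of_apply_one ?_⟩)
    fun a b h => h2 a.1 b.1 (h3 _) (h3 _) (by simpa using h)
  have := hψ 1
  rw [map_one] at this
  simp [indFun_one, this, φ.2.apply_one_eq_charDegree, mul_comm]

end Cfsg.Agent.S4870
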