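import Cfsg.Statements.S4871
import Cfsg.Agent.Block.Over2
import Cfsg.Agent.CharDeep.Extend
import Cfsg.Agent.Loc.PGrp
import Cfsg.Agent.Solv.Basic

set_option autoImplicit false
open Cfsg

namespace Cfsg.Agent.S4871

open Cfsg.Agent.Char Cfsg.Agent.CharDeep Cfsg.Agent.Block Subgroup in

/-- Let G be a finite group that is the semidirect product of a normal elementary abelian subgroup N of odd order by a non-trivial 2-subgroup P, with N the unique minimal normal subgroup of G. Consider the strongly real irreducible complex characters of G (Frobenius–Schur indicator +1) whose degree is 1 or even. Then their average degree is at least 4/3: four times their number is at most three times the sum of their degrees. -/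
theorem result {G : Type*} [Group G] [Finite G] (N P : Subgroup G) (hN : N.Normal) (q : ℕ) [Fact q.Prime] (hq : q ≠ 2) (hNel : Cfsg.IsElementaryAbelian q N) (hP : IsPGroup 2 ↥P) (hP1 : P ≠ ⊥) (hdisj : N ⊓ P = ⊥) (hprod : N ⊔ P = ⊤) (hmin : N ≠ ⊥ ∧ ∀ M : Subgroup G, M.Normal → M ≠ ⊥ → N ≤ M) : 4 * Nat.card {χ : Cfsg.IrrCharacter G // (Cfsg.charDegree (χ : G → ℂ) = 1 ∨ 2 ∣ Cfsg.charDegree (χ : G → ℂ)) ∧ (Nat.card G : ℂ)⁻¹ * ∑ᶠ g : G, (χ : G → ℂ) (g * g) = 1} ≤ 3 * (∑ᶠ χ : {χ : Cfsg.IrrCharacter G // (Cfsg.charDegree (χ : G → ℂ) = 1 ∨ 2 ∣ Cfsg.charDegree (χ : G → ℂ)) ∧ (Nat.card G : ℂ)⁻¹ * ∑ᶠ g : G, (χ : G → ℂ) (g * g) = 1}, Cfsg.charDegree (χ.1 : G → ℂ)) := by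
  classical
  have hq' : q.Prime := Fact.out
  have := Fintype.ofFinite G
  have := Fintype.ofFinite N
  have := Fintype.ofFinite P
  have hc : ∀ a b : N, a * b = b * a := hNel.1.is_comm.comm
  have hcomp : IsComplement' N P := isComplement'_of_disjoint_and_mul_eq_univ
    (disjoint_iff.2 hdisj) (by rw [← normal_mul, hprod, coe_top])
  obtain ⟨j, hj⟩ := hP.exists_card_eq
  have hq2 : q.Coprime 2 := (Nat.coprime_primes hq' Nat.prime_two).2 hq
  have hNq : IsPGroup q N := fun n => ⟨1, Subtype.ext (by simpa using hNel.2 n n.2)⟩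
  have hcop : N.index.Coprime (Nat.card N) := by
    obtain ⟨i, hi⟩ := hNq.exists_card_eq
    rw [hcomp.symm.index_eq_card, hj, hi]
    exact hq2.symm.pow _ _
  have hodd : ∀ c : ℂˣ, c ^ q = 1 → c ^ 2 = 1 → c = 1 := fun c h1 h2 =>
    orderOf_eq_one_iff.1 (Nat.eq_one_of_dvd_coprimes hq2 (orderOf_dvd_of_pow_eq_one h1)
      (orderOf_dvd_of_pow_eq_one h2))
  obtain ⟨z, hz⟩ := exists_prime_orderOf_dvd_card' (G := ↥(P ⊓ centralizer (P : Set G))) 2
    (Loc.dvd_card_of_isPGroup (hP.to_le inf_le_left) (Loc.center_ne_bot hP hP1))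
  obtain ⟨z, hz'⟩ := z
  rw [Subgroup.orderOf_mk] at hz
  obtain ⟨hzP, hzC⟩ := mem_inf.1 hz'
  have hz2 : z * z = 1 := by rw [← pow_two, ← hz, pow_orderOf_eq_one]
  have hfix : N ⊓ centralizer {z} = ⊥ := by
    by_contra h
    have h1 : P ≤ centralizer {z} := fun y hy => mem_centralizer_singleton_iff.2 (hzC y hy)
    have h2 := hmin.2 _ (Solv.normal_of_le_normalizer_of_sup_eq_top
      ((N.le_centralizer (h := hNel.1)).trans ((centralizer_le inf_le_left).trans
        (centralizer_le_normalizer _)))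
      (Solv.le_normalizer_inf le_normalizer_of_normal (h1.trans le_normalizer)) hprod) h
    have h3 : z ∈ center G := centralizer_eq_top_iff_subset.1
      (eq_top_iff.2 (hprod.ge.trans (sup_le (h2.trans inf_le_right) h1))) rfl
    have h4 := hmin.2 (zpowers z) ⟨fun n hn g => by
      rwa [mem_center_iff.1 (zpowers_le.2 h3 hn) g, mul_inv_cancel_right]⟩ (by
      rw [Ne, zpowers_eq_bot]; rintro rfl; simp at hz)
    exact hmin.1 (eq_bot_iff.2 (hdisj ▸ le_inf le_rfl (h4.trans (zpowers_le.2 hzP))))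
  have hinv : ∀ n : N, n * MulAut.conjNormal z n = 1 := fun n => by
    have h1 : MulAut.conjNormal z (n * MulAut.conjNormal z n) = n * MulAut.conjNormal z n := by
      rw [map_mul, ← MulAut.mul_apply, ← map_mul, hz2, map_one, MulAut.one_apply, hc]
    exact Subtype.ext (mem_bot.1 (hfix.le ⟨(n * MulAut.conjNormal z n).2,
      mem_centralizer_singleton_iff.2 (mul_inv_eq_iff_eq_mul.1 (congrArg Subtype.val h1)).symm⟩))
  have := (N.nontrivial_iff_ne_bot).2 hmin.1
  obtain ⟨n₀, hn₀⟩ := exists_ne (1 : N)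
  obtain ⟨φ, hφ, hφ0⟩ := exists_irr_apply_ne hn₀
  obtain ⟨lam, rfl⟩ := hφ.exists_hom_of_comm hc
  set T := inertia N fun n => (lam n : ℂ) with hT
  have hNT : N ≤ T := le_inertia N hφ.isClassFunction
  have hlq : ∀ n, lam n ^ q = 1 := fun n => by
    rw [← map_pow, show n ^ q = 1 from Subtype.ext (hNel.2 n n.2), map_one]
  have hd : 2 ∣ T.index := by
    obtain ⟨i, -, hi⟩ := (Nat.dvd_prime_pow Nat.prime_two).1
      (hj ▸ hcomp.symm.index_eq_card ▸ index_dvd_of_le hNT)
    refine hi ▸ dvd_pow_self 2 ?_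
    rintro rfl
    have h1 : lam (MulAut.conjNormal z n₀) = lam n₀ :=
      Units.ext (congrFun ((index_eq_one.1 hi).ge (mem_top z)) n₀)
    exact hφ0 (congrArg Units.val ((hodd _ (hlq n₀) (by
      rw [pow_two]; nth_rw 2 [← h1]; rw [← map_mul, hinv, map_one])).trans (map_one _).symm))
  obtain ⟨ψ, hψ, e, -⟩ := exists_extension_of_coprime_card (N.subgroupOf T) (isIrr_subOf hNT hφ)
    (fun g => funext fun n => congrFun g.2 ⟨(n : T), n.2⟩) (by
      rw [Solv.card_subgroupOf hNT]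
      exact hcop.coprime_dvd_left (relIndex_dvd_index_of_le hNT))
  obtain ⟨μ₀, rfl⟩ := hψ.isCharacter.exists_hom_of_apply_one ((e 1).trans (congrArg Units.val (map_one lam)))
  obtain ⟨k, hk1, hk2⟩ := Nat.chineseRemainder (hq2.pow_right j) 1 0
  let μ := μ₀ ^ k
  have hμ1 : ∀ n : N, μ ⟨n, hNT n.2⟩ = lam n := fun n => by
    rw [MonoidHom.pow_apply, show μ₀ ⟨n, hNT n.2⟩ = lam n from Units.ext (e ⟨⟨n, hNT n.2⟩, n.2⟩),
      pow_eq_pow_of_modEq hk1 (hlq n), pow_one]
  have hμ2 : ∀ y : T, (y : G) ∈ P → μ y = 1 := fun y hy => by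
    have h : (y : G) ^ Nat.card P = 1 :=
      congrArg Subtype.val (pow_card_eq_one' (x := (⟨y, hy⟩ : P)))
    rw [MonoidHom.pow_apply, ← map_pow, pow_eq_pow_of_modEq hk2 (Subtype.ext (hj ▸ h)), pow_zero,
      map_one]
  obtain ⟨h1, h2⟩ := ind_hom_mul N hφ hT hNT (isCharacter_hom μ) fun n => congrArg _ (hμ1 n)
  let S : Subgroup (G →* ℂˣ) := (powMonoidHom 2).ker
  have hS : ∀ l ∈ S, ∀ g, l g ^ 2 = 1 := fun l hl g => DFunLike.congr_fun (MonoidHom.mem_ker.1 hl) g
  have h3 : ∀ l ∈ S, ∀ n ∈ N, l n = 1 := fun l hl n hn =>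
    hodd _ (by rw [← map_pow, hNel.2 n hn, map_one]) (hS l hl n)
  have hfs : ∀ l ∈ S, fsInd (indFun T fun x => (l x : ℂ) * μ x) = 1 := fun l hl => by
    have h4 : ∀ y : P, ∃ m : ℕ, ∑ n : N, extendByZero T (fun x => (l x : ℂ) * μ x)
        (n * y * (n * y)) = m ∧ (y = z → 0 < m) := fun y => by
      have h4 : ∀ n : N, (n : G) * y * (n * y) = (n * MulAut.conjNormal (y : G) n : N) * (y * y) :=
        fun n => by simp [mul_assoc]
      by_cases h : (y : G) * y ∈ T
      · let ν : N →* ℂˣ := lam * lam.comp (MulAut.conjNormal (y : G)).toMonoidHom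
        have h5 : ∀ n : N, extendByZero T (fun x => (l x : ℂ) * μ x) (n * y * (n * y)) = ν n :=
          fun n => by
          have h5 : (n : G) * y * (n * y) ∈ T := h4 n ▸ mul_mem (hNT (Subtype.prop _)) h
          rw [extendByZero_of_mem _ _ h5, show (⟨_, h5⟩ : T) =
            ⟨_, hNT (n * MulAut.conjNormal (y : G) n).2⟩ * ⟨_, h⟩ from Subtype.ext (h4 n), map_mul μ, hμ1, hμ2 _ (mul_mem y.2 y.2), coe_mul, ← h4,
            map_mul l, ← pow_two, hS l hl]
          simp [ν]
        simp only [h5]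
        by_cases h6 : ν = 1
        · exact ⟨Fintype.card N, by simp [h6], fun _ => Fintype.card_pos⟩
        · refine ⟨0, ((isIrrCharacter_hom ν).sum_eq_zero fun e =>
            h6 (by ext n; exact congrFun e n)).trans Nat.cast_zero.symm, fun e => absurd ?_ h6⟩
          ext1 n
          exact (map_mul lam _ _).symm.trans (by rw [e]; exact (congrArg lam (hinv n)).trans (map_one _))
      · refine ⟨0, by
          rw [Nat.cast_zero]
          exact Finset.sum_eq_zero fun n _ => extendByZero_of_not_mem _ _ (by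
            rwa [h4, mul_mem_cancel_left (hNT (Subtype.prop _))]), fun e => ?_⟩
        exact absurd (by rw [e, hz2]; exact one_mem _) h
    choose m hm hm' using h4
    have h5 := fsInd_indFun_eq T fun x => (l x : ℂ) * μ x
    rw [← (Equiv.ofBijective _ hcomp).sum_comp, Fintype.sum_prod_type_right] at h5
    replace h5 := h5.trans (congrArg _ (Finset.sum_congr rfl fun y _ => hm y))
    have h6 : 0 < ∑ y, m y :=
      Finset.sum_pos' (fun _ _ => Nat.zero_le _) ⟨⟨z, hzP⟩, Finset.mem_univ _, hm' _ rfl⟩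
    rw [← Nat.cast_sum, eq_inv_mul_iff_mul_eq₀ (card_ne_zero' T)] at h5
    rcases (h1 l (h3 l hl)).2.fsInd_eq with h | h | h
    · rw [h, mul_zero] at h5
      exact absurd (by exact_mod_cast h5.symm) h6.ne'
    · exact h
    · rw [h, mul_neg_one, neg_eq_iff_add_eq_zero] at h5
      exact absurd (by exact_mod_cast h5) (by omega : Nat.card T + ∑ y, m y ≠ 0)
  set X := {χ : IrrCharacter G // (charDegree χ.1 = 1 ∨ 2 ∣ charDegree χ.1) ∧
    (Nat.card G : ℂ)⁻¹ * ∑ᶠ g, χ.1 (g * g) = 1}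
  rw [finsum_eq_sum_of_fintype]
  have h4 : Nat.card {χ : X // charDegree χ.1.1 = 1} ≤ Nat.card S := by
    have : ∀ χ : {χ : X // charDegree χ.1.1 = 1}, ∃ l : S, χ.1.1.1 = fun g => (l.1 g : ℂ) :=
      fun χ => by
      obtain ⟨l, hl⟩ := χ.1.1.2.isCharacter.exists_hom_of_apply_one
        (by rw [χ.1.1.2.apply_one_eq_charDegree, χ.2, Nat.cast_one])
      refine ⟨⟨l, MonoidHom.mem_ker.mpr (MonoidHom.ext fun g => ?_)⟩, hl⟩
      have h5 := ((fsInd_eq_one_iff χ.1.1.2).1
        ((congrArg _ (finsum_eq_sum_of_fintype _).symm).trans χ.1.2.2)).1 g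
      have h6 := χ.1.1.2.apply_inv g
      rw [Complex.conj_eq_iff_im.mpr h5, hl] at h6
      change l g ^ 2 = 1
      rw [sq]
      nth_rw 1 [← Units.ext h6]
      simp
    choose f hf using this
    exact Nat.card_le_card_of_injective f fun a b h =>
      Subtype.ext (Subtype.ext (Subtype.ext (by rw [hf, hf, h])))
  have h5 : ∀ l : G →* ℂˣ, charDegree (indFun T fun x => (l x : ℂ) * μ x) = T.index := fun l =>
    charDegree_eq_of_apply_one (by simp [indFun_one])
  have h6 := h4.trans (card_le_index_mul T S (X := {χ : X // charDegree χ.1.1 = T.index})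
    (fun l => ⟨⟨⟨_, (h1 l.1 (h3 _ l.2)).2⟩, Or.inr (h5 l.1 ▸ hd), by
      rw [finsum_eq_sum_of_fintype]; exact hfs _ l.2⟩, h5 l.1⟩)
    fun a b h => h2 a.1 b.1 (h3 _ a.2) (h3 _ b.2) (congrArg (·.1.1.1) h))
  have h7 : ∀ χ : X, 4 + T.index * (if charDegree χ.1.1 = T.index then 1 else 0) ≤
      3 * charDegree χ.1.1 + if charDegree χ.1.1 = 1 then 1 else 0 := fun χ => by
    have := χ.1.2.charDegree_pos
    have := χ.2.1
    split_ifs <;> omega
  have h8 := Finset.sum_le_sum fun χ (_ : χ ∈ Finset.univ) => h7 χ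
  simp only [Finset.sum_add_distrib, ← Finset.mul_sum, Finset.sum_boole, Finset.sum_const,
    ← Fintype.card_subtype, Finset.card_univ, ← Nat.card_eq_fintype_card, Nat.cast_id,
    smul_eq_mul] at h8
  change 4 * Nat.card X ≤ 3 * ∑ χ : X, charDegree χ.1.1
  omega

end Cfsg.Agent.S4871
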