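import Cfsg.Statements.S4873
import Cfsg.Agent.Block.Over
import Cfsg.Agent.S0205

set_option autoImplicit false
open Cfsg

namespace Cfsg.Agent.S4873

open Cfsg.Agent.Block Cfsg.Agent.Char MonoidAlgebra

open Cfsg.Agent.CharDeep

/-- Let N be a normal subgroup of odd index in the finite group G. Then every irreducible complex character of N with Frobenius–Schur indicator +1 lies under exactly one irreducible character of G with Frobenius–Schur indicator +1. -/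
theorem result {G : Type*} [Group G] [Finite G] (N : Subgroup G) [N.Normal] (hodd : Odd N.index) (φ : Cfsg.IrrCharacter ↥N) (hφ : (Nat.card ↥N : ℂ)⁻¹ * ∑ᶠ g : ↥N, (φ : ↥N → ℂ) (g * g) = 1) : ∃! χ : Cfsg.IrrCharacter G, (Nat.card G : ℂ)⁻¹ * ∑ᶠ g : G, (χ : G → ℂ) (g * g) = 1 ∧ (∑ᶠ n : ↥N, (χ : G → ℂ) n * (starRingEnd ℂ) ((φ : ↥N → ℂ) n)) ≠ 0 := by
  classical
  haveI := Fintype.ofFinite G
  haveI := Fintype.ofFinite N
  simp only [finsum_eq_sum_of_fintype] at hφ ⊢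
  change fsInd φ.1 = 1 at hφ
  have e : ∀ χ : IrrCharacter G, ∑ n : N, χ.1 n * (starRingEnd ℂ) (φ.1 n) ≠ 0 ↔
      classInner (fun n : N => χ.1 n) φ.1 ≠ 0 := fun χ => by
    rw [← card_mul_classInner (fun n : N => χ.1 n), mul_ne_zero_iff_left (card_ne_zero' N)]
  simp only [e]
  change ∃! χ : IrrCharacter G, fsInd χ.1 = 1 ∧ _
  have hr := ((fsInd_eq_one_iff φ.2).1 hφ).1
  obtain ⟨m, hm⟩ : ∃ m, Nat.card G = m + 1 := Nat.exists_eq_succ_of_ne_zero Nat.card_pos.ne'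
  have hk : ∀ g : G, g ^ m = g⁻¹ := fun g => by
    rw [eq_inv_iff_mul_eq_one, ← pow_succ, ← hm, pow_card_eq_one']
  have hc : Nat.Coprime m (Nat.card G) := by rw [hm]; simp
  have hre : ∀ {K : Type _} [Group K] [Finite K] {χ : K → ℂ}, IsIrrCharacter K χ → ∀ x y : K,
      y = x⁻¹ → (χ y = χ x ↔ (χ x).im = 0) := fun h x y hy => by
    rw [hy, h.apply_inv, Complex.conj_eq_iff_im]
  have hf : ∀ n : N, φ.1 (n ^ m) = φ.1 n := fun n =>
    (hre φ.2 n _ (Subtype.ext (hk n))).2 (hr n)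
  obtain ⟨χ, ⟨h1, h2⟩, h3⟩ := existsUnique_over_pow N hodd hc (fun g _ => hk g) φ.2 hf
  refine ⟨χ, ⟨?_, h1⟩, fun χ' h => h3 χ' ⟨h.2, fun g =>
    (hre χ'.2 g _ (hk g)).2 (((fsInd_eq_one_iff χ'.2).1 h.1).1 g)⟩⟩
  have hNT : N ≤ inertia N φ.1 := le_inertia N φ.2.isClassFunction
  set T := inertia N φ.1 with hT
  haveI := Fintype.ofFinite T
  have hi : Odd (N.subgroupOf T).index :=
    Odd.of_dvd_nat hodd (Dvd.intro _ (Subgroup.relIndex_mul_index hNT))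
  have hc' := hc.coprime_dvd_right (Subgroup.card_subgroup_dvd_card T)
  have hk' : ∀ g : T, g ^ m = g⁻¹ := fun g => Subtype.ext (hk g)
  have hf' : ∀ n : N.subgroupOf T, subOf N T φ.1 (n ^ m) = subOf N T φ.1 n := fun n =>
    hf ⟨(n : T), Subgroup.mem_subgroupOf.mp n.2⟩
  obtain ⟨ψ, ⟨h4, h5⟩, -⟩ := existsUnique_over_pow (N.subgroupOf T) hi hc' (fun g _ => hk' g)
    (isIrr_subOf hNT φ.2) hf'
  have h6 := res_eq_of_over_pow _ T _ rfl (S0205.result hi) hi hc' (fun g _ => hk' g)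
    (isIrr_subOf hNT φ.2) hf'
    (fun g => funext fun n => congrFun g.2 ⟨(n : T), Subgroup.mem_subgroupOf.mp n.2⟩) ψ.1 ψ.2 h4 h5
  have h7 : ∀ n : N, ψ.1 ⟨n, hNT n.2⟩ = φ.1 n := fun n => h6 ⟨⟨n, hNT n.2⟩, n.2⟩
  have hψr : ∀ g, (ψ.1 g).im = 0 := fun g => (hre ψ.2 g _ (hk' g)).1 (h5 g)
  rw [classInner_res_subOf hNT] at h4
  obtain ⟨h8, h9⟩ := isIrr_indFun_of_inertia N φ.2 hT hNT ψ.2 h4
  have h10 : fsInd (indFun T ψ.1) = 1 := by
    rw [fsInd_indFun_inertia N φ.2 hr hT hNT ψ.2.isCharacter (e := 1) (by simpa using h7)]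
    have : (fun n : N => ψ.1 (Subgroup.inclusion hNT n)) = φ.1 := funext h7
    exact fsInd_eq_one_of_comp (Subgroup.inclusion hNT) ψ.2 hψr (this ▸ φ.2) (this ▸ hφ)
  have := h3 ⟨_, h8⟩ ⟨h9 ▸ h4, fun g =>
    (hre h8 g _ (hk g)).2 (((fsInd_eq_one_iff h8).1 h10).1 g)⟩
  rw [← this]; exact h10

end Cfsg.Agent.S4873
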