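import Cfsg.Statements.S4885
import Cfsg.Agent.Isa.J2

set_option autoImplicit false
open Cfsg

namespace Cfsg.Agent.S4885

open Cfsg.Agent.PF Cfsg.Agent.PF.CH Cfsg.Agent.BG


/-- Let p and q be primes dividing the order of the finite group G, and suppose G is p-solvable and q-solvable. Fix maximal ideals of the algebraic integers containing p and q, defining the principal p-block and the principal q-block. If the irreducible characters of degree prime to p in the principal p-block are exactly the irreducible characters of degree prime to q in the principal q-block, then p = q. -/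
theorem result {G : Type*} [Group G] [Finite G] (p q : ℕ) [Fact p.Prime] [Fact q.Prime] (hp : p ∣ Nat.card G) (hq : q ∣ Nat.card G) (hps : Cfsg.IsPSolvable p G) (hqs : Cfsg.IsPSolvable q G) (Mp Mq : Ideal Cfsg.AlgInt) (hMp : Cfsg.IsPModular p Mp) (hMq : Cfsg.IsPModular q Mq) (h : ∀ χ : Cfsg.IrrCharacter G, (χ ∈ Cfsg.principalBlock Mp G ∧ ¬ p ∣ Cfsg.charDegree (χ : G → ℂ)) ↔ (χ ∈ Cfsg.principalBlock Mq G ∧ ¬ q ∣ Cfsg.charDegree (χ : G → ℂ))) : p = q := by
  by_contra hpq
  simp only [mem_principal_iff hps hMp, mem_principal_iff hqs hMq] at h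
  obtain ⟨P, hP⟩ := Sylow_exists p (⊤ : Subgroup G)
  have h5 := sylow_le_of_block hpq (psolv_top hqs) (psolv_top hps)
    (fun χ h1 h2 h3 => ((h ⟨χ, mem_Irr_top.1 h1⟩).2 ⟨h2, h3⟩).2) hP
  have n := pcore_normal {p}ᶜ (⊤ : Subgroup G)
  have n0 := hP.le.trans n.norm
  have n1 := normalYl n0
  have n2 : ⁅Op' p ⊤ ⊔ P, Op' p ⊤ ⊔ P⁆ ≤ Op' p ⊤ ⊔ ⁅P, P⁆ := by
    rw [← quotientSK ((der_sub _).trans n1.norm) ((der_sub _).trans n0), quotient_der n1.norm,
      quotientYidl n0, quotient_der n0]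
  obtain ⟨μ, h1, h2, h3⟩ : ∃ μ ∈ Irr (Op' p ⊤ ⊔ P), Op' p ⊤ ⊔ ⁅P, P⁆ ≤ cfker μ ∧ ¬ P ≤ cfker μ := by
    by_contra! h1
    have h2 := le_of_cfker (sub_der1_normal n2 (sup_le_sup_left (der_sub P) _)) le_sup_right h1
    rw [← inf_eq_left, group_modr (.inr ((der_sub P).trans (hP.le.trans n.norm))) (der_sub P),
      pgroup_TI hP.pi (pcore_pgroup _ _), bot_sup_eq] at h2
    exact (sol_der1_proper (pgroup_sol hP.pg) (Sylow_ne_bot hP (by simpa using hp))).ne h2
  have h4 := (Irr_apply_one_iff h1).2 (n2.trans h2)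
  obtain ⟨χ, h6, h7, h8⟩ := exists_p'_above Fact.out le_top (fun h => hP.not_dvd
    (h.trans (Subgroup.relIndex_dvd_of_le_left _ le_sup_right))) h1 (by
      rw [deg_eq_of (χ := μ) (n := 1) (by simpa using h4)]
      exact (Fact.out : p.Prime).one_lt.ne' ∘ Nat.dvd_one.1)
  have h9 := Res_irr_of_one le_sup_left h1 h4
  have h10 := (cfker_Res_constt_iff n le_rfl n.norm h6 h9 (dot_ne_zero_trans le_sup_left le_top
    (Irr_isChar h6) h1 (Irr_isChar h9) h7 (dot_ne_of_Res h9 rfl))).2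
    (le_cfker_Res le_rfl (le_sup_left.trans h2))
  refine h3 (le_trans (le_cfker_Res le_sup_right (h5.trans ((h ⟨χ, mem_Irr_top.1 h6⟩).1 ⟨h10, h8⟩).1))
    (cfker_le_of_dot_ne_zero ((Irr_isChar h6).res le_top).mem_CF h1 (by rwa [dot_Res_self_left])))

end Cfsg.Agent.S4885
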