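import Cfsg.Statements.S4886
import Cfsg.Agent.Isa.J2

set_option autoImplicit false
open Cfsg

namespace Cfsg.Agent.S4886

open Cfsg.Agent.PF Cfsg.Agent.PF.CH Cfsg.Agent.BG

theorem half {G : Type*} [Group G] [Finite G] {p q : ℕ} [hp : Fact p.Prime] [hq : Fact q.Prime]
    (hpq : q ≠ p) (hps : IsPSolvable p G) {P Q : Subgroup G} (hP : SylowIn p P ⊤) (hQ : SylowIn q Q ⊤)
    (h : Q ≤ C[P]) {χ : G → ℂ} (h1 : χ ∈ Irr (⊤ : Subgroup G)) (h2 : Op' p ⊤ ≤ cfker χ) :
    ¬ q ∣ deg χ := by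
  have n := (pcore_normal {p}ᶜ (⊤ : Subgroup G)).norm
  obtain ⟨α, h3, rfl⟩ := exists_ifl n h1 (inf_le_right.trans h2)
  have hQ' := quotient_pHall n hQ
  have h4 : Q /ᵍ Op' p ⊤ = ⊥ := by
    have h6 : Q /ᵍ Op' p ⊤ ≤ C[Op p (⊤ /ᵍ Op' p ⊤)] :=
      centsS (pcore_sub_Hall (quotient_pHall n hP)) (quotient_cents _ h)
    rw [eq_bot_iff, ← pgroup_TI' (p'group_of_ne hQ'.pg hpq) (pcore_pgroup {p} (⊤ /ᵍ Op' p ⊤))]
    exact le_inf le_rfl ((le_inf hQ'.le h6).trans (cent_Op_le (psolv_quo hps n) (trivg_pcore_quotient _ _)))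
  rw [deg_ifl]
  exact fun h => (p'natE hq.out).1 (p'group_of_Hall_bot (h4 ▸ hQ')) (h.trans (dvd_irr1_cardG h3))

/-- Let p ≠ q be primes and G a finite group that is p-solvable and q-solvable. Fix maximal ideals of the algebraic integers containing p and q, defining the principal p-block and the principal q-block. Then every irreducible character of degree prime to p in the principal p-block has degree prime to q and every irreducible character of degree prime to q in the principal q-block has degree prime to p, if and only if some Sylow p-subgroup of G commutes elementwise with some Sylow q-subgroup. -/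
theorem result {G : Type*} [Group G] [Finite G] (p q : ℕ) [Fact p.Prime] [Fact q.Prime] (hpq : p ≠ q) (Mp Mq : Ideal Cfsg.AlgInt) (hMp : Cfsg.IsPModular p Mp) (hMq : Cfsg.IsPModular q Mq) (hps : Cfsg.IsPSolvable p G) (hqs : Cfsg.IsPSolvable q G) : ((∀ χ : Cfsg.IrrCharacter G, χ ∈ Cfsg.principalBlock Mp G → ¬ p ∣ Cfsg.charDegree (χ : G → ℂ) → ¬ q ∣ Cfsg.charDegree (χ : G → ℂ)) ∧ (∀ χ : Cfsg.IrrCharacter G, χ ∈ Cfsg.principalBlock Mq G → ¬ q ∣ Cfsg.charDegree (χ : G → ℂ) → ¬ p ∣ Cfsg.charDegree (χ : G → ℂ))) ↔ ∃ (P : Sylow p G) (Q : Sylow q G), ∀ x ∈ (P : Subgroup G), ∀ y ∈ (Q : Subgroup G), x * y = y * x := by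
  simp only [mem_principal_iff hps hMp, mem_principal_iff hqs hMq]
  refine ⟨fun ⟨h1, h2⟩ => ?_, fun ⟨P, Q, h⟩ => ?_⟩
  · obtain ⟨P⟩ : Nonempty (Sylow p G) := inferInstance
    have hP := sylowIn_top P
    obtain ⟨Q, hQ, h3⟩ := coprime_Sylow_exists q (hP.le.trans (pcore_normal {p}ᶜ ⊤).norm)
      (pnat_coprime' (pcore_pgroup _ _) hP.pi) (.inl (pgroup_sol hP.pg))
    obtain ⟨R, hR⟩ := Sylow_exists q (⊤ : Subgroup G)
    have h4 := sylow_le_of_block hpq.symm (psolv_top hps) (psolv_top hqs)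
      (fun χ h => h1 ⟨χ, mem_Irr_top.1 h⟩) hR
    have h5 := sylow_le_of_block hpq (psolv_top hqs) (psolv_top hps)
      (fun χ h => h2 ⟨χ, mem_Irr_top.1 h⟩) hP
    have h6 : SylowIn q Q ⊤ := pHall_trans_idx hQ le_top ((p'natE Fact.out).2 fun h => hR.not_dvd
      (h.trans (Subgroup.relIndex_dvd_of_le_left _ h4)))
    obtain ⟨Q, rfl⟩ := sylow_of_sylowIn_top h6
    have h7 : (P : Subgroup G) ≤ C[(Q : Subgroup G)] := by
      rw [← commG1, eq_bot_iff, ← pgroup_TI hQ.pi (pcore_pgroup {q}ᶜ ⊤)]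
      exact le_inf (commg_subr h3) ((commSg _ h5).trans (commg_subl (le_top.trans (pcore_normal _ _).norm)))
    exact ⟨P, Q, fun x hx y hy => (h7 hx y hy).symm⟩
  · have h1 : (Q : Subgroup G) ≤ C[(P : Subgroup G)] := fun y hy x hx => h x hx y hy
    exact ⟨fun χ h2 _ => half hpq.symm hps (sylowIn_top P) (sylowIn_top Q) h1 (mem_Irr_top.2 χ.2) h2,
      fun χ h2 _ => half hpq hqs (sylowIn_top Q) (sylowIn_top P) (centsC.1 h1) (mem_Irr_top.2 χ.2) h2⟩

end Cfsg.Agent.S4886
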