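import Cfsg.Statements.S4888
import Cfsg.Agent.BMod.Abel
import Cfsg.Agent.Block.Quot
import Cfsg.Agent.FTC.Tate
import Cfsg.Agent.Transfer.Hall
import Mathlib.GroupTheory.FiniteAbelian.Duality
-- import your own Cfsg.Agent.* helpers here

set_option autoImplicit false
open Cfsg

namespace Cfsg.Agent.S4888

open Cfsg.Agent.BMod Cfsg.Agent.Block Cfsg.Agent.Transfer Cfsg.Agent.Char Cfsg.Agent.CharDeep

theorem exists_over {G : Type*} [Group G] [Fintype G] {p : ℕ} [hp : Fact p.Prime] {M : Ideal AlgInt}
    [PMod p M] {B : Set (IrrCharacter G)} (hB : IsPBlock M B) (P : Sylow p G) [Fintype P]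
    (hd : blockDefect p B = (Nat.card G).factorization p) (lam : P →* ℂˣ) :
    ∃ χ ∈ B, ¬ p ∣ charDegree (χ : G → ℂ) ∧
      classInner (fun u : P => (χ : G → ℂ) u) (fun u => (lam u : ℂ)) ≠ 0 := by
  classical
  by_contra! h
  choose n hn using fun χ : IrrCharacter G =>
    IsCharacter.exists_nat_classInner (χ.2.isCharacter.restrict P) (isCharacter_hom lam)
  have h1 : classInner (fun u : P => col B 1 u) (fun u => (lam u : ℂ)) =
      (∑ χ : IrrCharacter G, if χ ∈ B then charDegree (χ : G → ℂ) * n χ else 0 : ℕ) := by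
    have : (fun u : P => col B 1 u) = ∑ χ : IrrCharacter G,
        (if χ ∈ B then (χ : G → ℂ) 1 else 0) • fun u : P => (χ : G → ℂ) u := by
      ext u; simp [col, ite_apply]
    rw [this, classInner_sum_left, Nat.cast_sum]
    refine Finset.sum_congr rfl fun χ _ => ?_
    erw [classInner_smul_left, hn]
    split_ifs <;> simp [deg_cast_irr]
  rw [classInner, Finset.sum_eq_single 1 (fun u _ hu => by
    rw [col_eq_zero (IsPBlock.isBlockUnion hB) (isPPart_self ⟨0, by simp⟩)
      (isPPart_self (orderOf_eq_pow_of_mem P.isPGroup' u.2)) (by simpa [eq_comm] using hu),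
      zero_mul]) (by simp)] at h1
  simp only [OneMemClass.coe_one, map_one, Units.val_one, mul_one, col_one_one] at h1
  rw [inv_mul_eq_iff_eq_mul₀ (by simp), ← Nat.cast_mul, Nat.cast_inj] at h1
  have h2 := factorization_sum_deg_sq (p := p) hB
  have h3 : p ^ ((Nat.card G).factorization p + 1) ∣ ∑ᶠ χ ∈ B, charDegree (χ : G → ℂ) ^ 2 := by
    rw [h1, pow_succ, ← P.card_eq_multiplicity]
    refine mul_dvd_mul_left _ (Finset.dvd_sum fun χ _ => ?_)
    split_ifs with hχ
    · by_cases h3 : p ∣ charDegree (χ : G → ℂ)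
      · exact h3.mul_right _
      · have := (hn χ).symm.trans (h χ hχ h3)
        simp [Nat.cast_eq_zero.1 this]
    · exact dvd_zero _
  have := (hp.out.pow_dvd_iff_le_factorization
    (finsum_deg_sq_ne_zero (IsPBlock.nonempty hB))).1 h3
  omega


/-- Let G be a finite group, p a prime and M a maximal ideal of the algebraic integers containing p. Then all height-zero irreducible characters of the principal p-block of G (equivalently, all its characters of degree prime to p) have the same degree if and only if G has a normal p-complement. -/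
theorem result {G : Type*} [Group G] [Finite G] (p : ℕ) [Fact p.Prime] (M : Ideal Cfsg.AlgInt) (hM : Cfsg.IsPModular p M) : (∃ d : ℕ, ∀ χ : Cfsg.IrrCharacter G, χ ∈ (Cfsg.principalBlock M G) → Cfsg.blockHeight p (Cfsg.principalBlock M G) (χ : G → ℂ) = 0 → Cfsg.charDegree (χ : G → ℂ) = d) ↔ Cfsg.HasNormalPComplement p G := by
  haveI : PMod p M := ⟨hM⟩
  have := Fintype.ofFinite G
  have hp : p.Prime := Fact.out
  have h1 : charDegree (irrOne G : G → ℂ) = 1 := deg_eq_of_eq (n := 1) (by simp)
  have hd : blockDefect p (principalBlock M G) = _ :=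
    blockDefect_eq_of_not_dvd irrOne_mem_principalBlock (h1 ▸ hp.not_dvd_one)
  constructor
  · rintro ⟨d, h⟩
    obtain rfl : 1 = d := h1.symm.trans (h _ irrOne_mem_principalBlock (height_one _))
    obtain ⟨P⟩ : Nonempty (Sylow p G) := inferInstance
    have := Fintype.ofFinite P
    refine FTC.hasNormalPComplement_of_fusion_frattini P fun x hx g hg =>
      ⟨(⟨x, hx⟩ : P)⁻¹ * ⟨_, hg⟩, commutator_le_frattini P.isPGroup' ?_, rfl⟩
    rw [← Abelianization.ker_of, MonoidHom.mem_ker]
    by_contra h2
    have : Finite (Abelianization (P : Subgroup G)) := Quotient.finite _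
    have : NeZero (Monoid.exponent (Abelianization (P : Subgroup G)) : ℂ) :=
      ⟨by exact_mod_cast Monoid.exponent_ne_zero_of_finite⟩
    obtain ⟨φ, hφ⟩ := CommGroup.exists_apply_ne_one_of_hasEnoughRootsOfUnity _ ℂ h2
    obtain ⟨χ, hχ, h3, h4⟩ := exists_over isPBlock_principalBlock P hd (φ.comp Abelianization.of)
    have h5 := deg_cast_irr χ
    rw [h χ hχ (height_eq_zero_of_not_dvd _ h3), Nat.cast_one] at h5
    obtain ⟨μ, hμ⟩ := IsCharacter.exists_hom_of_apply_one χ.2.isCharacter h5.symm
    have h6 : (fun u : P => (χ : G → ℂ) u) = fun u => (φ.comp Abelianization.of u : ℂ) := by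
      by_contra h6
      refine h4 (IsIrrCharacter.classInner_eq_zero_of_ne ?_ (isIrrCharacter_hom _) h6)
      rw [hμ]
      exact isIrrCharacter_hom (μ.comp (P : Subgroup G).subtype)
    refine hφ ?_
    rw [map_mul, map_mul, map_inv, map_inv, inv_mul_eq_one]
    exact Units.ext ((congrFun h6 ⟨x, hx⟩).symm.trans ((χ.2.isClassFunction x g).symm.trans
      (congrFun h6 ⟨_, hg⟩)))
  · rintro ⟨P, N, hN, hc⟩
    refine ⟨1, fun χ hχ h0 => ?_⟩
    have h2 := deg_add_defect p hχ
    rw [principalBlock_eq_of_complement N (by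
      rw [← hc.index_eq_card]; exact P.not_dvd_index) (IsPGroup.of_card (by
        rw [← Subgroup.index_eq_card, hc.symm.index_eq_card, P.card_eq_multiplicity]))] at hχ
    have h3 := IsIrrCharacter.charDegree_dvd_index_of_le_charCenter χ.2 N fun n hn =>
      charKer_le_charCenter _ ((IsCharacter.mem_charKer χ.2.isCharacter).2 (hχ n hn))
    rw [hc.symm.index_eq_card, P.card_eq_multiplicity, Nat.dvd_prime_pow hp] at h3
    obtain ⟨k, -, hk⟩ := h3
    rw [hk, hp.factorization_pow, Finsupp.single_eq_same] at h2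
    rw [hk, show k = 0 by omega, pow_zero]

end Cfsg.Agent.S4888
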