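import Cfsg.Statements.S4889
import Cfsg.Agent.BMod.Frob
-- import your own Cfsg.Agent.* helpers here

set_option autoImplicit false
open Cfsg

namespace Cfsg.Agent.S4889

open Cfsg.Agent.BMod Cfsg.Agent.Block Cfsg.Agent.Transfer Cfsg.Agent.Char Cfsg.Agent.CharDeep

/-- Let G be a finite group, p a prime, M a maximal ideal of the algebraic integers containing p, and B a p-block of G that has an abelian defect group and in which every irreducible character has height zero. Then all irreducible characters of B have the same degree if and only if B is a nilpotent block. -/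
theorem result {G : Type*} [Group G] [Finite G] (p : ℕ) [Fact p.Prime] (M : Ideal Cfsg.AlgInt) (hM : Cfsg.IsPModular p M) (B : Set (Cfsg.IrrCharacter G)) (hB : Cfsg.IsPBlock M B) (D : Subgroup G) (hD : Cfsg.IsDefectGroup p M B D) (hDab : IsMulCommutative ↥D) (h0 : ∀ χ : Cfsg.IrrCharacter G, χ ∈ B → Cfsg.blockHeight p B (χ : G → ℂ) = 0) : (∃ d : ℕ, ∀ χ : Cfsg.IrrCharacter G, χ ∈ B → Cfsg.charDegree (χ : G → ℂ) = d) ↔ Cfsg.IsNilpotentBlock p M B := by
  haveI : PMod p M := ⟨hM⟩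
  have := Fintype.ofFinite G
  have hab : D ≤ Subgroup.centralizer (D : Set G) := fun x hx y hy =>
    congrArg Subtype.val (hDab.is_comm.comm ⟨y, hy⟩ ⟨x, hx⟩)
  rw [isNilpotentBlock_iff]
  refine ⟨fun ⟨d, hd⟩ => ?_, fun ⟨_, hn⟩ => ?_⟩
  · have hl := rank_one_of_deg hB hd h0
    exact ⟨hB, nil_of_card_eq hB hD hab hl (card_eq_of_deg hB hd hl)⟩
  · obtain ⟨χ, hχ⟩ := IsPBlock.nonempty hB
    obtain ⟨Φ, hΦ⟩ := hn.exists_equiv' hB hD hχ (h0 χ hχ)
    refine ⟨charDegree (χ : G → ℂ), fun ψ hψ => ?_⟩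
    obtain ⟨ζ, hζ⟩ := Φ.surjective ⟨ψ, hψ⟩
    have := (hΦ ζ).2.1
    rwa [hζ, deg_eq_of_eq (χ := (ζ : D → ℂ)) (n := 1) (by
      simpa using IsIrrCharacter.apply_one_of_comm ζ.2 hDab.is_comm.comm), one_mul] at this

end Cfsg.Agent.S4889
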