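import Cfsg.Statements.S4890
import Cfsg.Agent.BMod.Frob
import Cfsg.Agent.BMod.Cover3
import Cfsg.Agent.PLocal.WS
import Cfsg.Agent.CharDeep.Extend
-- import your own Cfsg.Agent.* helpers here

set_option autoImplicit false
open Cfsg

namespace Cfsg.Agent.S4890

open Cfsg.Agent.BMod Cfsg.Agent.Block Cfsg.Agent.Transfer Cfsg.Agent.Char Cfsg.Agent.CharDeep Module MonoidAlgebra

variable {p : ℕ} [hp : Fact p.Prime] {M : Ideal AlgInt} [PMod p M] {G : Type*} [Group G]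
  [Fintype G] {B : Set (IrrCharacter G)} {D : Subgroup G} {b e : (F M)[G]}

local notation "𝐂" P:max => Subgroup.centralizer (P : Set _)
local notation "𝐍" P:max => Subgroup.normalizer (P : Set _)

theorem nil_of_normal [hD : D.Normal] (hm : IsMax p b D e) (hT : NP D e ≤ D ⊔ 𝐂 D) : Nil p ⊤ b := by
  have key : ∀ {Q R : Subgroup G} {x : G}, R ≤ 𝐍 Q → x ∈ R ⊔ 𝐂 Q → ∃ u ∈ R, u⁻¹ * x ∈ 𝐂 Q := by
    intro Q R x hR hx
    obtain ⟨u, hu, c, hc, rfl⟩ := (Solv.mem_sup_right_of_le_normalizer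
      (hR.trans (normalizer_le_normalizer_centralizer Q))).1 hx
    exact ⟨u, hu, by simpa using hc⟩
  refine hm.nil_of_inner fun Q => ?_
  induction Q using WellFoundedGT.induction with
  | ind Q ih =>
  intro f h x hx
  rcases h.le.eq_or_lt with h1 | h1
  · obtain ⟨rfl, rfl⟩ := Prod.mk.inj (h.eq_of_fst_eq h1)
    exact key Subgroup.le_normalizer (hT hx)
  have hN : ∀ y ∈ 𝐍 Q, sc y (D ⊓ 𝐍 Q) = D ⊓ 𝐍 Q := fun y hy => mem_normalizer_iff_sc.1
    (normalizer_inf_le (by simp [Subgroup.normalizer_eq_top]) (Subgroup.le_normalizer hy))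
  have h2 := lt_inf_normalizer_of_isPGroup hm.pair.1 h1
  obtain ⟨g, hg⟩ := exists_ple hm.pair (inf_le_left : D ⊓ 𝐍 Q ≤ D)
  have h3 := (h.of_le hg hm.pair h2.le).conj x
  rw [(mem_NP'.1 hx).1, hx.2, hN x hx.1] at h3
  have hK : D ⊓ 𝐍 Q ⊔ 𝐂 Q ≤ NP Q f :=
    sup_le (h.inf_normalizer_le hm.pair) (h.left hm.pair).centralizer_le_NP
  obtain ⟨t, ht, h4⟩ := exists_ext hm.pair h (h2.le.trans le_sup_left) le_sup_right hK
    ((hm.isDef_inf_iff h le_sup_right hK).2 fun k _ => by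
      rw [← card_sc k (D ⊓ (_ ⊔ _)), sc_inf, sc_eq_of_normal k D]) h3 le_sup_left
  have h5 := mul_mem (hK ht).1 hx.1
  rw [hN t (hK ht).1, ← cj_mul] at h4
  obtain ⟨u, hu, h6⟩ := ih _ h2 g hg (t * x) (mem_NP'.2 ⟨hN _ h5, h4.unique hg⟩)
  have h7 := centralizer_anti h2.le h6
  have h8 : u ∈ 𝐍 Q := by
    simpa [mul_assoc] using Subgroup.mul_mem _ h5 (Subgroup.inv_mem _ (centralizer_le_normalizer' Q h7))
  obtain ⟨v, hv, h9⟩ := key (x := x) inf_le_right (by
    simpa using Subgroup.mul_mem _ (inv_mem ht) (Subgroup.mul_mem_sup (⟨hu, h8⟩ : u ∈ D ⊓ 𝐍 Q) h7))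
  exact ⟨v, hv.1, h9⟩

theorem isPrim_mapA {H : Type*} [Group H] [Fintype H] (f : G →* H) (hk : IsPGroup p f.ker)
    (hkD : f.ker ≤ D) (he : IsPair p D e) :
    IsPrim (Zc (F M) ((𝐂 D).map f) ((𝐂 D).map f)) (mapA f e) := by
  obtain ⟨c, hc, rfl⟩ := he.exists_eS
  have hf := f.subgroupMap_surjective (𝐂 D)
  have h1 : ∀ x : 𝐂 D, x ∈ (f.subgroupMap (𝐂 D)).ker → (x : G) ∈ f.ker := fun x hx =>
    congrArg Subtype.val hx
  have := isPrim_eS (IsPBlock.preimage_infl_of_central hf (fun x => by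
    obtain ⟨k, hk⟩ := hk ⟨x.1, h1 x.1 x.2⟩
    exact ⟨k, Subtype.ext (Subtype.ext (Subtype.ext_iff.1 hk :))⟩)
    (fun g _ x hx => Subtype.ext (g.2 x (hkD (h1 x hx)))) hc.2)
  rw [eS, ← mapA_eB hf (IsPBlock.isBlockUnion hc.2)] at this
  convert this using 1
  rw [eS]
  induction eB M c using MonoidAlgebra.induction_linear with
  | zero => simp
  | add a b ha hb => simp only [map_add, ha, hb]
  | single g a => simp [inc_single]

theorem le_centralizer_quot [hD : D.Normal] (hB : IsPBlock M B) (hm : IsMax p (eB M B) D e) {n : ℕ}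
    (hn : ∀ χ ∈ B, blockHeight p B (χ : G → ℂ) = 0 → charDegree (χ : G → ℂ) = n) :
    NP D e ≤ D ⊔ 𝐂 D := by
  classical
  let f := QuotientGroup.mk' ⁅D, D⁆
  have hf : Function.Surjective f := QuotientGroup.mk'_surjective _
  have hkD : f.ker ≤ D := by
    rw [QuotientGroup.ker_mk']; exact Subgroup.commutator_le_left _ _
  have hk : IsPGroup p f.ker := hm.pair.1.to_le hkD
  have := Fintype.ofFinite (G ⧸ ⁅D, D⁆)
  have hU := IsPBlock.isBlockUnion hB
  have hP := hm.pair.1.map f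
  have hN : (D.map f).Normal := hD.map f hf
  have hab : D.map f ≤ 𝐂 (D.map f) := by
    rintro _ ⟨x, hx, rfl⟩ _ ⟨y, hy, rfl⟩
    rw [← commutatorElement_eq_one_iff_mul_comm, ← map_commutatorElement]
    exact (QuotientGroup.eq_one_iff _).2 (Subgroup.commutator_mem_commutator hy hx)
  have hC : ∀ g : G, f g ∈ 𝐂 (D.map f) → ∃ k, g ^ p ^ k ∈ 𝐂 D := fun g hg =>
    PLocal.exists_pow_mem_centralizer_of_frattini hm.pair.1 (by simp [Subgroup.normalizer_eq_top])
      (le_trans (by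
        rw [← QuotientGroup.ker_mk' ⁅D, D⁆, ← Subgroup.map_eq_bot_iff, Subgroup.map_commutator,
          Subgroup.commutator_eq_bot_iff_le_centralizer, MonoidHom.map_zpowers,
          Subgroup.le_centralizer_iff]
        exact Subgroup.zpowers_le.2 hg) (Solv.commutator_le_map_frattini hm.pair.1))
  have hKC : (𝐂 D).map f ≤ 𝐂 (D.map f) := by
    rintro _ ⟨x, hx, rfl⟩ _ ⟨y, hy, rfl⟩
    rw [← map_mul, hx y hy, map_mul]
  have hKN : ((𝐂 D).map f).Normal := Subgroup.Normal.map inferInstance f hf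
  have h0 := isPrim_mapA f hk hkD hm.pair
  obtain ⟨x, hx, hx0⟩ := exists_cover h0.ne_zero (𝐂 (D.map f))
  rw [(commute_of_fix_supp (fix_anti hKC hx.mem.1) h0.mem.2).symm.eq] at hx0
  have h1 := eq_orb_of_regular hKC (by rw [Subgroup.normalizer_eq_top]; exact le_top) hx h0 hx0
    fun g hg hg' => by
      obtain ⟨g, h1, rfl⟩ := exists_regular_preimage hf hg'
      obtain ⟨k, hk⟩ := hC g hg
      exact ⟨g, Subgroup.zpowers_le.2 hk (mem_zpowers_pow_iff.2 (((Nat.Prime.coprime_iff_not_dvd hp.out).2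
        h1).pow_left k)), rfl⟩
  have hxp : IsPair p (D.map f) x := ⟨hP, hx⟩
  obtain ⟨c, hc, rfl⟩ := hxp.exists_eS
  obtain ⟨B', hB'⟩ := IsBrauerPair.exists_block hc
  obtain ⟨-, h2, h3⟩ := isBrauerPairOf_iff.1 hB'
  have hU' := IsPBlock.isBlockUnion h2
  have hsub : B' ⊆ infl f hf ⁻¹' B := by
    have h4 := hm.mul_br
    have h5 := h3
    rw [br_eq_self (eB_mem_supp_centralizer hU hm.pair.1)] at h4
    rw [br_eq_self (eB_mem_supp_centralizer hU' hP)] at h5
    refine fun χ hχ => by_contra fun h6 => hx0 ?_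
    have h7 : B' ∩ infl f hf ⁻¹' B = ∅ := Set.eq_empty_of_forall_notMem fun ψ hψ =>
      h6 (IsBlockUnion.preimage_infl hf hU ψ hψ.2 χ (IsPBlock.sameBlock h2 hψ.1 hχ))
    rw [← h5, ← h4, map_mul, mapA_eB hf hU, ← center_comm (eB_mem_center (infl f hf ⁻¹' B)),
      mul_assoc, ← mul_assoc (eB M B'), eB_mul_eB hU' (IsBlockUnion.preimage_infl hf hU), h7,
      eB_empty, zero_mul, mul_zero]
  have hdef := IsDefectGroup.card_eq hB ((isDefectGroup_iff_isDef hB).2 hm.isDef)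
  have hi : (D.map f).index = D.index := Subgroup.index_map_eq _ hf hkD
  have h4 : ∀ χ ∈ B', (charDegree (χ : G ⧸ ⁅D, D⁆ → ℂ)).factorization p = D.index.factorization p ∧
      charDegree (χ : G ⧸ ⁅D, D⁆ → ℂ) = n := fun χ hχ => by
    have h4 := deg_add_defect (B := B) p (hsub hχ)
    have h5 := (Nat.factorization_le_iff_dvd (deg_ne_zero χ.2) Subgroup.index_ne_zero_of_finite).2
      (charDegree_dvd_index_of_abelian (D.map f) (fun a ha b hb => hab hb a ha) χ.2) p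
    rw [← D.card_mul_index, Nat.factorization_mul Nat.card_pos.ne' Subgroup.index_ne_zero_of_finite,
      hdef, hp.out.factorization_pow, charDegree_infl] at h4
    simp only [Finsupp.add_apply, Finsupp.single_eq_same] at h4
    rw [hi] at h5
    exact ⟨by omega, charDegree_infl f hf χ ▸ hn _ (hsub hχ) (by omega)⟩
  have h5 : ∀ χ ∈ B', blockHeight p B' (χ : G ⧸ ⁅D, D⁆ → ℂ) = 0 := fun χ hχ =>
    (height_eq_zero_iff_le p hχ).2 fun ψ hψ => by rw [(h4 χ hχ).2, (h4 ψ hψ).2]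
  have h6 : IsDefectGroup p M B' (D.map f) := by
    obtain ⟨E, hE⟩ := exists_isDefectGroup (p := p) h2
    obtain ⟨χ, hχ⟩ := IsPBlock.nonempty h2
    have h6 := deg_add_defect p hχ
    obtain ⟨k, hk⟩ := IsPGroup.iff_card.1 hP
    rw [h5 χ hχ, (h4 χ hχ).1, ← (D.map f).card_mul_index, Nat.factorization_mul Nat.card_pos.ne'
      Subgroup.index_ne_zero_of_finite, hk, hp.out.factorization_pow, hi] at h6
    simp only [Finsupp.add_apply, Finsupp.single_eq_same] at h6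
    rwa [Subgroup.eq_of_le_of_card_ge (IsDefectGroup.le_of_normal h2 hE hP) (by
      rw [IsDefectGroup.card_eq h2 hE, hk, show blockDefect p B' = k by omega])]
  have hl := rank_one_of_deg h2 (fun χ hχ => (h4 χ hχ).2) h5
  have h7 := (IsMax.nil_iff_of_comm ⟨isPrim_eB h2, (isDefectGroup_iff_isDef h2).1 h6, hxp, h3⟩
    hab).1 (nil_of_card_eq h2 h6 hab hl (card_eq_of_deg h2 (fun χ hχ => (h4 χ hχ).2) hl))
  intro t ht
  obtain ⟨k, hk⟩ := hC t (h7 ⟨by rw [Subgroup.normalizer_eq_top]; trivial, by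
    change cj _ _ = _
    rw [h1, cj_orb, sc_eq_of_normal, ← mapA_cj, ht.2]⟩)
  exact mem_of_pow_mem_of_not_dvd NP_le_normalizer_sup hm.not_dvd_inertial ht
    (Subgroup.mem_sup_right hk)

omit hp


/-- Let G be a finite group, p a prime, M a maximal ideal of the algebraic integers containing p, and B a p-block of G with a defect group that is normal in G. Then all height-zero irreducible characters of B have the same degree if and only if B is a nilpotent block. -/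
theorem result {G : Type*} [Group G] [Finite G] (p : ℕ) [Fact p.Prime] (M : Ideal Cfsg.AlgInt) (hM : Cfsg.IsPModular p M) (B : Set (Cfsg.IrrCharacter G)) (hB : Cfsg.IsPBlock M B) (D : Subgroup G) (hD : Cfsg.IsDefectGroup p M B D) (hDn : D.Normal) : (∃ d : ℕ, ∀ χ : Cfsg.IrrCharacter G, χ ∈ B → Cfsg.blockHeight p B (χ : G → ℂ) = 0 → Cfsg.charDegree (χ : G → ℂ) = d) ↔ Cfsg.IsNilpotentBlock p M B := by
  haveI : PMod p M := ⟨hM⟩
  have := Fintype.ofFinite G
  rw [isNilpotentBlock_iff]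
  refine ⟨fun ⟨d, hd⟩ => ?_, fun ⟨_, hn⟩ => ?_⟩
  · obtain ⟨e, hm⟩ := exists_isMax hB hD
    exact ⟨hB, nil_of_normal hm (le_centralizer_quot hB hm hd)⟩
  · obtain ⟨χ, hχ, h0⟩ := exists_height_zero p (IsPBlock.nonempty hB)
    obtain ⟨Φ, hΦ⟩ := hn.exists_equiv' hB hD hχ h0
    refine ⟨charDegree (χ : G → ℂ), fun ψ hψ h1 => ?_⟩
    obtain ⟨ζ, hζ⟩ := Φ.surjective ⟨ψ, hψ⟩
    obtain ⟨-, h2, h3⟩ := hΦ ζ
    have h4 := IsIrrCharacter.charDegree_dvd_card ζ.2
    rw [IsDefectGroup.card_eq hB hD, Nat.dvd_prime_pow Fact.out] at h4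
    obtain ⟨k, -, hk⟩ := h4
    rw [hζ, hk] at h2 h3
    rw [h1, Nat.Prime.factorization_pow Fact.out, Finsupp.single_eq_same] at h3
    rw [h2, ← h3, pow_zero, one_mul]

end Cfsg.Agent.S4890
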