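import Cfsg.Statements.S4911
import Cfsg.Agent.CH.Count
import Cfsg.Agent.Char.FS

set_option autoImplicit false
open Cfsg

namespace Cfsg.Agent.S4911

open Cfsg.Agent.BG Cfsg.Agent.PF Cfsg.Agent.PF.CH
open scoped _root_.Classical

theorem real_iff {X : Type*} [Group X] [Finite X] {K : Subgroup X} (χ : IrrCharacter K) :
    star (ez χ) = ez χ ↔ ∀ k, (χ.1 k).im = 0 := by
  refine ⟨fun h k => Complex.conj_eq_iff_im.1 (by simpa using congrFun h k), fun h =>
    CF_ext (CF_star (Irr_CF (ez_irr χ))) (Irr_CF (ez_irr χ)) fun g hg => ?_⟩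
  rw [Pi.star_apply, ez_of_mem χ hg]
  exact Complex.conj_eq_iff_im.2 (h _)

theorem mu_star {X : Type*} [Group X] [Finite X] (C : Subgroup X) (χ ξ : X → ℂ) :
    mu C (star χ) (star ξ) = mu C χ ξ := by
  rw [mu, mu, dot_star_star, ← conj_dot, Complex.conj_re]

/-- Let P and K be subgroups of a finite group with P a p-group normalizing K and K of order prime to p. Then the number of P-invariant real-valued irreducible complex characters of K equals the number of conjugacy classes of K that are real (closed under inversion) and P-invariant. Moreover, if every real-valued irreducible character of K is P-invariant, then every real element of K (one conjugate in K to its inverse) is conjugate in K to an element centralized by P. -/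
theorem result {G : Type*} [Group G] [Finite G] (p : ℕ) [Fact p.Prime] (P K : Subgroup G) (hP : IsPGroup p ↥P) (hK : ¬ p ∣ Nat.card ↥K) (hPK : P ≤ Subgroup.normalizer (K : Set G)) : Nat.card {θ : Cfsg.IrrCharacter ↥K // (∀ k : ↥K, ((θ : ↥K → ℂ) k).im = 0) ∧ (∀ x ∈ P, ∀ k k' : ↥K, (k' : G) = x * (k : G) * x⁻¹ → (θ : ↥K → ℂ) k' = (θ : ↥K → ℂ) k)} = Nat.card {c : ConjClasses ↥K // (∀ k : ↥K, ConjClasses.mk k = c → IsConj k k⁻¹) ∧ ∀ k : ↥K, ConjClasses.mk k = c → ∀ x ∈ P, ∀ k' : ↥K, (k' : G) = x * (k : G) * x⁻¹ → ConjClasses.mk k' = c} ∧ ((∀ θ : Cfsg.IrrCharacter ↥K, (∀ k : ↥K, ((θ : ↥K → ℂ) k).im = 0) → (∀ x ∈ P, ∀ k k' : ↥K, (k' : G) = x * (k : G) * x⁻¹ → (θ : ↥K → ℂ) k' = (θ : ↥K → ℂ) k)) → ∀ k : ↥K, IsConj k k⁻¹ → ∃ k' : ↥K, IsConj k k' ∧ ∀ x ∈ P, x * (k' : G) * x⁻¹ = (k' : G)) := by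
  have hp : p.Prime := Fact.out
  have hc : (#K).Coprime #P := pnat_coprime' ((p'natE hp).2 hK) (IsPGroup.pi hP)
  have hs : Group.IsSolvable K ∨ Group.IsSolvable P := Or.inr (pgroup_sol hP)
  have h := pcor hp (IsPGroup.pi hP) (N := ⊥) (by simp) K (normal_bot K) hPK (by simpa using hK)
  rw [centMod_bot, IrrFix_of_cent (centsC.1 inf_le_right)] at h
  have st : ∀ χ ∈ IrrFix K P, star χ ∈ IrrFix K P := fun χ hχ =>
    mem_IrrFix.2 ⟨Irr_star (IrrFix_irr hχ), (inertia_star χ).symm ▸ IrrFix_inv hχ⟩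
  have e := h.card_eq (U' := (Irr K).filter fun χ => star χ = χ ∧ χ ∈ IrrFix K P)
    (V' := (Irr (K ⊓ C[P])).filter fun χ => star χ = χ)
    (fun χ hχ => (Finset.mem_filter.1 hχ).2.2) (Finset.filter_subset _ _)
    (fun χ hχ ξ hξ h1 => by
      obtain ⟨-, h2, h3⟩ := Finset.mem_filter.1 hχ
      exact Finset.mem_filter.2 ⟨hξ, h.uniq χ h3 _ (Irr_star hξ) ξ hξ (by rwa [← h2, mu_star]) h1⟩)
    (fun χ hχ ξ hξ h1 => by
      obtain ⟨h2, h3⟩ := Finset.mem_filter.1 hξ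
      exact Finset.mem_filter.2 ⟨IrrFix_irr hχ, h.inj _ (st χ hχ) χ hχ ξ h2
        (by rwa [← h3, mu_star]) h1, hχ⟩)
  rw [card_filter_Irr', card_filter_Irr'] at e
  simp only [real_iff, ez_mem_IrrFix hPK] at e
  have key : ∀ c : ConjClasses K, (∀ k : K, ConjClasses.mk k = c → ∀ x ∈ P, ∀ k' : K,
      (k' : G) = x * k * x⁻¹ → ConjClasses.mk k' = c) ↔ c ∈ Set.range (ConjClasses.map
        (Subgroup.inclusion (inf_le_left : K ⊓ C[P] ≤ K))) := fun c => by
    rw [mem_range_classes hPK hc hs]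
    exact ⟨fun h x hx k k' e e' => h k e' x hx k' e, fun h k e' x hx k' e => h x hx k k' e e'⟩
  have real : ∀ {H : Type _} [Group H] (a : H), (∀ k : H, ConjClasses.mk k = ConjClasses.mk a →
      IsConj k k⁻¹) ↔ IsConj a a⁻¹ := fun a => ⟨fun h => h a rfl, fun h k e => by
    have e := ConjClasses.mk_eq_mk_iff_isConj.1 e
    obtain ⟨c, rfl⟩ := isConj_iff.1 e
    exact (e.trans h).trans (isConj_iff.2 ⟨c⁻¹, by group⟩)⟩
  have e2 : Nat.card {c : ConjClasses ↥(K ⊓ C[P]) // ∀ g, ConjClasses.mk g = c → IsConj g g⁻¹} =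
      Nat.card {c : ConjClasses K // (∀ k : K, ConjClasses.mk k = c → IsConj k k⁻¹) ∧
        ∀ k : K, ConjClasses.mk k = c → ∀ x ∈ P, ∀ k' : K, (k' : G) = x * k * x⁻¹ →
          ConjClasses.mk k' = c} := by
    refine Nat.card_congr (Equiv.ofBijective (fun c => ⟨ConjClasses.map (Subgroup.inclusion
      inf_le_left) c.1, ?_, (key _).2 ⟨_, rfl⟩⟩) ⟨fun a b e => Subtype.ext
        (classes_inj hPK hc hs (congrArg Subtype.val e)), ?_⟩)
    · obtain ⟨⟨a⟩, ha⟩ := c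
      exact (real _).2 ((isConj_cent_iff hPK hc hs (b := a⁻¹)).2 (ha a rfl))
    · rintro ⟨c, h1, h2⟩
      obtain ⟨⟨a⟩, rfl⟩ := (key c).1 h2
      exact ⟨⟨ConjClasses.mk a, (real a).2 ((isConj_cent_iff hPK hc hs (b := a⁻¹)).1 (h1 _ rfl))⟩, rfl⟩
  rw [Char.card_real_irr_eq_card_real_classes, e2] at e
  refine ⟨e, fun H k hk => ?_⟩
  rw [Nat.card_congr (Equiv.subtypeEquivRight fun θ => and_iff_left_of_imp (H θ)),
    Char.card_real_irr_eq_card_real_classes] at e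
  have e3 := Set.eq_of_subset_of_ncard_le (s := {c : ConjClasses K | _ ∧ _}) (t := {c | _})
    (fun c hc => hc.1) e.le
  obtain ⟨⟨a⟩, ha⟩ := (key _).1 (e3.ge ((real k).2 hk : ConjClasses.mk k ∈ {c | _})).2
  exact ⟨_, (ConjClasses.mk_eq_mk_iff_isConj.1 ha).symm, fun x hx =>
    mul_inv_eq_iff_eq_mul.2 (mem_cent.1 a.2.2 x hx)⟩

end Cfsg.Agent.S4911
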