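import Cfsg.Statements.S4912
import Cfsg.Agent.Block.Over2

set_option autoImplicit false
open Cfsg

namespace Cfsg.Agent.S4912

open Cfsg.Agent.Block Cfsg.Agent.Char MonoidAlgebra

open Cfsg.Agent.CharDeep

/-- Let G be a finite group with a non-abelian minimal normal subgroup N, and let φ be an irreducible complex character of N with stabilizer I in G such that φ extends to an irreducible character of I with Frobenius–Schur indicator +1. Put d = φ(1)·[G : I]. Then the number of linear characters of G with Frobenius–Schur indicator +1 is at most [G : I] times the number of irreducible characters of G of degree d with Frobenius–Schur indicator +1. -/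
theorem result {G : Type*} [Group G] [Finite G] (N : Subgroup G) (hN : N.Normal) (hN1 : N ≠ ⊥) (hmin : ∀ M : Subgroup G, M.Normal → M ≤ N → M = ⊥ ∨ M = N) (hna : ¬ IsMulCommutative ↥N) (φ : Cfsg.IrrCharacter ↥N) (I : Subgroup G) (hI : ∀ g : G, g ∈ I ↔ ∀ n n' : ↥N, (n' : G) = g * (n : G) * g⁻¹ → (φ : ↥N → ℂ) n' = (φ : ↥N → ℂ) n) (hNI : N ≤ I) (hext : ∃ ψ : Cfsg.IrrCharacter ↥I, (Nat.card ↥I : ℂ)⁻¹ * ∑ᶠ g : ↥I, (ψ : ↥I → ℂ) (g * g) = 1 ∧ ∀ n : ↥N, (ψ : ↥I → ℂ) (Subgroup.inclusion hNI n) = (φ : ↥N → ℂ) n) : Nat.card {χ : Cfsg.IrrCharacter G // Cfsg.charDegree (χ : G → ℂ) = 1 ∧ (Nat.card G : ℂ)⁻¹ * ∑ᶠ g : G, (χ : G → ℂ) (g * g) = 1} ≤ I.index * Nat.card {χ : Cfsg.IrrCharacter G // Cfsg.charDegree (χ : G → ℂ) = Cfsg.charDegree (φ : ↥N → ℂ) * I.index ∧ (Nat.card G : ℂ)⁻¹ * ∑ᶠ g : G, (χ : G → ℂ) (g * g) = 1} := by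
  classical
  haveI := Fintype.ofFinite G
  haveI := Fintype.ofFinite I
  simp only [finsum_eq_sum_of_fintype] at hext ⊢
  have hT : I = inertia N φ.1 := by
    ext g
    rw [hI, mem_inertia']
    exact ⟨fun h n => h n _ rfl, fun h n n' e => (congrArg φ.1 (Subtype.ext e)).trans (h n)⟩
  obtain ⟨ψ, hf, hψ⟩ := hext
  change fsInd ψ.1 = 1 at hf
  obtain ⟨h1, h2⟩ := ind_hom_mul N φ.2 hT hNI ψ.2.isCharacter hψ
  have h3 := fun l : G →* ℂˣ => fun n hn => hom_eq_one_of_min N hmin hna l (n := n) hn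
  let S : Subgroup (G →* ℂˣ) := (powMonoidHom 2).ker
  have hS : ∀ l ∈ S, ∀ g, (l g : ℂ) * l g = 1 := fun l hl g => by
    have : l g ^ 2 = 1 := DFunLike.congr_fun (MonoidHom.mem_ker.mp hl) g
    rw [← Units.val_mul, ← sq, this, Units.val_one]
  have h4 : Nat.card {χ : IrrCharacter G // charDegree χ.1 = 1 ∧
      (Nat.card G : ℂ)⁻¹ * ∑ g, χ.1 (g * g) = 1} ≤ Nat.card S := by
    have : ∀ χ : {χ : IrrCharacter G // charDegree χ.1 = 1 ∧
      (Nat.card G : ℂ)⁻¹ * ∑ g, χ.1 (g * g) = 1}, ∃ l : S, χ.1.1 = fun g => (l.1 g : ℂ) := fun χ => by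
      obtain ⟨l, hl⟩ := χ.1.2.isCharacter.exists_hom_of_apply_one
        (by rw [χ.1.2.apply_one_eq_charDegree, χ.2.1, Nat.cast_one])
      refine ⟨⟨l, MonoidHom.mem_ker.mpr (MonoidHom.ext fun g => Units.ext ?_)⟩, hl⟩
      have h5 := ((fsInd_eq_one_iff χ.1.2).1 χ.2.2).1 g
      have h6 := χ.1.2.apply_inv g
      rw [Complex.conj_eq_iff_im.mpr h5, hl] at h6
      simp only [map_inv, Units.val_inv_eq_inv_val] at h6
      simp only [powMonoidHom_apply, MonoidHom.pow_apply, Units.val_pow_eq_pow_val,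
        MonoidHom.one_apply, Units.val_one]
      rw [sq]
      nth_rewrite 1 [← h6]
      simp
    choose f hf using this
    exact Nat.card_le_card_of_injective f fun a b h =>
      Subtype.ext (Subtype.ext (by rw [hf, hf, h]))
  refine h4.trans (card_le_index_mul I S (fun l => ⟨⟨_, (h1 l.1 (h3 l.1)).2⟩,
    charDegree_eq_of_apply_one ?_, ?_⟩) fun a b h => h2 a.1 b.1 (h3 _) (h3 _) (by simpa using h))
  · have := hψ 1
    rw [map_one] at this
    simp [indFun_one, this, φ.2.apply_one_eq_charDegree, mul_comm]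
  · change fsInd (indFun I _) = 1
    rw [fsInd_indFun_inertia N φ.2 (fun n => by
      rw [← hψ]; exact ((fsInd_eq_one_iff ψ.2).1 hf).1 _) hT hNI (h1 l.1 (h3 l.1)).1.isCharacter
      (e := 1) (fun n => by
        simp only [h3 l.1 n n.2, Units.val_one, one_mul]; exact hψ n), ← hf]
    simp [fsInd, hS l.1 l.2]

end Cfsg.Agent.S4912
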