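import Cfsg.Statements.S4914
import Cfsg.Agent.CH.PGroup
import Cfsg.Agent.CH.Br

set_option autoImplicit false
open Cfsg

namespace Cfsg.Agent.S4914

open Cfsg.Agent.BG Cfsg.Agent.PF Cfsg.Agent.PF.CH

/-- Let P and K be subgroups of a finite group G with P a p-group normalizing K, and suppose K has a normal Sylow p-subgroup Q. Let C be the subgroup of those k ∈ K whose commutator with every element of P lies in Q (so that C/Q is the fixed-point subgroup of P on K/Q). Then there is a bijection f from the P-invariant irreducible complex characters of K onto the P-invariant irreducible complex characters of C such that, for every P-invariant irreducible character χ of K, the multiplicity of f(χ) in the restriction of χ to C is a natural number congruent to 1 or to −1 modulo p, every other P-invariant irreducible character of C occurs in that restriction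 with multiplicity divisible by p, and the degrees of χ and f(χ) are congruent modulo p up to sign. -/
theorem result {G : Type*} [Group G] [Finite G] (p : ℕ) [Fact p.Prime] (P K Q C : Subgroup G) (hP : IsPGroup p ↥P) (hPK : P ≤ Subgroup.normalizer (K : Set G)) (hQK : Q ≤ K) (hQn : ∀ k ∈ K, ∀ q ∈ Q, k * q * k⁻¹ ∈ Q) (hQp : ∃ a : ℕ, Nat.card ↥Q = p ^ a) (hQsyl : ¬ p ∣ Q.relIndex K) (hCK : C ≤ K) (hC : ∀ k : G, k ∈ C ↔ (k ∈ K ∧ ∀ x ∈ P, x * k * x⁻¹ * k⁻¹ ∈ Q)) : ∃ f : {χ : Cfsg.IrrCharacter ↥K // (∀ x ∈ P, ∀ k k' : ↥K, (k' : G) = x * (k : G) * x⁻¹ → (χ : ↥K → ℂ) k' = (χ : ↥K → ℂ) k)} → {ξ : Cfsg.IrrCharacter ↥C // (∀ x ∈ P, ∀ k k' : ↥C, (k' : G) = x * (k : G) * x⁻¹ → (ξ : ↥C → ℂ) k' = (ξ : ↥C → ℂ) k)}, Function.Bijective f ∧ ∀ χ, (∀ ξ : {ξ : Cfsg.IrrCharacter ↥C // (∀ x ∈ P, ∀ k k' : ↥C, (k' : G) = x * (k : G) * x⁻¹ → (ξ : ↥C → ℂ) k' = (ξ : ↥C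 → ℂ) k)}, ∃ m : ℕ, (Nat.card ↥C : ℂ)⁻¹ * ∑ᶠ c : ↥C, (χ.1 : ↥K → ℂ) (Subgroup.inclusion hCK c) * (starRingEnd ℂ) ((ξ.1 : ↥C → ℂ) c) = (m : ℂ) ∧ (ξ = f χ → ((m : ZMod p) = 1 ∨ (m : ZMod p) = -1)) ∧ (ξ ≠ f χ → p ∣ m)) ∧ ((Cfsg.charDegree ((f χ).1 : ↥C → ℂ) : ZMod p) = (Cfsg.charDegree (χ.1 : ↥K → ℂ) : ZMod p) ∨ (Cfsg.charDegree ((f χ).1 : ↥C → ℂ) : ZMod p) = -(Cfsg.charDegree (χ.1 : ↥K → ℂ) : ZMod p)) := by
  have hp : p.Prime := Fact.out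
  have := Fintype.ofFinite C
  obtain ⟨a, ha⟩ := hQp
  have hQ : Q ⊴ K := ⟨hQK, le_norm_iff.2 hQn⟩
  have hs : SylowIn p Q K := sylow_mk hQK (pgroup_of_card ha) hQsyl
  have hPQ : P ≤ N[Q] := normal_Hall_pcore hs hQ ▸ norms_pcore _ hPK
  have e : C = K ⊓ centMod Q P := by
    ext k
    rw [hC, Subgroup.mem_inf, mem_centMod hPQ]
    refine and_congr_right fun hk => ?_
    rw [and_iff_right (hQ.norm hk)]
    refine forall₂_congr fun x hx => ?_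
    rw [← Q.inv_mem_iff, show (x * k * x⁻¹ * k⁻¹)⁻¹ = k * x * k⁻¹ * x⁻¹ by group]
  have hPC : P ≤ N[C] := e ▸ normsI hPK (norms_centMod hPQ (normG P))
  have h := pcor hp (IsPGroup.pi hP) hPQ K hQ hPK hQsyl
  rw [← e] at h
  have h1 : ∀ χ : {χ : IrrCharacter K // ∀ x ∈ P, ∀ k k' : K, (k' : G) = x * k * x⁻¹ → χ.1 k' = χ.1 k},
      ∃ ξ : {ξ : IrrCharacter C // ∀ x ∈ P, ∀ k k' : C, (k' : G) = x * k * x⁻¹ → ξ.1 k' = ξ.1 k},
        ¬ p ∣ mu C (ez χ.1) (ez ξ.1) := fun χ => by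
    obtain ⟨ξ, hξ, h1⟩ := h.exi _ ((ez_mem_IrrFix hPK _).2 χ.2)
    obtain ⟨β, rfl⟩ := exists_ez (IrrFix_irr hξ)
    exact ⟨⟨β, (ez_mem_IrrFix hPC _).1 hξ⟩, h1⟩
  choose f hf using h1
  have m1 := fun χ : {χ : IrrCharacter K // ∀ x ∈ P, ∀ k k' : K, (k' : G) = x * k * x⁻¹ →
    χ.1 k' = χ.1 k} => (ez_mem_IrrFix hPK χ.1).2 χ.2
  have m2 := fun χ : {χ : IrrCharacter C // ∀ x ∈ P, ∀ k k' : C, (k' : G) = x * k * x⁻¹ →
    χ.1 k' = χ.1 k} => (ez_mem_IrrFix hPC χ.1).2 χ.2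
  have u : ∀ χ ξ, ξ ≠ f χ → p ∣ mu C (ez χ.1) (ez ξ.1) := fun χ ξ hne => by_contra fun h' =>
    hne (Subtype.ext (ez_inj (h.uniq _ (m1 χ) _ (m2 ξ) _ (m2 _) h' (hf χ))))
  refine ⟨f, ⟨fun χ χ' e => Subtype.ext (ez_inj (h.inj _ (m1 χ) _ (m1 χ') _ (m2 _) (hf χ)
    (e ▸ hf χ'))), fun ξ => ?_⟩, fun χ => ⟨fun ξ => ⟨mu C (ez χ.1) (ez ξ.1), ?_, ?_, u χ ξ⟩, ?_⟩⟩
  · obtain ⟨θ, hθ, h1⟩ := h.surj _ (m2 ξ)
    obtain ⟨χ, rfl⟩ := exists_ez (IrrFix_irr hθ)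
    exact ⟨⟨χ, (ez_mem_IrrFix hPK _).1 hθ⟩, by_contra fun h' =>
      h1 (u ⟨χ, (ez_mem_IrrFix hPK _).1 hθ⟩ ξ (Ne.symm h'))⟩
  · rw [finsum_eq_sum_of_fintype]
    exact classInner_res_mu hCK χ.1 ξ.1
  · rintro rfl
    exact sq_eq_one_iff.1 (h.sq _ (m1 χ) _ (m2 _) (hf χ))
  · rw [← deg_ez, ← deg_ez, deg_eq_sum_mu hCK (Irr_isChar (ez_irr χ.1)),
      sum_modEq_fixed hp (IsPGroup.pi hP) (fun x hx β hβ => Irr_cj hβ (hPC hx)) _ fun x hx β hβ => by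
        rw [mu_cj_right (IrrFix_inv (m1 χ) hx) (hPC hx), deg_cj],
      Nat.cast_sum, ← IrrFix, Finset.sum_eq_single_of_mem _ (m2 (f χ)) fun γ hγ hne => ?_,
      Nat.cast_mul]
    · rcases sq_eq_one_iff.1 (h.sq _ (m1 χ) _ (m2 _) (hf χ)) with e | e <;> simp [e]
    · rw [ZMod.natCast_eq_zero_iff]
      exact Dvd.dvd.mul_right (by_contra fun h' =>
        hne (h.uniq _ (m1 χ) _ hγ _ (m2 _) h' (hf χ))) _

end Cfsg.Agent.S4914
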