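import Cfsg.Statements.S4916
import Cfsg.Agent.Block.Count

set_option autoImplicit false
open Cfsg

namespace Cfsg.Agent.S4916

open Cfsg.Agent.Block Cfsg.Agent.BMod Cfsg.Agent.Char MonoidAlgebra


/-- Let G be a finite group, p a prime and M a maximal ideal of the algebraic integers containing p. Then the principal character is the only irreducible character of degree prime to p in the principal p-block of G if and only if p does not divide the order of G. -/
theorem result {G : Type*} [Group G] [Finite G] (p : ℕ) [Fact p.Prime] (M : Ideal Cfsg.AlgInt) (hM : Cfsg.IsPModular p M) : (∀ χ : Cfsg.IrrCharacter G, χ ∈ Cfsg.principalBlock M G → ¬ p ∣ Cfsg.charDegree (χ : G → ℂ) → (χ : G → ℂ) = fun _ => (1 : ℂ)) ↔ ¬ p ∣ Nat.card G := by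
  classical
  have : PMod p M := ⟨hM⟩
  refine ⟨fun h hG => ?_, fun h χ hχ _ => ?_⟩
  · have h1 := sum_red_deg_sq_of_dvd (isPBlock_principalBlock (M := M)).isBlockUnion hG
    rw [Finset.sum_eq_single (irrOne G) (fun χ _ hne => ?_) (by simp),
      if_pos irrOne_mem_principalBlock, deg_eq_of_eq (n := 1) (by simp)] at h1
    · simp at h1
    split_ifs with hχ
    · rw [(natCast_F_eq_zero_iff _).2 (by_contra fun h' => hne (Subtype.ext (h χ hχ h')))]; simp
    · rfl
  · exact congrArg Subtype.val (isBlockUnion_of_not_dvd (M := M) h {irrOne G} _ rfl χ hχ)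

end Cfsg.Agent.S4916
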