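import Cfsg.Statements.S4923
import Cfsg.Agent.Isa.J4
import Cfsg.Agent.PGrp.MaxClassP

set_option autoImplicit false
open Cfsg

namespace Cfsg.Agent.S4923

open Cfsg.Agent.PF Cfsg.Agent.PF.CH Cfsg.Agent.BG

open scoped Cfsg.Agent.BG _root_.Classical commutatorElement
open Cfsg.Agent.Char

theorem mem_of_fixed (K : IntermediateField ℚ ℂ) {x : ℂ} (hx : IsAlgebraic ℚ x)
    (h : ∀ σ : ℂ ≃+* ℂ, (∀ k ∈ K, σ k = k) → σ x = x) : x ∈ K := by
  let x' : algebraicClosure K ℂ := ⟨x, mem_algebraicClosure_iff.mpr (hx.tower_top K)⟩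
  have : IsAlgClosure K (algebraicClosure K ℂ) := algebraicClosure.isAlgClosure K ℂ
  obtain ⟨q, hq⟩ := (InfiniteGalois.mem_range_algebraMap_iff_fixed (k := K) x').mpr fun τ => by
    obtain ⟨σ, hσ⟩ := exists_ringEquiv_extend τ.toRingEquiv
    exact Subtype.ext ((hσ x').symm.trans (h σ fun k hk =>
      (hσ (algebraMap K _ ⟨k, hk⟩)).trans (congrArg Subtype.val (τ.commutes _))))
  exact (show (q : ℂ) = x from congrArg Subtype.val hq) ▸ q.2

theorem fix_adjoin {A : Set ℂ} {σ : ℂ ≃+* ℂ} :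
    (∀ k ∈ IntermediateField.adjoin ℚ A, σ k = k) ↔ ∀ k ∈ A, σ k = k :=
  ⟨fun h k hk => h k (IntermediateField.subset_adjoin _ _ hk), fun h k hk =>
    IntermediateField.adjoin_induction ℚ (p := fun y _ => σ y = y) h (fun q => by simp)
      (fun a b _ _ ha hb => by rw [map_add, ha, hb]) (fun a _ ha => by rw [map_inv₀, ha])
      (fun a b _ _ ha hb => by rw [map_mul, ha, hb]) hk⟩

theorem adjoin_eq_iff {A B : Set ℂ} (hA : ∀ x ∈ A, IsAlgebraic ℚ x) (hB : ∀ x ∈ B, IsAlgebraic ℚ x) :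
    IntermediateField.adjoin ℚ A = IntermediateField.adjoin ℚ B ↔
      ∀ σ : ℂ ≃+* ℂ, (∀ k ∈ A, σ k = k) ↔ ∀ k ∈ B, σ k = k :=
  ⟨fun h σ => by rw [← fix_adjoin, h, fix_adjoin], fun h => le_antisymm
    (IntermediateField.adjoin_le_iff.2 fun x hx => mem_of_fixed _ (hA x hx) fun σ e =>
      (h σ).2 (fix_adjoin.1 e) x hx)
    (IntermediateField.adjoin_le_iff.2 fun x hx => mem_of_fixed _ (hB x hx) fun σ e =>
      (h σ).1 (fix_adjoin.1 e) x hx)⟩

theorem field_iff {G : Type*} [Group G] [Finite G] {g : G} {M : ℕ} (hM : M ≠ 0) (hg : g ^ M = 1) {ζ ε : ℂ}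
    (hζ : ζ ^ M = 1) (hε : ε = 1 ∨ ε = -1) :
    IntermediateField.adjoin ℚ {z : ℂ | ∃ χ : IrrCharacter G, (χ : G → ℂ) g = z} =
      IntermediateField.adjoin ℚ ({ζ + ε * ζ⁻¹} : Set ℂ) ↔
    ∀ k : ℕ, k.Coprime M → (IsConj g (g ^ k) ↔ ζ ^ k = ζ ∨ ζ ^ k = ε * ζ⁻¹) := by
  have h0 : ζ ≠ 0 := fun e => by simp [e, hM] at hζ
  have h1 : IsAlgebraic ℚ ζ := isAlgebraic_rat_of_isIntegral (IsIntegral.of_pow (Nat.pos_of_ne_zero hM)
    (hζ ▸ isIntegral_one))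
  have key : ∀ (σ : ℂ ≃+* ℂ) (k : ℕ), (∀ ζ : ℂ, ζ ^ M = 1 → σ ζ = ζ ^ k) →
      ((∀ z ∈ {z : ℂ | ∃ χ : IrrCharacter G, (χ : G → ℂ) g = z}, σ z = z) ↔ IsConj g (g ^ k)) ∧
      ((∀ z ∈ ({ζ + ε * ζ⁻¹} : Set ℂ), σ z = z) ↔ ζ ^ k = ζ ∨ ζ ^ k = ε * ζ⁻¹) := fun σ k hσ => by
    constructor
    · rw [isConj_iff_forall_irr]
      have := fun χ : IrrCharacter G => χ.2.isCharacter.apply_pow_eq_map (σ : ℂ →+* ℂ) hσ hg
      exact ⟨fun h χ => ((this χ).trans (h _ ⟨χ, rfl⟩)).symm, fun h _ ⟨χ, e⟩ =>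
        e ▸ (this χ).symm.trans (h χ).symm⟩
    have e : σ ε = ε ∧ ε * ε = 1 := by rcases hε with rfl | rfl <;> simp
    have h2 := pow_ne_zero k h0
    simp only [Set.mem_singleton_iff, forall_eq, map_add, map_mul, map_inv₀, e.1, hσ ζ hζ]
    rw [← sub_eq_zero, ← sub_eq_zero (a := ζ ^ k), ← sub_eq_zero (a := ζ ^ k), ← mul_eq_zero,
      ← mul_eq_zero_iff_right h2]
    refine iff_of_eq (congrArg (· = 0) ?_)
    field_simp
    ring
  refine (adjoin_eq_iff ?_ ?_).trans ⟨fun h k hk => ?_, fun h σ => ?_⟩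
  · rintro _ ⟨χ, rfl⟩
    exact isAlgebraic_rat_of_isIntegral (χ.2.isCharacter.isIntegral g)
  · rintro _ rfl
    exact h1.add (.mul (by rcases hε with rfl | rfl; exacts [isAlgebraic_one, isAlgebraic_one.neg]) h1.inv)
  · obtain ⟨σ, hσ⟩ := exists_ringEquiv_pow hM hk
    rw [← (key σ k hσ).1, h, (key σ k hσ).2]
  · obtain ⟨k, hk, hσ⟩ := exists_pow_of_ringHom hM (σ : ℂ →+* ℂ)
    rw [(key σ k hσ).1, h k hk, (key σ k hσ).2]

theorem le_norm {G : Type*} [Group G] [Finite G] {P : Subgroup G} {a : P}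
    (hi : (Subgroup.zpowers a).index = 2) : P ≤ N[Subgroup.zpowers (a : G)] := fun u hu => mem_norm_of_cj_le (by
  obtain ⟨i, e⟩ := ((Subgroup.zpowers a).normal_of_index_eq_two hi).conj_mem a (Subgroup.mem_zpowers a) ⟨u, hu⟩
  rw [cj_zpowers]; exact Subgroup.zpowers_le.2 ⟨i, congrArg Subtype.val e⟩)

theorem conj_cases {G : Type*} [Group G] [Finite G] (P : Sylow 2 G) {a x : P} {k : ℕ}
    (hi : (Subgroup.zpowers a).index = 2) (hx : x ∉ Subgroup.zpowers a) (h : IsConj (a : G) (a ^ k)) :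
    a ^ k = a ∨ a ^ k = x * a * x⁻¹ := by
  have hN := (Subgroup.zpowers a).normal_of_index_eq_two hi
  obtain ⟨y, hy⟩ := isConj_iff.1 h
  obtain ⟨B, hB⟩ : ∃ B, B = Subgroup.zpowers (a : G) := ⟨_, rfl⟩
  have h0 : ∀ u : P, ((u * a * u⁻¹ : P) : G) ∈ B := fun u => by
    obtain ⟨i, e⟩ := hN.conj_mem a (Subgroup.mem_zpowers a) u
    exact hB ▸ ⟨i, congrArg Subtype.val e⟩
  have h1 : ∀ y : G, y * a * y⁻¹ ∈ B → y ∈ N[B] := fun y hy => mem_norm_of_cj_le (by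
    rw [hB, cj_zpowers]; exact Subgroup.zpowers_le.2 (hB ▸ hy))
  have h2 : (P : Subgroup G) ≤ N[B] := fun u hu => h1 u (h0 ⟨u, hu⟩)
  obtain ⟨j, hj⟩ := IsPGroup.iff_orderOf.1 P.2 a
  have h3 : PiNat {2} (C[B].relIndex N[B]) := PiNat.of_dvd (pnat_pow_self Nat.prime_two (j - 1))
    ((relIndex_cent_cyclic_dvd (hB ▸ inferInstance) le_rfl).trans (by
      rw [hB, Nat.card_zpowers, Subgroup.orderOf_coe, hj]
      rcases j with _ | j
      · simp
      · rw [Nat.totient_prime_pow_succ Nat.prime_two]; simp))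
  have h4 := sup_eq_of_coprime_idx (cent_sub B) h2
    (pnat_coprime h3 (pHall_subl h2 le_top (sylowIn_top P)).idx)
  obtain ⟨c, h5, u, h6, rfl⟩ := (mem_sup_norml (h2.trans (cent_norm B))).1
    (h4.ge (h1 y (hy ▸ hB ▸ Subgroup.npow_mem_zpowers _ k)))
  have h7 : a ^ k = ⟨u, h6⟩ * a * ⟨u, h6⟩⁻¹ := Subtype.ext (by
    have := h5 _ (h0 ⟨u, h6⟩)
    rw [Subgroup.coe_pow, ← hy, ← mul_inv_eq_iff_eq_mul.2 this.symm]
    simp [mul_assoc])
  have h8 : ∀ v ∈ Subgroup.zpowers a, ∀ w ∈ Subgroup.zpowers a, v * w * v⁻¹ = w := fun v h8 w h9 => by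
    rw [IsMulCommutative.comm (abelian_zpowers a) h8 h9, mul_inv_cancel_right]
  by_cases h9 : (⟨u, h6⟩ : P) ∈ Subgroup.zpowers a
  · exact .inl (h7.trans (h8 _ h9 _ (Subgroup.mem_zpowers a)))
  · refine .inr (h7.trans ((h8 (⟨u, h6⟩ * x⁻¹) ((Subgroup.mul_mem_iff_of_index_two hi).2 (by simp [h9, hx])) _
      (hN.conj_mem a (Subgroup.mem_zpowers a) x)).symm.trans (by group)).symm)

theorem abel_iff {G : Type*} [Group G] [Finite G] (P : Sylow 2 G) {g : G} (hg : g ∈ (P : Subgroup G))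
    (h : 2 ∣ C1[g].index) : ¬ IsMulCommutative P := fun e =>
  (sylowIn_top P).not_dvd (by
    rw [Subgroup.relIndex_top_right]
    exact h.trans (Subgroup.index_dvd_of_le (le_cent1_iff.2 (abelian_iff.1 e hg))))

/-- Let G be a finite group with Sylow 2-subgroup P of order 2^n ≥ 8, and let ζ be a primitive 2^(n−1)-th root of unity in ℂ. Then the commutator subgroup of P has index 4 in P if and only if there is an element g of P whose conjugacy class in G has even size and such that the field generated over ℚ by the values at g of all irreducible complex characters of G equals ℚ(ζ + ζ⁻¹) or ℚ(ζ − ζ⁻¹). -/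
theorem result {G : Type*} [Group G] [Finite G] (P : Sylow 2 G) (n : ℕ) (hn : 3 ≤ n) (hP : Nat.card P = 2 ^ n) (ζ : ℂ) (hζ : IsPrimitiveRoot ζ (2 ^ (n - 1))) :
    (commutator ↥P).index = 4 ↔
      ∃ g : G, g ∈ (P : Subgroup G) ∧ 2 ∣ (Subgroup.centralizer ({g} : Set G)).index ∧
        (IntermediateField.adjoin ℚ {z : ℂ | ∃ χ : Cfsg.IrrCharacter G, (χ : G → ℂ) g = z} = IntermediateField.adjoin ℚ ({ζ + ζ⁻¹} : Set ℂ) ∨
          IntermediateField.adjoin ℚ {z : ℂ | ∃ χ : Cfsg.IrrCharacter G, (χ : G → ℂ) g = z} = IntermediateField.adjoin ℚ ({ζ - ζ⁻¹} : Set ℂ)) := by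
  obtain ⟨m, rfl⟩ := Nat.exists_eq_add_of_le' hn
  replace hζ : IsPrimitiveRoot ζ (2 ^ (m + 2)) := hζ
  have h0 : ζ ^ 2 ^ (m + 3) = 1 := by rw [pow_succ, pow_mul, hζ.pow_eq_one, one_pow]
  have h1 : ζ ^ 2 ^ (m + 1) = -1 := (hζ.pow (by positivity) (pow_succ 2 (m + 1))).eq_neg_one_of_two_right
  have h2 : ζ ≠ 0 := hζ.ne_zero (by positivity)
  have hg : ∀ g ∈ (P : Subgroup G), g ^ 2 ^ (m + 3) = 1 := fun g hg =>
    congrArg Subtype.val (hP ▸ pow_card_eq_one' (x := (⟨g, hg⟩ : P)))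
  have e1 : ζ + ζ⁻¹ = ζ + 1 * ζ⁻¹ := by ring
  have e2 : ζ - ζ⁻¹ = ζ + -1 * ζ⁻¹ := by ring
  have key : ∀ a : P, orderOf a = 2 ^ (m + 2) → ∀ i j : ℕ, a ^ i = a ^ j ↔ ζ ^ i = ζ ^ j := fun a ha i j => by
    rw [pow_eq_pow_iff_modEq, ha, hζ.eq_orderOf, (hζ.isOfFinOrder (by positivity)).pow_inj_mod, Nat.ModEq]
  rw [e1, e2]
  constructor
  · intro h
    obtain ⟨a, x, hd⟩ := PGrp.exists_dqs hP h
    have hN := (Subgroup.zpowers a).normal_of_index_eq_two hd.idx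
    have h3 : ∀ {j : ℕ} {ε : ℂ}, ε = 1 ∨ ε = -1 → x * a * x⁻¹ = a ^ j → ζ ^ j = ε * ζ⁻¹ →
        IntermediateField.adjoin ℚ {z : ℂ | ∃ χ : IrrCharacter G, (χ : G → ℂ) a = z} =
          IntermediateField.adjoin ℚ ({ζ + ε * ζ⁻¹} : Set ℂ) := fun {j ε} hε h3 h4 =>
      (field_iff (by positivity) (hg a a.2) h0 hε).2 fun k _ => by
        rw [← h4, ← key a hd.ord, ← pow_one ζ, ← pow_mul, one_mul, ← key a hd.ord, pow_one, ← h3]
        refine ⟨conj_cases P hd.idx hd.nmem, fun e => ?_⟩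
        rw [← Subgroup.coe_pow]
        rcases e with e | e <;> rw [e]
        exact isConj_iff.2 ⟨x, rfl⟩
    refine ⟨a, a.2, ?_, ?_⟩
    · rw [← C_zpowers]
      refine (PiNat.dvd ((sylowIn_top P).pi.of_dvd (Subgroup.relIndex_dvd_card _ _))
        (mt Subgroup.relIndex_eq_one.1 fun e => hd.not_commute hd.nmem (Subtype.ext ?_))).trans
        ((relIndex_dvd_of_norm (cent_norm _) (le_norm hd.idx)).trans
          (Subgroup.relIndex_dvd_index_of_le (cent_sub _)))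
      exact (e x.2 _ (Subgroup.mem_zpowers _)).symm
    have h4 : a⁻¹ = a ^ (2 ^ (m + 2) - 1) := by
      rw [inv_eq_iff_mul_eq_one, ← pow_succ', Nat.sub_add_cancel Nat.one_le_two_pow, ← hd.ord,
        pow_orderOf_eq_one]
    have h5 : ζ ^ (2 ^ (m + 2) - 1) = 1 * ζ⁻¹ := by
      rw [pow_sub₀ _ h2 Nat.one_le_two_pow, hζ.pow_eq_one, pow_one]
    rcases hd.rel with h6 | h6 | h6
    · exact .inl (h3 (.inl rfl) (h6.2.trans h4) h5)
    · exact .inl (h3 (.inl rfl) (h6.2.trans h4) h5)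
    · exact .inr (h3 (.inr rfl) h6.2.2 (by
        rw [pow_sub₀ _ h2 Nat.one_le_two_pow, pow_one]; exact congrArg (· * _) h1))
  rintro ⟨g, h3, h4, h5⟩
  obtain ⟨ε, hε, h5⟩ : ∃ ε : ℂ, (ε = 1 ∨ ε = -1) ∧ ∀ k : ℕ, k.Coprime (2 ^ (m + 3)) →
      (IsConj g (g ^ k) ↔ ζ ^ k = ζ ∨ ζ ^ k = ε * ζ⁻¹) :=
    h5.elim (fun e => ⟨_, .inl rfl, (field_iff (by positivity) (hg g h3) h0 (.inl rfl)).1 e⟩)
      fun e => ⟨_, .inr rfl, (field_iff (by positivity) (hg g h3) h0 (.inr rfl)).1 e⟩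
  have h6 := abel_iff P h3 h4
  have h7 : ¬ IsCyclic P := fun e => h6 (cyclic_abelian e)
  have h8 := PGrp.sq_dvd_index_commutator P.2 h7
  refine Nat.dvd_antisymm ?_ h8
  rcases m with _ | m
  · obtain ⟨i, h9, e⟩ := (Nat.dvd_prime_pow Nat.prime_two).1 (hP ▸ (commutator P).index_dvd_card)
    refine e ▸ pow_dvd_pow 2 (show i ≤ 2 from Nat.le_of_lt_succ (h9.lt_of_ne fun e' => h6 ?_))
    have := (commutator P).card_mul_index
    rw [e, e', ← hP] at this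
    exact Subgroup.center_eq_top_iff.1 ((commutator_eq_bot_iff_center_eq_top _).1 (Subgroup.card_eq_one.1
      ((mul_eq_right₀ Nat.card_pos.ne').1 this)))
  obtain ⟨a, rfl⟩ : ∃ a : P, a = g := ⟨⟨g, h3⟩, rfl⟩
  obtain ⟨s, h9, a1⟩ := (Nat.dvd_prime_pow Nat.prime_two).1 (hP ▸ orderOf_dvd_natCard a)
  have a2 : s ≠ m + 1 + 3 := fun e => h7 (isCyclic_of_orderOf_eq_card a (by rw [a1, hP, e]))
  have a3 : ¬ s ≤ m + 1 + 1 := fun e => by
    have b1 : (a : G) ^ (2 ^ (m + 1 + 1) + 1) = a := by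
      rw [pow_succ, orderOf_dvd_iff_pow_eq_one.1 (by rw [Subgroup.orderOf_coe, a1]; exact pow_dvd_pow 2 e),
        one_mul]
    have b2 := (h5 (2 ^ (m + 1 + 1) + 1) (Nat.Coprime.pow_right _
      (by simp [Nat.coprime_two_right, parity_simps]))).1 (by rw [b1])
    rw [pow_succ, h1] at b2
    have b3 : ζ ^ 4 ≠ 1 := hζ.pow_ne_one_of_pos_of_lt (by omega)
      (Nat.pow_lt_pow_right (a := 2) (m := 2) one_lt_two (by omega))
    rcases b2 with b2 | b2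
    · exact h2 (by linear_combination (-1 / 2) * b2)
    · have b4 : ζ * ζ = -ε := by field_simp at b2; linear_combination -b2
      refine b3 (by rw [show ζ ^ 4 = (ζ * ζ) ^ 2 by ring, b4]; rcases hε with rfl | rfl <;> norm_num)
  obtain rfl : s = m + 1 + 2 := by omega
  have a4 : (Subgroup.zpowers a).index = 2 := Nat.eq_of_mul_eq_mul_left (Nat.two_pow_pos (m + 1 + 2)) (by
    rw [← a1, ← Nat.card_zpowers, Subgroup.card_mul_index, Nat.card_zpowers, a1]; exact hP)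
  obtain ⟨x, a5⟩ : ∃ x : P, x * a * x⁻¹ ≠ a := by_contra fun e => (sylowIn_top P).not_dvd (by
    rw [Subgroup.relIndex_top_right]
    exact h4.trans (Subgroup.index_dvd_of_le fun u hu => mem_cent1.2 (mul_inv_eq_iff_eq_mul.1
      (congrArg Subtype.val (not_not.1 (not_exists.1 e ⟨u, hu⟩))))))
  obtain ⟨k, a6⟩ : ∃ k : ℕ, a ^ k = x * a * x⁻¹ := mem_powers_iff_mem_zpowers.2
    (((Subgroup.zpowers a).normal_of_index_eq_two a4).conj_mem a (Subgroup.mem_zpowers a) x)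
  have a7 : k.Coprime 2 := by
    have := orderOf_pow (n := k) a
    rw [a6, orderOf_conj', eq_comm, Nat.div_eq_self, a1] at this
    exact (Nat.Coprime.coprime_dvd_left (dvd_pow_self 2 (by omega)) (this.resolve_left (by positivity))).symm
  have a8 := ((h5 k (a7.pow_right _)).1 (isConj_iff.2 ⟨x, congrArg Subtype.val a6.symm⟩)).resolve_left
    fun e => a5 (by rw [← a6, (key a a1 k 1).2 (by rwa [pow_one]), pow_one])
  have a9 : 2 * 4 ∣ 2 * (k + 1) := (pow_dvd_pow 2 (by omega) : 2 ^ 3 ∣ 2 ^ (m + 1 + 2)).trans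
    ((hζ.pow_eq_one_iff_dvd _).1 (by
      rw [pow_mul', pow_succ ζ k, a8, inv_mul_cancel_right₀ h2]; rcases hε with rfl | rfl <;> norm_num))
  obtain ⟨u, rfl⟩ : ∃ u, k = 2 * (2 * u + 1) + 1 := ⟨k / 4, by omega⟩
  have b1 : a ^ 2 ∈ commutator P := by
    refine Subgroup.zpowers_le.2 ?_ ((mem_zpowers_pow_iff (k := 2 * u + 1)).2 ?_)
    · rw [← pow_mul, eq_mul_inv_of_mul_eq ((pow_succ ..).symm.trans a6)]
      exact Subgroup.commutator_mem_commutator trivial trivial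
    · exact Nat.Coprime.coprime_dvd_right ((orderOf_pow_dvd 2).trans a1.dvd)
        (Nat.Coprime.pow_right _ (by simp [Nat.coprime_two_right, parity_simps]))
  refine (Subgroup.index_dvd_of_le (Subgroup.zpowers_le.2 b1)).trans (dvd_of_eq
    (Nat.eq_of_mul_eq_mul_left (Nat.two_pow_pos (m + 2)) ?_))
  have b2 : orderOf (a ^ 2) = 2 ^ (m + 2) := by
    rw [orderOf_pow, a1, pow_succ, Nat.gcd_mul_left_left, Nat.mul_div_cancel _ two_pos]
  rw [← b2, ← Nat.card_zpowers, Subgroup.card_mul_index, Nat.card_zpowers, b2]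
  exact hP.trans (by ring)

end Cfsg.Agent.S4923
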