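import Cfsg.Statements.S4931
import Cfsg.Agent.Isa.I4
import Cfsg.Agent.CH.Cyclic
import Cfsg.Agent.Block.McK5
import Cfsg.Agent.S0081
import Cfsg.Agent.BG.S1

set_option autoImplicit false
open Cfsg

namespace Cfsg.Agent.S4931

open Cfsg.Agent.PF Cfsg.Agent.PF.CH Cfsg.Agent.BG

theorem key {X : Type*} [Group X] [Finite X] {p : ℕ} [hp : Fact p.Prime] (S : Sylow p X) {P : Subgroup X}
    (e : (S : Subgroup X) = P) (h : ∀ θ ∈ Irr N[P], ¬ p ∣ deg θ → Exts N[P] ⊤ θ) :
    ∃ K : Subgroup X, K.Normal ∧ K ⊔ N[P] = ⊤ ∧ K ⊓ N[P] = ⊥ := by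
  have hP : SylowIn p P ⊤ := e ▸ sylowIn_top S
  have cl : ∀ D, ⁅P, P⁆ ≤ D → D ⊴ N[P] → Subgroup.normalClosure (D : Set X) ⊓ N[P] ≤ D :=
    fun D h1 h2 => le_of_cfker h2 inf_le_right fun θ h3 h4 => by
      obtain ⟨η, h5, h6⟩ := exists_constt_Res (normG P) h3
      obtain ⟨χ, h7, rfl⟩ := h θ h3 (by
        rw [dvd_deg_iff hp.out (normalG P) (pHall_subl (normG P) le_top hP).not_dvd h5 h3 h6,
          (deg_eq_one_iff h5).2 ((cfker_Res_constt_iff (normalG P) (der_sub P)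
            (norms_der le_rfl) h3 h5 h6).1 (h1.trans h4))]
        exact hp.out.one_lt.ne' ∘ Nat.dvd_one.1)
      have := (cfker_normal h7).normal
      refine le_trans (le_inf inf_le_right (inf_le_left.trans (Subgroup.normalClosure_le_normal
        fun d hd => (Irr_mem_cfker h7).2 ?_))) fun x hx => mem_cfker_Res hx.1 hx.2
      rw [← Res_of_mem χ (h2.le hd), cfker_apply (h4 hd), Res_one_apply]
  obtain ⟨M, hM⟩ : ∃ M, M = Subgroup.normalClosure ((⁅P, P⁆ : Subgroup X) : Set X) := ⟨_, rfl⟩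
  obtain ⟨U, hU⟩ : ∃ U, U = Subgroup.normalClosure (P : Set X) := ⟨_, rfl⟩
  have h1 := hM ▸ cl _ le_rfl ⟨(der_sub P).trans (normG P), norms_der le_rfl⟩
  have h2 := hU ▸ cl _ (der_sub P) (normalG P)
  have : M.Normal := hM ▸ inferInstance
  have : U.Normal := hU ▸ inferInstance
  have PU : P ≤ U := hU ▸ Subgroup.le_normalClosure
  have PM : ⁅P, P⁆ ≤ M := hM ▸ Subgroup.le_normalClosure
  have MU : M ≤ U := hM ▸ Subgroup.normalClosure_le_normal ((der_sub P).trans PU)
  have nM := norm_of_normal M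
  have sU := pHall_subl PU le_top hP
  have h3 := Burnside_normal_complement (quotient_pHall (nM U) sU) (by
    rw [← quotientYidl (nM P), ← quotient_subnormG U (normalYl (nM P)), quotientYidl (nM P)]
    refine le_trans ?_ (abelian_iff.1 (sub_der1_abelian PM))
    rw [quotientSK (nM _) (nM _), ← Frattini_arg (K := M ⊔ P) (M := U ⊓ N[M ⊔ P])
      ⟨le_inf (sup_le MU PU) (normG _), inf_le_right⟩ (pHall_subl le_sup_right le_top hP)]
    exact sup_le le_rfl (((inf_le_inf_right _ inf_le_left).trans h2).trans le_sup_right))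
  obtain ⟨V, hV⟩ : ∃ V, V = coquo M (Op' p (U /ᵍ M)) := ⟨_, rfl⟩
  have : V.Normal := hV ▸ (cosetpre_normal (normal_top M) ((quotient_normal M (normal_top U)).pcore _)).normal
  have h4 : V ⊓ P ≤ ⁅P, P⁆ := le_trans (le_inf (by
    rw [← quotient_sub1 (nM _), ← le_bot_iff, ← h3.inf, inf_comm, hV, quotient_setIpre, inf_comm])
      (inf_le_right.trans (normG P))) h1
  obtain ⟨Q, K, _, hK⟩ := S0081.result S V (by
    rw [e]; exact h4.trans (der1_sub_Phi (pgroup_nil hP.pg)) |>.trans (by rw [← e]; rfl))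
  have h5 := sdprod_of_isComplement' hK
  have h6 : IsPiHallOf {p}ᶜ (Op' p V) V := compl_pHall h5.compl.symm (sylowIn_of_sylow Q)
  have h7 := sdprod_of_pHall h6 (pcore_normal _ _) (by
    simpa using Sylow_setI_normal (normal_top V) hP)
  refine ⟨Op' p V, ((normal_top V).pcore _).normal, ?_, ?_⟩
  · rw [eq_top_iff, ← Frattini_arg (normal_top U) sU, top_inf_eq]
    refine sup_le ?_ le_sup_right
    have h8 : U ≤ V ⊔ P := by
      have h9 : M ≤ V := hV ▸ sub_cosetpre _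
      rw [← quotientSGK (nM _) (h9.trans le_sup_left), quotientY (nM _) (nM _), hV, cosetpreK, h3.sup]
    refine h8.trans (sup_le (h7.sup.ge.trans (sup_le_sup_left ?_ _)) ((normG P).trans le_sup_right))
    exact inf_le_right.trans (normG P)
  · have h8 : V ≤ U := hV ▸ (sub_cosetpre_quo ⟨MU, nM _⟩).2 (pcore_sub _ _)
    rw [eq_bot_iff, ← pgroup_TI' (pcore_pgroup {p}ᶜ V) hP.pi]
    exact le_inf inf_le_left ((inf_le_inf_right _ ((pcore_sub _ _).trans h8)).trans h2)

/-- Let G be a finite group, p a prime and P a Sylow p-subgroup of G with normalizer N. Then every irreducible complex character of N of degree not divisible by p is the restriction of an irreducible character of G if and only if there is a normal subgroup K of G with KN = G and K ∩ N = 1. -/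
theorem result {G : Type*} [Group G] [Finite G] (p : ℕ) [Fact p.Prime] (P : Sylow p G) :
    (∀ θ : Cfsg.IrrCharacter ↥(Subgroup.normalizer ((P : Subgroup G) : Set G)), ¬ p ∣ Cfsg.charDegree (θ : ↥(Subgroup.normalizer ((P : Subgroup G) : Set G)) → ℂ) →
        ∃ χ : Cfsg.IrrCharacter G, ∀ x : ↥(Subgroup.normalizer ((P : Subgroup G) : Set G)), (χ : G → ℂ) x = (θ : ↥(Subgroup.normalizer ((P : Subgroup G) : Set G)) → ℂ) x) ↔
      ∃ K : Subgroup G, K.Normal ∧ K ⊔ Subgroup.normalizer ((P : Subgroup G) : Set G) = ⊤ ∧ K ⊓ Subgroup.normalizer ((P : Subgroup G) : Set G) = ⊥ := by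
  refine ⟨fun h => key P rfl fun θ h1 h2 => ?_, fun ⟨K, _, h1, h2⟩ θ _ => ?_⟩
  · obtain ⟨θ, rfl⟩ := exists_ez h1
    obtain ⟨χ, h3⟩ := h θ (deg_ez θ ▸ h2)
    exact ⟨χ, mem_Irr_top.2 χ.2, CF_ext (Res_mem_CF ((CF_inv (Irr_CF (mem_Irr_top.2 χ.2))).mono le_top))
      (Irr_CF h1) fun g hg => by rw [Res_of_mem _ hg, ez_of_mem _ hg, ← h3]⟩
  · obtain ⟨η, h3, h4⟩ := exists_Irr_sdprod ⟨h1, norm_of_normal _ _, h2⟩ (ez_irr θ)
    exact ⟨⟨η, mem_Irr_top.1 h3⟩, fun x => by
      simpa using h4 1 (one_mem _) x x.2⟩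

end Cfsg.Agent.S4931
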