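import Cfsg.Statements.S4937
import Cfsg.Agent.Block.Dade

set_option autoImplicit false
open Cfsg

namespace Cfsg.Agent.S4937

open Cfsg.Agent.Block Cfsg.Agent.BMod Cfsg.Agent.Char MonoidAlgebra


/-- Let G be a finite group, p a prime, M a maximal ideal of the algebraic integers containing p, N a normal subgroup of G and P a Sylow p-subgroup of N such that G = N·C_G(P). Let θ be an irreducible character in the principal p-block of N that is the restriction of some irreducible character of G. Then θ is the restriction of an irreducible character χ of G lying in the principal p-block of G such that, for every subgroup J of G containing N, the restriction of χ to J is an irreducible character of J lying in the principal p-block of J. -/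
theorem result {G : Type*} [Group G] [Finite G] (p : ℕ) [Fact p.Prime] (M : Ideal Cfsg.AlgInt) (hM : Cfsg.IsPModular p M) (N : Subgroup G) [N.Normal] (P : Sylow p ↥N)
    (hcov : N ⊔ Subgroup.centralizer (((P : Subgroup ↥N).map N.subtype : Subgroup G) : Set G) = ⊤)
    (θ : Cfsg.IrrCharacter ↥N) (hθ : θ ∈ Cfsg.principalBlock M ↥N)
    (hext : ∃ ψ : Cfsg.IrrCharacter G, ∀ x : ↥N, (ψ : G → ℂ) x = (θ : ↥N → ℂ) x) :
    ∃ χ : Cfsg.IrrCharacter G, χ ∈ Cfsg.principalBlock M G ∧ (∀ x : ↥N, (χ : G → ℂ) x = (θ : ↥N → ℂ) x) ∧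
      ∀ J : Subgroup G, N ≤ J → ∃ ξ : Cfsg.IrrCharacter ↥J, ξ ∈ Cfsg.principalBlock M ↥J ∧ ∀ y : ↥J, (ξ : ↥J → ℂ) y = (χ : G → ℂ) y := by
  haveI : PMod p M := ⟨hM⟩
  have := Fintype.ofFinite G
  obtain ⟨ψ, hψ⟩ := hext
  have hS := Dade.sy_sylow P
  have hc : ∀ g, Dade.Cov N _ g := fun g => Dade.cov_iff.1 (hcov ▸ Subgroup.mem_top g)
  have h : Dade.Ext ψ.1 θ := ⟨ψ.2.isCharacter, hψ⟩
  obtain ⟨lam, h1, h2⟩ := h.exists_twist hθ hS (K := ⊤) (fun k => by simp [hc]) (a := 0) (by simp)
    (Dade.frattini P)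
  have h3 := h.mul_hom h1
  refine ⟨⟨_, h3.irr⟩, h2.mem h3 hθ hS fun g _ => hc g, h3.res, fun J hJ => ?_⟩
  have h4 : IsIrrCharacter J fun y : J => lam y * ψ.1 y :=
    CharDeep.isIrr_of_isIrr_res (N.subgroupOf J) (h3.ch.restrict J) (CharDeep.isIrr_subOf hJ h3.irr')
  exact ⟨⟨_, h4⟩, h2.mem_sub h3 hθ hS (fun g _ => hc g) hJ fun _ => rfl, fun _ => rfl⟩

end Cfsg.Agent.S4937
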