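import Cfsg.Statements.S4989
import Cfsg.Agent.CharDeep.Avg

set_option autoImplicit false
open Cfsg

namespace Cfsg.Agent.S4989

open Cfsg.Agent.Char Cfsg.Agent.CharDeep

/-- Let H be a subgroup of the finite group G and χ an irreducible complex character of G. Then the inner product of the restriction of χ to H with itself, (1/#H)·Σ_{h ∈ H} |χ(h)|², is at most 1 + #(Z ∖ H)/#H, where Z is the set of zeros of χ in G. -/
theorem result {G : Type*} [Group G] [Finite G] (H : Subgroup G) (χ : Cfsg.IrrCharacter G) : (Nat.card ↥H : ℝ)⁻¹ * ∑ᶠ h : ↥H, ‖(χ : G → ℂ) h‖ ^ 2 ≤ 1 + (Set.ncard ({x : G | (χ : G → ℂ) x = 0} \ (H : Set G)) : ℝ) / (Nat.card ↥H : ℝ) := by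
  classical
  have := Fintype.ofFinite G
  have h1 := sum_norm_sq_add_card_le χ.2 H
  have hH : (0 : ℝ) < Nat.card H := by exact_mod_cast Nat.card_pos
  rw [finsum_eq_sum_of_fintype, ← Finset.sum_subtype (Finset.univ.filter fun x => x ∈ H)
    (by simp) (fun x => ‖χ.1 x‖ ^ 2), inv_mul_le_iff₀ hH, mul_add, mul_one,
    mul_div_cancel₀ _ hH.ne']
  have h2 : ({x : G | χ.1 x = 0} \ (H : Set G)).ncard =
      (Finset.univ.filter fun x => x ∉ H ∧ χ.1 x = 0).card := by
    rw [← Set.ncard_coe_finset]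
    congr 1
    ext x
    simp [and_comm]
  have h3 : Nat.card H + ((Finset.univ.filter fun x => x ∉ H ∧ χ.1 x = 0).card +
      (Finset.univ.filter fun x => x ∉ H ∧ χ.1 x ≠ 0).card) = Nat.card G := by
    rw [← Finset.filter_filter, ← Finset.filter_filter, Finset.card_filter_add_card_filter_not,
      Nat.card_eq_fintype_card, Fintype.card_subtype, Finset.card_filter_add_card_filter_not,
      Finset.card_univ, Nat.card_eq_fintype_card]
  have h4 : (Nat.card H : ℝ) + ((Finset.univ.filter fun x => x ∉ H ∧ χ.1 x = 0).card +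
      (Finset.univ.filter fun x => x ∉ H ∧ χ.1 x ≠ 0).card) = Nat.card G := by exact_mod_cast h3
  rw [h2]
  linarith

end Cfsg.Agent.S4989
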