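import Cfsg.Statements.S4990
import Cfsg.Agent.KB.Grp
import Cfsg.Agent.KB.Over

set_option autoImplicit false
open Cfsg

namespace Cfsg.Agent.S4990

open Cfsg.Agent.Block Cfsg.Agent.BMod Cfsg.Agent.Char Cfsg.Agent.CharDeep Cfsg.Agent.KB Subgroup

theorem grp {p : ℕ} [hp : Fact p.Prime] (X : Type*) [Group X] [Finite X] [Group.IsSolvable X]
    (hO : pPrimeCore p X = ⊥) : Nat.card (ConjClasses X) ≤
      3 ^ ((Nat.card X).factorization p - 1) * p ^ (Nat.card X).factorization p := by
  rcases subsingleton_or_nontrivial X with h | h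
  · have : Subsingleton (ConjClasses X) := ConjClasses.mk_surjective.subsingleton
    have : Finite (ConjClasses X) := Finite.of_surjective _ ConjClasses.mk_surjective
    exact (Finite.card_le_one_iff_subsingleton.2 inferInstance).trans
      (Nat.mul_pos (Nat.pow_pos three_pos) (Nat.pow_pos hp.out.pos))
  let e : Shrink.{0} X ≃* X := Shrink.mulEquiv
  have : Finite (Shrink.{0} X) := Finite.of_equiv _ e.symm.toEquiv
  have : Nontrivial (Shrink.{0} X) := e.toEquiv.nontrivial
  have : Group.IsSolvable (Shrink.{0} X) :=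
    Group.isSolvable_of_surjective (f := e.symm.toMonoidHom) e.symm.surjective
  have h1 := pp (p := p) _ (Shrink.{0} X) (Nat.lt_succ_self _)
    (by rw [← PLocal.pPrimeCore_map_equiv e.symm, hO, Subgroup.map_bot])
  have : Finite (ConjClasses (Shrink.{0} X)) := Finite.of_surjective _ ConjClasses.mk_surjective
  have h2 : Nat.card (ConjClasses X) ≤ Nat.card (ConjClasses (Shrink.{0} X)) :=
    Nat.card_le_card_of_surjective _ (ConjClasses.map_surjective (f := e.toMonoidHom) e.surjective)
  rw [gw, Nat.card_congr e.toEquiv, mul_pow] at h1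
  generalize (Nat.card X).factorization p = d at h1 ⊢
  rcases d with _ | d
  · have : 0 < Nat.card (ConjClasses (Shrink.{0} X)) := Nat.card_pos
    simp at h1
    omega
  · rw [pow_succ 3] at h1
    rw [Nat.add_sub_cancel]
    nlinarith

theorem aux.{u} {p : ℕ} [hp : Fact p.Prime] {M : Ideal AlgInt} [PMod p M] {G : Type u} [Group G]
    [Finite G] (hs : Group.IsSolvable G) {B : Set (IrrCharacter G)} (hB : IsPBlock M B) :
    Nat.card B ≤ 3 ^ (blockDefect p B - 1) * p ^ blockDefect p B := by
  induction hn : Nat.card G using Nat.strong_induction_on generalizing G with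
  | _ n ih =>
  have := Fintype.ofFinite G
  have := Fintype.ofFinite (pPrimeCore p G)
  obtain ⟨χ, hχ⟩ : ∃ χ, χ ∈ B := by
    obtain ⟨χ, rfl⟩ := hB
    exact ⟨χ, mem_blockOf_self _⟩
  obtain ⟨θ, hθ⟩ := exists_liesOver_under (N := pPrimeCore p G) χ
  by_cases hT : inertia _ (θ : pPrimeCore p G → ℂ) = ⊤
  · have h0 := (inertia_eq_top_iff _).1 hT
    have h1 := fun g => Subtype.ext (h0 g) (a1 := conjIrr _ g θ)
    obtain ⟨h2, h3, -⟩ := fong_psolv (M := M) PLocal.pSolv_of_isSolvable h1
    have hχ' : χ ∈ overSet _ {θ} := ⟨θ, rfl, hθ⟩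
    obtain rfl : B = overSet _ {θ} :=
      (IsPBlock.eq_blockOf hB hχ).trans (IsPBlock.eq_blockOf h2 hχ').symm
    have h4 := (isDefectGroup_sylow_iff hB default).1 (h3 default)
    have h5 : (Nat.card G).factorization p = (Nat.card (G ⧸ pPrimeCore p G)).factorization p := by
      rw [card_eq_card_quotient_mul_card_subgroup (pPrimeCore p G),
        Nat.factorization_mul Nat.card_pos.ne' Nat.card_pos.ne', Finsupp.add_apply,
        Nat.factorization_eq_zero_of_not_dvd not_dvd_pPrimeCore, add_zero]
    rw [h4, h5]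
    refine le_trans ?_ ((card_over_le _ θ.2 h0).trans
      (grp _ (PLocal.pPrimeCore_quotient_pPrimeCore p G)))
    exact (Nat.card_congr (Equiv.subtypeEquivRight fun ψ => by
      rw [← liesOver_iff]; simp [overSet])).le
  obtain ⟨B', hB', -, h1, h2, -⟩ := fr_step not_dvd_pPrimeCore hB ⟨χ, hχ, θ, rfl, hθ⟩ rfl
    (le_inertia _ θ.2.isClassFunction)
  obtain ⟨D, hD⟩ := exists_isDefectGroup (p := p) hB'
  have h3 : blockDefect p B = blockDefect p B' := Nat.pow_right_injective hp.out.two_le (by
    simp only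
    rw [← IsDefectGroup.card_eq hB (h2 D hD), ← IsDefectGroup.card_eq hB' hD,
      card_map_of_injective (subtype_injective _)])
  rw [h3]
  refine le_trans ?_ (ih _ (hn ▸ card_lt_of_ne_top' hT) inferInstance hB' rfl)
  choose f hf using fun ψ : B => (h1 ψ).1 ψ.2
  exact Nat.card_le_card_of_injective (fun ψ => (⟨f ψ, (hf ψ).1⟩ : B')) fun a b e =>
    Subtype.ext (Subtype.ext (by rw [(hf a).2, (hf b).2, show f a = f b from congrArg Subtype.val e]))

/-- Let G be a finite solvable group, p a prime, M a maximal ideal of the algebraic integers containing p, and B a p-block of G of positive defect d. Then B contains at most 3^{d−1}·p^d irreducible complex characters. -/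
theorem result {G : Type*} [Group G] [Finite G] (hsolv : Group.IsSolvable G) (p : ℕ) [Fact p.Prime] (M : Ideal Cfsg.AlgInt) (hM : Cfsg.IsPModular p M) (B : Set (Cfsg.IrrCharacter G)) (hB : Cfsg.IsPBlock M B) (hd : 0 < Cfsg.blockDefect p B) : Set.ncard B ≤ 3 ^ (Cfsg.blockDefect p B - 1) * p ^ Cfsg.blockDefect p B := by
  have : PMod p M := ⟨hM⟩
  exact aux hsolv hB

end Cfsg.Agent.S4990
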