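import Cfsg.Statements.S4993
import Cfsg.Agent.Isa.I7
import Cfsg.Agent.S0205

set_option autoImplicit false
open Cfsg

namespace Cfsg.Agent.S4993

open Cfsg.Agent.PF Cfsg.Agent.PF.CH Cfsg.Agent.BG


/-- Let G be a group of odd order whose order has exactly two prime divisors and whose quotient by its Fitting subgroup is nilpotent (G is metanilpotent), and let χ be a primitive irreducible complex character of G (not induced from a character of any proper subgroup). Then χ(1) divides the size of some conjugacy class of G. -/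
theorem result {G : Type*} [Group G] [Fintype G] (hodd : Odd (Nat.card G)) (h2 : (Nat.card G).primeFactors.card = 2) [hF : (Cfsg.fittingSubgroup G).Normal] (hmeta : Group.IsNilpotent (G ⧸ Cfsg.fittingSubgroup G)) (χ : Cfsg.IrrCharacter G) (hprim : ¬ ∃ (H : Subgroup G), H ≠ ⊤ ∧ ∃ θ : ↥H → ℂ, Cfsg.IsCharacter ↥H θ ∧ Cfsg.indFun H θ = (χ : G → ℂ)) : ∃ g : G, Cfsg.charDegree (χ : G → ℂ) ∣ (Subgroup.centralizer ({g} : Set G)).index := by
  have hs := S0205.result hodd
  obtain ⟨p, q, hpq, e⟩ := Finset.card_eq_two.1 h2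
  have h1 : ∀ r, r.Prime ∧ r ∣ Nat.card G ↔ r = p ∨ r = q := fun r => by
    simpa [Nat.card_pos.ne'] using Finset.ext_iff.1 e r
  obtain ⟨F, eF⟩ : ∃ F, F = fittingOf (⊤ : Subgroup G) := ⟨_, rfl⟩
  have nF : F ⊴ ⊤ := eF ▸ Fitting_normal _
  have hn : Group.IsNilpotent (⊤ /ᵍ F) := by
    rw [eF, Fitting_top]; exact isog_nil (quotient_top_isog _) hmeta
  have key : ∀ r, r.Prime → ∃ g : G, ∀ t ∈ coquo F (Op r (⊤ /ᵍ F)), (deg χ.1).factorization r ≤
      C1[g * t].index.factorization r := fun r hr => prim_class hr hs (mem_Irr_top.2 χ.2)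
    (prim_of χ hprim) fun L K hc hq => by
      have := Fact.mk hr
      obtain ⟨S, hS, e⟩ := RelP.exists (p := r) (L := F) (P := coquo F (Op r (⊤ /ᵍ F)))
        ⟨hr, normal_cosetpre _, by
          rw [← card_quotient (cosetpre_norm _), cosetpreK]; exact pcore_pgroup _ _⟩
      have nT := (cosetpre_normal nF (pcore_normal {r} _)).norm
      have mV := chief_factor_minnormal hc
      have nL : ∀ A : Subgroup G, A ≤ N[L] := fun A => le_top.trans hc.nV
      refine (quotient_cents2 (nL _) (nL _)).1 (inf_eq_left.1 (mV.map_eq inf_le_left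
        (normsI mV.norm (norms_cent (quotient_norms _ nT))) ?_))
      rw [← e, quotientY (nL _) (nL _), cent_sup, ← inf_assoc, inf_eq_left.2 (quotient_cents2r
        (eF ▸ Fitting_stab_chief hc (solvable_of K)))]
      exact pgroup_cent_ne_bot (hS.pg.quo L) (pgroup_iff.2 (by
        rw [PiGrp, card_quotient (nL _)]; exact hq.idx)) (quotient_norms _ (le_top.trans hc.nU)) mV.ne
  have hp := ((h1 p).2 (.inl rfl)).1
  have hq := ((h1 q).2 (.inr rfl)).1
  obtain ⟨x, hx⟩ := key p hp
  obtain ⟨y, hy⟩ := key q hq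
  have h3 : coquo F (Op p (⊤ /ᵍ F)) ⊔ coquo F (Op q (⊤ /ᵍ F)) = ⊤ := by
    refine top_le_iff.1 ((quotientSGK nF.norm ((sub_cosetpre _).trans le_sup_left)).1 ?_)
    rw [quotientY (cosetpre_norm _) (cosetpre_norm _), cosetpreK, cosetpreK]
    refine (nilpotent_pcoreC {p} hn).sup.ge.trans (sup_le_sup_left (sub_in_pcore fun r hr hd h4 => ?_) _)
    exact ((h1 r).1 ⟨hr, hd.trans ((dvdn_quotient _ _).trans (by simp))⟩).resolve_left h4
  obtain ⟨t, ht, u, hu, h4⟩ := (mem_sup_normr (le_top.trans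
    (cosetpre_normal nF (pcore_normal {q} _)).norm)).1 (h3 ▸ Subgroup.mem_top (x⁻¹ * y))
  refine ⟨x * t, (Nat.factorization_prime_le_iff_dvd (Irr_deg_pos (mem_Irr_top.2 χ.2)).ne'
    Subgroup.index_ne_zero_of_finite).1 fun r hr => ?_⟩
  by_cases h5 : r ∣ deg χ.1
  · rcases (h1 r).1 ⟨hr, h5.trans ((dvd_irr1_cardG (mem_Irr_top.2 χ.2)).trans (by simp))⟩ with rfl | rfl
    · exact hx t ht
    · rw [show x * t = y * u⁻¹ by rw [eq_mul_inv_iff_mul_eq, mul_assoc, ← h4]; group]
      exact hy _ (inv_mem hu)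
  · exact (Nat.factorization_eq_zero_of_not_dvd h5).le.trans (Nat.zero_le _)

end Cfsg.Agent.S4993
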