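import Cfsg.Statements.S5001
import Cfsg.Agent.BMod.SubF
-- import your own Cfsg.Agent.* helpers here

set_option autoImplicit false
open Cfsg

namespace Cfsg.Agent.S5001

open Cfsg.Agent.BMod Cfsg.Agent.Block Cfsg.Agent.Transfer Cfsg.Agent.Char Cfsg.Agent.CharDeep

/-- Let p be a prime, G a finite group and B a p-block of G (relative to a maximal ideal M of the algebraic integers containing p) with defect group D. Let Z be a central p-subgroup of G contained in D and λ a linear character of Z (a homomorphism to the nonzero complex numbers). Say an irreducible character χ of G lies over λ when χ(z) = χ(1)λ(z) for all z ∈ Z. If some irreducible character in B lying over λ has height zero, then λ extends to a linear character of D. -/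
theorem result {G : Type*} [Group G] [Finite G] (p : ℕ) [Fact p.Prime] (M : Ideal Cfsg.AlgInt) (hM : Cfsg.IsPModular p M) (B : Set (Cfsg.IrrCharacter G)) (hB : Cfsg.IsPBlock M B) (D : Subgroup G) (hD : Cfsg.IsDefectGroup p M B D) (Z : Subgroup G) (hZc : Z ≤ Subgroup.center G) (hZp : IsPGroup p ↥Z) (hZD : Z ≤ D) (lam : ↥Z →* ℂˣ) (χ : Cfsg.IrrCharacter G) (hχ : χ ∈ B) (hover : (∀ z : ↥Z, (χ : G → ℂ) z = (χ : G → ℂ) 1 * (lam z : ℂ))) (h0 : Cfsg.blockHeight p B (χ : G → ℂ) = 0) : (∃ μ : ↥D →* ℂˣ, ∀ z : ↥Z, μ ⟨(z : G), hZD z.2⟩ = lam z) := by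
  haveI : PMod p M := ⟨hM⟩
  classical
  have := Fintype.ofFinite G
  obtain ⟨y, hy, P, hP⟩ := hD
  have hDy : ∀ d : D, (d : G) * y = y * d := fun d => by
    obtain ⟨d, hd⟩ := d
    obtain ⟨x, -, rfl⟩ := hP ▸ hd
    exact (x.2 y rfl).symm
  have hDp : IsPGroup p D := hP ▸ P.2.map _
  have h1 := (IsDefectClass.height_eq_zero_iff hB hy hχ).1 h0
  let f : D × Subgroup.zpowers y →* G := MonoidHom.noncommCoprod D.subtype
    (Subgroup.zpowers y).subtype fun d z => by
      obtain ⟨z, k, rfl⟩ := z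
      exact Commute.zpow_right (hDy d) k
  have hf : ∀ d z, f (d, z) = d * z := fun _ _ => rfl
  have hc := IsCharacter.comp (IsIrrCharacter.isCharacter χ.2) f
  obtain ⟨n, hn, hn'⟩ := IsCharacter.exists_nat_coeff hc
  have h2 := congrFun hn' (1, ⟨y, Subgroup.mem_zpowers y⟩)
  rw [hf, OneMemClass.coe_one, one_mul, Finset.sum_apply] at h2
  simp only [Pi.smul_apply, smul_eq_mul] at h2
  rw [h2, red_sum _ fun ξ _ => mul_mem (natCast_mem _ _) (irr_mem_O ξ _)] at h1
  obtain ⟨ξ, -, h3⟩ := Finset.exists_ne_zero_of_sum_ne_zero h1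
  obtain ⟨ζ, β, hζ, hβ, h4⟩ := exists_prod_of_isIrr ξ.2
  have hO := IsCharacter.mem_O (M := M) (IsIrrCharacter.isCharacter hζ)
  have hO' := IsCharacter.mem_O (M := M) (IsIrrCharacter.isCharacter hβ)
  rw [red_mul (natCast_mem _ _) (irr_mem_O ξ _), h4, red_mul (hO _) (hO' _)] at h3
  have h5 : ζ 1 = 1 := by
    have h6 := left_ne_zero_of_mul (right_ne_zero_of_mul h3)
    obtain ⟨m, hm⟩ := hDp.exists_card_eq
    obtain ⟨j, -, hj⟩ := (Nat.dvd_prime_pow (Fact.out : p.Prime)).1
      (hm ▸ IsIrrCharacter.charDegree_dvd_card hζ)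
    simp only at h6
    rw [← deg_cast (IsIrrCharacter.isCharacter hζ), hj] at h6 ⊢
    rcases j with _ | j
    · simp
    · rw [red_natCast, Ne, natCast_F_eq_zero_iff] at h6
      exact absurd (dvd_pow_self p j.succ_ne_zero) h6
  obtain ⟨μ, rfl⟩ := IsCharacter.exists_hom_of_apply_one (IsIrrCharacter.isCharacter hζ) h5
  refine ⟨μ, fun z => Units.ext ?_⟩
  have h7 : (n ξ : ℂ) ≠ 0 := fun h => left_ne_zero_of_mul h3 (by
    rw [h, red_zero])
  rw [← hn, h4] at h7
  have h8 : ∀ g : G, (χ : G → ℂ) (z * g) = lam z * (χ : G → ℂ) g := fun g => by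
    rw [apply_central_mul χ (hZc z.2), hover, mul_div_cancel_left₀ _
      (IsIrrCharacter.apply_one_ne_zero χ.2)]
  have h9 := classInner_tr_tr ((⟨z, hZD z.2⟩, 1) : D × Subgroup.zpowers y) (fun x => χ.1 (f x))
    fun x => μ x.1 * β x.2
  rw [show tr ((⟨z, hZD z.2⟩, 1) : D × Subgroup.zpowers y) (fun x => χ.1 (f x)) =
      (lam z : ℂ) • fun x => χ.1 (f x) from funext fun x => by
        rw [tr_apply, map_mul, hf, OneMemClass.coe_one, mul_one, h8]; rfl,
    show tr ((⟨z, hZD z.2⟩, 1) : D × Subgroup.zpowers y) (fun x => (μ x.1 : ℂ) * β x.2) =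
      (μ ⟨z, hZD z.2⟩ : ℂ) • fun x => (μ x.1 : ℂ) * β x.2 from funext fun x => by
        simp [mul_assoc], classInner_smul_left, classInner_smul_right, ← mul_assoc] at h9
  have h10 := mul_right_cancel₀ h7 (h9.trans (one_mul _).symm)
  rw [← IsCharacter.apply_inv (isCharacter_hom μ), map_inv, Units.val_inv_eq_inv_val,
    mul_inv_eq_one₀ (Units.ne_zero _)] at h10
  exact h10.symm

end Cfsg.Agent.S5001
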