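import Cfsg.Statements.S5011
import Cfsg.Agent.Char.Burnside

set_option autoImplicit false
open Cfsg

namespace Cfsg.Agent.S5011

open Cfsg.Agent.Char Module

/-- Let G be a finite non-abelian simple group and ρ an irreducible complex representation of G on a space of dimension greater than one (irreducible in the sense that the only subspaces invariant under every ρ(x) are 0 and the whole space). Then for every non-identity element g of G, the centralizer of g does not act irreducibly: there is a non-zero proper subspace invariant under ρ(c) for every c commuting with g. -/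
theorem result {G : Type*} [Group G] [Finite G] [IsSimpleGroup G]
    (hG : ¬ IsMulCommutative G) {V : Type*} [AddCommGroup V] [Module ℂ V] [FiniteDimensional ℂ V]
    (ρ : Representation ℂ G V)
    (hirr : ∀ W : Submodule ℂ V, (∀ x : G, ∀ v ∈ W, ρ x v ∈ W) → W = ⊥ ∨ W = ⊤)
    (hdim : 1 < Module.finrank ℂ V) (g : G) (hg : g ≠ 1) :
    ∃ W : Submodule ℂ V, W ≠ ⊥ ∧ W ≠ ⊤ ∧ ∀ c ∈ Subgroup.centralizer ({g} : Set G), ∀ v ∈ W, ρ c v ∈ W := by
  have hnt : Nontrivial V := Module.nontrivial_of_finrank_pos (R := ℂ) (by omega)
  have hρ : ρ.IsIrreducible := (isIrreducible_iff ρ).2 ⟨hnt, hirr⟩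
  obtain ⟨c, hc⟩ := Module.End.exists_eigenvalue (ρ g)
  refine ⟨Module.End.eigenspace (ρ g) c, hc, ?_, ?_⟩
  · intro htop
    have h1 : g ∈ charCenter ρ.character := by
      rw [mem_charCenter_character]
      refine ⟨c, LinearMap.ext fun v => ?_⟩
      have : v ∈ Module.End.eigenspace (ρ g) c := htop ▸ Submodule.mem_top
      simpa using Module.End.mem_eigenspace_iff.1 this
    have hχ := isIrrCharacter_character ρ
    have hne : ρ.character ≠ fun _ => 1 := by
      intro h
      have := congrFun h 1
      rw [Representation.char_one] at this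
      have : finrank ℂ V = 1 := by exact_mod_cast this
      omega
    rw [hχ.charCenter_eq_center (hχ.charKer_eq_bot_of_simple hne)] at h1
    rcases (Subgroup.normal_of_characteristic (Subgroup.center G)).eq_bot_or_eq_top with h | h
    · rw [h] at h1; exact hg h1
    · apply hG
      refine ⟨⟨fun a b => ?_⟩⟩
      have : b ∈ Subgroup.center G := h ▸ Subgroup.mem_top b
      exact Subgroup.mem_center_iff.1 this a
  · intro x hx v hv
    rw [Module.End.mem_eigenspace_iff] at hv ⊢
    have hxg : g * x = x * g := Subgroup.mem_centralizer_iff.1 hx g rfl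
    rw [← Module.End.mul_apply, ← map_mul, hxg, map_mul, Module.End.mul_apply, hv, map_smul]

end Cfsg.Agent.S5011
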