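import Cfsg.Statements.S5075
import Cfsg.Agent.Root.McL2

set_option autoImplicit false
open Cfsg

namespace Cfsg.Agent.S5075
open Module Cfsg.Agent.Geom Cfsg.Agent.Root.Mx Cfsg.Agent.Root.McL

theorem _root_.Cfsg.Agent.Root.McL.Cl.surj {F : Type*} [Field F] {M N : Type*} [AddCommGroup M] [Module F M]
    [AddCommGroup N] [Module F N] [FiniteDimensional F M] {β : M →ₗ[F] N →ₗ[F] F} {R C : M → N → Prop}
    (h : Cl β R C) (f : Dual F h.flip.Vc) : ∃ v ∈ h.Vc, ∀ φ : h.flip.Vc, β v φ = f φ := by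
  obtain ⟨v, hv⟩ := (LinearMap.flip_injective_iff₁ (B := β.domRestrict₁₂ h.Vc h.flip.Vc)).1
    ((injective_iff_map_eq_zero _).2 fun φ e => Subtype.ext (h.flip.sep φ.2 fun v hv =>
      LinearMap.congr_fun e ⟨v, hv⟩)) f
  exact ⟨v, v.2, fun φ => LinearMap.congr_fun hv φ⟩

theorem exists_rt {p : ℕ} [Fact p.Prime] {V : Type*} [AddCommGroup V] [Module (ZMod p) V] [Finite V]
    {H : Subgroup (V ≃ₗ[ZMod p] V)} {t : V ≃ₗ[ZMod p] V} (ht : t ∈ H) (h1 : orderOf t = p)
    (h2 : finrank (ZMod p) ↥(LinearMap.ker ((t : V →ₗ[ZMod p] V) - LinearMap.id)) + 1 = finrank (ZMod p) V) :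
    ∃ v φ, Rt H v φ ∧ ∀ x, t x = x + φ x • v := by
  have := LinearMap.finrank_range_add_finrank_ker ((t : V →ₗ[ZMod p] V) - LinearMap.id)
  obtain ⟨φ, v, e⟩ := (LinearEquiv.mem_dilatransvections_iff_finrank (e := t)).2 (by omega)
  have e : ∀ x, t x = x + φ x • v := fun x => LinearMap.congr_fun e x
  have h3 : t ≠ 1 := fun h => (Fact.out : p.Prime).ne_one (by rw [← h1, h, orderOf_one])
  have h4 : v ≠ 0 := fun h => h3 (LinearEquiv.ext fun x => by simp [e, h])
  refine ⟨v, φ, ⟨h4, fun h => h3 (LinearEquiv.ext fun x => by simp [e, h]), ?_, HasL.of_apply ht e⟩, e⟩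
  have h5 : ∀ n : ℕ, (t ^ n) v = (1 + φ v) ^ n • v := fun n => by
    induction n with
    | zero => simp
    | succ n ih => rw [pow_succ', LinearEquiv.mul_apply, ih, map_smul, e, pow_succ]; module
  have h6 := h5 p
  rw [ZMod.pow_card, show t ^ p = 1 from orderOf_dvd_iff_pow_eq_one.1 h1.dvd] at h6
  simpa [add_smul, h4] using h6

/-- Let p be an odd prime, V a finite-dimensional vector space over the field with p elements, and H a group of linear automorphisms of V generated by transvections (elements of order p fixing a hyperplane pointwise) and having no nontrivial normal p-subgroup. Then for some n ≥ 1 there are a decomposition V = V₀ ⊕ V₁ ⊕ ⋯ ⊕ Vₙ into H-invariant subspaces and a decomposition of H as the internal direct product of normal subgroups H₁, …, Hₙ such that Hⱼ acts trivially on every Vᵢ with i ≠ j, and Hⱼ induces on Vⱼ exactly the special linear group of Vⱼ or exactly the isometry group of a non-degenerate alternating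 form on Vⱼ. -/
theorem result {p : ℕ} [Fact p.Prime] (hp : Odd p) {V : Type*} [AddCommGroup V] [Module (ZMod p) V] [Finite V]
    (H : Subgroup (V ≃ₗ[ZMod p] V)) (T : Set (V ≃ₗ[ZMod p] V)) (hHT : H = Subgroup.closure T)
    (hT : ∀ t ∈ T, orderOf t = p ∧
      Module.finrank (ZMod p) ↥(LinearMap.ker ((t : V →ₗ[ZMod p] V) - LinearMap.id)) + 1 =
        Module.finrank (ZMod p) V)
    (hOp : Cfsg.pCore p ↥H = ⊥) :
    ∃ (n : ℕ) (W : Fin (n + 1) → Submodule (ZMod p) V) (K : Fin n → Subgroup (V ≃ₗ[ZMod p] V)),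
      1 ≤ n ∧ DirectSum.IsInternal W ∧
      (∀ h ∈ H, ∀ i, (W i).map (h : V →ₗ[ZMod p] V) = W i) ∧
      (∀ j, K j ≤ H ∧ ((K j).subgroupOf H).Normal) ∧ ⨆ j, K j = H ∧
      (∀ j, K j ⊓ (⨆ j' ∈ {j' : Fin n | j' ≠ j}, K j') = ⊥) ∧
      (∀ j j', j ≠ j' → ∀ a ∈ K j, ∀ b ∈ K j', a * b = b * a) ∧
      (∀ j, ∀ h ∈ K j, ∀ i : Fin (n + 1), i ≠ j.succ → ∀ v ∈ W i, h v = v) ∧
      (∀ j, ∃ ρ : ↥(K j) →* (↥(W j.succ) ≃ₗ[ZMod p] ↥(W j.succ)),
        (∀ (h : ↥(K j)) (v : ↥(W j.succ)), ((ρ h v : ↥(W j.succ)) : V) = (h : V ≃ₗ[ZMod p] V) (v : V)) ∧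
        ((ρ.range : Set (↥(W j.succ) ≃ₗ[ZMod p] ↥(W j.succ))) =
            {f : ↥(W j.succ) ≃ₗ[ZMod p] ↥(W j.succ) | LinearMap.det (f : ↥(W j.succ) →ₗ[ZMod p] ↥(W j.succ)) = 1} ∨
          ∃ B : LinearMap.BilinForm (ZMod p) ↥(W j.succ), B.IsAlt ∧ B.Nondegenerate ∧
            (ρ.range : Set (↥(W j.succ) ≃ₗ[ZMod p] ↥(W j.succ))) = {f : ↥(W j.succ) ≃ₗ[ZMod p] ↥(W j.succ) | ∀ x y, B (f x) (f y) = B x y})) := by
  classical
  haveI : Finite (Dual (ZMod p) V) := DFunLike.finite _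
  have hT' : ∀ t ∈ T, ∃ v φ, Rt H v φ ∧ ∀ x, t x = x + φ x • v := fun t ht =>
    exists_rt (hHT ▸ Subgroup.subset_closure ht) (hT t ht).1 (hT t ht).2
  have r := rt hp hHT hT' hOp
  haveI : Nonempty (Quotient r.setoid) := ⟨Quotient.mk _ (0, 0)⟩
  let e := (Finite.equivFin (Quotient r.setoid)).symm
  let C : Fin (Nat.card (Quotient r.setoid)) → V → Dual (ZMod p) V → Prop :=
    fun j v φ => Rt H v φ ∧ Quotient.mk r.setoid (v, φ) = e j
  have c : ∀ j, Cl _ (Rt H) (C j) := fun j => r.cl (e j)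
  have cov : ∀ {v φ}, Rt H v φ → ∃ j, C j v φ := fun a => ⟨e.symm _, a, (e.apply_symm_apply _).symm⟩
  have orth : ∀ {i j x v φ}, x ∈ (c i).Vc → C j v φ → φ x ≠ 0 → i = j := fun hx a h =>
    e.injective (((c _).of_ne a.1 hx h).2.symm.trans a.2)
  let V0 : Submodule (ZMod p) V :=
    { carrier := {x | ∀ v φ, Rt H v φ → φ x = 0}
      zero_mem' := fun _ _ _ => map_zero _
      add_mem' := fun ha hb u χ c => by rw [map_add, ha u χ c, hb u χ c, add_zero]
      smul_mem' := fun c x hx u χ d => by rw [map_smul, hx u χ d, smul_zero] }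
  let W : Fin (_ + 1) → Submodule (ZMod p) V := Fin.cons V0 fun j => (c j).Vc
  have orth' : ∀ {i j x v φ}, x ∈ W i → C j v φ → i ≠ j.succ → φ x = 0 := fun {i j x v φ} hx a h => by
    obtain rfl | ⟨i, rfl⟩ := i.eq_zero_or_eq_succ
    · exact hx v φ a.1
    · by_contra h1; exact h (congrArg _ (orth hx a h1))
  have orth2 : ∀ {i j x φ}, x ∈ W i → φ ∈ (c j).flip.Vc → i ≠ j.succ → φ x = 0 := by
    rintro i j x φ hx (rfl | ⟨v, a⟩) h
    · rfl
    · exact orth' hx a h
  let K : Fin _ → Subgroup (V ≃ₗ[ZMod p] V) := fun j =>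
    Subgroup.closure {g | ∃ v φ, C j v φ ∧ ∀ x, g x = x + φ x • v}
  have hKH : ∀ j, K j ≤ H := fun j => (Subgroup.closure_le _).2 fun g ⟨v, φ, a, h⟩ => a.1.2.2.2.mem h
  have hHK : ∀ {X : Subgroup (V ≃ₗ[ZMod p] V)}, (∀ j, K j ≤ X) → H ≤ X := fun h => by
    conv_lhs => rw [hHT]
    refine (Subgroup.closure_le _).2 fun t ht => ?_
    obtain ⟨v, φ, a, h1⟩ := hT' t ht
    obtain ⟨j, b⟩ := cov a
    exact h j (Subgroup.subset_closure ⟨v, φ, b, h1⟩)
  have hfix : ∀ j i, i ≠ j.succ → K j ≤ fix (W i) := fun j i hi =>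
    (Subgroup.closure_le _).2 fun g ⟨v, φ, a, h⟩ x hx => by rw [h, orth' hx a hi, zero_smul, add_zero]
  have hst : ∀ j i, K j ≤ stab (W i) := fun j i => by
    by_cases hi : i = j.succ
    · subst hi
      exact (Subgroup.closure_le _).2 fun g ⟨v, φ, a, h⟩ => mem_stab_of_le fun x hx =>
        h x ▸ Submodule.add_mem _ hx (Submodule.smul_mem _ _ ((c j).mem a))
    · exact (hfix j i hi).trans (fix_le_stab _)
  have htop : ⨆ i, W i = ⊤ := eq_top_iff.2 fun x _ => by
    choose y hy1 hy2 using fun j => (c j).surj (Dual.eval _ _ x ∘ₗ Submodule.subtype _)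
    rw [← sub_add_cancel x (∑ j, y j)]
    refine Submodule.add_mem _ (le_iSup W 0 fun v φ a => ?_)
      (Submodule.sum_mem _ fun j _ => le_iSup W j.succ (hy1 j))
    obtain ⟨j, b⟩ := cov a
    rw [map_sub, map_sum, Finset.sum_eq_single j (fun i _ hi => by_contra fun h => hi (orth (hy1 i) b h))
      (by simp), sub_eq_zero]
    exact (hy2 j ⟨φ, (c j).flip.mem b⟩).symm
  have ext : ∀ {f g : V ≃ₗ[ZMod p] V}, (∀ i, ∀ x ∈ W i, f x = g x) → f = g := fun {f g} h =>
    LinearEquiv.toLinearMap_injective (LinearMap.ext fun x =>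
      (htop.ge.trans (iSup_le fun i => show W i ≤ LinearMap.eqLocus f.toLinearMap g.toLinearMap from h i))
        Submodule.mem_top)
  have hcomm : ∀ j j', j ≠ j' → ∀ a ∈ K j, ∀ b ∈ K j', a * b = b * a := fun j j' hj a ha b hb =>
    ext fun i x hx => by
      simp only [LinearEquiv.mul_apply]
      by_cases h : i = j.succ
      · have h' : i ≠ j'.succ := fun e => hj (Fin.succ_injective _ (h.symm.trans e))
        rw [hfix _ _ h' hb x hx, hfix _ _ h' hb _ ((hst j i ha x).1 hx)]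
      · rw [hfix _ _ h ha x hx, hfix _ _ h ha _ ((hst j' i hb x).1 hx)]
  refine ⟨_, W, K, Nat.card_pos, ?_, fun g hg i => mem_stab_iff_map.1 (hHK (hst · i) hg),
    fun j => ⟨hKH j, Subgroup.normal_subgroupOf_of_le_normalizer (hHK fun i => ?_)⟩,
    le_antisymm (iSup_le hKH) (hHK (le_iSup K)), fun j => eq_bot_iff.2 fun g hg => ?_, hcomm,
    fun j g hg i hi => hfix j i hi hg, fun j => ?_⟩
  · refine (DirectSum.isInternal_submodule_iff_iSupIndep_and_iSup_eq_top W).2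
      ⟨(iSupIndep_iff_finsetSum_eq_zero_imp_eq_zero W).2 fun s v hv h0 => ?_, htop⟩
    have h1 : ∀ j, Fin.succ j ∈ s → v j.succ = 0 := fun j hj => (c j).sep (hv _ hj) fun φ hφ => by
      have := congrArg φ h0
      rwa [map_sum, Finset.sum_eq_single j.succ (fun i hi h => orth2 (hv i hi) hφ h)
        (fun h => absurd hj h), map_zero] at this
    intro i hi
    obtain rfl | ⟨i, rfl⟩ := i.eq_zero_or_eq_succ
    · rwa [Finset.sum_eq_single 0 (fun i hi h => ?_) (fun h => absurd hi h)] at h0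
      obtain ⟨i, rfl⟩ := Fin.exists_succ_eq.2 h
      exact h1 i hi
    · exact h1 i hi
  · by_cases h : i = j
    · exact h ▸ Subgroup.le_normalizer
    · exact fun a ha => Subgroup.centralizer_le_normalizer _ fun b hb => (hcomm i j h a ha b hb).symm
  · refine ext fun i x hx => ?_
    by_cases h : i = j.succ
    · exact (iSup₂_le fun j' hj => hfix j' i fun e =>
        hj (Fin.succ_injective _ (e.symm.trans h)) : _ ≤ fix (W i)) hg.2 x hx
    · exact hfix j i h hg.1 x hx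
  let ρ : K j →* (W j.succ ≃ₗ[ZMod p] W j.succ) :=
    { toFun := fun g => restrictStab g.1 (hst j _ g.2)
      map_one' := by ext; simp
      map_mul' := fun a b => by ext; simp }
  have hle : ∀ X : Subgroup (W j.succ ≃ₗ[ZMod p] W j.succ),
      (∀ f, (∃ (v : W j.succ) (φ : Dual (ZMod p) V), C j v φ ∧ ∀ x : W j.succ, f x = x + φ x • v) → f ∈ X) →
      ρ.range ≤ X := fun X hX => by
    rintro _ ⟨⟨g, hg⟩, rfl⟩
    induction hg using Subgroup.closure_induction with
    | mem g hg =>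
      obtain ⟨v, φ, a, h⟩ := hg
      exact hX _ ⟨⟨v, (c j).mem a⟩, φ, a, fun x => Subtype.ext (h x)⟩
    | one => exact (map_one ρ).symm ▸ X.one_mem
    | mul a b ha hb h1 h2 => exact (map_mul ρ ⟨a, ha⟩ ⟨b, hb⟩).symm ▸ X.mul_mem h1 h2
    | inv a ha h1 => exact (map_inv ρ ⟨a, ha⟩).symm ▸ X.inv_mem h1
  have hge : ∀ (v : W j.succ) (φ : Dual (ZMod p) V), C j v φ →
      HasL ρ.range (rk1 v (φ ∘ₗ (W j.succ).subtype)) := fun v φ a => by
    obtain ⟨g, -, h⟩ := a.1.2.2.2.exists_apply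
    exact HasL.of_apply ⟨⟨g, Subgroup.subset_closure ⟨v, φ, a, h⟩⟩, rfl⟩ fun x => Subtype.ext (h x)
  refine ⟨ρ, fun _ _ => rfl, (c j).full.imp (fun h => ?_) fun ⟨η, h1, h2, h3⟩ => ?_⟩
  · refine congrArg SetLike.coe (le_antisymm (hle (SLg _ _) ?_) (SLg_le' fun v φ h0 => ?_)) |>.trans
      (Set.ext fun _ => mem_SLg)
    · rintro f ⟨v, φ, a, h⟩
      exact (LinearEquiv.ext h : f = LinearEquiv.transvection
        (f := φ ∘ₗ (W j.succ).subtype) a.1.2.2.1) ▸ tv_mem_SLg _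
    · obtain ⟨ψ, h1, h2⟩ := (c j).flip.surj φ
      obtain rfl : ψ ∘ₗ (W j.succ).subtype = φ := LinearMap.ext h2
      by_cases h3 : v = 0
      · exact HasL.zero.congr (by simp [h3])
      by_cases h4 : ψ = 0
      · exact HasL.zero.congr (by simp [h4])
      exact hge v ψ (h v v.2 ψ h1 (by simpa) h4 h0)
  · let B : LinearMap.BilinForm (ZMod p) (W j.succ) :=
      ((Dual.eval _ V).domRestrict₁₂ (c j).Vc (c j).flip.Vc).flip ∘ₗ η
    have hB : ∀ x y, B x y = -B y x := fun x y => h1 y x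
    have hA : B.IsAlt := fun x => mul_left_cancel₀ r.two (by linear_combination hB x x)
    have hn : B.Nondegenerate := by
      have : ∀ x, (∀ y, B x y = 0) → x = 0 := fun x hx => by_contra fun h0 =>
        (h2 x h0).1.2.1 ((c j).flip.sep (η x).2 fun y hy => hx ⟨y, hy⟩)
      exact ⟨this, fun y hy => this y fun x => by rw [hB, hy, neg_zero]⟩
    refine ⟨B, hA, hn, Set.ext fun f => ⟨fun hf => (hle (Formed.ofAlt B hA).isom ?_ hf).1,
      sp_le hA hn fun v d => ?_⟩⟩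
    · rintro f ⟨v, φ, a, h⟩
      obtain ⟨d, rfl⟩ := h3 v φ a
      refine ⟨fun x y => ?_, fun _ => rfl⟩
      have e1 : ∀ x : W j.succ, (d • (η v : Dual (ZMod p) V)) x = d * B v x := fun _ => rfl
      change B _ _ = B _ _
      simp only [h, e1, map_add, map_smul, LinearMap.add_apply, LinearMap.smul_apply, smul_eq_mul,
        hA.self_eq_zero, hB x v]
      ring
    · by_cases h0 : v = 0
      · exact HasL.zero.congr (by simp [h0])
      exact (hasL_smul (hge v _ (h2 v h0)) (rk1_mul_zero (hA v)) d).congr fun x =>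
        (smul_smul d (B v x) v)

end Cfsg.Agent.S5075
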