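import Cfsg.Statements.S5110
import Cfsg.Agent.Fus.Bc2
-- import your own Cfsg.Agent.* helpers here

set_option autoImplicit false
open Cfsg

namespace Cfsg.Agent.S5110

/-- Saturation criterion: let F be a fusion system over a finite p-group S and H a family of subgroups of S closed under conjugacy in F, such that every conjugacy class inside H contains a fully automized receptive member, F is the smallest fusion system over S containing all its maps with source in H, and every centric subgroup outside H is conjugate in F to some P for which Aut_S(P) ∩ O_p(Aut_F(P)) is not contained in Inn(P). Then F is saturated. -/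
theorem result {Ω : Type*} [Group Ω] {S : Subgroup Ω} [Finite S] (p : ℕ) [Fact p.Prime] (hS : IsPGroup p S) (F : Cfsg.FusionSystem S) (ℋ : Set (Subgroup Ω)) (hℋS : ∀ P ∈ ℋ, P ≤ S) (hℋconj : ∀ P ∈ ℋ, ∀ Q, F.IsConj P Q → Q ∈ ℋ) (hsat : ∀ P ∈ ℋ, ∃ Q, F.IsConj P Q ∧ F.IsFullyAutomized p Q ∧ F.IsReceptive Q) (hgen : ∀ E : Cfsg.FusionSystem S, (∀ P ∈ ℋ, F.Hom P ⊆ E.Hom P) → F ≤ E) (hstar : ∀ P : Subgroup Ω, F.IsCentric P → P ∉ ℋ → ∃ Q, F.IsConj P Q ∧ ¬ (Cfsg.autInducedBy S Q ⊓ (Cfsg.pCore p ↥(F.autGroup Q)).map (F.autGroup Q).subtype ≤ Cfsg.Inn Q)) : F.IsSaturated p :=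
  open Subgroup Cfsg.Agent.Fus Cfsg.Agent.Loc Equiv in by
  have star : ∀ P, F.IsCentric P → ¬ P ∈ ℋ → ∃ f Q, Iso F f P Q ∧ ¬ AutK S Q ⊓ pCoreOf p (AutF F Q) ≤ AutK Q Q := fun P hc h => by
    obtain ⟨Q, h1, h2⟩ := hstar P hc h
    obtain ⟨f, hf⟩ := isConj_iff.1 h1
    refine ⟨f, Q, hf, fun k => h2 ?_⟩
    rw [← map_pCore_autGroup, ← Inn_map, AutK, ← Subgroup.map_inf _ _ _ (toPerm_injective Q)] at k
    exact (Subgroup.map_le_map_iff_of_injective (toPerm_injective Q)).1 k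
  have hSℋ : S ∈ ℋ := by
    by_contra h
    obtain ⟨f, Q, h1, h2⟩ := star S (centric_self F) h
    obtain rfl := h1.eq_S
    exact h2 inf_le_left
  refine (sat_of_genBy hS (ℋ := fun P => P ∈ ℋ) (genBy_of_le hSℋ fun E hE => le_iff_sub.1 (hgen E fun P hP φ hφ => ?_))
    (fun f P Q hf hQ => hℋconj Q hQ P hf.symm.isConj) (fun P _ hP _ => ?_) star).sat
  · obtain ⟨a, h1, h2⟩ := exists_perm_of_mem hφ
    exact (hE P a hP h1).mem_Hom h2
  · obtain ⟨Q, h1, h2⟩ := hsat P hP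
    obtain ⟨f, hf⟩ := isConj_iff.1 h1
    exact ⟨f, Q, hf, h2⟩

end Cfsg.Agent.S5110
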