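import Cfsg.Statements.S5112
import Cfsg.Agent.Fus.Two
-- import your own Cfsg.Agent.* helpers here

set_option autoImplicit false
open Cfsg

namespace Cfsg.Agent.S5112

/-- If S is a dihedral or generalized quaternion 2-group of order at least 16, then in every saturated fusion system over S (at the prime 2) the automorphism group Aut_F(S) consists of the inner automorphisms of S. -/
theorem result {Ω : Type*} [Group Ω] {S : Subgroup Ω} [Finite S] (n : ℕ) (hn : 4 ≤ n) (hshape : Nonempty (S ≃* DihedralGroup (2 ^ (n - 1))) ∨ Nonempty (S ≃* QuaternionGroup (2 ^ (n - 2)))) (F : Cfsg.FusionSystem S) (hF : F.IsSaturated 2) : F.autGroup S = Cfsg.Inn S :=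
  open Subgroup Cfsg.Agent.Fus Cfsg.Agent.Loc Equiv in by
  have hA : ∀ α : S →* S, Invol.OddEnd α → ∀ x, α x = x := fun α hα x => by_contra fun hx => by
    obtain ⟨m, rfl⟩ := Nat.exists_eq_add_of_le' hn
    have h1 : 2 ^ 4 ≤ 2 ^ (m + 4) := Nat.pow_le_pow_right two_pos hn
    have key : Nat.card S = 2 ^ (m + 4) ∧ ∃ c : S, orderOf c = 2 ^ (m + 3) := by
      rcases hshape with ⟨⟨e⟩⟩ | ⟨⟨e⟩⟩
      · exact ⟨by rw [Nat.card_congr e.toEquiv, DihedralGroup.nat_card]; exact (pow_succ' 2 _).symm,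
          e.symm (.r 1), by rw [MulEquiv.orderOf_eq, DihedralGroup.orderOf_r_one]; rfl⟩
      · refine ⟨?_, e.symm (.a 1), by rw [MulEquiv.orderOf_eq, QuaternionGroup.orderOf_a_one]; exact (pow_succ' 2 _).symm⟩
        rw [Nat.card_congr e.toEquiv, Nat.card_eq_fintype_card, QuaternionGroup.card, show m + 4 - 2 = m + 2 from rfl]; ring
    obtain ⟨h2, c, hc⟩ := key
    have hi := (zpowers c).index_mul_card
    rw [Nat.card_zpowers, hc, h2, pow_succ' 2 (m + 3)] at hi
    rcases Invol.four_or_quat_of_cyclic_index (.of_card h2) (Nat.eq_of_mul_eq_mul_right (by positivity) hi).dvd hα ⟨x, hx⟩ with h | ⟨⟨e⟩⟩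
    · rw [← h2, h.card_four] at h1; omega
    · rw [← h2, Nat.card_congr e.toEquiv, Nat.card_eq_fintype_card, QuaternionGroup.card] at h1; omega
  have hp : IsPGroup 2 S := by
    rcases hshape with ⟨⟨e⟩⟩ | ⟨⟨e⟩⟩
    · exact .of_card (n := n - 1 + 1) (by rw [Nat.card_congr e.toEquiv, DihedralGroup.nat_card, pow_succ'])
    · exact .of_card (n := n - 2 + 2) (by rw [Nat.card_congr e.toEquiv, Nat.card_eq_fintype_card, QuaternionGroup.card]; ring)
  have h := (Sat.mk hp hF).syl_S
  have := finite_AutF F S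
  refine map_injective (toPerm_injective S) ?_
  rw [Inn_map]
  change AutF F S = _
  rw [← OpA_sup_syl h, sup_eq_right, OpA_le_iff]
  rintro _ ⟨α, -, rfl⟩ hc
  rw [orderOf_toPerm] at hc
  rw [show α = 1 from MulEquiv.ext (hA _ (Invol.oddEnd_of_mulAut (Nat.coprime_two_right.1 hc))), map_one]
  exact one_mem _

end Cfsg.Agent.S5112
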