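import Cfsg.Statements.S5125
import Cfsg.Agent.Fus.Nrm
-- import your own Cfsg.Agent.* helpers here

set_option autoImplicit false
open Cfsg

namespace Cfsg.Agent.S5125

/-- Let F be a saturated fusion system over a finite p-group S and Q a subgroup strongly closed in F. If Q has a subgroup Q₁ that is normal in F, with Q/Q₁ abelian and Aut_F(Q₁) a p-group, then Q is normal in F. -/
theorem result {Ω : Type*} [Group Ω] {S : Subgroup Ω} [Finite S] (p : ℕ) [Fact p.Prime] (hS : IsPGroup p S) (F : Cfsg.FusionSystem S) (hF : F.IsSaturated p) (Q Q₁ : Subgroup Ω) (hQ : F.StronglyClosed Q) (hQ₁Q : Q₁ ≤ Q) (hQ₁ : F.IsNormal Q₁) (hab : ⁅Q, Q⁆ ≤ Q₁) (hAut : IsPGroup p ↥(F.autGroup Q₁)) : F.IsNormal Q :=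
  open Subgroup Cfsg.Agent.Fus Cfsg.Agent.Loc Equiv in by
  have hs : Sat F p := ⟨hS, hF⟩
  refine hs.normal_of_pact hQ fun P hP => pact_step hS hP.1.1 hQ.1 hQ₁Q
    (AutF_le_Stab_inf hP.1.1 (sc_of_normal hQ₁)) (AutF_le_Stab_inf hP.1.1 hQ) hab
    (PAct.of_all (AutK_le_AutF F hQ.1 hP.1.1) fun a ha => ?_)
  have hle := normal_le_cr hS hQ₁ hP.1 (hs.radical_of_ess hP)
  have hm := (iso_of_AutF hP.1.1 ha).mor
  have hi : Iso F a Q₁ Q₁ := ⟨hm.mono hle, sc_maps (sc_of_normal hQ₁) hm hle⟩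
  have h4 : IsPGroup p (AutF F Q₁) := hAut.map (toPerm Q₁)
  obtain ⟨k, hk⟩ := exists_pow_of_isPGroup h4 hi.res_mem
  rw [← res_pow hi.maps, res_eq_one_iff (hi.maps.pow _)] at hk
  exact ⟨k, fun b hb => hk b hb.2⟩

end Cfsg.Agent.S5125
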