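import Cfsg.Statements.S5129
import Cfsg.Agent.Fus.Mt
-- import your own Cfsg.Agent.* helpers here

set_option autoImplicit false
open Cfsg

namespace Cfsg.Agent.S5129

/-- Let F be a saturated fusion system over a finite p-group S and E₁, E₂ normal subsystems over T₁, T₂. Then there is a normal subsystem of F over T₁ ∩ T₂ that is normal in E₁ and in E₂ and contains every other such subsystem. -/
theorem result {Ω : Type*} [Group Ω] {S : Subgroup Ω} [Finite S] (p : ℕ) [Fact p.Prime] (hS : IsPGroup p S) (F : Cfsg.FusionSystem S) (hF : F.IsSaturated p) {T₁ T₂ : Subgroup Ω} (E₁ : Cfsg.FusionSystem T₁) (E₂ : Cfsg.FusionSystem T₂) (h₁ : E₁.IsNormalIn F p) (h₂ : E₂.IsNormalIn F p) : ∃ D : Cfsg.FusionSystem (T₁ ⊓ T₂), (D.IsNormalIn F p ∧ D.IsNormalIn E₁ p ∧ D.IsNormalIn E₂ p) ∧ ∀ D' : Cfsg.FusionSystem (T₁ ⊓ T₂), D'.IsNormalIn F p → D'.IsNormalIn E₁ p → D'.IsNormalIn E₂ p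 → D'.IsSubsystemOf D :=
  open Subgroup Cfsg.Agent.Fus Cfsg.Agent.Loc Equiv in by
  obtain ⟨D, h⟩ := ((ni_iff hS).1 h₁).exists_meet ((ni_iff hS).1 h₂)
  haveI := ((ni_iff hS).1 h₁).finite
  haveI := ((ni_iff hS).1 h₂).finite
  exact ⟨D, ⟨(ni_iff hS).2 h.ni, (ni_iff h.ni₁.satF.pg).2 h.ni₁, (ni_iff h.ni₂.satF.pg).2 h.ni₂⟩, fun D' k k₁ k₂ =>
    h.max D' ((ni_iff hS).1 k) ((ni_iff h.ni₁.satF.pg).1 k₁) ((ni_iff h.ni₂.satF.pg).1 k₂)⟩

end Cfsg.Agent.S5129
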