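import Cfsg.Statements.S5130
import Cfsg.Agent.Fus.Fit
-- import your own Cfsg.Agent.* helpers here

set_option autoImplicit false
open Cfsg

namespace Cfsg.Agent.S5130

section
open Subgroup Cfsg.Agent.Fus Cfsg.Agent.Loc Equiv
open Cfsg.FusionSystem (normalizerIn centralizerIn)

theorem sat_of_compl {Ω : Type*} [Group Ω] {S A B : Subgroup Ω} [Finite S] {p : ℕ} [Fact p.Prime] {F : FusionSystem S}
    (hF : Sat F p) (hA : F.StronglyClosed A) (hB : F.StronglyClosed B) (hc : ∀ x ∈ A, ∀ y ∈ B, x * y = y * x)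
    (h0 : A ⊓ B = ⊥) (hS : S ≤ A ⊔ B) {R : FusionSystem A} (hR : ∀ P ≤ A, ∀ f, Mor R P f ↔ Mor F P f) : Sat R p := by
  classical
  obtain ⟨π, hπ⟩ : ∃ π : Ω → Ω, ∀ x ∈ A, ∀ y ∈ B, π (x * y) = x := by
    refine ⟨fun z => if h : ∃ x ∈ A, x⁻¹ * z ∈ B then h.choose else 1, fun x hx y hy => ?_⟩
    have h : ∃ u ∈ A, u⁻¹ * (x * y) ∈ B := ⟨x, hx, by simpa using hy⟩
    simp only [dif_pos h]
    have h1 : h.choose⁻¹ * x ∈ A ⊓ B := ⟨A.mul_mem (A.inv_mem h.choose_spec.1) hx,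
      (B.mul_mem_cancel_right hy).1 (mul_assoc _ x y ▸ h.choose_spec.2)⟩
    exact inv_mul_eq_one.1 (mem_bot.1 (h0 ▸ h1))
  have h1 : ∀ x ∈ A, π x = x := fun x hx => by simpa using hπ x hx 1 (one_mem _)
  have hθ : HomOn π S := fun z hz w hw => by
    obtain ⟨x, hx, y, hy, rfl⟩ := (mem_sup_of_comm hc).1 (hS hz)
    obtain ⟨u, hu, v, hv, rfl⟩ := (mem_sup_of_comm hc).1 (hS hw)
    rw [hπ x hx y hy, hπ u hu v hv, ← hπ _ (A.mul_mem hx hu) _ (B.mul_mem hy hv), mul_assoc, ← mul_assoc y, ← hc u hu y hy]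
    simp only [mul_assoc]
  have h2 : ∀ P ≤ A, ∀ z ∈ hθ.pre P, ∃ x ∈ P, ∃ y ∈ B, x * y = z := fun P _ z hz => by
    obtain ⟨x, hx, y, hy, rfl⟩ := (mem_sup_of_comm hc).1 (hS hz.1)
    exact ⟨x, hπ x hx y hy ▸ hz.2, y, hy, rfl⟩
  have hk : hθ.pre ⊥ = B := le_antisymm (fun z hz => by
    obtain ⟨x, hx, y, hy, rfl⟩ := h2 ⊥ bot_le z hz; simpa [mem_bot.1 hx] using hy) fun y hy =>
      ⟨hB.1 hy, by simpa using hπ 1 (one_mem _) y hy⟩
  refine (Fac.epi (E := R) ⟨hθ, le_antisymm (img_le_iff.2 fun z hz => ?_) fun x hx => h1 x hx ▸ mem_img_of_mem π (hA.1 hx),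
    fun P f => ⟨fun hf => ⟨hf.le, ?_⟩, fun ⟨hP, g, g1, g2⟩ => ?_⟩⟩ hF (hk ▸ hB)).sat hF
  · obtain ⟨x, hx, y, hy, rfl⟩ := (mem_sup_of_comm hc).1 (hS hz)
    rwa [hπ x hx y hy]
  · obtain ⟨a, a1, a2⟩ := ((hR P hf.le f).1 hf).exists_perm
    obtain ⟨g, g1, g2⟩ := hF.lift hB a1
    refine ⟨g, g1.mono fun z hz => ?_, fun z hz => ?_⟩ <;> obtain ⟨x, hx, y, hy, rfl⟩ := h2 P hf.le z hz
    · exact mul_mem (mem_sup_left hx) (mem_sup_right hy)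
    · have m := sc_mem hA g1 (mem_sup_left hx) (hf.le hx)
      have : (g x)⁻¹ * a x ∈ A ⊓ B := ⟨A.mul_mem (A.inv_mem m) (sc_mem hA a1 hx (hf.le hx)), g2 x hx⟩
      rw [hπ x (hf.le hx) y hy, g1.homOn x (mem_sup_left hx) y (mem_sup_right hy), hπ _ m _ (sc_mem hB g1 (mem_sup_right hy) hy),
        inv_mul_eq_one.1 (mem_bot.1 (h0.le this)), a2 x hx]
  · have hP' : P ≤ hθ.pre P := fun x hx => ⟨hA.1 (hP hx), (h1 x (hP hx)).symm ▸ hx⟩
    refine (hR P hP f).2 ((g1.mono hP').congr fun x hx => ?_)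
    rw [← h1 _ (sc_mem hA g1 (hP' hx) (hP hx)), ← g2 x (hP' hx), h1 x (hP hx)]

end

/-- Let F be a saturated fusion system over a finite p-group S that is the direct product of two subgroups S₁ and S₂, each strongly closed in F. Let R be the full subsystem of F over S₁ (all maps of F between subgroups of S₁) and R′ the subsystem over S₁ of those maps that extend to the subgroup generated with S₂ fixing S₂ elementwise. Then R and R′ are saturated, R′ is normal in F and in R, and R is weakly normal in F. -/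
theorem result {Ω : Type*} [Group Ω] {S : Subgroup Ω} [Finite S] (p : ℕ) [Fact p.Prime] (hS : IsPGroup p S) (F : Cfsg.FusionSystem S) (hF : F.IsSaturated p) (S₁ S₂ : Subgroup Ω) (hprod : Cfsg.IsInternalDirectProduct S₁ S₂ S) (h₁ : F.StronglyClosed S₁) (h₂ : F.StronglyClosed S₂) (R R' : Cfsg.FusionSystem S₁) (hR : ∀ P : Subgroup Ω, P ≤ S₁ → R.Hom P = F.Hom P) (hR' : ∀ P : Subgroup Ω, P ≤ S₁ → R'.Hom P = F.centralizerHom S₂ P) : R.IsSaturated p ∧ R'.IsSaturated p ∧ R'.IsNormalIn F p ∧ R'.IsNormalIn R p ∧ R.IsWeaklyNormalIn F p :=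
  open Subgroup Cfsg.Agent.Fus Cfsg.Agent.Loc Equiv in by
  obtain ⟨-, -, hc, h0, hs⟩ := hprod
  have h : Sat F p := ⟨hS, hF⟩
  haveI := finite_of_le h₁.1
  obtain ⟨D, hD, hD'⟩ := exists_centralizerSystem F h₂.1
  have e : ∀ P ≤ S₁, ∀ f, Mor R P f ↔ Mor F P f := fun P hP f => by unfold Mor; rw [hR P hP]
  have e' : ∀ P ≤ S₁, ∀ f, Mor R' P f ↔ Mor D P f := fun P hP f => by unfold Mor; rw [hR' P hP, hD' P]
  have hA : S₁ ≤ Cfsg.FusionSystem.centralizerIn S S₂ := fun x hx => ⟨h₁.1 hx, mem_centralizer_iff.2 fun y hy => (hc x hx y hy).symm⟩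
  have s₁ := sat_of_compl h h₁ h₂ hc h0 hs.ge e
  have s₂ := sat_of_compl (h.centralizer (h.fc_of_fn (fn_of_sc h₂)) hD) (sc_sub' hD.sub h₁ hA) (sc_sub hD.sub h₂)
    (fun x hx y hy => hc x hx y hy.1) (eq_bot_iff.2 ((inf_le_inf_left _ inf_le_left).trans h0.le)) (fun z hz => by
      obtain ⟨x, hx, y, hy, rfl⟩ := (mem_sup_of_comm hc).1 (hs.ge hz.1)
      exact mul_mem (mem_sup_left hx) (mem_sup_right ⟨hy, (Subgroup.mul_mem_cancel_left _ (hA hx)).1 hz⟩)) e'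
  have b₁ : R.IsSubsystemOf F := sub_iff.2 fun P f hf => (e P hf.le f).1 hf
  have b₂ : R'.IsSubsystemOf D := sub_iff.2 fun P f hf => (e' P hf.le f).1 hf
  have w₁ : WN R F p := ⟨s₁, h, h.inv_of_sconj b₁ h₁ fun hk hQ hf hP hm hR => (e _ ((hR.le_iff ((hk.mono hP).maps_img)).2 le_rfl |>.trans
    (img_le_iff.2 fun x hx => sc_mem h₁ hk (hP hx) (hQ (hP hx)))) _).2 ((hk.mul (hf.sub b₁) hm).mul ((hk.mono hP).inv hR) fun _ => hR.inv_mem)⟩
  have w₂ : WN R' F p := by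
    refine ⟨s₂, h, h.inv_of_sconj (sub_trans b₂ hD.sub) h₁ fun {k f P Q U} hk hQ hf hP hm hU => ?_⟩
    obtain ⟨l, l1, l2⟩ := h.lift h₂ hk
    have l3 : ∀ x ∈ Q, l x = k x := fun x hx => inv_mul_eq_one.1 (mem_bot.1 (h0 ▸ (⟨S₁.mul_mem (S₁.inv_mem
      (sc_mem h₁ l1 (mem_sup_left hx) (hQ hx))) (sc_mem h₁ hk hx (hQ hx)), l2 x hx⟩ : _ ∈ S₁ ⊓ S₂)))
    obtain ⟨g, g1, g2, g3⟩ := nMor_bot_iff.1 (hD.nMor (hf.sub b₂))
    have m1 : Maps l P U := hU.congr fun x hx => l3 x (hP hx)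
    have m2 := sc_maps h₂ l1 le_sup_right
    have m3 := (l1.homOn.mono (sup_le_sup_right hP _)).maps_sup m1 m2
    have hU' : U ≤ S₁ := fun y hy => by
      obtain ⟨x, hx, rfl⟩ := hU.exists_eq hy
      exact sc_mem h₁ hk (hP hx) (hQ (hP hx))
    refine (e' U hU' _).2 (hD.mor (hU'.trans hA) (nMor_bot_iff.2 ⟨l * g * l⁻¹, (l1.mul g1 (g1.homOn.mem_of_sup (fun x hx =>
      g2 x hx ▸ mem_sup_left (hm x hx)) fun x hx => (g3 x hx).symm ▸ mem_sup_right hx)).mul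
        ((l1.mono (sup_le_sup_right hP _)).inv m3) fun _ => m3.inv_mem, fun y hy => ?_, fun y hy => ?_⟩))
    · have hy' := hU.inv_mem hy
      rw [Perm.mul_apply, Perm.mul_apply, hU.inv_eq_of_eq (fun x hx => l3 x (hP hx)) y hy, g2 _ hy', l3 _ (hm _ hy'),
        Perm.mul_apply, Perm.mul_apply]
    · rw [Perm.mul_apply, Perm.mul_apply, g3 _ (m2.inv_mem hy)]; simp
  refine ⟨s₁.sat, s₂.sat, (ni_iff hS).2 ⟨w₂, fun a ha => ?_⟩, (ni_iff s₁.pg).2 (w₂.of_sub s₁ (sub_iff.2 fun P f hf =>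
    (e P hf.le f).2 (hf.sub w₂.sub)) b₁).ni_S, (wn_iff hS).2 w₁⟩
  have ha' := iso_of_AutF le_rfl ha
  obtain ⟨g, g1, g2, g3⟩ := nMor_bot_iff.1 (hD.nMor (ha'.mor.sub b₂))
  refine ⟨g, g1.mono ((sup_CS_le h₁.1).trans hs.ge), g2, fun c hc' => ?_⟩
  obtain ⟨x, hx, y, hy, rfl⟩ := (mem_sup_of_comm hc).1 (hs.ge hc'.1)
  rw [g1.homOn x (mem_sup_left hx) y (mem_sup_right hy), g2 x hx, g3 y hy, hc x hx y hy, hc _ (ha'.mem hx) y hy]
  simpa [mul_assoc] using S₁.mul_mem (S₁.inv_mem hx) (ha'.mem hx)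

end Cfsg.Agent.S5130
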