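import Cfsg.Statements.S5131
import Cfsg.Agent.Fus.Fac2
-- import your own Cfsg.Agent.* helpers here

set_option autoImplicit false
open Cfsg

namespace Cfsg.Agent.S5131

/-- Let F be a fusion system over a finite p-group S and F' a fusion system over S'. If α : S → S' is a morphism of fusion systems from F to F' (every map of F induces along α a map of F'), then the kernel of α is strongly closed in S with respect to F. -/
theorem result {Ω : Type*} [Group Ω] {S : Subgroup Ω} [Finite S] (p : ℕ) [Fact p.Prime] (hS : IsPGroup p S) (F : Cfsg.FusionSystem S) {Ω' : Type*} [Group Ω'] {S' : Subgroup Ω'} (F' : Cfsg.FusionSystem S') (α : S →* Ω') (hα : F.IsMorphism F' α) : F.StronglyClosed ((α.ker).map S.subtype) :=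
  open Subgroup Cfsg.Agent.Fus Cfsg.Agent.Loc Equiv in by
  obtain ⟨-, h⟩ := morphism_iff.1 hα
  have : α.ker.map S.subtype = (homOn_ext1 α).pre ⊥ := preimageAlong_eq α ⊥
  rw [this]
  refine sc_iff'.2 ⟨HomOn.pre_le _ _, fun P f hf x hx hxT => ⟨hf.mem_S hx, ?_⟩⟩
  obtain ⟨f', hf', e⟩ := h P f hf
  rw [← e x hx]; exact sc_mem (sc_bot F') hf' (mem_img_of_mem _ hx) hxT.2

end Cfsg.Agent.S5131
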