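import Cfsg.Statements.S5143
import Cfsg.Agent.Fus.Pd
-- import your own Cfsg.Agent.* helpers here

set_option autoImplicit false
open Cfsg

namespace Cfsg.Agent.S5143

/-- Let F be a saturated fusion system over a finite p-group S, E a normal subsystem over T, and R a subgroup with T ≤ R ≤ S. Then there is exactly one saturated subsystem D of F over R (exactly one family of map sets) whose p-residual subsystem is that of E: the hyperfocal subgroups of D and E coincide and the p-residual subsystems of D and of E have the same maps. -/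
theorem result {Ω : Type*} [Group Ω] {S : Subgroup Ω} [Finite S] (p : ℕ) [Fact p.Prime] (hS : IsPGroup p S) (F : Cfsg.FusionSystem S) (hF : F.IsSaturated p) {T : Subgroup Ω} (E : Cfsg.FusionSystem T) (hE : E.IsNormalIn F p) (R : Subgroup Ω) (hTR : T ≤ R) (hRS : R ≤ S) : ∃ D : Cfsg.FusionSystem R, (D.IsSaturated p ∧ D.IsSubsystemOf F ∧ D.hyperfocalSubgroup p = E.hyperfocalSubgroup p ∧ ∀ (D₁ : Cfsg.FusionSystem (D.hyperfocalSubgroup p)) (E₁ : Cfsg.FusionSystem (E.hyperfocalSubgroup p)), D.IsPResidual p D₁ → E.IsPResidual p E₁ → ∀ P : Subgroup Ω, D₁.Hom P = E₁.Hom P) ∧ ∀ D' : Cfsg.FusionSystem R, D'.IsSaturated p → D'.IsSubsystemOf F → D'.hyperfocalSubgroup p = E.hyperfocalSubgroup p → (∀ (D₁ : Cfsg.FusionSystem (D'.hyperfocalSubgroup p)) (E₁ : Cfsg.FusionSystem (E.hyperfocalSubgroup p)), D'.IsPResidual p D₁ → E.IsPResidual p E₁ → ∀ P : Subgroup Ω, D₁.Hom P = E₁.Hom P) → ∀ P : Subgroup Ω, D'.Hom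 P = D.Hom P :=
  open Subgroup Cfsg.Agent.Fus Cfsg.Agent.Loc Equiv in by
  have h := (ni_iff hS).1 hE
  haveI := h.finite
  haveI := finite_of_le hRS
  obtain ⟨E₁, hE₁⟩ := h.satE.exists_pres
  have h₁ := h.pres hE₁
  haveI := h₁.finite
  obtain ⟨D, hD⟩ := h₁.exists_pd ((hyp_le E p).trans hTR) hRS
  have e : D.hyperfocalSubgroup p = E.hyperfocalSubgroup p := by
    rw [← hD.ppi.hyp_eq hD.sat h₁.satE, hE₁.ppi.hyp_eq h.satE hE₁.sat]
  have k : PRes E₁ D p := ⟨e.symm, hE₁.sat, hD.ppi⟩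
  refine ⟨D, ⟨hD.sat.sat, hD.sub, e, fun D₁ E₂ h1 h2 => ?_⟩, fun D' h1 h2 h3 h4 P => ?_⟩
  · obtain ⟨k1, k2⟩ := (presidual_iff hD.sat.pg).1 h1
    obtain ⟨k3, k4⟩ := (presidual_iff h.satE.pg).1 h2
    exact (PRes.same ⟨rfl, k1, k2⟩ k).trans (hE₁.same ⟨rfl, k3, k4⟩)
  · have h1' : Sat D' p := ⟨hD.sat.pg, h1⟩
    obtain ⟨D₁, hD₁⟩ := h1'.exists_pres
    have h5 : Same D₁ E₁ := h4 D₁ E₁ ((presidual_iff h1'.pg).2 ⟨hD₁.sat, hD₁.ppi⟩) ((presidual_iff h.satE.pg).2 ⟨hE₁.sat, hE₁.ppi⟩)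
    rw [hD.eq_of_ppi h₁.toWN h1' h2 (h5.symm.elim (C := fun X => PPI X D' p) hD₁.ppi)]

end Cfsg.Agent.S5143
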