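import Cfsg.Statements.S5147
import Cfsg.Agent.Fus.Misc
-- import your own Cfsg.Agent.* helpers here

set_option autoImplicit false
open Cfsg

namespace Cfsg.Agent.S5147

/-- Let G be a finite group with Sylow 2-subgroup S whose 2-fusion system on S is constrained, and L a component of G (a subnormal quasisimple subgroup). Then the 2-fusion system of L/Z(L) on the image of S ∩ L is constrained. -/
theorem result {G : Type*} [Group G] [Finite G] (S : Sylow 2 G) (hF : (Cfsg.groupFusionSystem (S : Subgroup G)).IsConstrained 2) (L : Subgroup G) (hL : Cfsg.IsComponent L) : (Cfsg.groupFusionSystem (((S : Subgroup G).subgroupOf L).map (QuotientGroup.mk' (Subgroup.center L)))).IsConstrained 2 :=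
  open Subgroup Cfsg.Agent.Fus Cfsg.Agent.Loc Equiv in by
  have h1 := constrained_subnormal (grpFS_group _) (sylIn_top S) hF hL.1
  have h2 : SylIn 2 ((S : Subgroup G).subgroupOf L) ⊤ := by
    have := (((grpFS_group _).sn_top (sylIn_top S) hL.1).1).subgroupOf_top
    rwa [inf_subgroupOf_right] at this
  have e := (grpFS_group _).epi (grpFS_group (((S : Subgroup G).subgroupOf L).map (QuotientGroup.mk' (center L)))) h2
    (homOn_hom (QuotientGroup.mk' (center L)) ⊤)
    (by rw [img_hom, map_top_of_surjective _ (QuotientGroup.mk'_surjective _)]) (img_hom _ _)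
  refine e.constrained_of_central h2.pg h1 (((grpFS_group _).sat h2).central_of_fix (e.hom.pre_le _)
    fun P f hf x hx hx' => ?_)
  obtain ⟨g, -, hg⟩ := (grpFS_group _).exists_of_mor hf
  rw [hg x hx, mem_center_iff.1 ((QuotientGroup.eq_one_iff x).1 hx'.2) g, mul_inv_cancel_right]

end Cfsg.Agent.S5147
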