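import Cfsg.Statements.S5156
import Cfsg.Agent.Fus.Psv
-- import your own Cfsg.Agent.* helpers here

set_option autoImplicit false
universe u
open Cfsg

namespace Cfsg.Agent.S5156

section
open Subgroup Cfsg.Agent.Fus Cfsg.Agent.Loc Equiv
open Cfsg.FusionSystem (normalizerIn centralizerIn)

theorem aux1 {Ω : Type*} [Group Ω] {p : ℕ} {S : Subgroup Ω} {F : Cfsg.FusionSystem S} (h : F.HasTerminatingResidualSeries p) :
    ∀ [Fact p.Prime] [Finite S], Sat F p → PS F p := by
  induction h with
  | trivial F p h => intro _ _ _; exact ps_of_eq_bot h F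
  | step F E p D h1 h2 _ ih =>
    intro _ _ hF
    obtain rfl := hF.eq_OP h1
    have hE := hF.sat_OP
    obtain ⟨k1, k2⟩ := (presidual_iff hF.pg).1 h2
    haveI := finite_of_le (hyp_le (OP F p) p)
    exact hF.ni_OP.toWN.ps_S ((k2.ni hE k1 (le_normalizer_hyp _ p)).toWN.ps_of_ppi k2 (ih k1))

theorem aux2 {Ω : Type*} [Group Ω] {p : ℕ} [Fact p.Prime] : ∀ (S : Subgroup Ω) [Finite S] (F : Cfsg.FusionSystem S), IsPGroup p S →
    PS F p → F.HasTerminatingResidualSeries p := by
  intro S
  induction S using up_induction with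
  | h S ih =>
    intro _ F hS h
    by_cases h0 : S = ⊥
    · exact .trivial F p h0
    have hF : Sat F p := ⟨hS, h.1.1⟩
    obtain ⟨D, hD⟩ := hF.sat_OP.exists_pres
    haveI := finite_of_le (hyp_le (OP F p) p)
    exact .step F _ p D hF.pprime_OP ((presidual_iff hS).2 ⟨hD.sat, hD.ppi⟩) (ih _ (card_lt_card (lt_of_le_of_ne (hyp_le _ p)
      fun e => h0 (h.eq_bot hS e))) D hD.sat.pg ((hD.ni hF.sat_OP).ps (hF.ni_OP.ps h)))

end

/-- A saturated fusion system over a finite p-group has a terminating alternating chain of p'-residual and p-residual subsystems (the chain reaches the trivial system — the notion of solvability adapted to fusion systems of p-solvable groups) if and only if it is constrained and its models are p-solvable (a model is a finite group realizing the system on a Sylow p-subgroup with self-centralizing largest normal p-subgroup; it exists and is unique up to isomorphism for constrained systems). -/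
theorem result {Ω : Type u} [Group Ω] {S : Subgroup Ω} [Finite S] (p : ℕ) [Fact p.Prime] (hS : IsPGroup p S) (F : Cfsg.FusionSystem S) (hF : F.IsSaturated p) : F.HasTerminatingResidualSeries p ↔ (F.IsConstrained p ∧ ∀ (G : Type u) [Group G] (ι : S →* G), F.IsModel p G ι → Cfsg.IsPSolvable p G) :=
  open Subgroup Cfsg.Agent.Fus Cfsg.Agent.Loc Equiv in by
  refine ⟨fun h => ?_, fun ⟨h1, h2⟩ => ?_⟩
  · have := aux1 h ⟨hS, hF⟩
    exact ⟨this.1, fun G _ ι hι => (model_iff.1 hι).ps_iff.1 this⟩
  · obtain ⟨G, _, L, hL⟩ := exists_model_of_constrained hS h1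
    exact aux2 S F hS (hL.ps_iff.2 (h2 G _ hL.isModel))

end Cfsg.Agent.S5156
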