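import Cfsg.Statements.S5160
import Cfsg.Agent.Fus.Misc
-- import your own Cfsg.Agent.* helpers here

set_option autoImplicit false
open Cfsg

namespace Cfsg.Agent.S5160

/-- Let G be a finite group with nontrivial Sylow p-subgroup S and F its fusion system on S. Suppose (a) no nontrivial proper subgroup of S is strongly closed in F, and (b) the automorphisms of S induced by G are generated by those induced, for R running over the fully normalized radical centric subgroups of F, by the subgroup of N_G(R) generated by its elements of p-power order. Then F is simple. -/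
theorem result {G : Type*} [Group G] [Finite G] (p : ℕ) [Fact p.Prime] (S : Sylow p G) (hS1 : (S : Subgroup G) ≠ ⊥) (ha : ∀ T : Subgroup G, (Cfsg.groupFusionSystem (S : Subgroup G)).StronglyClosed T → T = ⊥ ∨ T = (S : Subgroup G)) (hb : Cfsg.autInducedBy ⊤ (S : Subgroup G) = ⨆ (R : Subgroup G) (_ : (Cfsg.groupFusionSystem (S : Subgroup G)).IsFullyNormalized R ∧ (Cfsg.groupFusionSystem (S : Subgroup G)).IsRadical p R ∧ (Cfsg.groupFusionSystem (S : Subgroup G)).IsCentric R), Cfsg.autInducedBy (Subgroup.closure {g : G | g ∈ Subgroup.normalizer (R : Set G) ∧ ∃ k : ℕ, orderOf g = p ^ k}) (S : Subgroup G)) : (Cfsg.groupFusionSystem (S : Subgroup G)).IsSimple p :=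
  open Subgroup Cfsg.Agent.Fus Cfsg.Agent.Loc Equiv in by
  have hG := grpFS_group (S : Subgroup G)
  have hF := sat_group S
  refine hF.simple_of_sc hS1 ha fun E hE => ?_
  rw [hG.AutF_eq le_rfl, AutK, hb, Subgroup.map_iSup]
  refine iSup_le fun R => ?_
  rw [Subgroup.map_iSup]
  refine iSup_le fun ⟨h1, _, h3⟩ a ha => ?_
  obtain ⟨g, hg, hn, rfl⟩ := mem_AutK.1 ha
  have h4 : ∀ g ∈ closure {g : G | g ∈ normalizer (R : Set G) ∧ ∃ k : ℕ, orderOf g = p ^ k},
      g ∈ (homOn_cr R).pre (AutF E R) := by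
    intro g hg
    refine (closure_le _).2 ?_ hg
    rintro g ⟨hg, k, hk⟩
    refine ⟨hg, hE.ppr.OppA_le h1.1 (mem_OppA ?_ ⟨k, ?_⟩)⟩
    · rw [hG.AutF_eq h1.1]; exact cr_mem_AutK (mem_top g) hg
    · rw [← (homOn_cr R).map_pow hg, ← hk, pow_orderOf_eq_one, (homOn_cr R).map_one]
  have h5 := (iso_of_AutF h1.1 (h4 g hg).2).mor.congr fun x hx => (cr_apply (h4 g hg).1 hx).symm
  exact Iso.res_mem ⟨hF.mor_of_centric hE.satE hE.sub (hG.mor_cp le_rfl (mem_top g)
    (cj_eq_of_mem_normalizer hn).le) R h1.1 h3 h5, maps_cp hn⟩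

end Cfsg.Agent.S5160
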