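import Cfsg.Statements.S5163
import Cfsg.Agent.FusE.Lin

set_option autoImplicit false
open Cfsg

namespace Cfsg.Agent.S5163

/-- For a finite field K of characteristic p and n ≥ 3, the p-fusion system of the projective special linear group PSL_n(K) on a Sylow p-subgroup is simple. -/
theorem result {K : Type*} [Field K] [Fintype K] (p : ℕ) [Fact p.Prime] [CharP K p] (n : ℕ) (hn : 3 ≤ n) (S : Sylow p (Matrix.ProjectiveSpecialLinearGroup (Fin n) K)) : (Cfsg.groupFusionSystem (S : Subgroup (Matrix.ProjectiveSpecialLinearGroup (Fin n) K))).IsSimple p := by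
  open Cfsg.Agent.Geom Cfsg.Agent.FusE Cfsg.Agent.Root.Mx in
  refine simple_SL (F := K) (V := Fin n → K) (by simpa) ((glEquiv _ K).toMonoidHom.comp Matrix.SpecialLinearGroup.toGL)
    ((glEquiv _ K).injective.comp Matrix.SpecialLinearGroup.toGL_injective) ?_ S
  ext g
  obtain ⟨g, rfl⟩ := (glEquiv _ K).surjective g
  constructor
  · rintro ⟨s, hs⟩
    obtain rfl := (glEquiv _ K).injective hs
    exact mem_specialLinear.1 (Units.ext s.2)
  · intro hg
    exact ⟨⟨g.1, congrArg Units.val (mem_specialLinear.2 hg)⟩, congrArg (glEquiv _ K) (Units.ext rfl)⟩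

end Cfsg.Agent.S5163
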