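import Cfsg.Statements.S5164
import Cfsg.Agent.FusE.Alt3

set_option autoImplicit false
open Cfsg

namespace Cfsg.Agent.S5164

/-- For n ≥ 6 and a prime p, a nontrivial Sylow p-subgroup of the alternating group of degree n is abelian if and only if n < p². -/
theorem result (n p : ℕ) (hn : 6 ≤ n) [Fact p.Prime] (S : Sylow p (alternatingGroup (Fin n))) (hS : (S : Subgroup (alternatingGroup (Fin n))) ≠ ⊥) : IsMulCommutative S ↔ n < p ^ 2 := by
  open Cfsg.Agent.FusE Cfsg.Agent.Loc Subgroup Equiv Sum in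
  have hp := (Fact.out : p.Prime)
  constructor
  · intro hc
    by_contra! hnp
    have h1 : p ≤ n / p := (Nat.le_div_iff_mul_le hp.pos).2 (by rwa [← sq])
    have h3 : 3 ≤ Fintype.card (ZMod p ⊕ Fin (n / p - p)) := by
      simp only [Fintype.card_sum, ZMod.card, Fintype.card_fin]
      rcases hp.eq_two_or_odd' with rfl | h
      · omega
      · have := hp.two_le
        obtain ⟨k, rfl⟩ := h; omega
    let e := Equiv.altCongrHom (Fintype.equivOfCardEq (α := Pt p (ZMod p ⊕ Fin (n / p - p)) (Fin (n % p))) (β := Fin n) (by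
      simp only [Fintype.card_prod, Fintype.card_sum, ZMod.card, Fintype.card_fin, Nat.add_sub_cancel' h1,
        Nat.div_add_mod']))
    have hτ : ∀ u, tau (p := p) (Fin (n / p - p)) u ^ p ^ 1 = 1 := fun u => by
      rw [pow_one, ← map_pow, show u ^ p = 1 from (pow_card_eq_one (x := u)) ▸ by simp, map_one]
    have hQ : IsPGroup p (Wp p (Fin (n % p)) (tau (p := p) (Fin (n / p - p))).range) :=
      isPGroup_Wp fun ⟨_, u, e⟩ => ⟨1, Subtype.ext (e ▸ hτ u)⟩
    obtain ⟨P, hP⟩ := ((isPGroup_subgroupOf hQ (alternatingGroup _)).map e.toMonoidHom).exists_le_sylow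
    obtain ⟨c, hc1, hc2⟩ := exists_third h3 (inl 0) (inl (-1))
    have key : ∀ x y : P, x * y = y * x := fun x y => (Sylow.equiv P S).injective (by
      rw [map_mul, map_mul]; exact hc.1.1 _ _)
    have := e.injective ((map_mul e _ _).trans ((congrArg Subtype.val (key
      ⟨_, hP ⟨⟨_, hat_mem (hτ (.ofAdd 1))⟩, aff_mem_Wp (MonoidHom.mem_range.2 ⟨_, rfl⟩) 0, rfl⟩⟩
      ⟨_, hP ⟨⟨_, tr_single_sub (inl 0) c 1⟩, aff_mem_Wp (one_mem _) _, rfl⟩⟩)).trans (map_mul e _ _).symm))
    have := congrArg (fun g => g.1 (inl (inl (-1), 0))) this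
    simp [hat_apply, hc1.symm, hc2.symm] at this
  · intro hnp
    have h1 : n / p < p := (Nat.div_lt_iff_lt_mul hp.pos).2 (by rwa [← sq])
    let e := (Fintype.equivOfCardEq (β := Pt p (Fin (n / p)) (Fin (n % p))) (α := Fin n) (by
      simp only [Fintype.card_prod, Fintype.card_sum, ZMod.card, Fintype.card_fin, Nat.div_add_mod'])).permCongrHom
    have h2 : SylIn p (⊥ : Subgroup (Perm (Fin (n / p)))) ⊤ := sylIn_of_not_dvd_relIndex le_top IsPGroup.of_bot (by
      rw [relIndex_top_right, index_bot, Nat.card_eq_fintype_card, Fintype.card_perm, hp.dvd_factorial]; simpa)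
    obtain ⟨g, -, hg⟩ := (sylIn_Wp (γ := Fin (n % p)) (by simpa using Nat.mod_lt _ hp.pos) h2).exists_conj_le le_top
      ((S.isPGroup'.map (alternatingGroup _).subtype).map e.toMonoidHom)
    refine ⟨⟨fun x y => Subtype.ext (Subtype.ext (e.injective ((MulAut.conj g).injective ?_)))⟩⟩
    obtain ⟨_, rfl, c, h1⟩ := hg (conj_mem_cj ⟨_, ⟨_, x.2, rfl⟩, rfl⟩)
    obtain ⟨_, rfl, d, h2⟩ := hg (conj_mem_cj ⟨_, ⟨_, y.2, rfl⟩, rfl⟩)
    simp only [coe_mul, map_mul]
    exact (congrArg₂ _ h1 h2).trans (((tr_add c d).symm.trans (add_comm c d ▸ tr_add d c)).trans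
      (congrArg₂ _ h2 h1).symm)

end Cfsg.Agent.S5164
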