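import Cfsg.Statements.S5165
import Cfsg.Agent.FusE.Alt3

set_option autoImplicit false
open Cfsg

namespace Cfsg.Agent.S5165

/-- For n ≥ 6, a prime p with p² ≤ n, and n congruent to 0 or 1 modulo p, the p-fusion system of the alternating group of degree n on a Sylow p-subgroup is simple. -/
theorem result (n p : ℕ) (hn : 6 ≤ n) [Fact p.Prime] (hnp : p ^ 2 ≤ n) (hb : n % p ≤ 1) (S : Sylow p (alternatingGroup (Fin n))) : (Cfsg.groupFusionSystem (S : Subgroup (alternatingGroup (Fin n)))).IsSimple p := by
  open Cfsg.Agent.FusE in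
  have hp := (Fact.out : p.Prime)
  have h1 : p ≤ n / p := (Nat.le_div_iff_mul_le hp.pos).2 (by rwa [← sq])
  haveI : Subsingleton (Fin (n % p)) := Fin.subsingleton_iff_le_one.2 hb
  refine simple_alt (β := Fin (n / p - p)) (γ := Fin (n % p)) ?_ (Equiv.altCongrHom (Fintype.equivOfCardEq ?_)) S
  · simp only [Fintype.card_sum, ZMod.card, Fintype.card_fin]
    rcases hp.eq_two_or_odd' with rfl | h
    · omega
    · have := hp.two_le
      obtain ⟨k, rfl⟩ := h; omega
  · simp only [Fintype.card_prod, Fintype.card_sum, ZMod.card, Fintype.card_fin, Nat.add_sub_cancel' h1, Nat.div_add_mod']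

end Cfsg.Agent.S5165
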