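import Cfsg.Statements.S5166
import Cfsg.Agent.Fus.Cert
import Cfsg.Agent.Golay.Mathieu
-- import your own Cfsg.Agent.* helpers here

set_option autoImplicit false
open Cfsg

namespace Cfsg.Agent.S5166

/-- The 2-fusion system of the Mathieu group M₁₁ (as the explicit permutation group carved out of the automorphism group of the binary Golay code) on a Sylow 2-subgroup is simple: saturated, over a nontrivial 2-group, with no normal subsystem other than the trivial one and itself. -/
theorem result (S : Sylow 2 Cfsg.Spor.M11) : (Cfsg.groupFusionSystem (S : Subgroup Cfsg.Spor.M11)).IsSimple 2 :=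
  open Subgroup Cfsg.Agent.Fus Cfsg.Agent.Loc Equiv in by
  refine perm_simple (E := Golay.EG) Golay.par24 (n := 4) (f := 2) (W := 800) (ys := [818496306144062415656110241739771264, 632760020969491264755735667665183936, 470538536321899336006721713712865568, 885909710009648819507336595330244704]) (steps := [(443118877257465509456941782275236224, [0]), (595351295384845695064619676774701472, [2]), (796590033492984268806335733761967168, [2, 4])]) (ws := [[0], [2, 4], [7], [4, 7]]) (sq := [[4], [8]]) (by norm_num) (by norm_num) ?_ (Golay.codes11 (by decide +kernel)) (by decide +kernel) (by decide +kernel) S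
  rw [Golay.card_M11, show 7920 = 2 ^ 4 * 495 from rfl, Nat.factorization_mul (by norm_num) (by norm_num), Nat.Prime.factorization_pow Nat.prime_two, Finsupp.add_apply, Finsupp.single_eq_same, Nat.factorization_eq_zero_of_not_dvd (by norm_num)]

end Cfsg.Agent.S5166
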