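import Cfsg.Statements.S5167
import Cfsg.Agent.Fus.Cert
import Cfsg.Agent.Golay.Mathieu
-- import your own Cfsg.Agent.* helpers here

set_option autoImplicit false
open Cfsg

namespace Cfsg.Agent.S5167

/-- The 2-fusion system of the Mathieu group M₁₂ (as the explicit permutation group carved out of the automorphism group of the binary Golay code) on a Sylow 2-subgroup is simple: saturated, over a nontrivial 2-group, with no normal subsystem other than the trivial one and itself. -/
theorem result (S : Sylow 2 Cfsg.Spor.M12) : (Cfsg.groupFusionSystem (S : Subgroup Cfsg.Spor.M12)).IsSimple 2 :=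
  open Subgroup Cfsg.Agent.Fus Cfsg.Agent.Loc Equiv in by
  refine perm_simple (E := Golay.EG) Golay.par24 (n := 6) (f := 3) (W := 800) (ys := [444575653814777014292970804859013320, 425097252063718997693671187165909024, 901295183754006805431845397148766214, 425347703194539426542169931064444929, 899228437896488561358951116184301830, 217575390362307285766887346259837229]) (steps := [(879226871427799856607736954026886660, [0]), (807875867084235344238530420516522416, [2]), (320124021474673204512845598950556680, [2]), (735506684660546731667980929153941929, [0, 4, 6]), (608296528453735046493526857031434345, [0, 4, 9])]) (ws := [[0], [2], [6, 4, 8], [2, 4], [0, 4, 8], [10, 8]]) (sq := [[5], [26], [37]]) (by norm_num) (by norm_num) ?_ (Golay.codes12 (by decide +kernel)) (by decide +kernel) (by decide +kernel) S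
  rw [Golay.card_M12, show 95040 = 2 ^ 6 * 1485 from rfl, Nat.factorization_mul (by norm_num) (by norm_num), Nat.Prime.factorization_pow Nat.prime_two, Finsupp.add_apply, Finsupp.single_eq_same, Nat.factorization_eq_zero_of_not_dvd (by norm_num)]

end Cfsg.Agent.S5167
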