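import Cfsg.Statements.S5168
import Cfsg.Agent.Fus.Cert
import Cfsg.Agent.Golay.Mathieu
-- import your own Cfsg.Agent.* helpers here

set_option autoImplicit false
open Cfsg

namespace Cfsg.Agent.S5168

/-- The 2-fusion system of the Mathieu group M₂₂ (as the explicit permutation group carved out of the automorphism group of the binary Golay code) on a Sylow 2-subgroup is simple: saturated, over a nontrivial 2-group, with no normal subsystem other than the trivial one and itself. -/
theorem result (S : Sylow 2 Cfsg.Spor.M22) : (Cfsg.groupFusionSystem (S : Subgroup Cfsg.Spor.M22)).IsSimple 2 :=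
  open Subgroup Cfsg.Agent.Fus Cfsg.Agent.Loc Equiv in by
  refine perm_simple (E := Golay.EG) Golay.par24 (n := 7) (f := 4) (W := 800) (ys := [984794144309361592928604374356570752, 984815711694528072641956329919356096, 984652858371083944333035590839972032, 984640170734373929065016576255278592, 962047496298199119813634016006357216, 962750373820247208505083556844120096, 984713093390188445415386470434743936]) (steps := [(983554304768337677648912091398669664, [0]), (963619943755973384331830285753324128, [2]), (967362805367223752877851064449601984, [0])]) (ws := [[0], [2, 6, 2, 6], [2, 4, 6, 4, 6, 2], [2, 4, 2, 6, 4, 6], [2, 4, 6], [0, 4], [0, 2, 6, 2]]) (sq := [[56], [118], [111], [31]]) (by norm_num) (by norm_num) ?_ (Golay.codes22 (by decide +kernel)) (by decide +kernel) (by decide +kernel) S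
  rw [Golay.card_M22, show 443520 = 2 ^ 7 * 3465 from rfl, Nat.factorization_mul (by norm_num) (by norm_num), Nat.Prime.factorization_pow Nat.prime_two, Finsupp.add_apply, Finsupp.single_eq_same, Nat.factorization_eq_zero_of_not_dvd (by norm_num)]

end Cfsg.Agent.S5168
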