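import Cfsg.Statements.S5169
import Cfsg.Agent.Fus.Cert
import Cfsg.Agent.Golay.Mathieu
-- import your own Cfsg.Agent.* helpers here

set_option autoImplicit false
open Cfsg

namespace Cfsg.Agent.S5169

/-- The 2-fusion system of the Mathieu group M₂₃ (as the explicit permutation group carved out of the automorphism group of the binary Golay code) on a Sylow 2-subgroup is simple: saturated, over a nontrivial 2-group, with no normal subsystem other than the trivial one and itself. -/
theorem result (S : Sylow 2 Cfsg.Spor.M23) : (Cfsg.groupFusionSystem (S : Subgroup Cfsg.Spor.M23)).IsSimple 2 :=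
  open Subgroup Cfsg.Agent.Fus Cfsg.Agent.Loc Equiv in by
  refine perm_simple (E := Golay.EG) Golay.par24 (n := 7) (f := 4) (W := 800) (ys := [961155635554166011110973511532381248, 968612499066654288139014234028879424, 968937098005209565020735710859217248, 979521784458340308784920049976257152, 965365812449115318572651363876551328, 977535616084777682228956019650017952, 984209118219899382534684339287476576]) (steps := [(970574981530472867137860501600675244, [0]), (957136680894387732136314305237289289, [0]), (971101736331703910183294573806438479, [0, 4, 2, 4])]) (ws := [[0], [4, 2, 4, 6, 4, 2, 4, 6], [2, 4, 2, 4], [2, 6, 4, 2, 6, 4], [4, 2, 4, 6, 4], [4, 2, 6, 4], [0, 4, 2, 4]]) (sq := [[32], [73], [127], [28]]) (by norm_num) (by norm_num) ?_ (Golay.codes23 (by decide +kernel)) (by decide +kernel) (by decide +kernel) S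
  rw [Golay.card_M23, show 10200960 = 2 ^ 7 * 79695 from rfl, Nat.factorization_mul (by norm_num) (by norm_num), Nat.Prime.factorization_pow Nat.prime_two, Finsupp.add_apply, Finsupp.single_eq_same, Nat.factorization_eq_zero_of_not_dvd (by norm_num)]

end Cfsg.Agent.S5169
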