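import Cfsg.Statements.S5170
import Cfsg.Agent.Fus.Cert
import Cfsg.Agent.Golay.Mathieu
-- import your own Cfsg.Agent.* helpers here

set_option autoImplicit false
open Cfsg

namespace Cfsg.Agent.S5170

/-- The 2-fusion system of the Mathieu group M₂₄ (as the explicit permutation group of the 24 points preserving the binary Golay code) on a Sylow 2-subgroup is simple: saturated, over a nontrivial 2-group, with no normal subsystem other than the trivial one and itself. -/
theorem result (S : Sylow 2 Cfsg.M24) : (Cfsg.groupFusionSystem (S : Subgroup Cfsg.M24)).IsSimple 2 :=
  open Subgroup Cfsg.Agent.Fus Cfsg.Agent.Loc Equiv in by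
  refine perm_simple (E := Golay.EG) Golay.par24 (n := 10) (f := 6) (W := 800) (ys := [981534870870242420336850699331674144, 970448236288513747957784772254734368, 387047013170365144664426493526425091, 400687369461565476104169771191241219, 973649713914862558040774083881209891, 60048811192398549900780046828245735, 984209313920409622952844859822134791, 309562972426717981205297372092663817, 5706595536691695595139429553419841, 984168533815915605132248087240134147]) (steps := [(95715884389076242421083011097793876, [0]), (144134701563659632947426023426053131, [0]), (5706595536691695595139429553419841, [0, 2]), (392801980217879247936890025996263463, [0, 4, 2]), (773266085235213818928798257689707536, [0, 2, 4, 8]), (61845349120856469927576865000208103, [4, 10, 6]), (357361725176476716427984414504574378, [2, 6, 9, 12]), (250756041273806534777194111443284054, [4, 6, 10])]) (ws := [[0], [2, 4, 10, 9], [4, 6, 10, 12], [0, 8, 8], [10, 12, 9], [12, 16, 12, 16], [6, 10, 14, 8], [12, 4, 14, 4], [4, 16, 8], [6, 8]]) (sq := [[473], [950], [329], [546], [972], [779]]) (by norm_num) (by norm_num) ?_ (Golay.codes24 (by decide +kernel)) (by decide +kernel) (by decide +kernel) S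
  rw [Golay.card_M24, show 244823040 = 2 ^ 10 * 239085 from rfl, Nat.factorization_mul (by norm_num) (by norm_num), Nat.Prime.factorization_pow Nat.prime_two, Finsupp.add_apply, Finsupp.single_eq_same, Nat.factorization_eq_zero_of_not_dvd (by norm_num)]

end Cfsg.Agent.S5170
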