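import Cfsg.Statements.S5171
import Cfsg.Agent.FusE.Form2

set_option autoImplicit false
open Cfsg

namespace Cfsg.Agent.S5171

/-- For a finite field K of characteristic p and m ≥ 2, excluding the case m = 2 with K of two elements, the p-fusion system of the projective symplectic group PSp_{2m}(K) on a Sylow p-subgroup is simple. -/
theorem result {K : Type*} [Field K] [Fintype K] (p : ℕ) [Fact p.Prime] [CharP K p] (m : ℕ) (hm : 2 ≤ m) (hex : m = 2 → 3 ≤ Fintype.card K) (S : Sylow p (Cfsg.PSp m K)) : (Cfsg.groupFusionSystem (S : Subgroup (Cfsg.PSp m K))).IsSimple p := by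
  open Cfsg.Agent.Geom Cfsg.Agent.FusE Cfsg.Agent.Root.Mx in
  refine simple_SI' (sympFormed_nondeg m K) ⟨1, one_ne_zero, mul_one _, ?_⟩ (by simp; omega)
    (fun _ => ?_) ((sympFormed m K).isom.subtype.comp (spEquiv m K).toMonoidHom)
    (Subtype.val_injective.comp (spEquiv m K).injective) ?_ S
  · simp [sympFormed, Formed.ofAlt]
  · rw [Nat.card_eq_fintype_card]
    simp only [Module.finrank_fintype_fun_eq_card, Fintype.card_sum, Fintype.card_fin]
    omega
  · rw [MonoidHom.range_comp, MonoidHom.range_eq_top.2 (spEquiv m K).surjective, ← MonoidHom.range_eq_map,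
      Subgroup.range_subtype, SI, inf_eq_left.2 (EG_symp (F := K) m ▸ EG_le_SLg)]

end Cfsg.Agent.S5171
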