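import Cfsg.Statements.S5172
import Cfsg.Agent.FusE.Form2

set_option autoImplicit false
open Cfsg

namespace Cfsg.Agent.S5172

/-- For a finite field K with q² elements of characteristic p and n ≥ 4, the p-fusion system of the projective special unitary group PSU_n(q) (realised over K) on a Sylow p-subgroup is simple. -/
theorem result {K : Type*} [Field K] [Fintype K] (p q : ℕ) [Fact p.Prime] [CharP K p] (hK : Fintype.card K = q ^ 2) (n : ℕ) (hn : 4 ≤ n) (S : Sylow p (Cfsg.PSU n K q)) : (Cfsg.groupFusionSystem (S : Subgroup (Cfsg.PSU n K q))).IsSimple p := by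
  open Cfsg.Agent.Geom Cfsg.Agent.FusE Cfsg.Agent.Root.Mx in
  have hσ : ∃ a, frobq hK a ≠ a := by
    by_contra! h; exact frobq_ne_id hK (RingHom.ext h)
  obtain ⟨a, ha⟩ := hσ
  refine simple_SI' (hermFormed_nondeg hK n) ⟨a - frobq hK a, sub_ne_zero.2 ha.symm, ?_, ?_⟩ (by simpa)
    (fun h => (ha (h a)).elim) ((glEquiv _ K).toMonoidHom.comp (Matrix.SpecialLinearGroup.toGL.comp (SU n K q).subtype))
    ((glEquiv _ K).injective.comp (Matrix.SpecialLinearGroup.toGL_injective.comp Subtype.val_injective)) ?_ S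
  · simp [hermFormed, Formed.ofHerm]
  · rw [map_sub, frobq_frobq]; change 1 * _ + _ = _; ring
  · ext g
    obtain ⟨g, rfl⟩ := (glEquiv _ K).surjective g
    constructor
    · rintro ⟨s, hs⟩
      obtain rfl := (glEquiv _ K).injective hs
      exact ⟨(mem_hermFormed_isom hK n).2 s.2, mem_specialLinear.1 (Units.ext s.1.2)⟩
    · intro hg
      exact ⟨⟨⟨g.1, congrArg Units.val (mem_specialLinear.2 hg.2)⟩, (mem_hermFormed_isom hK n).1 hg.1⟩,
        congrArg (glEquiv _ K) (Units.ext rfl)⟩

end Cfsg.Agent.S5172
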