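import Cfsg.Statements.S5195
import Cfsg.Agent.S5194
import Cfsg.Agent.Fus.Ctl2
-- import your own Cfsg.Agent.* helpers here

set_option autoImplicit false
open Cfsg

namespace Cfsg.Agent.S5195

section
open Subgroup Cfsg.Agent.Fus Cfsg.Agent.Loc Equiv
open Cfsg.FusionSystem (normalizerIn centralizerIn)

theorem aux.{u} {p : ℕ} [Fact p.Prime] {Ω : Type u} [Group Ω] {S : Subgroup Ω} [Finite S] {F : FusionSystem S}
    (hF : Sat F p) (hp : p ≠ 2 ∨ F.IsSectionFree p (Perm (Fin 4)))
    (h : ∀ Q, Q ≠ ⊥ → Chr S Q → ∀ P (f : Perm Ω), NMor F Q ⊤ P f → CI S P f) : F = innerFusionSystem S := by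
  by_cases h0 : S = ⊥
  · subst h0; exact eq_inner_bot F
  have hJ := chr_ind PLocal.JAF_char hF.pg
  have h1 := h _ (ind_ne_bot PLocal.JAF_char hF.pg h0) hJ
  rw [PLocal.ind_JAF] at hJ h1
  refine inner_iff_hom.1 (Cfsg.Agent.S5194.result p hF.pg F hF.sat hp (fun C hC => inner_iff_hom.2 ?_)
    ((normalizer_inner_iff' hJ.1 hJ.le_normalizer).2 h1))
  exact (nk_inner_iff (isNK_bot_iff.2 ⟨CS_le S S, hC⟩)).2 fun P f _ hf =>
    (h _ (CS_self_ne_bot hF.pg h0) (chr_CS S) P f (hf.mono_K le_top)).mono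
      (CS_eq_of_le (le_centralizer_iff.1 (CS_le_centralizer S S))).ge

end

/-- A strengthened Frobenius normal p-complement criterion for fusion systems. Let F be a saturated fusion system over a finite p-group S such that p is odd or F is S₄-free (the symmetric group of degree 4 is not involved in any model of the normalizer system of a fully normalized F-centric subgroup). If Aut_F(Q) is a p-group for every nontrivial characteristic subgroup Q of S, then F is the inner fusion system of S. -/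
theorem result {Ω : Type*} [Group Ω] {S : Subgroup Ω} [Finite S] (p : ℕ) [Fact p.Prime] (hS : IsPGroup p S) (F : Cfsg.FusionSystem S) (hF : F.IsSaturated p) (hp : p ≠ 2 ∨ F.IsSectionFree p (Equiv.Perm (Fin 4))) (h : ∀ Q : Subgroup Ω, Q ≤ S → Q ≠ ⊥ → (Q.subgroupOf S).Characteristic → IsPGroup p (F.autGroup Q)) : ∀ P : Subgroup Ω, F.Hom P = (Cfsg.innerFusionSystem S).Hom P :=
  open Subgroup Cfsg.Agent.Fus Cfsg.Agent.Loc Equiv in by
  exact inner_iff_hom.2 (inner_of_char (fun F => p ≠ 2 ∨ F.IsSectionFree p (Perm (Fin 4)))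
    (fun hF hE h => h.imp_right (hE.free hF (fkn_of_NK_eq hE.le hE.eq.symm) le_top))
    (fun e hF hK h => h.imp_right (e.free hF hK)) aux F ⟨hS, hF⟩ hp fun Q h0 hQ => (h Q hQ.1 h0 (chr_iff.1 hQ).2).map _)

end Cfsg.Agent.S5195
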