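import Cfsg.Statements.S5196
import Cfsg.Agent.Fus.Ctl
-- import your own Cfsg.Agent.* helpers here

set_option autoImplicit false
universe u
open Cfsg

namespace Cfsg.Agent.S5196

/-- Let p be an odd prime and W a positive characteristic p-functor: W assigns to every finite p-group Q (in a fixed universe) a subgroup W(Q), nontrivial when Q is, carried to W(R) by every isomorphism Q ≅ R; assume also Z(Q) ≤ W(Q) for every finite p-group Q. Suppose W satisfies the local condition: for every finite group G with Sylow p-subgroup P, O_p(G) ∩ Z(G) = O_p(G) ∩ Z(N_G(W(P))). Then W controls weak closure of elements in every saturated fusion system F over a finite p-group S: the centre of the normalizer fusion system of W(S) in F equals the centre of F. (For p = 2 no functor satisfies the local condition, so p is taken odd.) -/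
theorem result {p : ℕ} [Fact p.Prime] (hp : p ≠ 2) (W : ∀ (Q : Type u) [Group Q], Subgroup Q) (hW1 : ∀ (Q : Type u) [Group Q] [Finite Q], IsPGroup p Q → Nontrivial Q → W Q ≠ ⊥) (hW2 : ∀ (Q R : Type u) [Group Q] [Group R] [Finite Q], IsPGroup p Q → ∀ φ : Q ≃* R, (W Q).map φ.toMonoidHom = W R) (hWZ : ∀ (Q : Type u) [Group Q] [Finite Q], IsPGroup p Q → Subgroup.center Q ≤ W Q) (hC : ∀ (G : Type u) [Group G] [Finite G] (P : Sylow p G), Cfsg.pCore p G ⊓ Subgroup.center G = Cfsg.pCore p G ⊓ (Subgroup.center ↥(Subgroup.normalizer (((W ↥(P : Subgroup G)).map (P : Subgroup G).subtype : Subgroup G) : Set G))).map (Subgroup.normalizer (((W ↥(P : Subgroup G)).map (P : Subgroup G).subtype : Subgroup G) : Set G)).subtype) {Ω : Type u} [Group Ω] {S : Subgroup Ω} [Finite S] (hS : IsPGroup p S) (F : Cfsg.FusionSystem S) (hF : F.IsSaturated p) (N : Cfsg.FusionSystem (Cfsg.FusionSystem.normalizerIn S ((W ↥S).map S.subtype))) (hN : F.IsNormalizerSystem ((W ↥S).map S.subtype) N) : N.center = F.center :=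
  open Subgroup Cfsg.Agent.Fus Cfsg.Agent.Loc Equiv in by
  have hW : Cfsg.IsCharPFunctor p W := ⟨hW1, hW2⟩
  have hN' : IsNK F (Cfsg.inducedFunctor W S) ⊤ N := isNK_top_iff.2 ⟨ind_le' W S, hN⟩
  have hn := le_normalizer.trans (normalizer_le_ind hW hS)
  have hT : FusionSystem.normalizerIn S (Cfsg.inducedFunctor W S) = S := NS_eq_of_le hn
  refine le_antisymm (fun z hz => ?_) ((le_inf le_rfl ((center_le F).trans hT.ge)).trans (center_le_center_sub hN'.sub
    (Sat.normalizer ⟨hS, hF⟩ (fn_of_normal F (ind_le' W S) hn) hN')))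
  refine center_ctl hW (fun {Ω} _ {S} _ z => z ∈ FusionSystem.centralizerIn S S) (fun h => h)
    (fun _ hE _ _ h => CS_self_le_nk hE h) (fun e _ _ h => e.mem_CS h) (fun {Ω} _ {S} _ {F} {z} hc hz h => ?_) F ⟨hS, hF⟩ z
    ⟨hT.le (center_le_CS N hz).1, fun x hx => (center_le_CS N hz).2 x (hT.ge hx)⟩
    fun P f hf => fx_of_center hz (hN'.mor (hf.mor.le.trans hT.ge) hf)
  obtain ⟨G, _, L, hL⟩ := exists_model_of_constrained h.sat.pg hc
  haveI := hL.fin
  haveI := finite_of_le (ind_le' W S)
  have h1 : z ∈ Cfsg.inducedFunctor W S :=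
    ⟨⟨z, hz.1⟩, hWZ S h.sat.pg (mem_center_iff.2 fun g => Subtype.ext (hz.2 g g.2)), rfl⟩
  have h2 := (hC G hL.syl.toSylowTop).ge (x := L z) ⟨hL.img_core ▸ mem_img_of_mem L (CS_le_CS_core hc hz).1, by
    rw [← hL.img_ind hW h.sat.pg, map_subtype_center]
    refine ⟨le_normalizer (mem_img_of_mem L h1), fun g hg => ?_⟩
    obtain ⟨f, k1, k2⟩ := hL.toReal.exists_perm (ind_le' W S) (ind_le' W S) (g := g) fun x hx =>
      conj_mem_of_mem_normalizer hg (mem_img_of_mem L hx)
    have := (k2 z h1).2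
    rw [(h.base _ f (nMor_of_le k1 le_rfl (k1.homOn.maps_self fun x hx => (k2 x hx).1) (mem_top _))).fix h1] at this
    exact (mul_inv_eq_iff_eq_mul.1 this.symm)⟩
  refine fun P f => fx_of_center (h.sat.mem_center hz fun P f hf hP => ?_)
  obtain ⟨g, hg⟩ := hL.toReal.exists hf
  refine hL.fiso.injOn (hf.mem_S hP) hz.1 ?_
  rw [hg z hP, mem_center_iff.1 h2.2 g, mul_inv_cancel_right]

end Cfsg.Agent.S5196
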