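import Cfsg.Statements.S5198
import Cfsg.Agent.Fus.Nml
-- import your own Cfsg.Agent.* helpers here

set_option autoImplicit false
open Cfsg

namespace Cfsg.Agent.S5198

/-- Let F be a saturated fusion system over a finite p-group S and T a subgroup of S strongly closed in F (so T is normal in S). Then every element x of the hyperfocal subgroup of F acts on T by conjugation as an element of O^p(Aut_F(T))·Inn(T): there is an automorphism of T in the subgroup generated by the elements of Aut_F(T) of order prime to p together with the inner automorphisms of T that agrees with conjugation by x. -/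
theorem result {Ω : Type*} [Group Ω] {S : Subgroup Ω} [Finite S] (p : ℕ) [Fact p.Prime] (hS : IsPGroup p S) (F : Cfsg.FusionSystem S) (hF : F.IsSaturated p) (T : Subgroup Ω) (hT : F.StronglyClosed T) : ∀ x ∈ F.hyperfocalSubgroup p, ∃ α ∈ ((Cfsg.pResidual p ↥(F.autGroup T)).map (F.autGroup T).subtype ⊔ Cfsg.Inn ↥T : Subgroup (MulAut ↥T)), ∀ t : ↥T, ((α t : ↥T) : Ω) = x * (t : Ω) * x⁻¹ :=
  open Subgroup Cfsg.Agent.Fus Cfsg.Agent.Loc Equiv in by
  have hs : Sat F p := ⟨hS, hF⟩
  intro x hx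
  have hn := sc_le_normalizer hT
  have h1 : F.hyperfocalSubgroup p ≤ NK S T (OpA p (AutF F T) ⊔ AutK T T) := by
    refine hs.hyp_le_of_ge hT (fun t ht => mem_NK.2 ⟨le_NS hT.1 ht, mem_sup_right (cr_mem_AutK ht (le_normalizer ht))⟩)
      fun P hP hTP a ha hc y hy => ?_
    have hi := iso_of_AutF hP ha
    have hm := sc_maps hT hi.mor hTP
    refine mem_NK.2 ⟨⟨S.mul_mem (S.inv_mem (hP hy)) (hP (hi.mem hy)), hn (S.mul_mem (S.inv_mem (hP hy)) (hP (hi.mem hy)))⟩,
      mem_sup_left ?_⟩
    have hr : res T a ∈ OpA p (AutF F T) := mem_OpA (Iso.res_mem ⟨hi.mor.mono hTP, hm⟩)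
      (Nat.Coprime.coprime_dvd_left ((homOn_res T).orderOf_dvd hm) hc)
    have hy' : cr T y ∈ AutF F T := cr_mem_AutF F hT.1 ⟨hP hy, hn (hP hy)⟩
    rw [(homOn_cr T).map_inv_mul (hn (hP hy)) (hn (hP (hi.mem hy))), ← hi.homOn.conj_cr hTP hm hy (hn (hP hy)),
      ← (supp_cr T y).conj_congr hm fun z hz => res_apply hm hz, ← mul_assoc, ← mul_assoc]
    exact mul_mem (conj_inv_mem_of_mem_normalizer (le_normalizer_OpA p _ hy') hr) (inv_mem hr)
  have h2 := (mem_NK.1 (h1 hx)).2
  rw [← map_pResidual_autGroup, ← Inn_map, ← Subgroup.map_sup] at h2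
  obtain ⟨α, hα, e⟩ := h2
  exact ⟨α, hα, fun t => by rw [← toPerm_coe, e, cr_apply (hn (hyp_le F p hx)) t.2]⟩

end Cfsg.Agent.S5198
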