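import Cfsg.Statements.S5214
import Cfsg.Agent.FusC.SC
import Cfsg.Agent.Rank1.TypeA

set_option autoImplicit false
open Cfsg

namespace Cfsg.Agent.S5214

open Subgroup Cfsg.Agent.Fus Cfsg.Agent.Loc

/-- Let S be a Suzuki 2-group (a finite nonabelian 2-group with more than one involution admitting a cyclic group of automorphisms permuting its involutions regularly). Then S is normal in every saturated fusion system over S (such a group is resistant). -/
theorem result {Ω : Type*} [Group Ω] {S : Subgroup Ω} [Finite S] (hS : IsPGroup 2 S) (F : Cfsg.FusionSystem S) (hF : F.IsSaturated 2) (hsz : Cfsg.IsSuzukiTwoGroup ↥S) : F.IsNormal S := by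
  have hF : Sat F 2 := ⟨hS, hF⟩
  obtain ⟨-, hnc, ξ, n, _, -, -, h⟩ := Rank1.exists_suz hsz
  have hO : ∀ x, x ∈ (Rank1.Om S).map S.subtype ↔ x ∈ S ∧ x * x = 1 := fun x => ⟨by
    rintro ⟨x, hx, rfl⟩; exact ⟨x.2, congrArg Subtype.val (h.mem_Om.1 hx)⟩,
    fun k => ⟨⟨x, k.1⟩, h.mem_Om.2 (Subtype.ext k.2), rfl⟩⟩
  refine hF.normal_of_chain 2 (fun i => if i = 0 then ⊥ else if i = 1 then (Rank1.Om S).map S.subtype else S) rfl rfl
    fun i hi => ?_
  obtain rfl | rfl : i = 0 ∨ i = 1 := by omega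
  · refine ⟨bot_le, sc_iff'.2 ⟨map_subtype_le _, fun P f hf x hx k => (hO _).2 ⟨hf.mem_S hx, by
      rw [← hf.homOn.map_mul hx hx, ((hO x).1 k).2, hf.homOn.map_one]⟩⟩, commutator_le.2 ?_⟩
    rintro x hx _ ⟨y, hy, rfl⟩
    exact mem_bot.2 (congrArg Subtype.val (commutatorElement_eq_one_iff_commute.2 (h.commute_Om hy ⟨x, hx⟩)))
  · exact ⟨map_subtype_le _, sc_S F, commutator_le.2 fun x hx y hy => ⟨_, h.comm_mem_Om hnc ⟨x, hx⟩ ⟨y, hy⟩, rfl⟩⟩

end Cfsg.Agent.S5214
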