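import Cfsg.Statements.S5220
import Cfsg.Agent.Fus.Ctl
-- import your own Cfsg.Agent.* helpers here

set_option autoImplicit false
open Cfsg

namespace Cfsg.Agent.S5220

/-- Let F be a saturated fusion system over a nontrivial finite p-group S, let J(S) be the subgroup generated by the abelian subgroups of S of largest order, and let V be the subgroup generated by the p-th powers of the elements of Z(S). Then F is generated by the centralizer fusion system of V and the normalizer fusion system of J(S): every fusion system over S containing the maps of both contains every map of F. -/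
theorem result {Ω : Type*} [Group Ω] {S : Subgroup Ω} [Finite S] (p : ℕ) [Fact p.Prime] (hS : IsPGroup p S) (F : Cfsg.FusionSystem S) (hF : F.IsSaturated p) (hS1 : S ≠ ⊥) (C : Cfsg.FusionSystem (Cfsg.FusionSystem.centralizerIn S (Cfsg.powerClosure p 1 (S ⊓ Subgroup.centralizer (S : Set Ω))))) (hC : F.IsCentralizerSystem (Cfsg.powerClosure p 1 (S ⊓ Subgroup.centralizer (S : Set Ω))) C) (N : Cfsg.FusionSystem (Cfsg.FusionSystem.normalizerIn S (Cfsg.thompsonSubgroupAOf S))) (hN : F.IsNormalizerSystem (Cfsg.thompsonSubgroupAOf S) N) (E : Cfsg.FusionSystem S) (hCE : C.IsSubsystemOf E) (hNE : N.IsSubsystemOf E) : F.IsSubsystemOf E :=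
  open Subgroup Cfsg.Agent.Fus Cfsg.Agent.Loc Equiv in by
  have h1 : Cfsg.powerClosure p 1 (FusionSystem.centralizerIn S S) ≤ FusionSystem.centralizerIn S S :=
    powerClosure_le _ _ _
  have hN' := isNK_top_iff.2 ⟨PLocal.ind_JAF S ▸ ind_le' _ S, hN⟩
  have hC' := isNK_bot_iff.2 ⟨h1.trans (CS_le _ _), hC⟩
  have hn : S ≤ normalizer (Cfsg.thompsonSubgroupAOf S : Set Ω) :=
    PLocal.ind_JAF S ▸ le_normalizer.trans (normalizer_le_ind PLocal.JAF_char hS)
  refine sub_iff_perm.2 (factorization_ctl PLocal.JAF_char (fun h _ => normal_JA_or_quad h) F ⟨hS, hF⟩ _ (closed_mor E)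
    (fun P f hf => ?_) fun P f hf => ?_)
  · rw [PLocal.ind_JAF] at hf
    exact (hN'.mor (hf.mor.le.trans (NS_eq_of_le hn).ge) hf).sub hNE
  · exact (hC'.mor (hf.mor.le.trans (CS_eq_of_le (le_centralizer_iff.1 (h1.trans (CS_le_centralizer _ _)))).ge) hf).sub hCE

end Cfsg.Agent.S5220
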