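import Cfsg.Statements.S5222
import Cfsg.Agent.Fus.Ctl2
-- import your own Cfsg.Agent.* helpers here

set_option autoImplicit false
open Cfsg

namespace Cfsg.Agent.S5222

/-- Let F be a saturated fusion system over a finite p-group S whose normalizer fusion system of S is the inner fusion system of S (Aut_F(S) is a p-group). Then for every subgroup Q of S with [S, S] ≤ Q ≤ Φ(S), the normalizer fusion system of Q in F is the inner fusion system of N_S(Q) = S. -/
theorem result {Ω : Type*} [Group Ω] {S : Subgroup Ω} [Finite S] (p : ℕ) [Fact p.Prime] (hS : IsPGroup p S) (F : Cfsg.FusionSystem S) (hF : F.IsSaturated p) (hN : ∀ N : Cfsg.FusionSystem (Cfsg.FusionSystem.normalizerIn S S), F.IsNormalizerSystem S N → ∀ P : Subgroup Ω, N.Hom P = (Cfsg.innerFusionSystem (Cfsg.FusionSystem.normalizerIn S S)).Hom P) (Q : Subgroup Ω) (h1 : (commutator ↥S).map S.subtype ≤ Q) (h2 : Q ≤ (frattini ↥S).map S.subtype) : ∀ N : Cfsg.FusionSystem (Cfsg.FusionSystem.normalizerIn S Q), F.IsNormalizerSystem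 Q N → ∀ P : Subgroup Ω, N.Hom P = (Cfsg.innerFusionSystem (Cfsg.FusionSystem.normalizerIn S Q)).Hom P :=
  open Subgroup Cfsg.Agent.Fus Cfsg.Agent.Loc Equiv in by
  have hQ : Q ≤ S := h2.trans (Phi_le S)
  rw [map_subtype_commutator] at h1
  have hn : S ≤ normalizer (Q : Set Ω) := le_normalizer_of_commutator_le ((commutator_mono le_rfl hQ).trans h1)
  rw [normalizer_inner_iff' le_rfl le_normalizer] at hN
  rw [normalizer_inner_iff' hQ hn]
  obtain ⟨N, k1, k2, k3⟩ := Sat.exists_nrm ⟨hS, hF⟩ hQ hn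
  exact k1.ci_of_inner (k2.inner_of_sc_Phi (sc_of_normal k3) h1 h2 ((isPGroup_AutK hS S).to_le
    ((AutF_mono k1.sub S).trans (AutF_le_AutK_of_ci le_rfl hN))))

end Cfsg.Agent.S5222
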