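import Cfsg.Statements.S5223
import Cfsg.Agent.Fus.Nml
-- import your own Cfsg.Agent.* helpers here

set_option autoImplicit false
open Cfsg

namespace Cfsg.Agent.S5223

/-- Let F be a saturated fusion system over a finite p-group S. Suppose there are subgroups Q₀ = S, Q₁, …, Qₙ = 1 (not required to be nested) such that for each i < n the focal subgroup of Qᵢ (generated by the elements x⁻¹φ(x), x ∈ Qᵢ, φ a map of F defined on the cyclic group generated by x) lies in Qᵢ₊₁. Then F is the inner fusion system of S. -/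
theorem result {Ω : Type*} [Group Ω] {S : Subgroup Ω} [Finite S] (p : ℕ) [Fact p.Prime] (hS : IsPGroup p S) (F : Cfsg.FusionSystem S) (hF : F.IsSaturated p) (n : ℕ) (Q : Fin (n + 1) → Subgroup Ω) (hQ0 : Q 0 = S) (hQn : Q (Fin.last n) = ⊥) (hstep : ∀ i : Fin n, Subgroup.closure {y : Ω | ∃ x ∈ Q i.castSucc, ∃ φ ∈ F.Hom (Subgroup.zpowers x), y = x⁻¹ * φ ⟨x, Subgroup.mem_zpowers x⟩} ≤ Q i.succ) : ∀ P : Subgroup Ω, F.Hom P = (Cfsg.innerFusionSystem S).Hom P :=
  open Subgroup Cfsg.Agent.Fus Cfsg.Agent.Loc Equiv in by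
  have hs : Sat F p := ⟨hS, hF⟩
  suffices h : F = innerFusionSystem S from fun P => by rw [h]
  have hst : ∀ (i : Fin n) (P : Subgroup Ω) (f : Perm Ω), Mor F P f → ∀ x ∈ P, x ∈ Q i.castSucc → x⁻¹ * f x ∈ Q i.succ :=
    fun i P f hf x hx hxQ => hstep i (subset_closure ⟨x, hxQ, _, (hf.mono (zpowers_le.2 hx)).toHom_mem, rfl⟩)
  -- replace the chain by a decreasing one
  let R : Fin (n + 1) → Subgroup Ω := fun i => ⨅ j ≤ i, Q j
  have hR : ∀ i x, x ∈ R i ↔ ∀ j ≤ i, x ∈ Q j := fun i x => by simp [R, mem_iInf]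
  have hRs : ∀ (i : Fin n) (P : Subgroup Ω) (f : Perm Ω), Mor F P f → ∀ x ∈ P, x ∈ R i.castSucc →
      x⁻¹ * f x ∈ R i.succ := by
    intro i P f hf x hx hxR
    refine (hR _ _).2 fun j hj => ?_
    induction j using Fin.cases with
    | zero => rw [hQ0]; exact S.mul_mem (S.inv_mem (hf.le hx)) (hf.mem_S hx)
    | succ j => exact hst j P f hf x hx ((hR _ _).1 hxR _ (Fin.castSucc_le_castSucc_iff.2 (Fin.succ_le_succ_iff.1 hj)))
  have hmono : ∀ i : Fin n, R i.succ ≤ R i.castSucc := fun i x hx =>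
    (hR _ _).2 fun j hj => (hR _ _).1 hx j (hj.trans (Fin.castSucc_lt_succ).le)
  refine hs.eq_inner fun P hP a ha hc => ?_
  have hPS := (hs.base_fcr hP).1.1
  have hi := iso_of_AutF hPS ha
  have := finite_of_le hPS
  have key : ∀ i, ∀ x ∈ P ⊓ R i, a x = x := by
    intro i
    induction i using Fin.reverseInduction with
    | last =>
      intro x hx
      have := (hR _ _).1 hx.2 _ le_rfl
      rw [hQn, mem_bot] at this
      rw [this, hi.homOn.map_one]
    | cast i ih =>
      refine fix_of_coprime_of_stab hc (hS.to_le (inf_le_left.trans hPS)) (hi.homOn.mono inf_le_left) ?_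
        (inf_le_inf_left _ (hmono i)) ih fun c hc => ⟨P.mul_mem (P.inv_mem hc.1) (hi.mem hc.1), hRs i P a hi.mor c hc.1 hc.2⟩
      have := finite_of_le (inf_le_left : P ⊓ R i.castSucc ≤ P)
      refine (hi.homOn.mono inf_le_left).maps_self fun c hc => ⟨hi.mem hc.1, ?_⟩
      simpa using (R _).mul_mem hc.2 (hmono i (hRs i P a hi.mor c hc.1 hc.2))
  exact fun x hx => key 0 x ⟨hx, (hR _ _).2 fun j hj => by rw [Fin.le_zero_iff.1 hj, hQ0]; exact hPS hx⟩

end Cfsg.Agent.S5223
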