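import Cfsg.Statements.S5224
import Cfsg.Agent.Fus.Trf
-- import your own Cfsg.Agent.* helpers here

set_option autoImplicit false
open Cfsg

namespace Cfsg.Agent.S5224

/-- Tate's Theorem for fusion systems. Let F be a saturated fusion system over a finite p-group S and H a saturated fusion system over S contained in F. Then the following are equivalent: the elementary focal subgroups Φ(S)·foc agree for F and H; the focal subgroups of F and H agree; the hyperfocal subgroups of F and H agree. -/
theorem result {Ω : Type*} [Group Ω] {S : Subgroup Ω} [Finite S] (p : ℕ) [Fact p.Prime] (hS : IsPGroup p S) (F : Cfsg.FusionSystem S) (hF : F.IsSaturated p) (H : Cfsg.FusionSystem S) (hH : H.IsSaturated p) (hHF : H.IsSubsystemOf F) : (((frattini ↥S).map S.subtype ⊔ F.focalSubgroup) = ((frattini ↥S).map S.subtype ⊔ H.focalSubgroup) ↔ F.focalSubgroup = H.focalSubgroup) ∧ (F.focalSubgroup = H.focalSubgroup ↔ F.hyperfocalSubgroup p = H.hyperfocalSubgroup p) :=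
  open Subgroup Cfsg.Agent.Fus Cfsg.Agent.Loc Equiv in by
  have h : Sat F p := ⟨hS, hF⟩
  have h' : Sat H p := ⟨hS, hH⟩
  have k : Phi S ⊔ F.focalSubgroup = Phi S ⊔ H.focalSubgroup → F.hyperfocalSubgroup p = H.hyperfocalSubgroup p := fun e => by
    refine (h.tate (hyp_mono hHF) (le_normalizer_hyp H p) ((hyp_le_foc F p).trans (le_sup_right.trans (e.le.trans ?_)))).symm
    rw [h'.foc_eq]
    exact sup_le le_sup_right (sup_le le_sup_left ((commutator_le_Phi hS).trans le_sup_right))
  have k' : F.hyperfocalSubgroup p = H.hyperfocalSubgroup p → F.focalSubgroup = H.focalSubgroup := fun e => by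
    rw [h.foc_eq, h'.foc_eq, e]
  exact ⟨⟨fun e => k' (k e), fun e => by rw [e]⟩, fun e => k (by rw [e]), k'⟩

end Cfsg.Agent.S5224
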