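import Cfsg.Statements.S5226
import Cfsg.Agent.Fus.Nrm
-- import your own Cfsg.Agent.* helpers here

set_option autoImplicit false
open Cfsg

namespace Cfsg.Agent.S5226

/-- Let F be a saturated fusion system over a finite p-group S and Q a subgroup of S. Then Q is normal in F (F equals the normalizer system of Q) if and only if Q is strongly closed in F and admits a central series 1 = Q₀ ≤ Q₁ ≤ ⋯ ≤ Qₙ = Q ([Qᵢ₊₁, Q] ≤ Qᵢ) all of whose proper terms are weakly closed in F. -/
theorem result {Ω : Type*} [Group Ω] {S : Subgroup Ω} [Finite S] (p : ℕ) [Fact p.Prime] (hS : IsPGroup p S) (F : Cfsg.FusionSystem S) (hF : F.IsSaturated p) (Q : Subgroup Ω) : F.IsNormal Q ↔ F.StronglyClosed Q ∧ ∃ (n : ℕ) (C : Fin (n + 1) → Subgroup Ω), C 0 = ⊥ ∧ C (Fin.last n) = Q ∧ Monotone C ∧ (∀ i : Fin n, ⁅C i.succ, Q⁆ ≤ C i.castSucc) ∧ ∀ i : Fin n, F.WeaklyClosed (C i.castSucc) :=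
  open Subgroup Cfsg.Agent.Fus Cfsg.Agent.Loc Equiv in by
  have hs : Sat F p := ⟨hS, hF⟩
  constructor
  · intro h
    have := finite_of_le h.1
    obtain ⟨n, hn⟩ := exists_Zs_eq (hS.to_le h.1)
    exact ⟨sc_of_normal h, n, fun i => Zs Q i, Zs_zero Q, hn, fun i j hij => Zs_mono Q hij,
      fun i => commutator_Zs Q i, fun i => wc_of_sc (sc_of_normal (normal_Zs h _))⟩
  · rintro ⟨hQ, n, C, h0, hn, hm, hc, hw⟩
    refine hs.normal_of_sc hQ fun P hP => ?_
    have hPS := hP.1.1
    have hCQ : ∀ i, C i ≤ Q := fun i => hn ▸ hm (Fin.le_last i)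
    have hw' : ∀ i, F.WeaklyClosed (C i) := fun i => by
      induction i using Fin.lastCases with
      | last => exact hn ▸ wc_of_sc hQ
      | cast i => exact hw i
    have hst : ∀ i, C i ≤ P → AutF F P ≤ Stab (P ⊓ C i) := fun i hi a ha => by
      rw [inf_eq_right.2 hi]; exact wc_maps (hw' i) (iso_of_AutF hPS ha).mor hi
    have hpa : ∀ X ≤ Q, ∀ i, C i ≤ P → PAct p (AutF F P) (AutK X P) (P ⊓ C i) := by
      intro X hX i
      induction i using Fin.induction with
      | zero => intro _; rw [h0]; exact pact_bot hPS (hX.trans hQ.1)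
      | succ i ih =>
        intro hi
        have hi' := (hm (Fin.castSucc_le_succ i)).trans hi
        exact pact_step hS hPS (hX.trans hQ.1) (hm (Fin.castSucc_le_succ i)) (hst _ hi') (hst _ hi)
          (by rw [commutator_comm]; exact (commutator_mono le_rfl hX).trans (hc i)) (ih hi')
    have key : ∀ i, C i ≤ P := fun i => by
      induction i using Fin.induction with
      | zero => rw [h0]; exact bot_le
      | succ i ih =>
        exact le_of_pact hS hP.1 (hs.radical_of_ess hP) (hw' _).1 (hPS.trans (wc_le_normalizer (hw' _)))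
          (pact_top hS hPS hQ (hCQ _) (pact_step hS hPS (hw' _).1 (hCQ _) (hst _ ih)
            (AutF_le_Stab_inf hPS hQ) (hc i) (hpa _ (hCQ _) _ ih)))
    exact hn ▸ key _

end Cfsg.Agent.S5226
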