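import Cfsg.Statements.S5233
import Cfsg.Agent.FusC.SC
import Cfsg.Agent.BG4.Tools
import Cfsg.Agent.PGrp.ES
import Cfsg.Agent.S0206
import Mathlib.Algebra.Group.Shrink

set_option autoImplicit false
open Cfsg

namespace Cfsg.Agent.S5233

open Subgroup Cfsg.Agent.Fus Cfsg.Agent.Loc Equiv
open scoped commutatorElement
open Cfsg.FusionSystem (normalizerIn centralizerIn)

theorem split {G : Type*} [Group G] [Finite G] {p : ℕ} [Fact p.Prime] {R : Subgroup G} {z w t : G}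
    (hR : IsElementaryAbelian p R) (hz : z ∈ R) (hw : w ∈ R) (hzc : z ∈ center G) (hz1 : z ≠ 1)
    (hc : ∀ x y : G, ⁅x, y⁆ ∈ zpowers z) (hw' : ∀ g, Commute g w → g ∈ R) (ht : t ∉ R) (htp : t ^ p = 1) :
    Nat.card (closure {t, w} : Subgroup G) = p ^ 3 ∧ ¬ IsMulCommutative (closure {t, w} : Subgroup G) ∧
      ∃ (A : Type) (_ : CommGroup A), (∀ a : A, a ^ p = 1) ∧ Nonempty (G ≃* (closure {t, w} : Subgroup G) × A) := by
  have hZ := zpowers_le.2 hzc
  have key : ∀ u x y : G, ¬ Commute x u → ∃ i : ℤ, Commute ((x ^ i)⁻¹ * y) u := fun u x y h => by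
    let f : G →* G := .mk' (⁅·, u⁆) fun a b => by
      rw [show ⁅a * b, u⁆ = a * ⁅b, u⁆ * a⁻¹ * ⁅a, u⁆ by group,
        mem_center_iff.1 (hZ (hc b u)) a, mul_inv_cancel_right, ← mem_center_iff.1 (hZ (hc b u))]
    obtain ⟨i, hi⟩ := mem_zpowers_iff.1 (zpowers_eq_of_mem (hR.2 z hz) (hc x u)
      (mt commutatorElement_eq_one_iff_commute.1 h) ▸ hc y u)
    exact ⟨i, commutatorElement_eq_one_iff_commute.1 (show f _ = 1 by
      rw [map_mul, map_inv, map_zpow]; exact inv_mul_eq_one.2 hi)⟩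
  have h1 : ¬ Commute t w := fun h => ht (hw' t h)
  have htE : t ∈ closure {t, w} := subset_closure (by simp)
  have hwE : w ∈ closure {t, w} := subset_closure (by simp)
  have hzE : zpowers z ≤ closure {t, w} := zpowers_eq_of_mem (hR.2 z hz) (hc t w)
    (mt commutatorElement_eq_one_iff_commute.1 h1) ▸ zpowers_le.2
      (mul_mem (mul_mem (mul_mem htE hwE) (inv_mem htE)) (inv_mem hwE))
  have hn : ∀ V : Subgroup G, zpowers z ≤ V → ∀ U, U ≤ normalizer (V : Set G) := fun V hV U g _ =>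
    (le_normalizer_iff.2 fun g _ v hv => by simpa [commutatorElement_def] using mul_mem (hV (hc g v)) hv : ⊤ ≤ _) trivial
  have hTI : ∀ (V : Subgroup G) (x : G), x ^ p = 1 → x ∉ V → zpowers z ≤ V →
      Nat.card (V ⊔ zpowers x : Subgroup G) = Nat.card V * p := fun V x h k k' => by
    rw [BG.card_sup_TI (.inr (hn V k' _)) (eq_bot_iff.2 fun y hy => by_contra fun e =>
      k (zpowers_le.2 hy.1 (zpowers_eq_of_mem h hy.2 e ▸ mem_zpowers x))), Nat.card_zpowers,
      orderOf_eq_prime h (by rintro rfl; exact k (one_mem _))]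
  have h2 : Nat.card (closure {t, w} : Subgroup G) = p ^ 3 := by
    rw [show closure {t, w} = zpowers z ⊔ zpowers w ⊔ zpowers t from le_antisymm (by
      simp [Set.insert_subset_iff, mem_sup_left (mem_sup_right (mem_zpowers w)), mem_sup_right (mem_zpowers t)])
      (sup_le (sup_le hzE (zpowers_le.2 hwE)) (zpowers_le.2 htE)), hTI _ t htp (fun h => ht (sup_le (zpowers_le.2 hz)
        (zpowers_le.2 hw) h)) le_sup_left, hTI _ w (hR.2 w hw) (fun h => h1 (mem_center_iff.1 (hZ h) t)) le_rfl,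
      Nat.card_zpowers, orderOf_eq_prime (hR.2 z hz) hz1]; ring
  have h3 : ¬ IsMulCommutative (closure {t, w} : Subgroup G) := fun _ => h1 (setLike_mul_comm htE hwE)
  have hCR : center G ≤ R := fun g hg => hw' g (mem_center_iff.1 hg w).symm
  obtain ⟨A, hA⟩ := BG.abelem_splits (isElementaryAbelian_of_le hR hCR) hZ
  have hAc : A ≤ center G := hA.ler
  have h4 : closure {t, w} ⊓ A = ⊥ := by
    rw [eq_bot_iff, ← hA.inf]
    refine le_inf ?_ inf_le_right
    rw [eq_of_le_of_card_le (le_inf hzE (hZ.trans (center_le_centralizer _))) (by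
      rw [Nat.card_zpowers, orderOf_eq_prime (hR.2 z hz) hz1]; exact (BG4.p3group_center h2 h3).2.le)]
    exact inf_le_inf_left _ (hAc.trans (center_le_centralizer _))
  have h5 : closure {t, w} ⊔ A = ⊤ := by
    have k : R ≤ closure {t, w} ⊔ A := fun r hr => by
      obtain ⟨j, hj⟩ := key t w r fun h => h1 h.symm
      have k1 := mul_mem (inv_mem (zpow_mem hw j)) hr
      have : (w ^ j)⁻¹ * r ∈ center G := mem_center_iff.2 fun g => by
        obtain ⟨i, hi⟩ := key w t g h1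
        simpa using ((hj.zpow_right i).symm.mul_left ((isElementaryAbelian_iff.1 hR).1 k1 _ (hw' _ hi))).eq
      simpa using mul_mem (mem_sup_left (zpow_mem hwE j)) (sup_le_sup_right hzE A (hA.sup.ge this))
    refine eq_top_iff.2 fun g _ => ?_
    obtain ⟨i, hi⟩ := key w t g h1
    simpa using mul_mem (mem_sup_left (zpow_mem htE i)) (k (hw' _ hi))
  let f := (Shrink.mulEquiv.{0} (α := A))
  refine ⟨h2, h3, Shrink.{0} A, { (inferInstance : Group _) with mul_comm := fun a b => f.injective (by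
      rw [map_mul, map_mul]; exact Subtype.ext (mem_center_iff.1 (hAc (f b).2) _)) },
    fun a => f.injective (by rw [map_pow, map_one]; exact Subtype.ext (hR.2 _ (hCR (hAc (f a).2)))),
    ⟨(MulEquiv.ofBijective ((closure {t, w}).subtype.noncommCoprod A.subtype fun x y =>
      mem_center_iff.1 (hAc y.2) x) ⟨?_, ?_⟩).symm.trans ((MulEquiv.refl _).prodCongr f.symm)⟩⟩
  · exact (MonoidHom.noncommCoprod_injective _ _ _).2 ⟨subtype_injective _, subtype_injective _, by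
      rw [range_subtype, range_subtype]; exact disjoint_iff.2 h4⟩
  · exact MonoidHom.range_eq_top.1 ((MonoidHom.noncommCoprod_range _ _ _).trans (by rw [range_subtype, range_subtype, h5]))

/-- Let F be a saturated fusion system over a finite p-group S and P a subgroup of S strongly closed in F that is generalized extraspecial (its Frattini subgroup equals its commutator subgroup and has order p) and not isomorphic to E × A with A elementary abelian and E dihedral of order 8 (p = 2) or extraspecial of order p³ and exponent p (p odd). Then P is normal in F. -/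
theorem result {Ω : Type*} [Group Ω] {S : Subgroup Ω} [Finite S] (p : ℕ) [Fact p.Prime] (hS : IsPGroup p S) (F : Cfsg.FusionSystem S) (hF : F.IsSaturated p) (P : Subgroup Ω) (hP : F.StronglyClosed P) (hge : frattini ↥P = commutator ↥P ∧ Nat.card ↥(commutator ↥P) = p) (h2 : p = 2 → ¬ ∃ (A : Type) (_ : CommGroup A), (∀ a : A, a ^ 2 = 1) ∧ Nonempty (↥P ≃* DihedralGroup 4 × A)) (hodd : p ≠ 2 → ¬ ∃ (E : Type) (_ : Group E) (A : Type) (_ : CommGroup A), Cfsg.IsExtraspecial p E ∧ Nat.card E = p ^ 3 ∧ Monoid.exponent E = p ∧ (∀ a : A, a ^ p = 1) ∧ Nonempty (↥P ≃* E × A)) : F.IsNormal P := by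
  have hF : Sat F p := ⟨hS, hF⟩
  have := finite_of_le hP.1
  have hPp := hS.to_le hP.1
  obtain ⟨z', hz'⟩ := (Subgroup.isCyclic_iff_exists_zpowers_eq_top _).1 (isCyclic_of_prime_card hge.2)
  have ho : orderOf z' = p := by rw [← Nat.card_zpowers, hz', hge.2]
  have hc' : ∀ x y : P, ⁅x, y⁆ ∈ zpowers z' := fun x y => hz' ▸ commutator_mem_commutator (mem_top x) (mem_top y)
  have hz1' : z' ≠ 1 := fun e => (Fact.out : p.Prime).one_lt.ne (by rw [← ho, e, orderOf_one])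
  have hzp' : z' ^ p = 1 := ho ▸ pow_orderOf_eq_one z'
  have hzc' : z' ∈ center P := by
    obtain ⟨y, hy, h1⟩ := (bot_or_exists_ne_one _).resolve_left (inf_centralizer_ne_bot (N := zpowers z') (hPp.to_subgroup ⊤)
      (hPp.to_subgroup _) (hz' ▸ le_normalizer_of_normal) (by simpa using hz1'))
    exact zpowers_le.2 (mem_center_iff.2 fun g => hy.2 g trivial) (zpowers_eq_of_mem hzp' hy.1 h1 ▸ mem_zpowers z')
  obtain ⟨z, hzP⟩ := z'
  have hmz : ∀ x : P, x ∈ zpowers (⟨z, hzP⟩ : P) → x.1 ∈ zpowers z := by rintro _ ⟨k, rfl⟩; exact ⟨k, rfl⟩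
  have hc : ∀ x ∈ P, ∀ y ∈ P, ⁅x, y⁆ ∈ zpowers z := fun x hx y hy => hmz _ (hc' ⟨x, hx⟩ ⟨y, hy⟩)
  have hpw : ∀ x ∈ P, x ^ p ∈ zpowers z := fun x hx => hmz _ (hz' ▸ hge.1 ▸ Solv.pow_mem_frattini hPp ⟨x, hx⟩)
  have hzp : z ^ p = 1 := congrArg Subtype.val hzp'
  have hz1 : z ≠ 1 := fun e => hz1' (Subtype.ext e)
  have hzc : ∀ t ∈ P, t * z * t⁻¹ = z := fun t ht =>
    mul_inv_eq_iff_eq_mul.2 (congrArg Subtype.val (mem_center_iff.1 hzc' ⟨t, ht⟩))
  refine hF.normal_of_rad hP fun R hR => ?_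
  have hRS := hR.le_S
  have hRP := hR.lt.le
  have := finite_AutF' F hRS
  have := finite_of_le hRS
  have hz : z ∈ R := hR.CS_le ⟨hzP, fun t ht => mul_inv_eq_iff_eq_mul.1 (hzc t (hRP ht))⟩
  have hZ := zpowers_le.2 hz
  have := finite_of_le hZ
  have hcj : ∀ t ∈ P, ∀ x ∈ R, x⁻¹ * (t * x * t⁻¹) ∈ zpowers z := fun t ht x hx => by
    simpa [commutatorElement_def, mul_assoc] using hc _ (inv_mem (hRP hx)) t ht
  have hn : P ≤ normalizerIn S R := le_inf hP.1 (le_normalizer_iff.2 fun t ht x hx => by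
    simpa using mul_mem hx (hZ (hcj t ht x hx)))
  have hst : ∀ b ∈ AutF F R, ∀ u ∈ zpowers z, u ≠ 1 → b u ∈ zpowers z → b ∈ Stab (zpowers z) := fun b hb u hu h1 h2 => by
    have k := (homOn_of_AutF hb).mono hZ
    refine k.maps_self (img_le_iff.1 ?_)
    nth_rw 1 [← zpowers_eq_of_mem hzp hu h1]
    rwa [(k.mono (zpowers_le.2 hu)).img_zpowers, zpowers_le]
  have hU : ∀ u ∈ AutK P R, u z = z ∧ ∀ x ∈ R, x⁻¹ * u x ∈ zpowers z := fun u hu => by
    obtain ⟨t, ht, k, rfl⟩ := mem_AutK.1 hu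
    exact ⟨(cr_apply k hz).trans (hzc t ht), fun x hx => cr_apply k hx ▸ hcj t ht x hx⟩
  have hUF := AutK_le_AutF F hP.1 hRS
  have hA : AutF F R ⊓ Stab (zpowers z) ≤ AutOn R := inf_le_left.trans (AutF_le_AutOn F R)
  have hcore : AutK P R ≤ pCoreOf p (AutF F R ⊓ Stab (zpowers z)) :=
    (((PAct.bot hA (le_inf hUF fun u hu => hst u (hUF hu) z (mem_zpowers z) hz1 ((hU u hu).1.symm ▸ mem_zpowers z))).step hA
      (hS.to_le hRS) bot_le hZ (fun a ha => (homOn_of_AutF ha.1).maps_bot) inf_le_right (fun u hu => by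
        rintro _ ⟨k, rfl⟩
        rw [(homOn_of_AutF (hUF hu)).map_zpow hz, (hU u hu).1]; simp)).step hA (hS.to_le hRS) hZ le_rfl inf_le_right
      (hA.trans (AutOn_le_Stab R)) fun u hu => (hU u hu).2).le_pCore hA
  obtain ⟨t, htP, htR⟩ := SetLike.exists_of_lt hR.lt
  obtain ⟨a, ha, haz⟩ : ∃ a ∈ AutF F R, a ∉ Stab (zpowers z) := by
    by_contra! k
    rw [inf_eq_left.2 k] at hcore
    exact htR (hR.NK_le (mem_NK.2 ⟨⟨htP, (hn htP).2⟩, hcore (cr_mem_AutK htP (hn htP).2)⟩))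
  have hab : ∀ x ∈ R, ∀ y ∈ R, Commute x y := fun x hx y hy => commutatorElement_eq_one_iff_commute.1 (by_contra fun e =>
    haz (hst a ha _ (hc x (hRP hx) y (hRP hy)) e ((homOn_of_AutF ha).map_commutatorElement hx hy ▸
      hc _ (hRP ((maps_of_AutF ha).mem hx)) _ (hRP ((maps_of_AutF ha).mem hy)))))
  have hp : ∀ x ∈ R, x ^ p = 1 := fun x hx => by_contra fun e =>
    haz (hst a ha _ (hpw x (hRP hx)) e ((homOn_of_AutF ha).map_pow hx p ▸ hpw _ (hRP ((maps_of_AutF ha).mem hx))))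
  have hfa : ∀ a ∈ AutF F R, a ∉ Stab (zpowers z) → ∀ t ∈ P, t * a z * t⁻¹ = a z → t ∈ R := fun a ha haz t ht e => by
    by_contra htR
    have hu := cr_mem_AutK ht (hn ht).2
    have hu' := mul_mem (mul_mem (inv_mem ha) (hUF hu)) ha
    have hb : ∀ b ∈ AutF F R, b * cr R t * b⁻¹ ∈ AutK P R → b ∈ Stab (zpowers z) := fun b hb k => by
      obtain ⟨x, hx, h1⟩ : ∃ x ∈ R, x⁻¹ * cr R t x ≠ 1 := by
        by_contra! k
        exact htR (hR.CS_le ⟨ht, (cr_eq_one_iff (hn ht).2).1 ((supp_cr R t).eq_one fun x hx =>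
          (inv_mul_eq_one.1 (k x hx)).symm)⟩)
      refine hst b hb _ ((hU _ hu).2 x hx) h1 ?_
      simpa [(homOn_of_AutF hb).map_inv_mul hx ((maps_of_AutF (hUF hu)).mem hx)] using
        (hU _ k).2 _ ((maps_of_AutF hb).mem hx)
    obtain ⟨g, hg, k⟩ := hR.conj_into (W := pCoreOf p (AutF F R ⊓ Stab (zpowers z)) ⊔ zpowers (a⁻¹ * cr R t * a))
      (sup_le ((pCoreOf_le _ _).trans inf_le_left) (zpowers_le.2 hu')) ((isPGroup_pCoreOf _ _).to_sup_of_normal_left'
        (by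
          obtain ⟨k, hk⟩ := exists_pow_of_isPGroup (isPGroup_AutK hPp R) hu
          exact isPGroup_zpowers_of_pow (k := k) (by simpa [hk] using conj_pow (a := a⁻¹) (b := cr R t) (i := p ^ k)))
        (zpowers_le.2 (le_normalizer_pCoreOf _ _ ⟨hu', hst _ hu' z (mem_zpowers z) hz1 (by
          simp [cr_apply (hn ht).2 ((maps_of_AutF ha).mem hz), e])⟩)))
    have k1 := hb _ (mul_mem hg (one_mem _)) (k 1 (one_mem _) _ hu (by simpa using mem_sup_left (hcore hu)))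
    have k2 := hb _ (mul_mem hg (inv_mem ha)) (k _ (inv_mem ha) _ hu (by simpa using mem_sup_right (mem_zpowers _)))
    exact haz (by simpa using mul_mem (inv_mem k2) k1)
  have hw := (maps_of_AutF ha).mem hz
  have fin : ∀ t : P, t.1 ∉ R → t ^ p = 1 → _ := fun t h1 h2 => split (R := R.subgroupOf P) (w := ⟨_, hRP hw⟩)
    ⟨⟨⟨fun x y => Subtype.ext (Subtype.ext (hab _ x.2 _ y.2))⟩⟩, fun x hx => Subtype.ext (hp _ hx)⟩ hz hw hzc' hz1' hc'
    (fun g hg => hfa a ha haz g g.2 (mul_inv_eq_iff_eq_mul.2 (congrArg Subtype.val hg))) h1 h2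
  have hne : t * a z * t⁻¹ ≠ a z := fun e => htR (hfa a ha haz t htP e)
  by_cases hp2 : p = 2
  · subst hp2
    obtain ⟨t, h1, h3⟩ : ∃ t : P, t.1 ∉ R ∧ t ^ 2 = 1 := by
      by_cases k : t ^ 2 = 1
      · exact ⟨⟨t, htP⟩, htR, Subtype.ext k⟩
      refine ⟨⟨t * a z, mul_mem htP (hRP hw)⟩, fun h => htR ((mul_mem_cancel_right hw).1 h), Subtype.ext ?_⟩
      have k1 := ((Invol.mem_zpowers_invol ((pow_two z).symm.trans hzp)).1 (hpw t htP)).resolve_left k
      have k2 := ((Invol.mem_zpowers_invol ((pow_two z).symm.trans hzp)).1 (hcj _ (inv_mem htP) _ hw)).resolve_left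
        fun e => hne (by nth_rw 1 [inv_mul_eq_one.1 e]; group)
      have k3 := hp _ hw
      show (t * a z) ^ 2 = 1
      rw [show (t * a z) ^ 2 = t ^ 2 * (a z * ((a z)⁻¹ * (t⁻¹ * a z * t⁻¹⁻¹))) * a z by simp [sq, mul_assoc], k1, k2,
        ← (hab _ hz _ hw).eq, ← mul_assoc, mul_assoc, ← sq, ← sq, hzp, k3, one_mul]
    obtain ⟨h4, h5, A, _, h6, ⟨e⟩⟩ := fin t h1 h3
    have k : ∀ x : P, x ^ 2 = 1 → x ∉ center P → orderOf x = 2 := fun x h k =>
      orderOf_eq_prime h (by rintro rfl; exact k (one_mem _))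
    have k' : ¬ Commute t ⟨_, hRP hw⟩ := fun h => h1 (hfa a ha haz t t.2 (mul_inv_eq_iff_eq_mul.2 (congrArg Subtype.val h)))
    obtain ⟨e'⟩ := S0206.result t ⟨_, hRP hw⟩ (k _ h3 fun h => k' (mem_center_iff.1 h _).symm)
      (k _ (Subtype.ext (hp _ hw)) fun h => k' (mem_center_iff.1 h _)) (by rintro rfl; exact h1 hw)
    have k4 := Nat.card_congr e'.toEquiv
    rw [h4, DihedralGroup.nat_card] at k4
    rw [show orderOf (t * ⟨_, hRP hw⟩) = 4 by omega] at e'
    exact h2 rfl ⟨A, _, h6, ⟨e.trans (e'.prodCongr (.refl _))⟩⟩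
  obtain ⟨σ, hσ, e1, e2⟩ := exists_neg_of_move hRS hn hab hp hz hzc hcj ha ⟨t, htP, hne⟩
    ⟨t, htP, fun e => htR (hfa _ (inv_mem ha) (by simpa using haz) t htP e)⟩
  obtain ⟨g, hg, k⟩ := hR.conj_into ((pCoreOf_le _ _).trans inf_le_left) (isPGroup_pCoreOf p (AutF F R ⊓ Stab (zpowers z)))
  have k1 : cj g (AutK P R) = AutK P R := eq_of_le_of_card_le (cj_le_iff_forall.2 fun u hu => by
    simpa using k 1 (one_mem _) u hu (by simpa using hcore hu)) (card_cj _ _).ge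
  obtain ⟨f, f1, f2, f3⟩ := hR.ext hσ (N := P) (le_inf le_rfl (hn.trans (NS_le_normalizer _ _)))
    (cj_le_iff_forall.2 fun u hu => AutK_mono hP.1 R (by
      have := k σ hσ u hu (conj_mem_of_mem_normalizer (le_normalizer_pCoreOf _ _
        ⟨hσ, hst σ hσ z (mem_zpowers z) hz1 (e1 ▸ inv_mem (mem_zpowers z))⟩) (hcore hu))
      rw [← k1, mem_cj] at this
      simpa [mul_assoc] using this))
  rw [sup_eq_left.2 hRP] at f1 f3
  have f4 : ∀ x ∈ zpowers z, f x = x⁻¹ := by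
    rintro _ ⟨k, rfl⟩
    rw [f1.homOn.map_zpow hzP, f2 z hz, e1, inv_zpow]
  have hexp : ∀ t : P, t ^ p = 1 := fun ⟨t, ht⟩ => by
    have k := hcj t ht _ hw
    have k1 : f t * (a z)⁻¹ * (f t)⁻¹ = t * (a z)⁻¹ * t⁻¹ := by
      rw [← e2, ← f2 _ hw, ← f1.homOn.map_conj ht (hRP hw), ← mul_inv_cancel_left (a z) (t * a z * t⁻¹),
        f1.homOn.map_mul (hRP hw) (hRP (hZ k)), f4 _ k, f2 _ hw, e2, (hab _ (inv_mem hw) _ (inv_mem (hZ k))).eq]
      group
    have k2 := mul_mem (inv_mem ht) (f3 t ht)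
    have k3 := hfa a ha haz _ k2 (inv_injective (by
      rw [show (t⁻¹ * f t * a z * (t⁻¹ * f t)⁻¹)⁻¹ = t⁻¹ * (f t * (a z)⁻¹ * (f t)⁻¹) * t by group, k1]; group))
    have k4 := hc _ k2 t ht
    have k5 : ∀ x ∈ P, Commute ⁅t⁻¹ * f t, t⁆ x := fun x hx => by
      obtain ⟨i, hi⟩ := mem_zpowers_iff.1 k4
      exact hi ▸ Commute.zpow_left (mul_inv_eq_iff_eq_mul.1 (hzc x hx)).symm i
    have k6 := PGrp.mul_pow_of_commute_commutator (k5 t ht) (k5 _ k2) p
    obtain ⟨m, hm⟩ := (Fact.out : p.Prime).dvd_choose_self two_ne_zero (lt_of_le_of_ne (Fact.out : p.Prime).two_le (Ne.symm hp2))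
    rw [mul_inv_cancel_left, ← f1.homOn.map_pow ht, f4 _ (hpw t ht), hm, pow_mul, hp _ (hZ k4), hp _ k3, one_pow, one_mul,
      mul_one] at k6
    refine Subtype.ext (by_contra fun e => hp2 ?_)
    exact (Nat.prime_dvd_prime_iff_eq Fact.out Nat.prime_two).1 (orderOf_eq_prime (hp _ (hZ (hpw t ht))) e ▸
      orderOf_dvd_of_pow_eq_one ((pow_two _).trans (mul_eq_one_iff_eq_inv.2 k6.symm)))
  obtain ⟨h4, h5, A, _, h6, ⟨e⟩⟩ := fin ⟨t, htP⟩ htR (hexp _)
  let f := (Shrink.mulEquiv.{0} (α := (closure {⟨t, htP⟩, ⟨_, hRP hw⟩} : Subgroup P))).symm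
  have : Nontrivial (closure {⟨t, htP⟩, ⟨_, hRP hw⟩} : Subgroup P) := Finite.one_lt_card_iff_nontrivial.1
    (h4 ▸ Nat.one_lt_pow three_ne_zero (Fact.out : p.Prime).one_lt)
  exact hodd hp2 ⟨_, _, A, _, PGrp.ES_of_mulEquiv (BG4.p3group_extraspecial h4 h5) f, (Nat.card_congr f.toEquiv).symm.trans h4,
    (Monoid.exponent_eq_of_mulEquiv f).symm.trans ((Monoid.exponent_eq_prime_iff Fact.out).2 fun x hx =>
      orderOf_eq_prime (Subtype.ext (hexp x)) hx), h6, ⟨e.trans (f.prodCongr (.refl _))⟩⟩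

end Cfsg.Agent.S5233
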