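import Cfsg.Statements.S5236
import Cfsg.Agent.FusC.SC

set_option autoImplicit false
open Cfsg

namespace Cfsg.Agent.S5236

open Subgroup Cfsg.Agent.Fus Cfsg.Agent.Loc

/-- Let p be an odd prime, F a saturated fusion system over a finite p-group S and P a subgroup of S strongly closed in F. Then P is normal in F if and only if Ω₁(P) (the subgroup generated by the elements of order p of P) has a chain of subgroups 1 = Q₀ ≤ Q₁ ≤ ⋯ ≤ Qₙ = Ω₁(P), each strongly closed in F, with [Qᵢ₊₁, P] ≤ Qᵢ for all i. -/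
theorem result {Ω : Type*} [Group Ω] {S : Subgroup Ω} [Finite S] (p : ℕ) [Fact p.Prime] (hS : IsPGroup p S) (F : Cfsg.FusionSystem S) (hF : F.IsSaturated p) (hp : p ≠ 2) (P : Subgroup Ω) (hP : F.StronglyClosed P) : F.IsNormal P ↔ ∃ (n : ℕ) (Q : Fin (n + 1) → Subgroup Ω), Q 0 = ⊥ ∧ Q (Fin.last n) = Cfsg.omegaOne p P ∧ Monotone Q ∧ (∀ i : Fin (n + 1), F.StronglyClosed (Q i)) ∧ ∀ i : Fin n, ⁅Q i.succ, P⁆ ≤ Q i.castSucc := by
  have hF : Sat F p := ⟨hS, hF⟩
  have := finite_of_le hP.1
  refine ⟨fun h => ?_, fun ⟨n, Q, h0, h1, h2, h3, h4⟩ => hF.normal_of_rad hP fun R h => h.not_pact_omega hp ?_⟩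
  · obtain ⟨n, hn⟩ := exists_Zs_eq (hS.to_le hP.1)
    have hO : F.IsNormal (omegaOne p P) := normal_of_normal_of_inv h (omegaOne_le p P) fun f hf =>
      hf.homOn.maps_omega hf.maps
    refine ⟨n, fun i => Zs P i ⊓ omegaOne p P, by simp [Zs_zero], by simp [hn, omegaOne_le],
      fun i j hij => inf_le_inf_right _ (Zs_mono P hij), fun i => sc_inf (sc_of_normal (normal_Zs h i))
        (sc_of_normal hO), fun i => le_inf ((commutator_mono inf_le_left le_rfl).trans (commutator_Zs P i))
        ((commutator_mono inf_le_right le_rfl).trans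
          (commutator_le_left_of_le_normalizer (le_normalizer_omegaOne le_normalizer)))⟩
  · rw [← h1]
    induction Fin.last n using Fin.induction with
    | zero => rw [h0]; exact pact_bot h.le_S hP.1
    | succ i ih =>
      exact h.pact_step (h2 i.castSucc_lt_succ.le) (AutF_le_Stab_inf h.le_S (h3 _)) (AutF_le_Stab_inf h.le_S (h3 _))
        ((commutator_comm _ _).trans_le (h4 i)) ih

end Cfsg.Agent.S5236
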