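import Cfsg.Statements.S5244
import Cfsg.Agent.Fus.AbI
-- import your own Cfsg.Agent.* helpers here

set_option autoImplicit false
open Cfsg

namespace Cfsg.Agent.S5244

/-- Let p be an odd prime, S a finite nonabelian p-group with a unique abelian subgroup A of index p, and F a saturated fusion system over S with no nontrivial normal subgroup (O_p(F) = 1) in which A is not F-essential. Then some subgroup Z(S)⟨x⟩ with x ∈ S outside A is F-essential, the centre Z(S) is contained in the commutator subgroup of S, and S has maximal nilpotency class (if S has order pⁿ with n ≥ 3, the term of index n − 2 of its lower central series, counting S itself as the term of index 0, is nontrivial). -/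
theorem result {Ω : Type*} [Group Ω] {S : Subgroup Ω} [Finite S] (p : ℕ) [Fact p.Prime] (hS : IsPGroup p S) (F : Cfsg.FusionSystem S) (hF : F.IsSaturated p) (hp : p ≠ 2) (hna : ¬ IsMulCommutative ↥S) (A : Subgroup Ω) (hA : A ≤ S ∧ IsMulCommutative ↥A ∧ (A.subgroupOf S).index = p) (huniq : ∀ B : Subgroup Ω, B ≤ S → IsMulCommutative ↥B → (B.subgroupOf S).index = p → B = A) (hcore : F.core = ⊥) (hAe : ¬ F.IsEssential p A) : (∃ x ∈ S, x ∉ A ∧ F.IsEssential p ((S ⊓ Subgroup.centralizer (S : Set Ω)) ⊔ Subgroup.zpowers x)) ∧ (S ⊓ Subgroup.centralizer (S : Set Ω)) ≤ (commutator ↥S).map S.subtype ∧ ∀ n : ℕ, Nat.card S = p ^ n → 3 ≤ n → Subgroup.lowerCentralSeries S (n - 2) ≠ ⊥ :=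
  open Subgroup Cfsg.Agent.Fus Cfsg.Agent.Loc Equiv in by
  have h := AI.of hS hna hA
  have hF' : Sat F p := ⟨hS, hF⟩
  have key : ∀ P, F.IsEssential p P → Nat.card (FusionSystem.centralizerIn S S ⊓ ⁅S, S⁆ : Subgroup Ω) = p ∧
      ((TV F p P (FusionSystem.centralizerIn S S) ∧ ∃ x ∈ S, x ∉ A ∧ P = FusionSystem.centralizerIn S S ⊔ zpowers x) ∨
      (¬ TV F p P (FusionSystem.centralizerIn S S) ∧ AutF F P ≤ Stab (FusionSystem.centralizerIn S S) ∧
        AutF F P ≤ Stab (FusionSystem.centralizerIn S S ⊓ ⁅S, S⁆))) := fun P hP => by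
    have e : Es F p P := ⟨hF', hP⟩
    obtain ⟨x, hx, hx'⟩ := h.exists_x_ess e fun e => hAe (e ▸ hP)
    by_cases hab : P ≤ centralizer (P : Set Ω)
    · obtain ⟨h1, h2, h3, -⟩ := h.ess_ab e hx hx' hab
      exact ⟨h3, .inl ⟨h2, x, e.le hx, hx', h1⟩⟩
    · obtain ⟨h1, -, -, h3, -, h2⟩ := h.ess_nab e hx hx' hab
      exact ⟨h3, .inr ⟨fun t => hab t.ab, h1 ▸ (AutF_le_AutOn F P).trans (chr_CS P).stab, fun a ha =>
        h2 ▸ (homOn_of_AutF ha).maps_commutator le_rfl le_rfl (maps_of_AutF ha) (maps_of_AutF ha)⟩⟩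
  obtain ⟨P, hP⟩ := hF'.exists_tv hcore (fun e => h.na (e.le.trans bot_le)) fun P hP => (key P hP).2.imp (·.1) (·.2.1)
  obtain ⟨c, ⟨-, x, hx, hx', e⟩ | e⟩ := key P hP.ess
  swap
  · exact (e.1 hP).elim
  have hZ := hF'.Z_le_of_odd hp hcore c.le fun P hP => (key P hP).2.imp (·.1) (·.2)
  rw [BG4.map_subtype_commutator]
  refine ⟨⟨x, hx, hx', by have := hP.ess; rwa [e] at this⟩, hZ, fun n hn h3 hl => ?_⟩
  have c1 := h.card_le_of_lcs c (j := 0) (k := n - 3) (hl.le.trans bot_le) (by omega)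
  rw [inf_eq_left.2 hZ] at c
  rw [hn, c, ← pow_succ'] at c1
  have := (Nat.pow_le_pow_iff_right (Fact.out : p.Prime).one_lt).1 c1
  omega

end Cfsg.Agent.S5244
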