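import Cfsg.Statements.S5245
import Cfsg.Agent.FusC.Aut

set_option autoImplicit false
open Cfsg

namespace Cfsg.Agent.S5245

open Subgroup Cfsg.Agent.Fus Cfsg.Agent.Loc Equiv

/-- Let F be an extremely sparse fusion system over a finite p-group S (saturated, not the inner system, and every saturated fusion system over any subgroup T of S contained in F is F itself or the inner system of T). Then S is normal in F, the focal and hyperfocal subgroups of F are both S, and Aut_F(S) is generated by the inner automorphisms of S together with a single automorphism of prime order q ≠ p (F is the fusion system of the semidirect product of S by a cyclic group of prime order). -/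
theorem result {Ω : Type*} [Group Ω] {S : Subgroup Ω} [Finite S] (p : ℕ) [Fact p.Prime] (hS : IsPGroup p S) (F : Cfsg.FusionSystem S) (hF : F.IsSaturated p) (hxs : ¬ (∀ P : Subgroup Ω, F.Hom P = (Cfsg.innerFusionSystem S).Hom P) ∧ ∀ (T : Subgroup Ω) (E : Cfsg.FusionSystem T), E.IsSaturated p → E.IsSubsystemOf F → (T = S ∧ ∀ P : Subgroup Ω, E.Hom P = F.Hom P) ∨ (∀ P : Subgroup Ω, E.Hom P = (Cfsg.innerFusionSystem T).Hom P)) : F.IsNormal S ∧ F.focalSubgroup = S ∧ F.hyperfocalSubgroup p = S ∧ ∃ (q : ℕ) (β : MulAut ↥S), q.Prime ∧ q ≠ p ∧ β ∈ F.autGroup S ∧ orderOf β = q ∧ (F.autGroup S : Subgroup (MulAut ↥S)) = Cfsg.Inn ↥S ⊔ Subgroup.zpowers β := by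
  have hF' : Sat F p := ⟨hS, hF⟩
  have K : ∀ P ≤ S, ∀ b ∈ AutF F P, (orderOf b).Coprime p → b ≠ 1 → P = S ∧ AutF F S = AutK S S ⊔ zpowers b ∧
      ∀ Q (f : Perm Ω), Mor F Q f → ∃ a ∈ AutF F S, ∀ x ∈ Q, f x = a x := fun P hP b hb ho h1 => by
    have := finite_of_le hP
    have hz := (zpowers_le.2 hb).trans (AutF_le_AutOn F P)
    obtain ⟨E, e1, e2, e3⟩ := exists_autSys (hS.to_le hP) (sup_le (AutK_le_AutOn P P) hz)
      (sylIn_Inn_sup (hS.to_le hP) hz (by rwa [Nat.card_zpowers]))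
    rcases hxs.2 P E e1.sat (sub_iff_perm.2 fun Q f hf => by
      obtain ⟨h2, a, ha, e⟩ := (e2 Q f).1 hf
      exact ((iso_of_AutF hP (sup_le (AutK_le_AutF F hP hP) (zpowers_le.2 hb) ha)).mor.mono h2).congr e) with ⟨rfl, h⟩ | h
    · obtain rfl := fs_ext h
      exact ⟨rfl, e3, fun Q f hf => e3 ▸ ((e2 Q f).1 hf).2⟩
    · rw [inner_iff_hom.1 h, AutF_inner le_rfl] at e3
      obtain ⟨k, hk⟩ := exists_pow_of_isPGroup (isPGroup_AutK (hS.to_le hP) P) (e3.ge (mem_sup_right (mem_zpowers b)))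
      exact (h1 (eq_one_of_pow ho hk)).elim
  obtain ⟨P, hP, a, ha, ho, x, -, hx⟩ : ∃ P, (P = S ∨ F.IsEssential p P) ∧ ∃ a ∈ AutF F P, (orderOf a).Coprime p ∧
      ∃ x ∈ P, a x ≠ x := by
    by_contra! h
    exact hxs.1 (inner_iff_hom.2 (hF'.eq_inner h))
  have hPS := (hF'.base_fcr hP).1.1
  have := finite_AutF' F hPS
  obtain ⟨q, hq, hd⟩ := Nat.exists_prime_and_dvd (n := orderOf a) fun e => hx (by rw [orderOf_eq_one_iff.1 e]; rfl)
  have hb := orderOf_pow_orderOf_div (orderOf_ne_zero_of_mem ha) hd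
  have hb' := pow_mem ha (orderOf a / q)
  generalize a ^ (orderOf a / q) = b at hb hb'
  have hc : (orderOf b).Coprime p := hb ▸ ho.coprime_dvd_left hd
  have h1 : b ≠ 1 := fun e => hq.ne_one (by rw [← hb, e, orderOf_one])
  obtain ⟨rfl, k1, k2⟩ := K P hPS b hb' hc h1
  have hh : F.hyperfocalSubgroup p = P := by
    by_contra e
    have hi := iso_of_AutF le_rfl hb'
    have hm := sc_maps hF'.sc_hyp hi.mor (hyp_le F p)
    refine h1 ((supp_of_AutF hb').eq_one (fix_of_coprime_of_stab hc (hS.to_le (hyp_le F p)) hi.homOn hi.maps (hyp_le F p)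
      ((res_eq_one_iff hm).1 (by_contra fun h => e (K _ (hyp_le F p) _ (Iso.res_mem ⟨hi.mor.mono (hyp_le F p), hm⟩)
        (hc.coprime_dvd_left (orderOf_dvd_of_pow_eq_one ?_)) h).1)) fun x hx => mem_hyp le_rfl hb' hc hx))
    rw [← res_pow hm, pow_orderOf_eq_one, res_one]
  refine ⟨normal_of_perm le_rfl fun Q f hf => ?_, (foc_le F).antisymm (hh.ge.trans (hyp_le_foc F p)), hh, ?_⟩
  · obtain ⟨a, ha, e⟩ := k2 Q f hf
    exact ⟨a, (iso_of_AutF le_rfl ha).mor.mono (sup_le hf.le le_rfl), fun x hx => (e x hx).symm,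
      fun x hx => (maps_of_AutF ha).mem hx⟩
  obtain ⟨β, hβ, rfl⟩ := hb'
  refine ⟨q, β, hq, (Nat.coprime_primes hq Fact.out).1 (hb ▸ hc), hβ, orderOf_toPerm β ▸ hb,
    map_injective (toPerm_injective P) ?_⟩
  rwa [Subgroup.map_sup, Inn_map, MonoidHom.map_zpowers]

end Cfsg.Agent.S5245
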