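import Cfsg.Statements.S5251
import Cfsg.Agent.Fus.Nml
-- import your own Cfsg.Agent.* helpers here

set_option autoImplicit false
open Cfsg

namespace Cfsg.Agent.S5251

/-- Let F be a saturated fusion system over a finite p-group S, E a normal subsystem of F over T, and P an F-centric subgroup of S such that P ∩ T is not E-centric. Then some F-conjugate P* of P satisfies Out_S(P*) ∩ O_p(Out_F(P*)) ≠ 1: there is an element of N_S(P*) outside P* whose conjugation action on P* lies in O_p(Aut_F(P*)). In particular P is not both centric and radical in F. -/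
theorem result {Ω : Type*} [Group Ω] {S : Subgroup Ω} [Finite S] (p : ℕ) [Fact p.Prime] (hS : IsPGroup p S) (F : Cfsg.FusionSystem S) (hF : F.IsSaturated p) {T : Subgroup Ω} (E : Cfsg.FusionSystem T) (hE : E.IsNormalIn F p) (P : Subgroup Ω) (hP : F.IsCentric P) (hPT : ¬ E.IsCentric (P ⊓ T)) : (∃ φ ∈ F.Hom P, ∃ x ∈ S ⊓ Subgroup.normalizer (φ.range : Set Ω), x ∉ φ.range ∧ ∃ α ∈ ((Cfsg.pCore p ↥(F.autGroup φ.range)).map (F.autGroup φ.range).subtype : Subgroup (MulAut ↥φ.range)), ∀ y : ↥φ.range, ((α y : ↥φ.range) : Ω) = x * (y : Ω) * x⁻¹) ∧ ¬ F.IsRadical p P :=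
  open Subgroup Cfsg.Agent.Fus Cfsg.Agent.Loc Equiv in by
  have h := (ni_iff hS).1 hE
  have hs := h.satF
  have := h.inv.finite
  obtain ⟨g, Q₀, hQ₀, hg, hm⟩ := hs.exists_NS_mor (inf_le_left.trans hP.1 : P ⊓ T ≤ S)
  have hPN : P ≤ FusionSystem.normalizerIn S (P ⊓ T) := le_inf hP.1 (le_normalizer_inf le_normalizer (hP.1.trans (sc_le_normalizer h.sc)))
  have hi := (hg.mono hPN).iso
  have hQ : Q₀ = img g P ⊓ T := hm.unique (sc_maps_inf h.sc hi)
  subst hQ
  have hc := centric_iso hP hi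
  have hnc : ¬ FusionSystem.centralizerIn T (img g P ⊓ T) ≤ img g P := fun hle => by
    refine hPT (h.inv.centric_iso (h.satE.centric_of_fc (hs.fc_sub h.sc h.sub inf_le_right (hs.fc_of_fn hQ₀))
      (le_inf hle (CS_le _ _))) (Iso.symm ⟨hi.mor.mono inf_le_left, hm⟩))
  refine ⟨?_, fun hr => hnc (CS_inf_le_of_cr hS h.sc hc (radical_iso hr hi))⟩
  have hA := AutK_CS_inf_le_pCore hS h.sc hi.le'
  have hno : ¬ AutK (FusionSystem.centralizerIn T (img g P ⊓ T)) (img g P) ≤ AutK (img g P) (img g P) := fun hle =>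
    hnc (le_of_AutK_le_Inn' hS hi.le' ((CS_le _ _).trans h.le) (centric_CS_le hc)
      (le_normalizer_inf (hi.le'.trans (sc_le_normalizer h.sc)) (le_normalizer_centralizer
        (le_normalizer_inf le_normalizer (hi.le'.trans (sc_le_normalizer h.sc))))) hle)
  obtain ⟨a, ha, ha'⟩ := SetLike.not_le_iff_exists.1 hno
  obtain ⟨x, hx, hxn, rfl⟩ := mem_AutK.1 ha
  refine ⟨_, hi.mor.toHom_mem, ?_⟩
  rw [← hi.homOn.img_eq_range]
  refine ⟨x, ⟨h.le hx.1, hxn⟩, fun hx' => ha' (cr_mem_AutK hx' hxn), ?_⟩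
  have := hA ha
  rw [← map_pCore_autGroup] at this
  obtain ⟨α, hα, e⟩ := this
  exact ⟨α, hα, fun y => by rw [← toPerm_coe, e, cr_apply hxn y.2]⟩

end Cfsg.Agent.S5251
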