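import Cfsg.Statements.S5253
import Cfsg.Agent.Fus.Ctl
-- import your own Cfsg.Agent.* helpers here

set_option autoImplicit false
universe u
open Cfsg

namespace Cfsg.Agent.S5253

/-- Let p be a prime and W a positive characteristic p-functor with Z(Q) ≤ W(Q): W assigns to every finite p-group Q (in a fixed universe) a subgroup W(Q), nontrivial when Q is, carried to W(R) by every isomorphism Q ≅ R, and containing the centre of Q. Suppose that for every finite group G with Sylow p-subgroup P in which W(P) is not normal there is g ∈ P outside O_p(G) with [Z(O_p(G)), g, g] = 1. Then for every saturated fusion system F over a finite p-group S and every normalizer fusion system N of W(S) in F, every p-th power of an element of Z(S) that lies in the centre of N lies in the centre of F. -/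
theorem result {p : ℕ} [Fact p.Prime] (W : ∀ (Q : Type u) [Group Q], Subgroup Q) (hW1 : ∀ (Q : Type u) [Group Q] [Finite Q], IsPGroup p Q → Nontrivial Q → W Q ≠ ⊥) (hW2 : ∀ (Q R : Type u) [Group Q] [Group R] [Finite Q], IsPGroup p Q → ∀ φ : Q ≃* R, (W Q).map φ.toMonoidHom = W R) (hWZ : ∀ (Q : Type u) [Group Q] [Finite Q], IsPGroup p Q → Subgroup.center Q ≤ W Q) (hq : ∀ (G : Type u) [Group G] [Finite G] (P : Sylow p G), ¬ (((W ↥(P : Subgroup G)).map (P : Subgroup G).subtype : Subgroup G)).Normal → ∃ g : G, g ∈ (P : Subgroup G) ∧ g ∉ Cfsg.pCore p G ∧ ⁅⁅Subgroup.center ↥(Cfsg.pCore p G) |>.map (Cfsg.pCore p G).subtype, Subgroup.zpowers g⁆, Subgroup.zpowers g⁆ = ⊥) {Ω : Type u} [Group Ω] {S : Subgroup Ω} [Finite S] (hS : IsPGroup p S) (F : Cfsg.FusionSystem S) (hF : F.IsSaturated p) (N : Cfsg.FusionSystem (Cfsg.FusionSystem.normalizerIn S ((W ↥S).map S.subtype))) (hN : F.IsNormalizerSystem ((W ↥S).map S.subtype) N) : Subgroup.closure ((fun z => z ^ p) '' ((S ⊓ Subgroup.centralizer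 (S : Set Ω) : Subgroup Ω) : Set Ω)) ⊓ N.center ≤ F.center :=
  open Subgroup Cfsg.Agent.Fus Cfsg.Agent.Loc Equiv in by
  rintro z ⟨hz, hzN⟩
  have hN' : IsNK F (Cfsg.inducedFunctor W S) ⊤ N := isNK_top_iff.2 ⟨ind_le' W S, hN⟩
  have hT : FusionSystem.normalizerIn S (Cfsg.inducedFunctor W S) = S :=
    NS_eq_of_le (le_normalizer.trans (normalizer_le_ind ⟨hW1, hW2⟩ hS))
  obtain ⟨y, hy, rfl⟩ : ∃ y ∈ FusionSystem.centralizerIn S S, z = y ^ p := by
    have := (mem_powerClosure_iff (p := p) (n := 1) (x := z) (CS_self_le_centralizer S)).1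
      (closure_mono (by rintro _ ⟨x, hx, rfl⟩; exact ⟨x, hx, by simp⟩) hz)
    simpa using this
  refine pow_mem_center ⟨hW1, hW2⟩ (fun {Ω} _ {S} _ {F} hS hc => ?_) ⟨hS, hF⟩ hy fun P f hf =>
    fx_of_center hzN (hN'.mor (hf.mor.le.trans hT.ge) hf)
  obtain ⟨G, _, L, hL⟩ := exists_model_of_constrained hS hc
  haveI := hL.fin
  refine or_iff_not_imp_left.2 fun hn => ?_
  rw [hL.normal_iff (ind_le' W S), hL.img_ind ⟨hW1, hW2⟩ hS] at hn
  obtain ⟨g, h1, h2, h3⟩ := hq G _ hn
  obtain ⟨u, hu, rfl⟩ := hL.hom.mem_img.1 h1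
  refine ⟨u, hu, fun h => h2 (hL.img_core ▸ mem_img_of_mem L h), ?_⟩
  have h4 : FusionSystem.centralizerIn F.core F.core ≤ S := (CS_le _ _).trans (core_le F)
  have h5 := zpowers_le.2 hu
  have h6 : ⁅FusionSystem.centralizerIn F.core F.core, zpowers u⁆ ≤ S := (commutator_mono h4 h5).trans (S.commutator_le_self)
  refine hL.fiso.img_inj ((commutator_mono h6 h5).trans (S.commutator_le_self)) bot_le ?_
  rw [hL.hom.img_commutator h6 h5, hL.hom.img_commutator h4 h5, (hL.hom.mono h5).img_zpowers, hL.hom.img_bot,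
    hL.hom.img_CS hL.inj (core_le F) (core_le F), hL.img_core, ← h3, map_subtype_center]
  rfl

end Cfsg.Agent.S5253
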