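import Cfsg.Statements.S5254
import Cfsg.Agent.Fus.AbI
-- import your own Cfsg.Agent.* helpers here

set_option autoImplicit false
open Cfsg

namespace Cfsg.Agent.S5254

/-- Let p be an odd prime, S a finite nonabelian p-group with a unique abelian subgroup A of index p, and F a saturated fusion system over S. Then every F-essential subgroup P is A, or Z(S)⟨x⟩ for some x ∈ S outside A, or (when the second centre Z₂(S) lies in A) Z₂(S)⟨x⟩ for some x ∈ S outside A; and P has index p in its normalizer in S. -/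
theorem result {Ω : Type*} [Group Ω] {S : Subgroup Ω} [Finite S] (p : ℕ) [Fact p.Prime] (hS : IsPGroup p S) (F : Cfsg.FusionSystem S) (hF : F.IsSaturated p) (hp : p ≠ 2) (hna : ¬ IsMulCommutative ↥S) (A : Subgroup Ω) (hA : A ≤ S ∧ IsMulCommutative ↥A ∧ (A.subgroupOf S).index = p) (huniq : ∀ B : Subgroup Ω, B ≤ S → IsMulCommutative ↥B → (B.subgroupOf S).index = p → B = A) (P : Subgroup Ω) (hP : F.IsEssential p P) : (P = A ∨ (∃ x ∈ S, x ∉ A ∧ P = (S ⊓ Subgroup.centralizer (S : Set Ω)) ⊔ Subgroup.zpowers x) ∨ (((upperCentralSeries ↥S 2).map S.subtype) ≤ A ∧ ∃ x ∈ S, x ∉ A ∧ P = ((upperCentralSeries ↥S 2).map S.subtype) ⊔ Subgroup.zpowers x)) ∧ (P.subgroupOf (S ⊓ Subgroup.normalizer (P : Set Ω))).index = p :=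
  open Subgroup Cfsg.Agent.Fus Cfsg.Agent.Loc Equiv in by
  have h := AI.of hS hna hA
  have e : Es F p P := ⟨⟨hS, hF⟩, hP⟩
  by_cases hPA : P = A
  · subst hPA
    exact ⟨.inl rfl, by rw [inf_eq_left.2 h.norm]; exact h.idx⟩
  obtain ⟨x, hx, hx'⟩ := h.exists_x_ess e hPA
  by_cases hab : P ≤ centralizer (P : Set Ω)
  · obtain ⟨h1, -, -, h2⟩ := h.ess_ab e hx hx' hab
    exact ⟨.inr (.inl ⟨x, e.le hx, hx', h1⟩), h2⟩
  · obtain ⟨-, h0, h1, -, h2, -⟩ := h.ess_nab e hx hx' hab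
    exact ⟨.inr (.inr ⟨h0, x, e.le hx, hx', h1⟩), h2⟩

end Cfsg.Agent.S5254
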