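import Cfsg.Statements.S5257
import Cfsg.Agent.Fus.AbI
-- import your own Cfsg.Agent.* helpers here

set_option autoImplicit false
open Cfsg

namespace Cfsg.Agent.S5257

/-- Let p be an odd prime, S a finite nonabelian p-group with a unique abelian subgroup A of index p, and F a saturated fusion system over S having an F-essential subgroup other than A. Then the second centre Z₂(S) lies in A; Z(S) ∩ [S, S] has order p; Z(S)[S, S] has index p in A; Z(S) has index p in Z₂(S); and S/Z(S) has maximal nilpotency class (if S/Z(S) has order pᵐ with m ≥ 3 then the term of index m − 2 of the lower central series of S, counting S as index 0, is not contained in Z(S)). -/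
theorem result {Ω : Type*} [Group Ω] {S : Subgroup Ω} [Finite S] (p : ℕ) [Fact p.Prime] (hS : IsPGroup p S) (F : Cfsg.FusionSystem S) (hF : F.IsSaturated p) (hp : p ≠ 2) (hna : ¬ IsMulCommutative ↥S) (A : Subgroup Ω) (hA : A ≤ S ∧ IsMulCommutative ↥A ∧ (A.subgroupOf S).index = p) (huniq : ∀ B : Subgroup Ω, B ≤ S → IsMulCommutative ↥B → (B.subgroupOf S).index = p → B = A) (P : Subgroup Ω) (hP : F.IsEssential p P) (hPA : P ≠ A) : ((upperCentralSeries ↥S 2).map S.subtype) ≤ A ∧ Nat.card ↥((S ⊓ Subgroup.centralizer (S : Set Ω)) ⊓ ((commutator ↥S).map S.subtype)) = p ∧ (((S ⊓ Subgroup.centralizer (S : Set Ω)) ⊔ ((commutator ↥S).map S.subtype)).subgroupOf A).index = p ∧ (((S ⊓ Subgroup.centralizer (S : Set Ω))).subgroupOf ((upperCentralSeries ↥S 2).map S.subtype)).index = p ∧ ∀ m : ℕ, ((S ⊓ Subgroup.centralizer (S : Set Ω)).subgroupOf S).index = p ^ m → 3 ≤ m → ¬ Subgroup.lowerCentralSeries S (m - 2) ≤ (S ⊓ Subgroup.centralizer (S : Set Ω)) :=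
  open Subgroup Cfsg.Agent.Fus Cfsg.Agent.Loc Equiv in by
  have h := AI.of hS hna hA
  have e : Es F p P := ⟨⟨hS, hF⟩, hP⟩
  obtain ⟨x, hx, hx'⟩ := h.exists_x_ess e hPA
  rw [BG4.map_subtype_commutator]
  have hp' := (Fact.out : p.Prime).pos
  have c0 : 0 < Nat.card (FusionSystem.centralizerIn S S) := Nat.card_pos
  have c : Nat.card (FusionSystem.centralizerIn S S ⊓ ⁅S, S⁆ : Subgroup Ω) = p := by
    by_cases hab : P ≤ centralizer (P : Set Ω)
    exacts [(h.ess_ab e hx hx' hab).2.2.1, (h.ess_nab e hx hx' hab).2.2.2.1]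
  have h2 : Zs S 2 ≤ A := fun y hy => by_contra fun hy' => by
    have hyS := Zs_le S 2 hy
    have hW := sup_le (CS_le S S) (zpowers_le.2 hyS)
    have c1 := h.card_A
    rw [← inf_eq_right.2 (h.der_le_Z hy hy'), c] at c1
    have c2 := Solv.card_mul_relIndex hW
    rw [← Solv.card_mul_relIndex (le_sup_left (b := zpowers y)), h.relIndex_sup hyS hy', ← Solv.card_mul_relIndex h.le,
      h.idx, c1, mul_comm p] at c2
    exact hy' (huniq _ hW (le_centralizer_iff_isMulCommutative.1 (sup_zpowers_ab ((CS_le S S).trans (le_cen_CS S))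
      (le_cen_CS S hyS))) (Nat.eq_of_mul_eq_mul_left (Nat.mul_pos c0 hp') c2) ▸ mem_sup_right (mem_zpowers y))
  refine ⟨h2, c, ?_, ?_, fun m hm h3 hl => ?_⟩
  · have c1 := Solv.card_sup_mul_card_inf (N := FusionSystem.centralizerIn S S) (H := ⁅S, S⁆)
      (le_normalizer_of_le_centralizer ((h.der_le.trans h.le).trans (le_cen_CS S)))
    have hle := sup_le h.Z_le h.der_le
    have := finite_of_le (hle.trans h.le)
    rw [c, mul_comm (Nat.card (FusionSystem.centralizerIn S S)), ← h.card_A, ← Solv.card_mul_relIndex hle] at c1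
    exact (Nat.eq_of_mul_eq_mul_left Nat.card_pos c1).symm
  · have c1 := h.card_Zs 1
    rw [inf_eq_right.2 h2, ← Solv.card_mul_relIndex (Zs_mono S (by norm_num : 1 ≤ 1 + 1)), Zs_one, c, mul_comm p] at c1
    exact Nat.eq_of_mul_eq_mul_left c0 c1
  · have c1 := h.card_le_of_lcs c (j := 1) (k := m - 2) (Zs_one S ▸ hl) rfl
    rw [← Solv.card_mul_relIndex (CS_le S S), show (FusionSystem.centralizerIn S S).relIndex S = p ^ m from hm] at c1
    have := (Nat.pow_le_pow_iff_right (Fact.out : p.Prime).one_lt).1 (Nat.le_of_mul_le_mul_left c1 c0)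
    omega

end Cfsg.Agent.S5257
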