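import Cfsg.Statements.S5271
import Cfsg.Agent.PLocal.Sm
-- import your own Cfsg.Agent.* helpers here

set_option autoImplicit false
open Cfsg

namespace Cfsg.Agent.S5271


open Subgroup Cfsg Cfsg.Agent.Transfer Cfsg.Agent.BG Cfsg.Agent.PLocal Pointwise
open scoped commutatorElement

section
open Cfsg.Agent.Fus Equiv
open Cfsg.FusionSystem (normalizerIn centralizerIn)
open scoped commutatorElement

variable {p : ℕ} [hp : Fact p.Prime] {Ω : Type*} [Group Ω] {S T U : Subgroup Ω} [Finite S]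

theorem between (hX : IsPGroup p S) (hY : T ≤ S) {k : ℕ} (h1 : Nat.card T ≤ p ^ k) (h2 : p ^ k ≤ Nat.card S) :
    ∃ Q, T ≤ Q ∧ Q ≤ S ∧ Nat.card Q = p ^ k := by
  haveI := Loc.finite_of_le hY
  obtain ⟨n, hn⟩ := IsPGroup.iff_card.1 hX
  obtain ⟨m, hm⟩ := IsPGroup.iff_card.1 (hX.to_le hY)
  rw [hn] at h2
  rw [hm] at h1
  obtain ⟨K, k1, k2⟩ := Sylow.exists_subgroup_card_pow_prime_le p (G := S)
    (hn ▸ pow_dvd_pow p ((pow_le_pow_iff_right₀ hp.out.one_lt).1 h2)) (T.subgroupOf S)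
    ((Nat.card_congr (subgroupOfEquivOfLe hY).toEquiv).trans hm) ((pow_le_pow_iff_right₀ hp.out.one_lt).1 h1)
  exact ⟨K.map S.subtype, fun x hx => ⟨⟨x, hY hx⟩, k2 hx, rfl⟩, map_subtype_le _,
    (card_map_of_injective S.subtype_injective).trans k1⟩

theorem nbetween (hX : IsPGroup p S) (hY : T ≤ S) (hn : S ≤ normalizer (T : Set Ω)) {k : ℕ} (h1 : Nat.card T ≤ p ^ k)
    (h2 : p ^ k ≤ Nat.card S) : ∃ Q, T ≤ Q ∧ Q ≤ S ∧ S ≤ normalizer (Q : Set Ω) ∧ Nat.card Q = p ^ k := by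
  haveI := Loc.finite_of_le hY
  obtain ⟨m, hm⟩ := IsPGroup.iff_card.1 (hX.to_le hY)
  rw [hm] at h1
  obtain ⟨j, rfl⟩ := Nat.exists_eq_add_of_le ((pow_le_pow_iff_right₀ hp.out.one_lt).1 h1)
  haveI : (T.subgroupOf S).Normal := (normal_subgroupOf_iff_le_normalizer hY).2 hn
  have e := (Nat.card_congr (subgroupOfEquivOfLe hY).toEquiv).trans hm
  obtain ⟨K, k0, k2, -, k1⟩ := PGrp.exists_normal_between hX (le_top : T.subgroupOf S ≤ ⊤) j
    (by rwa [e, ← pow_add, Subgroup.card_top])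
  exact ⟨K.map S.subtype, fun x hx => ⟨⟨x, hY hx⟩, k2 hx, rfl⟩, map_subtype_le _, fun g hg =>
    le_normalizer_map _ (mem_map_of_mem _ (le_normalizer_of_normal (mem_top (⟨g, hg⟩ : S)))),
    (card_map_of_injective S.subtype_injective).trans (by rw [k1, e, pow_add])⟩

theorem meet (hX : IsPGroup p S) (hY : T ≤ S) (hn : S ≤ normalizer (T : Set Ω)) (h : T ≠ ⊥) :
    ∃ z ∈ T, z ≠ 1 ∧ z ^ p = 1 ∧ z ∈ centralizer (S : Set Ω) := by
  haveI : (T.subgroupOf S).Normal := (normal_subgroupOf_iff_le_normalizer hY).2 hn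
  obtain ⟨x, h1, h2, h3, h4⟩ := PGrp.exists_central_mod_pow hX (M := ⊥) (N := T.subgroupOf S) fun c =>
    h (eq_bot_iff.2 fun x hx => congrArg Subtype.val (c (show (⟨x, hY hx⟩ : S) ∈ _ from hx)))
  exact ⟨x, h1, fun c => h2 (Subtype.ext c), congrArg Subtype.val h3, fun g hg =>
    (congrArg Subtype.val (commutatorElement_eq_one_iff_mul_comm.1 (h4 ⟨g, hg⟩))).symm⟩

/-- Minimal nontrivial strongly closed subgroups. -/
def Min (F : FusionSystem S) (T : Subgroup Ω) : Prop :=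
  F.StronglyClosed T ∧ T ≠ ⊥ ∧ ∀ U ≤ T, F.StronglyClosed U → U = ⊥ ∨ U = T

theorem exMin {F : FusionSystem S} : ∀ P, F.StronglyClosed P → P ≠ ⊥ → ∃ T ≤ P, Min F T := by
  refine up_induction fun P ih h1 h2 => ?_
  by_cases h : Min F P
  · exact ⟨P, le_rfl, h⟩
  haveI := Loc.finite_of_le h1.1
  obtain ⟨U, k1, k2, k3⟩ : ∃ U ≤ P, F.StronglyClosed U ∧ ¬ (U = ⊥ ∨ U = P) := by
    by_contra! c
    exact h ⟨h1, h2, c⟩
  obtain ⟨T, a, b⟩ := ih U (Fus.card_lt_card (k1.lt_of_ne fun c => k3 (Or.inr c))) k2 fun c => k3 (Or.inl c)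
  exact ⟨T, a.trans k1, b⟩

/-- The hypothesis. -/
def Hyp (F : FusionSystem S) (d : ℕ) : Prop :=
  (∀ Q ≤ S, Nat.card Q = d → ∃ P, F.StronglyClosed P ∧ F.StronglyClosed (Q ⊔ P) ∧ F.StronglyClosed (Q ⊓ P)) ∧
    ∀ H, F.IsFullyNormalized H → Nat.card H = d → ∀ P ≤ normalizerIn S H, ∀ f : Perm Ω, NMor F H ⊤ P f → CI S P f

variable {F : FusionSystem S} {k : ℕ}

theorem Min.card_le (hF : Sat F p) (h : Hyp F (p ^ (k + 1))) (hT : Min F T) : Nat.card T ≤ p ^ (k + 1) := by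
  by_contra! c
  haveI := Loc.finite_of_le hT.1.1
  have h1 := Nat.one_le_pow (k + 1) _ hp.out.pos
  obtain ⟨Q, -, q1, q2⟩ := between (hF.pg.to_le hT.1.1) bot_le (by rwa [card_bot]) c.le
  obtain ⟨P, p1, p2, p3⟩ := h.1 Q (q1.trans hT.1.1) q2
  have n1 : Q ≠ ⊥ := fun e => by
    rw [e, card_bot] at q2; exact (Nat.one_lt_pow k.succ_ne_zero hp.out.one_lt).ne q2
  have n2 : ¬ T ≤ Q := fun e => by haveI := Loc.finite_of_le q1; exact (Fus.card_le_card e).not_gt (q2 ▸ c)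
  have e1 := (hT.2.2 _ (inf_le_left.trans q1) p3).resolve_right fun e => n2 (e.ge.trans inf_le_left)
  have e2 := (hT.2.2 _ inf_le_left (sc_inf hT.1 p2)).resolve_left fun e => n1 (eq_bot_iff.2 (e ▸ le_inf q1 le_sup_left))
  rcases hT.2.2 _ inf_le_left (sc_inf hT.1 p1) with e | e
  · refine n2 fun t ht => ?_
    obtain ⟨a, ha, b, hb, rfl⟩ := (Loc.mem_sup_of_le_normalizer_right
      ((q1.trans hT.1.1).trans (sc_le_normalizer p1))).1 (e2.ge ht).2
    rwa [mem_bot.1 (e.le ⟨(T.mul_mem_cancel_left (q1 ha)).1 ht, hb⟩), mul_one]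
  · exact n1 (eq_bot_iff.2 (e1 ▸ le_inf le_rfl (q1.trans (e.ge.trans inf_le_right))))

theorem Min.central (hF : Sat F p) (h : Hyp F (Nat.card U)) (hT : Min F T) (hU : Min F U) (hne : T ≠ U) :
    T ≤ centralizer (S : Set Ω) := by
  have e : T ⊓ U = ⊥ := (hT.2.2 _ inf_le_left (sc_inf hT.1 hU.1)).resolve_right fun e =>
    hne ((hU.2.2 _ (e.ge.trans inf_le_right) hT.1).resolve_left hT.2.1)
  have c : U ≤ centralizer (T : Set Ω) := by
    rw [← commutator_eq_bot_iff_le_centralizer, eq_bot_iff, ← e]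
    exact le_inf (BG.commg_subr (hU.1.1.trans (sc_le_normalizer hT.1))) (BG.commg_subl (hT.1.1.trans (sc_le_normalizer hU.1)))
  obtain ⟨z, z1, z2, -, z3⟩ := meet hF.pg hT.1.1 (sc_le_normalizer hT.1) hT.2.1
  have zT := zpowers_le.2 z1
  have zc := zpowers_le.2 z3
  refine ((hT.2.2 _ zT (sc_of_perm (zT.trans hT.1.1) fun x hx f hf => ?_)).resolve_left
    (zpowers_eq_bot.not.2 z2)).ge.trans zc
  have i : Iso F f _ _ := ⟨hf, hf.homOn.maps_zpowers⟩
  have hx' := zpowers_le.2 hx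
  have fT := zpowers_le.2 (sc_mem hT.1 hf (mem_zpowers x) (zT hx))
  obtain ⟨g, g1, g2⟩ := hF.ext_CS (fc_of_central F i.le (le_centralizer_iff.1 (hx'.trans zc))) i.symm
  obtain ⟨s, hs, es⟩ := h.2 U (fn_of_sc hU.1) rfl _ (le_inf i.le' (i.le'.trans (sc_le_normalizer hU.1))) g
    ⟨g, g1.mono (sup_le le_sup_right ((le_inf hU.1.1 (c.trans (centralizer_le fT))).trans le_sup_left)),
      fun _ _ => rfl, sc_maps hU.1 g1 ((le_inf hU.1.1 (c.trans (centralizer_le fT))).trans le_sup_left), mem_top _⟩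
  have := es _ (mem_zpowers _)
  rw [g2 _ (mem_zpowers _), perm_inv_apply] at this
  have e2 : f x = s⁻¹ * x * s := by
    rw [eq_mul_inv_iff_mul_eq] at this
    rw [mul_assoc, this, inv_mul_cancel_left]
  rwa [e2, mul_assoc, ← zc hx s hs, inv_mul_cancel_left]

theorem Hyp.le (h : Hyp F (p ^ (k + 1))) (hu : ∀ U, Min F U → U = T) {Q : Subgroup Ω} (hQ : Q ≤ S)
    (hc : Nat.card Q = p ^ (k + 1)) {x : Ω} (h1 : x ∈ Q) (h2 : x ∈ T) (h3 : x ≠ 1) : T ≤ Q := by
  have k1 : ∀ P, F.StronglyClosed P → P ≠ ⊥ → T ≤ P := fun P a b => let ⟨U, c, d⟩ := exMin P a b; hu U d ▸ c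
  obtain ⟨P, p1, p2, p3⟩ := h.1 Q hQ hc
  by_cases e : P = ⊥
  · rw [e, sup_bot_eq] at p2
    exact k1 Q p2 fun c => h3 (mem_bot.1 (c ▸ h1))
  · exact (k1 _ p3 fun c => h3 (mem_bot.1 (c.le ⟨h1, k1 P p1 e h2⟩))).trans inf_le_left

theorem main.{u} {Ω : Type u} [Group Ω] {S : Subgroup Ω} [Finite S] (F : FusionSystem S) :
    Sat F p → ∀ k, p ^ (k + 1) < Nat.card S → Hyp F (p ^ (k + 1)) → F = innerFusionSystem S := by
  refine fs_induction (C := fun {Ω} _ {S} F => Sat F p → ∀ k, p ^ (k + 1) < Nat.card S → Hyp F (p ^ (k + 1)) →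
    F = innerFusionSystem S) (fun Ω _ S _ F ih _ hF k hk h => ?_) F
  by_contra hne
  have h0 : F.hyperfocalSubgroup p ≠ ⊥ := fun c => hne (hF.eq_inner_of_hyp c)
  have B : ∀ T, Min F T → Nat.card T < p ^ (k + 1) → T = F.hyperfocalSubgroup p := fun T hT hc => by
    obtain ⟨Ω', _, S', _, θ, E, e, hK, hE⟩ := hF.exists_epi' hT.1
    haveI := Loc.finite_of_le hT.1.1
    obtain ⟨j, hj⟩ := IsPGroup.iff_card.1 (hF.pg.to_le hT.1.1)
    obtain ⟨i, rfl⟩ := Nat.exists_eq_add_of_le (Nat.lt_succ_iff.1 ((pow_lt_pow_iff_right₀ hp.out.one_lt).1 (hj ▸ hc)))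
    have cd : ∀ Q' ≤ S', Nat.card (e.hom.pre Q') = Nat.card Q' * p ^ j := fun Q' hQ => by
      rw [e.hom.card_pre (hQ.trans e.img_eq.ge), hK, hj]
    have cd' : ∀ Q' ≤ S', Nat.card Q' = p ^ (i + 1) → Nat.card (e.hom.pre Q') = p ^ (j + i + 1) := fun Q' hQ c => by
      rw [cd Q' hQ, c]; ring
    have := ih _ S' E (e.card_lt (hK ▸ hT.2.1)) hE i (by
      rw [← e.pre_S, cd _ le_rfl, add_assoc, pow_add, mul_comm] at hk
      exact lt_of_mul_lt_mul_right hk (Nat.zero_le _)) ⟨fun Q' hQ c => ?_, fun H' hH c P' hP f' hf => ?_⟩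
    · have e1 := e.hyp_eq (p := p)
      rw [this, hyp_inner hE.pg] at e1
      exact ((hT.2.2 _ (hK ▸ (e.hom.le_pre_iff (hyp_le F p)).2 e1.ge) hF.sc_hyp).resolve_left h0).symm
    · obtain ⟨P, p1, p2, p3⟩ := h.1 _ (e.hom.pre_le Q') (cd' Q' hQ c)
      refine ⟨_, e.sc_img p1, ?_, ?_⟩
      · have := e.sc_img p2
        rwa [(e.hom.mono p2.1).img_sup, e.img_pre hQ] at this
      · have := e.sc_img p3
        rwa [e.hom.img_inf (e.hom.pre_le _) p1.1 (e.hom.ker_le_pre _), e.img_pre hQ] at this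
    · obtain ⟨f, f1, f2⟩ := e.lift_nMor hf
      obtain ⟨s, hs, es⟩ := h.2 _ ((e.fn_pre_iff hH.1).2 hH) (cd' _ hH.1 c) _ (by
        rw [← e.hom.pre_NS (e.hom.pre_le _) (e.hom.ker_le_pre _), e.img_pre hH.1]
        exact e.hom.pre_mono (hP.trans inf_le_right)) f f1
      refine ⟨θ s, e.mem hs, fun y hy => ?_⟩
      obtain ⟨x, hx, rfl⟩ := e.exists_eq (hP hy).1
      rw [f2 x ⟨hx, hy⟩, es x ⟨hx, hy⟩, e.hom.map_conj hs hx]
  by_cases h1 : ∃ T, Min F T ∧ Nat.card T < p ^ (k + 1)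
  · obtain ⟨T, hT, hc⟩ := h1
    have eT := B T hT hc
    by_cases hZ : T ≤ centralizer (S : Set Ω)
    · obtain ⟨H, a1, a2, a3, a4⟩ := nbetween hF.pg hT.1.1 (sc_le_normalizer hT.1) hc.le hk.le
      have sH := hF.sc_of_hyp_le (eT ▸ a1) a2 a3
      refine hne (hF.eq_inner fun P hP a ha co => ?_)
      have hP := (hF.base_fcr hP).1.1
      have ia := iso_of_AutF hP ha
      refine fix_of_coprime_of_stab (B := P ⊓ T) co (hF.pg.to_le (inf_le_left.trans hP)) ia.homOn ia.maps inf_le_left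
        (fun x hx => ?_) fun c hc => ⟨P.mul_mem (P.inv_mem hc) (ia.mem hc), eT ▸ mem_hyp hP ha co hc⟩
      have m := ia.mor.mono (zpowers_le.2 hx.1)
      have i : Iso F a _ _ := ⟨m, m.homOn.maps_zpowers⟩
      obtain ⟨g, g1, g2⟩ := hF.ext_CS (fc_of_central F i.le' (le_centralizer_iff.1
        ((zpowers_le.2 (sc_mem hT.1 m (mem_zpowers x) hx.2)).trans hZ))) i
      have g3 := g1.mono ((le_inf le_rfl (le_centralizer_iff.1 ((zpowers_le.2 hx.2).trans hZ))).trans le_sup_left)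
      obtain ⟨s, hs, es⟩ := h.2 H (fn_of_sc sH) a4 S (le_inf le_rfl a3) g (nMor_of_le g3 a2 (sc_maps sH g3 a2) (mem_top _))
      rw [← g2 x (mem_zpowers x), es x (hP hx.1), hZ hx.2 s hs, mul_inv_cancel_right]
    · have hu : ∀ U, Min F U → U = T := fun U hU => by
        by_contra c
        rcases (hU.card_le hF h).lt_or_eq with l | l
        · exact c ((B U hU l).trans eT.symm)
        · exact hZ (hT.central hF (l ▸ h) hU (Ne.symm c))
      obtain ⟨y, y1, y2, y3, -⟩ := meet (T := ⁅T, S⁆) hF.pg (BG.commg_subr (hT.1.1.trans le_normalizer))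
        (BG.commg_normr _ _) fun c => hZ (commutator_eq_bot_iff_le_centralizer.1 c)
      refine h0 (hF.tate bot_le (by simp) ?_).symm
      rw [bot_sup_eq, ← eT]
      refine fun t ht => ⟨⟨t, hT.1.1 ht⟩, ?_, rfl⟩
      rw [SetLike.mem_coe, frattini, Order.radical]
      simp only [mem_iInf]
      intro M hM
      haveI := PGrp.normal_of_isCoatom hF.pg hM
      have yM : zpowers y ≤ M.map S.subtype := zpowers_le.2 (map_mono (frattini_le_coatom hM)
        (commutator_le_Phi hF.pg (commutator_mono hT.1.1 le_rfl y1)))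
      haveI := Loc.finite_of_le (map_subtype_le M)
      obtain ⟨Q, q1, q2, q3⟩ := between (k := k + 1) (hF.pg.to_le (map_subtype_le M)) yM (by
        rw [PGrp.card_zpowers_of_pow_eq_one y3 y2]; exact Nat.le_self_pow k.succ_ne_zero _) (by
        obtain ⟨n, hn⟩ := IsPGroup.iff_card.1 hF.pg
        have := M.card_mul_index
        rw [PGrp.index_of_isCoatom hF.pg hM, hn] at this
        rw [hn] at hk
        rw [card_map_of_injective S.subtype_injective]
        refine Nat.le_of_mul_le_mul_right ?_ hp.out.pos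
        rw [this, ← pow_succ]
        exact Nat.pow_le_pow_right hp.out.pos ((pow_lt_pow_iff_right₀ hp.out.one_lt).1 hk))
      obtain ⟨_, c, rfl⟩ := q2 (h.le hu (q2.trans (map_subtype_le M)) q3 (q1 (mem_zpowers y))
        (BG.commg_subl (sc_le_normalizer hT.1) y1) y2 ht)
      exact c
  · obtain ⟨T, -, hT⟩ := exMin _ hF.sc_hyp h0
    have cd : ∀ U, Min F U → Nat.card U = p ^ (k + 1) := fun U hU =>
      (hU.card_le hF h).eq_of_not_lt fun c => h1 ⟨U, hU, c⟩
    have nT := sc_le_normalizer hT.1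
    have ab : T ≤ centralizer (T : Set Ω) := by
      by_cases hu : ∀ U, Min F U → U = T
      swap
      · push Not at hu
        obtain ⟨U, hU, c⟩ := hu
        exact (hT.central hF (cd U hU ▸ h) hU c.symm).trans (centralizer_le hT.1.1)
      obtain ⟨z, z1, z2, -, z3⟩ := meet hF.pg hT.1.1 nT hT.2.1
      obtain ⟨x, x1, x2⟩ := SetLike.exists_of_lt (hT.1.1.lt_of_ne fun c => hk.ne (by rw [← cd T hT, c]))
      obtain ⟨m, m1, m2⟩ := PGrp.exists_pow_not_mem hF.pg (H := T.subgroupOf S) (g := ⟨x, x1⟩) x2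
      replace m1 : x ^ p ^ m ∉ T := m1
      generalize p ^ m = m at m1 m2
      have x3 := pow_mem x1 m
      have cY := PGrp.card_sup_zpowers hp.out (nT x3) m1 m2
      have aY : zpowers z ⊔ zpowers (x ^ m) ≤ centralizer ((zpowers z ⊔ zpowers (x ^ m) : Subgroup Ω) : Set Ω) :=
        haveI := PGrp.isMulCommutative_sup_zpowers (A := zpowers z) (le_centralizer_iff.1 (zpowers_le.2 z3) x3)
        le_centralizer _
      have hle : T ⊔ zpowers (x ^ m) ≤ S := sup_le hT.1.1 (zpowers_le.2 x3)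
      haveI := Loc.finite_of_le hle
      rcases (sup_le_sup_right (zpowers_le.2 z1) (zpowers (x ^ m))).lt_or_eq with l | l
      · have l' := l.le.trans hle
        haveI := Loc.finite_of_le l'
        obtain ⟨n, hn⟩ := IsPGroup.iff_card.1 (hF.pg.to_le l')
        have := Fus.card_lt_card l
        rw [cY, hn, cd T hT, ← pow_succ] at this
        obtain ⟨Q, q1, q2, q3⟩ := between (k := k + 1) hF.pg l' (hn ▸ Nat.pow_le_pow_right hp.out.pos
          (Nat.lt_succ_iff.1 ((pow_lt_pow_iff_right₀ hp.out.one_lt).1 this))) hk.le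
        haveI := Loc.finite_of_le q2
        exact absurd ((Fus.eq_of_le_of_card_le (h.le hu q2 q3 (q1 (mem_sup_left (mem_zpowers z))) z1 z2)
          (q3.trans (cd T hT).symm).le).ge (q1 (mem_sup_right (mem_zpowers _)))) m1
      · have l' : T ≤ _ := le_sup_left.trans l.ge
        exact l'.trans (aY.trans (centralizer_le l'))
    have := normal_iff_nMor.1 (hF.normal_of_abelian hT.1 (commutator_eq_bot_iff_le_centralizer.2 ab))
    exact hne (sub_antisymm (sub_iff_perm.2 fun P f hf => mor_inner.2 ⟨hf.le, h.2 T (fn_of_sc hT.1) (cd T hT) P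
      (le_inf hf.le (hf.le.trans nT)) f (this.2 P f hf)⟩) (inner_sub F le_rfl))

end


/-- A nilpotency criterion for fusion systems. Let F be a saturated fusion system over a finite p-group S of order at least p². Call a subgroup Q of S weakly embedded in F when there is a subgroup P of S strongly closed in F such that both the product QP and the intersection Q ∩ P are strongly closed in F. Then F is the inner fusion system of S if and only if there is a subgroup D of S with 1 < D < S such that every subgroup of S of the same order as D is weakly embedded in F and, for every fully normalized subgroup H of S of that order, the normalizer fusion system of H in F is the inner fusion system of N_S(H). -/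
theorem result {Ω : Type*} [Group Ω] {S : Subgroup Ω} [Finite S] (p : ℕ) [Fact p.Prime] (hS : IsPGroup p ↥S) (F : Cfsg.FusionSystem S) (hF : F.IsSaturated p) (hcard : p ^ 2 ≤ Nat.card S) : (∀ P : Subgroup Ω, F.Hom P = (Cfsg.innerFusionSystem S).Hom P) ↔ ∃ D : Subgroup Ω, ⊥ < D ∧ D < S ∧ (∀ Q : Subgroup Ω, Q ≤ S → Nat.card ↥Q = Nat.card ↥D → ∃ P : Subgroup Ω, F.StronglyClosed P ∧ F.StronglyClosed (Q ⊔ P) ∧ F.StronglyClosed (Q ⊓ P)) ∧ (∀ H : Subgroup Ω, F.IsFullyNormalized H → Nat.card ↥H = Nat.card ↥D → ∀ N : Cfsg.FusionSystem (Cfsg.FusionSystem.normalizerIn S H), F.IsNormalizerSystem H N → ∀ P : Subgroup Ω, N.Hom P = (Cfsg.innerFusionSystem (Cfsg.FusionSystem.normalizerIn S H)).Hom P) := by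
  open Cfsg.Agent.Fus in
  have sF : Sat F p := ⟨hS, hF⟩
  have hp : p.Prime := Fact.out
  obtain ⟨n, hn⟩ := IsPGroup.iff_card.1 hS
  constructor
  · intro h
    obtain rfl := Fus.fs_ext h
    obtain ⟨m, rfl⟩ := Nat.exists_eq_add_of_le ((pow_le_pow_iff_right₀ hp.one_lt).1 (hn ▸ hcard))
    have l : p ^ (m + 1) < Nat.card S := hn ▸ Nat.pow_lt_pow_right hp.one_lt (by omega)
    obtain ⟨D, -, d1, d2⟩ := between (k := m + 1) hS bot_le (by rw [card_bot]; exact Nat.one_le_pow _ _ hp.pos) l.le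
    refine ⟨D, bot_lt_iff_ne_bot.2 fun c => ?_, d1.lt_of_ne fun c => l.ne (by rw [← d2, c]), fun Q hQ c => ?_,
      fun H hH _ N hN => ?_⟩
    · rw [c, card_bot] at d2; exact (Nat.one_lt_pow m.succ_ne_zero hp.one_lt).ne d2
    · refine ⟨⊥, Fus.sc_bot _, ?_, (inf_bot_eq Q).symm ▸ Fus.sc_bot _⟩
      rw [sup_bot_eq]
      refine Fus.sc_of_normal (Fus.normal_inner hQ ((normal_subgroupOf_iff_le_normalizer hQ).1
        (PGrp.normal_of_index_eq hS ?_)))
      have := (Q.subgroupOf S).card_mul_index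
      rw [Nat.card_congr (subgroupOfEquivOfLe hQ).toEquiv, c, d2, hn, show 2 + m = m + 1 + 1 by omega, pow_succ _ (m + 1)] at this
      exact Nat.eq_of_mul_eq_mul_left (pow_pos hp.pos _) this
    · have hN := Fus.isNK_top_iff.2 ⟨hH.1, hN⟩
      exact congrFun (congrArg FusionSystem.Hom ((sF.normalizer hH hN).eq_inner_of_hyp
        (eq_bot_iff.2 ((Fus.hyp_mono hN.sub).trans (Fus.hyp_inner hS).le))))
  · rintro ⟨D, d0, d1, h1, h2⟩
    haveI := Loc.finite_of_le d1.le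
    obtain ⟨m, hm⟩ := IsPGroup.iff_card.1 (hS.to_le d1.le)
    obtain ⟨k, rfl⟩ := Nat.exists_eq_succ_of_ne_zero (n := m) (by
      rintro rfl; exact d0.ne' (card_eq_one.1 (by simpa using hm)))
    refine congrFun (congrArg FusionSystem.Hom (main F sF k (hm ▸ Fus.card_lt_card d1)
      ⟨fun Q hQ c => h1 Q hQ (c.trans hm.symm), fun H hH c P hP f hf => ?_⟩))
    obtain ⟨N, n1, n2⟩ := Fus.exists_normalizerSystem F hH.1
    have := n1.mor hP hf
    rw [Fus.fs_ext (h2 H hH (c.trans hm.symm) N n2)] at this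
    obtain ⟨-, g, g1, g2⟩ := Fus.mor_inner.1 this
    exact ⟨g, g1.1, g2⟩


end Cfsg.Agent.S5271
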