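import Cfsg.Statements.S5276
import Cfsg.Agent.Fus.Ctl2
-- import your own Cfsg.Agent.* helpers here

set_option autoImplicit false
open Cfsg

namespace Cfsg.Agent.S5276

/-- Let p be a prime and F a saturated fusion system over a finite p-group S. Then F is the inner fusion system of S if and only if the normalizer fusion system of S itself in F is the inner fusion system (equivalently, Aut_F(S) is induced by S) and the Frattini subgroup Φ(S) is strongly closed in F. -/
theorem result {Ω : Type*} [Group Ω] {S : Subgroup Ω} [Finite S] (p : ℕ) [Fact p.Prime] (hS : IsPGroup p ↥S) (F : Cfsg.FusionSystem S) (hF : F.IsSaturated p) : (∀ P : Subgroup Ω, F.Hom P = (Cfsg.innerFusionSystem S).Hom P) ↔ (∀ N : Cfsg.FusionSystem (Cfsg.FusionSystem.normalizerIn S S), F.IsNormalizerSystem S N → ∀ P : Subgroup Ω, N.Hom P = (Cfsg.innerFusionSystem (Cfsg.FusionSystem.normalizerIn S S)).Hom P) ∧ F.StronglyClosed ((frattini ↥S).map S.subtype) :=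
  open Subgroup Cfsg.Agent.Fus Cfsg.Agent.Loc Equiv in by
  rw [inner_iff_hom, normalizer_inner_iff' le_rfl le_normalizer]
  refine ⟨fun h => ⟨fun P f hf => eq_inner_iff.1 h P f hf.mor, h ▸ sc_of_normal (normal_inner (Phi_le S)
    (le_normalizer.trans (normalizer_le_normalizer_Phi S)))⟩, fun h => Sat.inner_of_sc_Phi ⟨hS, hF⟩ h.2
    (commutator_le_Phi hS) le_rfl ((isPGroup_AutK hS S).to_le (AutF_le_AutK_of_ci le_rfl h.1))⟩

end Cfsg.Agent.S5276
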