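import Cfsg.Statements.S5278
import Cfsg.Agent.PLocal.Tor
import Cfsg.Agent.Fus.Ctl2
-- import your own Cfsg.Agent.* helpers here

set_option autoImplicit false
open Cfsg

namespace Cfsg.Agent.S5278


open Subgroup Cfsg Cfsg.Agent.Transfer Cfsg.Agent.BG Cfsg.Agent.PLocal Pointwise
open scoped commutatorElement

section
open Cfsg.Agent.Fus Equiv
open Cfsg.FusionSystem (normalizerIn centralizerIn)

theorem lift {Ω Ω' : Type*} [Group Ω] [Group Ω'] {p : ℕ} [hp : Fact p.Prime] {T : Subgroup Ω} (hT : IsPGroup p T)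
    (hc : ∀ s ∈ T, ∀ t ∈ T, Commute s t) {θ : Ω → Ω'} (hθ : HomOn θ T) {a : Perm Ω} (ha : HomOn a T) (hm : Maps a T T)
    (h0 : orderOf a ≠ 0) {a' : Ω' → Ω'} (hi : ∀ t ∈ T, a' (θ t) = θ (a t)) (hk : ∀ t ∈ T, θ t = 1 → a t = t)
    (h : Sing p (img θ T) a') : ∃ k : ℕ, Sing p T (a ^ k : Perm Ω) := by
  obtain ⟨⟨t', ht', ne⟩, ⟨n, hn, ord⟩, tr⟩ := h
  have it : ∀ k : ℕ, ∀ t ∈ T, a'^[k] (θ t) = θ ((a ^ k) t) := fun k t ht => by
    induction k with
    | zero => simp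
    | succ k ih => rw [Function.iterate_succ_apply', ih, hi _ ((hm.pow k).mem ht), pow_succ', Perm.mul_apply]
  obtain ⟨e, m, hm', em⟩ := Nat.exists_eq_pow_mul_and_not_dvd h0 p hp.out.ne_one
  obtain ⟨j, hj⟩ : ∃ j, ∃ i, p ^ e * j = 1 + n * i := by
    rcases n.eq_zero_or_pos with rfl | n0
    · exact absurd (by simpa using hn) hp.out.ne_one
    have := Nat.ModEq.pow_totient (hn.symm.pow_left e)
    obtain ⟨i, hi⟩ := (Nat.modEq_iff_dvd' (Nat.one_le_pow _ _ (pow_pos hp.out.pos e))).1 this.symm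
    refine ⟨(p ^ e) ^ (n.totient - 1), i, ?_⟩
    rw [← pow_succ', Nat.sub_add_cancel (Nat.totient_pos.2 n0), ← hi, Nat.add_sub_cancel' (Nat.one_le_pow _ _ (pow_pos hp.out.pos e))]
  obtain ⟨i, hj⟩ := hj
  set c := a ^ (p ^ e * j)
  have cm : Maps c T T := hm.pow _
  have ch : HomOn c T := ha.pow hm _
  have ci : ∀ t ∈ T, a' (θ t) = θ (c t) := fun t ht => by
    rw [← it _ t ht, hj, Function.iterate_add_apply, Function.iterate_one, Function.iterate_mul,
      Function.iterate_fixed (ord _ (mem_img_of_mem θ ht))]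
  have ck : ∀ t ∈ T, θ t = 1 → c t = t := fun t ht e => Perm.pow_apply_eq_self_of_apply_eq_self (hk t ht e) _
  have co : c ^ m = 1 := by rw [← pow_mul, mul_right_comm, ← em, pow_mul, pow_orderOf_eq_one, one_pow]
  have key : ∀ t ∈ T, a' (θ t) = θ t → c t = t := fun t ht e => by
    have hu : c t * t⁻¹ ∈ T := mul_mem (cm.mem ht) (inv_mem ht)
    have a1 := ck _ hu (by rw [hθ.map_mul_inv (cm.mem ht) ht, ← ci t ht, e, mul_inv_cancel])
    have a2 : ∀ k : ℕ, (c ^ k) t = (c t * t⁻¹) ^ k * t := fun k => by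
      induction k with
      | zero => simp
      | succ k ih => rw [pow_succ', Perm.mul_apply, ih, ch.map_mul (pow_mem hu k) ht, ch.map_pow hu, a1, pow_succ]; group
    have a3 := a2 m
    rw [co, Perm.one_apply, eq_comm, mul_eq_right] at a3
    obtain ⟨r, hr⟩ := hT ⟨_, hu⟩
    have := (pow_gcd_eq_one (a := c t * t⁻¹)).2 ⟨a3, congrArg Subtype.val hr⟩
    rwa [((hp.out.coprime_iff_not_dvd.2 hm').symm.pow_right r), pow_one, mul_inv_eq_one] at this
  have itc : ∀ k : ℕ, ∀ t ∈ T, a'^[k] (θ t) = θ ((c ^ k) t) := fun k t ht => by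
    induction k with
    | zero => simp
    | succ k ih => rw [Function.iterate_succ_apply', ih, ci _ ((cm.pow k).mem ht), pow_succ', Perm.mul_apply]
  refine ⟨p ^ e * j, show Sing p T c from ⟨?_, ⟨m, (hp.out.coprime_iff_not_dvd.2 hm').symm, fun t _ => ?_⟩,
    fun s hs t ht es et => ?_⟩⟩
  · obtain ⟨t, ht, rfl⟩ := hθ.mem_img.1 ht'
    exact ⟨t, ht, fun e => ne (by rw [ci t ht, e])⟩
  · rw [Perm.iterate_eq_pow, co, Perm.one_apply]
  · obtain ⟨k, hk⟩ := tr _ (mem_img_of_mem θ hs) _ (mem_img_of_mem θ ht) (fun e => es (key s hs e))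
      fun e => et (key t ht e)
    refine ⟨k, ?_⟩
    rw [Perm.iterate_eq_pow]
    refine key _ (mul_mem ((cm.pow k).mem hs) (inv_mem ht)) ?_
    rwa [hθ.map_mul_inv ((cm.pow k).mem hs) ht, ← itc k s hs]

/-- Maps preserving membership in `T`. -/
def Mp {Ω : Type*} [Group Ω] (T P : Subgroup Ω) (f : Perm Ω) : Prop := ∀ x ∈ P, x ∈ T ↔ f x ∈ T

theorem closed_Mp {Ω : Type*} [Group Ω] {S : Subgroup Ω} (F : FusionSystem S) (T : Subgroup Ω) : Closed F (Mp T) where
  congr h e x hx := (e x hx).symm ▸ h x hx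
  mono h hle x hx := h x (hle hx)
  mul i1 _ h k x hx := (h x hx).trans (k _ (i1.mem hx))
  inv i h y hy := by
    have := h _ (i.maps.inv_mem hy)
    rw [perm_apply_inv] at this
    exact this.symm

theorem mp_of_nMor {Ω : Type*} [Group Ω] {S T P : Subgroup Ω} {F : FusionSystem S} {K : Subgroup (Perm Ω)} {f : Perm Ω}
    (h : NMor F T K P f) : Mp T P f := fun x hx =>
  let ⟨_, _, h2, h3, _⟩ := h; h2 x hx ▸ (h3 x).symm

theorem comm_of_le {Ω : Type*} [Group Ω] {S T : Subgroup Ω} (h : T ≤ centralizerIn S S) :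
    ∀ s ∈ T, ∀ t ∈ T, Commute s t := fun s hs _ ht => (h ht).2 s (h hs).1

theorem main.{u} {p : ℕ} [Fact p.Prime] (hp : p ≠ 2) {Ω : Type u} [Group Ω] {S : Subgroup Ω} [Finite S]
    (F : FusionSystem S) : Sat F p → ∀ T ≤ centralizerIn S S,
      (∀ P (f : Perm Ω), NMor F (inducedFunctor JAF S) ⊤ P f → Mp T P f) → (¬ ∃ a ∈ AutF F T, Sing p T a) →
        F.IsNormal T := by
  refine fs_induction (C := fun {Ω} _ {S} F => Sat F p → ∀ T ≤ centralizerIn S S,
      (∀ P (f : Perm Ω), NMor F (inducedFunctor JAF S) ⊤ P f → Mp T P f) → (¬ ∃ a ∈ AutF F T, Sing p T a) →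
        F.IsNormal T) (fun Ω _ S _ F ih₁ ih₂ hF T hT hb hn => ?_) F
  have hW := JAF_char (p := p)
  have hTS : T ≤ S := hT.trans (CS_le _ _)
  haveI := Loc.finite_of_le hTS
  haveI := finite_AutF F T
  have h : Red F p (inducedFunctor JAF) (Mp T) :=
    ⟨hF, natW_ind hW hF.pg, closed_Mp F T, hb, fun E hE hQ hK _ hne hb P f hf =>
      haveI := hE.finite
      mp_of_nMor ((normal_iff_nMor.1 (ih₂ _ E hE.sub hne (hE.sat hF hQ) T (hT.trans (CS_self_le_nk hE)) hb
        fun ⟨a, ha, e⟩ => hn ⟨a, AutF_mono hE.sub T ha, e⟩)).2 P f hf)⟩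
  have fin : (∀ P (f : Perm Ω), Mor F P f → Mp T P f) → F.IsNormal T := fun k =>
    hF.normal_of_wc (wc_of_perm hTS fun f hf x hx => (k T f hf x hx).1 hx) fun P hP =>
      hT.trans (CS_self_le_centric (hF.base_fcr (Or.inr hP)).2.1)
  have good : ∀ {Ω' : Type u} [Group Ω'] {θ : Ω → Ω'} {a' : Ω' → Ω'} {f : Perm Ω}, HomOn θ T → Mor F T f →
      (∀ t ∈ T, f t ∈ T) → (∀ t ∈ T, a' (θ t) = θ (f t)) → (∀ t ∈ T, θ t = 1 → f t = t) →
      ¬ Sing p (img θ T) a' := fun {Ω'} _ {θ a' f} hθ hf hm hi hk hs => by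
    have hm := hf.homOn.maps_self hm
    have ha := Iso.res_mem ⟨hf, hm⟩
    obtain ⟨k, e⟩ := lift (hF.pg.to_le hTS) (comm_of_le hT) hθ (homOn_of_AutF ha) (maps_of_AutF ha)
      (orderOf_ne_zero_of_mem ha) (fun t ht => by rw [res_apply hm ht, hi t ht])
      (fun t ht e => by rw [res_apply hm ht, hk t ht e]) hs
    exact hn ⟨_, pow_mem ha k, e⟩
  refine fin (h.main (fun h0 hA hc => ?_) fun _ hc => ?_)
  · obtain ⟨Ω', _, S', _, θ, E, e, hk, hE⟩ := hF.exists_epi' (sc_of_normal (normal_core F))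
    have hQ : F.IsNormal (e.hom.pre ⊥) := hk ▸ normal_core F
    have hN := natW_ind hW hE.pg
    have hT' : img θ T ≤ centralizerIn S' S' := img_le_iff.2 fun x hx => e.mem_CS (hT hx)
    have fixQ : ∀ P (f : Perm Ω), Mor F P f → ∀ t ∈ T, t ∈ F.core → t ∈ P → f t = t := fun P f hf t ht h2 =>
      (fx_of_center (mem_center_of_normal hF (normal_core F) h2 (hA ▸ AutK_fix (hT ht).2 h2)) hf).fix
    have one : ∀ P' (f' : Perm Ω'), NMor E (inducedFunctor JAF S') ⊤ P' f' → ∀ x ∈ P', x ∈ img θ T →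
        f' x ∈ img θ T := fun P' f' hf' x hx hx' => by
      obtain ⟨f, -, h2, h3⟩ := h.up e hk (hN.le S') (hN.ne_bot _ le_rfl (e.ne_bot (hk ▸ core_ne_of_not_centric hc)))
        ((NS_self S').ge.trans (hN.nrm S' le_rfl)) hf'
      obtain ⟨t, ht, rfl⟩ := (e.hom.mono hTS).mem_img.1 hx'
      rw [h3 t ⟨hTS ht, hx⟩]
      exact mem_img_of_mem θ ((h2 t ⟨hTS ht, hx⟩).1 ht)
    have h1 := ih₁ _ S' E (e.card_lt (hk ▸ h0)) hE (img θ T) hT' (fun P' f' hf' x hx => ⟨one P' f' hf' x hx, fun c => by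
      have i := hf'.mor.iso
      have := one _ _ (hf'.inv i.maps) _ (i.mem hx) c
      rwa [perm_inv_apply] at this⟩) (by
      rintro ⟨a', ha', hs⟩
      have hle := hT'.trans (CS_le _ _)
      obtain ⟨f, h1, h2, h3⟩ := h.up e hk hle (fun c => let ⟨t, ht, n⟩ := hs.ne; n (by
          rw [show t = 1 from mem_bot.1 (c ▸ ht)]; exact (homOn_of_AutF ha').map_one))
        ((le_centralizer_iff.1 (hT'.trans inf_le_right)).trans (centralizer_le_normalizer _))
        (nMor_of_le (iso_of_AutF hle ha').mor le_rfl (maps_of_AutF ha') (mem_top _))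
      have hle' := e.hom.le_pre_img hTS
      exact good (e.hom.mono hTS) (h1.mono hle') (fun t ht => (h2 t (hle' ht)).1 ht) (fun t ht => h3 t (hle' ht))
        (fun t ht c => fixQ _ f h1 t ht (hk ▸ ⟨hTS ht, c⟩) (hle' ht)) hs)
    have h2 : T ≤ F.core := (e.hom.le_pre_img hTS).trans
      (le_core (e.normal_pre hF hQ (by rw [hk, hA]; exact isPGroup_AutK hF.pg _) h1))
    refine fun P f hf x hx => ⟨fun c => (fixQ P f hf x c (h2 c) hx).symm ▸ c, fun c => ?_⟩
    have i := hf.iso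
    have := fixQ _ _ i.symm.mor _ c (h2 c) (i.mem hx)
    rw [perm_inv_apply] at this
    rwa [← this] at c
  · obtain ⟨G, _, L, hL⟩ := exists_model_of_constrained hF.pg hc
    haveI := hL.fin
    haveI := Loc.finite_of_le (ind_le' JAF S)
    have hJT : T ≤ inducedFunctor JAF S := hT.trans (CS_le_JA S)
    refine fun P f hf => mp_of_nMor ((normal_iff_nMor.1 ((hL.normal_iff hTS).2 (by_contra fun c => ?_))).2 P f hf)
    obtain ⟨g, hg, hs⟩ := sing_of_JA hp (by simpa [Loc.ChP, Loc.pCoreOf_top] using hL.chp) hL.syl (T := img L T)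
      (img_le_iff.2 fun x hx => hL.fiso.toEpi.mem_CS (hT hx)) (fun g hg => by
        rw [← ind_JAF, ← img_ind hW hF.pg hL.hom hL.inj] at hg
        obtain ⟨f, k1, k2⟩ := hL.toReal.exists_perm (ind_le' JAF S) (ind_le' JAF S) (g := g) fun x hx =>
          (mem_normalizer_iff.1 hg _).1 (mem_img_of_mem L hx)
        have k3 := hb _ f (nMor_of_le k1 le_rfl (k1.homOn.maps_self fun x hx => (k2 x hx).1) (mem_top _))
        refine mem_normalizer_fintype fun y hy => ?_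
        obtain ⟨x, hx, rfl⟩ := (hL.hom.mono hTS).mem_img.1 hy
        rw [← (k2 x (hJT hx)).2]
        exact mem_img_of_mem L ((k3 x (hJT hx)).1 hx)) c
    obtain ⟨f, k1, k2⟩ := hL.toReal.exists_perm hTS hTS (g := g) fun x hx =>
      (mem_normalizer_iff.1 hg _).1 (mem_img_of_mem L hx)
    exact good (hL.hom.mono hTS) k1 (fun t ht => (k2 t ht).1) (fun t ht => (k2 t ht).2.symm)
      (fun t ht e => by rw [hL.inj t (hTS ht) e, k1.homOn.map_one]) hs

end


/-- Let p be an odd prime, F a saturated fusion system over a finite p-group S, and T a subgroup of Z(S) such that the normalizer fusion system of J(S) in F is contained in the normalizer fusion system of T, J(S) being the subgroup generated by the abelian subgroups of S of largest order. Then either T is weakly closed in F, or Aut_F(T) has a nontrivial cyclic subgroup X of order prime to p that permutes transitively the non-identity elements of the commutator [T, X] (the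 subgroup of T generated by the elements ψ(t)·t⁻¹ with ψ in X and t in T). -/
theorem result {Ω : Type*} [Group Ω] {S : Subgroup Ω} [Finite S] (p : ℕ) [Fact p.Prime] (hS : IsPGroup p ↥S) (F : Cfsg.FusionSystem S) (hF : F.IsSaturated p) (hp : p ≠ 2) (T : Subgroup Ω) (hT : T ≤ S ⊓ Subgroup.centralizer (S : Set Ω)) (hJT : ∀ NJ : Cfsg.FusionSystem (Cfsg.FusionSystem.normalizerIn S (Cfsg.thompsonSubgroupAOf S)), F.IsNormalizerSystem (Cfsg.thompsonSubgroupAOf S) NJ → ∀ NT : Cfsg.FusionSystem (Cfsg.FusionSystem.normalizerIn S T), F.IsNormalizerSystem T NT → NJ.IsSubsystemOf NT) : F.WeaklyClosed T ∨ ∃ X : Subgroup (MulAut ↥T), X ≤ F.autGroup T ∧ X ≠ ⊥ ∧ IsCyclic ↥X ∧ (Nat.card ↥X).Coprime p ∧ ∀ a b : ↥T, a ∈ Subgroup.closure {y : ↥T | ∃ ψ ∈ X, ∃ t : ↥T, y = ψ t * t⁻¹} → b ∈ Subgroup.closure {y : ↥T | ∃ ψ ∈ X, ∃ t : ↥T, y = ψ t * t⁻¹} → a ≠ 1 → b ≠ 1 → ∃ ψ ∈ X, ψ a = b := by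
  open Cfsg.Agent.Fus Equiv in
  have hTS : T ≤ S := hT.trans inf_le_left
  by_cases hn : ∃ a ∈ Fus.AutF F T, Sing p T a
  swap
  · refine Or.inl (Fus.wc_of_sc (Fus.sc_of_normal (main hp F ⟨hS, hF⟩ T hT (fun P f hf => ?_) hn)))
    rw [ind_JAF] at hf
    obtain ⟨NJ, a1, a2⟩ := Fus.exists_normalizerSystem F (JA_le S)
    obtain ⟨NT, b1, b2⟩ := Fus.exists_normalizerSystem F hTS
    exact mp_of_nMor (b1.nMor ((a1.mor (hf.mor.le.trans (le_inf le_rfl (le_normalizer.trans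
      (normalizer_le_normalizer_JA S)))) hf).sub (hJT NJ a2 NT b2)))
  obtain ⟨_, ⟨α, hα, rfl⟩, ⟨t, ht, ne⟩, ⟨n, hn, ord⟩, tr⟩ := hn
  haveI := Loc.finite_of_le hTS
  have ap : ∀ (k : ℕ) (x : T), (Fus.toPerm T α)^[k] x = (α ^ k) x := fun k x => by
    rw [Equiv.Perm.iterate_eq_pow, ← map_pow, Fus.toPerm_apply _ x.2]
  have cm : ∀ s t : T, s * t = t * s := fun s t => Subtype.ext (comm_of_le hT s s.2 t t.2)
  have cl : ∀ a ∈ closure {y : T | ∃ ψ ∈ zpowers α, ∃ t : T, y = ψ t * t⁻¹}, ∃ s : T, a = α s * s⁻¹ := fun a ha => by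
    induction ha using closure_induction with
    | mem x hx =>
      obtain ⟨ψ, hψ, t, rfl⟩ := hx
      obtain ⟨k, rfl⟩ := (mem_powers_iff_mem_zpowers.2 hψ)
      induction k with
      | zero => exact ⟨1, by simp⟩
      | succ k ih =>
        obtain ⟨s, hs⟩ := ih (pow_mem (mem_zpowers α) k)
        refine ⟨(α ^ k) t * s, ?_⟩
        simp only at hs ⊢
        rw [map_mul, mul_inv_rev, mul_assoc, ← mul_assoc (α s), ← hs, pow_succ', MulAut.mul_apply, cm ((α ^ k) t) t⁻¹]; group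
    | one => exact ⟨1, by simp⟩
    | mul a b _ _ ha hb =>
      obtain ⟨s, rfl⟩ := ha
      obtain ⟨t, rfl⟩ := hb
      exact ⟨s * t, by rw [map_mul, mul_inv_rev, mul_assoc, mul_assoc, cm s⁻¹, mul_assoc]⟩
    | inv a _ ha =>
      obtain ⟨s, rfl⟩ := ha
      exact ⟨s⁻¹, by rw [map_inv, mul_inv_rev, cm]⟩
  refine Or.inr ⟨zpowers α, zpowers_le.2 hα, fun e => ne ?_, inferInstance, ?_, fun a b ha hb a1 b1 => ?_⟩
  · rw [zpowers_eq_bot.1 e]; simp
  · rw [Nat.card_zpowers]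
    exact hn.coprime_dvd_left (orderOf_dvd_of_pow_eq_one (MulEquiv.ext fun x => Subtype.ext ((ap n x).symm.trans
      (ord x x.2))))
  · obtain ⟨s, rfl⟩ := cl a ha
    obtain ⟨u, rfl⟩ := cl b hb
    have ap1 : ∀ x : T, Fus.toPerm T α x = α x := fun x => Fus.toPerm_apply _ x.2
    obtain ⟨k, hk⟩ := tr s s.2 u u.2 (fun e => a1 (mul_inv_eq_one.2 (Subtype.ext ((ap1 s).symm.trans e))))
      fun e => b1 (mul_inv_eq_one.2 (Subtype.ext ((ap1 u).symm.trans e)))
    rw [ap] at hk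
    have hk' : α ((α ^ k) s * u⁻¹) = (α ^ k) s * u⁻¹ := Subtype.ext ((ap1 _).symm.trans hk)
    refine ⟨α ^ k, pow_mem (mem_zpowers α) k, ?_⟩
    rw [map_mul, map_inv, mul_inv_eq_iff_eq_mul] at hk'
    rw [map_mul, map_inv, ← MulAut.mul_apply, ← pow_succ, pow_succ', MulAut.mul_apply, hk', cm, mul_assoc, inv_mul_cancel_left, cm]


end Cfsg.Agent.S5278
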