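import Cfsg.Statements.S5291
import Cfsg.Agent.Fus.Nml
-- import your own Cfsg.Agent.* helpers here

set_option autoImplicit false
open Cfsg

namespace Cfsg.Agent.S5291

/-- Let F be a saturated fusion system over a finite p-group S and E a weakly normal subsystem of F over a subgroup T. Suppose a subgroup R of T is normal in E (E = N_E(R)), and let R* be the subgroup of T generated by the images of R under all maps of F with source R. Then R* is normal in F (F = N_F(R*)). -/
theorem result {Ω : Type*} [Group Ω] {S : Subgroup Ω} [Finite S] (p : ℕ) [Fact p.Prime] (hS : IsPGroup p S)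
    (F : Cfsg.FusionSystem S) (hF : F.IsSaturated p)
    {T : Subgroup Ω} (E : Cfsg.FusionSystem T) (hE : E.IsWeaklyNormalIn F p)
    (R : Subgroup Ω) (hR : E.IsNormal R) :
    F.IsNormal (Subgroup.closure {x : Ω | ∃ φ ∈ F.Hom R, ∃ r : R, x = φ r}) :=
  open Subgroup Cfsg.Agent.Fus Cfsg.Agent.Loc Equiv in by
  have h := (wn_iff hS).1 hE
  have := h.inv.finite
  have hle : closure {x : Ω | ∃ φ ∈ F.Hom R, ∃ r : R, x = φ r} ≤ E.core := by
    rw [closure_le]
    rintro _ ⟨φ, hφ, r, rfl⟩
    obtain ⟨f, hf, e⟩ := exists_perm_of_mem hφ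
    rw [e]
    exact sc_mem (sc_of_normal (h.inv.normal_core h.satF)) hf r.2 (le_core hR r.2)
  refine normal_of_normal_of_inv (h.inv.normal_core h.satF) hle fun f hf => ?_
  have := finite_of_le (core_le E)
  have := finite_of_le hle
  refine (hf.homOn.mono hle).maps_self (img_le_iff.1 ?_)
  rw [HomOn.img_closure (hf.homOn.mono hle), closure_le]
  rintro _ ⟨_, ⟨φ, hφ, r, rfl⟩, rfl⟩
  have := hf.mor.comp (mor_of_mem hφ) fun x hx => hle (subset_closure ⟨φ, hφ, ⟨x, hx⟩, ext1_apply _ hx⟩)
  exact subset_closure ⟨_, this.toHom_mem, r, by simp⟩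

end Cfsg.Agent.S5291
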