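import Cfsg.Statements.S5295
import Cfsg.Agent.Fus.Ctl2
-- import your own Cfsg.Agent.* helpers here

set_option autoImplicit false
universe u
open Cfsg

namespace Cfsg.Agent.S5295

/-- Let F be a saturated fusion system over a finite p-group S with p odd. Then the centre Z(F) of F is a direct factor of Z(S): there is a subgroup K of Z(S) with Z(F) ∩ K = 1 and Z(F)K = Z(S). (At the prime 2 this can fail.) -/
theorem result {Ω : Type u} [Group Ω] {S : Subgroup Ω} [Finite S] (p : ℕ) [Fact p.Prime] (hp : p ≠ 2) (hS : IsPGroup p S)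
    (F : Cfsg.FusionSystem S) (hF : F.IsSaturated p) :
    ∃ K : Subgroup Ω, K ≤ (S ⊓ Subgroup.centralizer (S : Set Ω)) ∧ F.center ⊓ K = ⊥ ∧ F.center ⊔ K = (S ⊓ Subgroup.centralizer (S : Set Ω)) :=
  open Subgroup Cfsg.Agent.Fus Cfsg.Agent.Loc Equiv in by
  have hn := le_normalizer.trans (normalizer_le_ind PLocal.JAF_char hS)
  obtain ⟨N, h1, h2, h3⟩ := Sat.exists_nrm ⟨hS, hF⟩ (ind_le' PLocal.JAF S) hn
  rw [← center_nrm_eq ⟨hS, hF⟩ h1 hn fun z => center_ctl_odd hp ⟨hS, hF⟩]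
  exact h2.center_factor h3 (CS_le_JA S)

end Cfsg.Agent.S5295
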