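import Cfsg.Statements.S5297
import Cfsg.Agent.PLocal.Sm
-- import your own Cfsg.Agent.* helpers here

set_option autoImplicit false
universe u
open Cfsg

namespace Cfsg.Agent.S5297


open Subgroup Cfsg Cfsg.Agent.Transfer Cfsg.Agent.BG Cfsg.Agent.PLocal Pointwise
open scoped commutatorElement

/-- Let F be a saturated fusion system over a finite p-group S. If every map of F between cyclic subgroups of the hyperfocal subgroup of F of order p or 4 is a map of the normalizer system of S (it extends to a map of F defined on all of S), then S is normal in F. -/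
theorem result {Ω : Type u} [Group Ω] {S : Subgroup Ω} [Finite S] (p : ℕ) [Fact p.Prime] (hS : IsPGroup p S)
    (F : Cfsg.FusionSystem S) (hF : F.IsSaturated p)
    (h : ∀ A B : Subgroup Ω, A ≤ (F.hyperfocalSubgroup p) → B ≤ (F.hyperfocalSubgroup p) → IsCyclic ↥A → (Nat.card ↥A = p ∨ Nat.card ↥A = 4) → IsCyclic ↥B → (Nat.card ↥B = p ∨ Nat.card ↥B = 4) →
      F.homSet A B ⊆ F.normalizerHom S A) :
    F.IsNormal S := by
  open Cfsg.Agent.Fus in
  have sF : Sat F p := ⟨hS, hF⟩
  refine normal_S_of_pact sF fun P hP D hD st ex => ?_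
  haveI := Loc.finite_of_le hP
  have hDP := hD.trans inf_le_left
  have key : ∀ i, Fus.AutF F P ≤ Fus.Stab (D ⊓ Fus.Zs S i) := fun i a ha => by
    haveI := Loc.finite_of_le (inf_le_left.trans (hDP.trans hP) : D ⊓ Fus.Zs S i ≤ S)
    refine ((Fus.homOn_of_AutF ha).mono (inf_le_left.trans hDP)).maps_self fun x hx => ⟨(st ha).mem hx.1, ?_⟩
    by_cases h1 : x = 1
    · rw [h1, (Fus.homOn_of_AutF ha).map_one]; exact one_mem _
    have ia := (Fus.iso_of_AutF hP ha).mor.mono (zpowers_le.2 (hDP hx.1))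
    have c := card_zpowers_sq (ex x hx.1) h1
    obtain ⟨-, g, k1, k2, k3, -⟩ := (Fus.normalizerHom_iff (f := a) fun _ => rfl).1 (h _ (zpowers (a x))
      (zpowers_le.2 (hD hx.1).2) (zpowers_le.2 (hD ((st ha).mem hx.1)).2) inferInstance c inferInstance
      (ia.homOn.maps_zpowers.card_eq ▸ c) ⟨ia.toHom_mem, fun y => ia.homOn.maps_zpowers.mem y.2⟩)
    rw [← k2 x (mem_zpowers x)]
    exact ((k1.homOn.mono le_sup_right).maps_Zs k3 i).mem hx.2
  obtain ⟨n, hn⟩ := Fus.exists_Zs_eq hS
  have : ∀ i, Fus.PAct p (Fus.AutF F P) (Fus.AutK S P) (D ⊓ Fus.Zs S i) := fun i => by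
    induction i with
    | zero => rw [Fus.Zs_zero, inf_bot_eq]; exact Fus.PAct.bot (Fus.AutF_le_AutOn F P) (Fus.AutK_le_AutF F le_rfl hP)
    | succ i ih =>
      refine ih.step (Fus.AutF_le_AutOn F P) (hS.to_le hP) (inf_le_inf_left _ (Fus.Zs_mono S i.le_succ))
        (inf_le_left.trans hDP) (key i) (key _) fun a ha c hc => ⟨D.mul_mem (D.inv_mem hc.1)
          ((st (Fus.AutK_le_AutF F le_rfl hP ha)).mem hc.1), ?_⟩
      obtain ⟨g, hg, hn, rfl⟩ := Fus.mem_AutK.1 ha
      have := Fus.commutator_Zs S i (commutator_mem_commutator (inv_mem hc.2) hg)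
      rw [Fus.cr_apply hn (hDP hc.1)]
      simpa [commutatorElement_def, mul_assoc] using this
  simpa [hn, inf_eq_left.2 (hDP.trans hP)] using this n


end Cfsg.Agent.S5297
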