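import Cfsg.Statements.S5298
import Cfsg.Agent.PLocal.Sm
-- import your own Cfsg.Agent.* helpers here

set_option autoImplicit false
universe u
open Cfsg

namespace Cfsg.Agent.S5298


open Subgroup Cfsg Cfsg.Agent.Transfer Cfsg.Agent.BG Cfsg.Agent.PLocal Pointwise
open scoped commutatorElement

/-- Let F be a saturated fusion system over a finite p-group S. If every map of F between cyclic subgroups of the hyperfocal subgroup of F of order p or 4 is conjugation by an element of S, then F is the inner fusion system of S. -/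
theorem result {Ω : Type u} [Group Ω] {S : Subgroup Ω} [Finite S] (p : ℕ) [Fact p.Prime] (hS : IsPGroup p S)
    (F : Cfsg.FusionSystem S) (hF : F.IsSaturated p)
    (h : ∀ A B : Subgroup Ω, A ≤ (F.hyperfocalSubgroup p) → B ≤ (F.hyperfocalSubgroup p) → IsCyclic ↥A → (Nat.card ↥A = p ∨ Nat.card ↥A = 4) → IsCyclic ↥B → (Nat.card ↥B = p ∨ Nat.card ↥B = 4) →
      F.homSet A B ⊆ (Cfsg.innerFusionSystem S).Hom A) :
    ∀ P : Subgroup Ω, F.Hom P = (Cfsg.innerFusionSystem S).Hom P := by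
  open Cfsg.Agent.Fus in
  have sF : Sat F p := ⟨hS, hF⟩
  refine congrFun (congrArg FusionSystem.Hom (sF.eq_inner fun P hP a ha hc => ?_))
  have hP := (sF.base_fcr hP).1.1
  obtain ⟨D, hD, st, ex, k⟩ := exists_smD_hyp sF hP
  have hDP := hD.trans inf_le_left
  have key : ∀ x ∈ D, ∃ g ∈ S, a x = g * x * g⁻¹ := fun x hx => by
    by_cases h1 : x = 1
    · exact ⟨1, one_mem _, by simp [h1, (Fus.homOn_of_AutF ha).map_one]⟩
    have ia := (Fus.iso_of_AutF hP ha).mor.mono (zpowers_le.2 (hDP hx))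
    have c := card_zpowers_sq (ex x hx) h1
    obtain ⟨-, g, k1, k2⟩ := Fus.mor_inner.1 ((Fus.mem_Hom_iff' (f := a) fun _ => rfl).1 (h _ (zpowers (a x))
      (zpowers_le.2 (hD hx).2) (zpowers_le.2 (hD ((st ha).mem hx)).2) inferInstance c inferInstance
      (ia.homOn.maps_zpowers.card_eq ▸ c) ⟨ia.toHom_mem, fun y => ia.homOn.maps_zpowers.mem y.2⟩))
    exact ⟨g, k1, k2 x (mem_zpowers x)⟩
  have cm : ∀ i, ∀ c ∈ D ⊓ Fus.Zs S (i + 1), c⁻¹ * a c ∈ D ⊓ Fus.Zs S i := fun i c hc =>
    ⟨D.mul_mem (D.inv_mem hc.1) ((st ha).mem hc.1), by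
      obtain ⟨g, hg, e⟩ := key c hc.1
      have := Fus.commutator_Zs S i (commutator_mem_commutator (inv_mem hc.2) hg)
      rw [e]
      simpa [commutatorElement_def, mul_assoc] using this⟩
  obtain ⟨n, hn⟩ := Fus.exists_Zs_eq hS
  have : ∀ i, ∀ x ∈ D ⊓ Fus.Zs S i, a x = x := fun i => by
    induction i with
    | zero => intro x hx; rw [Fus.Zs_zero, inf_bot_eq, mem_bot] at hx; rw [hx, (Fus.homOn_of_AutF ha).map_one]
    | succ i ih =>
      have hle : D ⊓ Fus.Zs S (i + 1) ≤ S := inf_le_left.trans (hDP.trans hP)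
      have hm := inf_le_inf_left D (Fus.Zs_mono S i.le_succ)
      haveI := Loc.finite_of_le hle
      have ho := (Fus.homOn_of_AutF ha).mono (inf_le_left.trans hDP : D ⊓ Fus.Zs S (i + 1) ≤ P)
      exact Fus.fix_of_coprime_of_stab hc (hS.to_le (hm.trans hle)) ho (ho.maps_self fun x hx => by
        simpa using mul_mem hx (hm (cm i x hx))) hm ih (cm i)
  exact k a ha hc fun x hx => this n x ⟨hx, hn.ge (hP (hDP hx))⟩


end Cfsg.Agent.S5298
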