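import Cfsg.Statements.S5300
import Cfsg.Agent.PLocal.Sm
-- import your own Cfsg.Agent.* helpers here

set_option autoImplicit false
universe u
open Cfsg

namespace Cfsg.Agent.S5300


open Subgroup Cfsg Cfsg.Agent.Transfer Cfsg.Agent.BG Cfsg.Agent.PLocal Pointwise
open scoped commutatorElement

theorem fix {Ω : Type*} [Group Ω] {p : ℕ} [hp : Fact p.Prime] {s x : Ω} {k : ℕ} (hs : s ^ p ^ k = 1) (hx : x ^ p = 1)
    (h : s * x * s⁻¹ ∈ zpowers x) : s * x * s⁻¹ = x := by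
  obtain ⟨m, hm⟩ := h
  have e : ∀ n : ℕ, s ^ n * x * (s ^ n)⁻¹ = x ^ m ^ n := fun n => by
    induction n with
    | zero => simp
    | succ n ih =>
      rw [pow_succ', mul_inv_rev, show s * s ^ n * x * ((s ^ n)⁻¹ * s⁻¹) = s * (s ^ n * x * (s ^ n)⁻¹) * s⁻¹ by group,
        ih, ← conj_zpow, ← hm, ← zpow_mul, pow_succ']
  have e2 : ∀ j : ℕ, x ^ m ^ p ^ j = x ^ m := fun j => by
    refine zpow_eq_zpow_iff_modEq.2 (Int.ModEq.of_dvd (Int.natCast_dvd_natCast.2 (orderOf_dvd_of_pow_eq_one hx)) ?_)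
    rw [← ZMod.intCast_eq_intCast_iff, Int.cast_pow, ZMod.pow_card_pow]
  have := e (p ^ k)
  rw [hs, e2] at this
  simpa [← hm] using this.symm


/-- Let F be a saturated fusion system over a finite p-group S. If every cyclic subgroup of the focal subgroup of F of order p (of order 2 or 4 when p = 2) is normal in S, then S is normal in F. -/
theorem result {Ω : Type u} [Group Ω] {S : Subgroup Ω} [Finite S] (p : ℕ) [Fact p.Prime] (hS : IsPGroup p S)
    (F : Cfsg.FusionSystem S) (hF : F.IsSaturated p)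
    (hnorm : ∀ x ∈ F.focalSubgroup, (x ^ p = 1 ∨ (p = 2 ∧ x ^ 4 = 1)) → ∀ s ∈ S, s * x * s⁻¹ ∈ Subgroup.zpowers x) :
    F.IsNormal S := by
  open Cfsg.Agent.Fus in
  have sF : Sat F p := ⟨hS, hF⟩
  refine normal_S_of_pact sF fun P hP D hD st ex => ?_
  haveI := Loc.finite_of_le hP
  have hDP := hD.trans inf_le_left
  have hf : D ≤ F.focalSubgroup := (hD.trans inf_le_right).trans (Fus.hyp_le_foc F p)
  have f1 : ∀ x ∈ D, x ^ p = 1 → ∀ s ∈ S, s * x * s⁻¹ = x := fun x hx e s hs =>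
    let ⟨_, hk⟩ := hS ⟨s, hs⟩
    fix (congrArg Subtype.val hk) e (hnorm x (hf hx) (Or.inl e) s hs)
  set B := closure {x | x ∈ D ∧ x ^ p = 1}
  have hBD : B ≤ D := (closure_le _).2 fun x hx => hx.1
  haveI := Loc.finite_of_le (hBD.trans hDP)
  have hB : Fus.AutF F P ≤ Fus.Stab B := fun a ha => by
    have ho := (Fus.homOn_of_AutF ha).mono (hBD.trans hDP)
    refine ho.maps_self (Fus.img_le_iff.1 ?_)
    rw [ho.img_closure]
    refine closure_mono ?_
    rintro _ ⟨x, hx, rfl⟩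
    exact ⟨(st ha).mem hx.1, by rw [← ho.map_pow (subset_closure hx), hx.2, ho.map_one]⟩
  have hA := Fus.AutF_le_AutOn F P
  refine ((Fus.PAct.bot hA (Fus.AutK_le_AutF F le_rfl hP)).step hA (hS.to_le hP) bot_le (hBD.trans hDP)
    (fun a ha => (Fus.homOn_of_AutF ha).maps_bot) hB fun a ha c hc => ?_).step hA (hS.to_le hP) hBD hDP hB st
      fun a ha c hc => subset_closure ⟨D.mul_mem (D.inv_mem hc) ((st (Fus.AutK_le_AutF F le_rfl hP ha)).mem hc), ?_⟩
  · obtain ⟨g, hg, hn, rfl⟩ := Fus.mem_AutK.1 ha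
    have : B ≤ centralizer {g} := (closure_le _).2 fun x hx => mem_centralizer_singleton_iff.2
      (mul_inv_eq_iff_eq_mul.1 (f1 x hx.1 hx.2 g hg)).symm
    rw [Fus.cr_apply hn (hDP (hBD hc)), mem_bot, ← mem_centralizer_singleton_iff.1 (this hc)]
    group
  · obtain ⟨g, hg, hn, rfl⟩ := Fus.mem_AutK.1 ha
    obtain ⟨e, he, h1⟩ := sq_eq (p := p)
    obtain ⟨m, hm⟩ := hnorm c (hf hc) (by
      by_cases h : p = 2
      · exact Or.inr ⟨h, (show PLocal.sq p = 4 from if_pos h) ▸ ex c hc⟩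
      · exact Or.inl ((show PLocal.sq p = p from if_neg h) ▸ ex c hc)) g hg
    have := f1 _ (pow_mem hc p) (by
      obtain ⟨k, hk⟩ : PLocal.sq p ∣ p * p := by rw [he, ← pow_two]; exact pow_dvd_pow _ (by omega)
      rw [← pow_mul, hk, pow_mul, ex c hc, one_pow]) g hg
    rw [← conj_pow, ← hm] at this
    rw [Fus.cr_apply hn (hDP hc), ← hm, ((Commute.refl c).inv_left.zpow_right m).mul_pow, this, inv_pow, inv_mul_cancel]


end Cfsg.Agent.S5300
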