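import Cfsg.Statements.S5301
import Cfsg.Agent.Fus.Alp
-- import your own Cfsg.Agent.* helpers here

set_option autoImplicit false
universe u
open Cfsg

namespace Cfsg.Agent.S5301

/-- Let F be a saturated fusion system over a finite p-group S. If for every subgroup P of S that is fully normalized, centric and radical in F the automorphism group that F induces on P has a normal Sylow p-subgroup, then S is normal in F. -/
theorem result {Ω : Type u} [Group Ω] {S : Subgroup Ω} [Finite S] (p : ℕ) [Fact p.Prime] (hS : IsPGroup p S)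
    (F : Cfsg.FusionSystem S) (hF : F.IsSaturated p)
    (hcl : ∀ P : Subgroup Ω, F.IsFullyNormalized P → F.IsCentric P → F.IsRadical p P →
      ∃ R : Sylow p ↥(F.autGroup P), (R : Subgroup ↥(F.autGroup P)).Normal) :
    F.IsNormal S :=
  open Subgroup Cfsg.Agent.Fus Cfsg.Agent.Loc Equiv in by
  have hs : Sat F p := ⟨hS, hF⟩
  refine hs.normal_S fun P hP => ?_
  obtain ⟨h1, h2, h3⟩ := hs.base_fcr (Or.inr hP)
  obtain ⟨R, hR⟩ := hcl P h1 h2 h3
  have h4 := (sylIn_map_subtype R).map_of_injective (toPerm_injective P)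
  have h5 : AutF F P ≤ normalizer (((R : Subgroup (F.autGroup P)).map (F.autGroup P).subtype).map (toPerm P) : Set (Perm Ω)) :=
    (map_mono (normal_map_subtype hR)).trans (le_normalizer_map _)
  have h6 := h4.le_of_normal h5 (hs.syl h1).le (hs.syl h1).pg
  rw [h4.eq_pCoreOf_of_normal h5] at h6
  exact (lt_NS hS (hs.ess_lt hP)).not_ge (le_of_AutK_le_Inn h1.1 (centric_CS_le h2) le_rfl
    (by rw [AutK_NS, ← (radical_iff.1 h3).2]; exact h6))

end Cfsg.Agent.S5301
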