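import Cfsg.Statements.S5311
import Cfsg.Agent.Fus.Misc
-- import your own Cfsg.Agent.* helpers here

set_option autoImplicit false
open Cfsg

namespace Cfsg.Agent.S5311

/-- The layer of a saturated fusion system F over a finite p-group S is characteristic in F: for every automorphism α of S that is an automorphism of F (α and its inverse are morphisms from F to F) and every layer E of F over T, α carries T onto T and, for every map φ of E with source P, the map induced by α on α(P) (that is, α ∘ φ ∘ α⁻¹) is a map of E. -/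
theorem result {Ω : Type*} [Group Ω] {S : Subgroup Ω} [Finite S] (p : ℕ) [Fact p.Prime] (hS : IsPGroup p S) (F : Cfsg.FusionSystem S) (hF : F.IsSaturated p)
    (α : ↥S ≃* ↥S) (hα : F.IsMorphism F (S.subtype.comp α.toMonoidHom))
    (hα' : F.IsMorphism F (S.subtype.comp α.symm.toMonoidHom))
    {T : Subgroup Ω} (E : Cfsg.FusionSystem T) (hE : E.IsLayerOf F p) :
    Cfsg.FusionSystem.imageAlong (S.subtype.comp α.toMonoidHom) T = T ∧
      ∀ (P : Subgroup Ω) (φ : ↥P →* Ω), φ ∈ E.Hom P →
        ∀ φ' : ↥(Cfsg.FusionSystem.imageAlong (S.subtype.comp α.toMonoidHom) P) →* Ω,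
          Cfsg.FusionSystem.InducedAlong (S.subtype.comp α.toMonoidHom) φ φ' →
            φ' ∈ E.Hom (Cfsg.FusionSystem.imageAlong (S.subtype.comp α.toMonoidHom) P) :=
  open Subgroup Cfsg.Agent.Fus Cfsg.Agent.Loc Equiv in by
  have hL := (ni_iff hS).1 hE.1
  have := finite_of_le hL.le
  set θ := ext1 (S.subtype.comp α.toMonoidHom)
  set σ := ext1 (S.subtype.comp α.symm.toMonoidHom)
  have hθ : HomOn θ S := homOn_ext1 _
  have hσ : HomOn σ S := homOn_ext1 _
  have m1 := (morphism_iff.1 hα).1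
  have m2 := (morphism_iff.1 hα').1
  have e1 : ∀ x ∈ S, σ (θ x) = x := fun x hx => by
    refine (ext1_apply _ (m1 x hx)).trans ?_; simp [θ, ext1_apply _ hx]
  have e2 : ∀ x ∈ S, θ (σ x) = x := fun x hx => by
    refine (ext1_apply _ (m2 x hx)).trans ?_; simp [σ, ext1_apply _ hx]
  have h : FIso F θ F := by
    refine ⟨⟨hθ, le_antisymm (img_le_iff.2 m1) fun x hx => e2 x hx ▸ mem_img_of_mem θ (m2 x hx),
      fun {P f} hf => (morphism_iff.1 hα).2 P f hf, fun {P f} hf => ?_⟩, fun x hx e => ?_⟩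
    · obtain ⟨g, hg, i⟩ := (morphism_iff.1 hα').2 P f hf
      refine ⟨g, hg.mono fun x hx => e1 x hx.1 ▸ mem_img_of_mem σ hx.2, fun x hx => ?_⟩
      have : g (σ (θ x)) = σ (f (θ x)) := i _ hx.2
      rw [e1 x hx.1] at this
      rw [this, e2 _ (hf.mem_S hx.2)]
    · rw [← e1 x hx, e, hσ.map_one]
  obtain ⟨D, hD⟩ := h.exists_sub E hL.le
  have h1 := h.layer_sub hD hS hE hE
  refine ⟨?_, fun P φ hφ φ' i => ?_⟩
  · rw [imageAlong_eq _ hL.le]
    exact eq_of_le_of_card_le (sub_le h1) (h.card_img hL.le).ge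
  · have hP := (mor_of_mem hφ).le.trans hL.le
    have h2 := (hD.toEpi.mor_of_ind (mor_of_mem hφ) (ind_of_inducedAlong i)).sub h1
    rw [← imageAlong_eq _ hP] at h2
    exact mem_Hom_iff.2 h2

end Cfsg.Agent.S5311
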