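import Cfsg.Statements.S5332
import Cfsg.Agent.Fus.Ctl2
-- import your own Cfsg.Agent.* helpers here

set_option autoImplicit false
open Cfsg

namespace Cfsg.Agent.S5332

/-- Let p be odd and F a saturated fusion system over a finite p-group S that is not the inner system of S. Then F contains a saturated constrained subsystem over S that is itself not the inner system. -/
theorem result {Ω : Type*} [Group Ω] {S : Subgroup Ω} [Finite S] (p : ℕ) [Fact p.Prime] (hS : IsPGroup p S) (F : Cfsg.FusionSystem S) (hF : F.IsSaturated p) (hp : p ≠ 2) (hne : ∃ P : Subgroup Ω, F.Hom P ≠ (Cfsg.innerFusionSystem S).Hom P) : ∃ E : Cfsg.FusionSystem S, E ≤ F ∧ E.IsConstrained p ∧ ∃ P : Subgroup Ω, E.Hom P ≠ (Cfsg.innerFusionSystem S).Hom P :=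
  open Subgroup Cfsg.Agent.Fus Cfsg.Agent.Loc Equiv in by
  obtain ⟨E, h1, h2, h3, h4⟩ := exists_sparse F ⟨hS, hF⟩ fun e => by
    obtain ⟨P, hP⟩ := hne
    exact hP (inner_iff_hom.2 e P)
  refine ⟨E, le_iff_sub.2 h2, sparse_constrained (fun _ => True) (fun _ _ _ _ => trivial) (fun hF _ =>
    inner_of_chr_of_center PLocal.JAF_char hF fun z => center_ctl_odd hp hF) h1 trivial h3 h4, ?_⟩
  by_contra h
  push Not at h
  exact h3 (inner_iff_hom.1 h)

end Cfsg.Agent.S5332
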