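import Cfsg.Statements.S5521
import Cfsg.Agent.Golay.Fix

set_option autoImplicit false
open Cfsg

namespace Cfsg.Agent.S5521

/-- The Mathieu group M₂₄ in its natural action on the 24 coordinate positions of the binary Golay code has minimal base size exactly 7: every set of at most 6 positions is fixed pointwise by some non-identity element of M₂₄, while some set of 7 positions is fixed pointwise only by the identity. -/
theorem result :
    (∀ B : Finset Cfsg.GolayPt, B.card ≤ 6 → ∃ g ∈ Cfsg.M24, g ≠ 1 ∧ ∀ b ∈ B, g b = b) ∧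
    (∃ B : Finset Cfsg.GolayPt, B.card = 7 ∧ ∀ g ∈ Cfsg.M24, (∀ b ∈ B, g b = b) → g = 1) := by
  constructor
  · intro B hB
    obtain ⟨E, hBE, -, hE⟩ := Finset.exists_subsuperset_card_eq (Finset.subset_univ B) hB
      (by rw [Finset.card_univ, Golay.card_pt]; norm_num)
    have : 1 < Nat.card (Comp.fixF Golay.MG E) := by
      by_cases h : ∃ o ∈ octads, E ⊆ o
      · obtain ⟨o, ho, h⟩ := h
        rw [Golay.card_fix_six_in ho hE h]; norm_num
      · rw [Golay.card_fix_six_out hE h]; norm_num
    obtain ⟨g, hg⟩ := (Subgroup.ne_bot_iff_exists_ne_one.1 ((Subgroup.one_lt_card_iff_ne_bot _).1 this))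
    exact ⟨g.1, g.1.2, fun e => hg (Subtype.ext (Subtype.ext e)), fun b hb => g.2 b (hBE hb)⟩
  · refine ⟨insert (some 4) (Golay.EG.ofMask 8388655), by decide +kernel, fun g hg h => ?_⟩
    have := Golay.eq_one_of_fixOct Golay.oct0_mem (k := ⟨g, hg⟩) (p := some 4) (by
      rw [Golay.fixF_eq_of_six Golay.oct0_mem (E := Golay.EG.ofMask 8388655) (by decide +kernel) (by decide +kernel)]
      exact fun a ha => h a (Finset.mem_insert_of_mem ha)) (by decide +kernel) (h _ (Finset.mem_insert_self _ _))
    exact congrArg Subtype.val this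

end Cfsg.Agent.S5521
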