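import Cfsg.Statements.S5529
import Cfsg.Agent.Perm.Ree
import Cfsg.Agent.Golay.Classes

set_option autoImplicit false
open Cfsg

namespace Cfsg.Agent.S5529

open Cfsg.Agent.Comp Cfsg.Agent.Golay Cfsg.Agent.Ree MulAction Spor
open scoped Pointwise
set_option maxRecDepth 100000
local notation "PG" => Equiv.Perm GolayPt

def ok (t : (ℕ × ℕ × ℕ) × ℕ × ℕ × List (List ℕ)) : Bool :=
  band (band (allL [t.2.1, t.2.2.1] in23) (allL [t.2.1, t.2.2.1] fun c => Nat.blt c (Nat.pow 2 (Nat.mul 5 24))))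
    (band (band (orderC mul24 one24 t.2.1 t.1.1 [t.1.1]) (band (orderC mul24 one24 t.2.2.1 t.1.2.1 [t.1.2.1])
      (force (mul24 t.2.1 t.2.2.1) fun c => orderC mul24 one24 c t.1.2.2 [t.1.2.2])))
    (band (allL [0, 1, 2, 3, 5, 4] (fun b => Nat.blt b 24)) (Nat.ble 10200960 (chainL get24 (fun a => a) 30 [0, 1, 2, 3, 5, 4]
      (slpW mul24 inv24 one24 t.2.2.2 [t.2.1, t.2.2.1])))))

theorem ordP {c p : ℕ} {g : PG} (h : CRep EG 5 31 c g) (hp : p.Prime) (ho : orderC mul24 one24 c p [p] = true) :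
    orderOf g = p := (isGrp_CRep EG par24).orderOf_eq (isCanon_CRep EG par24) h hp.pos
      (fun _ hq hd => List.mem_singleton.2 ((Nat.prime_dvd_prime_iff_eq hq hp).1 hd)) ho

theorem pos {p q r a b : ℕ} {ws : List (List ℕ)} (hp : p.Prime) (hq : q.Prime) (hr : r.Prime)
    (h : ok ((p, q, r), a, b, ws) = true) : ∃ x y z : M23, orderOf x = p ∧ orderOf y = q ∧ orderOf z = r ∧
      x * y * z = 1 ∧ Subgroup.closure {x, y} = ⊤ := by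
  rw [ok, band_eq, band_eq, band_eq, band_eq, band_eq, force_eq] at h
  simp only [Bool.and_eq_true] at h
  obtain ⟨⟨h1, h2⟩, ⟨h3, h4, h5⟩, h6⟩ := h
  have h7 := codes23 h1
  have h8 := closure_eq_of_slp h7 _ ws card_M23 h6
  obtain ⟨x, hx, e1⟩ := h7.toCRep h2 a (by simp)
  obtain ⟨y, hy, e2⟩ := h7.toCRep h2 b (by simp)
  refine ⟨⟨x, hx⟩, ⟨y, hy⟩, (⟨x, hx⟩ * ⟨y, hy⟩)⁻¹, (Subgroup.orderOf_mk _ _).trans (ordP e1 hp h3),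
    (Subgroup.orderOf_mk _ _).trans (ordP e2 hq h4), ?_, mul_inv_cancel _, ?_⟩
  · rw [orderOf_inv]; exact (Subgroup.orderOf_mk _ _).trans (ordP (PRep.mul_canon par24 e1.1 e2.1) hr h5)
  · rw [← Subgroup.map_subtype_inj, MonoidHom.map_closure, ← MonoidHom.range_eq_map, Subgroup.range_subtype,
      Set.image_pair]
    refine Eq.trans (congrArg _ ?_) h8
    ext g
    simp only [genSet, List.mem_cons, List.not_mem_nil, or_false, Set.mem_insert_iff, Set.mem_singleton_iff,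
      Set.mem_setOf_eq, exists_eq_or_imp, exists_eq_left]
    exact or_congr ⟨fun e => e ▸ e1.1, fun e => e.unique e1.1⟩ ⟨fun e => e ▸ e2.1, fun e => e.unique e2.1⟩

def T1 : List ((ℕ × ℕ × ℕ) × ℕ × ℕ × List (List ℕ)) := [
  ((2, 5, 11), 967942763556895357388399563652794407, 971869787304698810424927325913621700, [[1, 3, 3, 1, 2, 2, 1], [3, 5, 3, 3, 5], [7, 7, 5, 5, 7, 4, 0, 0], [7, 5, 1, 2, 8, 3, 0], [9, 9, 11, 9, 7, 5, 7, 11, 1, 5, 2, 2], [13, 13, 9, 9, 11, 5, 13, 7, 9, 13, 1, 7, 1, 8, 5, 8, 10, 8, 2], [11, 9, 5, 13, 11, 11, 11, 14], [13, 13, 11, 15, 16, 11, 14, 14, 11, 17], [9, 19, 17, 5, 17, 5, 7, 7, 15, 7, 10, 5, 19], [17, 5, 11, 9, 1, 1, 11]]),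
  ((2, 5, 23), 983555466162877213279888925683451948, 959629308955188239266174912938153184, [[1, 3, 3, 1, 2, 2, 1], [3, 3, 1, 3, 1, 3, 1, 3, 3, 4, 1, 4, 1], [7, 5, 5, 5, 5, 7], [7, 5, 7, 9, 5, 3, 3, 7, 7, 7, 3, 5, 2, 9], [5, 11, 9, 7, 7, 4, 4, 11], [13, 13, 7, 5, 3, 3, 3, 13, 4, 11, 3, 7, 8], [13, 5, 7, 11, 7, 9, 3, 7, 9, 1, 3, 7, 5, 7, 0, 2], [13, 5, 9, 11, 7, 5, 11, 3, 15, 13, 3, 9, 10, 15]]),
  ((2, 7, 7), 984127413354114026457536868018989264, 976342286996476627241359901866789152, [[1, 3, 1, 2, 1], [3, 5, 3, 3, 3, 3, 4, 4, 2, 5, 3], [5, 3, 5, 7, 7, 3, 5], [9, 9, 7, 3, 3, 3, 9, 4, 7], [9, 9, 11, 8, 8], [9, 7, 11, 7, 11, 3, 8, 10, 9, 9, 6, 4], [9, 7, 13, 7, 3, 9, 15, 11, 2], [1, 5, 17, 0, 6, 3, 1], [3, 5, 13, 1, 1, 8, 18, 7, 3, 16]]),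
  ((2, 7, 11), 979331857186822040656160245079345411, 981630602241183118926025596620441142, [[1, 3, 3, 1, 2, 2, 1], [1, 3, 5, 3, 5], [5, 7, 4, 0, 0], [9, 9, 5, 9, 7, 5, 1, 5, 1, 5, 2, 8, 3, 0], [9, 11, 9, 9, 5, 9, 7, 1, 5, 2, 2], [11, 11, 9, 13, 11, 11, 1, 11, 5, 8, 5, 8, 10, 8, 2], [15, 15, 11, 11, 7, 15, 12, 14, 7], [13, 11, 17, 15, 16, 16, 11], [11, 19, 14, 11, 18, 17, 14], [13, 13, 16, 16, 20, 13]]),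
  ((2, 7, 23), 973686291556786079159268235199287904, 981672962620537368746865612083757746, [[3, 3, 3, 1, 3, 3, 3, 3, 0, 3], [3, 5, 3, 1, 2, 4, 2], [1, 5, 5, 1, 3, 5, 1, 5, 6, 5, 3, 7], [9, 9, 9, 7, 9, 9, 1, 9, 7, 8, 4, 0, 8, 0], [7, 11, 11, 7, 11, 9, 7, 9, 9, 11, 9, 7], [13, 7, 11, 13, 1, 3, 5, 1, 3, 11, 5, 11], [13, 7, 13, 11, 9, 13, 7, 9, 9], [13, 11, 13, 17, 10], [13, 7, 13, 9, 17, 19, 1, 13, 3, 3, 3, 15, 2, 2, 4]]),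
  ((2, 11, 11), 984778233109594712564286262568267360, 979294872726573530397901877362234600, [[3, 3, 3, 3, 3, 1, 3, 3, 3], [1, 5, 1, 5, 1, 3, 1, 3, 3, 5, 3, 4, 1, 4, 1], [1, 5, 1, 5, 3, 7, 3, 3, 0, 2], [9, 9, 3, 3, 1, 8, 8, 2, 7], [9, 11, 11, 5, 5, 5, 11, 8, 5, 9, 5], [11, 11, 13, 9, 11, 3, 9, 7, 13, 7, 2, 12], [15, 15, 11, 11, 11, 7, 14, 7, 15, 8, 15], [15, 16, 11, 14, 14, 11, 17], [15, 11, 15, 19, 5, 13, 15, 7, 10, 5, 19], [15, 15, 11, 21, 16, 16, 20, 13]]),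
  ((2, 11, 23), 984808092185701589051809676506104896, 968388009657712642320645576694599202, [[3, 1, 3, 3, 3, 3, 3, 0, 3], [4, 1], [5, 5, 7, 5, 5, 2, 4, 2, 1, 4, 2], [1, 1, 1, 5, 7], [1, 1, 5, 6, 5, 9, 10], [1, 9, 9, 1, 3, 3, 5, 3, 11, 5, 11], [9, 10, 15], [11, 13, 17, 17, 7, 9, 17], [11, 19, 15, 9, 3, 3, 5, 3, 17, 10, 17], [11, 17, 21, 19, 17, 18], [19, 19, 11, 23, 17, 19, 12], [19, 19, 11, 13, 9, 7, 1, 9, 21, 3, 9, 9, 15, 2, 2, 21]]),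
  ((2, 23, 23), 963640518972357266310373335248618528, 958156251008402799789744420419807728, [[3, 3, 1, 3, 3, 0, 3], [5, 5, 5, 5, 1, 3, 1, 3, 1, 1, 2, 4, 2], [1, 7, 4, 1, 1, 5, 7], [5, 1, 7, 3, 1, 1, 5, 6, 5, 9, 3], [7, 9, 7, 1, 11], [7, 1, 3, 9, 3, 11, 5, 11], [13, 9, 15, 11, 3, 4, 14, 2], [15, 13, 7, 5, 7, 3, 11, 15, 3, 9, 17, 9, 3], [13, 9, 15, 9, 1, 7, 19, 10, 17, 6, 19, 17, 18], [21, 21, 13, 9, 15, 11, 13, 3, 1, 3, 15, 2, 2, 21]]),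
  ((3, 3, 11), 977516408558647170970130570532733376, 965202052162711448067791262490138678, [[1, 3, 3, 1, 3, 0, 3], [3, 1, 5, 2], [5, 5, 5, 1, 3, 5, 5, 1, 5, 6, 5, 3], [5, 5, 5, 9, 1, 1, 9, 7, 7, 8, 4, 0, 8], [9, 9, 1, 1, 1, 11], [13, 9, 9, 13, 5, 9, 11, 7, 7, 9, 7], [13, 13, 11, 9, 11, 1, 9, 7, 3, 5, 7, 10, 2, 6], [9, 9, 13, 5, 5, 15, 7, 3, 1, 7, 7, 7, 4, 17, 14, 2], [13, 19, 12]]),
  ((3, 3, 23), 984729222951650628576132415610816689, 963521039141369953536526595535248969, [[1, 1, 3, 3, 1, 2, 2, 1], [5, 5, 1, 5, 3, 5], [5, 7, 7, 1, 3, 0, 2], [9, 5, 9, 1, 5, 2, 2, 8, 8], [9, 5, 9, 1, 3, 1, 8, 10, 8, 2], [13, 13, 7, 9, 6, 11, 8, 12], [11, 13, 15, 7, 11, 9, 5, 7, 9, 13, 11, 11, 14, 5], [7, 16, 7, 15, 8], [15, 15, 15, 9, 9, 16], [15, 11, 16, 16, 20, 13]])]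
theorem c1 : allL T1 ok = true := by decide +kernel
def T2 : List ((ℕ × ℕ × ℕ) × ℕ × ℕ × List (List ℕ)) := [
  ((3, 5, 5), 972753378201184429793103342846923264, 982197995532788176979871345793943879, [[1, 1, 3, 1, 3, 1, 2, 2, 1], [1, 5, 5, 1, 5, 3, 1, 5, 1, 3, 5], [5, 7, 5, 7, 1, 5, 1, 5, 7, 4, 0, 0], [5, 9, 7, 5, 6, 6], [9, 11, 11, 11, 7, 11, 1, 5, 11, 2, 8, 3, 0], [11, 5, 5, 1, 1, 11, 3, 11, 5, 2, 2], [11, 11, 5, 13, 7, 11, 5, 14, 13, 11, 11], [17, 11, 5, 9, 7, 15, 8, 15, 16, 16], [9, 17, 7, 7, 10, 5, 19]]),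
  ((3, 5, 7), 970355611340219394771273119850123431, 968953616615413401563192204071622248, [[1, 1, 2, 2, 1], [5, 5, 5, 5, 1, 5, 5, 3, 5], [5, 7, 7, 5, 6, 6], [9, 7, 7, 9, 5, 5, 9, 1, 7, 2, 8, 3, 0], [9, 9, 11, 5, 5, 5, 9, 1, 5, 1, 5, 5, 2, 2], [13, 13, 9, 11, 5, 11, 9, 1, 1, 8, 5, 8, 10, 8, 2], [11, 11, 11, 13, 13, 7, 11, 12, 14, 7], [11, 11, 11, 13, 15, 16, 16, 11], [13, 11, 13, 19, 14, 11, 18, 17, 14]]),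
  ((3, 5, 11), 958451747110280273944689645409862166, 984800320500475631761197246941925960, [[1, 2, 0], [3, 3, 3, 5, 3, 1], [7, 7, 5, 5, 5, 7, 5, 3, 7, 7, 0], [9, 5, 7, 5, 1, 5, 3, 3, 6, 9, 0, 7, 4], [11, 11, 5, 5, 5, 7, 1, 1, 9, 1, 5], [11, 11, 9, 9, 13, 9, 11, 7, 9, 7, 13, 5, 5, 11, 0, 6, 10, 3, 6, 11], [9, 15, 11, 7, 7, 13, 7, 11, 7, 7, 14], [11, 11, 9, 13, 9, 7, 7, 13, 15, 5, 5, 13, 3, 9, 9, 3, 10]]),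
  ((3, 5, 23), 978197292646005628863838995831954476, 984234368876025877314070299454869057, [[1, 3, 1, 1, 2, 2, 1], [1, 5, 3, 3, 5], [5, 5, 5, 5, 1, 1, 3, 5, 7, 4, 0, 0], [7, 5, 6, 6], [9, 9, 9, 9, 1, 2, 8, 3, 0], [11, 9, 13, 7, 5, 3, 7, 5, 2, 2], [15, 9, 13, 15, 7, 5, 11, 5, 14, 13, 11, 11], [17, 13, 15, 15, 11, 13, 5, 13, 7, 14, 5, 12, 14], [17, 13, 17, 9, 15, 9, 14, 14, 11, 18], [17, 13, 15, 17, 11, 5, 13, 21, 7, 10, 5], [17, 13, 17, 11, 15, 9, 9, 22, 16]]),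
  ((3, 7, 7), 973116235096237059301006386628415538, 983264782865167032412915981794987456, [[3, 3, 3, 3, 3, 3, 1, 3, 3, 3, 3, 3, 0, 3, 3, 0, 3], [1, 5, 1, 4, 0], [3, 3, 5, 3, 1, 5, 5, 7, 3, 6, 0, 3, 7], [7, 5, 9, 7, 9, 3, 5, 3, 5, 3, 3], [7, 5, 7, 11, 7, 9, 5, 7, 9, 3, 3, 6, 8, 10, 3, 4, 4], [7, 9, 9, 7, 7, 13, 8, 6, 9, 13], [7, 7, 15, 7]]),
  ((3, 7, 11), 955673640074348040417563042543425890, 967289945167773839931476357004570262, [[3, 0, 0], [3, 5, 5, 1, 5, 5, 2], [5, 5, 7, 1, 5, 3, 0, 2, 6], [7, 8, 5, 8, 7, 8], [11, 7, 3, 0, 0, 5, 7], [11, 9, 13, 5, 11, 9, 1, 3, 9, 6, 6, 8, 2], [15, 13, 15, 13, 13, 15, 9, 9, 13, 5, 7, 1, 11, 3, 5, 7, 7, 0, 5, 10], [15, 15, 13, 15, 17, 13, 11, 17, 9, 5, 5, 15, 5, 14], [15, 13, 19, 13, 9, 13, 16, 11, 18, 11, 11], [15, 9, 15, 8, 15]]),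
  ((3, 7, 23), 984047061037660829984874553618738208, 982781635146841352808968329022946731, [[3, 1, 1, 3, 1, 2, 2, 1], [5, 1, 1, 3, 1, 3, 1, 1, 3, 3, 5], [5, 1, 5, 5, 5, 7, 4, 0, 0], [1, 1, 9, 5, 1, 7, 5, 6, 6], [9, 11, 9, 9, 1, 7, 9, 7, 5, 11, 5, 3, 1, 3, 7, 2, 8, 3, 0], [9, 11, 9, 7, 1, 7, 5, 1, 3, 9, 5, 2, 2], [11, 13, 9, 7, 9, 5, 14, 5, 12, 14], [11, 13, 1, 1, 9, 13, 9, 6, 15, 16, 11]]),
  ((3, 11, 11), 984453856882812177598148709342023009, 966628446981774955535344498539313492, [[3, 1, 1, 2, 2, 1], [3, 3, 5, 3, 3, 5], [5, 5, 7, 5, 3, 7, 3, 5, 7, 4, 0, 0], [7, 9, 9, 9, 9, 5, 7, 5, 6, 6], [9, 7, 11, 5, 5, 5, 11, 3, 8, 3, 0], [13, 11, 11, 7, 7, 13, 9, 3, 5, 2, 2], [15, 11, 13, 15, 9, 5, 14, 5, 12, 14], [13, 11, 7, 15, 7, 15, 8, 15, 16, 16], [15, 15, 13, 11, 13, 7, 5, 7, 10, 5, 19], [15, 11, 13, 19, 9,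 7, 15, 9, 9, 16]]),
  ((3, 11, 23), 963765095314538234701779706065783109, 965202160999050319676688596420662881, [[3, 1, 3, 1, 1, 2, 2, 1], [5, 5, 5, 1, 3, 3, 3, 3, 5], [7, 5, 7, 5, 5, 5, 3, 1, 7, 3, 5, 7, 4, 0, 0], [5, 9, 7, 5, 7, 5, 6, 6], [5, 9, 5, 1, 2, 8, 3, 0], [7, 7, 13, 5, 5, 11, 1, 7, 11, 5, 2, 2], [7, 11, 7, 5, 15, 7, 11, 5, 14, 13, 11, 11], [9, 15, 7, 7, 7, 7, 15, 8, 15, 16, 16], [15, 15, 7, 19, 15, 16, 11], [13, 13, 11, 5, 1, 13, 7, 2, 10, 0, 6, 3, 1]]),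
  ((3, 23, 23), 984814389355365234258210219389720620, 967498161648517321633447412308921762, [[3, 1, 3, 1, 2, 2, 1], [5, 5, 5, 5, 1, 1, 5, 1, 3, 5], [5, 7, 7, 7, 5, 7, 1, 7, 5, 7, 4, 0, 0], [9, 9, 7, 5, 7, 9, 5, 7, 5, 6, 6], [7, 5, 7, 7, 1, 5, 8, 3, 0], [13, 11, 11, 13, 13, 9, 7, 13, 5, 5, 11, 5, 1, 9, 9, 5, 2, 2], [13, 11, 15, 11, 11, 9, 9, 5, 11, 11, 5, 14, 13, 11, 11], [13, 13, 11, 7, 7, 9, 5, 5, 14, 5, 12, 14], [13, 13, 11, 15, 7, 15, 8, 15, 16, 16]])]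
theorem c2 : allL T2 ok = true := by decide +kernel
def T3 : List ((ℕ × ℕ × ℕ) × ℕ × ℕ × List (List ℕ)) := [
  ((5, 5, 5), 978350444926119827086030457517056576, 961245942311369614047908567158214835, [[3, 3, 0, 3], [1, 3, 1, 1, 3, 1, 2, 4, 2], [5, 7, 4, 1, 1, 5, 7], [7, 7, 7, 7, 9, 1, 1, 3, 9, 3, 1, 5, 6, 5, 9, 3], [7, 7, 5, 7, 7, 7, 8, 4, 0, 8], [11, 11, 13, 11, 7, 7, 7, 7, 5, 13, 1, 11], [11, 11, 13, 11, 11, 13, 7, 9, 13, 15, 10, 7, 10], [11, 13, 11, 9, 7, 9, 10, 17, 6, 17, 9, 14], [11, 13, 17, 13, 5, 9, 18, 7, 9, 5]]),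
  ((5, 5, 7), 970093097116316774830770458703660616, 962698810468819568263273055043803172, [[3, 3, 3, 0, 3], [5, 5, 5, 1, 4, 0], [5, 5, 7, 7, 5, 3, 5, 3, 0, 0, 0, 0], [9, 9, 5, 7, 7, 1, 1, 7, 3, 6, 0, 8, 3], [7, 7, 7, 9, 3, 1, 7, 8, 3, 5, 3], [11, 7, 7, 13, 5, 12, 7, 4], [9, 7, 9, 5, 11, 7, 9, 1, 13, 3], [11, 17, 11, 7, 7, 15, 3, 15, 9, 3, 10], [13, 15, 7, 11, 13, 13, 16, 6, 9, 9, 18], [19, 19, 11, 13, 13, 7, 11, 5, 5, 7, 5, 16]]),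
  ((5, 5, 11), 961402191273074073957507262101826080, 976520894227143666280668099658713647, [[3, 1, 1, 3, 3, 0, 3], [1, 5, 1], [1, 1, 7, 7, 3, 5, 1, 2, 4, 2, 1, 4, 2], [7, 7, 1, 1, 7, 7, 1, 1, 5, 7], [11, 11, 9, 7, 9, 5, 1, 5, 6, 5, 9, 10], [9, 9, 7, 8, 7, 7], [15, 15, 9, 9, 7, 7, 1, 12, 0], [15, 15, 11, 11, 11, 7, 11, 13, 1, 7, 1, 3, 11, 15, 10, 7, 10, 2, 6], [11, 7, 11, 7, 1, 1, 9, 3, 17, 3, 9, 17, 9, 3]]),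
  ((5, 5, 23), 980087080518363459234496153344708100, 960954231839804753838253716207163456, [[1, 1, 1, 1, 3, 3, 1, 2, 2, 1], [3, 3, 3, 5], [3, 1, 1, 3, 1, 5, 7, 4, 0, 0], [9, 7, 9, 9, 9, 3, 3, 3, 1, 5, 5, 2, 8, 3, 0], [7, 11, 5, 5, 2, 2], [11, 7, 11, 7, 13, 3, 5, 13, 8, 5, 8, 10, 8, 2], [15, 11, 11, 15, 7, 7, 12, 14, 7], [11, 13, 15, 15, 16, 16, 11], [15, 11, 13, 14, 11, 18, 17, 14], [15, 13, 9, 7, 15, 9, 9, 16]]),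
  ((5, 7, 7), 968810397110342400390431830844151362, 984451956148960508608354936181332493, [[3, 3, 3, 3, 0, 3], [5, 5, 5, 5, 5, 5, 5, 1, 1, 1, 4, 1], [5, 7, 5, 7, 5, 5, 3, 7, 1, 1, 5, 7], [7, 9, 7, 9, 9, 5, 5, 1, 1, 3, 1, 5, 6, 5, 9, 3], [11, 7, 7, 7, 7, 5, 5, 5, 7, 9, 1, 7, 7, 8, 4, 0, 8], [7, 11, 7, 5, 5, 3, 11, 1, 11], [15, 11, 13, 11, 7, 7, 13, 15, 10, 7, 10], [13, 15, 13, 17, 14], [15, 7, 11, 5, 5, 9, 1, 3, 1, 15, 3, 9, 17, 9, 3], [13, 19, 12]]),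
  ((5, 7, 11), 961198668749420299031245755565816160, 968674159351192198737437731109583876, [[3, 3, 1, 1, 1, 3, 3], [5, 5, 5, 3, 3, 5, 3, 3, 4, 1, 4, 1], [1, 1, 5, 1, 3, 5, 1, 3, 0, 2], [7, 7, 9, 7], [11, 11, 9, 9, 5, 5, 11, 8, 5, 9, 5], [13, 11, 11, 13, 13, 9, 11, 3, 7, 13, 7, 2, 12], [13, 11, 13, 13, 7, 9, 9, 14, 7, 15, 8, 15], [13, 11, 11, 13, 13, 7, 9, 9, 9, 9, 16], [13, 11, 15, 17, 9, 19, 13, 9, 6, 15]]),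
  ((5, 7, 23), 982216732144394878987467185280202185, 957071851834096874522226033161786787, [[1, 1, 2, 2, 1], [1, 1, 3, 5], [7, 5, 7, 7, 3, 7, 5, 7, 4, 0, 0], [9, 5, 7, 9, 5, 7, 5, 6, 6], [9, 9, 9, 7, 9, 11, 1, 1, 2, 8, 3, 0], [11, 13, 11, 5, 5, 11, 7, 7, 7, 1, 1, 1, 5, 2, 2], [15, 11, 15, 5, 13, 11, 5, 14, 13, 11, 11], [15, 11, 15, 5, 11, 11, 14, 5, 12, 14], [13, 17, 14, 14, 11, 18], [15, 11, 19, 5, 11, 11, 7, 7, 7, 21, 7, 10, 5]]),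
  ((5, 11, 11), 980142819527491148189644633030704352, 973566639817027154598086196487307426, [[3, 0, 3], [1, 1, 5, 1, 4, 1], [5, 5, 7, 1, 1, 5, 7], [9, 7, 5, 5, 1, 3, 9, 3, 1, 5, 6, 5, 9, 3], [11, 11, 11, 7, 11, 11, 1, 11, 5, 7, 7, 8, 4, 0, 8], [13, 11, 11, 13, 13, 11, 7, 7, 9, 9, 1, 5, 5, 1, 11], [11, 11, 11, 7, 7, 9, 9, 15, 10, 7, 10], [13, 11, 13, 11, 17, 7, 7, 13, 15, 5, 3, 1, 3, 15, 3, 9, 17, 9, 3], [11, 13, 7, 3, 14, 2, 19, 12]]),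
  ((5, 11, 23), 958529376477459246288592242868337318, 980511387719090839670911634853024141, [[1, 3, 3, 3, 1, 2, 2, 1], [1, 5, 1, 3, 5], [5, 1, 5, 5, 7, 4, 0, 0], [9, 9, 9, 7, 5, 6, 6], [9, 9, 9, 11, 11, 11, 5, 3, 1, 1, 2, 8, 3, 0], [11, 11, 11, 9, 13, 9, 5, 5, 9, 1, 11, 5, 5, 2, 2], [11, 15, 9, 9, 15, 7, 13, 11, 5, 14, 13, 11, 11], [11, 17, 9, 5, 9, 5, 14, 5, 12, 14], [17, 11, 19, 9, 9, 11, 5, 7, 5, 7, 10, 5, 19], [17, 13, 13, 16, 16, 20, 13]]),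
  ((5, 23, 23), 965297519808455298915117571088396832, 963519280510898482112708293737586062, [[3, 3, 1, 3, 1, 3, 3, 3], [1, 5, 1, 5, 3, 0, 0, 2], [1, 1, 7, 5, 7, 5], [7, 7, 9, 5, 9, 1, 3, 7, 8, 8, 2, 7], [7, 9, 5, 5, 11, 11, 8, 5, 9, 5], [11, 13, 11, 11, 13, 7, 13, 7, 1, 1, 1, 3, 7, 7, 13, 7, 2, 12], [15, 11, 9, 7, 15, 8, 15], [15, 11, 15, 16, 11, 14, 14, 11, 17], [11, 13, 13, 9, 15, 15, 9, 9, 16], [15, 11, 13, 15, 16, 16, 20, 13]])]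
theorem c3 : allL T3 ok = true := by decide +kernel
def T4 : List ((ℕ × ℕ × ℕ) × ℕ × ℕ × List (List ℕ)) := [
  ((7, 7, 7), 984655689448854931371441710551187658, 957187926861933385274164401270004994, [[1, 1, 1, 3, 3, 1, 1, 2, 2, 1], [1, 3, 3, 5, 3, 5], [5, 7, 7, 1, 3, 5, 5, 7, 4, 0, 0], [7, 7, 9, 7, 5, 7, 9, 7, 9, 7, 5, 6, 6], [7, 11, 9, 5, 9, 5, 5, 1, 7, 5, 2, 8, 3, 0], [11, 13, 13, 7, 7, 9, 5, 7, 13, 1, 1, 5, 2, 2], [7, 7, 9, 5, 7, 15, 11, 5, 14, 13, 11, 11], [11, 11, 13, 7, 7, 9, 5, 14, 5, 12, 14], [17, 17, 11, 13, 19, 9, 9, 7, 15, 8, 15, 16, 16], [17, 11, 13, 21, 21, 14, 14, 11]]),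
  ((7, 7, 11), 984231382388899124999307250988785706, 975154925073071505711734144316588722, [[3, 0, 3], [1, 1, 4, 1], [5, 7, 7, 1, 7, 1, 1, 5, 7], [9, 9, 9, 1, 1, 1, 9, 1, 5, 6, 5, 9, 3], [5, 1, 5, 7, 7, 7, 8, 4, 0, 8], [13, 5, 5, 9, 1, 3, 1, 11], [11, 9, 9, 13, 9, 5, 15, 10, 7, 10], [17, 17, 11, 15, 17, 17, 14], [17, 11, 19, 13, 9, 15, 5, 13, 10, 17, 6, 19, 17, 18], [11, 17, 9, 13, 15, 5, 5, 18, 7, 9, 5], [11, 9, 13, 5, 5, 13, 1, 21, 5, 1, 19]]),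
  ((7, 7, 23), 973885932647395390888418976955205654, 971089035220784577910094873584025952, [[1, 1, 3, 3, 3, 0, 3], [5, 5, 1, 4, 1], [3, 7, 3, 1, 1, 2, 4, 2, 1, 4, 2], [5, 1, 3, 1, 3, 1, 1, 5, 7], [11, 11, 3, 5, 1, 1, 9, 3, 1, 5, 6, 5, 9, 10], [8, 7, 7], [11, 15, 15, 1, 7, 2, 12, 0], [13, 13, 7, 15, 15, 5, 15, 10, 7, 10, 2, 6], [13, 11, 19, 7, 13, 13, 3, 7, 7, 4, 17, 14, 2], [13, 19, 12]]),
  ((7, 11, 11), 971540912604709226515292543444919808, 982833093906781912933975968850191918, [[3, 3, 1, 3, 3, 1, 2, 2, 1], [1, 5, 5, 3, 1, 3, 5, 3, 3, 5], [1, 1, 5, 7, 4, 0, 0], [7, 9, 1, 5, 5, 7, 5, 6, 6], [7, 9, 9, 1, 5, 7, 3, 9, 1, 2, 8, 3, 0], [7, 7, 3, 7, 5, 2, 2], [13, 7, 13, 7, 5, 7, 11, 5, 14, 13, 11, 11], [17, 13, 11, 7, 9, 1, 13, 17, 14, 5, 12, 14], [17, 17, 13, 19, 7, 15, 7, 15, 8, 15, 16, 16], [13, 15, 21,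 14, 14, 11]]),
  ((7, 11, 23), 984348614181482942941360034294202851, 958358283925236528749211852904766948, [[1, 2, 2, 1], [5, 5, 5, 5, 5, 5, 1, 5, 5, 5, 3, 5], [5, 7, 7, 1, 5, 5, 5, 7, 4, 0, 0], [9, 9, 5, 7, 5, 9, 7, 5, 6, 6], [5, 7, 5, 3, 7, 2, 8, 3, 0], [7, 11, 7, 5, 11, 3, 13, 5, 2, 2], [7, 11, 13, 5, 15, 9, 11, 5, 14, 13, 11, 11], [13, 11, 7, 17, 7, 5, 7, 11, 14, 5, 12, 14], [13, 13, 15, 19, 7, 13, 9, 7, 15, 8, 15, 16, 16], [11, 7, 15, 9, 16]]),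
  ((7, 23, 23), 974988898804204787037289271746120903, 974459035701209772241799834150360490, [[1, 1, 3, 1, 1, 2, 2, 1], [5, 5, 5, 3, 5, 3, 5], [5, 5, 5, 7, 7, 1, 1, 5, 5, 7, 4, 0, 0], [7, 7, 9, 5, 7, 9, 7, 5, 6, 6], [11, 11, 7, 5, 5, 1, 5, 1, 2, 8, 3, 0], [5, 9, 9, 7, 3, 11, 5, 2, 2], [11, 15, 9, 7, 5, 15, 9, 11, 5, 14, 13, 11, 11], [11, 13, 7, 15, 9, 5, 7, 14, 5, 12, 14], [17, 17, 15, 11, 9, 7, 7, 15, 8, 15, 16, 16], [15, 11, 21, 14, 14, 11]]),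
  ((11, 11, 11), 958400520987066717918998770005164233, 973069144824175129526207544659361930, [[3, 1, 1, 2, 2, 1], [1, 3, 5, 5, 3, 5], [7, 7, 7, 7, 3, 7, 1, 5, 7, 4, 0, 0], [5, 9, 5, 7, 7, 7, 5, 9, 7, 5, 6, 6], [5, 5, 9, 7, 9, 5, 7, 1, 8, 3, 0], [11, 13, 13, 13, 13, 9, 11, 13, 7, 13, 5, 1, 9, 5, 2, 2], [11, 11, 13, 13, 5, 5, 15, 11, 5, 14, 13, 11, 11], [11, 13, 15, 9, 9, 7, 15, 7, 15, 8, 15, 16, 16], [11, 11, 15, 16, 11]]),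
  ((11, 11, 23), 972387691014045120490978129640688245, 967918859563461684326491732212976646, [[3, 1, 1, 3, 1, 2, 2, 1], [1, 1, 1, 5, 3, 3, 5], [5, 3, 1, 7, 5, 7, 4, 0, 0], [7, 7, 9, 7, 5, 6, 6], [9, 11, 9, 9, 9, 5, 9, 11, 1, 5, 11, 2, 8, 3, 0], [11, 13, 5, 9, 11, 1, 11, 5, 2, 2], [15, 13, 15, 13, 15, 11, 9, 13, 13, 5, 11, 11, 5, 14, 13, 11, 11], [13, 13, 15, 13, 15, 11, 9, 13, 5, 5, 12, 14], [13, 15, 5, 7, 19, 7, 15, 8, 15, 16, 16], [15, 15, 21, 9, 19, 8, 15]]),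
  ((11, 23, 23), 976206565597387974050220686376719811, 982784396966668210647287788301784337, [[3, 0, 3], [5, 5, 5, 5, 5, 3, 4, 1], [5, 7, 5, 1, 7, 5, 1, 1, 5, 7], [7, 7, 9, 7, 7, 7, 9, 5, 5, 7, 9, 1, 5, 6, 5, 9, 3], [9, 7, 9, 5, 5, 1, 7, 5, 7, 7, 8, 4, 0, 8], [11, 13, 13, 13, 9, 7, 9, 5, 9, 9, 3, 11, 1, 11], [15, 11, 15, 15, 7, 7, 9, 15, 10, 7, 10], [15, 17, 14], [11, 19, 7, 7, 7, 5, 7, 1, 11, 5, 15, 3, 9, 17, 9, 3], [11, 11, 7, 17, 6, 19, 17, 18]]),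
  ((23, 23, 23), 977990087655950391401303244733300424, 961023089854486692846164303682096724, [[1, 3, 0, 3], [5, 5, 5, 5, 5, 1, 3, 4, 1], [5, 5, 7, 3, 7, 2, 4, 2, 1, 4, 2], [7, 9, 9, 7, 5, 5, 1, 3, 1, 1, 1, 5, 7], [7, 7, 9, 5, 1, 1, 9, 1, 5, 6, 5, 9, 10], [11, 13, 11, 7, 12, 8], [13, 15, 7, 15, 11, 15, 10, 7, 10], [13, 11, 7, 11, 13, 5, 13, 1, 1, 15, 3, 9, 17, 9, 3], [17, 11, 17, 7, 9, 7, 10, 17, 6, 19, 17, 18], [11, 19, 12]])]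
theorem c4 : allL T4 ok = true := by decide +kernel

theorem fix_eq (x : M23) : (fixedBy GolayPt x).ncard = (fixS ⟨x, x.2.1⟩).card := by
  rw [← Set.ncard_coe_finset]; congr 1; ext a; exact (mem_fixS (g := ⟨x, x.2.1⟩)).symm

theorem orb_ge {x : M23} {p : ℕ} (hp : p.Prime) (hx : orderOf x = p) : 0 < orb GolayPt x ∧ (p = 2 → orb GolayPt x = 16) ∧
    (p = 3 → orb GolayPt x = 12) ∧ (p = 5 → 8 ≤ orb GolayPt x) ∧ (p = 7 → 6 ≤ orb GolayPt x) := by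
  have h := orb_prime (Ω := GolayPt) hp hx
  rw [Nat.card_eq_fintype_card, card_pt, fix_eq] at h
  have h1 : orderOf (⟨x, x.2.1⟩ : MG) = p := (orderOf_mk _).trans ((Subgroup.orderOf_coe x).trans hx)
  have h2 : fixS ⟨x, x.2.1⟩ ≠ ∅ := Finset.ne_empty_of_mem (mem_fixS.2 x.2.2)
  refine ⟨orb_pos none x, ?_, ?_, ?_, ?_⟩ <;> rintro rfl
  · obtain ⟨k, e⟩ := conj_zA h1 h2
    rw [← e, fixS_conj, Finset.card_smul_finset, fixS_zA, oct0_mem.2] at h; omega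
  · obtain ⟨k, e⟩ := conj_x3A h1 h2
    rw [← e, fixS_conj, Finset.card_smul_finset, card_fixS_x3A] at h; omega
  · omega
  · omega

/-- Generation of the Mathieu group M₂₃ (the stabiliser of a point in the Mathieu group M₂₄ acting on 24 points) by triples of prime orders. Let p ≤ q ≤ r be primes dividing |M₂₃| = 10200960 = 2⁷·3²·5·7·11·23, not both p and q equal to 2. Then M₂₃ contains elements x, y, z of orders p, q, r with xyz = 1 and ⟨x, y⟩ = M₂₃ if and only if (p, q, r) is none of: (2, 3, r) for any r, (2, 5, 5), (2, 5, 7), (3, 3, 3), (3, 3, 5), (3, 3, 7). -/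
theorem result (p q r : ℕ) (hp : p.Prime) (hq : q.Prime)
    (hr : r.Prime) (hpq : p ≤ q) (hqr : q ≤ r) (hp2 : ¬ (p = 2 ∧ q = 2))
    (hdvd : p ∣ 10200960 ∧ q ∣ 10200960 ∧ r ∣ 10200960) :
    (∃ x y z : Cfsg.Spor.M23, orderOf x = p ∧ orderOf y = q ∧ orderOf z = r ∧ x * y * z = 1 ∧
        Subgroup.closure {x, y} = ⊤) ↔
      ¬ ((p = 2 ∧ q = 3) ∨ (p = 2 ∧ q = 5 ∧ r = 5) ∨ (p = 2 ∧ q = 5 ∧ r = 7) ∨ (p = 3 ∧ q = 3 ∧ r ≤ 7)) := by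
  constructor
  · rintro ⟨x, y, z, hx, hy, hz, e, h⟩
    have h1 := ree (Ω := GolayPt) x y {none, some 0} fun a => by
      cases a with
      | none => exact ⟨none, by simp, 1, Subgroup.one_mem _, one_smul _ _⟩
      | some a =>
        obtain ⟨g, hg, e⟩ := (trans23.mono (j := 1) (by norm_num) (by rw [ncard_P23]; norm_num)).one
          (a := some 0) (b := some a) (by simp) (by simp)
        exact ⟨some 0, by simp, ⟨g, hg⟩, h ▸ trivial, e⟩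
    rw [Nat.card_eq_fintype_card, card_pt, show ({none, some 0} : Finset GolayPt).card = 2 from rfl] at h1
    have h2 := orb_ge hp hx
    have h3 := orb_ge hq hy
    have h4 := orb_ge (x := x * y) hr (by rw [eq_inv_of_mul_eq_one_left e, orderOf_inv, hz])
    have h5 : r ≠ 4 := by rintro rfl; norm_num at hr
    have h6 : r ≠ 6 := by rintro rfl; norm_num at hr
    rintro (⟨rfl, rfl⟩ | ⟨rfl, rfl, rfl⟩ | ⟨rfl, rfl, rfl⟩ | ⟨rfl, rfl, h7⟩)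
    · omega
    · omega
    · omega
    · interval_cases r <;> omega
  · intro h
    have h1 : ∀ s : ℕ, s.Prime → s ∣ 10200960 → s ∈ [2, 3, 5, 7, 11, 23] := fun s hs hd => by
      have := (Nat.mem_primeFactorsList (n := 10200960) (by norm_num)).2 ⟨hs, hd⟩
      simp only [Nat.primeFactorsList_ofNat] at this
      simp_all
    have h2 : ∀ p ∈ [2, 3, 5, 7, 11, 23], ∀ q ∈ [2, 3, 5, 7, 11, 23], ∀ r ∈ [2, 3, 5, 7, 11, 23], p ≤ q → q ≤ r →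
        ¬ (p = 2 ∧ q = 2) → ¬ ((p = 2 ∧ q = 3) ∨ (p = 2 ∧ q = 5 ∧ r = 5) ∨ (p = 2 ∧ q = 5 ∧ r = 7) ∨
          (p = 3 ∧ q = 3 ∧ r ≤ 7)) → ∃ t ∈ T1 ++ T2 ++ T3 ++ T4, t.1 = (p, q, r) := by decide +kernel
    obtain ⟨⟨_, a, b, ws⟩, ht, rfl⟩ := h2 p (h1 p hp hdvd.1) q (h1 q hq hdvd.2.1) r (h1 r hr hdvd.2.2) hpq hqr hp2 h
    refine pos (a := a) (b := b) (ws := ws) hp hq hr ?_
    simp only [List.mem_append] at ht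
    rcases ht with ((h | h) | h) | h
    exacts [allL_iff.1 c1 _ h, allL_iff.1 c2 _ h, allL_iff.1 c3 _ h, allL_iff.1 c4 _ h]

end Cfsg.Agent.S5529
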