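import Cfsg.Statements.S5562
-- import your own Cfsg.Agent.* helpers here

set_option autoImplicit false
open Cfsg

namespace Cfsg.Agent.S5562

theorem inv_pow_conj {G : Type*} [Group G] {x r : G} (h : x * r = r⁻¹ * x) (n : ℕ) :
    x * r ^ n = (r ^ n)⁻¹ * x := by
  induction n with
  | zero => simp
  | succ n ih => rw [pow_succ, ← mul_assoc, ih, mul_assoc, h, ← mul_assoc, ← mul_inv_rev, ← pow_succ', pow_succ]

theorem eq_of_sq {G : Type*} [Group G] {u v : G} (hu : Odd (orderOf u)) (hv : Odd (orderOf v))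
    (h : u ^ 2 = v ^ 2) : u = v := by
  obtain ⟨k, hk⟩ := hu.mul hv
  have e1 : u ^ (2 * k + 1) = 1 := by rw [← hk, pow_mul, pow_orderOf_eq_one, one_pow]
  have e2 : v ^ (2 * k + 1) = 1 := by rw [← hk, mul_comm, pow_mul, pow_orderOf_eq_one, one_pow]
  calc u = (u ^ 2) ^ (k + 1) := by
        rw [← pow_mul, show 2 * (k + 1) = (2 * k + 1) + 1 by ring, pow_succ, e1, one_mul]
    _ = v := by
        rw [h, ← pow_mul, show 2 * (k + 1) = (2 * k + 1) + 1 by ring, pow_succ, e2, one_mul]

/-- Let G be a finite group, d an involution of G whose conjugates pairwise have products of odd order, and x any involution of G. Then the conjugacy class of d is the disjoint union, over the conjugates a of d commuting with x, of the sets of conjugates of d commuting with ax: every conjugate of d commutes with ax for exactly one conjugate a of d that commutes with x. -/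
theorem result {G : Type*} [Group G] [Finite G] (d : G) (hd : orderOf d = 2)
    (hodd : ∀ a ∈ conjugatesOf d, ∀ b ∈ conjugatesOf d, Odd (orderOf (a * b)))
    (x : G) (hx : orderOf x = 2) :
    ∀ e ∈ conjugatesOf d,
      ∃! a : G, a ∈ conjugatesOf d ∧ Commute a x ∧ Commute e (a * x) := by
  intro e he
  have hdd : d * d = 1 := by rw [← pow_two, ← hd, pow_orderOf_eq_one]
  have hxx : x * x = 1 := by rw [← pow_two, ← hx, pow_orderOf_eq_one]
  have hsq : ∀ a ∈ conjugatesOf d, a * a = 1 := by
    intro a ha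
    obtain ⟨g, rfl⟩ := isConj_iff.1 ha
    calc g * d * g⁻¹ * (g * d * g⁻¹) = g * (d * d) * g⁻¹ := by group
      _ = 1 := by rw [hdd]; group
  have hee := hsq e he
  have hxi : x⁻¹ = x := inv_eq_of_mul_eq_one_right hxx
  have hei : e⁻¹ = e := inv_eq_of_mul_eq_one_right hee
  have key : ∀ a, a ∈ conjugatesOf d → Commute a x → Commute e (a * x) →
      (e * a) ^ 2 = (e * x) ^ 2 := by
    intro a ha h1 h2
    have ha' : a = (a * x) * x := by rw [mul_assoc, hxx, mul_one]
    have hz : (a * x) ^ 2 = 1 := by rw [h1.mul_pow, pow_two, pow_two, hsq a ha, hxx, one_mul]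
    have h3 : Commute x (a * x) := h1.symm.mul_right (Commute.refl x)
    have : e * a = (e * x) * (a * x) := by
      rw [mul_assoc, h3.eq, mul_assoc a, hxx, mul_one]
    rw [this, (h2.mul_left h3).mul_pow, hz, mul_one]
  refine existsUnique_of_exists_of_unique ?_ ?_
  · set r := e * x with hr
    have hxr : x * r = r⁻¹ * x := by rw [hr, mul_inv_rev, hxi, hei, mul_assoc]
    have hm : x * e * x⁻¹ ∈ conjugatesOf d := IsConj.trans he (isConj_iff.2 ⟨x, rfl⟩)
    obtain ⟨k, hk⟩ := hodd e he _ hm
    have h2 : (r ^ (2 * k + 1)) * (r ^ (2 * k + 1)) = 1 := by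
      rw [← pow_two, ← pow_mul, mul_comm, pow_mul, ← hk]
      have : r ^ 2 = e * (x * e * x⁻¹) := by rw [hr, hxi, pow_two]; group
      rw [this, pow_orderOf_eq_one]
    have hzi : (r ^ (2 * k + 1))⁻¹ = r ^ (2 * k + 1) := inv_eq_of_mul_eq_one_right h2
    have hxz : Commute x (r ^ (2 * k + 1)) := by
      have := inv_pow_conj hxr (2 * k + 1)
      rwa [hzi] at this
    have hex : e = r * x := by rw [hr, mul_assoc, hxx, mul_one]
    refine ⟨x * r ^ (2 * k + 1), ?_, ((Commute.refl x).mul_left hxz.symm), ?_⟩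
    · refine IsConj.trans he (isConj_iff.2 ⟨(r ^ (k + 1))⁻¹, ?_⟩)
      have h1 := inv_pow_conj hxr (k + 1)
      have h0 : r * x = x * r⁻¹ := by
        rw [eq_mul_inv_iff_mul_eq, mul_assoc, hxr, ← mul_assoc, mul_inv_cancel, one_mul]
      rw [inv_inv, hex, h0, ← mul_assoc, ← h1]
      group
    · have : x * r ^ (2 * k + 1) * x = r ^ (2 * k + 1) := by
        rw [hxz.eq, mul_assoc, hxx, mul_one]
      rw [this, hex]
      exact ((Commute.refl r).pow_right _).mul_left hxz
  · rintro a b ⟨ha, h1, h2⟩ ⟨hb, h3, h4⟩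
    exact mul_left_cancel (eq_of_sq (hodd e he a ha) (hodd e he b hb)
      ((key a ha h1 h2).trans (key b hb h3 h4).symm))

end Cfsg.Agent.S5562
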