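import Cfsg.Statements.S5596
import Cfsg.Agent.LES.Core

set_option autoImplicit false
open Cfsg

namespace Cfsg.Agent.S5596

open Subgroup Cfsg.Agent.BG Cfsg.Agent.Invol Cfsg.Agent.LES Cfsg.Agent.Sig

/-- Setting: `z` is an involution of the finite group `G`; for each element `x`, `Q x` is the largest normal 2-subgroup of the centralizer of `x`; `Q z` is extraspecial and contains its own centralizer in `G`. A subgroup `U` is singular when it is elementary abelian, every non-identity element of `U` is conjugate to `z`, and any two non-identity elements `u`, `v` of `U` are orthogonal (`v ∈ Q u`). Write `QU` for the intersection of the `Q u` and `LU` for the join of the `Q u` over the non-identity `u` in `U`. If `U` is singular of order `2 ^ n` with `n ≥ 2`, then `U ≤ QU ≤ LU`, `LU` normalizes `U`, and `LU` induces on `U` its full automorphism group (the general linear group of dimension `n` over the field with two elements):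 every automorphism of `U` is conjugation by some element of `LU`. -/
theorem result {G : Type*} [Group G] [Finite G]
    (Q : G → Subgroup G)
    (hQ : ∀ x : G, Q x = (Cfsg.pCore 2 ↥(Subgroup.centralizer ({x} : Set G))).map (Subgroup.centralizer ({x} : Set G)).subtype)
    (z : G) (hz : orderOf z = 2) (hE : Cfsg.IsExtraspecial 2 ↥(Q z))
    (hC : Subgroup.centralizer ((Q z : Subgroup G) : Set G) ≤ Q z)
    (U : Subgroup G) (hU2 : ∀ u ∈ U, u * u = 1)
    (hS : ∀ u ∈ U, u ≠ 1 → ∃ g : G, g * z * g⁻¹ = u)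
    (hO : ∀ u ∈ U, ∀ v ∈ U, u ≠ 1 → v ≠ 1 → v ∈ Q u)
    (QU LU : Subgroup G) (hQU : QU = ⨅ u ∈ ((U : Set G) \ {1}), Q u) (hLU : LU = ⨆ u ∈ ((U : Set G) \ {1}), Q u)
    (n : ℕ) (hn : 2 ≤ n) (hcard : Nat.card ↥U = 2 ^ n) :
    U ≤ QU ∧ QU ≤ LU ∧ LU ≤ Subgroup.normalizer (U : Set G) ∧
      ∀ φ : ↥U ≃* ↥U, ∃ g ∈ LU, ∀ u : ↥U, g * (u : G) * g⁻¹ = ((φ u : ↥U) : G) := by
  obtain rfl : Q = fun x => pcIn 2 C1[x] := funext hQ
  have h := sing_of (LE.of_core hz hE hC) hS hO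
  have hL : ∀ u ∈ U, u ≠ 1 → pcIn 2 C1[u] ≤ LU := fun u hu u1 =>
    hLU ▸ le_iSup₂ (f := fun u (_ : u ∈ (U : Set G) \ {1}) => pcIn 2 C1[u]) u ⟨hu, u1⟩
  have hN : LU ≤ N[U] := fun g hg => (h.L_le (hLU ▸ hg)).1
  obtain ⟨u, hu, u1⟩ : ∃ u ∈ U, u ≠ 1 := by
    by_contra hn
    push Not at hn
    rw [(eq_bot_iff_forall _).2 hn, card_bot] at hcard
    exact absurd hcard.symm (Nat.one_lt_two_pow (by omega)).ne'
  refine ⟨hQU ▸ le_iInf₂ fun u hu => h.sub u hu.1 hu.2, le_trans (hQU ▸ iInf₂_le u ⟨hu, u1⟩) (hL u hu u1), hN,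
    fun φ => ?_⟩
  obtain ⟨W, ⟨g, hg, hW⟩, hm⟩ := (Set.toFinite {W : Subgroup U | ∃ g ∈ LU, ∀ w ∈ W, g * w.1 * g⁻¹ = φ w}).exists_maximal
    ⟨⊥, 1, one_mem _, fun w hw => by rw [mem_bot.1 hw]; simp⟩
  refine ⟨g, hg, fun x => ?_⟩
  by_contra hx
  have xW : x ∉ W := fun m => hx (hW x m)
  have aU : g * x * g⁻¹ ∈ U := (mem_normalizer_iff.1 (hN hg) _).1 x.2
  set a := g * x * g⁻¹ with ha
  have m : a * φ x ∈ U := mul_mem aU (φ x).2
  have m1 : a * φ x ≠ 1 := fun e => hx (by rw [← inv_eq_of_mul_self (hU2 a aU), inv_eq_of_mul_eq_one_right e])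
  have k := h.le _ m m1
  have lU := h.sub _ m m1
  have ab : IsMulCommutative U := ⟨⟨fun a b => Subtype.ext
    (commute_of_mul_sq (hU2 _ a.2) (hU2 _ b.2) (hU2 _ (mul_mem a.2 b.2))).eq⟩⟩
  let A := ((W.map φ.toMonoidHom).map U.subtype) ⊔ zpowers (a * φ x)
  have AU : A ≤ U := sup_le (map_subtype_le _) (zpowers_le.2 m)
  have aA : a ∉ A := fun hA => by
    obtain ⟨_, ⟨_, ⟨w, hw, rfl⟩, rfl⟩, c, hc, e⟩ := (mem_sup_normr (le_trans (map_subtype_le _)
      (sub_abelian_norm ab (zpowers_le.2 m)))).1 hA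
    rcases (mem_zp k.z2).1 hc with rfl | rfl
    · refine xW ?_
      have : g * x * g⁻¹ = g * w * g⁻¹ := by rw [hW w hw, ← ha, e]; simp
      rwa [show x = w from Subtype.ext (by simpa using this)]
    · have e' : (φ w).1 * φ x = 1 := by
        have e1 : a * 1 = a * ((φ w).1 * φ x) := by
          rw [mul_one, ← mul_assoc, IsMulCommutative.comm ab aU (φ w).2, mul_assoc]; exact e
        exact (mul_left_cancel e1).symm
      have : φ (w * x) = 1 := Subtype.ext (by simpa using e')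
      rw [EmbeddingLike.map_eq_one_iff] at this
      exact xW (by rw [eq_inv_of_mul_eq_one_right this]; exact inv_mem hw)
  obtain ⟨y, hy, e⟩ : ∃ y ∈ pcIn 2 C1[a * φ x] ⊓ C[A], y * a * y⁻¹ = a * (a * φ x) := by
    by_contra hn
    push Not at hn
    exact aA (k.dperp (AU.trans lU) (mem_sup_right (mem_zpowers _)) ▸
      ⟨lU aU, fun y hy => cj_eq_iff_comm.1 ((k.comm y hy.1 a (lU aU)).resolve_right (hn y hy))⟩)
  rw [mul_self_cancel (hU2 a aU)] at e
  let S : Subgroup U := MonoidHom.eqLocus ((MulAut.conj (y * g)).toMonoidHom.comp U.subtype)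
    (U.subtype.comp φ.toMonoidHom)
  have mS : ∀ w, w ∈ S ↔ y * (g * w.1 * g⁻¹) * y⁻¹ = φ w := fun w => by
    rw [show y * (g * w.1 * g⁻¹) * y⁻¹ = y * g * w * (y * g)⁻¹ by group]; rfl
  have WS : W ≤ S := fun w hw => (mS w).2 (by
    rw [hW w hw]; exact cj_eq_iff_comm.2 (hy.2 _ (mem_sup_left ⟨_, ⟨w, hw, rfl⟩, rfl⟩)).symm)
  exact xW (hm ⟨y * g, mul_mem (hL _ m m1 hy.1) hg, fun w hw => hw⟩ WS ((mS x).2 e))

end Cfsg.Agent.S5596
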