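import Cfsg.Statements.S5597
import Cfsg.Agent.LES.Core

set_option autoImplicit false
open Cfsg

namespace Cfsg.Agent.S5597

open Subgroup Cfsg.Agent.BG Cfsg.Agent.Invol Cfsg.Agent.LES Cfsg.Agent.Sig

/-- Setting: `z` is an involution of the finite group `G`; for each element `x`, `Q x` is the largest normal 2-subgroup of the centralizer of `x`; `Q z` is extraspecial and contains its own centralizer in `G`. A subgroup `U` is singular when it is elementary abelian, every non-identity element of `U` is conjugate to `z`, and any two non-identity elements `u`, `v` of `U` are orthogonal (`v ∈ Q u`). Write `QU` for the intersection of the `Q u` and `LU` for the join of the `Q u` over the non-identity `u` in `U`. If `U` is a non-trivial singular subgroup, then `LU` acts trivially on `QU / U` (every commutator of an element of `LU` with an element of `QU` lies in `U`), and for every `x` in `QU` outside `U` the centralizer of `U` in `LU` permutes the coset `x U` transitively: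 each `x u` with `u ∈ U` is a conjugate of `x` by an element of `LU` centralizing `U`. -/
theorem result {G : Type*} [Group G] [Finite G]
    (Q : G → Subgroup G)
    (hQ : ∀ x : G, Q x = (Cfsg.pCore 2 ↥(Subgroup.centralizer ({x} : Set G))).map (Subgroup.centralizer ({x} : Set G)).subtype)
    (z : G) (hz : orderOf z = 2) (hE : Cfsg.IsExtraspecial 2 ↥(Q z))
    (hC : Subgroup.centralizer ((Q z : Subgroup G) : Set G) ≤ Q z)
    (U : Subgroup G) (hU2 : ∀ u ∈ U, u * u = 1)
    (hS : ∀ u ∈ U, u ≠ 1 → ∃ g : G, g * z * g⁻¹ = u)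
    (hO : ∀ u ∈ U, ∀ v ∈ U, u ≠ 1 → v ≠ 1 → v ∈ Q u)
    (QU LU : Subgroup G) (hQU : QU = ⨅ u ∈ ((U : Set G) \ {1}), Q u) (hLU : LU = ⨆ u ∈ ((U : Set G) \ {1}), Q u)
    (hU : U ≠ ⊥) :
    (∀ g ∈ LU, ∀ x ∈ QU, g * x * g⁻¹ * x⁻¹ ∈ U) ∧
      ∀ x ∈ QU, x ∉ U → ∀ u ∈ U, ∃ g ∈ LU ⊓ Subgroup.centralizer (U : Set G), g * x * g⁻¹ = x * u := by
  obtain rfl : Q = fun x => pcIn 2 C1[x] := funext hQ
  have h := sing_of (LE.of_core hz hE hC) hS hO
  subst hQU hLU
  refine ⟨fun g hg x hx => (h.L_le hg).2 x hx, fun x hx hxU u hu => ?_⟩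
  by_cases u1 : u = 1
  · exact ⟨1, one_mem _, by simp [u1]⟩
  have k := h.le u hu u1
  have xQ : x ∈ pcIn 2 C1[u] := (iInf₂_le (f := fun u (_ : u ∈ (U : Set G) \ {1}) => pcIn 2 C1[u]) u ⟨hu, u1⟩) hx
  by_contra hn
  push Not at hn
  refine hxU (k.dperp (h.sub u hu u1) hu ▸ ⟨xQ, fun y hy => cj_eq_iff_comm.1 ((k.comm y hy.1 x xQ).resolve_right
    (hn y ⟨(le_iSup₂ (f := fun u (_ : u ∈ (U : Set G) \ {1}) => pcIn 2 C1[u]) u ⟨hu, u1⟩) hy.1, hy.2⟩))⟩)

end Cfsg.Agent.S5597
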