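import Cfsg.Statements.S5945
import Cfsg.Agent.Perm.IndexN

set_option autoImplicit false
open Cfsg

namespace Cfsg.Agent.S5945

open MulAction Perm Equiv Equiv.Perm
theorem stab_inj : Function.Injective (stabilizer (Perm (Fin 6)) : Fin 6 → _) := by
  intro x y e
  by_contra h
  obtain ⟨z, zx, zy, -⟩ := AutAlt.exists_ne_three (α := Fin 6) (by simp) x y y
  have h1 : swap y z ∈ stabilizer (Perm (Fin 6)) x := swap_apply_of_ne_of_ne h zx.symm
  rw [e, mem_stabilizer_iff, Perm.smul_def, swap_apply_left] at h1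
  exact zy h1

theorem stab_equiv (x : Fin 6) : Nonempty (stabilizer (Perm (Fin 6)) x ≃* Perm (Fin 5)) := by
  obtain ⟨e⟩ : Nonempty ({y // y ≠ x} ≃ Fin 5) := Fintype.card_eq.1 (by simp)
  have h : (ofSubtype : Perm {y // y ≠ x} →* Perm (Fin 6)).range = stabilizer (Perm (Fin 6)) x := by
    refine eq_stabilizer_of_le ?_ ?_
    · have h := (ofSubtype : Perm {y // y ≠ x} →* Perm (Fin 6)).range.card_mul_index
      rw [← Nat.card_congr (MonoidHom.ofInjective ofSubtype_injective).toEquiv, Nat.card_perm,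
        Nat.card_perm, Nat.card_congr e, Nat.card_fin, Nat.card_fin] at h
      simp only [Nat.factorial] at h
      rw [Fintype.card_fin]
      omega
    · rintro _ ⟨g, rfl⟩
      exact ofSubtype_apply_of_not_mem g (by simp)
  exact ⟨((MulEquiv.subgroupCongr h).symm.trans (MonoidHom.ofInjective ofSubtype_injective).symm).trans
    e.permCongrHom⟩

/-- The symmetric group S_6 has exactly 12 subgroups of index 6; each of them is isomorphic to S_5, and at least one of them is not the stabilizer of any point. -/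
theorem result : Nat.card {H : Subgroup (Equiv.Perm (Fin 6)) // H.index = 6} = 12 ∧ (∀ H : Subgroup (Equiv.Perm (Fin 6)), H.index = 6 → Nonempty (H ≃* Equiv.Perm (Fin 5))) ∧ ∃ H : Subgroup (Equiv.Perm (Fin 6)), H.index = 6 ∧ ∀ a : Fin 6, H ≠ MulAction.stabilizer (Equiv.Perm (Fin 6)) a := by
  obtain ⟨ψ, h1, h2⟩ := exists_outer_six (α := Fin 6) (by simp)
  have h3 : ∀ x : Fin 6, (stabilizer (Perm (Fin 6)) x).index = 6 := fun x => by
    rw [index_stabilizer_perm, Fintype.card_fin]
  have h4 : ∀ x : Fin 6, ((stabilizer (Perm (Fin 6)) x).comap ψ.toMonoidHom).index = 6 := fun x => by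
    rw [Subgroup.index_comap_of_surjective _ ψ.surjective, h3]
  refine ⟨?_, fun H hH => ?_, _, h4 0, h1 0⟩
  · let f : Fin 6 ⊕ Fin 6 → {H : Subgroup (Perm (Fin 6)) // H.index = 6} :=
      Sum.elim (fun x => ⟨_, h3 x⟩) (fun x => ⟨_, h4 x⟩)
    have hf : Function.Bijective f := by
      refine ⟨?_, fun H => ?_⟩
      · rintro (x | x) (y | y) e <;> have e' := congrArg Subtype.val e
        · exact congrArg _ (stab_inj e')
        · exact absurd e'.symm (h1 _ _)
        · exact absurd e' (h1 _ _)
        · exact congrArg _ (stab_inj (Subgroup.comap_injective ψ.surjective e'))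
      · obtain ⟨x, e | e⟩ := h2 H.1 H.2
        · exact ⟨Sum.inl x, Subtype.ext e.symm⟩
        · exact ⟨Sum.inr x, Subtype.ext e.symm⟩
    rw [← Nat.card_eq_of_bijective f hf]
    simp
  · obtain ⟨x, rfl | rfl⟩ := h2 H hH
    · exact stab_equiv x
    · obtain ⟨e⟩ := stab_equiv x
      rw [Subgroup.comap_equiv_eq_map_symm']
      exact ⟨(ψ.symm.subgroupMap _).symm.trans e⟩

end Cfsg.Agent.S5945
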