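import Cfsg.Statements.S5712
import Cfsg.Agent.Root.Sp2a
import Cfsg.Agent.S5945
import Cfsg.Agent.S0247
import Cfsg.Agent.Solv.Core

set_option autoImplicit false
open Cfsg

namespace Cfsg.Agent.S5712
open Cfsg.Agent.Geom Cfsg.Agent.AutCl Module Root Mx MulAction MinU MinS QuadraticMap

section
variable {F : Type*} [Field F] [Fintype F] {V : Type*} [AddCommGroup V] [Module F V] [FiniteDimensional F V]

theorem dick_eich {Q : QuadraticForm F V} (h : (Formed.ofQuad Q).Nondeg) (hn : 3 ≤ finrank F V) {g : OG Q}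
    (hg : g ∈ eichGroup Q) : dick g = 1 := by
  have h' : (Formed.ofQuad (Q.prod Q)).Nondeg := fun x hx =>
    Prod.ext (h _ fun y => by simpa using hx (y, 0)) (h _ fun y => by simpa using hx (0, y))
  have hx : NotExc (Q.prod Q) := notExc_of_finrank (by rw [finrank_prod]; omega)
  let φ : OG Q →* OG (Q.prod Q) :=
    { toFun := fun g => ⟨g.1.prodCongr 1, Formed.mem_isom_ofQuad.2 fun x => by simp [OG.map_Q]⟩
      map_one' := rfl
      map_mul' := fun _ _ => rfl }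
  have hφ : ∀ g x, (φ g).1 x = (g.1 x.1, x.2) := fun _ _ => rfl
  have e : dick (φ g) = dick g := by
    rw [dick, dick, (Submodule.equivMapOfInjective _ (LinearMap.inl_injective (M₂ := V)) (mov g.1)).finrank_eq,
      show mov (φ g).1 = (mov g.1).map (LinearMap.inl F V V) from le_antisymm ?_ ?_]
    · rintro _ ⟨y, rfl⟩; exact ⟨_, ⟨y.1, rfl⟩, by simp [hφ, Prod.ext_iff]⟩
    · rintro _ ⟨_, ⟨y, rfl⟩, rfl⟩; exact ⟨(y, 0), by simp [hφ]⟩
  rw [← e]
  refine ((mem_commutator_iff h' hx _).1 (eichGroup_le (N := (commutator _).comap φ) (fun p a => ?_) hg)).1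
  by_cases c : Q p = 0 ∧ polar Q p a = 0
  · have : φ (eich Q p a) = eich (Q.prod Q) (p, 0) (a, 0) := OG.ext fun x => by
      rw [eich_apply (by simp [c.1]) (by simp [c.2])]
      simp [hφ, Prod.ext_iff, eich_apply c.1 c.2]
    exact Subgroup.mem_comap.2 (this ▸ eich_mem_commutator h' hx _ _)
  · rw [eich_of_not c]; exact one_mem _

theorem over_eich {Q : QuadraticForm F V} (h : (Formed.ofQuad Q).Nondeg) (h2 : (2 : F) = 0) (hn : 3 ≤ finrank F V)
    {N : Subgroup (OG Q)} (hN : ∀ p a, eich Q p a ∈ N) : N = ⊤ ∨ ∀ g, g ∈ N ↔ dick g = 1 := by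
  obtain ⟨p, p0, hp⟩ := exists_sing_of_finite Q hn
  obtain ⟨w, hw⟩ := exists_isPair h p0 hp
  have q1 : Q (p + (1 : F) • w) ≠ 0 := by rw [hw.quad_add_smul]; exact one_ne_zero
  let s := refl Q (p + (1 : F) • w)
  have k : ∀ g, g ∈ eichGroup Q ∨ s * g ∈ eichGroup Q := fun g => by
    have : (Subgroup.zpowers (QuotientGroup.mk' (eichGroup Q) s)).comap (QuotientGroup.mk' _) = ⊤ := by
      refine eq_top_of_refl_eich h (fun v hv => ?_) fun p a => ?_
      · obtain ⟨c, c0, e⟩ := hw.exists_mk_refl_eq h hv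
        obtain ⟨t, rfl⟩ := Finite.surjective_of_injective (sq_inj h2) c
        have := hw.refl_mul_refl_mem h hn one_ne_zero (t := t) (by simpa using c0)
        rw [Subgroup.mem_comap, e, show QuotientGroup.mk' (eichGroup Q) (refl Q (p + (t * t) • w)) =
          QuotientGroup.mk' _ s from (QuotientGroup.eq.2 (by simpa [_root_.sq, s] using this)).symm]
        exact Subgroup.mem_zpowers _
      · rw [Subgroup.mem_comap, show QuotientGroup.mk' (eichGroup Q) (eich Q p a) = 1 from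
          (QuotientGroup.eq_one_iff _).2 (eich_mem_eichGroup p a)]
        exact one_mem _
    obtain ⟨m, hm⟩ := this.ge (Subgroup.mem_top g)
    have e : (QuotientGroup.mk' (eichGroup Q) s) ^ (2 : ℤ) = 1 := by
      rw [zpow_two, ← map_mul, refl_mul_self, map_one]
    obtain ⟨m, rfl | rfl⟩ := m.even_or_odd'
    · simp only [zpow_mul, e, one_zpow] at hm
      exact Or.inl ((QuotientGroup.eq_one_iff _).1 hm.symm)
    · simp only [zpow_add, zpow_mul, e, one_zpow, one_mul, zpow_one] at hm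
      exact Or.inr (by simpa [s] using QuotientGroup.eq.1 hm)
  have k2 : ∀ g, g ∈ eichGroup Q ↔ dick g = 1 := fun g => ⟨dick_eich h hn, fun e => (k g).resolve_right fun c => by
    have := dick_eich h hn c
    rw [dick_refl_mul h q1, e] at this
    exact absurd this (by decide)⟩
  refine or_iff_not_imp_left.2 fun c g => ⟨fun hg => (k2 g).1 ((k g).resolve_right fun c' => c ?_),
    fun e => eichGroup_le hN ((k2 g).2 e)⟩
  have hs : s ∈ N := by simpa using N.mul_mem (eichGroup_le hN c') (N.inv_mem hg)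
  refine eq_top_iff.2 fun x _ => (k x).elim (fun c => eichGroup_le hN c) fun c => ?_
  exact refl_mul_cancel Q _ x ▸ N.mul_mem hs (eichGroup_le hN c)

theorem oa_of [Finite V] {Φ : Formed (RingHom.id F) V} (h : HA Φ) (h2 : (2 : F) = 0) {p : V} (p0 : p ≠ 0)
    (h4 : 4 ≤ finrank F V) {K X H : Subgroup (V ≃ₗ[F] V)} (hK : IsPGroup 2 K)
    (h1 : ∀ k ∈ K, k ∈ Φ.isom ∧ k p = p) (hn : ∀ s ∈ Φ.isom, s p = p → ∀ k ∈ K, s⁻¹ * k * s ∈ K)
    (hX : X ≤ K) (hH : X ≤ H) (hc : Nat.card X = Nat.card F ^ (finrank F V - 2))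
    (ht : ∀ g ∈ X, finrank F (mov g) ≠ 1) : OA Φ H p := by
  obtain ⟨r, hr⟩ := h.nd.exists_isPair p0 (h.sing p)
  have hd := hr.finrank_pairPerp h.nd
  have c1 : Nat.card (Φ.pairPerp p r) = Nat.card F ^ (finrank F V - 2) := by
    rw [Module.natCard_eq_pow_finrank (K := F), ← hd, Nat.add_sub_cancel]
  have b1 : ∀ k ∈ K, ∀ x, Φ.B p (k x) = Φ.B p x := fun k hk x => by
    conv_lhs => rw [← (h1 k hk).2]
    exact (h1 k hk).1.1 _ _
  have rp : Φ.B r p = -1 := by rw [h.anti, hr.ef]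
  letI : MulAction K (Φ.pairPerp p r) :=
    { smul := fun k x => ⟨k.1 x + Φ.B r (k.1 x) • p, Φ.mem_pairPerp.2
        ⟨by simp [b1 k k.2, h.alt, (Φ.mem_pairPerp.1 x.2).1], by simp [rp]⟩⟩
      one_smul := fun x => Subtype.ext (by
        change x.1 + Φ.B r x.1 • p = _; simp [(Φ.mem_pairPerp.1 x.2).2])
      mul_smul := fun a b x => Subtype.ext (by
        change a.1 (b.1 x) + Φ.B r (a.1 (b.1 x)) • p =
          a.1 (b.1 x + Φ.B r (b.1 x) • p) + Φ.B r (a.1 (b.1 x + Φ.B r (b.1 x) • p)) • p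
        simp only [map_add, map_smul, (h1 a a.2).2, rp, smul_eq_mul]; module) }
  haveI : CharP F 2 := CharTwo.of_one_ne_zero_of_two_eq_zero one_ne_zero h2
  obtain ⟨x, hx, x0⟩ := hK.exists_fixed_point_of_prime_dvd_card_of_fixed_point (Φ.pairPerp p r) (by
    obtain ⟨m, -, hm⟩ := FiniteField.card F 2
    rw [c1, Nat.card_eq_fintype_card, hm]
    exact dvd_pow (dvd_pow_self 2 m.ne_zero) (by omega)) (a := 0) fun k => Subtype.ext (by
      change k.1 (0 : V) + Φ.B r (k.1 (0 : V)) • p = 0; simp)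
  have hE : ∀ g : X, ∃ a : Φ.pairPerp p r, ∃ d, IsE Φ p a d g := fun g => by
    obtain ⟨a, ha, d, e⟩ := exists_isE_of_trivial h.nd hr (h1 _ (hX g.2)).1 (h1 _ (hX g.2)).2 fun w hw => by
      by_cases w0 : w = 0
      · exact ⟨0, by simp [w0]⟩
      obtain ⟨s, ⟨s1, s2⟩, rfl⟩ := h.trans (hr.nondeg_pairPerp h.nd) x.2 (fun e => x0 (Subtype.ext e).symm) hw w0
      have s3 : s p = p := s2 p fun u hu => Φ.B_eq_zero_symm (Φ.mem_pairPerp.1 hu).1
      have := congrArg (s ·.1) (hx ⟨_, hn s (EG_le_isom s1) s3 _ (hX g.2)⟩)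
      change s (s.symm (g.1 (s x)) + _ • p) = _ at this
      rw [map_add, map_smul, s3, LinearEquiv.apply_symm_apply] at this
      exact ⟨_, (eq_sub_of_add_eq this).trans (by rw [sub_eq_add_neg, ← neg_smul])⟩
    exact ⟨⟨a, ha⟩, d, e⟩
  choose α δ hE using hE
  haveI : Finite (V ≃ₗ[F] V) := DFunLike.finite _
  have sj := (Function.Injective.bijective_of_nat_card_le (f := α) (fun g k e => by
    have e1 := ((hE g).mul (hE k).inv).congr (b := 0) (by simp [e]) rfl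
    generalize δ g + Φ.ε * (RingHom.id F) (δ k) + Φ.ε * Φ.B (α g) (-α k) = d at e1
    by_cases d0 : d = 0
    · exact Subtype.ext (mul_inv_eq_one.1 ((d0 ▸ e1).ext (isE_one hr.se)))
    refine absurd ?_ (ht _ (mul_mem g.2 (inv_mem k.2)))
    generalize g.1 * k.1⁻¹ = s at e1
    rw [← finrank_span_singleton (K := F) p0, show mov s = F ∙ p from
      le_antisymm ?_ ((Submodule.span_singleton_le_iff_mem _ _).2 ⟨d⁻¹ • r, by
        simp [h.tv e1, hr.ef, d0, smul_smul]⟩)]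
    rintro _ ⟨y, rfl⟩
    exact Submodule.mem_span_singleton.2 ⟨d * Φ.B p y, by simp [h.tv e1]⟩) (c1.trans hc.symm).le).2
  intro a ha
  obtain ⟨g, hg⟩ := sj ⟨_, h.dec hr a⟩
  exact ⟨_, (h.shift ⟨g, hH g.2, hE g⟩ (-Φ.B r a)).congr (by simp [hg, ha]) rfl⟩

end

/-- Let F be a finite field of characteristic two, n ≥ 2, V = F^{2n} with the non-degenerate alternating form f(u, v) = Σ (u_i v_{n+i} + u_{n+i} v_i), and G the group of invertible matrices preserving f. Let a ≠ 0 be a vector, H its stabilizer in G, and X a subgroup of O₂(H) of order |F|^{2n−2} no element of which is a transvection (no element g has g − 1 of rank one). If L is a subgroup of G containing X that acts irreducibly on V (no proper non-zero L-invariant subspace), then L = G, or, for some quadratic form Q on V whose polar form is f, L is the isometry group of Q or its subgroup of the isometries g for which g − 1 has even rank, or |F| = 2, n = 2 and L is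 isomorphic to the alternating group of degree 6 or to the symmetric group of degree 5. -/
theorem result {F : Type*} [Field F] [Fintype F] [CharP F 2] {n : ℕ} (hn : 2 ≤ n) (a : (Fin n ⊕ Fin n → F)) (ha : a ≠ 0)
    (X : Subgroup (GL (Fin n ⊕ Fin n) F)) (hXG : X ≤ Cfsg.preserving (Units.coeHom (Matrix (Fin n ⊕ Fin n) (Fin n ⊕ Fin n) F)) (fun u v : (Fin n ⊕ Fin n → F) => ∑ i : Fin n, (u (Sum.inl i) * v (Sum.inr i) + u (Sum.inr i) * v (Sum.inl i))))
    (hXO : ∀ H : Subgroup (GL (Fin n ⊕ Fin n) F),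
      (∀ g : GL (Fin n ⊕ Fin n) F, g ∈ H ↔ (g ∈ Cfsg.preserving (Units.coeHom (Matrix (Fin n ⊕ Fin n) (Fin n ⊕ Fin n) F)) (fun u v : (Fin n ⊕ Fin n → F) => ∑ i : Fin n, (u (Sum.inl i) * v (Sum.inr i) + u (Sum.inr i) * v (Sum.inl i))) ∧ Matrix.mulVec (g : Matrix (Fin n ⊕ Fin n) (Fin n ⊕ Fin n) F) a = a)) →
      X ≤ (Cfsg.pCore 2 ↥H).map H.subtype)
    (hcard : Nat.card ↥X = Fintype.card F ^ (2 * n - 2))
    (hntv : ∀ x ∈ X, ((x : Matrix (Fin n ⊕ Fin n) (Fin n ⊕ Fin n) F) - 1).rank ≠ 1)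
    (L : Subgroup (GL (Fin n ⊕ Fin n) F)) (hXL : X ≤ L) (hLG : L ≤ Cfsg.preserving (Units.coeHom (Matrix (Fin n ⊕ Fin n) (Fin n ⊕ Fin n) F)) (fun u v : (Fin n ⊕ Fin n → F) => ∑ i : Fin n, (u (Sum.inl i) * v (Sum.inr i) + u (Sum.inr i) * v (Sum.inl i))))
    (hirr : ∀ W : Submodule F (Fin n ⊕ Fin n → F), (∀ g ∈ L, ∀ w ∈ W, Matrix.mulVec (g : Matrix (Fin n ⊕ Fin n) (Fin n ⊕ Fin n) F) w ∈ W) → W = ⊥ ∨ W = ⊤) :
    L = Cfsg.preserving (Units.coeHom (Matrix (Fin n ⊕ Fin n) (Fin n ⊕ Fin n) F)) (fun u v : (Fin n ⊕ Fin n → F) => ∑ i : Fin n, (u (Sum.inl i) * v (Sum.inr i) + u (Sum.inr i) * v (Sum.inl i))) ∨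
    (∃ Q : QuadraticForm F (Fin n ⊕ Fin n → F), (∀ u v, QuadraticMap.polar ⇑Q u v = (fun u v : (Fin n ⊕ Fin n → F) => ∑ i : Fin n, (u (Sum.inl i) * v (Sum.inr i) + u (Sum.inr i) * v (Sum.inl i))) u v) ∧
      (L = Cfsg.isometryGroup F ⇑Q ∨
        ∀ g : GL (Fin n ⊕ Fin n) F, g ∈ L ↔ (g ∈ Cfsg.isometryGroup F ⇑Q ∧ Even ((g : Matrix (Fin n ⊕ Fin n) (Fin n ⊕ Fin n) F) - 1).rank))) ∨
    (Fintype.card F = 2 ∧ n = 2 ∧ (Nonempty (↥L ≃* ↥(alternatingGroup (Fin 6))) ∨ Nonempty (↥L ≃* Equiv.Perm (Fin 5)))) := by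
  classical
  have h2 : (2 : F) = 0 := CharTwo.two_eq_zero
  have h := ha_symp F n
  have hf : ∀ u v : Fin n ⊕ Fin n → F, (sympFormed n F).B u v =
      ∑ i : Fin n, (u (Sum.inl i) * v (Sum.inr i) + u (Sum.inr i) * v (Sum.inl i)) := fun u v => by
    rw [sympFormed_B, sympForm_apply]
    exact Finset.sum_congr rfl fun i _ => by linear_combination -u (Sum.inl i) * v (Sum.inr i) * h2
  generalize hG : Cfsg.preserving (Units.coeHom (Matrix (Fin n ⊕ Fin n) (Fin n ⊕ Fin n) F))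
    (fun u v : (Fin n ⊕ Fin n → F) => ∑ i : Fin n, (u (Sum.inl i) * v (Sum.inr i) + u (Sum.inr i) * v (Sum.inl i))) = G
    at *
  let e := glEquiv (Fin n ⊕ Fin n) F
  have mG : ∀ g, g ∈ G ↔ e g ∈ (sympFormed n F).isom := fun g => by
    rw [← hG, Formed.mem_isom]; simp only [hf]; exact ⟨fun c => ⟨c, fun _ => rfl⟩, fun c => c.1⟩
  have rk : ∀ g : GL (Fin n ⊕ Fin n) F, ((g : Matrix (Fin n ⊕ Fin n) (Fin n ⊕ Fin n) F) - 1).rank =
      finrank F (mov (e g)) := fun g => by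
    rw [Matrix.rank, mov, ← LinearMap.range_neg, show -(g.1 - 1).mulVecLin = LinearMap.id - (e g).toLinearMap from
      LinearMap.ext fun x => by simp [e, Matrix.sub_mulVec]]
  have hd : finrank F (Fin n ⊕ Fin n → F) = 2 * n := by simp [two_mul]
  let S := G ⊓ (stabilizer _ a).comap e.toMonoidHom
  have hH : L.map e.toMonoidHom ≤ (sympFormed n F).isom := by
    rintro _ ⟨g, hg, rfl⟩; exact (mG g).1 (hLG hg)
  have hA : OA (sympFormed n F) (L.map e.toMonoidHom) a := by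
    refine oa_of h h2 ha (by omega) (K := ((pCore 2 S).map S.subtype).map e.toMonoidHom)
      (X := X.map e.toMonoidHom) (((Solv.isPGroup_pCore 2 S).map _).map _) ?_ ?_
      (Subgroup.map_mono (hXO S fun _ => Iff.rfl)) (Subgroup.map_mono hXL) ?_ ?_
    · rintro _ ⟨_, ⟨g, -, rfl⟩, rfl⟩; exact ⟨(mG _).1 g.2.1, g.2.2⟩
    · rintro s s1 s2 _ ⟨_, ⟨g, hg, rfl⟩, rfl⟩
      obtain ⟨s, rfl⟩ := e.surjective s
      exact ⟨_, ⟨_, Subgroup.Normal.conj_mem' inferInstance g hg ⟨s, (mG s).2 s1, s2⟩, rfl⟩, by simp⟩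
    · rw [Subgroup.card_map_of_injective e.injective, hcard, hd, Nat.card_eq_fintype_card]
    · rintro _ ⟨g, hg, rfl⟩; exact rk g ▸ hntv g hg
  have mL : ∀ g, g ∈ L ↔ e g ∈ L.map e.toMonoidHom := fun g => (Subgroup.mem_map_iff_mem e.injective).symm
  obtain c | ⟨Q, q1, q2, q3⟩ | ⟨c1, c2, c3⟩ := (exists_ps h hH h2 (fun W hW => hirr W fun g hg =>
    hW _ ⟨g, hg, rfl⟩) ha hA).tri (by omega) (by omega)
  · exact Or.inl (le_antisymm hLG fun g hg => (mL g).2 (c (h.gen ((mG g).1 hg))))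
  · refine Or.inr (Or.inl ⟨Q, fun u v => (q1 u v).trans (hf u v), ?_⟩)
    have nd : (Formed.ofQuad Q).Nondeg := fun x hx => h.nd x fun y => (q1 x y).symm.trans (hx y)
    have mO : ∀ g, g ∈ isometryGroup F Q ↔ e g ∈ OG Q := fun g => by
      rw [mem_isometryGroup, Formed.mem_isom_ofQuad]; rfl
    refine (over_eich nd h2 (by omega) (N := (L.map e.toMonoidHom).subgroupOf (OG Q)) q3).imp
      (fun c => Subgroup.ext fun g => ?_) fun c g => ?_
    · rw [mL, mO]
      exact ⟨fun c => q2 c, fun c' => Subgroup.mem_subgroupOf.1 (c.ge (Subgroup.mem_top (⟨_, c'⟩ : OG Q)))⟩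
    · rw [mL, mO, rk]
      simp only [Subgroup.mem_subgroupOf, dick_eq_one_iff] at c
      exact ⟨fun c' => ⟨q2 c', (c ⟨_, q2 c'⟩).1 c'⟩, fun c' => (c ⟨_, c'.1⟩).2 c'.2⟩
  obtain rfl : n = 2 := by omega
  rw [Nat.card_eq_fintype_card] at c1
  obtain ⟨θ⟩ := S0247.result c1
  let φ : G ≃* Equiv.Perm (Fin 6) := ((mulEquivOfMemIff e _ _ mG).trans (spEquiv 2 F).symm).trans θ
  have ψ : L ≃* (L.subgroupOf G).map φ.toMonoidHom :=
    (Subgroup.subgroupOfEquivOfLe hLG).symm.trans (φ.subgroupMap _)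
  generalize hK : (L.subgroupOf G).map φ.toMonoidHom = K at ψ
  by_cases k1 : K = ⊤
  · refine Or.inl (le_antisymm hLG fun g hg => ?_)
    exact (Subgroup.mem_map_iff_mem (f := φ.toMonoidHom) (x := ⟨g, hg⟩) φ.injective).1
      ((hK.trans k1).ge (Subgroup.mem_top _))
  refine Or.inr (Or.inr ⟨c1, rfl, ?_⟩)
  by_cases k2 : K = alternatingGroup (Fin 6)
  · exact Or.inl ⟨k2 ▸ ψ⟩
  have k3 := Perm.card_le_index (by simp) k1 k2
  have k4 := K.index_mul_card
  rw [Subgroup.card_map_of_injective e.injective, Nat.card_congr ψ.toEquiv] at c3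
  rw [Nat.card_perm, Nat.card_fin, show Nat.factorial 6 = 720 from rfl] at k4
  rw [Fintype.card_fin] at k3
  exact Or.inr ⟨ψ.trans (S5945.result.2.1 K (by nlinarith)).some⟩

end Cfsg.Agent.S5712
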