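import Cfsg.Statements.S5713
import Cfsg.Agent.FG.Marg

set_option autoImplicit false
open Cfsg

namespace Cfsg.Agent.S5713

open MulAction Finset
open scoped Classical

section
variable (G : Type*) {Ω : Type*} [Group G] [MulAction G Ω] [Fintype Ω]

def A (a b x y : Ω) : Prop := ∃ g : G, g • a = x ∧ g • b = y
noncomputable def D (x y : Ω) : Finset Ω := univ.filter fun z => ¬ A G z x z y
noncomputable def N (a b x : Ω) : Finset Ω := univ.filter fun y => A G a b x y

variable {G}
omit [Fintype Ω] in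
theorem A.refl (a b : Ω) : A G a b a b := ⟨1, one_smul _ _, one_smul _ _⟩
omit [Fintype Ω] in
theorem A.symm {a b x y : Ω} (h : A G a b x y) : A G x y a b := by
  obtain ⟨g, rfl, rfl⟩ := h
  exact ⟨g⁻¹, inv_smul_smul _ _, inv_smul_smul _ _⟩
omit [Fintype Ω] in
theorem A.trans {a b x y u v : Ω} (h : A G a b x y) (h' : A G x y u v) : A G a b u v := by
  obtain ⟨g, rfl, rfl⟩ := h
  obtain ⟨k, rfl, rfl⟩ := h'
  exact ⟨k * g, mul_smul _ _ _, mul_smul _ _ _⟩
omit [Fintype Ω] in
theorem A.smul (g : G) (a b : Ω) : A G a b (g • a) (g • b) := ⟨g, rfl, rfl⟩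

theorem mem_D {x y z : Ω} : z ∈ D G x y ↔ ¬ A G z x z y := by simp [D]
theorem mem_N {a b x y : Ω} : y ∈ N G a b x ↔ A G a b x y := by simp [N]

theorem D_symm (x y : Ω) : D G x y = D G y x := by
  ext z; rw [mem_D, mem_D]; exact not_congr ⟨A.symm, A.symm⟩

theorem D_tri (x y w : Ω) : #(D G x w) ≤ #(D G x y) + #(D G y w) := by
  refine le_trans (card_le_card fun z hz => ?_) (card_union_le _ _)
  rw [mem_union, mem_D, mem_D]
  rw [mem_D] at hz
  by_contra h
  push Not at h
  exact hz (h.1.trans h.2)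

theorem D_le {a b x y : Ω} (h : A G a b x y) : #(D G a b) ≤ #(D G x y) := by
  obtain ⟨g, rfl, rfl⟩ := h
  refine card_le_card_of_injOn (fun z => g • z) (fun z hz => ?_) (fun z _ w _ e => MulAction.injective g e)
  rw [mem_coe, mem_D] at hz ⊢
  exact fun h => hz (((A.smul g z a).trans h).trans (A.smul g z b).symm)

theorem D_eq {a b x y : Ω} (h : A G a b x y) : #(D G x y) = #(D G a b) :=
  le_antisymm (D_le h.symm) (D_le h)

theorem N_le (a b x : Ω) (g : G) : #(N G a b x) ≤ #(N G a b (g • x)) := by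
  refine card_le_card_of_injOn (fun z => g • z) (fun z hz => ?_) (fun z _ w _ e => MulAction.injective g e)
  rw [mem_coe, mem_N] at hz ⊢
  exact hz.trans (A.smul g _ _)

omit [Fintype Ω] in
theorem closed [Finite G] [IsPreprimitive G Ω] {a b : Ω} (hab : a ≠ b) (S : Set Ω) {x : Ω} (hx : x ∈ S)
    (h : ∀ x ∈ S, ∀ y, A G a b x y → y ∈ S) (y : Ω) : y ∈ S := by
  haveI : Nontrivial Ω := ⟨a, b, hab⟩
  let M : Submonoid G :=
    { carrier := {u | ∀ g : G, g • a ∈ S → (g * u) • a ∈ S}
      one_mem' := fun g hg => by rwa [mul_one]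
      mul_mem' := fun {u v} hu hv g hg => by rw [← mul_assoc]; exact hv _ (hu g hg) }
  let K : Subgroup G :=
    { M with
      inv_mem' := fun {u} hu => by
        have : u⁻¹ = u ^ (orderOf u - 1) := by
          rw [eq_comm, eq_inv_iff_mul_eq_one, ← pow_succ, Nat.sub_add_cancel (orderOf_pos u), pow_orderOf_eq_one]
        rw [this]; exact M.pow_mem hu _ }
  have hle : stabilizer G a ≤ K := fun u hu g hg => by
    rw [mul_smul, mem_stabilizer_iff.1 hu]; exact hg
  obtain ⟨g0, hg0⟩ := exists_smul_eq G a b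
  have hg0K : g0 ∈ K := fun g hg => h _ hg _ ⟨g, rfl, by rw [mul_smul, hg0]⟩
  have hK : K = ⊤ := (IsPreprimitive.isCoatom_stabilizer_of_isPreprimitive G a).2 K
    (lt_of_le_of_ne hle fun e => hab (by
      rw [← e, mem_stabilizer_iff] at hg0K; rw [← hg0, hg0K]))
  obtain ⟨g, rfl⟩ := exists_smul_eq G a x
  obtain ⟨k, rfl⟩ := exists_smul_eq G a y
  have : g⁻¹ * k ∈ K := hK ▸ Subgroup.mem_top _
  simpa using this g hx

theorem edge [Finite G] [IsPreprimitive G Ω] {a b : Ω} (hab : a ≠ b) :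
    Fintype.card Ω ≤ #(N G a b a) * #(D G a b) := by
  have : (univ : Finset Ω) ⊆ (N G a b a).biUnion fun y => D G a y := by
    intro z _
    by_contra hz
    simp only [mem_biUnion, not_exists, not_and, mem_D, mem_N, not_not] at hz
    have hS := closed (G := G) hab {w | A G z a z w} (x := a) (A.refl z a) (by
      rintro w ⟨g, hg, rfl⟩ y hy
      have h1 : A G a b a (g⁻¹ • y) := hy.trans ⟨g⁻¹, inv_smul_smul _ _, rfl⟩
      exact (hz _ h1).trans ⟨g, hg, smul_inv_smul _ _⟩)
    obtain ⟨g, hg, hg'⟩ := hS z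
    obtain ⟨k, hk, hk'⟩ := hS b
    have e : z = a := MulAction.injective g (hg.trans hg'.symm)
    exact hab (by rw [← hk', ← e, hk])
  refine le_trans (card_le_card this) (card_biUnion_le_card_mul _ _ _ fun y hy => (D_eq (mem_N.1 hy)).le)

theorem big [Finite G] [IsPreprimitive G Ω] {z0 a0 c0 : Ω} (ha : a0 ≠ z0) (hc : c0 ≠ z0) (h : ¬ A G z0 a0 z0 c0) :
    ∃ u v : Ω, Fintype.card Ω ≤ #(D G u v) ^ 2 := by
  obtain ⟨⟨a, b⟩, hab, hmin⟩ := exists_min_image (univ.filter fun p : Ω × Ω => p.1 ≠ p.2)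
    (fun p => #(N G p.1 p.2 p.1)) ⟨(a0, z0), by simpa using ha⟩
  replace hab : a ≠ b := by simpa using hab
  replace hmin : ∀ x y : Ω, x ≠ y → #(N G a b a) ≤ #(N G x y x) := fun x y e => hmin (x, y) (by simpa using e)
  have h1 : ∀ z, #(N G a b a) ≤ #(univ.filter fun v => z ∈ D G a v) := by
    intro z
    have : ∃ c, c ≠ z ∧ ¬ A G z a z c := by
      obtain ⟨g, rfl⟩ := exists_smul_eq G z0 z
      by_contra hh
      push Not at hh
      exact h (((A.smul g z0 a0).trans ((hh _ ((MulAction.injective g).ne ha)).symm.trans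
        (hh _ ((MulAction.injective g).ne hc)))).trans (A.smul g z0 c0).symm)
    obtain ⟨c, hcz, hc⟩ := this
    refine (hmin z c hcz.symm).trans (card_le_card fun v hv => ?_)
    rw [mem_filter, mem_D]
    exact ⟨mem_univ _, fun e => hc (e.trans (mem_N.1 hv).symm)⟩
  have h2 : ∃ v, #(N G a b a) ≤ #(D G a v) := by
    by_contra hh
    push Not at hh
    have h3 : ∑ v : Ω, #(D G a v) < ∑ _v : Ω, #(N G a b a) := sum_lt_sum_of_nonempty ⟨a, mem_univ _⟩ fun v _ => hh v
    have h4 : ∑ z : Ω, #(univ.filter fun v => z ∈ D G a v) = ∑ v : Ω, #(D G a v) := by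
      simp only [card_filter]
      rw [sum_comm]
      refine sum_congr rfl fun v _ => ?_
      rw [← card_filter]; simp
    exact absurd (sum_le_sum fun z (_ : z ∈ univ) => h1 z) (by rw [h4]; exact not_le.2 h3)
  obtain ⟨v, hv⟩ := h2
  have h5 := edge (G := G) hab
  rcases le_total #(D G a b) #(D G a v) with e | e
  · exact ⟨a, v, by nlinarith⟩
  · exact ⟨a, b, by nlinarith⟩

theorem uni [Finite G] [IsPreprimitive G Ω] {z0 a0 c0 : Ω} (ha : a0 ≠ z0) (hc : c0 ≠ z0) (h : ¬ A G z0 a0 z0 c0)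
    {a b : Ω} (hab : a ≠ b) : Fintype.card Ω ≤ (2 * #(D G a b)) ^ 2 := by
  let adj : Ω → Ω → Prop := fun x y => A G a b x y ∨ A G a b y x
  have hadj : ∀ x y, adj x y → #(D G x y) = #(D G a b) := by
    rintro x y (e | e)
    · exact D_eq e
    · rw [D_symm]; exact D_eq e
  let cl : Ω → Ω → Prop := fun x y => x = y ∨ adj x y ∨ ∃ w, adj x w ∧ adj w y
  have hcl : ∀ x y, cl x y → #(D G x y) ≤ 2 * #(D G a b) := by
    rintro x y (rfl | e | ⟨w, e, e'⟩)
    · have : D G x x = ∅ := eq_empty_of_forall_notMem fun z hz => mem_D.1 hz (A.refl _ _)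
      simp [this]
    · rw [hadj _ _ e]; omega
    · have := D_tri (G := G) x w y
      rw [hadj _ _ e, hadj _ _ e'] at this; omega
  by_cases hall : ∀ x y, cl x y
  · obtain ⟨u, v, huv⟩ := big ha hc h
    exact huv.trans (Nat.pow_le_pow_left (hcl _ _ (hall u v)) 2)
  push Not at hall
  obtain ⟨u, v, huv⟩ := hall
  have : ∃ w, cl u w ∧ ∃ y, A G a b w y ∧ ¬ cl u y := by
    by_contra hh
    push Not at hh
    exact huv (closed (G := G) hab {w | cl u w} (x := u) (Or.inl rfl) hh v)
  obtain ⟨w, hw, y, hy, hny⟩ := this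
  have h1 := D_tri (G := G) u w y
  have h2 := hcl _ _ hw
  rw [D_eq hy] at h1
  have h3 : N G a b u ⊆ D G u y := fun z hz => mem_D.2 fun ⟨g, hg, hg'⟩ =>
    hny (Or.inr (Or.inr ⟨z, Or.inl (mem_N.1 hz), Or.inr ((mem_N.1 hz).trans ⟨g, hg', hg⟩)⟩))
  have h4 := card_le_card h3
  obtain ⟨g, rfl⟩ := exists_smul_eq G a u
  have h5 := N_le a b a g
  have h6 := edge (G := G) hab
  nlinarith

theorem two [Finite G] {γ : Ω} (h2 : ∀ a c, a ≠ γ → c ≠ γ → A G γ a γ c) (S : Finset Ω) (hS : γ ∉ S)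
    (h : ∀ x : G, x • γ = γ → ∃ z ∈ S, ∃ w ∈ S, x • w = z) : Fintype.card Ω - 1 ≤ #S ^ 2 := by
  haveI := Fintype.ofFinite G
  let K : Finset G := univ.filter fun x => x • γ = γ
  have h1 : ∀ w z, z ≠ γ → #(K.filter fun x => x • w = z) * (Fintype.card Ω - 1) ≤ #K := by
    intro w z hz
    rw [card_eq_sum_card_fiberwise (f := fun x : G => x • w) (t := univ) (s := K) (fun _ _ => mem_univ _),
      ← add_sum_erase _ _ (mem_univ γ), ← card_univ, ← card_erase_of_mem (mem_univ γ), mul_comm, ← smul_eq_mul]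
    refine le_trans (card_nsmul_le_sum _ _ _ fun z' hz' => ?_) (Nat.le_add_left _ _)
    obtain ⟨y, hy, hy'⟩ := h2 z z' hz (ne_of_mem_erase hz')
    refine card_le_card_of_injOn (fun x => y * x) (fun x hx => ?_) (fun x _ x' _ e => mul_left_cancel e)
    simp only [K, coe_filter, mem_filter, mem_univ, true_and, Set.mem_setOf_eq] at hx ⊢
    rw [mul_smul, mul_smul, hx.1, hx.2]; exact ⟨hy, hy'⟩
  have h3 : K ⊆ (S ×ˢ S).biUnion fun p => K.filter fun x => x • p.2 = p.1 := fun x hx => by
    obtain ⟨z, hz, w, hw, e⟩ := h x (mem_filter.1 hx).2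
    exact mem_biUnion.2 ⟨(z, w), mem_product.2 ⟨hz, hw⟩, mem_filter.2 ⟨hx, e⟩⟩
  have h4 := (card_le_card h3).trans card_biUnion_le
  have h5 : #K * (Fintype.card Ω - 1) ≤ #S ^ 2 * #K := by
    refine (Nat.mul_le_mul_right _ h4).trans ?_
    rw [sum_mul, sq, ← card_product, ← smul_eq_mul]
    exact sum_le_card_nsmul _ _ _ fun p hp => h1 _ _ fun e => hS (e ▸ (mem_product.1 hp).1)
  have h6 : 0 < #K := card_pos.2 ⟨1, by simp [K]⟩
  rw [mul_comm] at h5
  exact Nat.le_of_mul_le_mul_right h5 h6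
end

/-- A classification-free minimal-degree bound. Let G be a finite group acting faithfully and primitively on a finite set Ω with n elements, and suppose that the image of G in the symmetric group on Ω does not contain the alternating group on Ω. Then every non-identity element of G moves at least (√n − 1)/2 points of Ω, that is, it fixes at most n − (√n − 1)/2 points. -/
theorem result {G Ω : Type*} [Group G] [Finite G] [MulAction G Ω] [FaithfulSMul G Ω] [Fintype Ω] [DecidableEq Ω]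
    (hprim : MulAction.IsPreprimitive G Ω)
    (hA : ¬ alternatingGroup Ω ≤ (MulAction.toPermHom G Ω).range)
    (g : G) (hg : g ≠ 1) :
    (Real.sqrt (Fintype.card Ω) - 1) / 2 ≤ (Fintype.card Ω : ℝ) - Nat.card (MulAction.fixedBy Ω g) := by
  obtain ⟨a, ha⟩ := Cfsg.Agent.Perm.exists_smul_ne (α := Ω) hg
  let S : Finset Ω := univ.filter fun z => g • z ≠ z
  have hS : #S + Nat.card (fixedBy Ω g) = Fintype.card Ω := by
    rw [Nat.card_eq_fintype_card, Fintype.card_subtype, add_comm, ← card_univ]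
    simpa [S] using card_filter_add_card_filter_not (s := (univ : Finset Ω)) (fun z => g • z = z)
  have haS : a ∈ S := by simpa [S] using ha
  have h1 : Fintype.card Ω ≤ (2 * #S) ^ 2 := by
    by_cases h2 : ∀ b c, b ≠ a → c ≠ a → A G a b a c
    · have := two h2 (S.erase a) (notMem_erase _ _) fun x hx => by
        by_contra hh
        push Not at hh
        refine hA (FG.alt_le_of_three (y := x * g * x⁻¹) ha ?_ fun z hz => ?_)
        · rw [mul_smul, mul_smul, inv_smul_eq_iff.2 hx.symm]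
          exact fun e => ha (MulAction.injective x (e.trans hx.symm))
        · by_contra h3
          push Not at h3
          refine hh z (by simp [S, hz, h3.1]) (x⁻¹ • z) ?_ (smul_inv_smul _ _)
          rw [mem_erase]
          refine ⟨fun e => hz (by rw [inv_smul_eq_iff, hx] at e; exact e), ?_⟩
          simp only [S, mem_filter, mem_univ, true_and]
          exact fun e => h3.2 (by rw [mul_smul, mul_smul, e, smul_inv_smul])
      rw [card_erase_of_mem haS] at this
      have h3 := card_pos.2 ⟨a, haS⟩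
      obtain ⟨m, hm⟩ : ∃ m, #S = m + 1 := ⟨#S - 1, by omega⟩
      rw [hm] at this ⊢
      simp only [Nat.add_sub_cancel, tsub_le_iff_right] at this
      nlinarith
    · push Not at h2
      obtain ⟨b, c, hb, hc, h⟩ := h2
      refine (uni hb hc h ha.symm).trans (Nat.pow_le_pow_left (Nat.mul_le_mul_left _ (card_le_card fun z hz => ?_)) _)
      simp only [S, mem_filter, mem_univ, true_and]
      exact fun e => mem_D.1 hz ⟨g, e, rfl⟩
  have h2 : Real.sqrt (Fintype.card Ω) ≤ 2 * #S := Real.sqrt_le_iff.2 ⟨by positivity, by exact_mod_cast h1⟩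
  have h3 : (#S : ℝ) + Nat.card (fixedBy Ω g) = Fintype.card Ω := by exact_mod_cast hS
  linarith

end Cfsg.Agent.S5713
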