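import Cfsg.Statements.S5729

set_option autoImplicit false
open Cfsg

namespace Cfsg.Agent.S5729

open MulAction Finset

/-- Let a finite group G act faithfully and transitively on a set with n ≥ 3 points. Then either G is a Frobenius permutation group (Frobenius as a permutation group: transitive, some non-identity element fixes a point, and no non-identity element fixes two points) of order n(n − 1) and exactly |G|/n of its elements are derangements (fix no point), or the number of derangements is greater than |G|/n. -/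
theorem result {G Ω : Type*} [Group G] [Finite G] [MulAction G Ω] [FaithfulSMul G Ω] [Fintype Ω] (htr : MulAction.IsPretransitive G Ω) (hn : 3 ≤ Fintype.card Ω) :
    ((MulAction.IsPretransitive G Ω ∧ (∃ g : G, g ≠ 1 ∧ ∃ ω : Ω, g • ω = ω) ∧ ∀ g : G, g ≠ 1 → Nat.card (MulAction.fixedBy Ω g) ≤ 1) ∧ Nat.card G = Fintype.card Ω * (Fintype.card Ω - 1) ∧ Fintype.card Ω * Nat.card {g : G // ∀ ω : Ω, g • ω ≠ ω} = Nat.card G) ∨
    Nat.card G < Fintype.card Ω * Nat.card {g : G // ∀ ω : Ω, g • ω ≠ ω} := by
  classical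
  haveI := Fintype.ofFinite G
  set n := Fintype.card Ω
  let f : G → ℕ := fun g => Fintype.card (fixedBy Ω g)
  have h1 : ∑ g, f g = Fintype.card G := by
    haveI : Nonempty Ω := Fintype.card_pos_iff.1 (by omega)
    haveI := (pretransitive_iff_unique_quotient_of_nonempty G Ω).1 htr |>.some
    have := sum_card_fixedBy_eq_card_orbits_mul_card_group G Ω
    rw [Fintype.card_unique, one_mul] at this
    exact this
  have h2 : 2 * Fintype.card G ≤ ∑ g, f g ^ 2 := by
    have := sum_card_fixedBy_eq_card_orbits_mul_card_group G (Ω × Ω)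
    have h3 : ∀ g : G, Fintype.card (fixedBy (Ω × Ω) g) = f g ^ 2 := fun g => by
      rw [sq, ← Fintype.card_prod]
      exact Fintype.card_congr
        { toFun := fun x => (⟨x.1.1, congrArg Prod.fst x.2⟩, ⟨x.1.2, congrArg Prod.snd x.2⟩)
          invFun := fun x => ⟨(x.1.1, x.2.1), Prod.ext x.1.2 x.2.2⟩
          left_inv := fun _ => rfl
          right_inv := fun _ => rfl }
    simp only [h3] at this
    rw [this]
    refine Nat.mul_le_mul_right _ (Fintype.one_lt_card_iff_nontrivial.2 ?_)
    obtain ⟨a, b, hab⟩ := (Fintype.one_lt_card_iff_nontrivial.1 (by omega : 1 < n)).exists_pair_ne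
    refine ⟨⟦(a, b)⟧, ⟦(a, a)⟧, fun h => ?_⟩
    obtain ⟨g, hg⟩ := Quotient.exact h
    exact hab ((congrArg Prod.fst hg).symm.trans (congrArg Prod.snd hg))
  have h3 : ∀ g, f g ≤ n := fun g => Fintype.card_subtype_le _
  have h4 : Nat.card {g : G // ∀ ω : Ω, g • ω ≠ ω} = (univ.filter fun g => f g = 0).card := by
    rw [← Fintype.card_subtype, ← Nat.card_eq_fintype_card]
    refine Nat.card_congr (Equiv.subtypeEquivRight fun g => ?_)
    rw [Fintype.card_eq_zero_iff, isEmpty_subtype]
    rfl
  set d := (univ.filter fun g => f g = 0).card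
  rw [h4, Nat.card_eq_fintype_card]
  let t : G → ℤ := fun g => (if f g = 0 then (n : ℤ) else 0) - ((f g : ℤ) - 1) * (f g - n)
  have h5 : ∀ g, 0 ≤ t g := fun g => by
    simp only [t]
    split_ifs with h
    · simp [h]
    · have := h3 g
      have : (1 : ℤ) ≤ f g := by omega
      nlinarith
  have h6 : ∑ g, t g = n * d - ((∑ g, f g ^ 2 : ℕ) - (n + 1) * (∑ g, f g : ℕ) + n * Fintype.card G) := by
    have e : ∑ g, ((f g : ℤ) - 1) * (f g - n) =
        (∑ g, f g ^ 2 : ℕ) - (n + 1) * (∑ g, f g : ℕ) + n * Fintype.card G := by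
      rw [sum_congr rfl (g := fun g => (f g : ℤ) ^ 2 - (n + 1) * f g + n) fun g _ => by ring]
      simp [sum_add_distrib, sum_sub_distrib, mul_sum, mul_comm]
    simp only [t, sum_sub_distrib, ← sum_filter, sum_const, nsmul_eq_mul, d, e]
    ring
  by_cases hlt : Fintype.card G < n * d
  · exact Or.inr hlt
  left
  have h7 := sum_nonneg fun g (_ : g ∈ univ) => h5 g
  rw [h1] at h6
  have h8 : (n * d : ℤ) ≤ Fintype.card G := by exact_mod_cast not_lt.1 hlt
  have h9 : (2 * Fintype.card G : ℤ) ≤ (∑ g, f g ^ 2 : ℕ) := by exact_mod_cast h2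
  have h10 : ∑ g, t g = 0 := by linarith
  have h11 : n * d = Fintype.card G := by
    have : (n * d : ℤ) = Fintype.card G := by linarith
    exact_mod_cast this
  have h12 : ∀ g, g ≠ 1 → f g ≤ 1 := fun g hg => by
    have h13 := (sum_eq_zero_iff_of_nonneg fun g _ => h5 g).1 h10 g (mem_univ g)
    by_contra h14
    have h15 : f g = n := by
      simp only [t, if_neg (show f g ≠ 0 by omega), zero_sub, neg_eq_zero, mul_eq_zero] at h13
      omega
    refine hg (eq_of_smul_eq_smul fun ω : Ω => ?_)
    have := (Fintype.bijective_iff_injective_and_card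
      (Subtype.val : fixedBy Ω g → Ω)).2 ⟨Subtype.val_injective, h15⟩
    obtain ⟨⟨_, h⟩, rfl⟩ := this.2 ω
    rw [one_smul]; exact h
  have h13 : f 1 = n := by simp [f, n]
  have h14 : n + (Fintype.card G - 1) = Fintype.card G + d := by
    have e1 : ∑ g ∈ univ.erase 1, (f g + if f g = 0 then 1 else 0) = Fintype.card G - 1 := by
      rw [sum_congr rfl (g := fun _ => 1) fun g hg => by
        have := h12 g (ne_of_mem_erase hg)
        split_ifs <;> omega]
      simp
    have e2 := add_sum_erase univ (fun g => f g + if f g = 0 then 1 else 0) (mem_univ (1 : G))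
    rw [e1, sum_add_distrib, h1, ← card_filter] at e2
    simpa [h13, show n ≠ 0 by omega] using e2
  have h15 : d = n - 1 := by have : 0 < Fintype.card G := Fintype.card_pos; omega
  refine ⟨⟨htr, ?_, fun g hg => Nat.card_eq_fintype_card (α := fixedBy Ω g) ▸ h12 g hg⟩,
    by rw [← h11, h15], h11⟩
  by_contra hc
  push Not at hc
  have : univ.erase 1 ⊆ univ.filter fun g => f g = 0 := fun g hg => by
    rw [mem_filter, Fintype.card_eq_zero_iff, isEmpty_subtype]
    exact ⟨mem_univ _, hc g (ne_of_mem_erase hg)⟩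
  have h16 := card_le_card this
  rw [card_erase_of_mem (mem_univ _), card_univ, ← h11] at h16
  change n * d - 1 ≤ d at h16
  have : 3 * d ≤ n * d := Nat.mul_le_mul_right _ hn
  omega

end Cfsg.Agent.S5729
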