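import Cfsg.Statements.S5730
import Cfsg.Agent.Der2.C
import Cfsg.Agent.S5729

set_option autoImplicit false
open Cfsg

namespace Cfsg.Agent.S5730

open MulAction Finset Cfsg.Agent.FG Cfsg.Agent.Der2

/-- Let a finite group G act faithfully and transitively on a set with n ≥ 7 points. Then either G is a Frobenius permutation group (Frobenius as a permutation group: transitive, some non-identity element fixes a point, and no non-identity element fixes two points) of order n(n − 1)/a with a ∈ {1, 2}, in which case exactly a|G|/n of its elements are derangements, or the number of derangements is at least 2|G|/n. (Equality does occur: PSL₃(2) acting on the 7 points of the Fano plane has exactly 2|G|/7 derangements.) -/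
theorem result {G Ω : Type*} [Group G] [Finite G] [MulAction G Ω] [FaithfulSMul G Ω] [Fintype Ω] (htr : MulAction.IsPretransitive G Ω) (hn : 7 ≤ Fintype.card Ω) :
    (∃ a : ℕ, (a = 1 ∨ a = 2) ∧ (MulAction.IsPretransitive G Ω ∧ (∃ g : G, g ≠ 1 ∧ ∃ ω : Ω, g • ω = ω) ∧ ∀ g : G, g ≠ 1 → Nat.card (MulAction.fixedBy Ω g) ≤ 1) ∧ a * Nat.card G = Fintype.card Ω * (Fintype.card Ω - 1) ∧ Fintype.card Ω * Nat.card {g : G // ∀ ω : Ω, g • ω ≠ ω} = a * Nat.card G) ∨
    2 * Nat.card G ≤ Fintype.card Ω * Nat.card {g : G // ∀ ω : Ω, g • ω ≠ ω} := by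
  classical
  haveI := Fintype.ofFinite G
  have hn' : 7 ≤ Nat.card Ω := by rwa [Nat.card_eq_fintype_card]
  haveI : Nonempty Ω := Fintype.card_pos_iff.1 (by omega)
  have h1 : ∑ g : G, (nfix Ω g : ℚ) = Nat.card G := by exact_mod_cast sum_nfix_eq (G := G) (Ω := Ω)
  have h2 : ∑ g : G, (nfix Ω g : ℚ) ^ 2 = norb G (Ω × Ω) * Nat.card G := by
    have := sum_nfix (G := G) (Ω := Ω × Ω)
    simp only [nfix_prod] at this
    exact_mod_cast this
  have h4 : Nat.card {g : G // ∀ ω : Ω, g • ω ≠ ω} = (univ.filter fun g : G => nfix Ω g = 0).card := by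
    rw [← Fintype.card_subtype, ← Nat.card_eq_fintype_card]
    exact Nat.card_congr (Equiv.subtypeEquivRight fun g => nfix_eq_zero.symm)
  have h5 := double_count (G := G) (Ω := Ω) fun _ => 1
  have h6 := double_count (G := G) (Ω := Ω) fun g => ((Nat.card Ω : ℚ) - nfix Ω g) / nfix Ω g
  simp only [mul_one, sum_sub_distrib, h1, h2] at h5
  have h7 : (Nat.card Ω : ℚ) * Nat.card {g : G // ∀ ω : Ω, g • ω ≠ ω} = (norb G (Ω × Ω) - 1) * Nat.card G +
      ∑ g : G, ((nfix Ω g : ℚ) ^ 2 - nfix Ω g) * (((Nat.card Ω : ℚ) - nfix Ω g) / nfix Ω g) := by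
    have e : ∀ g : G, ((nfix Ω g : ℚ) ^ 2 - nfix Ω g) * (((Nat.card Ω : ℚ) - nfix Ω g) / nfix Ω g) =
        (if nfix Ω g = 0 then (Nat.card Ω : ℚ) else 0) -
          ((nfix Ω g : ℚ) ^ 2 - (Nat.card Ω + 1) * nfix Ω g + Nat.card Ω) := fun g => by
      split_ifs with h
      · rw [h, Nat.cast_zero]; ring
      · have : (nfix Ω g : ℚ) ≠ 0 := by exact_mod_cast h
        field_simp
        ring
    simp only [e, sum_sub_distrib, sum_add_distrib, ← mul_sum, h1, h2, ← sum_filter, sum_const, nsmul_eq_mul,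
      card_univ, h4, ← Nat.card_eq_fintype_card]
    ring
  rw [← h6] at h7
  have h0 : ∀ p ∈ (univ : Finset Ω).offDiag,
      0 ≤ ∑ g with g ∈ St G p.1 p.2, ((Nat.card Ω : ℚ) - nfix Ω g) / nfix Ω g := fun p _ =>
    sum_nonneg fun g _ => div_nonneg (sub_nonneg.2 (by exact_mod_cast nfix_le g)) (Nat.cast_nonneg _)
  have hG : (0 : ℚ) < Nat.card G := by exact_mod_cast Nat.card_pos
  obtain ⟨a, b, hab⟩ := (Fintype.one_lt_card_iff_nontrivial.1 (by omega : 1 < Fintype.card Ω)).exists_pair_ne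
  have hd : ∀ c d : Ω, c ≠ d → (⟦(c, d)⟧ : orbitRel.Quotient G (Ω × Ω)) ≠ ⟦(a, a)⟧ := fun c d hcd h => by
    obtain ⟨g, hg⟩ := Quotient.exact h
    exact hcd ((congrArg Prod.fst hg).symm.trans (congrArg Prod.snd hg))
  have hr2 : 2 ≤ norb G (Ω × Ω) := Finite.one_lt_card_iff_nontrivial.2 ⟨_, _, hd a b hab⟩
  rw [← Nat.card_eq_fintype_card]
  by_cases hr : 3 ≤ norb G (Ω × Ω)
  · right
    have := sum_nonneg h0
    have hr' : (3 : ℚ) ≤ norb G (Ω × Ω) := by exact_mod_cast hr
    have : (2 : ℚ) * Nat.card G ≤ Nat.card Ω * Nat.card {g : G // ∀ ω : Ω, g • ω ≠ ω} := by nlinarith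
    exact_mod_cast this
  have hr3 : norb G (Ω × Ω) = 2 := by omega
  have hT : T2 G Ω := fun c d e f hcd hef => by
    by_contra hc
    haveI := Fintype.ofFinite (orbitRel.Quotient G (Ω × Ω))
    refine hr ?_
    rw [norb, Nat.card_eq_fintype_card]
    refine Fintype.two_lt_card_iff.2 ⟨⟦(e, f)⟧, ⟦(c, d)⟧, ⟦(a, a)⟧, fun h => ?_, hd e f hef, hd c d hcd⟩
    obtain ⟨g, hg⟩ := Quotient.exact h
    exact hc ⟨g, congrArg Prod.fst hg, congrArg Prod.snd hg⟩
  rw [hr3] at h5 h7
  by_cases hk : 2 ≤ Nat.card (St G a b)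
  · right
    have := sum_le_sum fun p (hp : p ∈ (univ : Finset Ω).offDiag) =>
      bound hT hn' (mem_offDiag.1 hp).2.2 (by rw [card_St hT hab (mem_offDiag.1 hp).2.2]; exact hk)
    have : (2 : ℚ) * Nat.card G ≤ Nat.card Ω * Nat.card {g : G // ∀ ω : Ω, g • ω ≠ ω} := by
      push_cast at h5 h7; linarith
    exact_mod_cast this
  left
  have h8 : ∑ p ∈ (univ : Finset Ω).offDiag,
      ∑ g with g ∈ St G p.1 p.2, ((Nat.card Ω : ℚ) - nfix Ω g) / nfix Ω g = 0 := by
    refine sum_eq_zero fun p hp => sum_eq_zero fun g hg => ?_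
    have e1 : Nat.card (St G p.1 p.2) ≤ 1 := by rw [card_St hT hab (mem_offDiag.1 hp).2.2]; omega
    have e2 : g = 1 := by
      have := Subgroup.eq_bot_of_card_le _ e1
      simpa [this] using hg
    rw [e2, nfix_one, sub_self, zero_div]
  have h9 : Nat.card Ω * Nat.card {g : G // ∀ ω : Ω, g • ω ≠ ω} = Nat.card G := by
    have : (Nat.card Ω : ℚ) * Nat.card {g : G // ∀ ω : Ω, g • ω ≠ ω} = Nat.card G := by
      rw [h7, h8]; push_cast; ring
    exact_mod_cast this
  rcases Cfsg.Agent.S5729.result htr (by omega) with h | h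
  · rw [← Nat.card_eq_fintype_card] at h
    exact ⟨1, Or.inl rfl, h.1, by rw [one_mul]; exact h.2.1, by rw [one_mul]; exact h.2.2⟩
  · rw [← Nat.card_eq_fintype_card] at h
    omega

end Cfsg.Agent.S5730
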