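import Cfsg.Statements.S5738

set_option autoImplicit false
open Cfsg

namespace Cfsg.Agent.S5738

theorem mem_iff {F K : Type*} [Field F] [Field K] [Algebra F K] (g : (Module.End F K)ˣ) :
    g ∈ (Units.map ((Algebra.lmul F K : K →ₐ[F] Module.End F K) : K →* Module.End F K)).range ↔
      ∀ x, g.1 x = g.1 1 * x := by
  refine ⟨fun ⟨c, hc⟩ x => by rw [← hc]; simp, fun h => ?_⟩
  have h0 : g.1 1 ≠ 0 := fun h0 => by
    have := congrArg (fun f : Module.End F K => f 1) g.inv_mul
    simp only [Module.End.mul_apply, h0, map_zero] at this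
    exact zero_ne_one this
  exact ⟨Units.mk0 _ h0, Units.ext (LinearMap.ext fun x => by rw [h x]; simp)⟩

/-- Let F ⊆ K be finite fields with |F| = q and [K : F] = n ≥ 2, so |K| = q^n. Regard K as an n-dimensional F-vector space; the multiplications by non-zero elements of K form a cyclic subgroup of GL_F(K) of order q^n − 1 acting regularly on the non-zero vectors (a Singer group). Its normaliser in GL_F(K) has order n·(q^n − 1). -/
theorem result {F K : Type*} [Field F] [Fintype F] [Field K] [Fintype K] [Algebra F K] (n : ℕ) (hn : 2 ≤ n) (hdim : Module.finrank F K = n) :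
    Nat.card (Subgroup.normalizer (((Units.map ((Algebra.lmul F K : K →ₐ[F] Module.End F K) : K →* Module.End F K)).range : Subgroup (Module.End F K)ˣ) : Set (Module.End F K)ˣ)) = n * (Fintype.card K - 1) := by
  set S := (Units.map ((Algebra.lmul F K : K →ₐ[F] Module.End F K) : K →* Module.End F K)).range with hS
  let e : Kˣ × (K ≃ₐ[F] K) → (Module.End F K)ˣ := fun p =>
    Units.map ((Algebra.lmul F K : K →ₐ[F] Module.End F K) : K →* Module.End F K) p.1 *
      LinearMap.GeneralLinearGroup.ofLinearEquiv p.2.toLinearEquiv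
  have he : ∀ p x, (e p).1 x = p.1 * p.2 x := fun p x => rfl
  have inv : ∀ (g : (Module.End F K)ˣ) x, g.1 (g⁻¹.1 x) = x := fun g x =>
    congrArg (fun f : Module.End F K => f x) g.mul_inv
  have inv' : ∀ (g : (Module.End F K)ˣ) x, g⁻¹.1 (g.1 x) = x := fun g x => inv g⁻¹ x
  haveI : Finite (Module.End F K) := DFunLike.finite _
  have hm : ∀ p, e p ∈ Subgroup.normalizer (S : Set (Module.End F K)ˣ) := fun p => by
    refine Subgroup.mem_normalizer_fintype fun s hs => (mem_iff _).2 fun x => ?_
    have hs' := (mem_iff _).1 hs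
    have k : ∀ y, (e p * s * (e p)⁻¹).1 y = p.2 (s.1 1) * y := fun y => by
      show (e p).1 (s.1 ((e p)⁻¹.1 y)) = _
      rw [hs', he, map_mul, mul_left_comm, ← he, inv]
    rw [k, k, mul_one]
  have hb : Function.Bijective (fun p => (⟨e p, hm p⟩ : Subgroup.normalizer (S : Set (Module.End F K)ˣ))) := by
    refine ⟨fun p q h => ?_, fun ⟨g, hg⟩ => ?_⟩
    · have h1 : ∀ x, (p.1 : K) * p.2 x = q.1 * q.2 x := fun x => by
        rw [← he, ← he, show e p = e q from congrArg Subtype.val h]
      have h2 : p.1 = q.1 := Units.ext (by simpa using h1 1)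
      exact Prod.ext h2 (AlgEquiv.ext fun x => mul_left_cancel₀ q.1.ne_zero (by rw [← h1, h2]))
    · have h0 : g.1 1 ≠ 0 := fun h0 => by
        have := inv' g 1
        rw [h0, map_zero] at this; exact zero_ne_one this
      have mul : ∀ x y, g.1 (x * y) * g.1 1 = g.1 x * g.1 y := fun x y => by
        rcases eq_or_ne x 0 with rfl | hx
        · simp
        have h1 := (mem_iff _).1 ((Subgroup.mem_normalizer_iff.1 hg _).1 (show _ ∈ S from ⟨Units.mk0 x hx, rfl⟩))
        set c := (g * Units.map ((Algebra.lmul F K : K →ₐ[F] Module.End F K) : K →* Module.End F K)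
          (Units.mk0 x hx) * g⁻¹).1 1
        have h2 : ∀ z, g.1 (x * z) = c * g.1 z := fun z => by
          rw [← h1]
          show _ = g.1 (x * g⁻¹.1 (g.1 z))
          rw [inv']
        have h3 := h2 1
        rw [mul_one] at h3
        rw [h2, h3]; ring
      let σ : K →ₐ[F] K := AlgHom.ofLinearMap ((g.1 1)⁻¹ • g.1 :) (by simp [h0]) fun x y => by
        simp only [LinearMap.smul_apply, smul_eq_mul]
        field_simp
        rw [mul_comm]; exact mul x y
      refine ⟨(Units.mk0 _ h0, AlgEquiv.ofBijective σ σ.bijective), Subtype.ext (Units.ext (LinearMap.ext fun x => ?_))⟩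
      show g.1 1 * ((g.1 1)⁻¹ * g.1 x) = g.1 x
      field_simp
  rw [← Nat.card_eq_of_bijective _ hb, Nat.card_prod, IsGalois.card_aut_eq_finrank, hdim, Nat.card_units,
    Nat.card_eq_fintype_card, mul_comm]

end Cfsg.Agent.S5738
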