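import Cfsg.Statements.S5739


set_option autoImplicit false
open Cfsg

namespace Cfsg.Agent.S5739

/-- Let F ⊆ K be finite fields with |F| = q and [K : F] = n ≥ 2, and let M ≤ GL_F(K) be the Singer group of multiplications by non-zero elements of K. If g ∈ GL_F(K) does not normalise M, then the order of M ∩ gMg⁻¹ divides q^r − 1 for some proper divisor r of n. In particular, when n is prime, that order divides q − 1. -/
theorem result {F K : Type*} [Field F] [Fintype F] [Field K] [Fintype K] [Algebra F K] (n : ℕ) (hn : 2 ≤ n) (hdim : Module.finrank F K = n)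
    (g : (Module.End F K)ˣ) (hg : ((Units.map ((Algebra.lmul F K : K →ₐ[F] Module.End F K) : K →* Module.End F K)).range).map (MulAut.conj g).toMonoidHom ≠ (Units.map ((Algebra.lmul F K : K →ₐ[F] Module.End F K) : K →* Module.End F K)).range) :
    ∃ r : ℕ, 1 ≤ r ∧ r ∣ n ∧ r < n ∧ Nat.card ↥(((Units.map ((Algebra.lmul F K : K →ₐ[F] Module.End F K) : K →* Module.End F K)).range).map (MulAut.conj g).toMonoidHom ⊓ (Units.map ((Algebra.lmul F K : K →ₐ[F] Module.End F K) : K →* Module.End F K)).range) ∣ Fintype.card F ^ r - 1 := by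
  classical
  set m : K →* Module.End F K := ((Algebra.lmul F K : K →ₐ[F] Module.End F K) : K →* Module.End F K) with hm
  have hinj : Function.Injective m := Algebra.lmul_injective
  let cg : Module.End F K →ₐ[F] Module.End F K :=
    { toFun := fun x => g.val * x * g⁻¹.val
      map_one' := by simp
      map_mul' := fun x y => by simp [mul_assoc]
      map_zero' := by simp
      map_add' := fun x y => by simp [mul_add, add_mul]
      commutes' := fun c => by simp [Algebra.algebraMap_eq_smul_one] }
  let A : Subalgebra F K := (cg.comp (Algebra.lmul F K)).range.comap (Algebra.lmul F K)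
  let L : IntermediateField F K := A.toIntermediateField' (Subalgebra.isField_of_algebraic A)
  have hmem : ∀ u : Kˣ, (u : K) ∈ L ↔ Units.map m u ∈ (Units.map m).range.map (MulAut.conj g).toMonoidHom := by
    intro u
    constructor
    · rintro ⟨b, hb⟩
      have hb' : g.val * m b * g⁻¹.val = m u := hb
      have b0 : b ≠ 0 := by
        rintro rfl
        have : m u = m 0 := by rw [← hb']; simp [hm]
        exact u.ne_zero (hinj this)
      exact ⟨_, ⟨Units.mk0 b b0, rfl⟩, Units.ext (by simpa using hb')⟩
    · rintro ⟨_, ⟨b, rfl⟩, hb⟩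
      exact ⟨b, (by simpa using congrArg Units.val hb : g.val * m b * g⁻¹.val = m u)⟩
  have hd : Module.finrank F L * Module.finrank L K = n := by rw [Module.finrank_mul_finrank, hdim]
  refine ⟨Module.finrank F L, Module.finrank_pos, ⟨_, hd.symm⟩, ?_, ?_⟩
  · rcases (Nat.le_of_dvd (by omega) ⟨_, hd.symm⟩ : Module.finrank F L ≤ n).lt_or_eq with h | h
    · exact h
    exfalso
    have hL : L = ⊤ := IntermediateField.eq_of_le_of_finrank_eq le_top (by simp [h, hdim])
    have : Finite (Module.End F K) := Finite.of_injective _ DFunLike.coe_injective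
    refine hg (Subgroup.eq_of_le_of_card_ge ?_ ?_).symm
    · rintro _ ⟨u, rfl⟩
      exact (hmem u).1 (hL ▸ trivial)
    · exact (Subgroup.card_map_of_injective (f := (MulAut.conj g).toMonoidHom) (MulAut.conj g).injective).le
  · let ψ : Lˣ →* (Module.End F K)ˣ := (Units.map m).comp (Units.map (L.val : L →* K))
    have h1 : (Units.map m).range.map (MulAut.conj g).toMonoidHom ⊓ (Units.map m).range ≤ ψ.range := by
      rintro _ ⟨h, u, rfl⟩
      exact ⟨Units.mk0 ⟨u, (hmem u).2 h⟩ (fun e => u.ne_zero (congrArg Subtype.val e)), Units.ext rfl⟩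
    refine (Subgroup.card_dvd_of_le h1).trans ((Subgroup.card_range_dvd ψ).trans ?_)
    rw [Nat.card_units, Nat.card_eq_fintype_card, Module.card_eq_pow_finrank (K := F)]

end Cfsg.Agent.S5739
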