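import Cfsg.Statements.S5747

set_option autoImplicit false
open Cfsg

namespace Cfsg.Agent.S5747

variable {G Ω : Type*} [Group G] [MulAction G Ω]

variable (G) in
def Irr (l : List Ω) : Prop := ∀ (i : ℕ) (h : i < l.length), ∃ g : G, (∀ a ∈ l.take i, g • a = a) ∧ g • l[i] ≠ l[i]

variable (G) in
def Bas (l : List Ω) : Prop := ∀ g : G, (∀ a ∈ l, g • a = a) → g = 1

theorem irr_snoc {l : List Ω} {y : Ω} : Irr G (l ++ [y]) ↔ Irr G l ∧ ∃ g : G, (∀ a ∈ l, g • a = a) ∧ g • y ≠ y := by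
  constructor
  · intro h
    refine ⟨fun i hi => ?_, ?_⟩
    · have := h i (by simp; omega)
      rwa [List.take_append_of_le_length hi.le, List.getElem_append_left hi] at this
    · simpa using h l.length (by simp)
  · rintro ⟨h1, h2⟩ i hi
    by_cases h : i < l.length
    · rw [List.take_append_of_le_length h.le, List.getElem_append_left h]; exact h1 i h
    · obtain rfl : i = l.length := by simp at hi; omega
      simpa using h2

theorem ofFn_iff {t : ℕ} (f : Fin t → Ω) : ((∀ g : G, (∀ i : Fin t, g • f i = f i) → g = 1) ∧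
    ∀ i : Fin t, ∃ g : G, (∀ j : Fin t, j < i → g • f j = f j) ∧ g • f i ≠ f i) ↔
    Bas G (List.ofFn f) ∧ Irr G (List.ofFn f) := by
  refine and_congr (forall_congr' fun g => by simp [List.mem_ofFn']) ⟨fun h i hi => ?_, fun h i => ?_⟩
  · obtain ⟨g, h1, h2⟩ := h ⟨i, by simpa using hi⟩
    refine ⟨g, fun a ha => ?_, by simpa using h2⟩
    obtain ⟨j, hj, rfl⟩ := List.mem_take_iff_getElem.1 ha
    simpa using h1 ⟨j, by simp at hj; omega⟩ (by simp at hj; exact hj.1)
  · obtain ⟨g, h1, h2⟩ := h i (by simp)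
    exact ⟨g, fun j hj => h1 _ (List.mem_take_iff_getElem.2 ⟨j, by simp; exact hj, by simp⟩), by simpa using h2⟩

theorem extract (l : List Ω) : ∃ l' : List Ω, Irr G l' ∧ (∀ g : G, (∀ a ∈ l', g • a = a) → ∀ a ∈ l, g • a = a) ∧
    (l'.length < l.length ∨ Irr G l) ∧ l'.length ≤ l.length := by
  induction l using List.reverseRecOn with
  | nil => exact ⟨[], fun i h => by simp at h, by simp, .inr fun i h => by simp at h, le_rfl⟩
  | append_singleton l y ih =>
    obtain ⟨l', h1, h2, h3, h4⟩ := ih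
    by_cases h : ∃ g : G, (∀ a ∈ l', g • a = a) ∧ g • y ≠ y
    · by_cases h' : ∃ g : G, (∀ a ∈ l, g • a = a) ∧ g • y ≠ y
      · refine ⟨l' ++ [y], irr_snoc.2 ⟨h1, h⟩, fun g hg a ha => ?_,
          h3.imp (by simp) fun h => irr_snoc.2 ⟨h, h'⟩, by simpa using h4⟩
        simp only [List.mem_append, List.mem_singleton] at ha hg
        exact ha.elim (h2 g (fun b hb => hg b (.inl hb)) a) fun e => hg a (.inr e)
      · obtain ⟨g, hg, hy⟩ := h
        exact absurd ⟨g, h2 g hg, hy⟩ h'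
    · refine ⟨l', h1, fun g hg a ha => ?_, .inl (by simp; omega), by simp; omega⟩
      simp only [List.mem_append, List.mem_singleton] at ha
      exact ha.elim (h2 g hg a) fun e => e ▸ by_contra fun h' => h ⟨g, hg, h'⟩

variable (G) in
def Ind (S : Finset Ω) : Prop := ∀ x ∈ S, ∃ g : G, (∀ b ∈ S, b ≠ x → g • b = b) ∧ g • x ≠ x

theorem Ind.irr {l : List Ω} {S : Finset Ω} (h : Ind G S) (hl : l.Nodup) (hS : ∀ a ∈ l, a ∈ S) : Irr G l :=
  fun i hi => by
    obtain ⟨g, h1, h2⟩ := h l[i] (hS _ (List.getElem_mem hi))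
    refine ⟨g, fun a ha => h1 a (hS a (List.mem_of_mem_take ha)) ?_, h2⟩
    obtain ⟨j, hj, rfl⟩ := List.mem_take_iff_getElem.1 ha
    intro e
    have := (List.Nodup.getElem_inj_iff hl).1 e
    omega

theorem card_eq [DecidableEq Ω]
    (H : ∀ l : List Ω, Bas G l → Irr G l → ∀ x ∈ l, ∃ g : G, (∀ b ∈ l, b ≠ x → g • b = b) ∧ g • x ≠ x)
    {T : Finset Ω} (hT : Ind G T) (hT' : ∀ g : G, (∀ a ∈ T, g • a = a) → g = 1) (n : ℕ) :
    ∀ S : Finset Ω, (S \ T).card = n → Ind G S → (∀ g : G, (∀ a ∈ S, g • a = a) → g = 1) → S.card = T.card := by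
  induction n with
  | zero =>
    intro S h0 h1 h2
    have h3 : S ⊆ T := Finset.sdiff_eq_empty_iff_subset.1 (Finset.card_eq_zero.1 h0)
    refine congrArg _ (h3.antisymm fun y hy => by_contra fun hy' => ?_)
    obtain ⟨g, h4, h5⟩ := hT y hy
    exact h5 (by rw [h2 g fun a ha => h4 a (h3 ha) fun e => hy' (e ▸ ha), one_smul])
  | succ n ih =>
    intro S h0 h1 h2
    obtain ⟨x, hx⟩ := Finset.card_pos.1 (show 0 < (S \ T).card by omega)
    obtain ⟨hxS, hxT⟩ := Finset.mem_sdiff.1 hx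
    obtain ⟨g, g1, g2⟩ := h1 x hxS
    obtain ⟨y, hy, g3⟩ : ∃ y ∈ T, g • y ≠ y := by
      by_contra h; push Not at h; exact g2 (by rw [hT' g h, one_smul])
    have hyS : y ∉ S := fun h => g3 (g1 y h fun e => hxT (e ▸ hy))
    have m : ∀ a, a ∈ (S.erase x).toList ++ [y] ↔ a ∈ insert y (S.erase x) := fun a => by simp [or_comm]
    have i1 : Irr G ((S.erase x).toList ++ [y]) := irr_snoc.2 ⟨h1.irr (Finset.nodup_toList _)
      fun a ha => Finset.mem_of_mem_erase (Finset.mem_toList.1 ha), g, fun a ha => by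
        rw [Finset.mem_toList, Finset.mem_erase] at ha; exact g1 a ha.2 ha.1, g3⟩
    have b1 : Bas G ((S.erase x).toList ++ [y]) := fun k hk => by
      by_contra hk1
      have k1 : k • x ≠ x := fun e => hk1 (h2 k fun a ha => by
        by_cases h : a = x
        · rw [h, e]
        · exact hk a (by simp [h, ha]))
      obtain ⟨u, u1, u2⟩ := H _ (fun u hu => h2 u fun a ha => hu a (by
        by_cases h : a = x <;> simp [h, ha])) (irr_snoc.2 ⟨i1, k, hk, k1⟩) y (by simp)
      exact u2 (by rw [h2 u fun a ha => u1 a (by by_cases h : a = x <;> simp [h, ha]) fun e => hyS (e ▸ ha),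
        one_smul])
    have := ih (insert y (S.erase x)) (by
        rw [Finset.insert_sdiff_of_mem _ hy, Finset.erase_sdiff_comm, Finset.card_erase_of_mem hx, h0]; rfl)
      (fun a ha => by
        obtain ⟨u, u1, u2⟩ := H _ b1 i1 a ((m a).2 ha)
        exact ⟨u, fun b hb => u1 b ((m b).2 hb), u2⟩) fun u hu => b1 u fun a ha => hu a ((m a).1 ha)
    rw [← this, Finset.card_insert_of_notMem fun h => hyS (Finset.mem_of_mem_erase h),
      Finset.card_erase_add_one hxS]

/-- Let a finite group G act on a finite set Ω. An irredundant base is a sequence of points ω₁, …, ω_t whose pointwise stabiliser is trivial and in which each ω_i is moved by some element fixing ω₁, …, ω_{i−1}. Then all irredundant bases have the same length if and only if every reordering of an irredundant base is again an irredundant base. -/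
theorem result {G Ω : Type*} [Group G] [Finite G] [MulAction G Ω] [Fintype Ω] :
    (∀ (t t' : ℕ) (f : Fin t → Ω) (f' : Fin t' → Ω), ((∀ g : G, (∀ i : Fin t, g • f i = f i) → g = 1) ∧ ∀ i : Fin t, ∃ g : G, (∀ j : Fin t, j < i → g • f j = f j) ∧ g • f i ≠ f i) → ((∀ g : G, (∀ i : Fin t', g • f' i = f' i) → g = 1) ∧ ∀ i : Fin t', ∃ g : G, (∀ j : Fin t', j < i → g • f' j = f' j) ∧ g • f' i ≠ f' i) → t = t') ↔
    (∀ (t : ℕ) (f : Fin t → Ω) (σ : Equiv.Perm (Fin t)), ((∀ g : G, (∀ i : Fin t, g • f i = f i) → g = 1) ∧ ∀ i : Fin t, ∃ g : G, (∀ j : Fin t, j < i → g • f j = f j) ∧ g • f i ≠ f i) → ((∀ g : G, (∀ i : Fin t, g • (f ∘ σ) i = (f ∘ σ) i) → g = 1) ∧ ∀ i : Fin t, ∃ g : G, (∀ j : Fin t, j < i → g • (f ∘ σ) j = (f ∘ σ) j) ∧ g • (f ∘ σ) i ≠ (f ∘ σ) i)) := by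
  classical
  constructor
  · intro h t f σ hf
    have hb : ∀ g : G, (∀ i : Fin t, g • (f ∘ σ) i = (f ∘ σ) i) → g = 1 := fun g hg =>
      hf.1 g fun i => by simpa using hg (σ.symm i)
    obtain ⟨l, h1, h2, h3, -⟩ := extract (G := G) (List.ofFn (f ∘ σ))
    have hb' : Bas G (List.ofFn (f ∘ σ)) := fun g hg => hb g fun i => hg _ (by simp [List.mem_ofFn'])
    refine (ofFn_iff _).2 ⟨hb', h3.resolve_left fun h4 => ?_⟩
    have := h _ _ f l.get hf ((ofFn_iff _).2 (by
      rw [List.ofFn_get]; exact ⟨fun g hg => hb' g (h2 g hg), h1⟩))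
    simp at h4; omega
  · intro h
    have key : ∀ (t : ℕ) (f : Fin t → Ω), ((∀ g : G, (∀ i : Fin t, g • f i = f i) → g = 1) ∧
        ∀ i : Fin t, ∃ g : G, (∀ j : Fin t, j < i → g • f j = f j) ∧ g • f i ≠ f i) →
        ∀ i, ∃ g : G, (∀ j, j ≠ i → g • f j = f j) ∧ g • f i ≠ f i := fun t f hf i => by
      obtain ⟨n, rfl⟩ : ∃ n, t = n + 1 := ⟨t - 1, by have := i.pos; omega⟩
      obtain ⟨g, h1, h2⟩ := (h _ f (Equiv.swap i (Fin.last n)) hf).2 (Fin.last n)
      refine ⟨g, fun j hj => ?_, by simpa using h2⟩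
      have := h1 (Equiv.swap i (Fin.last n) j) (Fin.lt_last_iff_ne_last.2 fun e => hj (by
        rw [Equiv.swap_apply_eq_iff, Equiv.swap_apply_right] at e; exact e))
      simpa using this
    have H : ∀ l : List Ω, Bas G l → Irr G l → ∀ x ∈ l, ∃ g : G, (∀ b ∈ l, b ≠ x → g • b = b) ∧ g • x ≠ x :=
      fun l h1 h2 x hx => by
        obtain ⟨i, rfl⟩ := List.mem_iff_get.1 hx
        obtain ⟨g, g1, g2⟩ := key _ l.get ((ofFn_iff _).2 (by rw [List.ofFn_get]; exact ⟨h1, h2⟩)) i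
        refine ⟨g, fun b hb hne => ?_, g2⟩
        obtain ⟨j, rfl⟩ := List.mem_iff_get.1 hb
        exact g1 j fun e => hne (e ▸ rfl)
    have k2 : ∀ (t : ℕ) (f : Fin t → Ω), ((∀ g : G, (∀ i : Fin t, g • f i = f i) → g = 1) ∧
        ∀ i : Fin t, ∃ g : G, (∀ j : Fin t, j < i → g • f j = f j) ∧ g • f i ≠ f i) →
        (Finset.univ.image f).card = t ∧ Ind G (Finset.univ.image f) ∧
          ∀ g : G, (∀ a ∈ Finset.univ.image f, g • a = a) → g = 1 := fun t f hf => by
      refine ⟨?_, fun x hx => ?_, fun g hg => hf.1 g fun i => hg _ (by simp)⟩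
      · rw [Finset.card_image_of_injective _ fun i j e => by_contra fun hne => ?_]
        · simp
        · obtain ⟨g, g1, g2⟩ := key t f hf j
          exact g2 (e ▸ g1 i hne)
      · obtain ⟨i, -, rfl⟩ := Finset.mem_image.1 hx
        obtain ⟨g, g1, g2⟩ := key t f hf i
        refine ⟨g, fun b hb hne => ?_, g2⟩
        obtain ⟨j, -, rfl⟩ := Finset.mem_image.1 hb
        exact g1 j fun e => hne (e ▸ rfl)
    intro t t' f f' hf hf'
    obtain ⟨a1, a2, a3⟩ := k2 t f hf
    obtain ⟨b1, b2, b3⟩ := k2 t' f' hf'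
    rw [← a1, ← b1]
    exact card_eq H b2 b3 _ _ rfl a2 a3

end Cfsg.Agent.S5747
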