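import Cfsg.Statements.S5748
import Cfsg.Agent.AB.CA2
import Cfsg.Agent.S0205

set_option autoImplicit false
open Cfsg

namespace Cfsg.Agent.S5748

/-- A finite non-abelian simple group in which commuting is a transitive relation on the non-identity elements (equivalently, every non-identity element has abelian centraliser) is isomorphic to PSL₂ over a field with 2^f elements for some f ≥ 2; conversely these groups have that property. -/
theorem result {G : Type*} [Group G] [Finite G] [IsSimpleGroup G] (hG : ¬ IsMulCommutative G) :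
    (∀ a b c : G, a ≠ 1 → b ≠ 1 → c ≠ 1 → Commute a b → Commute b c → Commute a c) ↔
    ∃ (F : Type) (_ : Field F) (_ : Fintype F) (f : ℕ), 2 ≤ f ∧ Fintype.card F = 2 ^ f ∧ Nonempty (G ≃* Matrix.ProjectiveSpecialLinearGroup (Fin 2) F) := by
  refine ⟨fun h => ?_, ?_⟩
  · obtain ⟨T⟩ : Nonempty (Sylow 2 G) := inferInstance
    have hs : ¬ Group.IsSolvable G := fun hs => hG ⟨⟨(IsSimpleGroup.comm_iff_isSolvable.2 hs)⟩⟩
    have he : Even (Nat.card G) := Nat.not_odd_iff_even.1 fun k => hs (S0205.result k)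
    have hT : (T : Subgroup G) ≠ ⊥ := T.ne_bot_of_dvd_card he.two_dvd
    have hn : (T : Subgroup G) ≠ ⊤ := fun e => by
      have := (T.2.of_equiv (e ▸ Subgroup.topEquiv)).isNilpotent
      exact hs inferInstance
    have hZ : Subgroup.center G = ⊥ := (IsSimpleGroup.eq_bot_or_eq_top_of_normal _
      inferInstance).resolve_right fun e => hG ⟨⟨fun a b =>
        Subgroup.mem_center_iff.1 (e ▸ Subgroup.mem_top b) a⟩⟩
    have k := (AB.ca_of_sylow T (fun hc => ?_) (fun hN => ?_) fun t ht => ⟨⟨fun a b => Subtype.ext ?_⟩⟩).1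
    · obtain ⟨F, _, _, h3, h2, ⟨e⟩⟩ := k.equiv_prod
      have : CharP F 2 := CharTwo.of_one_ne_zero_of_two_eq_zero one_ne_zero h2
      obtain ⟨f, -, hf⟩ := FiniteField.card F 2
      have : Unique (Subgroup.center G) := hZ ▸ inferInstance
      refine ⟨F, _, _, f, ?_, hf, ⟨(e.trans MulEquiv.prodUnique).trans (Classical.slEquivPSL h2)⟩⟩
      by_contra hlt
      rw [hf, show (f : ℕ) = 1 by have := f.pos; omega] at h3
      omega
    · have k := hc.isComplement' (Nat.minFac_eq_two_iff _ |>.2 he.two_dvd)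
      rcases IsSimpleGroup.eq_bot_or_eq_top_of_normal _ (MonoidHom.normal_ker (MonoidHom.transferSylow T
        (hc.normalizer_le_centralizer (Nat.minFac_eq_two_iff _ |>.2 he.two_dvd)))) with e | e
      · exact hn (Subgroup.isComplement'_bot_left.1 (e ▸ k))
      · exact hT (Subgroup.isComplement'_top_left.1 (e ▸ k))
    · exact (IsSimpleGroup.eq_bot_or_eq_top_of_normal _ hN).elim hT hn
    · by_cases ha : (a : G) = 1
      · simp [ha]
      by_cases hb : (b : G) = 1
      · simp [hb]
      exact h a t b ha (Invol.ne_one_of ht) hb (BG.mem_cent1.1 a.2) (BG.mem_cent1.1 b.2).symm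
  rintro ⟨F, _, _, f, hf, hF, ⟨e⟩⟩ a b c - hb - hab hbc
  have h2 : (2 : F) = 0 := Classical.two_eq_zero_iff_even.2 (by
    rw [Nat.card_eq_fintype_card, hF]; exact (Nat.even_pow.2 ⟨even_two, by omega⟩))
  let φ := e.trans (Classical.slEquivPSL h2).symm
  refine φ.injective ?_
  rw [map_mul, map_mul]
  exact Classical.sl_commute_of_mem_centralizer (g := φ b) (fun k => hb (φ.map_eq_one_iff.1
    ((Classical.sl_isScal_iff.1 k).elim id fun k => k.trans (Classical.sl_neg_one_eq_one h2))))
    (BG.mem_cent1.2 (hab.map φ)) (BG.mem_cent1.2 (hbc.symm.map φ))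

end Cfsg.Agent.S5748
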