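import Cfsg.Statements.S5751
import Cfsg.Agent.FI.Core2
import Cfsg.Agent.Chev.AllC
import Cfsg.Agent.Chev.AllL

set_option autoImplicit false
open Cfsg

namespace Cfsg.Agent.S5751

open Cfsg.Agent.Chev Cfsg.Agent.FI.Core Cfsg.Lie

/-- An extremal example for iterated cores of conjugate maximal subgroups: there exist a finite group G and two distinct conjugate maximal subgroups M₁, M₂ of G, with M₁ having trivial core in G, such that, if we define two descending sequences of subgroups by A₀ = M₁, B₀ = M₂ and, for every i, A_{i+1} = the core in M₁ of A_i ∩ B_i and B_{i+1} = the core in M₂ of A_i ∩ B_i (the core in M of a subgroup Y ≤ M is the largest normal subgroup of M contained in Y), the subgroup A₆ is trivial while A₅ is not (so the index 6 cannot be lowered to 5). (One example is a maximal parabolic subgroup of the Chevalley group of type E₈ over a finite field and a suitable conjugate of it.) -/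
theorem result :
    ∃ (G : Type) (_ : Group G) (_ : Finite G) (M₁ M₂ : Subgroup G) (g : G) (A B : ℕ → Subgroup G),
      IsCoatom M₁ ∧ M₂ = M₁.map (MulAut.conj g).toMonoidHom ∧ M₁ ≠ M₂ ∧ M₁.normalCore = ⊥ ∧ A 0 = M₁ ∧ B 0 = M₂ ∧
      (∀ i, A (i + 1) = ((A i ⊓ B i).subgroupOf M₁).normalCore.map M₁.subtype) ∧
      (∀ i, B (i + 1) = ((A i ⊓ B i).subgroupOf M₂).normalCore.map M₂.subtype) ∧ A 6 = ⊥ ∧ A 5 ≠ ⊥ := by
  let j : Sm chevE8 := ⟨3, by decide⟩
  have f1 : ∀ r : Rt chevE8, rtv r j ≤ 6 ∧ (2 ≤ rtv r j → car j r ≤ 1) := by decide +kernel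
  have f5 : rtv (⟨239, by decide⟩ : Rt chevE8) j = 6 := by decide +kernel
  have c := grCover chevE8 (ZMod 2)
  have hX := grS_U_univ chevE8 (ZMod 2)
  have hs := (simple_group chevE8 (ZMod 2) (.inr (lace_of_mem (by simp)))).1
  refine ⟨chevE8.group (ZMod 2), inferInstance, inferInstance, (grS chevE8 (ZMod 2)).P {j}ᶜ, _,
    (grS chevE8 (ZMod 2)).n (sm j) 1, sq _ ((grS chevE8 (ZMod 2)).n (sm j) 1), fun i => (sq _ _ i).map _, coatom c hX, rfl,
    P_ne c, ?_, rfl, rfl, fun _ => rfl, sq_map nn, ?_, fun h => ?_⟩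
  · refine (hs.eq_bot_or_eq_top_of_normal _ inferInstance).resolve_right fun h => (coatom c hX (j := j)).1 ?_
    exact eq_top_iff.2 (h.ge.trans (Subgroup.normalCore_le _))
  · refine le_bot_iff.1 ((sq_le c (by decide +kernel) (by decide +kernel) (by decide +kernel) 5).trans ?_)
    rw [← (grS chevE8 (ZMod 2)).U_empty]
    exact Sys.U_mono _ fun r hr => by have := hr.1; have := (f1 r).1; omega
  · have := le_sq (fun r => (f1 r).2) 5 ((grS chevE8 (ZMod 2)).x_mem_U (S := S j _ ∅) (And.intro f5.ge id) 1)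
    exact one_ne_zero (c.x_eq_one (h.le this))

end Cfsg.Agent.S5751
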