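import Cfsg.Statements.S5752
import Cfsg.Agent.Loc.Bender

set_option autoImplicit false
open Cfsg

namespace Cfsg.Agent.S5752

open Subgroup Cfsg.Agent.Loc Cfsg.Agent.Sig Cfsg.Agent.Gen


open scoped commutatorElement

variable {G : Type*} [Group G]

/-- the core of `Y` in `M` -/
abbrev cr (Y M : Subgroup G) : Subgroup G := (Y.subgroupOf M).normalCore.map M.subtype

theorem cr_le (Y M : Subgroup G) : cr Y M ≤ Y := by
  refine (map_mono (normalCore_le _)).trans ?_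
  rw [subgroupOf_map_subtype]
  exact inf_le_left

theorem cr_norm (Y M : Subgroup G) : M ≤ normalizer (cr Y M : Set G) :=
  normal_map_subtype inferInstance

theorem le_cr {Y M N : Subgroup G} (h₁ : N ≤ Y) (h₂ : N ≤ M) (h₃ : M ≤ normalizer (N : Set G)) :
    N ≤ cr Y M := by
  have hn : (N.subgroupOf M).Normal := (normal_subgroupOf_iff_le_normalizer h₂).2 h₃
  have : N.subgroupOf M ≤ (Y.subgroupOf M).normalCore :=
    normal_le_normalCore.2 (comap_mono h₁)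
  refine le_trans ?_ (map_mono this)
  rw [subgroupOf_map_subtype]
  exact le_inf le_rfl h₂

variable [Finite G] {p : ℕ}

theorem norm_res {B U P : Subgroup G} (hUB : U ≤ B) (hn : B ≤ normalizer (U : Set G))
    (hU : pResidualOf p U = U) (hP : P ≤ normalizer (B : Set G)) (hc : ⁅P, B⁆ ≤ pcIn p B) :
    P ≤ normalizer (U : Set G) := by
  have h1 : P ≤ normalizer ((U ⊔ pcIn p B : Subgroup G) : Set G) := by
    refine le_normalizer_of_cj_le fun g hg => ?_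
    rw [cj_sup]
    refine sup_le ?_ ((cj_eq_of_mem_normalizer (le_normalizer_pcIn hP hg)).le.trans le_sup_right)
    rw [cj_le_iff_forall]
    intro x hx
    have := mul_mem (mem_sup_right (S := U) (hc (commutator_mem_commutator hg (hUB hx))))
      (mem_sup_left (T := pcIn p B) hx)
    rw [commutatorElement_def] at this
    convert this using 1
    group
  have h2 : pResidualOf p (U ⊔ pcIn p B) = U :=
    le_antisymm (pResidualOf_le_of_le_sup isPGroup_pcIn (pcIn_le.trans hn) le_rfl)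
      (hU.ge.trans (pResidualOf_mono le_sup_left))
  have := h1.trans (normalizer_le_normalizer_pResidualOf p _)
  rwa [h2] at this

theorem prim_cj {M : Subgroup G} (h : Prim M) (g : G) : Prim (cj g M) := by
  refine ⟨fun e => h.1 (cj_eq_top_iff.1 e), fun N hN hn h0 => ?_⟩
  obtain ⟨B, rfl⟩ : ∃ B, N = cj g B := ⟨cj g⁻¹ N, (cj_cj_inv g N).symm⟩
  rw [← cj_normalizer] at hn ⊢
  rw [cj_le_cj_iff] at hN hn
  rw [h.2 B hN hn (fun e => h0 (cj_eq_bot_iff.2 e))]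

theorem isPGroup_two [Fact p.Prime] {M₁ M₂ X : Subgroup G} (h₁ : Prim M₁) (h₂ : Prim M₂)
    (hne : M₁ ≠ M₂) (hcard : Nat.card (pcIn p M₁) = Nat.card (pcIn p M₂)) (h0 : pcIn p M₁ ≠ ⊥)
    (hX : X ≤ cr (M₁ ⊓ M₂) M₂) (hn : M₁ ≤ normalizer (X : Set G)) : IsPGroup p X := by
  by_contra hcon
  obtain ⟨B, hB⟩ : ∃ B, B = cr (M₁ ⊓ M₂) M₂ := ⟨_, rfl⟩
  have hBH : B ≤ M₁ ⊓ M₂ := hB ▸ cr_le _ _
  have hBn : M₂ ≤ normalizer (B : Set G) := hB ▸ cr_norm _ _
  rw [← hB] at hX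
  obtain ⟨U, hU⟩ : ∃ U, U = pResidualOf p X := ⟨_, rfl⟩
  have hU0 : U ≠ ⊥ := fun e => hcon (isPGroup_of_pResidualOf_eq_bot (hU ▸ e))
  have hUB : U ≤ B := hU ▸ (pResidualOf_le p X).trans hX
  have hUU : pResidualOf p U = U := by rw [hU, pResidualOf_pResidualOf]
  have hUn : normalizer (U : Set G) = M₁ :=
    h₁.2 U (hUB.trans (hBH.trans inf_le_left))
      (hU ▸ hn.trans (normalizer_le_normalizer_pResidualOf p X)) hU0
  have key : ∀ Y : Subgroup G, B ≤ Y → Y ≤ M₂ → ∀ m ∈ M₂, pcIn p Y ≤ cj m M₁ := by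
    intro Y hBY hY m hm
    have hBm : cj m B = B := cj_eq_of_mem_normalizer (hBn hm)
    rw [← hUn, cj_normalizer]
    refine norm_res (p := p) (B := B) (hBm ▸ cj_mono m hUB) ?_ ?_ (pcIn_le.trans (hY.trans hBn)) ?_
    · rw [← cj_normalizer, hUn]
      exact hBm ▸ cj_mono m (hBH.trans inf_le_left)
    · rw [← cj_pResidualOf, hUU]
    · refine (commutator_le_inf_of_normalizes (pcIn_le.trans (hY.trans hBn))
        (hBY.trans (le_normalizer_pcIn le_normalizer))).trans (pcIn_inf_le hBY)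
  have k1 : pcIn p M₂ ≤ M₁ := by
    have := key M₂ (hBH.trans inf_le_right) le_rfl 1 (one_mem _)
    rwa [cj_one] at this
  have k2 : pcIn p (M₁ ⊓ M₂) ≤ pcIn p M₂ := by
    have h3 : pcIn p (M₁ ⊓ M₂) ≤ ⨆ m : M₂, cj (m : G) (pcIn p (M₁ ⊓ M₂)) := le_iSup_cj _ _
    have h4 : (⨆ m : M₂, cj (m : G) (pcIn p (M₁ ⊓ M₂))) ≤ B := by
      rw [hB]
      refine le_cr (iSup_le fun m => le_inf ?_ (cj_le_of_mem m.2 (pcIn_le.trans inf_le_right)))
        (iSup_cj_le (pcIn_le.trans inf_le_right) le_normalizer) (Loc.le_normalizer_iSup_cj _ _)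
      rw [cj_le_iff]
      exact key _ hBH inf_le_right _ (inv_mem m.2)
    exact (le_inf le_rfl (h3.trans h4)).trans ((pcIn_inf_le hBH).trans
      (pcIn_mono (SubnIn.of_normal (hBH.trans inf_le_right) hBn)))
  have hP2 : pcIn p M₂ ≠ ⊥ := by
    intro e
    rw [e, card_bot] at hcard
    exact h0 (eq_bot_of_card_eq _ hcard)
  have hN2 : normalizer (pcIn p M₂ : Set G) = M₂ :=
    h₂.2 _ pcIn_le (le_normalizer_pcIn le_normalizer) hP2
  have hS : IsPGroup p (pcIn p M₁ ⊔ pcIn p M₂ : Subgroup G) :=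
    IsPGroup.to_sup_of_normal_left' isPGroup_pcIn isPGroup_pcIn
      (k1.trans (le_normalizer_pcIn le_normalizer))
  have k3 : pcIn p M₂ = pcIn p M₁ ⊔ pcIn p M₂ := by
    refine eq_of_inf_normalizer_le hS le_sup_right ?_
    rw [hN2, sup_inf_of_le_right (k1.trans (le_normalizer_pcIn le_normalizer)) pcIn_le]
    refine sup_le (le_trans ?_ k2) le_rfl
    exact (le_inf inf_le_left (inf_le_inf_right _ pcIn_le)).trans (pcIn_inf_le inf_le_left)
  have k4 : pcIn p M₁ = pcIn p M₂ :=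
    eq_of_le_of_card_ge (le_sup_left.trans k3.ge) hcard.ge
  apply hne
  rw [← hN2, ← k4]
  exact (h₁.2 _ pcIn_le (le_normalizer_pcIn le_normalizer) h0).symm

theorem lead {M₁ M₂ X : Subgroup G} (h₁ : Prim M₁) (hX₁ : X ≤ M₁) (hn : M₁ ≤ normalizer (X : Set G))
    (hX₂ : SubnIn X M₂) (h0 : X ≠ ⊥) :
    (fitIn M₂ ≠ ⊥ → Leads M₂ M₁) ∧ (fitIn M₂ = ⊥ → fstarIn M₂ ≤ M₁) := by
  have hL : layerIn M₂ ≤ M₁ := h₁.2 X hX₁ hn h0 ▸ layerIn_le_normalizer_of_subnIn hX₂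
  refine ⟨fun hF => ⟨hF, hL, fun r hr => ?_⟩, fun hF => by rw [fstarIn_eq, hF, sup_bot_eq]; exact hL⟩
  haveI : Fact r.Prime := ⟨hr⟩
  refine ⟨pcIn r M₂ ⊓ M₁, inf_le_left, inf_le_right, le_inf inf_le_left ?_⟩
  by_cases hr0 : pcIn r X = ⊥
  · refine inf_le_left.trans ?_
    by_cases hl : layerIn X = ⊥
    · have hf : fitIn X ≠ ⊥ := fun e => h0 (fstarIn_eq_bot_iff.1 (by rw [fstarIn_eq, hl, e, sup_bot_eq]))
      have hq : ppIn r X ≠ ⊥ := fun e => hf (by rw [fitIn_eq_pcIn e, hr0])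
      refine h₁.le_of_le_centralizer (ppIn_le.trans hX₁) (le_normalizer_ppIn hn) hq ?_
      exact (commutator_eq_bot_iff_le_centralizer.1 commutator_pcIn_ppIn).trans
        (centralizer_anti (ppIn_mono hX₂))
    · refine h₁.le_of_le_centralizer ((layerIn_le _).trans hX₁) (le_normalizer_layerIn hn) hl ?_
      exact (commutator_eq_bot_iff'.1 commutator_layerIn_pcIn).trans
        (centralizer_anti (layerIn_mono hX₂))
  · refine h₁.le_of_le_centralizer (pcIn_le.trans hX₁) (le_normalizer_pcIn hn) hr0 ?_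
    exact inf_le_right.trans (centralizer_anti (le_inf (pcIn_mono hX₂) (pcIn_le.trans hX₁)))

/-- A form of the Thompson–Wielandt Theorem on primitive permutation groups. Let G be a finite group and M₁, M₂ two distinct conjugate maximal subgroups of G with trivial core in G; define two descending sequences of subgroups by A₀ = M₁, B₀ = M₂ and, for every i, A_{i+1} = the core in M₁ of A_i ∩ B_i and B_{i+1} = the core in M₂ of A_i ∩ B_i (the core in M of a subgroup Y ≤ M is the largest normal subgroup of M contained in Y). If A₂ and B₂ are both non-trivial, then for some prime p the subgroup generated by A₂ and B₂ is a p-group, and for each j the generalized Fitting subgroups of M_j and of its first core (A₁, resp. B₁) are their largest normal p-subgroups. -/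
theorem result {G : Type*} [Group G] [Finite G] (M₁ M₂ : Subgroup G) (hmax : IsCoatom M₁) (g : G)
    (hconj : M₂ = M₁.map (MulAut.conj g).toMonoidHom) (hne : M₁ ≠ M₂) (hcore : M₁.normalCore = ⊥)
    (A B : ℕ → Subgroup G) (hA0 : A 0 = M₁) (hB0 : B 0 = M₂)
    (hA : ∀ i, A (i + 1) = ((A i ⊓ B i).subgroupOf M₁).normalCore.map M₁.subtype)
    (hB : ∀ i, B (i + 1) = ((A i ⊓ B i).subgroupOf M₂).normalCore.map M₂.subtype) (hA2 : A 2 ≠ ⊥) (hB2 : B 2 ≠ ⊥) :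
    ∃ p : ℕ, p.Prime ∧ IsPGroup p ↥(A 2 ⊔ B 2) ∧
      Cfsg.generalizedFittingSubgroup ↥M₁ = Cfsg.pCore p ↥M₁ ∧ Cfsg.generalizedFittingSubgroup ↥(A 1) = Cfsg.pCore p ↥(A 1) ∧
      Cfsg.generalizedFittingSubgroup ↥M₂ = Cfsg.pCore p ↥M₂ ∧ Cfsg.generalizedFittingSubgroup ↥(B 1) = Cfsg.pCore p ↥(B 1) := by
  have h₁ : Prim M₁ := by
    refine ⟨hmax.1, fun N hle hn hN => ?_⟩
    rcases hmax.le_iff.1 hn with h | h
    · haveI := normal_of_top_le_normalizer h.ge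
      exact absurd (eq_bot_iff.2 (hcore ▸ normal_le_normalCore.2 hle)) hN
    · exact h
  have hc : M₂ = cj g M₁ := hconj
  have h₂ : Prim M₂ := hc ▸ prim_cj h₁ g
  have a1 : A 1 = cr (M₁ ⊓ M₂) M₁ := by rw [hA 0, hA0, hB0]
  have b1 : B 1 = cr (M₁ ⊓ M₂) M₂ := by rw [hB 0, hA0, hB0]
  have a2 : A 2 = cr (A 1 ⊓ B 1) M₁ := hA 1
  have b2 : B 2 = cr (A 1 ⊓ B 1) M₂ := hB 1
  have a1H : A 1 ≤ M₁ ⊓ M₂ := a1 ▸ cr_le _ _
  have b1H : B 1 ≤ M₁ ⊓ M₂ := b1 ▸ cr_le _ _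
  have a1n : M₁ ≤ normalizer (A 1 : Set G) := a1 ▸ cr_norm _ _
  have b1n : M₂ ≤ normalizer (B 1 : Set G) := b1 ▸ cr_norm _ _
  have a2K : A 2 ≤ A 1 ⊓ B 1 := a2 ▸ cr_le _ _
  have b2K : B 2 ≤ A 1 ⊓ B 1 := b2 ▸ cr_le _ _
  have a2n : M₁ ≤ normalizer (A 2 : Set G) := a2 ▸ cr_norm _ _
  have b2n : M₂ ≤ normalizer (B 2 : Set G) := b2 ▸ cr_norm _ _
  have sa1 : SubnIn (A 1) M₁ := SubnIn.of_normal (a1H.trans inf_le_left) a1n
  have sb1 : SubnIn (B 1) M₂ := SubnIn.of_normal (b1H.trans inf_le_right) b1n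
  have sa2 : SubnIn (A 2) M₂ :=
    (SubnIn.of_normal (a2K.trans inf_le_right) ((b1H.trans inf_le_left).trans a2n)).trans sb1
  have sb2 : SubnIn (B 2) M₁ :=
    (SubnIn.of_normal (b2K.trans inf_le_left) ((a1H.trans inf_le_right).trans b2n)).trans sa1
  have l1 := lead h₁ (a2K.trans (inf_le_left.trans (a1H.trans inf_le_left))) a2n sa2 hA2
  have l2 := lead h₂ (b2K.trans (inf_le_right.trans (b1H.trans inf_le_right))) b2n sb2 hB2
  have hF : fitIn M₂ = ⊥ ↔ fitIn M₁ = ⊥ := by rw [hc, ← cj_fitIn, cj_eq_bot_iff]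
  obtain ⟨p, hp, p1, p2⟩ : ∃ p : ℕ, p.Prime ∧ IsPGroup p (fstarIn M₁) ∧ IsPGroup p (fstarIn M₂) := by
    by_cases h : fitIn M₁ = ⊥
    · exact (PPair.of_prim h₁ h₂ hne).exists_charP (l2.2 h) (l1.2 (hF.2 h))
    · exact (l2.1 h).bender (l1.1 (mt hF.1 h)) h₁ h₂ hne
  haveI : Fact p.Prime := ⟨hp⟩
  have e1 := fstarIn_eq_pcIn_iff_isPGroup.2 p1
  have e2 := fstarIn_eq_pcIn_iff_isPGroup.2 p2
  have hcard : Nat.card (pcIn p M₁) = Nat.card (pcIn p M₂) := by rw [hc, ← cj_pcIn, card_cj]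
  have n1 : pcIn p M₁ ≠ ⊥ := fun e =>
    hB2 (eq_bot_iff.2 (sb2.le.trans (fstarIn_eq_bot_iff.1 (e1.trans e)).le))
  have n2 : pcIn p M₂ ≠ ⊥ := fun e =>
    hA2 (eq_bot_iff.2 (sa2.le.trans (fstarIn_eq_bot_iff.1 (e2.trans e)).le))
  have q1 : IsPGroup p (A 2) :=
    isPGroup_two h₁ h₂ hne hcard n1 (b1 ▸ a2K.trans inf_le_right) a2n
  have q2 : IsPGroup p (B 2) :=
    isPGroup_two h₂ h₁ hne.symm hcard.symm n2 (by rw [inf_comm, ← a1]; exact b2K.trans inf_le_left) b2n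
  refine ⟨p, hp, IsPGroup.to_sup_of_normal_left' q1 q2 (sb2.le.trans a2n),
    fstarIn_eq_pcIn_iff_sub.1 e1, fstarIn_eq_pcIn_iff_sub.1 ?_, fstarIn_eq_pcIn_iff_sub.1 e2,
    fstarIn_eq_pcIn_iff_sub.1 ?_⟩
  · exact fstarIn_eq_pcIn_iff_isPGroup.2 (p1.to_le (fstarIn_mono sa1))
  · exact fstarIn_eq_pcIn_iff_isPGroup.2 (p2.to_le (fstarIn_mono sb1))

end Cfsg.Agent.S5752
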