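import Cfsg.Statements.S5753
import Cfsg.Agent.Bin.Aff
import Mathlib.RingTheory.Norm.Transitivity
import Mathlib.GroupTheory.GroupAction.Primitive
import Mathlib.Tactic.Group

set_option autoImplicit false
open Cfsg

namespace Cfsg.Agent.S5753
open scoped commutatorElement

open Cfsg.Agent.Bin MulAction

theorem quad_field {K : Type} [Field K] [Fintype K] (φ : K ≃+* K) (h2 : ∀ x, φ (φ x) = x) (h1 : ∃ x, φ x ≠ x) :
    ∃ F : Subfield K, Module.finrank F K = 2 ∧ (∀ a, Algebra.norm F a = 1 ↔ a * φ a = 1) ∧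
      (∀ ψ : K ≃ₐ[F] K, (∀ x, ψ x = x) ∨ ∀ x, ψ x = φ x) ∧ ∃ ψ : K ≃ₐ[F] K, ∀ x, ψ x = φ x := by
  classical
  let σ : RingAut K := φ
  have o : orderOf σ = 2 := orderOf_eq_prime (by rw [sq]; exact RingEquiv.ext h2) fun e => by
    obtain ⟨x, hx⟩ := h1
    exact hx (DFunLike.congr_fun e x)
  let Γ := Subgroup.zpowers σ
  have c : Nat.card Γ = 2 := by rw [Nat.card_zpowers, o]
  have : Finite Γ := Nat.finite_of_card_ne_zero (by omega)
  have := Fintype.ofFinite Γ
  let ψ := MulSemiringAction.toAlgAut Γ (FixedPoints.subfield Γ K) K ⟨σ, Subgroup.mem_zpowers σ⟩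
  have p : ∀ x, ψ x = φ x := fun x => rfl
  have n1 : 1 ≠ ψ := fun e => by
    obtain ⟨x, hx⟩ := h1
    exact hx (DFunLike.congr_fun e x).symm
  have u : Finset.univ = {1, ψ} := (Finset.eq_univ_of_card _ (by
    rw [Finset.card_pair n1, ← Nat.card_eq_fintype_card, ← c]
    exact Nat.card_congr (FixedPoints.toAlgAutMulEquiv Γ K).toEquiv)).symm
  refine ⟨FixedPoints.subfield Γ K, by rw [FixedPoints.finrank_eq_card, ← Nat.card_eq_fintype_card, c], fun a => ?_,
    fun χ => ?_, ψ, p⟩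
  · rw [← map_eq_one_iff _ (algebraMap (FixedPoints.subfield Γ K) K).injective, Algebra.norm_eq_prod_automorphisms, u,
      Finset.prod_pair n1]
    rfl
  · rcases Finset.mem_insert.1 (u ▸ Finset.mem_univ χ) with rfl | e
    · exact .inl fun _ => rfl
    · exact .inr fun x => by rw [Finset.mem_singleton.1 e, p]

theorem exists_aff {G Ω : Type*} [Group G] [MulAction G Ω] [FaithfulSMul G Ω] [IsPreprimitive G Ω]
    (N : Subgroup G) [hN : N.Normal] (h0 : N ≠ ⊥) [IsMulCommutative N] :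
    ∃ (ω : Ω) (_ : DistribMulAction (stabilizer G ω) (Additive N)) (ψ : Additive N ≃ Ω), ψ 0 = ω ∧
      (∀ h : stabilizer G ω, ∀ v, (h : G) • ψ v = ψ (h • v)) ∧ ∀ b, ∃ g : G, ∀ v, g • ψ v = ψ (v + b) := by
  obtain ⟨n, n1⟩ := Subgroup.ne_bot_iff_exists_ne_one.1 h0
  obtain ⟨ω, hω⟩ : ∃ ω : Ω, n • ω ≠ ω := by
    by_contra! e
    exact n1 (Subtype.ext (eq_of_smul_eq_smul fun ω : Ω => by rw [OneMemClass.coe_one, one_smul]; exact e ω))
  have ht : IsPretransitive N Ω := IsQuasiPreprimitive.isPretransitive_of_normal fun e =>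
    hω (mem_fixedPoints.1 (e.ge (Set.mem_univ ω)) n)
  letI : DistribMulAction (stabilizer G ω) (Additive N) :=
    { smul := fun h x => Additive.ofMul ⟨h * (x.toMul : N) * (h : G)⁻¹, hN.1 _ x.toMul.2 _⟩
      one_smul := fun x => Additive.toMul.injective (Subtype.ext (by
        change (1 : G) * _ * (1 : G)⁻¹ = _; simp))
      mul_smul := fun g h x => Additive.toMul.injective (Subtype.ext (by
        change (g : G) * h * _ * ((g : G) * h)⁻¹ = g * (h * _ * (h : G)⁻¹) * (g : G)⁻¹; group))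
      smul_zero := fun h => Additive.toMul.injective (Subtype.ext (by
        change (h : G) * 1 * (h : G)⁻¹ = 1; group))
      smul_add := fun h x y => Additive.toMul.injective (Subtype.ext (by
        change (h : G) * (_ * _) * (h : G)⁻¹ = h * _ * (h : G)⁻¹ * (h * _ * (h : G)⁻¹); group)) }
  refine ⟨ω, inferInstance, Equiv.ofBijective (fun v => v.toMul • ω) ⟨fun x y e => Additive.toMul.injective
    (eq_of_smul_eq_smul fun a : Ω => ?_), fun a => exists_smul_eq N ω a⟩, one_smul N ω, fun h v => ?_,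
    fun b => ⟨b.toMul, fun v => ?_⟩⟩
  · obtain ⟨m, rfl⟩ := exists_smul_eq N ω a
    rw [← mul_smul, ← mul_smul, mul_comm' _ m, mul_comm' _ m, mul_smul, mul_smul]
    exact congrArg _ e
  · change (h : G) • (v.toMul : G) • ω = ((h : G) * v.toMul * (h : G)⁻¹) • ω
    rw [mul_smul, mul_smul, inv_smul_eq_iff.2 (show ω = (h : G) • ω from h.2.symm)]
  · change b.toMul • v.toMul • ω = (v.toMul * b.toMul) • ω
    rw [mul_comm', mul_smul]

theorem main {G Ω V : Type*} [Group G] [Finite G] [MulAction G Ω] [FaithfulSMul G Ω] [Fintype Ω] [IsPreprimitive G Ω]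
    [AddCommGroup V] [Nontrivial V] (hbin : Bin G Ω) (ω : Ω) [DistribMulAction (stabilizer G ω) V] (ψ : V ≃ Ω)
    (p0 : ψ 0 = ω) (p1 : ∀ h : stabilizer G ω, ∀ v, (h : G) • ψ v = ψ (h • v))
    (p2 : ∀ b, ∃ g : G, ∀ v, g • ψ v = ψ (v + b)) :
    ((Fintype.card Ω).Prime ∧ ∀ ω : Ω, Nat.card ↥(MulAction.stabilizer G ω) ≤ 2) ∨
    (∃ (F E : Type) (_ : Field F) (_ : Fintype F) (_ : Field E) (_ : Fintype E) (_ : Algebra F E) (e : Ω ≃ E),
        Module.finrank F E = 2 ∧
        ∀ σ : Equiv.Perm Ω, σ ∈ (MulAction.toPermHom G Ω).range ↔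
          ∃ (a b : E) (φ : E ≃ₐ[F] E), Algebra.norm F a = 1 ∧ ∀ ω : Ω, e (σ ω) = a * φ (e ω) + b) := by
  classical
  have : Finite V := Finite.of_equiv _ ψ.symm
  have : Nontrivial Ω := ψ.symm.nontrivial
  have p3 : ∀ g : G, ∃ h : stabilizer G ω, ∀ v, g • ψ v = ψ (h • v + ψ.symm (g • ω)) := fun g => by
    obtain ⟨n, hn⟩ := p2 (ψ.symm (g • ω))
    refine ⟨⟨n⁻¹ * g, ?_⟩, fun v => by rw [← hn, ← p1, ← mul_smul, mul_inv_cancel_left]⟩
    rw [mem_stabilizer_iff, mul_smul, inv_smul_eq_iff]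
    simpa [p0] using (hn 0).symm
  have p4 : ∀ (h : stabilizer G ω) b, ∃ g : G, ∀ v, g • ψ v = ψ (h • v + b) := fun h b => by
    obtain ⟨n, hn⟩ := p2 b
    exact ⟨n * h, fun v => by rw [mul_smul, p1, hn]⟩
  have : FaithfulSMul (stabilizer G ω) V := ⟨fun {g h} e => Subtype.ext (eq_of_smul_eq_smul fun a : Ω => by
    rw [← ψ.apply_symm_apply a, p1, p1, e])⟩
  have hb : LBin (stabilizer G ω) V := fun ι _ I J hp => by
    obtain ⟨g, hg⟩ := hbin.fin (ψ ∘ I) (ψ ∘ J) fun i j => by
      obtain ⟨h, e⟩ := hp i j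
      obtain ⟨g, hg⟩ := p4 h (J j - h • I j)
      rw [smul_sub] at e
      exact ⟨g, (hg _).trans (congrArg ψ (by linear_combination (norm := abel) e)),
        (hg _).trans (congrArg ψ (by abel))⟩
    obtain ⟨h, e⟩ := p3 g
    refine ⟨h, fun i j => ?_⟩
    rw [smul_sub]
    linear_combination (norm := abel) ψ.injective ((e _).symm.trans (hg i)) - ψ.injective ((e _).symm.trans (hg j))
  have irr : ∀ B : AddSubgroup V, (∀ h : stabilizer G ω, ∀ v ∈ B, h • v ∈ B) → B = ⊥ ∨ B = ⊤ := fun B hB => by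
    let K : Subgroup G :=
      { carrier := {g | ψ.symm (g • ω) ∈ B}
        one_mem' := by simp [← p0]
        mul_mem' := fun {g k} hg hk => by
          obtain ⟨h, e⟩ := p3 g
          change ψ.symm _ ∈ B
          rw [mul_smul, ← ψ.apply_symm_apply (k • ω), e, ψ.symm_apply_apply]
          exact add_mem (hB h _ hk) hg
        inv_mem' := fun {g} hg => by
          obtain ⟨h, e⟩ := p3 g
          have := e (ψ.symm (g⁻¹ • ω))
          rw [ψ.apply_symm_apply, smul_inv_smul, ← ψ.symm_apply_eq, show ψ.symm ω = 0 by simp [← p0], eq_comm,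
            add_eq_zero_iff_eq_neg, smul_eq_iff_eq_inv_smul] at this
          change ψ.symm _ ∈ B
          rw [this]
          exact hB _ _ (neg_mem hg) }
    have l : stabilizer G ω ≤ K := fun g hg => by
      change ψ.symm _ ∈ B
      rw [mem_stabilizer_iff.1 hg]; exact one_smul G ω ▸ K.one_mem
    have m : ∀ b, ∃ g : G, ψ.symm (g • ω) = b := fun b => (p2 b).imp fun g hg => by simp [← p0, hg]
    rcases l.eq_or_lt with e | e
    · refine .inl (eq_bot_iff.2 fun b h => ?_)
      obtain ⟨g, rfl⟩ := m b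
      rw [mem_stabilizer_iff.1 (e.ge h), ← p0]; simp
    · refine .inr (eq_top_iff.2 fun b _ => ?_)
      obtain ⟨g, rfl⟩ := m b
      exact ((IsPreprimitive.isCoatom_stabilizer_of_isPreprimitive G ω).2 K e).ge (Subgroup.mem_top g)
  by_cases hc : ∀ g : stabilizer G ω, g ≠ 1 → Cm V g = ⊥
  · have k : ∀ g : stabilizer G ω, g ≠ 1 → ∀ v : V, g • v = -v := fun g g1 v => hb.neg
      ⟨g1, fun k k1 _ => hc k k1 ▸ bot_le⟩ ((AddSubgroup.eq_top_of_card_eq _ (by
        simpa [hc g g1] using card_Cm_mul (V := V) g)).ge (AddSubgroup.mem_top v))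
    have : IsSimpleAddGroup V := ⟨fun B _ => irr B fun g v hv => by
      by_cases g1 : g = 1
      · rwa [g1, one_smul]
      · rw [k g g1]; exact neg_mem hv⟩
    refine .inl ⟨by rw [← Nat.card_eq_fintype_card, ← Nat.card_congr ψ]; exact IsSimpleAddGroup.prime_card,
      fun a => ?_⟩
    obtain ⟨g, hg⟩ := exists_smul_eq G ω a
    rw [← Nat.card_congr (stabilizerEquivStabilizer hg.symm).toEquiv]
    refine (Nat.card_le_card_of_injective (fun g : stabilizer G ω => g = 1) fun g h e => ?_).trans (by simp)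
    by_cases g1 : g = 1
    · exact g1.trans (e.mp g1).symm
    · exact eq_of_smul_eq_smul fun v : V => by rw [k g g1, k h (mt e.mpr g1)]
  push Not at hc
  obtain ⟨g, g1, hg⟩ := hc
  obtain ⟨s, s1, hs⟩ := Set.exists_max_image {s : stabilizer G ω | s ≠ 1} (fun s => Nat.card (Cm V s))
    (Set.toFinite _) ⟨g, g1⟩
  obtain ⟨K, _, _, e, φ, h1, h2, h3, h4, h5⟩ := hb.struct irr ⟨s1, hs⟩ fun e => hg
    (AddSubgroup.eq_bot_of_card_le _ ((hs g g1).trans (AddSubgroup.card_eq_one.2 e).le))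
  obtain ⟨F, f1, f2, f3, χ, f4⟩ := quad_field φ h1 h2
  refine .inr ⟨F, K, _, inferInstance, _, ‹_›, _, ψ.symm.trans e.symm.toEquiv, f1, fun σ => ⟨?_, ?_⟩⟩
  · rintro ⟨g, rfl⟩
    obtain ⟨h, hh⟩ := p3 g
    obtain ⟨a, ha, h6⟩ := h4 h
    obtain ⟨χ, h6⟩ : ∃ χ : K ≃ₐ[F] K, ∀ x, h • e x = e (a * χ x) :=
      h6.elim (fun h => ⟨1, h⟩) fun h => ⟨χ, by simpa only [f4]⟩
    refine ⟨a, e.symm (ψ.symm (g • ω)), χ, (f2 a).2 ha, fun x => ?_⟩
    obtain ⟨x, rfl⟩ := (e.toEquiv.trans ψ).surjective x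
    simp [hh, h6]
  · rintro ⟨a, b, χ, ha, h6⟩
    obtain ⟨h, hh⟩ := h5 a ((f2 a).1 ha)
    obtain ⟨h, hh⟩ : ∃ h : stabilizer G ω, ∀ x, h • e x = e (a * χ x) :=
      (f3 χ).elim (fun h' => ⟨h, by simpa only [h']⟩) fun h' => ⟨h * s, fun x => by rw [mul_smul, h3, hh, h']⟩
    obtain ⟨g, hg⟩ := p4 h (e b)
    refine ⟨g, Equiv.ext fun x => (ψ.symm.trans e.symm.toEquiv).injective ?_⟩
    rw [h6]
    obtain ⟨x, rfl⟩ := (e.toEquiv.trans ψ).surjective x
    simp [hg, hh]

/-- The binary primitive permutation groups of affine type (the known proof uses the classification of the finite simple groups). Let a finite group G act faithfully and primitively on a finite set Ω, with a non-trivial abelian normal subgroup, and suppose the action is binary: for every n ≥ 2 and all n-tuples I, J of points, if for every pair of positions some element of G carries the corresponding pair of entries of I to those of J, then a single element carries I to J. Then either Ω has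 a prime number of points and every point stabilizer has order at most 2, or Ω can be identified with a field E that is a quadratic extension of a subfield F in such a way that the permutations induced by G are exactly the maps x ↦ a·φ(x) + b with a ∈ E of norm 1 over F, φ an automorphism of E over F and b ∈ E (the affine group of the anisotropic plane orthogonal group). -/
theorem result {G Ω : Type*} [Group G] [Finite G] [MulAction G Ω] [FaithfulSMul G Ω] [Fintype Ω]
    (hprim : MulAction.IsPreprimitive G Ω)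
    (haff : ∃ N : Subgroup G, N.Normal ∧ N ≠ ⊥ ∧ IsMulCommutative ↥N)
    (hbin : ∀ (n : ℕ) (I J : Fin n → Ω), 2 ≤ n →
      (∀ i j : Fin n, i ≠ j → ∃ g : G, g • I i = J i ∧ g • I j = J j) → ∃ g : G, ∀ i, g • I i = J i) :
    ((Fintype.card Ω).Prime ∧ ∀ ω : Ω, Nat.card ↥(MulAction.stabilizer G ω) ≤ 2) ∨
    (∃ (F E : Type) (_ : Field F) (_ : Fintype F) (_ : Field E) (_ : Fintype E) (_ : Algebra F E) (e : Ω ≃ E),
        Module.finrank F E = 2 ∧
        ∀ σ : Equiv.Perm Ω, σ ∈ (MulAction.toPermHom G Ω).range ↔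
          ∃ (a b : E) (φ : E ≃ₐ[F] E), Algebra.norm F a = 1 ∧ ∀ ω : Ω, e (σ ω) = a * φ (e ω) + b) := by
  obtain ⟨N, hN, h0, hc⟩ := haff
  obtain ⟨ω, _, ψ, p0, p1, p2⟩ := exists_aff (Ω := Ω) N h0
  letI : CommGroup N := { mul_comm := fun a b => mul_comm' a b }
  have : Nontrivial N := (Subgroup.nontrivial_iff_ne_bot N).2 h0
  exact main hbin ω ψ p0 p1 p2

end Cfsg.Agent.S5753
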