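import Cfsg.Statements.S5754


set_option autoImplicit false
open Cfsg

namespace Cfsg.Agent.S5754

open QuadraticMap

theorem refl {F V : Type*} [Field F] [AddCommGroup V] [Module F V] (Q : QuadraticForm F V) {p : V}
    (hp : Q p ≠ 0) : ∃ r : Q.IsometryEquiv Q, ∀ x, r x = x - (polar Q x p / Q p) • p := by
  let f : V →ₗ[F] V := LinearMap.id - ((Q p)⁻¹ • Q.polarBilin.flip p).smulRight p
  have hf : ∀ x, f x = x - (polar Q x p / Q p) • p := fun x => by
    simp [f, div_eq_inv_mul]
  have hi : Function.Involutive f := fun x => by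
    rw [hf, hf, polar_sub_left, polar_smul_left, polar_self, sub_sub, ← add_smul]
    simp only [smul_eq_mul, nsmul_eq_mul]
    rw [show polar Q x p / Q p + (polar Q x p - polar Q x p / Q p * ((2 : ℕ) * Q p)) / Q p = 0 by
      field_simp; push_cast; ring]
    simp
  refine ⟨⟨LinearEquiv.ofInvolutive f hi, fun x => ?_⟩, hf⟩
  change Q (f x) = Q x
  rw [hf, sub_eq_add_neg, QuadraticMap.map_add Q, ← neg_smul, QuadraticMap.map_smul, polar_smul_right]
  simp only [smul_eq_mul]
  field_simp
  ring

theorem ext {F V ι : Type*} [Field F] [AddCommGroup V] [Module F V] (Q : QuadraticForm F V)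
    (hQ : Q.Anisotropic) (w w' : ι → V) (h1 : ∀ i, Q (w i) = Q (w' i))
    (h2 : ∀ i j, polar Q (w i) (w j) = polar Q (w' i) (w' j)) (s : Finset ι) :
    ∃ φ : Q.IsometryEquiv Q, ∀ i ∈ s, φ (w i) = w' i := by
  classical
  induction s using Finset.induction_on with
  | empty => exact ⟨.refl Q, by simp⟩
  | insert k s _ ih =>
    obtain ⟨φ, hφ⟩ := ih
    by_cases e : φ (w k) = w' k
    · exact ⟨φ, by simpa [e] using hφ⟩
    have hp : Q (φ (w k) - w' k) ≠ 0 := fun h => e (sub_eq_zero.1 (hQ _ h))
    obtain ⟨r, hr⟩ := refl Q hp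
    have pp : ∀ x y, polar Q (φ x) (φ y) = polar Q x y := fun x y => by
      simp only [polar, ← map_add φ, IsometryEquiv.map_app]
    refine ⟨φ.trans r, fun i hi => ?_⟩
    change r (φ (w i)) = _
    rcases Finset.mem_insert.1 hi with rfl | hi
    · have : polar Q (φ (w i)) (φ (w i) - w' i) = Q (φ (w i) - w' i) := by
        rw [polar_sub_right, polar_self, sub_eq_add_neg (φ (w i)), QuadraticMap.map_add Q, QuadraticMap.map_neg,
          polar_neg_right, φ.map_app, h1, two_smul, sub_eq_add_neg]
      rw [hr, this, div_self hp]; simp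
    · rw [hr, polar_sub_right, pp, hφ i hi, h2]; simp

/-- Let V be a finite-dimensional vector space over a finite field F carrying an anisotropic quadratic form Q (Q(v) = 0 only for v = 0). Then the group of all maps v ↦ φ(v) + c, with φ an isometry of Q and c ∈ V, acts on V as a binary permutation group: given n ≥ 2 and two n-tuples u, u' of vectors such that every pair of corresponding entries of u is carried to that of u' by such a map, one such map carries u to u'. -/
theorem result {F V : Type*} [Field F] [Finite F] [AddCommGroup V] [Module F V] [Module.Finite F V]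
    (Q : QuadraticForm F V) (hQ : Q.Anisotropic) (n : ℕ) (hn : 2 ≤ n) (u u' : Fin n → V)
    (h2 : ∀ i j : Fin n, i ≠ j → ∃ (φ : Q.IsometryEquiv Q) (c : V), φ (u i) + c = u' i ∧ φ (u j) + c = u' j) :
    ∃ (φ : Q.IsometryEquiv Q) (c : V), ∀ i, φ (u i) + c = u' i := by
  have hd : ∀ i j, Q (u i - u j) = Q (u' i - u' j) := fun i j => by
    by_cases e : i = j
    · simp [e]
    obtain ⟨φ, c, a, b⟩ := h2 i j e
    rw [← a, ← b, add_sub_add_right_eq_sub, ← map_sub, φ.map_app]
  let o : Fin n := ⟨0, by omega⟩
  obtain ⟨φ, hφ⟩ := ext Q hQ (fun i => u i - u o) (fun i => u' i - u' o) (fun i => hd i o)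
    (fun i j => by
      have key : ∀ x y : V, polar Q x y = Q x + Q y - Q (x - y) := fun x y => by
        rw [sub_eq_add_neg x, QuadraticMap.map_add Q, QuadraticMap.map_neg, polar_neg_right]; ring
      rw [key, key, sub_sub_sub_cancel_right, sub_sub_sub_cancel_right, hd i o, hd j o, hd i j])
    Finset.univ
  refine ⟨φ, u' o - φ (u o), fun i => ?_⟩
  have := hφ i (Finset.mem_univ i)
  rw [map_sub, sub_eq_iff_eq_add] at this
  rw [this]; abel

end Cfsg.Agent.S5754
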