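import Cfsg.Statements.S5763
import Cfsg.Agent.Comp.Model
import Cfsg.Agent.Comp.Subor

set_option autoImplicit false
open Cfsg

namespace Cfsg.Agent.S5763

open Cfsg.Agent.Comp MulAction
set_option maxRecDepth 100000

abbrev G := Equiv.Perm (Fin 8)
abbrev R : ℕ → G → Prop := PRep (encFin 7) 3 7
theorem par : Par 8 3 7 := ⟨by norm_num, by norm_num⟩
theorem codes {L : List ℕ} (h : allL L (isPermP 8 3 7) = true) : CodesIn R L ⊤ := fun c hc =>
  ⟨_, trivial, (encFin 7).toPerm_rep (allL_iff.1 h c hc)⟩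

def tP : List (ℕ × List ℕ) := [(0, [16434824, 16434817, 16433690, 16433683, 6852524, 6852517, 6851390, 6851383]),
  (4, [16434824, 9954952, 14571144, 11761288]), (2, [16434824, 14599368]), (6, [16434824, 14599816])]
def P : Subgroup G := Subgroup.closure (genSet R (flatT tP))
theorem codes_P : CodesIn R (flatT tP) P := (codes (by decide +kernel)).closure
theorem card_P : Nat.card P = 2 ^ 7 := card_closure_of_ss par tP (codes (by decide +kernel)) (by decide +kernel)
theorem card_G : Nat.card G = 40320 := by rw [Nat.card_perm, Nat.card_fin]; rfl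

def tS : List (ℕ × List ℕ) := [(1, [16434824, 16434768, 16433816, 16422560, 16303784, 15124144, 3851960]),
  (2, [16434824, 16434376, 16426760, 16336712, 15386504, 5949384]),
  (3, [16434824, 16431240, 16370312, 15649928, 8048264]), (4, [16434824, 16406152, 15918728, 10155656]),
  (5, [16434824, 16205448, 12306056]), (6, [16434824, 14599816])]
def L17 : List ℕ := [16434817, 14599816, 16406152, 16434376, 6852524, 371511, 5017068, 11788371, 9924691, 342391,
  11788826, 2206526, 6823845, 9925146, 14570689, 4988389, 2177406]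

theorem codes_L : CodesIn R L17 P := fun c hc => by
  obtain ⟨g, -, hg⟩ := codes (L := L17) (by decide +kernel) c hc
  exact ⟨g, mem_of_sift par codes_P hg (allL_iff.1 (show allL L17 (sift 8 3 7 tP) = true by decide +kernel) c hc), hg⟩

theorem key0 (y : G) (hy : y ∈ (⊤ : Subgroup G) ⊓ stabilizer G ((encFin 7).dec 0)) :
    ∃ g ∈ P, g ≠ 1 ∧ y * g * y⁻¹ ∈ P := by
  have h0 : (keyedPt (encFin 7) 3 7 G).P 0 ((encFin 7).dec 0) := rfl
  have h1 : Nat.card ↥((⊤ : Subgroup G) ⊓ stabilizer G ((encFin 7).dec 0)) ≤ 5040 :=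
    card_stab_le (a := 8) (le_of_eq_of_le (by decide +kernel)
      (Keyed.le_ncard_orbit (codes_P.mono le_top) h0 10)) (by norm_num) (by rw [Subgroup.card_top, card_G])
  obtain ⟨c, hc, h⟩ := (forall_of_allProd_aux par (f := fun c => anyL L17 fun g =>
      memL (conjC (mulP 8 3 7) (invP 8 3 7) c g) L17) tS _
    ((codes (by decide +kernel)).stab (keyedPt (encFin 7) 3 7 G) h0 (by decide +kernel)).of_flatT).2
    (h1.trans (by decide +kernel)) _ 1 (PRep.one par) (by decide +kernel) y hy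
  obtain ⟨a, ha, h⟩ := anyL_iff.1 h
  obtain ⟨g, hg, hr⟩ := codes_L a ha
  obtain ⟨u, hu, hu'⟩ := codes_L _ (memL_iff.1 h)
  rw [one_mul] at hc
  refine ⟨g, hg, fun e => ?_, hu'.unique ((isGrp_PRep _ par).conj hc hr) ▸ hu⟩
  have := allL_iff.1 (show allL L17 (fun c => anyLt 8 fun i => not (Nat.beq (get 3 7 c i) (get 3 7 (oneP 8 3) i))) =
    true by decide +kernel) a ha
  obtain ⟨i, hi, h⟩ := anyLt_iff.1 this
  exact hr.ne_of_get_ne (PRep.one par) hi (nbeq_false.1 (by simpa using h)) e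

theorem key (x : G) : ∃ g ∈ P, g ≠ 1 ∧ x * g * x⁻¹ ∈ P := by
  obtain ⟨i, hi, e⟩ := (encFin 7).exists_dec (x • (encFin 7).dec 0)
  obtain ⟨c, hc, h⟩ := anyL_iff.1 (allLt_iff.1 (show allLt 8 (fun i => anyL (flatT tP) fun c =>
    Nat.beq (get 3 7 c 0) i) = true by decide +kernel) i hi)
  obtain ⟨p, hp, hr⟩ := codes_P c hc
  obtain ⟨g, h1, h2, h3⟩ := key0 (p⁻¹ * x) ⟨trivial, by
    show (p⁻¹ * x) • _ = _
    rw [mul_smul, e, inv_smul_eq_iff, hr.smul_dec (by norm_num), nbeq.1 h]⟩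
  exact ⟨g, h1, h2, by simpa [mul_assoc] using P.mul_mem (P.mul_mem hp h3) (P.inv_mem hp)⟩

/-- In the symmetric group on 8 letters any two Sylow 2-subgroups have non-trivial intersection: for a Sylow 2-subgroup H and every element x, H ∩ xHx⁻¹ ≠ 1. -/
theorem result (H : Sylow 2 (Equiv.Perm (Fin 8))) (x : Equiv.Perm (Fin 8)) :
    (H : Subgroup (Equiv.Perm (Fin 8))) ⊓ (H : Subgroup (Equiv.Perm (Fin 8))).map (MulAut.conj x).toMonoidHom ≠ ⊥ := by
  obtain ⟨k, hk⟩ := exists_conj_sylow card_P card_G (by norm_num) H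
  obtain ⟨g, h1, h2, h3⟩ := key (k⁻¹ * x * k)
  rw [← hk, Ne, Subgroup.eq_bot_iff_forall]
  intro h
  have := h (x * (k * g * k⁻¹) * x⁻¹) ⟨⟨_, h3, by simp [mul_assoc]⟩, ⟨_, ⟨g, h1, rfl⟩, rfl⟩⟩
  exact h2 (by simpa [mul_eq_one_iff_eq_inv] using this)

end Cfsg.Agent.S5763
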