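import Cfsg.Statements.S5769
import Cfsg.Agent.Chev.NonAdj
import Cfsg.Agent.Chev.CoxE7
import Cfsg.Agent.Chev.Zker
import Cfsg.Agent.Chev.AllC
import Cfsg.Agent.S1064
import Cfsg.Agent.Known.MatBridge
import Cfsg.Agent.Classical.FieldCongr

set_option autoImplicit false
open Cfsg

namespace Cfsg.Agent.S5769

open Cfsg.Agent.Chev Cfsg.Lie

open Cfsg.Agent.Known Matrix

theorem no65 (x : chevE7.group (ZMod 2)) : orderOf x ≠ 65 := fun hx => by
  have hF : Nat.card (ZMod 2) = 2 := Nat.card_zmod 2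
  have e := stEquiv chevE7 (ZMod 2) (Subgroup.card_eq_one.mp (by rw [card_zkerE7, hF]; rfl))
  have : Fact (Nat.Prime 13) := ⟨by norm_num⟩
  have h := (bigE7 (ZMod 2) 2).orderOf_dvd_of_sylow (algebraMap _ _) (hF.trans (pow_one 2).symm) (l := 13)
    (x := e.symm x) (by
      have := S1064.result (ZMod.card 2)
      rw [Nat.card_congr e.toEquiv, show Nat.card (chevE7.group (ZMod 2)) = _ from (one_mul _).symm.trans this]
      norm_num) (by simp [hx]) (by simp [hx]) certE7_ok isReflE7 (L := [0, 3, 1, 5, 4, 2]) (v := [1, 12, 8, 10, 8, 1, 0])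
    hF (i := ⟨0, by decide⟩) (by decide +kernel) (Fs := [[-1, 0, 1, 1, -1, -1, 0, 1], [1, 0, -1, 1, 1, -1, 0, 1]])
    (by decide +kernel)
  simp [hx, evH] at h

theorem emp {X Q : Type*} [Group X] [Group Q] (h : ∀ x : X, orderOf x ≠ 65) {H : Subgroup X} (g : Q)
    (hg : orderOf g = 65) : IsEmpty (H ≃* Q) :=
  ⟨fun e => h (e.symm g) (by rw [Subgroup.orderOf_coe, e.symm.orderOf_eq, hg])⟩

theorem ord65 {G ι R F : Type*} [Group G] [Fintype ι] [DecidableEq ι] [Field R] [Field F] (φ : G →* Matrix ι ι F)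
    (hφ : Function.Injective φ) (f : R →+* F) {A B : Matrix ι ι R} {x y : G} (hA : φ x = A.map f) (hB : φ y = B.map f)
    (h : A ^ 65 = 1 ∧ ∀ k ∈ [5, 13], A ^ k * B ≠ B * A ^ k) {H : Subgroup (chevE7.group (ZMod 2))} :
    IsEmpty (H ≃* G ⧸ Subgroup.center G) := by
  have h1 : ∀ k, φ (x ^ k) = (A ^ k).map f := fun k => by rw [map_pow, hA, Matrix.map_pow]
  refine emp no65 (QuotientGroup.mk x) (orderOf_eq_of_pow_and_pow_div_prime (by norm_num) ?_ fun p hp hd h2 => ?_)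
  · rw [← QuotientGroup.mk_pow, show x ^ 65 = 1 from hφ (by
      rw [h1, h.1, map_one, Matrix.map_one _ (map_zero f) (map_one f)]), QuotientGroup.mk_one]
  · rw [← QuotientGroup.mk_pow, QuotientGroup.eq_one_iff, Subgroup.mem_center_iff] at h2
    refine h.2 (65 / p) ?_ (Matrix.map_injective f.injective ?_)
    · have := Nat.le_of_dvd (by norm_num) hd
      interval_cases p <;> simp_all (config := {decide := true})
    · simpa only [map_mul, h1, hB, ← Matrix.map_mul] using congrArg φ (h2 y).symm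

instance factF64 : Fact (∀ r : F8, r ^ 2 ≠ 1 + 1 * r) := ⟨by decide⟩

/-- The field with 64 elements. -/
abbrev F64 := QuadraticAlgebra F8 1 1

instance decF64 : DecidableEq F64 := (QuadraticAlgebra.equivProd 1 1).decidableEq

/-- Decoding. -/
def d64 (a b : ℕ) : F64 := ⟨F8.dec a, F8.dec b⟩

/-- An element of order 65 of `SL₂(64)`. -/
def m2 : Matrix (Fin 2) (Fin 2) F64 := !![0, 1; 1, d64 0 2]
/-- An element of order 65 of `SU₄(8)`. -/
def mU : Matrix (Fin 4) (Fin 4) F64 := !![d64 4 3, d64 0 2, d64 5 6, d64 3 1; d64 0 3, d64 1 3, d64 6 2, d64 6 0;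
  0, d64 5 7, d64 4 6, d64 6 6; 0, 0, d64 5 5, d64 5 6]
/-- An element of order 65 of `SL₄(8)`. -/
def mL : Matrix (Fin 4) (Fin 4) F8 := !![0, 0, 1, 0; 0, 0, 0, 1; 1, 0, 0, F8.dec 2; 0, 1, F8.dec 2, F8.dec 2]
/-- An element of order 65 of `Sp₄(8)`. -/
def m4 : Matrix (Fin 2 ⊕ Fin 2) (Fin 2 ⊕ Fin 2) F8 := fromBlocks 0 1 1 !![0, F8.dec 2; F8.dec 2, F8.dec 2]
/-- An element of order 65 of `Sp₆(8)`. -/
def m6 : Matrix (Fin 3 ⊕ Fin 3) (Fin 3 ⊕ Fin 3) F8 := fromBlocks !![0, 0, 0; 0, 0, 0; 0, 0, 1] !![1, 0, 0; 0, 1, 0; 0, 0, 0]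
  !![1, 0, 0; 0, 1, 0; 0, 0, 0] !![0, F8.dec 2, 0; F8.dec 2, F8.dec 2, 0; 0, 0, 1]
/-- A permutation matrix. -/
def pm (R : Type) [Zero R] [One R] : Matrix (Fin 4) (Fin 4) R := !![0, 1, 0, 0; 1, 0, 0, 0; 0, 0, 0, 1; 0, 0, 1, 0]

theorem sp {m : ℕ} {F : Type*} [Field F] (f : F8 →+* F) {A : Matrix (Fin m ⊕ Fin m) (Fin m ⊕ Fin m) F8}
    (h : A * J _ _ * Aᵀ = J _ _ ∧ A ^ 65 = 1 ∧ ∀ k ∈ [5, 13], A ^ k * J _ _ ≠ J _ _ * A ^ k)
    {H : Subgroup (chevE7.group (ZMod 2))} : IsEmpty (H ≃* PSp m F) :=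
  have e : (J (Fin m) F8).map f = J _ _ := by simp [J, fromBlocks_map, Matrix.map_neg]
  ord65 (symplecticGroup _ F).subtype Subtype.val_injective f (x := ⟨A.map f, by
    rw [SymplecticGroup.mem_iff, ← e, ← transpose_map, ← Matrix.map_mul, ← Matrix.map_mul, h.1]⟩)
    (y := ⟨_, SymplecticGroup.J_mem _ _⟩) rfl e.symm h.2

theorem sl {n : ℕ} {R F : Type*} [Field R] [Field F] (f : R →+* F) {A B : Matrix (Fin n) (Fin n) R}
    (h : (A.det = 1 ∧ B.det = 1) ∧ A ^ 65 = 1 ∧ ∀ k ∈ [5, 13], A ^ k * B ≠ B * A ^ k)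
    {H : Subgroup (chevE7.group (ZMod 2))} : IsEmpty (H ≃* ProjectiveSpecialLinearGroup (Fin n) F) :=
  ord65 (slToMat n F) Subtype.val_injective f (x := SpecialLinearGroup.map f ⟨A, h.1.1⟩)
    (y := SpecialLinearGroup.map f ⟨B, h.1.2⟩) rfl rfl h.2

theorem su {F : Type*} [Field F] [CharP F 2] (f : F64 →+* F) {A : Matrix (Fin 4) (Fin 4) F64}
    (h : A.det = 1 ∧ Aᵀ * A.map (· ^ 8) = 1) : SpecialLinearGroup.map f ⟨A, h.1⟩ ∈ SU 4 F 8 := fun u v => by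
  have h1 : (A.map f)ᵀ * (A.map f).map (iterateFrobenius F 2 3) = 1 := by
    rw [← transpose_map, show (A.map f).map _ = (A.map (· ^ 8)).map f from by ext; simp [iterateFrobenius_def],
      ← Matrix.map_mul, h.2, Matrix.map_one _ (map_zero f) (map_one f)]
  change A.map f *ᵥ u ⬝ᵥ iterateFrobenius F 2 3 ∘ (A.map f *ᵥ v) = u ⬝ᵥ iterateFrobenius F 2 3 ∘ v
  rw [show _ ∘ (A.map f *ᵥ v) = _ from funext (RingHom.map_mulVec _ _ _), ← vecMul_transpose, dotProduct_mulVec, vecMul_vecMul, h1, vecMul_one]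

theorem hU : ((mU.det = 1 ∧ mUᵀ * mU.map (· ^ 8) = 1) ∧ (pm F64).det = 1 ∧ (pm F64)ᵀ * (pm F64).map (· ^ 8) = 1) ∧
    mU ^ 65 = 1 ∧ ∀ k ∈ [5, 13], mU ^ k * pm F64 ≠ pm F64 * mU ^ k := by
  simp only [det_succ_row_zero, det_isEmpty]; decide +kernel

/-- The Chevalley group of type E₇ over the field with two elements (generated by its root elements in the adjoint representation) has no subgroup isomorphic to any of PSL₂(64), PSp₄(8), PSL₄(8), PSU₄(8) or PSp₆(8). Here F₈ and F₆₄ denote fields with 8 and 64 elements. -/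
theorem result {F₈ F₆₄ : Type*} [Field F₈] [Fintype F₈] (h8 : Fintype.card F₈ = 8) [Field F₆₄] [Fintype F₆₄] (h64 : Fintype.card F₆₄ = 64)
    (H : Subgroup ↥(Cfsg.Lie.chevE7.group (ZMod 2))) :
    IsEmpty (↥H ≃* Matrix.ProjectiveSpecialLinearGroup (Fin 2) F₆₄) ∧ IsEmpty (↥H ≃* Cfsg.PSp 2 F₈) ∧
    IsEmpty (↥H ≃* Matrix.ProjectiveSpecialLinearGroup (Fin 4) F₈) ∧ IsEmpty (↥H ≃* Cfsg.PSU 4 F₆₄ 8) ∧ IsEmpty (↥H ≃* Cfsg.PSp 3 F₈) := by
  obtain ⟨f⟩ := Classical.nonempty_ringEquiv_of_card_eq (K := F8) (F := F₈) (by simp [h8, F8.card])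
  have := Finite.of_equiv _ (QuadraticAlgebra.equivProd (1 : F8) 1).symm
  obtain ⟨f'⟩ := Classical.nonempty_ringEquiv_of_card_eq (K := F64) (F := F₆₄) (by
    simp [h64, Nat.card_congr (QuadraticAlgebra.equivProd (1 : F8) 1), F8.card])
  have : CharP F₆₄ 2 := charP_of_card_eq_prime_pow (p := 2) (f := 6) h64
  refine ⟨sl f'.toRingHom (A := m2) (B := !![1, 1; 0, 1]) ?_, sp f.toRingHom (A := m4) (by decide +kernel),
    sl f.toRingHom (A := mL) (B := pm F8) ?_, ord65 ((slToMat 4 _).comp (SU 4 _ 8).subtype)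
      (Subtype.val_injective.comp Subtype.val_injective) f'.toRingHom (x := ⟨_, su f'.toRingHom hU.1.1⟩)
      (y := ⟨_, su f'.toRingHom hU.1.2⟩)
      rfl rfl hU.2, sp f.toRingHom (A := m6) (by decide +kernel)⟩ <;>
  · simp only [det_succ_row_zero, det_isEmpty]; decide +kernel

end Cfsg.Agent.S5769
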