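import Cfsg.Statements.S5883
import Cfsg.Agent.N3B.B

set_option autoImplicit false
open Cfsg

namespace Cfsg.Agent.S5883

/-- The constant 10 in the statement that H⁽¹⁰⁾ is perfect for every maximal subgroup H of a finite almost simple group cannot be lowered to 9: there exist a finite almost simple group G (with a non-abelian simple normal subgroup of trivial centralizer) and a maximal subgroup H of G whose ninth derived subgroup H⁽⁹⁾ is not perfect, i.e. H⁽¹⁰⁾ ≠ H⁽⁹⁾. (A solvable maximal subgroup of derived length 10 in the Fischer group Fi₂₃ is such an example.) -/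
theorem result :
    ∃ (G : Type) (_ : Group G) (_ : Finite G) (S H : Subgroup G), S.Normal ∧ IsSimpleGroup S ∧ ¬ IsMulCommutative S ∧
      Subgroup.centralizer (S : Set G) = ⊥ ∧ IsCoatom H ∧ derivedSeries H 10 ≠ derivedSeries H 9 := by
  have hs := Spor.Fi23M.simple
  have hz : Subgroup.centralizer ((⊤ : Subgroup Cfsg.Spor.Fi23) : Set Cfsg.Spor.Fi23) = ⊥ := by
    rw [Subgroup.coe_top, Subgroup.centralizer_univ, Spor.Fi23M.center_eq]
  refine ⟨Cfsg.Spor.Fi23, inferInstance, Known.Fi23X.fm0.finite, ⊤, _, inferInstance,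
    Subgroup.topEquiv.isSimpleGroup, fun h => ?_, hz, N3B.main Known.Fi23X.fm0⟩
  have : (⊤ : Subgroup Cfsg.Spor.Fi23) ≤ ⊥ := hz ▸ Subgroup.le_centralizer ⊤
  exact top_ne_bot (le_bot_iff.1 this)

end Cfsg.Agent.S5883
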