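import Cfsg.Statements.S5885
import Cfsg.Agent.Perm.AutAlt

set_option autoImplicit false
open Cfsg

namespace Cfsg.Agent.S5885

open MulAction Subgroup Equiv
open scoped Pointwise

theorem coatom_of_prim {G Ω : Type*} [Group G] [MulAction G Ω] (K : Subgroup G) (ω : Ω)
    (h1 : ∃ k ∈ K, k • ω ≠ ω)
    (h2 : ∀ B : Set Ω, ω ∈ B → B ⊆ orbit K ω → (∀ k ∈ K, ∀ x ∈ B, k • x ∈ B → ∀ y ∈ B, k • y ∈ B) →
      B = {ω} ∨ B = orbit K ω) : IsCoatom ((stabilizer G ω).subgroupOf K) := by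
  obtain ⟨k₀, hk₀, hk₀'⟩ := h1
  refine ⟨fun e => hk₀' (subgroupOf_eq_top.1 e hk₀), fun L hL => ?_⟩
  rcases h2 (orbit L ω) (mem_orbit_self ω) (fun _ ⟨l, e⟩ => ⟨l, e⟩) (by
    rintro k hk _ ⟨a, rfl⟩ ⟨b, e⟩ _ ⟨c, rfl⟩
    have : (b : K)⁻¹ * ⟨k, hk⟩ * a ∈ L := hL.le (by
      change ((b : K)⁻¹ * ⟨k, hk⟩ * a) • ω = ω
      rw [mul_smul, mul_smul, inv_smul_eq_iff]; exact e.symm)
    have h3 : (⟨k, hk⟩ : K) ∈ L := by
      simpa [mul_assoc] using L.mul_mem (L.mul_mem b.2 this) (L.inv_mem a.2)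
    exact ⟨⟨_, L.mul_mem h3 c.2⟩, mul_smul (⟨k, hk⟩ : K) (c : K) ω⟩) with h | h
  · exact absurd (fun l hl => show ((⟨l, hl⟩ : L) • ω ∈ ({ω} : Set Ω)) from h ▸ mem_orbit ω _) hL.2
  · rw [eq_top_iff]
    intro k _
    obtain ⟨l, e⟩ : k • ω ∈ orbit L ω := h ▸ mem_orbit ω k
    have : (l : K)⁻¹ * k ∈ L := hL.le (by
      change ((l : K)⁻¹ * k) • ω = ω
      rw [mul_smul, inv_smul_eq_iff]; exact e.symm)
    simpa using L.mul_mem l.2 this

theorem main {G Ω : Type*} [Group G] [MulAction G Ω] [Fintype Ω] [DecidableEq Ω]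
    (hodd : Odd (Fintype.card Ω)) (hA : alternatingGroup Ω ≤ (toPermHom G Ω).range) (ω : Ω)
    (hp : IsPreprimitive G Ω) (hnt : Nontrivial Ω) (H K : Subgroup G) (hH : H ≤ stabilizer G ω)
    (hmax : IsCoatom (H.subgroupOf (stabilizer G ω))) (hK : IsCoatom K) (hHK : H ≤ K)
    (hne : ¬ stabilizer G ω ≤ K) : IsCoatom (H.subgroupOf K) := by
  classical
  have max : ∀ L : Subgroup G, H ≤ L → ¬ stabilizer G ω ≤ L → ∀ g ∈ L, g • ω = ω → g ∈ H := by
    intro L h1 h2 g hg hω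
    have := (hmax.le_iff.1 (subgroupOf_mono _ h1 :
      H.subgroupOf (stabilizer G ω) ≤ L.subgroupOf _)).resolve_left fun e => h2 (subgroupOf_eq_top.1 e)
    exact (this ▸ hg : (⟨g, hω⟩ : stabilizer G ω) ∈ H.subgroupOf _)
  have e1 : H.subgroupOf K = (stabilizer G ω).subgroupOf K :=
    le_antisymm (subgroupOf_mono _ hH) fun g hg => max K hHK hne g g.2 hg
  have hM : IsCoatom (stabilizer G ω) := IsPreprimitive.isCoatom_stabilizer_of_isPreprimitive G ω
  have hmv : ∃ k ∈ K, k • ω ≠ ω := by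
    by_contra hc
    push Not at hc
    exact hne ((hK.le_iff_eq hM.1).1 hc).le
  -- three-cycles are induced
  have tc : ∀ a b c : Ω, a ≠ b → a ≠ c → b ≠ c → ∃ g : G, g • a = b ∧ g • b = c ∧ g • c = a ∧
      ∀ x, x ≠ a → x ≠ b → x ≠ c → g • x = x := by
    intro a b c hab hac hbc
    obtain ⟨g, hg⟩ := hA (Perm.AutAlt.isThreeCycle_tc hab hac hbc).mem_alternatingGroup
    have : ∀ x, g • x = Perm.AutAlt.tc a b c x := fun x => by rw [← hg]; rfl
    exact ⟨g, by rw [this, Perm.AutAlt.tc_a hab hbc], by rw [this, Perm.AutAlt.tc_b],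
      by rw [this, Perm.AutAlt.tc_c hac hbc], fun x h1 h2 h3 => by
        rw [this, Perm.AutAlt.tc_other h1 h2 h3]⟩
  rw [e1]
  by_cases hN : (toPermHom G Ω).ker ≤ K
  swap
  · have hsup : K ⊔ (toPermHom G Ω).ker = ⊤ := hK.2 _ (left_lt_sup.2 hN)
    have lift : ∀ g : G, ∃ k ∈ K, ∀ x : Ω, k • x = g • x := fun g => by
      have : g ∈ ((K ⊔ (toPermHom G Ω).ker : Subgroup G) : Set G) := hsup ▸ mem_top g
      rw [mul_normal] at this
      obtain ⟨k, hk, n, hn, rfl⟩ := this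
      refine ⟨k, hk, fun x => ?_⟩
      have : n • x = x := congrArg (fun σ : Perm Ω => σ x) hn
      rw [mul_smul, this]
    refine coatom_of_prim K ω hmv fun B h1 h2 h3 => ?_
    have hB : IsBlock G B := isBlock_iff_smul_eq_of_mem.2 fun {g a} ha hga => by
      obtain ⟨k, hk, e⟩ := lift g
      refine Set.eq_of_subset_of_ncard_le ?_ (by rw [Set.ncard_smul_set]) (Set.toFinite _)
      rintro _ ⟨y, hy, rfl⟩
      exact (e y ▸ h3 k hk a ha (e a ▸ hga) y hy : g • y ∈ B)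
    rcases hp.isTrivialBlock_of_isBlock hB with h | h
    · exact Or.inl (h.eq_singleton_of_mem h1)
    · exact Or.inr (h2.antisymm (h ▸ Set.subset_univ _))
  refine coatom_of_prim K ω hmv fun B h1 h2 h3 => ?_
  by_contra hc
  rw [not_or] at hc
  obtain ⟨b, hb, hbω⟩ : ∃ b ∈ B, b ≠ ω := by
    by_contra h
    push Not at h
    exact hc.1 (Set.eq_singleton_iff_unique_mem.2 ⟨h1, h⟩)
  obtain ⟨_, ⟨k, rfl⟩, hk⟩ := Set.not_subset.1 fun h => hc.2 (h2.antisymm h)
  change (k : G) • ω ∉ B at hk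
  have hkb : (k : G) • b ∉ B := fun h => hk (h3 k k.2 b hb h ω h1)
  -- the stabiliser of `B` in the point stabiliser lies in `K`
  have hst : ∀ g : G, g • ω = ω → (∀ x ∈ B, g • x ∈ B) → g ∈ K := by
    intro g h4 h5
    have h6 : ∀ g : G, (∀ x ∈ B, g • x ∈ B) → g ∈ stabilizer G B := fun g h => by
      refine Set.eq_of_subset_of_ncard_le ?_ (by rw [Set.ncard_smul_set]) (Set.toFinite _)
      rintro _ ⟨y, hy, rfl⟩
      exact h y hy
    refine hHK (max (stabilizer G B) (fun x hx => h6 x (h3 x (hHK hx) ω h1 ((hH hx).symm ▸ h1)))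
      (fun h7 => ?_) g (h6 g h5) h4)
    obtain ⟨t, t1, -, -, t4⟩ := tc b ((k : G) • ω) ((k : G) • b) (fun e => hk (e ▸ hb))
      (fun e => hkb (e ▸ hb)) (fun e => hbω (smul_left_cancel _ e).symm)
    have := h7 (t4 ω hbω.symm (fun e => hk (e ▸ h1)) (fun e => hkb (e ▸ h1)))
    exact hk (t1 ▸ (mem_stabilizer_set.1 this b).2 hb)
  -- so no point lies outside `B ∪ k B`
  have hall : ∀ w, w ∉ B → (k : G)⁻¹ • w ∈ B := by
    intro w hw
    by_contra hw'
    obtain ⟨t, t1, t2, -, t4⟩ := tc ((k : G) • ω) ((k : G) • b) w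
      (fun e => hbω (smul_left_cancel _ e).symm) (fun e => hw' (by rw [← e]; simpa))
      (fun e => hw' (by rw [← e]; simpa))
    have h4 : ∀ x ∈ B, t • x = x := fun x hx =>
      t4 x (fun e => hk (e ▸ hx)) (fun e => hkb (e ▸ hx)) (fun e => hw (e ▸ hx))
    have h5 := hst t (h4 ω h1) fun x hx => (h4 x hx).symm ▸ hx
    have := h3 ((k : G)⁻¹ * t * k) (K.mul_mem (K.mul_mem (K.inv_mem k.2) h5) k.2) ω h1
      (by rw [mul_smul, mul_smul, t1]; simpa) b hb
    rw [mul_smul, mul_smul, t2] at this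
    exact hw' this
  have h7 : Bᶜ = (k : G) • B := by
    ext w
    rw [Set.mem_smul_set_iff_inv_smul_mem]
    refine ⟨hall w, fun h8 h9 => hk (h3 k k.2 _ h8 (by simpa) ω h1)⟩
  have h8 := Set.ncard_add_ncard_compl B
  rw [h7, Set.ncard_smul_set, Nat.card_eq_fintype_card] at h8
  obtain ⟨m, hm⟩ := hodd
  omega

/-- Let n be an odd positive integer such that every primitive permutation group of degree n contains the alternating group (so the symmetric and alternating groups are the only primitive groups of degree n). Let G be a finite group, M a maximal subgroup of G of index n, and H a maximal subgroup of M. Then H is a second maximal subgroup of G: H is maximal in every maximal subgroup K of G containing H. -/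
theorem result {G : Type*} [Group G]
    [Finite G] (n : ℕ) (hodd : Odd n)
    (hA : ∀ P : Subgroup (Equiv.Perm (Fin n)), MulAction.IsPreprimitive P (Fin n) → alternatingGroup (Fin n) ≤ P)
    (M : Subgroup G) (hM : IsCoatom M) (hn : M.index = n) (H : Subgroup G) (hHM : H ≤ M)
    (hmax : IsCoatom (H.subgroupOf M)) (K : Subgroup G) (hK : IsCoatom K) (hHK : H ≤ K) :
    IsCoatom (H.subgroupOf K) := by
  classical
  by_cases hne : M ≤ K
  · rwa [(hM.le_iff_eq hK.1).1 hne]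
  haveI := Fintype.ofFinite (G ⧸ M)
  have hc : Fintype.card (G ⧸ M) = n := by rw [← hn, ← Nat.card_eq_fintype_card]; rfl
  have hst : stabilizer G ((1 : G) : G ⧸ M) = M := stabilizer_quotient M
  haveI hnt : Nontrivial (G ⧸ M) := by
    rw [← Fintype.one_lt_card_iff_nontrivial, hc, ← hn]
    exact one_lt_index_of_ne_top hM.1
  have hp : IsPreprimitive G (G ⧸ M) := by
    rw [← isCoatom_stabilizer_iff_preprimitive G ((1 : G) : G ⧸ M), hst]; exact hM
  let e : G ⧸ M ≃ Fin n := Fintype.equivFinOfCardEq hc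
  let φ : G →* Perm (Fin n) := (e.permCongrHom : Perm (G ⧸ M) →* Perm (Fin n)).comp (toPermHom G (G ⧸ M))
  have hP : IsPreprimitive φ.range (Fin n) := by
    let f : (G ⧸ M) →ₑ[φ.rangeRestrict] Fin n := ⟨e, fun g x => by
      change _ = e (g • e.symm (e x))
      simp⟩
    exact IsPreprimitive.of_surjective (f := f) e.surjective
  refine main (hc ▸ hodd) (fun σ hσ => ?_) _ hp hnt H K (hst.symm ▸ hHM) (hst.symm ▸ hmax) hK hHK
    (hst.symm ▸ hne)
  obtain ⟨g, hg⟩ := hA _ hP (show e.permCongr σ ∈ alternatingGroup (Fin n) by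
    rw [Perm.mem_alternatingGroup, Perm.sign_permCongr]; exact hσ)
  exact ⟨g, e.permCongr.injective hg⟩

end Cfsg.Agent.S5885
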