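import Cfsg.Statements.S5887
import Cfsg.Agent.Asch.NM3

set_option autoImplicit false
open Cfsg

namespace Cfsg.Agent.S5887

/-- Let F be a finite field, n a positive integer and r a composite number (r > 1, not prime) that divides n with r < n. Let K be a subalgebra of the algebra of n × n matrices over F which is a field of degree r over F (commutative, every non-zero element invertible, of dimension r over F). Then the normaliser N of K in GL_n(F) (a group of type ΓL_{n/r}(F_{q^r})) is not a maximal subgroup of GL_n(F), and N ∩ SL_n(F) is not a maximal subgroup of SL_n(F): both lie properly inside the normaliser of an intermediate subfield of prime degree over F. -/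
theorem result {F : Type*} [Field F]
    [Fintype F] (n r : ℕ) (hr1 : 1 < r) (hrp : ¬ r.Prime) (hrn : r ∣ n) (hlt : r < n)
    (K : Subalgebra F (Matrix (Fin n) (Fin n) F)) (hK : Cfsg.Geo.IsFieldSubalgebra r K) :
    ¬ IsCoatom (Cfsg.Geo.subalgebraNormalizer K) ∧
      ¬ Cfsg.Geo.IsMaximalIn (Cfsg.Geo.specialLinear (Fin n) F)
        (Cfsg.Geo.subalgebraNormalizer K ⊓ Cfsg.Geo.specialLinear (Fin n) F) := by
  have : Nonempty (Fin n) := ⟨⟨0, by omega⟩⟩
  obtain ⟨p, K', h1, h2, h3, g, h4, h5, h6⟩ := Asch.nm_field hr1 hrp (by simpa) hK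
  have h7 := (Asch.qs_sl (F := F) (n := n) (by omega)).not_le_anorm h1 h2
  refine ⟨fun h => h7 (h.2 _ (h3.lt_of_ne fun h0 => h6 (h0 ▸ h5)) ▸ le_top), fun h => ?_⟩
  obtain ⟨M, h8, h9⟩ := Asch.between (inf_le_left.trans h3) h7 h4 h5 h6
  exact (h.2 M h8.le h9.le).elim h8.ne' h9.ne

end Cfsg.Agent.S5887
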