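import Cfsg.Statements.S5890
import Cfsg.Agent.Classical.PSL2Max2

set_option autoImplicit false
open Cfsg

namespace Cfsg.Agent.S5890

open Cfsg.Agent.Classical Matrix Subgroup MulAction

/-- Let F be a finite field with q ≥ 4 elements, let L ≤ PGL₂(F) be the image of SL₂(F) (a copy of PSL₂(F), of index gcd(2, q − 1)), and let M be a maximal subgroup of PGL₂(F) that does not contain L. Suppose q ∉ {7, 9, 11} and that q is not a prime congruent to ±11 or ±19 modulo 40. Then M ∩ L is a maximal subgroup of L. (For the excluded q there are maximal subgroups of PGL₂(q) — dihedral groups of order 12 and 16 at q = 7, of order 20 and 16 at q = 9, of order 20 at q = 11, and S₄ at the excluded primes — whose intersection with L is not maximal in L.) -/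
theorem result {F : Type*} [Field F]
    [Fintype F] (h4 : 4 ≤ Fintype.card F) (h7 : Fintype.card F ≠ 7) (h9 : Fintype.card F ≠ 9) (h11 : Fintype.card F ≠ 11)
    (h40 : (Fintype.card F).Prime → Fintype.card F % 40 ∉ ({11, 19, 21, 29} : Finset ℕ))
    (M : Subgroup (Matrix.ProjGenLinGroup (Fin 2) F)) (hM : IsCoatom M)
    (hML : ¬ (Matrix.ProjGenLinGroup.mk.comp Matrix.SpecialLinearGroup.toGL).range ≤ M) :
    IsCoatom ((M ⊓ (Matrix.ProjGenLinGroup.mk.comp Matrix.SpecialLinearGroup.toGL).range).subgroupOf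
      (Matrix.ProjGenLinGroup.mk.comp Matrix.SpecialLinearGroup.toGL).range) := by
  simp only [← Nat.card_eq_fintype_card] at *
  have hR : (Matrix.ProjGenLinGroup.mk.comp Matrix.SpecialLinearGroup.toGL).range = LP F := by
    ext x
    exact ⟨fun ⟨g, h⟩ => ⟨pslMk F g, h⟩, fun ⟨g, h⟩ => by
      obtain ⟨g, rfl⟩ := pslMk_surjective g; exact ⟨g, h⟩⟩
  rw [hR] at hML ⊢
  rw [inf_subgroupOf_right]
  rcases gcd_two_cases F with ⟨h, -, -⟩ | ⟨h, -, -⟩
  · rw [LP_eq_top h, ← isCoatom_map_equiv topEquiv]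
    convert hM using 1
    ext x
    simp [mem_subgroupOf]
  · have := (isCoatom_map_equiv (MonoidHom.ofInjective pslInj)).2 (isCoatom_comap_of_pgl
      (two_ne_zero_iff_odd.1 h) (by omega) h7 h9 h11 h40 hM hML)
    convert this using 1
    ext ⟨_, x, rfl⟩
    exact ⟨fun h => ⟨x, h, rfl⟩, fun ⟨y, h, e⟩ => mem_subgroupOf.2 (congrArg Subtype.val e ▸ h)⟩

end Cfsg.Agent.S5890
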