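import Cfsg.Statements.S5894
import Cfsg.Agent.Perm.IndexN
import Mathlib.GroupTheory.Perm.MaximalSubgroups

set_option autoImplicit false
open Cfsg

namespace Cfsg.Agent.S5894

open MulAction Subgroup Equiv
open scoped Pointwise

/-- For every m ≥ 2 the symmetric group on 2m letters has a maximal subgroup M of index 2m together with a maximal subgroup H of M that is not second maximal: some maximal subgroup K of the symmetric group contains H without H being maximal in K. (One may take M the stabiliser of a letter, H ≅ S_m × S_{m−1} inside it, and K ≅ S_m ≀ S₂ the stabiliser of a partition into two m-sets, with H < S_m × S_m < K.) So the prime-index hypothesis in the second-maximality criterion cannot be relaxed to any even index ≥ 4. -/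
theorem result (m : ℕ) (hm : 2 ≤ m) :
    ∃ M H K : Subgroup (Equiv.Perm (Fin (2 * m))), IsCoatom M ∧ M.index = 2 * m ∧ H ≤ M ∧ IsCoatom (H.subgroupOf M) ∧
      IsCoatom K ∧ H ≤ K ∧ ¬ IsCoatom (H.subgroupOf K) := by
  let α := Fin (2 * m)
  let A : Set α := {i | i.val < m}
  let x : α := ⟨2 * m - 1, by omega⟩
  let y : α := ⟨m, by omega⟩
  let a : α := ⟨0, by omega⟩
  let b : α := ⟨1, by omega⟩
  have hxy : x ≠ y := fun e => by have := congrArg Fin.val e; simp only [x, y] at this; omega
  have hx : x ∉ A := by simp only [A, x, Set.mem_setOf_eq]; omega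
  have hy : y ∉ A := by simp [A, y]
  have ha : a ∈ A := by simp only [A, a, Set.mem_setOf_eq]; omega
  have hb : b ∈ A := by simp only [A, b, Set.mem_setOf_eq]; omega
  have hab : b ≠ a := fun e => absurd (congrArg Fin.val e) one_ne_zero
  have : Nontrivial α := ⟨x, y, hxy⟩
  let M := stabilizer (Perm α) x
  let φ : M →* Perm {z // z ≠ x} := MonoidHom.mk' (fun g => g.1.subtypePerm fun z =>
    ⟨fun h e => h (by rw [e]; exact g.2), fun h e => h (g.1.injective (e.trans g.2.symm))⟩) fun _ _ => rfl
  have hφ : Function.Surjective φ := fun e => ⟨⟨Perm.ofSubtype e, Perm.ofSubtype_apply_of_not_mem e (by simp)⟩,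
    Perm.subtypePerm_ofSubtype e⟩
  have hc : IsCoatom (stabilizer (Perm {z // z ≠ x}) (Subtype.val ⁻¹' A)) :=
    Perm.isCoatom_stabilizer ⟨⟨a, fun e => hx (e ▸ ha)⟩, ha⟩ ⟨⟨y, hxy.symm⟩, hy⟩ (by
      rw [Nat.card_eq_fintype_card, Fintype.card_subtype_compl, Fintype.card_fin, Fintype.card_unique]; omega)
  have hW : stabilizer (Perm α) ({A, Aᶜ} : Set (Set α)) ≠ ⊤ := fun e => by
    rcases (e.ge (mem_top (swap a x))).le (Set.smul_mem_smul_set (Set.mem_insert _ _)) with h | h
    · exact hx (h.le ⟨a, ha, swap_apply_left _ _⟩)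
    · exact h.le ⟨b, hb, swap_apply_of_ne_of_ne hab fun e => hx (e ▸ hb)⟩ hb
  obtain ⟨K, hK, hWK⟩ := (eq_top_or_exists_le_coatom _).resolve_left hW
  have h1 : stabilizer (Perm α) A ≤ K := fun g hg => hWK (by
    rw [mem_stabilizer_iff, Set.smul_set_insert, Set.smul_set_singleton, Set.smul_set_compl, hg])
  have hr : (Fin.revPerm : Perm α) • A = Aᶜ := by
    ext z
    rw [Set.mem_smul_set_iff_inv_smul_mem]
    change (Fin.rev z).val < m ↔ ¬ z.val < m
    have := z.2
    rw [Fin.val_rev]; omega
  have h2 : (M ⊓ stabilizer (Perm α) A).subgroupOf M = (stabilizer _ (Subtype.val ⁻¹' A : Set {z // z ≠ x})).comap φ := by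
    ext g
    rw [inf_subgroupOf_left, mem_subgroupOf, mem_comap, mem_stabilizer_set, mem_stabilizer_set]
    refine ⟨fun h z => h z, fun h z => ?_⟩
    by_cases e : z = x
    · rw [e, show (g : Perm α) • x = x from g.2]
    · exact h ⟨z, e⟩
  refine ⟨M, M ⊓ stabilizer _ A, K, IsPreprimitive.isCoatom_stabilizer_of_isPreprimitive _ x,
    (Perm.index_stabilizer_perm x).trans (Fintype.card_fin _), inf_le_left,
    h2 ▸ isCoatom_comap_of_surjective hφ hc, hK, inf_le_right.trans h1, fun h => ?_⟩
  have h3 : swap x y ∈ stabilizer (Perm α) A := mem_stabilizer_set.2 fun z => by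
    change swap x y z ∈ A ↔ _
    rw [swap_apply_def]; split_ifs with e1 e2
    · simp [e1, hx, hy]
    · simp [e2, hx, hy]
    · rfl
  have h4 := h.2 ((stabilizer _ A).subgroupOf K) (lt_of_le_of_ne (fun g hg => hg.2) fun e =>
    hxy ((e.ge (show (⟨_, h1 h3⟩ : K) ∈ _ from h3)).1.symm.trans (swap_apply_left _ _)))
  have h5 : (Fin.revPerm : Perm α) ∈ K := hWK (by
    rw [mem_stabilizer_iff, Set.smul_set_insert, Set.smul_set_singleton, Set.smul_set_compl, hr, compl_compl,
      Set.pair_comm])
  exact (hr.symm.trans (h4.ge (mem_top (⟨_, h5⟩ : K)))).ge ha ha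

end Cfsg.Agent.S5894
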