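import Cfsg.Statements.S5895
import Cfsg.Agent.FG.Spec
import Mathlib.LinearAlgebra.Projectivization.Action

set_option autoImplicit false
open Cfsg

namespace Cfsg.Agent.S5895

open Cfsg.Agent.FG MulAction Subgroup
open scoped LinearAlgebra.Projectivization

/-- For every prime p and every d ≥ 2 there is a finite group G with a maximal subgroup M of index p^d and a maximal subgroup H of M that is not second maximal in G: some maximal subgroup K of G contains H without H being maximal in K. (One may take G the affine group V ⋊ GL(V) of V = 𝔽_p^d, M = GL(V), H the stabiliser in M of a line W of V, and K = V ⋊ H, with H < W ⋊ H < K.) So the prime-index hypothesis in the second-maximality criterion cannot be relaxed to prime-power index. -/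
theorem result (p d : ℕ) (hp : p.Prime)
    (hd : 2 ≤ d) :
    ∃ (G : Type) (_ : Group G) (_ : Finite G) (M H K : Subgroup G), IsCoatom M ∧ M.index = p ^ d ∧ H ≤ M ∧
      IsCoatom (H.subgroupOf M) ∧ IsCoatom K ∧ H ≤ K ∧ ¬ IsCoatom (H.subgroupOf K) := by
  have := Fact.mk hp
  let V := Fin d → ZMod p
  let C := V ≃ₗ[ZMod p] V
  have : Finite C := Finite.of_injective _ DFunLike.coe_injective
  have h2 : IsMultiplyPretransitive C (ℙ (ZMod p) V) 2 := inferInstance
  have hp2 := isPreprimitive_of_is_two_pretransitive h2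
  let i : Fin d := ⟨0, by omega⟩
  let j : Fin d := ⟨1, by omega⟩
  have hij : i ≠ j := by simp [i, j]
  have hi : (Pi.single i 1 : V) ≠ 0 := by simp
  have hj : (Pi.single j 1 : V) ≠ 0 := by simp
  let l := Projectivization.mk (ZMod p) _ hi
  have hl : (Pi.single j 1 : V) ∉ l.submodule := by
    rw [Projectivization.submodule_mk, Submodule.mem_span_singleton]
    rintro ⟨a, h⟩
    simpa [hij.symm] using congrFun h j
  have hl' : (Pi.single i 1 : V) ∈ l.submodule := by
    rw [Projectivization.submodule_mk]; exact Submodule.mem_span_singleton_self _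
  have : Nontrivial (ℙ (ZMod p) V) := ⟨l, .mk _ _ hj, fun e => hl (by
    rw [e, Projectivization.submodule_mk]; exact Submodule.mem_span_singleton_self _)⟩
  have hS := hp2.isCoatom_stabilizer_of_isPreprimitive C l
  have tr : ∀ v w : V, v ≠ 0 → w ≠ 0 → ∃ g : C, g • v = w := fun v w hv hw => by
    obtain ⟨g, e⟩ := exists_smul_eq C (Projectivization.mk (ZMod p) v hv) (.mk _ w hw)
    obtain ⟨a, e⟩ := (Projectivization.mk_eq_mk_iff _ _ _ _ _).1 e.symm
    exact ⟨LinearEquiv.smulOfUnit a * g, e⟩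
  have hW : ∀ g ∈ stabilizer C l, ∀ v ∈ l.submodule, g • v ∈ l.submodule := fun g hg v hv => by
    rw [Projectivization.submodule_mk, Submodule.mem_span_singleton] at hv ⊢
    obtain ⟨a, rfl⟩ := hv
    obtain ⟨b, e⟩ := (Projectivization.mk_eq_mk_iff' _ _ _ _ _).1 hg
    exact ⟨a * b, by rw [mul_smul, e]; exact (map_smul g _ _).symm⟩
  let M : Subgroup (Aff C V) := Aff.inr.range
  have mM : ∀ x : Aff C V, x ∈ M ↔ x.v = 0 := fun x => ⟨by rintro ⟨c, rfl⟩; rfl, fun h => ⟨x.c, Aff.ext h.symm rfl⟩⟩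
  let K := (stabilizer C l).comap (Aff.lin : Aff C V →* C)
  let J : Subgroup (Aff C V) := ⟨⟨⟨{x | x ∈ K ∧ x.v ∈ l.submodule}, fun ha hb => ⟨K.mul_mem ha.1 hb.1,
    add_mem ha.2 (hW _ ha.1 _ hb.2)⟩⟩, K.one_mem, zero_mem _⟩, fun ha => ⟨K.inv_mem ha.1,
      neg_mem (hW _ (inv_mem ha.1) _ ha.2)⟩⟩
  refine ⟨Aff C V, inferInstance, inferInstance, M, M ⊓ K, K, ⟨fun e => hi ((mM ⟨_, 1⟩).1 (e.ge trivial)),
    fun B hB => ?_⟩, ?_, inf_le_left, ?_, isCoatom_comap_of_surjective (fun c => ⟨⟨0, c⟩, rfl⟩) hS, inf_le_right,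
    fun h => ?_⟩
  · obtain ⟨x, hx, hn⟩ := SetLike.exists_of_lt hB
    rw [mM] at hn
    refine eq_top_iff.2 fun y _ => ?_
    by_cases hy : y.v = 0
    · exact hB.le ((mM y).2 hy)
    obtain ⟨g, e⟩ := tr _ _ hn hy
    have := B.mul_mem (B.mul_mem (hB.le ⟨g, rfl⟩) hx) (hB.le ⟨(g * x.c)⁻¹ * y.c, rfl⟩)
    convert this using 1
    exact Aff.ext (by simp [Aff.inr, e]) (by simp [Aff.inr, mul_assoc])
  · have h1 := M.index_mul_card
    rw [Aff.card, ← Nat.card_congr (MonoidHom.ofInjective Aff.inr_injective).toEquiv] at h1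
    rw [Nat.eq_of_mul_eq_mul_right Nat.card_pos h1]
    simp [V]
  · rw [inf_subgroupOf_left]
    exact isCoatom_comap_of_surjective (φ := Aff.lin.comp M.subtype) (fun c => ⟨⟨_, c, rfl⟩, rfl⟩) hS
  · have h1 : (M ⊓ K).subgroupOf K < J.subgroupOf K := lt_of_le_of_ne
      (fun x hx => ⟨x.2, ((mM _).1 hx.1).symm ▸ zero_mem _⟩) fun e =>
        hi ((mM _).1 (e.ge (show (⟨⟨_, 1⟩, one_mem (stabilizer C l)⟩ : K) ∈ _ from ⟨one_mem (stabilizer C l), hl'⟩)).1)
    exact hl ((h.2 _ h1).ge (mem_top (⟨⟨_, 1⟩, one_mem (stabilizer C l)⟩ : K))).2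

end Cfsg.Agent.S5895
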