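import Cfsg.Statements.S5901

set_option autoImplicit false
open Cfsg

namespace Cfsg.Agent.S5901

theorem gen {G : Type*} [Group G] [Finite G] (T X M : Subgroup G) (hTX : T ≤ X)
    (hint : ∀ Y : Subgroup G, T ≤ Y → Y ≤ X → ∃ C : Subgroup G, T ≤ C ∧ C ≤ X ∧ Y ⊔ C = X ∧ Y ⊓ C = T)
    (huniq : ∀ M' : Subgroup G, IsCoatom M' → X ≤ M' → M' = M)
    (H : Subgroup G) (hH : ¬ H ≤ M) :
    ∃ C : Subgroup G, T ≤ C ∧ H ⊔ C = ⊤ ∧ H ⊓ C ≤ T := by
  obtain ⟨C, hTC, hCX, h1, h2⟩ := hint ((H ⊓ X) ⊔ T) le_sup_right (sup_le inf_le_right hTX)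
  refine ⟨C, hTC, ?_, ?_⟩
  · by_contra hne
    obtain ⟨M', hM', hle⟩ := (eq_top_or_exists_le_coatom (H ⊔ C)).resolve_left hne
    have hX : X ≤ M' := by
      rw [← h1]
      exact sup_le (sup_le (inf_le_left.trans (le_sup_left.trans hle))
        (hTC.trans (le_sup_right.trans hle))) (le_sup_right.trans hle)
    exact hH (huniq M' hM' hX ▸ le_sup_left.trans hle)
  · rw [← h2]
    exact le_inf ((inf_le_inf_left H hCX).trans le_sup_left) inf_le_right

theorem conj_back {G : Type*} [Group G] (H C T : Subgroup G) (g : G)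
    (h1 : H.map (MulAut.conj g).toMonoidHom ⊔ C = ⊤)
    (h2 : H.map (MulAut.conj g).toMonoidHom ⊓ C ≤ T) :
    H ⊔ C.map (MulAut.conj g⁻¹).toMonoidHom = ⊤ ∧
      H ⊓ C.map (MulAut.conj g⁻¹).toMonoidHom ≤ T.map (MulAut.conj g⁻¹).toMonoidHom := by
  have hH : (H.map (MulAut.conj g).toMonoidHom).map (MulAut.conj g⁻¹).toMonoidHom = H := by
    rw [Subgroup.map_map]
    convert Subgroup.map_id H
    ext x; simp [mul_assoc]
  constructor
  · rw [← hH, ← Subgroup.map_sup, h1]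
    exact Subgroup.map_top_of_surjective _ (MulAut.conj g⁻¹).surjective
  · rw [← hH, ← Subgroup.map_inf _ _ _ (MulAut.conj g⁻¹).injective]
    exact Subgroup.map_mono h2

theorem exists_conj_not_le {G : Type*} [Group G] (H M : Subgroup G) (h : ¬ H ≤ M.normalCore) :
    ∃ g : G, ¬ H.map (MulAut.conj g).toMonoidHom ≤ M := by
  by_contra hc
  push Not at hc
  exact h fun x hx g => hc g ⟨x, hx, rfl⟩

/-- Let G be a finite group and T ≤ X subgroups with X proper. Suppose the interval [T, X] of the subgroup lattice is complemented (every Y with T ≤ Y ≤ X has some C with T ≤ C ≤ X, Y ⊔ C = X and Y ⊓ C = T), and that X lies in exactly one maximal subgroup M of G. Then every subgroup H of G with H not contained in M and H ⊓ T = 1 has a complement in the subgroup lattice of G: some C with H ⊔ C = G and H ⊓ C = 1. -/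
theorem result {G : Type*} [Group G] [Finite G] (T X M : Subgroup G)
    (hTX : T ≤ X) (hX : X ≠ ⊤)
    (hint : ∀ Y : Subgroup G, T ≤ Y → Y ≤ X → ∃ C : Subgroup G, T ≤ C ∧ C ≤ X ∧ Y ⊔ C = X ∧ Y ⊓ C = T)
    (hM : IsCoatom M) (hXM : X ≤ M) (huniq : ∀ M' : Subgroup G, IsCoatom M' → X ≤ M' → M' = M)
    (H : Subgroup G) (hH : ¬ H ≤ M) (hHT : H ⊓ T = ⊥) :
    ∃ C : Subgroup G, H ⊔ C = ⊤ ∧ H ⊓ C = ⊥ := by
  obtain ⟨C, -, h1, h2⟩ := gen T X M hTX hint huniq H hH
  exact ⟨C, h1, eq_bot_iff.2 (hHT ▸ le_inf inf_le_left h2)⟩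

end Cfsg.Agent.S5901
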