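import Cfsg.Statements.S5902
import Cfsg.Agent.S5901

set_option autoImplicit false
open Cfsg

namespace Cfsg.Agent.S5902

open Cfsg.Agent.S5901 in
theorem interval {G : Type*} [Group G] (X N : Subgroup G) [N.Normal]
    (hK : ComplementedLattice (Subgroup X)) (Y : Subgroup G) (h1 : N ≤ Y) (h2 : Y ≤ X ⊔ N) :
    ∃ C : Subgroup G, N ≤ C ∧ C ≤ X ⊔ N ∧ Y ⊔ C = X ⊔ N ∧ Y ⊓ C = N := by
  obtain ⟨C₀, hC⟩ := exists_isCompl (Y.subgroupOf X)
  have hle : C₀.map X.subtype ≤ X := Subgroup.map_subtype_le _
  refine ⟨C₀.map X.subtype ⊔ N, le_sup_right, sup_le_sup_right hle _, ?_, ?_⟩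
  · refine le_antisymm (sup_le h2 (sup_le_sup_right hle _)) (sup_le ?_ (h1.trans le_sup_left))
    have := congrArg (Subgroup.map X.subtype) hC.sup_eq_top
    rw [Subgroup.map_sup, Subgroup.subgroupOf_map_subtype, ← MonoidHom.range_eq_map,
      Subgroup.range_subtype] at this
    conv_lhs => rw [← this]
    exact sup_le (inf_le_left.trans le_sup_left) (le_sup_left.trans le_sup_right)
  · refine le_antisymm ?_ (le_inf h1 le_sup_right)
    rintro y ⟨hy, hy2⟩
    have : y ∈ ((C₀.map X.subtype ⊔ N : Subgroup G) : Set G) := hy2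
    rw [Subgroup.mul_normal] at this
    obtain ⟨_, ⟨c, hc, rfl⟩, n, hn, rfl⟩ := this
    have hcY : (c : G) ∈ Y := by
      have := Y.mul_mem hy (Y.inv_mem (h1 hn))
      simpa using this
    have : c ∈ Y.subgroupOf X ⊓ C₀ := ⟨hcY, hc⟩
    rw [hC.inf_eq_bot, Subgroup.mem_bot] at this
    subst this
    simpa using hn

/-- Let G be a finite group, X a subgroup whose own subgroup lattice is complemented, and suppose X lies in exactly one maximal subgroup M of G. Then every subgroup H of G not contained in the normal core of M has a complement in the subgroup lattice of G (some C with H ⊔ C = G and H ⊓ C = 1); in particular the subgroup lattice of G modulo the normal core of M is complemented. -/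
theorem result {G : Type*} [Group G] [Finite G] (X M : Subgroup G)
    (hK : ComplementedLattice (Subgroup X))
    (hM : IsCoatom M) (hXM : X ≤ M) (huniq : ∀ M' : Subgroup G, IsCoatom M' → X ≤ M' → M' = M) :
    (∀ H : Subgroup G, ¬ H ≤ M.normalCore → ∃ C : Subgroup G, H ⊔ C = ⊤ ∧ H ⊓ C = ⊥) ∧
    ComplementedLattice (Subgroup (G ⧸ M.normalCore)) := by
  constructor
  · intro H hH
    obtain ⟨g, hg⟩ := S5901.exists_conj_not_le H M hH
    obtain ⟨C, -, h1, h2⟩ := S5901.gen ⊥ X M bot_le
      (fun Y h1 h2 => by simpa using interval X ⊥ hK Y h1 (by simpa using h2)) huniq _ hg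
    obtain ⟨h3, h4⟩ := S5901.conj_back H C ⊥ g h1 h2
    exact ⟨_, h3, by simpa using h4⟩
  · constructor
    intro Hb
    by_cases hb : Hb = ⊥
    · exact ⟨⊤, hb ▸ isCompl_bot_top⟩
    set N := M.normalCore
    set π := QuotientGroup.mk' N
    have hπ : Function.Surjective π := QuotientGroup.mk'_surjective N
    have hH : ¬ Hb.comap π ≤ N := by
      intro h
      apply hb
      rw [eq_bot_iff]
      intro y hy
      obtain ⟨x, rfl⟩ := hπ y
      exact (QuotientGroup.eq_one_iff x).2 (h hy)
    obtain ⟨g, hg⟩ := S5901.exists_conj_not_le _ M hH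
    obtain ⟨C, h0, h1, h2⟩ := S5901.gen N (X ⊔ N) M le_sup_right (interval X N hK)
      (fun M' h1 h2 => huniq M' h1 (le_sup_left.trans h2)) _ hg
    obtain ⟨h3, h4⟩ := S5901.conj_back _ C N g h1 h2
    set C' := C.map (MulAut.conj g⁻¹).toMonoidHom
    have hN : N.map (MulAut.conj g⁻¹).toMonoidHom ≤ N := by
      rintro _ ⟨x, hx, rfl⟩
      exact Subgroup.Normal.conj_mem inferInstance x hx g⁻¹
    have hNC : N ≤ C' := by
      intro x hx
      refine ⟨g * x * g⁻¹, h0 (Subgroup.Normal.conj_mem inferInstance x hx g), ?_⟩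
      simp [mul_assoc]
    refine ⟨C'.map π, ?_, ?_⟩
    · rw [disjoint_iff, eq_bot_iff]
      rintro _ ⟨hy, x, hx, rfl⟩
      exact (QuotientGroup.eq_one_iff x).2 (hN (h4 ⟨hy, hx⟩))
    · rw [codisjoint_iff]
      have := congrArg (Subgroup.map π) h3
      rwa [Subgroup.map_sup, Subgroup.map_comap_eq_self_of_surjective hπ,
        Subgroup.map_top_of_surjective _ hπ] at this

end Cfsg.Agent.S5902
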