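import Cfsg.Statements.S5903
import Cfsg.Agent.S5901

set_option autoImplicit false
open Cfsg

namespace Cfsg.Agent.S5903



/-- Let G be a finite simple group, X a subgroup lying in exactly one maximal subgroup M of G, and N a subgroup of prime order with N ≤ X that is central in M. If the subgroup lattice of X/N is complemented, then the subgroup lattice of G is complemented. -/
theorem result {G : Type*} [Group G] [Finite G] [IsSimpleGroup G] (X M N : Subgroup G)
    (hM : IsCoatom M) (hXM : X ≤ M) (huniq : ∀ M' : Subgroup G, IsCoatom M' → X ≤ M' → M' = M)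
    (hNX : N ≤ X) (hN : (Nat.card N).Prime) (hcen : ∀ n ∈ N, ∀ m ∈ M, m * n = n * m)
    [(N.subgroupOf X).Normal] (hK : ComplementedLattice (Subgroup (X ⧸ N.subgroupOf X))) :
    ComplementedLattice (Subgroup G) := by
  have hint : ∀ Y : Subgroup G, N ≤ Y → Y ≤ X →
      ∃ C : Subgroup G, N ≤ C ∧ C ≤ X ∧ Y ⊔ C = X ∧ Y ⊓ C = N := by
    intro Y h1 h2
    set π := QuotientGroup.mk' (N.subgroupOf X)
    have hπ : Function.Surjective π := QuotientGroup.mk'_surjective _
    have hker : π.ker = N.subgroupOf X := QuotientGroup.ker_mk' _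
    obtain ⟨C₀, hC⟩ := exists_isCompl ((Y.subgroupOf X).map π)
    have hY : ((Y.subgroupOf X).map π).comap π = Y.subgroupOf X := by
      rw [Subgroup.comap_map_eq, hker]
      exact sup_eq_left.2 fun x hx => h1 hx
    have hNC : N ≤ (C₀.comap π).map X.subtype := by
      intro x hx
      refine ⟨⟨x, hNX hx⟩, ?_, rfl⟩
      have : π ⟨x, hNX hx⟩ = 1 := (QuotientGroup.eq_one_iff _).2 hx
      simp [this]
    refine ⟨(C₀.comap π).map X.subtype, hNC, Subgroup.map_subtype_le _, ?_, ?_⟩
    · have := congrArg (fun K => (Subgroup.comap π K).map X.subtype) hC.sup_eq_top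
      rw [← Subgroup.comap_sup_eq _ _ _ hπ, hY, Subgroup.map_sup, Subgroup.subgroupOf_map_subtype,
        inf_eq_left.2 h2, Subgroup.comap_top, ← MonoidHom.range_eq_map,
        Subgroup.range_subtype] at this
      exact this
    · refine le_antisymm ?_ (le_inf h1 hNC)
      rintro _ ⟨hy, x, hx, rfl⟩
      have : π x ∈ (Y.subgroupOf X).map π ⊓ C₀ := ⟨⟨x, hy, rfl⟩, hx⟩
      rw [hC.inf_eq_bot, Subgroup.mem_bot] at this
      exact (QuotientGroup.eq_one_iff (N := N.subgroupOf X) x).1 this
  constructor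
  intro H
  by_cases hn : H.Normal
  · rcases hn.eq_bot_or_eq_top with h | h
    · exact ⟨⊤, h ▸ isCompl_bot_top⟩
    · exact ⟨⊥, h ▸ isCompl_top_bot⟩
  have key : ∃ g : G, ¬ H.map (MulAut.conj g).toMonoidHom ≤ M ∧
      H.map (MulAut.conj g).toMonoidHom ⊓ N = ⊥ := by
    by_contra hc
    push Not at hc
    have hle : N ≤ (Subgroup.normalizer (H : Set G)).normalCore := by
      intro x hx g
      by_cases h1 : H.map (MulAut.conj g⁻¹).toMonoidHom ≤ M
      · apply Subgroup.centralizer_le_normalizer
        intro h hh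
        have := hcen x hx _ (h1 ⟨h, hh, rfl⟩)
        simp only [MulEquiv.coe_toMonoidHom, MulAut.conj_apply, inv_inv] at this
        calc h * (g * x * g⁻¹) = g * (g⁻¹ * h * g * x) * g⁻¹ := by group
          _ = _ := by rw [this]; group
      · have h2 := hc g⁻¹ h1
        haveI := Fact.mk hN
        have h3 := (Subgroup.eq_bot_or_eq_top_of_prime_card
          ((H.map (MulAut.conj g⁻¹).toMonoidHom).subgroupOf N)).resolve_left
          (by rwa [Subgroup.subgroupOf_eq_bot, disjoint_iff])
        rw [Subgroup.subgroupOf_eq_top] at h3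
        obtain ⟨y, hy, e⟩ := h3 hx
        apply Subgroup.le_normalizer
        have : g * x * g⁻¹ = y := by rw [← e]; simp [mul_assoc]
        rwa [this]
    rcases (Subgroup.normalCore_normal (Subgroup.normalizer (H : Set G))).eq_bot_or_eq_top with h | h
    · rw [h, le_bot_iff] at hle
      rw [hle] at hN
      simp [Nat.not_prime_one] at hN
    · exact hn (Subgroup.normalizer_eq_top_iff.1 (eq_top_iff.2 (h ▸ Subgroup.normalCore_le _)))
  obtain ⟨g, hg, hg2⟩ := key
  obtain ⟨C, h1, h2⟩ := S5901.result N X M hNX (fun h => hM.1 (eq_top_iff.2 (h ▸ hXM))) hint hM hXM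
    huniq _ hg hg2
  obtain ⟨h3, h4⟩ := S5901.conj_back H C ⊥ g h1 h2.le
  exact ⟨_, disjoint_iff.2 (by simpa using h4), codisjoint_iff.2 h3⟩

end Cfsg.Agent.S5903
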