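import Cfsg.Statements.S5904

set_option autoImplicit false
open scoped Pointwise
open Cfsg

namespace Cfsg.Agent.S5904



/-- Let Ω be a finite set with more than two elements and O ⊆ Ω a subset with exactly as many elements as its complement. Then the setwise stabilizer of O in the symmetric group on Ω is not a maximal subgroup (it is properly contained in the stabilizer of the partition {O, Ω ∖ O}, which is proper). -/
theorem result {Ω : Type*} [Fintype Ω] [DecidableEq Ω] (hΩ : 2 < Fintype.card Ω)
    (O : Set Ω) (hO : Nat.card O = Nat.card ↥Oᶜ) :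
    ¬ IsCoatom (MulAction.stabilizer (Equiv.Perm Ω) O) := by
  classical
  intro hmax
  obtain ⟨e⟩ : Nonempty (O ≃ ↥Oᶜ) := Finite.card_eq.1 hO
  -- the involution exchanging `O` and its complement
  let t : Ω → Ω := fun x => if h : x ∈ O then e ⟨x, h⟩ else e.symm ⟨x, h⟩
  have ht : ∀ x, t x ∈ O ↔ x ∉ O := by
    intro x
    by_cases h : x ∈ O
    · simp only [t, dif_pos h]
      exact ⟨fun h' => absurd h' (e ⟨x, h⟩).2, fun h' => absurd h h'⟩
    · simp only [t, dif_neg h]
      exact ⟨fun _ => h, fun _ => (e.symm ⟨x, h⟩).2⟩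
  have hinv : Function.Involutive t := by
    intro x
    by_cases h : x ∈ O
    · have h2 : ¬ ((e ⟨x, h⟩ : Ω) ∈ O) := (e ⟨x, h⟩).2
      simp only [t, dif_pos h, dif_neg h2]
      simp
    · have h2 : ((e.symm ⟨x, h⟩ : O) : Ω) ∈ O := (e.symm ⟨x, h⟩).2
      simp only [t, dif_neg h, dif_pos h2]
      simp
  let K : Subgroup (Equiv.Perm Ω) :=
    { carrier := {g | ∀ x y, (x ∈ O ↔ y ∈ O) ↔ (g x ∈ O ↔ g y ∈ O)}
      one_mem' := fun x y => Iff.rfl
      mul_mem' := fun {a b} ha hb x y => (hb x y).trans (ha _ _)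
      inv_mem' := fun {a} ha x y => by
        have := ha (a⁻¹ x) (a⁻¹ y)
        simpa using this.symm }
  have hcard : Nat.card O + Nat.card ↥Oᶜ = Fintype.card Ω := by
    rw [Nat.card_coe_set_eq, Nat.card_coe_set_eq, Set.ncard_add_ncard_compl, Nat.card_eq_fintype_card]
  have h2 : 1 < Nat.card O := by omega
  obtain ⟨a, b, hab⟩ := (Finite.one_lt_card_iff_nontrivial.1 h2).exists_pair_ne
  have hlt : MulAction.stabilizer (Equiv.Perm Ω) O < K := by
    refine lt_of_le_of_ne (fun g hg x y => ?_) fun h => ?_
    · have := fun x => MulAction.mem_stabilizer_set.1 hg x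
      simp only [Equiv.Perm.smul_def] at this
      rw [this, this]
    · have : hinv.toPerm ∈ K := fun x y => by
        simp only [Function.Involutive.coe_toPerm, ht]; tauto
      rw [← h] at this
      have := (MulAction.mem_stabilizer_set.1 this a).2 a.2
      exact (ht a).1 this a.2
  have hK := hmax.2 K hlt
  have hc : (e a : Ω) ∉ O := (e a).2
  have : Equiv.swap (a : Ω) (e a) ∈ K := hK ▸ Subgroup.mem_top _
  have := this a b
  rw [Equiv.swap_apply_left, Equiv.swap_apply_of_ne_of_ne (fun h => hab (Subtype.ext h).symm)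
    (fun h : (b : Ω) = e a => hc (h ▸ b.2))] at this
  simp [hc] at this

end Cfsg.Agent.S5904
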