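import Cfsg.Statements.S5908
import Cfsg.Agent.Gen2.U32

set_option autoImplicit false
open Cfsg

namespace Cfsg.Agent.S5908

open QuaternionGroup Subgroup

/-- The subgroup lattice of PSU₃(2) (the solvable group of order 72, realised over the field with 4 elements) is not complemented: some subgroup H has no subgroup X with H ⊔ X = ⊤ and H ⊓ X = ⊥. -/
theorem result {F : Type*} [Field F] [Fintype F] (hF : Fintype.card F = 4) :
    ¬ ComplementedLattice (Subgroup (Cfsg.PSU 3 F 2)) := by
  intro h
  obtain ⟨N, _, -, -, ⟨e⟩⟩ := Gen2.psu32 hF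
  let f := e.toMonoidHom.comp (QuotientGroup.mk' N)
  have k : ∀ y : QuaternionGroup 2, y * y = 1 → y ∈ center _ := by simp only [mem_center_iff]; decide
  obtain ⟨X, h1, h2⟩ := h.1 ((center _).comap f)
  have l : X ≤ (center _).comap f := fun x hx => k _ (by
    rw [← map_mul, h1.le_bot ⟨k _ ?_, mul_mem hx hx⟩, map_one]
    rw [map_mul]; generalize f x = y; revert y; decide)
  obtain ⟨x, hx⟩ := e.surjective.comp (QuotientGroup.mk'_surjective N) (a 1)
  have : f x ∈ center _ := (sup_le le_rfl l) (h2.top_le (mem_top x))
  rw [show f x = a 1 from hx, mem_center_iff] at this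
  revert this; decide

end Cfsg.Agent.S5908
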