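import Cfsg.Statements.S5910
import Cfsg.Agent.Small.SymSyl2

set_option autoImplicit false
open Cfsg

namespace Cfsg.Agent.S5910

open Equiv Equiv.Perm Small

def v (i : Fin 4) : ZMod 2 × ZMod 2 := ![(0, 0), (0, 1), (1, 0), (1, 1)] i

theorem vA : ∀ π : Perm (Fin 4), ∀ i j k l : Fin 4,
    v i + v j + v k + v l = 0 ↔ v (π i) + v (π j) + v (π k) + v (π l) = 0 := by decide +kernel

theorem vB : ∀ ε : Fin 4 → ZMod 2, ∑ b, ε b = 0 → ∀ i j k l : Fin 4,
    v i + v j + v k + v l = 0 → ε i + ε j + ε k + ε l = 0 := by decide +kernel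

/-- The affine group in coordinates `φ`. -/
def aff {Ω A : Type*} [AddCommGroup A] (φ : Ω → A) : Subgroup (Perm Ω) where
  carrier := {g | ∀ a b c d, φ a + φ b + φ c + φ d = 0 ↔ φ (g a) + φ (g b) + φ (g c) + φ (g d) = 0}
  one_mem' := fun _ _ _ _ => Iff.rfl
  mul_mem' := fun {x y} hx hy a b c d => (hy a b c d).trans (hx _ _ _ _)
  inv_mem' := fun {x} hx a b c d => by simpa using (hx (x⁻¹ a) (x⁻¹ b) (x⁻¹ c) (x⁻¹ d)).symm

def ψ (x : Fin 4 × ZMod 2) : (ZMod 2 × ZMod 2) × ZMod 2 := (v x.1, x.2)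

def g₀ : Perm (Fin 4 × ZMod 2) := swap (0, 1) (1, 0) * swap (2, 1) (3, 0)

theorem g₀_aff : g₀ ∈ aff ψ := by
  intro a b c d
  revert a b c d
  decide +kernel

/-- Let Ω be a set with 8 elements and f : Ω → Fin 4 a labelling whose four fibres all have size 2 (a partition of the 8 points into 4 pairs). Then the group of even permutations preserving this partition, (S₂ ≀ S₄) ∩ A₈, is not a maximal subgroup of the alternating group A₈ (it lies in a subgroup isomorphic to the affine group AGL₃(2)). -/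
theorem result {Ω : Type*} [Fintype Ω] [DecidableEq Ω] (h8 : Fintype.card Ω = 8)
    (f : Ω → Fin 4) (hf : ∀ i : Fin 4, Nat.card {x : Ω // f x = i} = 2) :
    ¬ IsCoatom ((Subgroup.closure {g : Equiv.Perm Ω | ∀ x y : Ω, f x = f y ↔ f (g x) = f (g y)} ⊓ alternatingGroup Ω).subgroupOf (alternatingGroup Ω)) := by
  classical
  rw [closure_eq_PS]
  have h : Unif f 2 := ⟨hf, le_rfl, inferInstance⟩
  obtain ⟨e, he⟩ : ∃ e : Ω ≃ Fin 4 × ZMod 2, ∀ x, (e x).1 = f x := h.exists_equiv
  let W : WS 2 Ω (Fin 4) Empty := ⟨(Equiv.sumEmpty _ _).trans e.symm⟩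
  have hW : ∀ b c, W.pt b c = e.symm (b, c) := fun _ _ => rfl
  have hfW : ∀ b c, f (W.pt b c) = b := fun b c => by rw [← he, hW]; simp
  intro hc
  have h1 : PS f ⊓ alternatingGroup Ω ≤ aff (ψ ∘ e) := by
    rintro g ⟨hg, hs⟩
    obtain ⟨π, ε, rfl⟩ : ∃ π ε, g = W.el π ε := by
      refine W.eq_el fun b c => ?_
      obtain ⟨b', c', e1⟩ := W.exists_pt (g (W.pt b c))
      obtain ⟨b'', c'', e2⟩ := W.exists_pt (g (W.pt b (c + 1)))
      have := (hg (W.pt b c) (W.pt b (c + 1))).1 (by rw [hfW, hfW])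
      rw [e1, e2, hfW, hfW] at this
      subst this
      refine ⟨b', c', e1, ?_⟩
      rw [e2, WS.zmod2 c' c'']
      rintro rfl
      simpa using g.injective (e1.trans e2.symm)
    have hε := (W.sign_el_two π ε).1 hs
    intro a b c d
    obtain ⟨i, s, rfl⟩ := W.exists_pt a
    obtain ⟨j, t, rfl⟩ := W.exists_pt b
    obtain ⟨k, u, rfl⟩ := W.exists_pt c
    obtain ⟨l, w, rfl⟩ := W.exists_pt d
    simp only [WS.el_pt]
    simp only [hW, Function.comp_apply, Equiv.apply_symm_apply, ψ, Prod.mk_add_mk, Prod.mk_eq_zero]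
    rw [← vA]
    refine and_congr_right fun h2 => ?_
    have := vB ε hε i j k l h2
    exact ⟨fun h3 => by linear_combination h3 + this, fun h3 => by linear_combination h3 - this⟩
  have h2 := hc.2 ((aff (ψ ∘ e)).subgroupOf (alternatingGroup Ω)) (lt_of_le_of_ne
    (fun g hg => h1 hg) fun h3 => by
      have hs : e.symm.permCongr g₀ ∈ alternatingGroup Ω := by
        rw [mem_alternatingGroup, sign_permCongr]; decide
      have : (⟨_, hs⟩ : alternatingGroup Ω) ∈ (aff (ψ ∘ e)).subgroupOf (alternatingGroup Ω) :=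
        fun a b c d => by simpa using g₀_aff (e a) (e b) (e c) (e d)
      rw [← h3] at this
      have := this.1 (W.pt 0 0) (W.pt 0 1)
      simp only [← he, hW] at this
      simp only [Subgroup.coe_subtype, permCongr_apply, symm_symm, apply_symm_apply] at this
      revert this
      decide)
  have hs : e.symm.permCongr (swap (0, 0) (0, 1) * swap (0, 0) (1, 0)) ∈ alternatingGroup Ω := by
    rw [mem_alternatingGroup, sign_permCongr]; decide
  have : (⟨_, hs⟩ : alternatingGroup Ω) ∈ (aff (ψ ∘ e)).subgroupOf (alternatingGroup Ω) :=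
    h2 ▸ Subgroup.mem_top _
  have := this (W.pt 0 0) (W.pt 0 1) (W.pt 2 0) (W.pt 2 1)
  simp only [hW, Subgroup.coe_subtype, Function.comp_apply, permCongr_apply, symm_symm,
    apply_symm_apply] at this
  revert this
  decide

end Cfsg.Agent.S5910
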