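import Cfsg.Statements.S5911
import Cfsg.Agent.Perm.IndexN

set_option autoImplicit false
open Cfsg

namespace Cfsg.Agent.S5911

open MulAction Perm Equiv Equiv.Perm

/-- Let Ω be a finite set whose size n is not 6. Then every subgroup of the symmetric group on Ω of index n is the stabilizer of a point. -/
theorem result {Ω : Type*} [Fintype Ω] [DecidableEq Ω] (h6 : Fintype.card Ω ≠ 6)
    (H : Subgroup (Equiv.Perm Ω)) (hH : H.index = Fintype.card Ω) :
    ∃ x : Ω, H = MulAction.stabilizer (Equiv.Perm Ω) x := by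
  have h0 := H.index_ne_zero_of_finite
  by_cases h5 : 5 ≤ Fintype.card Ω
  · obtain ⟨ψ, x, hψ⟩ := exists_aut_of_index h5 hH
    obtain ⟨σ, hσ⟩ := exists_conj_aut (by omega) h6 ψ
    exact ⟨_, eq_stabilizer_of_conj hσ hψ⟩
  suffices h : ∃ x, ∀ g ∈ H, g x = x by
    obtain ⟨x, hx⟩ := h
    exact ⟨x, eq_stabilizer_of_le hH hx⟩
  have h1 := H.card_mul_index
  rw [hH, Nat.card_perm, Nat.card_eq_fintype_card (α := Ω)] at h1
  obtain ⟨x⟩ : Nonempty Ω := Fintype.card_pos_iff.1 (by omega)
  have h2 : Fintype.card Ω ≤ 2 ∨ Fintype.card Ω = 3 ∨ Fintype.card Ω = 4 := by omega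
  rcases h2 with h2 | h2 | h2
  · have h3 : Nat.card H = 1 := by
      obtain h | h : Fintype.card Ω = 1 ∨ Fintype.card Ω = 2 := by omega
      all_goals
        rw [h] at h1
        simp only [Nat.factorial] at h1
        omega
    exact ⟨x, fun g hg => by rw [(Subgroup.eq_bot_iff_forall H).1 (Subgroup.card_eq_one.1 h3) g hg]; rfl⟩
  · have h3 : Nat.card H = 2 ^ 1 := by
      rw [h2] at h1
      simp only [Nat.factorial] at h1
      omega
    obtain ⟨y, hy⟩ := (IsPGroup.of_card h3).nonempty_fixed_point_of_prime_not_dvd_card Ω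
      (by rw [Nat.card_eq_fintype_card, h2]; norm_num)
    exact ⟨y, fun g hg => hy ⟨g, hg⟩⟩
  · have h3 : Nat.card H = 6 := by
      rw [h2] at h1
      simp only [Nat.factorial] at h1
      omega
    have : Fact (Nat.Prime 3) := ⟨Nat.prime_three⟩
    obtain ⟨c, hc⟩ := exists_prime_orderOf_dvd_card' (G := H) 3 (by rw [h3]; norm_num)
    have hn : (Subgroup.zpowers c).Normal := Subgroup.normal_of_index_eq_two (by
      have := (Subgroup.zpowers c).card_mul_index
      rw [Nat.card_zpowers, hc, h3] at this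
      omega)
    have hc' : orderOf (c : Perm Ω) = 3 := by rw [Subgroup.orderOf_coe, hc]
    have h4 : (c : Perm Ω).support.card = 3 := by
      rw [← (isCycle_of_prime_order' (hc' ▸ Nat.prime_three) (by omega)).orderOf, hc']
    have h7 : (c : Perm Ω).supportᶜ.card = 1 := by rw [Finset.card_compl, h4, h2]
    obtain ⟨y, hy⟩ := Finset.card_eq_one.1 h7
    have h8 : ∀ z, (c : Perm Ω) z = z ↔ z = y := fun z => by
      rw [← notMem_support, ← Finset.mem_compl, hy, Finset.mem_singleton]
    refine ⟨y, fun g hg => (h8 _).1 ?_⟩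
    obtain ⟨k, hk⟩ := hn.conj_mem c (Subgroup.mem_zpowers c) (⟨g, hg⟩ : H)⁻¹
    have h9 : ((c : Perm Ω) ^ k) y = y := zpow_apply_eq_self_of_apply_eq_self ((h8 y).2 rfl) k
    have h10 : (c : Perm Ω) ^ k = g⁻¹ * c * g := by simpa using congrArg Subtype.val hk
    rw [h10, Perm.mul_apply, Perm.mul_apply, Perm.inv_eq_iff_eq] at h9
    exact h9

end Cfsg.Agent.S5911
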