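import Cfsg.Statements.S5912
import Cfsg.Agent.Perm.IndexN

set_option autoImplicit false
open Cfsg

namespace Cfsg.Agent.S5912

open MulAction Perm Equiv Equiv.Perm
theorem map_conj_stab {Ω : Type*} (ψ : MulAut (Perm Ω)) (g : Perm Ω) (x : Ω) :
    ((stabilizer (Perm Ω) x).comap ψ.toMonoidHom).map (MulAut.conj g).toMonoidHom =
      (stabilizer (Perm Ω) (ψ g x)).comap ψ.toMonoidHom := by
  ext k
  rw [Subgroup.mem_map_equiv]
  simp only [Subgroup.mem_comap, MulEquiv.coe_toMonoidHom, MulAut.conj_symm_apply, map_mul, map_inv,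
    mem_stabilizer_iff, Perm.smul_def, Perm.mul_apply, Perm.inv_eq_iff_eq]

/-- The symmetric group on a 6-element set Ω has exactly two conjugacy classes of subgroups of index 6: there are two non-conjugate subgroups of index 6 (a point stabilizer and a transitive subgroup isomorphic to S₅), and every subgroup of index 6 is conjugate to one of them. -/
theorem result {Ω : Type*} [Fintype Ω] [DecidableEq Ω] (h6 : Fintype.card Ω = 6) :
    ∃ H₁ H₂ : Subgroup (Equiv.Perm Ω), H₁.index = 6 ∧ H₂.index = 6 ∧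
      (¬ ∃ g : Equiv.Perm Ω, Subgroup.map (MulAut.conj g).toMonoidHom H₁ = H₂) ∧
      ∀ H : Subgroup (Equiv.Perm Ω), H.index = 6 →
        ∃ g : Equiv.Perm Ω, Subgroup.map (MulAut.conj g).toMonoidHom H₁ = H ∨ Subgroup.map (MulAut.conj g).toMonoidHom H₂ = H := by
  obtain ⟨ψ, h1, h2⟩ := exists_outer_six h6
  obtain ⟨x⟩ : Nonempty Ω := Fintype.card_pos_iff.1 (by omega)
  have h3 : ∀ (g : Perm Ω) (y : Ω), (stabilizer (Perm Ω) y).map (MulAut.conj g).toMonoidHom =
      stabilizer (Perm Ω) (g y) := map_conj_stab 1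
  refine ⟨stabilizer (Perm Ω) x, (stabilizer (Perm Ω) x).comap ψ.toMonoidHom,
    (index_stabilizer_perm x).trans h6, ?_, ?_, fun H hH => ?_⟩
  · rw [Subgroup.index_comap_of_surjective _ ψ.surjective, index_stabilizer_perm, h6]
  · rintro ⟨g, hg⟩
    exact h1 _ _ (hg.symm.trans (h3 g x))
  · obtain ⟨y, rfl | rfl⟩ := h2 H hH
    · exact ⟨swap x y, Or.inl (by rw [h3, swap_apply_left])⟩
    · exact ⟨ψ.symm (swap x y), Or.inr (by rw [map_conj_stab, MulEquiv.apply_symm_apply, swap_apply_left])⟩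

end Cfsg.Agent.S5912
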