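import Cfsg.Statements.S5947
import Cfsg.Agent.Elu.Cyc
import Cfsg.Agent.S5946
import Cfsg.Agent.Num.Zsigmondy

set_option autoImplicit false
open Cfsg

namespace Cfsg.Agent.S5947

theorem prime_of_succ {p k m : ℕ} (hp : p.Prime) (hk : 0 < k) (h : p ^ k + 1 = 2 ^ m) :
    (p ^ k).Prime := by
  have h1 : 1 < p ^ k := Nat.one_lt_pow hk.ne' hp.one_lt
  rcases Nat.even_or_odd' k with ⟨j, rfl | rfl⟩
  · exfalso
    have h2 : 2 ≤ m := by
      by_contra h2
      have : m = 0 ∨ m = 1 := by omega
      rcases this with rfl | rfl <;> omega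
    obtain ⟨m, rfl⟩ := Nat.exists_eq_add_of_le h2
    rw [pow_add, mul_comm 2 j, pow_mul] at h
    have h4 : (p ^ j) % 4 = 0 ∨ (p ^ j) % 4 = 1 ∨ (p ^ j) % 4 = 2 ∨ (p ^ j) % 4 = 3 := by omega
    have h5 := Nat.pow_mod (p ^ j) 2 4
    rcases h4 with h4 | h4 | h4 | h4 <;> rw [h4] at h5 <;> omega
  · rcases Nat.eq_zero_or_pos j with rfl | hj
    · simpa using hp
    exfalso
    obtain ⟨c, hc⟩ := Odd.nat_add_dvd_pow_add_pow p 1 (n := 2 * j + 1) ⟨j, rfl⟩
    rw [one_pow] at hc
    have hc1 : c ≠ 1 := by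
      rintro rfl
      have : p ^ 1 < p ^ (2 * j + 1) := Nat.pow_lt_pow_right hp.one_lt (by omega)
      rw [pow_one] at this
      omega
    have hc2 : 2 ∣ c := by
      obtain ⟨s, hs, hsc⟩ := Nat.exists_prime_and_dvd hc1
      have : s ∣ 2 ^ m := h ▸ hc ▸ hsc.mul_left _
      exact (Nat.prime_dvd_prime_iff_eq hs Nat.prime_two).1 (hs.dvd_of_dvd_pow this) ▸ hsc
    have h3 : ((p : ℤ) + 1) * ∑ i ∈ Finset.range (2 * j + 1), (-(p : ℤ)) ^ i = ((p : ℤ) + 1) * c := by
      have := mul_neg_geom_sum (-(p : ℤ)) (2 * j + 1)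
      rw [sub_neg_eq_add, add_comm, Odd.neg_pow ⟨j, rfl⟩, sub_neg_eq_add, add_comm 1] at this
      rw [this]; exact_mod_cast hc
    have h4 := mul_left_cancel₀ (by positivity) h3
    have hpo : Odd p := by
      rcases Nat.even_or_odd p with h5 | h5
      · exfalso
        have h6 : Even (p ^ (2 * j + 1)) := h5.pow_of_ne_zero (by omega)
        have h7 : Even (2 ^ m) := Even.pow_of_ne_zero even_two (by rintro rfl; omega)
        rw [← h, Nat.even_add_one] at h7
        exact h7 h6
      · exact h5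
    have h5 := congrArg (Int.cast : ℤ → ZMod 2) h4
    have h6 : ((p : ℕ) : ZMod 2) = 1 := (ZMod.natCast_eq_one_iff_odd).2 hpo
    have h7 : ((c : ℕ) : ZMod 2) = 0 := (ZMod.natCast_eq_zero_iff _ _).2 hc2
    push_cast at h5
    rw [h6, h7, show (-1 : ZMod 2) = 1 from rfl] at h5
    simp only [one_pow, Finset.sum_const, Finset.card_range, nsmul_eq_mul, mul_one] at h5
    push_cast at h5
    rw [show (2 : ZMod 2) = 0 from rfl] at h5
    simp at h5

/-- Let F ⊆ K be finite fields with |F| = q and [K : F] = n ≥ 2, regard K as an n-dimensional F-vector space, and let M ≤ GL_F(K) be the Singer group of multiplications by non-zero elements of K (cyclic of order q^n − 1). Assume (n, q) ≠ (6, 2), and that it is not the case that n = 2 with q a prime such that q + 1 is a power of 2. Then every abelian subgroup of GL_F(K) of order q^n − 1 is conjugate to M. -/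
theorem result {F K : Type*} [Field F] [Fintype F] [Field K] [Fintype K] [Algebra F K] (n : ℕ) (hn : 2 ≤ n) (hdim : Module.finrank F K = n)
    (hex1 : ¬ (n = 6 ∧ Fintype.card F = 2))
    (hex2 : ¬ (n = 2 ∧ (Fintype.card F).Prime ∧ ∃ a : ℕ, Fintype.card F + 1 = 2 ^ a))
    (U : Subgroup (Module.End F K)ˣ) (hU : IsMulCommutative U) (hcard : Nat.card U = Fintype.card K - 1) :
    ∃ g : (Module.End F K)ˣ, U.map (MulAut.conj g).toMonoidHom = (Units.map ((Algebra.lmul F K : K →ₐ[F] Module.End F K) : K →* Module.End F K)).range := by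
  open Module Polynomial Cfsg.Agent.Elu Cfsg.Agent.Classical in
  classical
  have hq : 1 < Fintype.card F := Fintype.one_lt_card
  have hK : Fintype.card K = Fintype.card F ^ n := by rw [Module.card_eq_pow_finrank (K := F), hdim]
  obtain ⟨r, hr, h1, h2⟩ := Num.exists_prime_orderOf_eq hq hn (fun h => hex1 ⟨h.2, h.1⟩) (by
    rintro ⟨h1, m, h2⟩
    obtain ⟨p, hp, k, hp', hk⟩ := FiniteField.card' F
    exact hex2 ⟨h1, hk ▸ prime_of_succ hp' k.pos (hk ▸ h2), m, h2⟩)
  haveI : Fact r.Prime := ⟨hr⟩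
  have h3 : r ∣ Fintype.card K - 1 := hK ▸ h1.trans (Num.Phi_dvd hq n)
  have h0 : (r : F) ≠ 0 := by
    intro h
    obtain ⟨c, hc⟩ := h3
    have h4 : ((Fintype.card K : ℕ) : F) = 0 := by
      rw [hK, Nat.cast_pow, FiniteField.cast_card_eq_zero, zero_pow (by omega)]
    have h5 : Fintype.card K = r * c + 1 := by have : 0 < Fintype.card K := Fintype.card_pos; omega
    rw [h5, Nat.cast_add, Nat.cast_mul, h, zero_mul, zero_add, Nat.cast_one] at h4
    exact one_ne_zero h4
  haveI : Finite (End F K) := Finite.of_injective _ (DFunLike.coe_injective (F := End F K))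
  obtain ⟨u, hu⟩ := exists_prime_orderOf_dvd_card' (G := U) r (hcard ▸ h3)
  set y : End F K := u.1.1 with hy
  have hy1 : y ^ r = 1 := by
    rw [hy, ← Units.val_pow_eq_pow_val, ← Subgroup.coe_pow, ← hu, pow_orderOf_eq_one]; rfl
  have hy2 : y ≠ 1 := by
    intro h
    have : u = 1 := Subtype.ext (Units.ext h)
    rw [this, orderOf_one] at hu
    exact hr.one_lt.ne hu
  obtain ⟨k, D, hD, hD1, hD2⟩ := split_of_pow h0 hy1
  rw [Nat.card_eq_fintype_card, h2, hdim] at hD2
  have hD3 : D.card = 1 := by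
    rcases Nat.lt_trichotomy D.card 1 with h | h | h
    · exfalso
      rw [Multiset.card_eq_zero.1 (Nat.lt_one_iff.1 h), add_zero] at hD
      exact hy2 ((eq_smul_one_of_forall (c := 1) fun a ha =>
        Multiset.eq_of_mem_replicate (hD ▸ ha)).trans (one_smul _ _))
    · exact h
    · nlinarith
  obtain ⟨g, rfl⟩ := Multiset.card_eq_one.1 hD3
  obtain rfl : k = 0 := by simp at hD2; omega
  rw [Multiset.replicate_zero, zero_add] at hD
  have hg := hD1 g (Multiset.mem_singleton_self g)
  have hgn : g.natDegree = n := by rw [hg.natDegree h0, Nat.card_eq_fintype_card, h2]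
  obtain ⟨θ, hθ⟩ : ∃ θ : K, aeval θ g = 0 := by
    have h4 : (g.map (algebraMap F K)).Splits := by
      refine Splits.of_dvd (g := X ^ Fintype.card K - X) (splits_iff_card_roots.2 (by
        rw [FiniteField.roots_X_pow_card_sub_X,
          FiniteField.X_pow_card_sub_X_natDegree_eq K Fintype.one_lt_card]; rfl)) ?_ ?_
      · exact FiniteField.X_pow_card_sub_X_ne_zero K Fintype.one_lt_card
      · obtain ⟨c, hc⟩ := h3
        have h5 : Fintype.card K = r * c + 1 := by
          have : 0 < Fintype.card K := Fintype.card_pos; omega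
        refine (Polynomial.map_dvd _ hg.dvd).trans ?_
        rw [h5, pow_succ, ← sub_one_mul, pow_mul]
        simpa using (sub_one_dvd_pow_sub_one ((X : K[X]) ^ r) c).mul_right X
    obtain ⟨θ, hθ⟩ := h4.exists_eval_eq_zero (by
      rw [degree_map, degree_eq_natDegree hg.2.1.ne_zero, hgn]; exact_mod_cast (by omega : n ≠ 0))
    exact ⟨θ, by rwa [eval_map_algebraMap] at hθ⟩
  have hm : minpoly F θ = g := (minpoly.eq_of_irreducible_of_monic hg.1 hθ hg.2.1).symm
  have htop : Algebra.adjoin F {θ} = ⊤ := by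
    have hi : IsIntegral F θ := Algebra.IsIntegral.isIntegral θ
    rw [← IntermediateField.adjoin_simple_toSubalgebra_of_isAlgebraic hi.isAlgebraic,
      (Field.primitive_element_iff_minpoly_natDegree_eq F θ).2 (by rw [hm, hgn, hdim])]
    rfl
  have hl : elemDiv (Algebra.lmul F K θ) = {g} := by
    have h4 : ∀ a ∈ elemDiv (Algebra.lmul F K θ), a = g := fun a ha => by
      have h5 := aeval_eq_zero_iff.1 (show aeval (Algebra.lmul F K θ) g = 0 by
        rw [aeval_algHom_apply, hθ, map_zero]) a ha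
      have h6 := (isPP_of_mem ha).irreducible_of_dvd hg.1.squarefree h5
      exact eq_of_monic_of_associated h6.2 hg.2.1 (h6.1.associated_of_dvd hg.1 h5)
    have h5 := dsum_elemDiv (Algebra.lmul F K θ)
    rw [dsum_const (e := n) (fun a ha => by rw [h4 a ha, hgn]), hdim] at h5
    have h6 : (elemDiv (Algebra.lmul F K θ)).card = 1 :=
      Nat.eq_of_mul_eq_mul_left (by omega : 0 < n) (by rw [h5, mul_one])
    rw [Multiset.eq_replicate_card.2 h4, h6]; rfl
  obtain ⟨e, he⟩ := exists_equiv_iff.2 (hD.trans hl.symm)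
  refine ⟨LinearMap.GeneralLinearGroup.ofLinearEquiv e, Subgroup.eq_of_le_of_card_ge ?_ ?_⟩
  · rw [← S5946.result n hn hdim]
    rintro _ ⟨a, ha, rfl⟩ _ ⟨c, rfl⟩
    set b := (MulAut.conj (LinearMap.GeneralLinearGroup.ofLinearEquiv e)).toMonoidHom a
    have h4 : Commute (Algebra.lmul F K θ) b.1 := by
      refine LinearMap.ext fun v => ?_
      obtain ⟨v, rfl⟩ := e.surjective v
      have h5 : ∀ w, b.1 (e w) = e (a.1 w) := fun w => by
        show e (a.1 (e.symm (e w))) = _
        rw [e.symm_apply_apply]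
      have h6 := congrArg (fun x : U => x.1.1 v) (hU.is_comm.comm u ⟨a, ha⟩)
      rw [End.mul_apply, End.mul_apply, ← he, h5, h5, ← he]
      exact congrArg e h6
    obtain ⟨P, hP⟩ : ∃ P : F[X], aeval θ P = c.1 := by
      have : c.1 ∈ Algebra.adjoin F {θ} := htop ▸ Algebra.mem_top
      rwa [Algebra.adjoin_singleton_eq_range_aeval] at this
    refine Units.ext ?_
    show Algebra.lmul F K c.1 * b.1 = b.1 * Algebra.lmul F K c.1
    rw [← hP, ← aeval_algHom_apply]
    exact (Algebra.commute_of_mem_adjoin_singleton_of_commute (aeval_mem_adjoin_singleton F _)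
      h4.symm).symm
  · rw [Subgroup.card_map_of_injective (MulAut.conj _).injective, hcard,
      ← Nat.card_congr (MonoidHom.ofInjective (f := Units.map ((Algebra.lmul F K : K →ₐ[F] End F K) :
        K →* End F K)) (Units.map_injective Algebra.lmul_injective)).toEquiv,
      Nat.card_units, Nat.card_eq_fintype_card]

end Cfsg.Agent.S5947
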